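import Cfsg.Agent.Lib.LocalEven.Amalgam
import Cfsg.Agent.Lib.LocalEven.Basic
import Cfsg.Prelude.Def_LocalStructure
import Cfsg.Agent.Lib.LocalEven2.GT1

/-! The subgroups `V_λ^{(n)}` of the rank two amalgam setting. -/

set_option autoImplicit false

namespace Cfsg.Agent.Lib.LocalEven.AmalgV

open Cfsg Cfsg.Agent.Lib.LocalEven
open scoped commutatorElement

variable {X : Type*} [Group X] {p : ℕ} [Fact p.Prime] {M₁ M₂ : Subgroup X}

theorem omegaOne_le_closure_of {H T : Subgroup X} [Finite H] (hT : T ≤ H) (hp : IsPGroup p T)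
    (hn : ¬ p ∣ T.relIndex H) :
    omegaOne p (T ⊓ Subgroup.centralizer (T : Set X)) ≤ sylowCenterClosure p H := by
  obtain ⟨P, hP⟩ := exists_sylow_of_relIndex hT hp hn
  have e : (P : Subgroup H).map H.subtype = T := by
    rw [hP]; exact Subgroup.map_subgroupOf_eq_of_le hT
  have := omegaOne_center_sylow_le_closure (p := p) H P
  rwa [e] at this

theorem sylowCenterClosure_map_le (H : Subgroup X) [Finite H] (g : X) :
    (sylowCenterClosure p H).map (MulAut.conj g).toMonoidHom ≤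
      sylowCenterClosure p (H.map (MulAut.conj g).toMonoidHom) := by
  rw [Subgroup.map_le_iff_le_comap]
  delta sylowCenterClosure
  refine iSup_le fun S => ?_
  rw [← Subgroup.map_le_iff_le_comap]
  have hfin : Finite (H.map (MulAut.conj g).toMonoidHom) := finite_conj H g
  have hTle : ((S : Subgroup H).map H.subtype).map (MulAut.conj g).toMonoidHom ≤ H.map (MulAut.conj g).toMonoidHom :=
    Subgroup.map_mono (sylow_map_le S)
  have hTp : IsPGroup p (((S : Subgroup H).map H.subtype).map (MulAut.conj g).toMonoidHom) :=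
    (sylow_map_isPGroup S).map _
  have hTn : ¬ p ∣ (((S : Subgroup H).map H.subtype).map (MulAut.conj g).toMonoidHom).relIndex (H.map (MulAut.conj g).toMonoidHom) := by
    rw [relIndex_conj]
    exact sylow_relIndex_not_dvd S
  have := omegaOne_le_closure_of hTle hTp hTn
  rw [omegaOne_map, conj_centralizer_map]
  exact this

theorem map_conj_inv_map (A : Subgroup X) (g : X) :
    (A.map (MulAut.conj g).toMonoidHom).map (MulAut.conj g⁻¹).toMonoidHom = A := by
  ext y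
  rw [mem_map_conj_iff, mem_map_conj_iff]
  simp [mul_assoc]

theorem map_conj_map_inv (A : Subgroup X) (g : X) :
    (A.map (MulAut.conj g⁻¹).toMonoidHom).map (MulAut.conj g).toMonoidHom = A := by
  ext y
  rw [mem_map_conj_iff, mem_map_conj_iff]
  simp [mul_assoc]

theorem stabilizer_smul (g : X) (μ : CosetVertex M₁ M₂) :
    MulAction.stabilizer X (g • μ) = (MulAction.stabilizer X μ).map (MulAut.conj g).toMonoidHom := by
  ext y
  rw [mem_map_conj_iff, MulAction.mem_stabilizer_iff, MulAction.mem_stabilizer_iff]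
  constructor
  · intro h
    have : (g⁻¹ * y * g) • μ = g⁻¹ • (y • (g • μ)) := by simp [mul_smul]
    rw [this, h]; simp
  · intro h
    have : y • g • μ = g • ((g⁻¹ * y * g) • μ) := by simp [mul_smul]
    rw [this, h]

theorem vertexZ_smul (hc : IsCharPAmalgamPair p M₁ M₂) (g : X) (μ : CosetVertex M₁ M₂) :
    vertexZ p (g • μ) = (vertexZ p μ).map (MulAut.conj g).toMonoidHom := by
  apply le_antisymm
  · have hf := CharPAmalgam.stabilizer_finite hc (g • μ)
    have := sylowCenterClosure_map_le (p := p) (MulAction.stabilizer X (g • μ)) g⁻¹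
    rw [stabilizer_smul g μ, map_conj_inv_map] at this
    have h2 := Subgroup.map_mono (f := (MulAut.conj g).toMonoidHom) this
    rw [← stabilizer_smul g μ, map_conj_map_inv] at h2
    exact h2
  · have hf := CharPAmalgam.stabilizer_finite hc μ
    have := sylowCenterClosure_map_le (p := p) (MulAction.stabilizer X μ) g
    rw [← stabilizer_smul g μ] at this
    exact this

theorem vertexVIter_le_iff (n : ℕ) (δ : CosetVertex M₁ M₂) (A : Subgroup X) :
    vertexVIter p M₁ M₂ n δ ≤ A ↔ ∀ μ, (cosetGraph M₁ M₂).dist δ μ ≤ n → vertexZ p μ ≤ A := by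
  delta vertexVIter
  rw [iSup_le_iff]
  exact ⟨fun h μ hμ => h ⟨μ, hμ⟩, fun h μ => h μ.1 μ.2⟩

theorem vertexZ_le_vertexVIter {n : ℕ} {δ μ : CosetVertex M₁ M₂}
    (h : (cosetGraph M₁ M₂).dist δ μ ≤ n) : vertexZ p μ ≤ vertexVIter p M₁ M₂ n δ :=
  (vertexVIter_le_iff n δ _).1 le_rfl μ h

theorem vertexVIter_smul_le (hc : IsCharPAmalgamPair p M₁ M₂) (n : ℕ) (g : X) (δ : CosetVertex M₁ M₂) :
    (vertexVIter p M₁ M₂ n δ).map (MulAut.conj g).toMonoidHom ≤ vertexVIter p M₁ M₂ n (g • δ) := by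
  rw [Subgroup.map_le_iff_le_comap, vertexVIter_le_iff]
  intro μ hμ
  rw [← Subgroup.map_le_iff_le_comap, ← vertexZ_smul hc]
  apply vertexZ_le_vertexVIter
  rw [dist_smul]
  exact hμ

theorem stabilizer_le_normalizer_vertexVIter (hc : IsCharPAmalgamPair p M₁ M₂) (n : ℕ) (δ : CosetVertex M₁ M₂) :
    MulAction.stabilizer X δ ≤ Subgroup.normalizer (vertexVIter p M₁ M₂ n δ : Set X) := by
  apply le_normalizer_of_conj_le
  intro g hg
  have := vertexVIter_smul_le hc n g δ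
  rwa [MulAction.mem_stabilizer_iff.1 hg] at this

/-- The ball inclusion. -/
theorem vertexVIter_le_of_adj (hc : IsCharPAmalgamPair p M₁ M₂) {δ μ : CosetVertex M₁ M₂}
    (hadj : (cosetGraph M₁ M₂).Adj δ μ) {m n : ℕ} (hmn : m + 1 ≤ n) :
    vertexVIter p M₁ M₂ m μ ≤ vertexVIter p M₁ M₂ n δ := by
  rw [vertexVIter_le_iff]
  intro ν hν
  apply vertexZ_le_vertexVIter
  have h1 := (CharPAmalgam.connected hc).dist_triangle (u := δ) (v := μ) (w := ν)
  have h2 : (cosetGraph M₁ M₂).dist δ μ = 1 := SimpleGraph.dist_eq_one_iff_adj.2 hadj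
  omega

/-- Sylow subgroups on an edge. -/
theorem exists_edge_sylow (hs : IsSpeAmalgamPair p M₁ M₂) {δ μ : CosetVertex M₁ M₂}
    (hadj : (cosetGraph M₁ M₂).Adj δ μ) :
    ∃ T : Subgroup X, T ≤ edgeStabilizer δ μ ∧ IsPGroup p T ∧
      ¬ p ∣ T.relIndex (MulAction.stabilizer X δ) ∧ ¬ p ∣ T.relIndex (MulAction.stabilizer X μ) ∧
      MulAction.stabilizer X δ ⊓ Subgroup.normalizer (T : Set X) ≤ edgeStabilizer δ μ := by
  obtain ⟨hc, hspe, _, _⟩ := hs
  have hfin := CharPAmalgam.finite_inf hc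
  obtain ⟨S⟩ : Nonempty (Sylow p ↥(M₁ ⊓ M₂)) := inferInstance
  have hfinδ := CharPAmalgam.stabilizer_finite hc δ
  have hfinμ := CharPAmalgam.stabilizer_finite hc μ
  obtain ⟨h₁, h₂⟩ := hspe S
  set S' := (S : Subgroup ↥(M₁ ⊓ M₂)).map (M₁ ⊓ M₂).subtype with hS'
  have hS'le : S' ≤ M₁ ⊓ M₂ := sylow_map_le S
  have hnormal : ∀ x : X, ∀ i ∈ ({M₁, M₂} : Set (Subgroup X)),
      i.map (MulAut.conj x).toMonoidHom ⊓ Subgroup.normalizer ((S'.map (MulAut.conj x).toMonoidHom : Subgroup X) : Set X) ≤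
      (M₁ ⊓ M₂).map (MulAut.conj x).toMonoidHom := by
    rintro x i hi y ⟨hy1, hy2⟩
    rw [mem_map_conj_iff]
    have hy1' : x⁻¹ * y * x ∈ i := mem_map_conj_iff.1 hy1
    have hy2' : x⁻¹ * y * x ∈ Subgroup.normalizer (S' : Set X) := by
      rw [Subgroup.mem_normalizer_iff]
      intro s
      have h3 := Subgroup.mem_normalizer_iff.1 hy2 (x * s * x⁻¹)
      have e1 : (x * s * x⁻¹ ∈ S'.map (MulAut.conj x).toMonoidHom) ↔ s ∈ S' := by
        rw [mem_map_conj_iff]; simp [mul_assoc]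
      have e2 : (y * (x * s * x⁻¹) * y⁻¹ ∈ S'.map (MulAut.conj x).toMonoidHom) ↔
          x⁻¹ * y * x * s * (x⁻¹ * y * x)⁻¹ ∈ S' := by
        rw [mem_map_conj_iff]
        have : x⁻¹ * (y * (x * s * x⁻¹) * y⁻¹) * x = x⁻¹ * y * x * s * (x⁻¹ * y * x)⁻¹ := by group
        rw [this]
      rw [← e1, h3, e2]
    simp only [Set.mem_insert_iff, Set.mem_singleton_iff] at hi
    rcases hi with rfl | rfl
    · exact h₂ ⟨hy1', hy2'⟩
    · have : x⁻¹ * y * x ∈ M₁ ⊓ Subgroup.normalizer (S' : Set X) := by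
        rw [h₁]; exact ⟨hy1', hy2'⟩
      exact h₂ this
  have hrel : ¬ p ∣ S'.relIndex (M₁ ⊓ M₂) := sylow_relIndex_not_dvd S
  have hp' : IsPGroup p S' := sylow_map_isPGroup S
  rcases cosetGraph_adj_elim hadj with ⟨x, rfl, rfl⟩ | ⟨x, rfl, rfl⟩
  · have he : edgeStabilizer (Sum.inl (x : X ⧸ M₁) : CosetVertex M₁ M₂) (Sum.inr (x : X ⧸ M₂)) =
      (M₁ ⊓ M₂).map (MulAut.conj x).toMonoidHom := edgeStabilizer_inl_inr x
    have hTE : S'.map (MulAut.conj x).toMonoidHom ≤ edgeStabilizer (Sum.inl (x : X ⧸ M₁) : CosetVertex M₁ M₂) (Sum.inr (x : X ⧸ M₂)) := by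
      rw [he]; exact Subgroup.map_mono hS'le
    have hrelE : ¬ p ∣ (S'.map (MulAut.conj x).toMonoidHom).relIndex (edgeStabilizer (Sum.inl (x : X ⧸ M₁) : CosetVertex M₁ M₂) (Sum.inr (x : X ⧸ M₂))) := by
      rw [he, relIndex_conj]; exact hrel
    refine ⟨S'.map (MulAut.conj x).toMonoidHom, hTE, hp'.map _, ?_, ?_, ?_⟩
    · rw [← Subgroup.relIndex_mul_relIndex _ _ _ hTE inf_le_left]
      intro hd
      rcases (Fact.out : p.Prime).dvd_mul.1 hd with h3 | h3
      · exact hrelE h3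
      · exact CharPAmalgam.not_dvd_edge hc hadj h3
    · rw [← Subgroup.relIndex_mul_relIndex _ _ _ hTE inf_le_right]
      intro hd
      rcases (Fact.out : p.Prime).dvd_mul.1 hd with h3 | h3
      · exact hrelE h3
      · have := CharPAmalgam.not_dvd_edge hc hadj.symm
        rw [CharPAmalgam.edge_comm] at this
        exact this h3
    · rw [he, stabilizer_inl]
      exact hnormal x M₁ (by simp)
  · have he : edgeStabilizer (Sum.inr (x : X ⧸ M₂) : CosetVertex M₁ M₂) (Sum.inl (x : X ⧸ M₁)) =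
      (M₁ ⊓ M₂).map (MulAut.conj x).toMonoidHom := by
      rw [CharPAmalgam.edge_comm]; exact edgeStabilizer_inl_inr x
    have hTE : S'.map (MulAut.conj x).toMonoidHom ≤ edgeStabilizer (Sum.inr (x : X ⧸ M₂) : CosetVertex M₁ M₂) (Sum.inl (x : X ⧸ M₁)) := by
      rw [he]; exact Subgroup.map_mono hS'le
    have hrelE : ¬ p ∣ (S'.map (MulAut.conj x).toMonoidHom).relIndex (edgeStabilizer (Sum.inr (x : X ⧸ M₂) : CosetVertex M₁ M₂) (Sum.inl (x : X ⧸ M₁))) := by
      rw [he, relIndex_conj]; exact hrel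
    refine ⟨S'.map (MulAut.conj x).toMonoidHom, hTE, hp'.map _, ?_, ?_, ?_⟩
    · rw [← Subgroup.relIndex_mul_relIndex _ _ _ hTE inf_le_left]
      intro hd
      rcases (Fact.out : p.Prime).dvd_mul.1 hd with h3 | h3
      · exact hrelE h3
      · exact CharPAmalgam.not_dvd_edge hc hadj h3
    · rw [← Subgroup.relIndex_mul_relIndex _ _ _ hTE inf_le_right]
      intro hd
      rcases (Fact.out : p.Prime).dvd_mul.1 hd with h3 | h3
      · exact hrelE h3
      · have := CharPAmalgam.not_dvd_edge hc hadj.symm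
        rw [CharPAmalgam.edge_comm] at this
        exact this h3
    · rw [he, stabilizer_inr]
      exact hnormal x M₂ (by simp)

/-- The residual of `L_λ` as a subgroup of the ambient group. -/
abbrev RR (p : ℕ) (H : Subgroup X) : Subgroup X :=
  (pResidual p ↥(pElementClosure p H)).map (pElementClosure p H).subtype

/-- `G_λ = O^p(L_λ) G_{λδ}`. -/
theorem exists_res_mul (hs : IsSpeAmalgamPair p M₁ M₂) {δ μ : CosetVertex M₁ M₂}
    (hadj : (cosetGraph M₁ M₂).Adj δ μ) (g : X) (hg : g ∈ MulAction.stabilizer X δ) :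
    ∃ r ∈ RR p (MulAction.stabilizer X δ), ∃ e ∈ edgeStabilizer δ μ, g = r * e := by
  obtain ⟨T, hTE, hTp, hT1, _, hTN⟩ := exists_edge_sylow hs hadj
  have hf := CharPAmalgam.stabilizer_finite hs.1 δ
  have hTG : T ≤ MulAction.stabilizer X δ := hTE.trans inf_le_left
  obtain ⟨r₀, hr₀, n, hn, rfl⟩ := frattini_pElementClosure hTG hTp hT1 g hg
  have hLG := pElementClosure_le (p := p) (MulAction.stabilizer X δ)
  have hfL : Finite (pElementClosure p (MulAction.stabilizer X δ)) :=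
    Finite.of_injective (Subgroup.inclusion hLG) (Subgroup.inclusion_injective _)
  have hTL : T ≤ pElementClosure p (MulAction.stabilizer X δ) := isPGroup_le_pElementClosure hTG hTp
  have hT1L : ¬ p ∣ T.relIndex (pElementClosure p (MulAction.stabilizer X δ)) := by
    intro hd
    apply hT1
    rw [← Subgroup.relIndex_mul_relIndex T _ _ hTL hLG]
    exact hd.mul_right _
  obtain ⟨P, hP⟩ := exists_sylow_of_relIndex hTL hTp hT1L
  have hsup := pResidual_sup_sylow P
  have hmem : (⟨r₀, hr₀⟩ : ↥(pElementClosure p (MulAction.stabilizer X δ))) ∈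
      pResidual p ↥(pElementClosure p (MulAction.stabilizer X δ)) ⊔ (P : Subgroup _) := by
    rw [hsup]; trivial
  have hchar := Cfsg.Agent.Lib.LocalEven.pResidual_characteristic (G := ↥(pElementClosure p (MulAction.stabilizer X δ))) p
  have hnormal : (pResidual p ↥(pElementClosure p (MulAction.stabilizer X δ))).Normal :=
    Subgroup.normal_of_characteristic _
  obtain ⟨r, hr, t, ht, hrt⟩ := Subgroup.mem_sup_of_normal_left.1 hmem
  refine ⟨r, ⟨r, hr, rfl⟩, t * n, ?_, ?_⟩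
  · have htT : (t : X) ∈ T := by
      rw [hP] at ht
      exact ht
    apply Subgroup.mul_mem _ (hTE htT) (hTN hn)
  · have : (r₀ : X) = r * t := by
      have := congrArg Subtype.val hrt
      simpa using this.symm
    rw [this, mul_assoc]

theorem vertexVIter_le_of_conj (hs : IsSpeAmalgamPair p M₁ M₂) {δ μ : CosetVertex M₁ M₂}
    (hadj : (cosetGraph M₁ M₂).Adj δ μ) {n : ℕ} (hn : 1 ≤ n) (K : Subgroup X)
    (hK : ∀ g ∈ MulAction.stabilizer X δ,
      (vertexVIter p M₁ M₂ (n - 1) μ).map (MulAut.conj g).toMonoidHom ≤ K) :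
    vertexVIter p M₁ M₂ n δ ≤ K := by
  have hc := hs.1
  have hconn := CharPAmalgam.connected hc
  rw [vertexVIter_le_iff]
  intro ν hν
  by_cases hνδ : ν = δ
  · subst hνδ
    obtain ⟨T, hTE, hTp, hT1, hT2, _⟩ := exists_edge_sylow hs hadj
    have hfδ := CharPAmalgam.stabilizer_finite hc ν
    have hfμ := CharPAmalgam.stabilizer_finite hc μ
    delta vertexZ sylowCenterClosure
    refine iSup_le fun S => ?_
    obtain ⟨r, hr, hrS⟩ := exists_conj_of_relIndex (hTE.trans inf_le_left) (sylow_map_le S) hTp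
      (sylow_map_isPGroup S) hT1 (sylow_relIndex_not_dvd S)
    rw [hrS, ← conj_centralizer_map, ← omegaOne_map]
    refine le_trans (Subgroup.map_mono ?_) (hK r hr)
    refine (omegaOne_le_closure_of (hTE.trans inf_le_right) hTp hT2).trans ?_
    apply vertexZ_le_vertexVIter
    simp
  · have hpos := hconn.pos_dist_of_ne (u := δ) (v := ν) (Ne.symm hνδ)
    obtain ⟨m, hm⟩ : ∃ m, (cosetGraph M₁ M₂).dist δ ν = m + 1 := ⟨_, (Nat.succ_pred_eq_of_pos hpos).symm⟩
    obtain ⟨δ', hδ', hd⟩ := CharPAmalgam.exists_adj_dist_eq hconn hm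
    obtain ⟨g, hg, hgδ⟩ := stabilizer_transitive_neighbours hadj hδ'
    have e : ν = g • (g⁻¹ • ν) := by simp
    rw [e, vertexZ_smul hc]
    refine le_trans (Subgroup.map_mono ?_) (hK g hg)
    apply vertexZ_le_vertexVIter
    have : (cosetGraph M₁ M₂).dist μ (g⁻¹ • ν) = (cosetGraph M₁ M₂).dist (g • μ) ν := by
      rw [← dist_smul g μ (g⁻¹ • ν)]
      simp
    rw [this, hgδ, hd]
    omega

theorem card_stabilizer_dvd (hc : IsCharPAmalgamPair p M₁ M₂) (δ : CosetVertex M₁ M₂) :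
    p ∣ Nat.card (MulAction.stabilizer X δ) := by
  obtain ⟨_, _, _, h1, h2, _⟩ := hc
  obtain ⟨x, rfl | rfl⟩ := exists_rep δ
  · rw [stabilizer_inl, Subgroup.card_map_of_injective (MulAut.conj x).injective]
    exact h1
  · rw [stabilizer_inr, Subgroup.card_map_of_injective (MulAut.conj x).injective]
    exact h2

theorem vertexZ_ne_bot (hs : IsSpeAmalgamPair p M₁ M₂) {δ μ : CosetVertex M₁ M₂}
    (hadj : (cosetGraph M₁ M₂).Adj δ μ) : vertexZ p δ ≠ ⊥ := by
  obtain ⟨T, hTE, hTp, hT1, _, _⟩ := exists_edge_sylow hs hadj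
  have hfδ := CharPAmalgam.stabilizer_finite hs.1 δ
  have hT : T ≠ ⊥ := by
    rintro rfl
    apply hT1
    rw [Subgroup.relIndex_bot_left]
    exact card_stabilizer_dvd hs.1 δ
  have hfT : Finite T := Finite.of_injective (Subgroup.inclusion (hTE.trans inf_le_left)) (Subgroup.inclusion_injective _)
  have hnt : Nontrivial T := (Subgroup.nontrivial_iff_ne_bot T).2 hT
  obtain ⟨z', _, hz1', hzp', hzc'⟩ := Cfsg.Agent.Lib.LocalEven2.exists_central_order_p (G := T) (P := ⊤) (D := ⊤)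
    (IsPGroup.to_subgroup hTp ⊤) le_rfl (Subgroup.le_normalizer) top_ne_bot
  obtain ⟨z, hz⟩ := z'
  have hz1 : z ≠ 1 := fun h => hz1' (Subtype.ext h)
  have hzp : z ^ p = 1 := congrArg Subtype.val hzp'
  have hzc : ∀ t ∈ T, t * z = z * t := fun t ht => congrArg Subtype.val (hzc' ⟨t, ht⟩ trivial)
  intro hbot
  have h1 := omegaOne_le_closure_of (hTE.trans inf_le_left) hTp hT1
  have h2 : z ∈ omegaOne p (T ⊓ Subgroup.centralizer (T : Set X)) :=
    mem_omegaOne_of ⟨hz, Subgroup.mem_centralizer_iff.2 hzc⟩ hzp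
  have h3 := h1 h2
  have h4 : z ∈ (⊥ : Subgroup X) := hbot ▸ h3
  exact hz1 (Subgroup.mem_bot.1 h4)

/-- The closing step: `V_λ^{(n)} = V_δ^{(n-1)}` is impossible. -/
theorem false_of_eq (hs : IsSpeAmalgamPair p M₁ M₂) {δ μ : CosetVertex M₁ M₂}
    (hadj : (cosetGraph M₁ M₂).Adj δ μ) {n : ℕ}
    (hVQ : vertexVIter p M₁ M₂ n δ ≤ vertexQ p δ)
    (heq : vertexVIter p M₁ M₂ n δ = vertexVIter p M₁ M₂ (n - 1) μ) : False := by
  have hc := hs.1
  have hbot : vertexVIter p M₁ M₂ n δ = ⊥ := by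
    apply CharPAmalgam.trivial_of_normalized hc.1 hadj
    · exact stabilizer_le_normalizer_vertexVIter hc n δ
    · rw [heq]
      exact stabilizer_le_normalizer_vertexVIter hc _ μ
    · exact hVQ.trans (CharPAmalgam.vertexQ_le_edge hc hadj)
  have h1 : vertexZ p μ ≤ vertexVIter p M₁ M₂ (n - 1) μ := vertexZ_le_vertexVIter (by simp)
  rw [← heq, hbot, le_bot_iff] at h1
  exact vertexZ_ne_bot hs hadj.symm h1

/-- Conjugates modulo the commutator with the residual. -/
theorem conj_le_sup (hs : IsSpeAmalgamPair p M₁ M₂) {δ μ : CosetVertex M₁ M₂}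
    (hadj : (cosetGraph M₁ M₂).Adj δ μ) {m n : ℕ} (hmn : m + 1 ≤ n) (g : X) (hg : g ∈ MulAction.stabilizer X δ) :
    (vertexVIter p M₁ M₂ m μ).map (MulAut.conj g).toMonoidHom ≤
      ⁅vertexVIter p M₁ M₂ n δ, RR p (MulAction.stabilizer X δ)⁆ ⊔ vertexVIter p M₁ M₂ m μ := by
  have hc := hs.1
  obtain ⟨r, hr, e, he, rfl⟩ := exists_res_mul hs hadj g hg
  rintro _ ⟨w, hw, rfl⟩
  have hem : e ∈ MulAction.stabilizer X μ := he.2
  have hw' : e * w * e⁻¹ ∈ vertexVIter p M₁ M₂ m μ :=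
    (Subgroup.mem_normalizer_iff.1 (stabilizer_le_normalizer_vertexVIter hc m μ hem) w).1 hw
  have hV : e * w * e⁻¹ ∈ vertexVIter p M₁ M₂ n δ := vertexVIter_le_of_adj hc hadj hmn hw'
  have h1 : ⁅e * w * e⁻¹, r⁆ ∈ ⁅vertexVIter p M₁ M₂ n δ, RR p (MulAction.stabilizer X δ)⁆ :=
    Subgroup.commutator_mem_commutator hV hr
  have e1 : (MulAut.conj (r * e)).toMonoidHom w = (⁅e * w * e⁻¹, r⁆)⁻¹ * (e * w * e⁻¹) := by
    simp only [MulEquiv.coe_toMonoidHom, MulAut.conj_apply, commutatorElement_def]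
    group
  rw [e1]
  exact Subgroup.mul_mem _ (Subgroup.mem_sup_left (Subgroup.inv_mem _ h1)) (Subgroup.mem_sup_right hw')

/-- A subgroup of a nilpotent group with `N ≤ [N, G]` is trivial. -/
theorem eq_bot_of_le_comm {G : Type*} [Group G] [Group.IsNilpotent G] (N : Subgroup G)
    (h : N ≤ ⁅N, (⊤ : Subgroup G)⁆) : N = ⊥ := by
  have key : ∀ k, N ≤ (⊤ : Subgroup G).lowerCentralSeries k := by
    intro k
    induction k with
    | zero => exact le_top
    | succ k ih => exact h.trans (Subgroup.commutator_mono ih le_rfl)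
  obtain ⟨n, hn⟩ := Subgroup.nilpotent_iff_lowerCentralSeries.1 (inferInstance : Group.IsNilpotent G)
  have := key n
  rwa [hn, le_bot_iff] at this

/-- In a `p`-group: if `V ≤ [V, Q] W` with `W` normal, then `V ≤ W`. -/
theorem le_of_le_comm_sup {Q V W : Subgroup X} [Finite Q] (hQ : IsPGroup p Q) (hVQ : V ≤ Q)
    (hW : W ≤ Q) (hQW : Q ≤ Subgroup.normalizer (W : Set X))
    (h : V ≤ ⁅V, Q⁆ ⊔ W) : V ≤ W := by
  have hWn : (W.subgroupOf Q).Normal := Subgroup.normal_subgroupOf_iff_le_normalizer hW |>.2 hQW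
  have hnil : Group.IsNilpotent (↥Q ⧸ W.subgroupOf Q) := (hQ.to_quotient _).isNilpotent
  have hmapV : (V.subgroupOf Q).map Q.subtype = V := Subgroup.map_subgroupOf_eq_of_le hVQ
  have hmapW : (W.subgroupOf Q).map Q.subtype = W := Subgroup.map_subgroupOf_eq_of_le hW
  have hmapT : (⊤ : Subgroup Q).map Q.subtype = Q := by
    rw [← MonoidHom.range_eq_map, Subgroup.range_subtype]
  have hsurj : Function.Surjective (QuotientGroup.mk' (W.subgroupOf Q)) := QuotientGroup.mk'_surjective _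
  have hbot := eq_bot_of_le_comm ((V.subgroupOf Q).map (QuotientGroup.mk' (W.subgroupOf Q))) (by
    rintro _ ⟨y, hy, rfl⟩
    have h1 : (y : X) ∈ ⁅V, Q⁆ ⊔ W := h hy
    have e : ⁅V, Q⁆ ⊔ W = (⁅V.subgroupOf Q, (⊤ : Subgroup Q)⁆ ⊔ W.subgroupOf Q).map Q.subtype := by
      rw [Subgroup.map_sup, Subgroup.map_commutator, hmapV, hmapT, hmapW]
    rw [e] at h1
    obtain ⟨z, hz, hzy⟩ := h1
    have hzy' : z = y := Subtype.ext hzy
    subst hzy'
    have h2 := Subgroup.mem_map_of_mem (QuotientGroup.mk' (W.subgroupOf Q)) hz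
    rw [Subgroup.map_sup, Subgroup.map_commutator, QuotientGroup.map_mk'_self, sup_bot_eq,
      Subgroup.map_top_of_surjective _ hsurj] at h2
    exact h2)
  intro y hy
  have h3 : QuotientGroup.mk' (W.subgroupOf Q) (⟨y, hVQ hy⟩ : Q) = 1 := by
    have : QuotientGroup.mk' (W.subgroupOf Q) (⟨y, hVQ hy⟩ : Q) ∈ (V.subgroupOf Q).map (QuotientGroup.mk' (W.subgroupOf Q)) :=
      Subgroup.mem_map_of_mem _ (by exact hy)
    rw [hbot] at this
    exact Subgroup.mem_bot.1 this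
  rw [QuotientGroup.mk'_apply, QuotientGroup.eq_one_iff] at h3
  exact h3

theorem main56 (hs : IsSpeAmalgamPair p M₁ M₂) (δ : CosetVertex M₁ M₂) {n : ℕ} (hn : 1 ≤ n)
    (hVQ : vertexVIter p M₁ M₂ n δ ≤ vertexQ p δ) :
    ¬ ⁅vertexVIter p M₁ M₂ n δ, RR p (MulAction.stabilizer X δ)⁆ ≤ ⁅vertexVIter p M₁ M₂ n δ, vertexQ p δ⁆ := by
  intro hle
  have hc := hs.1
  obtain ⟨μ, hadj⟩ := exists_neighbour δ
  have hmn : (n - 1) + 1 ≤ n := by omega
  have hWV := vertexVIter_le_of_adj hc hadj hmn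
  have hle2 : vertexVIter p M₁ M₂ n δ ≤ ⁅vertexVIter p M₁ M₂ n δ, vertexQ p δ⁆ ⊔ vertexVIter p M₁ M₂ (n - 1) μ :=
    vertexVIter_le_of_conj hs hadj hn _ fun g hg =>
      (conj_le_sup hs hadj hmn g hg).trans (sup_le_sup_right hle _)
  have hfδ := CharPAmalgam.stabilizer_finite hc δ
  have hfQ : Finite (vertexQ p δ : Subgroup X) :=
    Finite.of_injective (Subgroup.inclusion (pCoreOf_le _)) (Subgroup.inclusion_injective _)
  have hQN : vertexQ p δ ≤ Subgroup.normalizer (vertexVIter p M₁ M₂ (n - 1) μ : Set X) :=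
    (CharPAmalgam.vertexQ_le_edge hc hadj).trans (inf_le_right.trans (stabilizer_le_normalizer_vertexVIter hc _ μ))
  have hVW := le_of_le_comm_sup (pCoreOf_isPGroup _) hVQ (hWV.trans hVQ) hQN hle2
  exact false_of_eq hs hadj hVQ (le_antisymm hVW hWV)

theorem main57 (hs : IsSpeAmalgamPair p M₁ M₂) (δ : CosetVertex M₁ M₂) {n : ℕ} (hn : 2 ≤ n)
    (hVQ : vertexVIter p M₁ M₂ n δ ≤ vertexQ p δ) :
    ¬ ⁅vertexVIter p M₁ M₂ n δ, RR p (MulAction.stabilizer X δ)⁆ ≤ vertexVIter p M₁ M₂ (n - 2) δ := by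
  intro hle
  have hc := hs.1
  obtain ⟨μ, hadj⟩ := exists_neighbour δ
  have hmn : (n - 1) + 1 ≤ n := by omega
  have hWV := vertexVIter_le_of_adj hc hadj hmn
  have h2 : vertexVIter p M₁ M₂ (n - 2) δ ≤ vertexVIter p M₁ M₂ (n - 1) μ :=
    vertexVIter_le_of_adj hc hadj.symm (by omega)
  have hVW : vertexVIter p M₁ M₂ n δ ≤ vertexVIter p M₁ M₂ (n - 1) μ :=
    vertexVIter_le_of_conj hs hadj (by omega) _ fun g hg =>
      (conj_le_sup hs hadj hmn g hg).trans (sup_le (hle.trans h2) le_rfl)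
  exact false_of_eq hs hadj hVQ (le_antisymm hVW hWV)

end Cfsg.Agent.Lib.LocalEven.AmalgV
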