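import Cfsg.Agent.Lib.Transfer.Frattini
import Cfsg.Agent.Lib.Transfer.Rank
import Cfsg.Agent.Lib.OddLocal.Rank2D
import Cfsg.Agent.Lib.Basic.QuatSylow
import Cfsg.Agent.Lib.LocalEven.DerLen

/-!
Chief factors of order a power of `p` of a group of `p`-rank at most two (`p` odd).

Part 1: `p`-central `p`-groups.
-/

set_option autoImplicit false

universe u

namespace Cfsg.Agent.Lib.LocalEven.ChiefRank

open Subgroup
open scoped commutatorElement

section Class2

variable {R : Type*} [Group R]

theorem pow_mul_comm_aux {a b d : R} (hd : b * a = d * a * b) (hda : Commute d a) (hdb : Commute d b)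
    (n : ℕ) : b ^ n * a = d ^ n * a * b ^ n := by
  induction n with
  | zero => simp
  | succ n ih =>
    calc b ^ (n + 1) * a = b ^ n * (b * a) := by rw [pow_succ, mul_assoc]
      _ = b ^ n * (d * a * b) := by rw [hd]
      _ = d * (b ^ n * a) * b := by
          have : b ^ n * d = d * b ^ n := ((hdb.pow_right n).eq).symm
          calc b ^ n * (d * a * b) = (b ^ n * d) * a * b := by group
            _ = (d * b ^ n) * a * b := by rw [this]
            _ = _ := by group
      _ = d * (d ^ n * a * b ^ n) * b := by rw [ih]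
      _ = d ^ (n + 1) * a * b ^ (n + 1) := by
          rw [pow_succ' d n, pow_succ b n]; group

/-- The power formula in class two. -/
theorem mul_pow_class2 {a b d : R} (hd : b * a = d * a * b) (hda : Commute d a) (hdb : Commute d b)
    (n : ℕ) : (a * b) ^ n = a ^ n * b ^ n * d ^ (n.choose 2) := by
  induction n with
  | zero => simp
  | succ n ih =>
    have h1 := pow_mul_comm_aux hd hda hdb n
    have hC : Commute (d ^ (n.choose 2)) (a * b) :=
      (hda.mul_right hdb).pow_left _
    have hdn : Commute (d ^ n) a := hda.pow_left n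
    have hdn2 : Commute (d ^ n) (a ^ n) := (hda.pow_pow n n)
    have hchoose : (n + 1).choose 2 = n + n.choose 2 := by
      rw [Nat.choose_succ_succ' n 1, Nat.choose_one_right]
    calc (a * b) ^ (n + 1) = (a * b) ^ n * (a * b) := pow_succ _ _
      _ = a ^ n * b ^ n * d ^ (n.choose 2) * (a * b) := by rw [ih]
      _ = a ^ n * b ^ n * ((a * b) * d ^ (n.choose 2)) := by
          rw [mul_assoc, hC.eq]
      _ = a ^ n * (b ^ n * a) * b * d ^ (n.choose 2) := by group
      _ = a ^ n * (d ^ n * a * b ^ n) * b * d ^ (n.choose 2) := by rw [h1]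
      _ = (a ^ n * d ^ n) * a * b ^ n * b * d ^ (n.choose 2) := by group
      _ = (d ^ n * a ^ n) * a * b ^ n * b * d ^ (n.choose 2) := by rw [hdn2.eq.symm]
      _ = d ^ n * (a ^ (n + 1) * b ^ (n + 1)) * d ^ (n.choose 2) := by
          rw [pow_succ a n, pow_succ b n]; group
      _ = (a ^ (n + 1) * b ^ (n + 1)) * d ^ n * d ^ (n.choose 2) := by
          have : Commute (d ^ n) (a ^ (n + 1) * b ^ (n + 1)) :=
            (hda.pow_pow n (n + 1)).mul_right (hdb.pow_pow n (n + 1))
          rw [this.eq]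
      _ = _ := by rw [hchoose, pow_add d n, mul_assoc (a ^ (n + 1) * b ^ (n + 1))]

theorem mul_pow_prime_class2 {p : ℕ} (hp : p.Prime) (hp2 : p ≠ 2) {a b d : R} (hd : b * a = d * a * b)
    (hda : Commute d a) (hdb : Commute d b) (hdp : d ^ p = 1) : (a * b) ^ p = a ^ p * b ^ p := by
  rw [mul_pow_class2 hd hda hdb]
  have h2 : 2 < p := lt_of_le_of_ne hp.two_le (Ne.symm hp2)
  have h3 : p ∣ p.choose 2 := hp.dvd_choose_self (by omega) h2
  obtain ⟨k, hk⟩ := h3
  rw [hk, pow_mul, hdp, one_pow, mul_one]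

end Class2

/-- All elements of order `p` are central. -/
def PC (p : ℕ) (R : Type*) [Group R] : Prop := ∀ x : R, x ^ p = 1 → ∀ y : R, x * y = y * x

variable {p : ℕ} [hpf : Fact p.Prime]

theorem pc_comm_aux (hp2 : p ≠ 2) : ∀ (n : ℕ) (R : Type u) [Group R] [Finite R], Nat.card R = n →
    IsPGroup p R → PC p R → ∀ x y : R, x ^ (p ^ 2) = 1 → ⁅y, x⁆ ^ p = 1 := by
  intro n
  induction n using Nat.strong_induction_on with
  | _ n ih =>
  intro R _ _ hn hR hpc x y hx
  have hp : p.Prime := hpf.out
  haveI : Group.IsNilpotent R := hR.isNilpotent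
  by_cases hN : normalClosure ({x} : Set R) = ⊤
  · -- the group is cyclic generated by `x`
    have hz : zpowers x = ⊤ := by
      obtain h5 | ⟨M, hM, hle⟩ := eq_top_or_exists_le_coatom (zpowers x)
      · exact h5
      · exfalso
        have hMn : M.Normal := NormalizerCondition.normal_of_coatom M
          (Group.normalizerCondition_of_isNilpotent) hM
        have hxM : x ∈ M := hle (mem_zpowers x)
        have h6 : normalClosure ({x} : Set R) ≤ M :=
          normalClosure_le_normal (by simpa using hxM)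
        rw [hN] at h6
        exact hM.1 (top_le_iff.1 h6)
    have hy : y ∈ zpowers x := by rw [hz]; trivial
    obtain ⟨k, rfl⟩ := mem_zpowers_iff.1 hy
    have : Commute (x ^ k) x := (Commute.refl x).zpow_left k
    rw [this.commutator_eq, one_pow]
  · -- induction inside the normal closure
    set N := normalClosure ({x} : Set R) with hNdef
    have hxN : x ∈ N := subset_normalClosure (by simp)
    have hNn : N.Normal := normalClosure_normal
    have hcard : Nat.card N < n := by
      rw [← hn]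
      exact lt_of_le_of_ne (Subgroup.card_le_card_group N) (by
        intro h
        apply hN
        exact (Subgroup.card_eq_iff_eq_top N).1 h)
    have hNp : IsPGroup p N := hR.to_subgroup N
    have hpcN : PC p N := by
      intro a ha b
      apply Subtype.ext
      have h1 : (a : R) ^ p = 1 := by
        have := congrArg Subtype.val ha
        simpa using this
      exact hpc _ h1 _
    set a := y * x * y⁻¹ with ha
    have haN : a ∈ N := hNn.conj_mem x hxN y
    have h1 := ih _ hcard N rfl hNp hpcN ⟨x, hxN⟩ ⟨a, haN⟩ (by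
      apply Subtype.ext
      simpa using hx)
    have h2 : ⁅a, x⁆ ^ p = 1 := by
      have := congrArg Subtype.val h1
      have e : ((⁅(⟨a, haN⟩ : N), (⟨x, hxN⟩ : N)⁆ : N) : R) = ⁅a, x⁆ := rfl
      simpa [e] using this
    set d := ⁅a, x⁆ with hd
    have hdc : ∀ g : R, d * g = g * d := hpc d h2
    -- `x⁻¹` and `a`
    have hrel : x⁻¹ * a = d * a * x⁻¹ := by
      have h3 : d * x = x * d := hdc x
      have h4 : a * x * a⁻¹ * x⁻¹ = d := rfl
      have h5 : a * x = d * x * a := by
        rw [← h4]; group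
      calc x⁻¹ * a = x⁻¹ * (a * x) * x⁻¹ := by group
        _ = x⁻¹ * (d * x * a) * x⁻¹ := by rw [h5]
        _ = x⁻¹ * (x * d * a) * x⁻¹ := by rw [h3]
        _ = d * a * x⁻¹ := by group
    have hpow := mul_pow_prime_class2 hp hp2 (a := a) (b := x⁻¹) (d := d) hrel (hdc a) (hdc _) h2
    have hxp : (x ^ p) ^ p = 1 := by
      rw [← pow_mul, ← pow_two]; exact hx
    have hxc : ∀ g : R, x ^ p * g = g * x ^ p := hpc _ hxp
    have hap : a ^ p = x ^ p := by
      have : y * x ^ p = x ^ p * y := (hxc y).symm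
      rw [ha, conj_pow, this]
      group
    have : ⁅y, x⁆ = a * x⁻¹ := rfl
    rw [this, hpow, hap, inv_pow, mul_inv_cancel]

theorem pc_comm (hp2 : p ≠ 2) {R : Type u} [Group R] [Finite R] (hR : IsPGroup p R) (hpc : PC p R)
    (x y : R) (hx : x ^ (p ^ 2) = 1) : ⁅y, x⁆ ^ p = 1 :=
  pc_comm_aux hp2 _ R rfl hR hpc x y hx

/-- `Ω₁` of a `p`-central group. -/
def Om {R : Type*} [Group R] (hpc : PC p R) : Subgroup R where
  carrier := {x | x ^ p = 1}
  mul_mem' := by
    intro a b ha hb
    have hc : Commute a b := hpc a ha b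
    simp only [Set.mem_setOf_eq] at *
    rw [hc.mul_pow, ha, hb, one_mul]
  one_mem' := by simp
  inv_mem' := by
    intro a ha
    simp only [Set.mem_setOf_eq] at *
    rw [inv_pow, ha, inv_one]

theorem mem_Om {R : Type*} [Group R] (hpc : PC p R) (x : R) : x ∈ Om hpc ↔ x ^ p = 1 := Iff.rfl

instance Om_normal {R : Type*} [Group R] (hpc : PC p R) : (Om hpc).Normal := by
  refine ⟨fun x hx g => ?_⟩
  have h : x * g⁻¹ = g⁻¹ * x := hpc x hx g⁻¹
  have : g * x * g⁻¹ = x := by
    calc g * x * g⁻¹ = g * (x * g⁻¹) := by group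
      _ = g * (g⁻¹ * x) := by rw [h]
      _ = x := by group
  rw [this]
  exact hx

theorem pc_root_aux (hp2 : p ≠ 2) : ∀ (n : ℕ) (R : Type u) [Group R] [Finite R], Nat.card R = n →
    IsPGroup p R → PC p R → ∀ x y : R, x ^ p = y ^ p → (x⁻¹ * y) ^ p = 1 := by
  intro n
  induction n using Nat.strong_induction_on with
  | _ n ih =>
  intro R _ _ hn hR hpc x y hxy
  have hp : p.Prime := hpf.out
  by_cases hnt : Nontrivial R
  · set W := Om hpc with hW
    -- `W` is nontrivial
    have hWne : W ≠ ⊥ := by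
      obtain ⟨z, hz⟩ : ∃ z : R, orderOf z = p := by
        obtain ⟨k, hk⟩ := IsPGroup.iff_card.1 hR
        have : 1 < Nat.card R := Finite.one_lt_card
        have hk0 : k ≠ 0 := by
          rintro rfl
          simp [hk] at this
        exact exists_prime_orderOf_dvd_card' p (by rw [hk]; exact dvd_pow_self p hk0)
      intro h
      have h1 : z ∈ W := (mem_Om hpc z).2 (by rw [← hz]; exact pow_orderOf_eq_one z)
      rw [h, mem_bot] at h1
      rw [h1, orderOf_one] at hz
      exact hp.one_lt.ne hz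
    have hcard : Nat.card (R ⧸ W) < n := by
      rw [← hn, Subgroup.card_eq_card_quotient_mul_card_subgroup W]
      have h1 : 1 < Nat.card W := by
        have : Nontrivial W := (Subgroup.nontrivial_iff_ne_bot W).2 hWne
        exact Finite.one_lt_card
      have h2 : 0 < Nat.card (R ⧸ W) := Nat.card_pos
      nlinarith
    have hRq : IsPGroup p (R ⧸ W) := hR.to_quotient W
    have hmem : ∀ u : R, ((u : R ⧸ W)) ^ p = 1 → u ^ (p ^ 2) = 1 := by
      intro u hu
      rw [← QuotientGroup.mk_pow, QuotientGroup.eq_one_iff] at hu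
      have : (u ^ p) ^ p = 1 := hu
      rw [← pow_mul, ← pow_two] at this
      exact this
    have hpcq : PC p (R ⧸ W) := by
      intro a ha b
      obtain ⟨u, rfl⟩ := QuotientGroup.mk_surjective a
      obtain ⟨v, rfl⟩ := QuotientGroup.mk_surjective b
      have h1 := pc_comm hp2 hR hpc u v (hmem u ha)
      -- `⁅v, u⁆ ∈ W`
      have h2 : ⁅v, u⁆ ∈ W := h1
      have h3 : ((⁅v, u⁆ : R) : R ⧸ W) = 1 := (QuotientGroup.eq_one_iff _).2 h2
      have h4 : ⁅(v : R ⧸ W), (u : R ⧸ W)⁆ = 1 := by
        rw [← h3]; rfl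
      rw [commutatorElement_eq_one_iff_mul_comm] at h4
      exact h4.symm
    have h5 := ih _ hcard (R ⧸ W) rfl hRq hpcq (x : R ⧸ W) (y : R ⧸ W) (by
      rw [← QuotientGroup.mk_pow, ← QuotientGroup.mk_pow, hxy])
    set c := x⁻¹ * y with hc
    have hc2 : c ^ (p ^ 2) = 1 := by
      apply hmem
      rw [hc, QuotientGroup.mk_mul, QuotientGroup.mk_inv]
      exact h5
    -- `y = x * c`
    have hy : y = x * c := by rw [hc]; group
    set d := ⁅c, x⁆ with hd
    have hdp : d ^ p = 1 := by
      have h6 := pc_comm hp2 hR hpc c x hc2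
      -- `⁅x, c⁆ ^ p = 1`
      have h7 : d = ⁅x, c⁆⁻¹ := by rw [commutatorElement_inv]
      rw [h7, inv_pow, h6, inv_one]
    have hdc : ∀ g : R, d * g = g * d := hpc d hdp
    have hrel : c * x = d * x * c := by
      have h4 : c * x * c⁻¹ * x⁻¹ = d := rfl
      rw [← h4]; group
    have hpow := mul_pow_prime_class2 hp hp2 (a := x) (b := c) (d := d) hrel (hdc x) (hdc c) hdp
    rw [← hy, ← hxy] at hpow
    have := hpow.symm
    rw [mul_eq_left] at this
    exact this
  · rw [not_nontrivial_iff_subsingleton] at hnt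
    exact Subsingleton.elim _ _

theorem pc_root (hp2 : p ≠ 2) {R : Type u} [Group R] [Finite R] (hR : IsPGroup p R) (hpc : PC p R)
    {x y : R} (hxy : x ^ p = y ^ p) : (x⁻¹ * y) ^ p = 1 :=
  pc_root_aux hp2 _ R rfl hR hpc x y hxy

/-- The key estimate for `p`-central groups. -/
theorem index_le_Om (hp2 : p ≠ 2) {R : Type u} [Group R] [Finite R] (hR : IsPGroup p R) (hpc : PC p R)
    (T : Subgroup R) (hT : ∀ x : R, x ^ p ∈ T) : T.index ≤ Nat.card (Om hpc) := by
  classical
  set W := Om hpc with hW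
  let f : R ⧸ W → T := Quotient.lift (s := QuotientGroup.leftRel W) (fun x => ⟨x ^ p, hT x⟩) (by
    intro a b hab
    have h1 : a⁻¹ * b ∈ W := QuotientGroup.leftRel_apply.1 hab
    apply Subtype.ext
    show a ^ p = b ^ p
    have h2 : (a⁻¹ * b) ^ p = 1 := h1
    have h3 : Commute a (a⁻¹ * b) := (hpc _ h2 a).symm
    have h4 : b = a * (a⁻¹ * b) := by group
    calc a ^ p = a ^ p * (a⁻¹ * b) ^ p := by rw [h2, mul_one]
      _ = (a * (a⁻¹ * b)) ^ p := (h3.mul_pow p).symm
      _ = b ^ p := by rw [← h4])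
  have hf : Function.Injective f := by
    intro a b
    induction a using QuotientGroup.induction_on with
    | H a =>
    induction b using QuotientGroup.induction_on with
    | H b =>
    intro hab
    have h1 : a ^ p = b ^ p := congrArg Subtype.val hab
    exact QuotientGroup.eq.2 (pc_root hp2 hR hpc h1)
  have h1 : Nat.card (R ⧸ W) ≤ Nat.card T := Nat.card_le_card_of_injective f hf
  have h2 := Subgroup.card_eq_card_quotient_mul_card_subgroup W
  have h3 := Subgroup.card_mul_index T
  have h4 : 0 < Nat.card T := Nat.card_pos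
  have h5 : Nat.card T * T.index ≤ Nat.card T * Nat.card W := by
    rw [h3, h2, mul_comm]
    exact (Nat.mul_le_mul_left _ h1).trans (by rw [mul_comm])
  exact Nat.le_of_mul_le_mul_left h5 h4

section X

open Cfsg

variable {R : Type u} [Group R] [Finite R]

theorem elem_comm {E : Subgroup R} (hE : IsElementaryAbelian p E) {a b : R} (ha : a ∈ E) (hb : b ∈ E) :
    a * b = b * a := by
  have := hE.1.is_comm.comm (⟨a, ha⟩ : E) ⟨b, hb⟩
  exact congrArg Subtype.val this

theorem elem_sup {E : Subgroup R} (hE : IsElementaryAbelian p E) {y : R} (hy : y ^ p = 1)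
    (hc : ∀ e ∈ E, y * e = e * y) : IsElementaryAbelian p (E ⊔ zpowers y) := by
  have hcomm : ∀ e ∈ E, ∀ k : ℤ, Commute e (y ^ k) := fun e he k =>
    Commute.zpow_right (Commute.symm (hc e he)) k
  let B : Subgroup R :=
    { carrier := {a | ∃ e ∈ E, ∃ k : ℤ, a = e * y ^ k}
      mul_mem' := by
        rintro _ _ ⟨e, he, k, rfl⟩ ⟨f, hf, l, rfl⟩
        refine ⟨e * f, E.mul_mem he hf, k + l, ?_⟩
        calc e * y ^ k * (f * y ^ l) = e * (y ^ k * f) * y ^ l := by group
          _ = e * (f * y ^ k) * y ^ l := by rw [(hcomm f hf k).eq]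
          _ = e * f * y ^ (k + l) := by rw [zpow_add]; group
      one_mem' := ⟨1, E.one_mem, 0, by simp⟩
      inv_mem' := by
        rintro _ ⟨e, he, k, rfl⟩
        refine ⟨e⁻¹, E.inv_mem he, -k, ?_⟩
        have : (e * y ^ k)⁻¹ = (y ^ k)⁻¹ * e⁻¹ := by group
        rw [this, zpow_neg]
        exact ((hcomm e he k).inv_inv).eq.symm }
  have hform : ∀ a ∈ E ⊔ zpowers y, ∃ e ∈ E, ∃ k : ℤ, a = e * y ^ k := by
    have hle : E ⊔ zpowers y ≤ B := by
      refine sup_le ?_ ?_
      · intro e he
        exact ⟨e, he, 0, by simp⟩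
      · rw [zpowers_le]
        exact ⟨1, E.one_mem, 1, by simp⟩
    exact fun a ha => hle ha
  constructor
  · apply IsMulCommutative.of_setLike_mul_comm
    intro a ha b hb
    obtain ⟨e, he, k, rfl⟩ := hform a ha
    obtain ⟨f, hf, l, rfl⟩ := hform b hb
    have h1 : e * f = f * e := elem_comm hE he hf
    have h2 : Commute (y ^ k) (y ^ l) := (Commute.refl y).zpow_zpow k l
    calc e * y ^ k * (f * y ^ l) = e * (y ^ k * f) * y ^ l := by group
      _ = e * (f * y ^ k) * y ^ l := by rw [(hcomm f hf k).eq]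
      _ = (e * f) * (y ^ k * y ^ l) := by group
      _ = (f * e) * (y ^ l * y ^ k) := by rw [h1, h2.eq]
      _ = f * (e * y ^ l) * y ^ k := by group
      _ = f * (y ^ l * e) * y ^ k := by rw [(hcomm e he l).eq]
      _ = _ := by group
  · intro a ha
    obtain ⟨e, he, k, rfl⟩ := hform a ha
    rw [(hcomm e he k).mul_pow, hE.2 e he, one_mul, ← zpow_natCast, ← zpow_mul, mul_comm, zpow_mul,
      zpow_natCast, hy, one_zpow]

theorem mem_of_comm (hr : PRankLE p 2 R) {E : Subgroup R} (hE : IsElementaryAbelian p E)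
    (hcard : Nat.card E = p ^ 2) {y : R} (hy : y ^ p = 1) (hc : ∀ e ∈ E, y * e = e * y) : y ∈ E := by
  have h1 := elem_sup hE hy hc
  have h2 : Nat.card ↥(E ⊔ zpowers y) ≤ p ^ 2 := hr _ h1.1 h1.2
  have h3 : E = E ⊔ zpowers y := Subgroup.eq_of_le_of_card_ge le_sup_left (by rw [hcard]; exact h2)
  rw [h3]
  exact (le_sup_right : zpowers y ≤ E ⊔ zpowers y) (mem_zpowers y)

theorem elem_zpowers {z : R} (hz : z ^ p = 1) : IsElementaryAbelian p (zpowers z) := by
  constructor
  · infer_instance
  · intro a ha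
    obtain ⟨k, rfl⟩ := mem_zpowers_iff.1 ha
    rw [← zpow_natCast, ← zpow_mul, mul_comm, zpow_mul, zpow_natCast, hz, one_zpow]

/-- The commutator character. -/
def chi {z e : R} (hzc : ∀ g : R, z * g = g * z) (h : ∀ r : R, ⁅r, e⁆ ∈ zpowers z) : R →* zpowers z :=
  MonoidHom.mk' (fun r => ⟨⁅r, e⁆, h r⟩) (by
    intro a b
    apply Subtype.ext
    have hzz : ∀ u ∈ zpowers z, ∀ g : R, u * g = g * u := by
      intro u hu g
      obtain ⟨k, rfl⟩ := mem_zpowers_iff.1 hu
      exact (Commute.zpow_left (hzc g) k).eq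
    have h1 := hzz _ (h b) a
    show ⁅a * b, e⁆ = ⁅a, e⁆ * ⁅b, e⁆
    have h2 : ⁅a * b, e⁆ = a * ⁅b, e⁆ * e * a⁻¹ * e⁻¹ := by
      simp only [commutatorElement_def]; group
    rw [h2, ← h1]
    have h3 := hzz _ (h b) (⁅a, e⁆)
    rw [← h3]
    simp only [commutatorElement_def]
    group)

theorem chi_apply {z e : R} (hzc : ∀ g : R, z * g = g * z) (h : ∀ r : R, ⁅r, e⁆ ∈ zpowers z) (r : R) :
    ((chi hzc h r : zpowers z) : R) = ⁅r, e⁆ := rfl

theorem index_centralizer_le {z e : R} (hzc : ∀ g : R, z * g = g * z) (hzo : orderOf z = p)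
    (h : ∀ r : R, ⁅r, e⁆ ∈ zpowers z) : (centralizer ({e} : Set R)).index ≤ p := by
  have h1 : centralizer ({e} : Set R) = (chi hzc h).ker := by
    ext r
    rw [MonoidHom.mem_ker, mem_centralizer_singleton_iff]
    constructor
    · intro hr
      apply Subtype.ext
      show ⁅r, e⁆ = 1
      rw [commutatorElement_eq_one_iff_mul_comm]
      exact hr
    · intro hr
      have h2 : ⁅r, e⁆ = 1 := congrArg Subtype.val hr
      rw [commutatorElement_eq_one_iff_mul_comm] at h2
      exact h2
  rw [h1, Subgroup.index_ker]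
  calc Nat.card (chi hzc h).range ≤ Nat.card (zpowers z) := Subgroup.card_le_card_group _
    _ = p := by rw [Nat.card_zpowers, hzo]

theorem pc_or_char (hp2 : p ≠ 2) (hR : IsPGroup p R) (hr : PRankLE p 2 R) :
    PC p R ∨ ∃ D : Subgroup R, D.Characteristic ∧ D ≠ ⊤ ∧ D.index ≤ p ^ 2 := by
  classical
  by_cases hPC : PC p R
  · exact Or.inl hPC
  right
  have hp : p.Prime := hpf.out
  have hnc : ¬ IsCyclic R := by
    intro hcyc
    apply hPC
    obtain ⟨g, hg⟩ := hcyc
    intro x _ y
    obtain ⟨a, rfl⟩ := mem_zpowers_iff.1 (hg x)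
    obtain ⟨b, rfl⟩ := mem_zpowers_iff.1 (hg y)
    exact ((Commute.refl g).zpow_zpow a b).eq
  obtain ⟨E₁, hE₁n, hE₁e, hE₁c⟩ := Cfsg.Agent.Lib.Transfer.exists_normal_elementary_sq hp2 hR hnc
  have hnt : Nontrivial R := by
    by_contra hcon
    rw [not_nontrivial_iff_subsingleton] at hcon
    apply hnc
    exact isCyclic_of_subsingleton
  have hone : 1 < p := hp.one_lt
  -- a central element of order `p`
  obtain ⟨z, hzc, hzo⟩ : ∃ z ∈ center R, orderOf z = p := by
    have hcnt : Nontrivial (center R) := hR.center_nontrivial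
    obtain ⟨k, hk⟩ := IsPGroup.iff_card.1 (hR.to_subgroup (center R))
    have h1 : 1 < Nat.card (center R) := Finite.one_lt_card
    have hk0 : k ≠ 0 := by
      rintro rfl
      simp [hk] at h1
    obtain ⟨x, hx⟩ := exists_prime_orderOf_dvd_card' (G := center R) p
      (by rw [hk]; exact dvd_pow_self p hk0)
    exact ⟨x, x.2, by rw [← Subgroup.orderOf_coe] at hx; exact hx⟩
  have hzc' : ∀ g : R, z * g = g * z := fun g => ((mem_center_iff.1 hzc) g).symm
  have hzp : z ^ p = 1 := by rw [← hzo]; exact pow_orderOf_eq_one z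
  have hzcard : Nat.card (zpowers z) = p := by rw [Nat.card_zpowers, hzo]
  -- uniqueness of `z`
  have huniq : ∀ x : R, x ^ p = 1 → (∀ g : R, x * g = g * x) → x ∈ zpowers z := by
    intro x hxp hxc
    by_contra hxz
    have hA := elem_sup (elem_zpowers hzp) hxp (fun e _ => hxc e)
    set A := zpowers z ⊔ zpowers x with hAdef
    have hA2 : Nat.card A ≤ p ^ 2 := hr _ hA.1 hA.2
    have hlt : zpowers z ≠ A := by
      intro h
      apply hxz
      rw [h]
      exact (le_sup_right : zpowers x ≤ A) (mem_zpowers x)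
    have hA3 := Cfsg.Agent.Lib.LocalEven.DerLen.card_step hR (le_sup_left : zpowers z ≤ A) hlt
    rw [hzcard] at hA3
    have hA4 : Nat.card A = p ^ 2 := le_antisymm hA2 (by rw [pow_two]; exact hA3)
    apply hPC
    intro y hy g
    have hyA : y ∈ A := mem_of_comm hr hA hA4 hy (by
      intro e he
      have hAc : A ≤ center R := by
        refine sup_le ?_ ?_
        · rw [zpowers_le]; exact hzc
        · rw [zpowers_le]; exact mem_center_iff.2 (fun g => (hxc g).symm)
      exact ((mem_center_iff.1 (hAc he)) y))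
    have hAc : A ≤ center R := by
      refine sup_le ?_ ?_
      · rw [zpowers_le]; exact hzc
      · rw [zpowers_le]; exact mem_center_iff.2 (fun g => (hxc g).symm)
    exact ((mem_center_iff.1 (hAc hyA)) g).symm
  -- the family of normal `E(p^2)`
  set 𝓔 : Set (Subgroup R) := {E | E.Normal ∧ IsElementaryAbelian p E ∧ Nat.card E = p ^ 2} with h𝓔
  have hE₁mem : E₁ ∈ 𝓔 := ⟨hE₁n, hE₁e, hE₁c⟩
  set S : Set R := {e | ∃ E ∈ 𝓔, e ∈ E} with hS
  have hSp : ∀ s ∈ S, s ^ p = 1 := by
    rintro s ⟨E, hE, hs⟩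
    exact hE.2.1.2 s hs
  have hF1 : ∀ E ∈ 𝓔, z ∈ E := by
    rintro E ⟨-, he, hc⟩
    exact mem_of_comm hr he hc hzp (fun e _ => hzc' e)
  have hF2 : ∀ e ∈ S, ∀ r : R, ⁅r, e⁆ ∈ zpowers z := by
    rintro e ⟨E, ⟨hEn, hEe, hEc⟩, he⟩ r
    have h1 : E ≤ Subgroup.upperCentralSeries R 2 :=
      Cfsg.Agent.Lib.OddLocal.normal_sq_le_Z2 p hR E hEc
    have h2 := h1 he
    have h3 : ⁅e, r⁆ ∈ Subgroup.upperCentralSeries R 1 := (Subgroup.mem_upperCentralSeries_succ_iff).1 h2 r
    rw [Subgroup.upperCentralSeries_one] at h3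
    have h4 : ⁅r, e⁆ ∈ center R := by
      rw [← commutatorElement_inv]
      exact inv_mem h3
    apply huniq
    · apply hEe.2
      have h5 : r * e * r⁻¹ ∈ E := hEn.conj_mem e he r
      exact E.mul_mem h5 (E.inv_mem he)
    · exact fun g => ((mem_center_iff.1 h4) g).symm
  have hidx : ∀ e ∈ S, (centralizer ({e} : Set R)).index ≤ p := fun e he =>
    index_centralizer_le hzc' hzo (hF2 e he)
  -- the element `e₀`
  have hzE₁ : z ∈ E₁ := hF1 E₁ hE₁mem
  obtain ⟨e₀, he₀, he₀z⟩ : ∃ e₀ ∈ E₁, e₀ ∉ zpowers z := by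
    by_contra hcon
    push Not at hcon
    have h1 : Nat.card E₁ ≤ Nat.card (zpowers z) := Subgroup.card_le_of_le hcon
    rw [hE₁c, hzcard] at h1
    nlinarith
  have he₀S : e₀ ∈ S := ⟨E₁, hE₁mem, he₀⟩
  have hE₁sup : E₁ ≤ zpowers z ⊔ zpowers e₀ := by
    set A := zpowers z ⊔ zpowers e₀ with hA
    have hAle : A ≤ E₁ := sup_le (by rw [zpowers_le]; exact hzE₁) (by rw [zpowers_le]; exact he₀)
    have hlt : zpowers z ≠ A := by
      intro h
      apply he₀z
      rw [h]
      exact (le_sup_right : zpowers e₀ ≤ A) (mem_zpowers e₀)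
    have h3 := Cfsg.Agent.Lib.LocalEven.DerLen.card_step hR (le_sup_left : zpowers z ≤ A) hlt
    rw [hzcard] at h3
    have : A = E₁ := Subgroup.eq_of_le_of_card_ge hAle (by rw [hE₁c, pow_two]; exact h3)
    rw [this]
  have hE₁C : ∀ x : R, x * e₀ = e₀ * x → ∀ e ∈ E₁, x * e = e * x := by
    intro x hx e he
    have h1 : zpowers z ⊔ zpowers e₀ ≤ centralizer ({x} : Set R) := by
      refine sup_le ?_ ?_
      · rw [zpowers_le, mem_centralizer_singleton_iff]
        exact (hzc' x)
      · rw [zpowers_le, mem_centralizer_singleton_iff]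
        exact hx.symm
    have h2 := h1 (hE₁sup he)
    rw [mem_centralizer_singleton_iff] at h2
    exact h2.symm
  -- the subgroup
  refine ⟨centralizer S, ?_, ?_, ?_⟩
  · -- characteristic
    rw [characteristic_iff_le_comap]
    intro φ x hx
    rw [mem_comap, mem_centralizer_iff]
    intro s hs
    obtain ⟨E, ⟨hEn, hEe, hEc⟩, hsE⟩ := hs
    set ψ := φ.symm with hψ
    have hmem : ψ s ∈ S := by
      refine ⟨E.map ψ.toMonoidHom, ⟨hEn.map _ ψ.surjective, ?_, ?_⟩, ⟨s, hsE, rfl⟩⟩
      · constructor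
        · apply IsMulCommutative.of_setLike_mul_comm
          rintro _ ⟨a, ha, rfl⟩ _ ⟨b, hb, rfl⟩
          show ψ a * ψ b = ψ b * ψ a
          rw [← map_mul, ← map_mul, elem_comm hEe ha hb]
        · rintro _ ⟨a, ha, rfl⟩
          show (ψ a) ^ p = 1
          rw [← map_pow, hEe.2 a ha, map_one]
      · rw [Subgroup.card_map_of_injective ψ.injective, hEc]
    have h1 := (mem_centralizer_iff.1 hx) (ψ s) hmem
    have h2 := congrArg φ h1
    rw [map_mul, map_mul] at h2
    have h3 : φ (ψ s) = s := φ.apply_symm_apply s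
    rw [h3] at h2
    exact h2
  · -- proper
    intro h
    apply he₀z
    apply huniq e₀ (hSp e₀ he₀S)
    intro g
    have h1 : g ∈ centralizer S := by rw [h]; trivial
    exact (mem_centralizer_iff.1 h1) e₀ he₀S
  · -- the index
    have hpos : (centralizer S).index ≠ 0 := Subgroup.index_ne_zero_of_finite
    by_cases hsub : ∀ s ∈ S, s ∈ E₁
    · have h1 : centralizer ({e₀} : Set R) ≤ centralizer S := by
        intro x hx
        rw [mem_centralizer_singleton_iff] at hx
        rw [mem_centralizer_iff]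
        intro s hs
        exact (hE₁C x hx s (hsub s hs)).symm
      have h2 : (centralizer S).index ∣ (centralizer ({e₀} : Set R)).index :=
        Subgroup.index_dvd_of_le h1
      have h3 := Nat.le_of_dvd (Nat.pos_of_ne_zero Subgroup.index_ne_zero_of_finite) h2
      calc (centralizer S).index ≤ p := h3.trans (hidx e₀ he₀S)
        _ ≤ p ^ 2 := by nlinarith
    · push Not at hsub
      obtain ⟨f, hfS, hfE⟩ := hsub
      have hfp := hSp f hfS
      have hu1 : ⁅f, e₀⁆ ≠ 1 := by
        intro h
        rw [commutatorElement_eq_one_iff_mul_comm] at h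
        exact hfE (mem_of_comm hr hE₁e hE₁c hfp (hE₁C f h))
      have huz : zpowers ⁅f, e₀⁆ = zpowers z := by
        have hle : zpowers ⁅f, e₀⁆ ≤ zpowers z := by
          rw [zpowers_le]; exact hF2 e₀ he₀S f
        apply Subgroup.eq_of_le_of_card_ge hle
        rw [hzcard]
        have h1 : Nat.card (zpowers ⁅f, e₀⁆) ∣ p := by
          rw [← hzcard]; exact Subgroup.card_dvd_of_le hle
        rcases (Nat.dvd_prime hp).1 h1 with h2 | h2
        · exfalso
          rw [Nat.card_zpowers, orderOf_eq_one_iff] at h2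
          exact hu1 h2
        · exact h2.ge
      have hexp : ∀ s ∈ S, ∃ c : ℕ, s * f ^ c ∈ E₁ := by
        intro s hs
        have h1 : ⁅s, e₀⁆⁻¹ ∈ zpowers ⁅f, e₀⁆ := by
          rw [huz]; exact inv_mem (hF2 e₀ he₀S s)
        obtain ⟨c, hc⟩ := (mem_powers_iff_mem_zpowers.2 h1)
        refine ⟨c, ?_⟩
        have hch := hF2 e₀ he₀S
        let χ := chi hzc' hch
        have hfcS : f ^ c ∈ S := by
          obtain ⟨E, hE, hfE'⟩ := hfS
          exact ⟨E, hE, pow_mem hfE' c⟩
        have hcomm : (s * f ^ c) * e₀ = e₀ * (s * f ^ c) := by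
          have h2 : χ (s * f ^ c) = 1 := by
            rw [map_mul, map_pow]
            apply Subtype.ext
            show ⁅s, e₀⁆ * (⁅f, e₀⁆) ^ c = 1
            have : (⁅f, e₀⁆) ^ c = ⁅s, e₀⁆⁻¹ := hc
            rw [this, mul_inv_cancel]
          have h3 : ⁅s * f ^ c, e₀⁆ = 1 := congrArg Subtype.val h2
          rw [commutatorElement_eq_one_iff_mul_comm] at h3
          exact h3
        have htp : (s * f ^ c) ^ p = 1 := by
          set d := ⁅f ^ c, s⁆ with hd
          have hdz : d ∈ zpowers z := hF2 s hs (f ^ c)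
          have hdc : ∀ g : R, d * g = g * d := by
            intro g
            obtain ⟨k, hk⟩ := mem_zpowers_iff.1 hdz
            rw [← hk]
            exact (Commute.zpow_left (hzc' g) k).eq
          have hdp : d ^ p = 1 := (elem_zpowers hzp).2 d hdz
          have hrel : f ^ c * s = d * s * f ^ c := by
            have h4 : f ^ c * s * (f ^ c)⁻¹ * s⁻¹ = d := rfl
            rw [← h4]; group
          rw [mul_pow_prime_class2 hp hp2 hrel (hdc s) (hdc _) hdp, hSp s hs, hSp _ hfcS, one_mul]
        exact mem_of_comm hr hE₁e hE₁c htp (hE₁C _ hcomm)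
      have h1 : centralizer ({e₀} : Set R) ⊓ centralizer ({f} : Set R) ≤ centralizer S := by
        rintro x ⟨hx1, hx2⟩
        have hx1' : e₀ * x = x * e₀ := (mem_centralizer_singleton_iff.1 hx1).symm
        have hx2' : f * x = x * f := (mem_centralizer_singleton_iff.1 hx2).symm
        rw [mem_centralizer_iff]
        intro s hs
        obtain ⟨c, hc⟩ := hexp s hs
        have h2 : x * (s * f ^ c) = (s * f ^ c) * x := hE₁C x hx1'.symm _ hc
        have h3 : Commute x (f ^ c) := (Commute.symm hx2').pow_right c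
        have h4 : s = (s * f ^ c) * (f ^ c)⁻¹ := by group
        have h5 : Commute x (s * f ^ c) := h2
        have h6 : Commute x s := by
          rw [h4]
          exact h5.mul_right h3.inv_right
        exact h6.eq.symm
      have h2 : (centralizer S).index ∣ (centralizer ({e₀} : Set R) ⊓ centralizer ({f} : Set R)).index :=
        Subgroup.index_dvd_of_le h1
      have h3 := Nat.le_of_dvd (Nat.pos_of_ne_zero Subgroup.index_ne_zero_of_finite) h2
      have h4 : (centralizer ({e₀} : Set R) ⊓ centralizer ({f} : Set R)).index ≤ _ := Subgroup.index_inf_le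
      calc (centralizer S).index ≤ _ := h3
        _ ≤ _ := h4
        _ ≤ p * p := Nat.mul_le_mul (hidx e₀ he₀S) (hidx f hfS)
        _ = p ^ 2 := (pow_two p).symm

end X

section Main

open Cfsg

variable {G : Type u} [Group G] [Finite G]

theorem map_char_normalized {R L : Subgroup G} (hL : L ≤ normalizer (R : Set G)) (C : Subgroup ↥R)
    [hC : C.Characteristic] : L ≤ normalizer ((C.map R.subtype : Subgroup G) : Set G) := by
  intro g hg
  have hgR := hL hg
  rw [mem_normalizer_iff] at hgR
  have hg1 : ∀ r ∈ R, g * r * g⁻¹ ∈ R := fun r hr => (hgR r).1 hr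
  have hg2 : ∀ r ∈ R, g⁻¹ * r * g ∈ R := fun r hr => by
    apply (hgR (g⁻¹ * r * g)).2
    have : g * (g⁻¹ * r * g) * g⁻¹ = r := by group
    rw [this]
    exact hr
  let φ : ↥R ≃* ↥R :=
    { toFun := fun r => ⟨g * r * g⁻¹, hg1 r r.2⟩
      invFun := fun r => ⟨g⁻¹ * r * g, hg2 r r.2⟩
      left_inv := by
        intro r
        apply Subtype.ext
        show g⁻¹ * (g * r * g⁻¹) * g = r
        group
      right_inv := by
        intro r
        apply Subtype.ext
        show g * (g⁻¹ * r * g) * g⁻¹ = r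
        group
      map_mul' := by
        intro a b
        apply Subtype.ext
        show g * (a * b) * g⁻¹ = g * a * g⁻¹ * (g * b * g⁻¹)
        group }
  apply Cfsg.Agent.Lib.Basic.qs_mem_normalizer
  rintro _ ⟨r, hr, rfl⟩
  have h1 : φ r ∈ C := by
    have h2 := hC.fixed φ
    have h3 : r ∈ C.comap φ.toMonoidHom := by rw [h2]; exact hr
    exact h3
  exact ⟨φ r, h1, rfl⟩

theorem chief_bound (hp2 : p ≠ 2) (hr : PRankLE p 2 G) (H K : Subgroup G) [hHn : H.Normal] [hKn : K.Normal]
    (hKH : K < H) (hpow : ∃ n : ℕ, K.relIndex H = p ^ n)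
    (hchief : ∀ L : Subgroup G, L.Normal → K ≤ L → L ≤ H → L = K ∨ L = H) :
    K.relIndex H ≤ p ^ 2 := by
  classical
  have hp : p.Prime := hpf.out
  obtain ⟨n, hn⟩ := hpow
  obtain ⟨P⟩ : Nonempty (Sylow p H) := inferInstance
  set Q : Subgroup G := (P : Subgroup H).map H.subtype with hQ
  have hQp : IsPGroup p Q := P.isPGroup'.map _
  have hQH : Q ≤ H := map_subtype_le _
  have hHQK : H ≤ Q ⊔ K := by
    rw [← Subgroup.relIndex_eq_one]
    set X := Q ⊔ K with hX
    have h1 : (X.subgroupOf H).index ∣ (K.subgroupOf H).index :=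
      Subgroup.index_dvd_of_le (Subgroup.subgroupOf_mono H (le_sup_right : K ≤ X))
    have h2 : (P : Subgroup H) ≤ X.subgroupOf H := by
      intro x hx
      rw [mem_subgroupOf]
      exact (le_sup_left : Q ≤ X) ⟨x, hx, rfl⟩
    have h3 : (X.subgroupOf H).index ∣ (P : Subgroup H).index := Subgroup.index_dvd_of_le h2
    have h4 : K.relIndex H = (K.subgroupOf H).index := rfl
    rw [← h4, hn] at h1
    obtain ⟨k, -, hk⟩ := (Nat.dvd_prime_pow hp).1 h1
    have h5 : X.relIndex H = (X.subgroupOf H).index := rfl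
    rw [h5, hk]
    rcases Nat.eq_zero_or_pos k with rfl | hkpos
    · simp
    · exfalso
      apply P.not_dvd_index
      refine dvd_trans ?_ h3
      rw [hk]
      exact dvd_pow_self p hkpos.ne'
  set L : Subgroup G := normalizer (Q : Set G) with hLdef
  have hLK : L ⊔ K = ⊤ := by
    have h1 : normalizer (Q : Set G) ⊔ H = ⊤ := Sylow.normalizer_sup_eq_top P
    rw [eq_top_iff, ← h1]
    refine sup_le le_sup_left (hHQK.trans (sup_le ?_ le_sup_right))
    exact (Subgroup.le_normalizer : Q ≤ normalizer (Q : Set G)).trans le_sup_left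
  -- the minimal supplement
  set 𝓡 : Set (Subgroup G) := {R | R ≤ Q ∧ L ≤ normalizer (R : Set G) ∧ H ≤ R ⊔ K} with h𝓡
  have hne : 𝓡.Nonempty := ⟨Q, le_rfl, le_rfl, hHQK⟩
  obtain ⟨R, ⟨hRQ, hRL, hRH⟩, hRmin⟩ := (Set.toFinite 𝓡).exists_minimal hne
  have hRleH : R ≤ H := hRQ.trans hQH
  have hRsup : R ⊔ K = H := le_antisymm (sup_le hRleH hKH.le) hRH
  have hdich : ∀ C : Subgroup G, C ≤ R → L ≤ normalizer (C : Set G) → C ≤ K ∨ C = R := by
    intro C hCR hCL
    have hN : (C ⊔ K).Normal := by
      rw [← Subgroup.normalizer_eq_top_iff, eq_top_iff, ← hLK]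
      refine sup_le ?_ ?_
      · intro g hg
        apply Cfsg.Agent.Lib.Basic.qs_mem_normalizer
        have h1 : C ⊔ K ≤ (C ⊔ K).comap (MulAut.conj g).toMonoidHom := by
          refine sup_le ?_ ?_
          · intro c hc
            exact (le_sup_left : C ≤ C ⊔ K) ((mem_normalizer_iff.1 (hCL hg) c).1 hc)
          · intro c hc
            exact (le_sup_right : K ≤ C ⊔ K) (hKn.conj_mem c hc g)
        exact fun x hx => h1 hx
      · exact (le_sup_right : K ≤ C ⊔ K).trans Subgroup.le_normalizer
    rcases hchief (C ⊔ K) hN le_sup_right (sup_le (hCR.trans hRleH) hKH.le) with h | h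
    · left
      rw [← h]
      exact le_sup_left
    · right
      refine le_antisymm hCR ?_
      exact hRmin (show C ∈ 𝓡 from ⟨hCR.trans hRQ, hCL, h.ge⟩) hCR
  have hRp : IsPGroup p R := hQp.to_le hRQ
  have hrR : PRankLE p 2 R := by
    intro A hA hAe
    have h1 : Nat.card (A.map R.subtype) ≤ p ^ 2 := by
      apply hr
      · apply IsMulCommutative.of_setLike_mul_comm
        rintro _ ⟨a, ha, rfl⟩ _ ⟨b, hb, rfl⟩
        have := hA.is_comm.comm (⟨a, ha⟩ : A) ⟨b, hb⟩
        exact congrArg (fun u : A => ((u : R) : G)) this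
      · rintro _ ⟨a, ha, rfl⟩
        have := hAe a ha
        show ((a : R) : G) ^ p = 1
        have h2 := congrArg Subtype.val this
        simpa using h2
    rwa [Subgroup.card_map_of_injective R.subtype_injective] at h1
  set T : Subgroup R := K.subgroupOf R with hT
  have hTidx : K.relIndex H = T.index := by
    rw [← hRsup, Subgroup.relIndex_sup_right]
    rfl
  have hRnt : Nontrivial R := by
    rw [Subgroup.nontrivial_iff_ne_bot]
    rintro rfl
    rw [bot_sup_eq] at hRsup
    exact hKH.ne hRsup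
  -- `p`-th powers lie in `K`
  have hpowT : ∀ x : R, x ^ p ∈ T := by
    intro x
    have hΦ : (frattini R).map R.subtype ≤ K := by
      rcases hdich ((frattini R).map R.subtype) (map_subtype_le _) (map_char_normalized hRL _) with h | h
      · exact h
      · exfalso
        obtain h5 | ⟨M, hM, -⟩ := eq_top_or_exists_le_coatom (⊥ : Subgroup R)
        · exact bot_ne_top h5
        have h6 : frattini R ≤ M := by
          intro y hy
          have h7 : y ∈ Order.radical (Subgroup R) := hy
          simp only [Order.radical, Subgroup.mem_iInf] at h7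
          exact h7 M hM
        apply hM.1
        rw [eq_top_iff]
        intro y _
        have h8 : (y : G) ∈ (frattini R).map R.subtype := by
          rw [h]; exact y.2
        obtain ⟨w, hw, hwy⟩ := h8
        have : w = y := Subtype.ext hwy
        exact h6 (this ▸ hw)
    have h1 := Cfsg.Agent.Lib.Transfer.pow_mem_frattini hRp x
    rw [hT, mem_subgroupOf]
    exact hΦ ⟨x ^ p, h1, rfl⟩
  rw [hTidx]
  rcases pc_or_char hp2 hRp hrR with hpc | ⟨D, hDc, hDne, hDidx⟩
  · have h1 := index_le_Om hp2 hRp hpc T hpowT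
    refine h1.trans ?_
    apply hrR
    · apply IsMulCommutative.of_setLike_mul_comm
      intro a ha b _
      exact hpc a ha b
    · intro a ha
      exact ha
  · rcases hdich (D.map R.subtype) (map_subtype_le _) (map_char_normalized hRL D) with h | h
    · have h1 : D ≤ T := by
        intro x hx
        rw [hT, mem_subgroupOf]
        exact h ⟨x, hx, rfl⟩
      have h2 : T.index ∣ D.index := Subgroup.index_dvd_of_le h1
      exact (Nat.le_of_dvd (Nat.pos_of_ne_zero Subgroup.index_ne_zero_of_finite) h2).trans hDidx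
    · exfalso
      apply hDne
      rw [eq_top_iff]
      intro y _
      have h8 : (y : G) ∈ D.map R.subtype := by
        rw [h]; exact y.2
      obtain ⟨w, hw, hwy⟩ := h8
      have : w = y := Subtype.ext hwy
      exact this ▸ hw

theorem chief_main (hp2 : p ≠ 2) (hr : PRankLE p 2 G) (H K : Subgroup G) [hHn : H.Normal] [hKn : K.Normal]
    (hKH : K < H) (hpow : ∃ n : ℕ, K.relIndex H = p ^ n)
    (hchief : ∀ L : Subgroup G, L.Normal → K ≤ L → L ≤ H → L = K ∨ L = H) :
    K.relIndex H = p ∨ K.relIndex H = p ^ 2 := by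
  have hp : p.Prime := hpf.out
  have h1 := chief_bound hp2 hr H K hKH hpow hchief
  obtain ⟨n, hn⟩ := hpow
  rw [hn] at h1 ⊢
  have h2 : n ≤ 2 := (Nat.pow_le_pow_iff_right hp.one_lt).1 h1
  have h3 : n ≠ 0 := by
    rintro rfl
    rw [pow_zero, Subgroup.relIndex_eq_one] at hn
    exact hKH.not_ge hn
  interval_cases n
  · exact absurd rfl h3
  · left; simp
  · right; rfl

end Main

end Cfsg.Agent.Lib.LocalEven.ChiefRank
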