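/-
Coordinates on an extraspecial group of order `p³` and exponent `p` (helper23).
-/
import Mathlib

set_option autoImplicit false
set_option linter.unusedVariables false

namespace Cfsg.Agent.Lib.LocalEven.Extra3

open scoped commutatorElement

variable {p : ℕ} [Fact p.Prime] {A : Type*} [Group A]

/-- Powers with exponent in `ZMod p`. -/
def pw (p : ℕ) [Fact p.Prime] {A : Type*} [Group A] (g : A) (k : ZMod p) : A := g ^ k.val

theorem pw_zero (g : A) : pw p g 0 = 1 := by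
  simp [pw]

theorem pw_one (g : A) : pw p g 1 = g := by
  have hp : (p.Prime) := Fact.out
  haveI : Fact (1 < p) := ⟨hp.one_lt⟩
  simp [pw, ZMod.val_one]

theorem pw_add {g : A} (hg : g ^ p = 1) (k l : ZMod p) : pw p g (k + l) = pw p g k * pw p g l := by
  unfold pw
  rw [ZMod.val_add, ← pow_add]
  exact (pow_eq_pow_mod _ hg).symm

theorem pw_natCast {g : A} (hg : g ^ p = 1) (n : ℕ) : pw p g (n : ZMod p) = g ^ n := by
  unfold pw
  rw [ZMod.val_natCast]
  exact (pow_eq_pow_mod _ hg).symm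

theorem pw_mul {g : A} (hg : g ^ p = 1) (k l : ZMod p) : pw p g (k * l) = pw p (pw p g k) l := by
  unfold pw
  rw [ZMod.val_mul, ← pow_mul]
  exact (pow_eq_pow_mod _ hg).symm

theorem pw_pow_p {g : A} (hg : g ^ p = 1) (k : ZMod p) : (pw p g k) ^ p = 1 := by
  unfold pw
  rw [← pow_mul, mul_comm, pow_mul, hg, one_pow]

theorem pw_conj (h g : A) (k : ZMod p) : h * pw p g k * h⁻¹ = pw p (h * g * h⁻¹) k := by
  unfold pw
  rw [conj_pow]

theorem map_pw {B : Type*} [Group B] (f : A →* B) (g : A) (k : ZMod p) : f (pw p g k) = pw p (f g) k := by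
  unfold pw
  rw [map_pow]

theorem pw_mul_comm {g h : A} (hc : Commute g h) (k : ZMod p) : pw p (g * h) k = pw p g k * pw p h k := by
  unfold pw
  exact hc.mul_pow _

theorem pw_inj {z : A} (hz : z ^ p = 1) (hz1 : z ≠ 1) {k l : ZMod p} (h : pw p z k = pw p z l) : k = l := by
  have hp : (p.Prime) := Fact.out
  have ho : orderOf z = p := orderOf_eq_prime hz hz1
  have h1 := pow_injOn_Iio_orderOf (x := z) (x₁ := k.val) (x₂ := l.val)
    (by rw [Set.mem_Iio, ho]; exact ZMod.val_lt k) (by rw [Set.mem_Iio, ho]; exact ZMod.val_lt l) h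
  exact ZMod.val_injective p h1

open Classical in
/-- Logarithm with respect to the base `z`. -/
noncomputable def lg (p : ℕ) [Fact p.Prime] {A : Type*} [Group A] (z w : A) : ZMod p :=
  if h : ∃ k : ZMod p, pw p z k = w then h.choose else 0

theorem lg_pw {z : A} (hz : z ^ p = 1) (hz1 : z ≠ 1) (k : ZMod p) : lg p z (pw p z k) = k := by
  unfold lg
  have h : ∃ j : ZMod p, pw p z j = pw p z k := ⟨k, rfl⟩
  rw [dif_pos h]
  exact pw_inj hz hz1 h.choose_spec

/-- An additive functional. -/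
def IsAdd (f : A → ZMod p) : Prop := ∀ x y, f (x * y) = f x + f y

theorem IsAdd.map_one {f : A → ZMod p} (hf : IsAdd f) : f 1 = 0 := by
  have := hf 1 1
  rw [one_mul] at this
  linear_combination -this

theorem IsAdd.map_inv {f : A → ZMod p} (hf : IsAdd f) (x : A) : f x⁻¹ = - f x := by
  have := hf x x⁻¹
  rw [mul_inv_cancel, hf.map_one] at this
  linear_combination -this

theorem IsAdd.map_pow {f : A → ZMod p} (hf : IsAdd f) (x : A) (n : ℕ) : f (x ^ n) = n * f x := by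
  induction n with
  | zero => simp [hf.map_one]
  | succ n ih =>
    rw [pow_succ, hf, ih]
    push_cast
    ring

theorem IsAdd.map_pw {f : A → ZMod p} (hf : IsAdd f) (x : A) (k : ZMod p) : f (pw p x k) = k * f x := by
  unfold pw
  rw [hf.map_pow]
  congr 1
  exact ZMod.natCast_zmod_val k

/-- Data of coordinates. -/
structure Data (p : ℕ) (A : Type*) [Group A] where
  a : A
  b : A
  hpow : ∀ x : A, x ^ p = 1
  hcent : ∀ x y : A, ⁅x, y⁆ ∈ Subgroup.center A
  hne : ⁅a, b⁆ ≠ 1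
  hZ : Nat.card (Subgroup.center A) = p
  hA : Nat.card A = p ^ 3

namespace Data

variable (D : Data p A)

/-- the central generator -/
def z : A := ⁅D.a, D.b⁆

theorem z_mem : D.z ∈ Subgroup.center A := D.hcent _ _

theorem z_ne : D.z ≠ 1 := D.hne

theorem z_pow : D.z ^ p = 1 := D.hpow _

include D in
theorem finA : Finite A := by
  have hp : (p.Prime) := Fact.out
  apply Nat.finite_of_card_ne_zero
  rw [D.hA]
  exact pow_ne_zero _ hp.ne_zero

theorem pw_z_mem (k : ZMod p) : pw p D.z k ∈ Subgroup.center A := by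
  unfold pw
  exact Subgroup.pow_mem _ D.z_mem _

theorem exists_pw_of_mem {w : A} (hw : w ∈ Subgroup.center A) : ∃ k : ZMod p, pw p D.z k = w := by
  haveI := D.finA
  let φ : ZMod p → Subgroup.center A := fun k => ⟨pw p D.z k, D.pw_z_mem k⟩
  have hφ : Function.Injective φ := by
    intro k l h
    exact pw_inj D.z_pow D.z_ne (congrArg Subtype.val h)
  have hb := hφ.bijective_of_nat_card_le (by rw [D.hZ, Nat.card_zmod])
  obtain ⟨k, hk⟩ := hb.2 ⟨w, hw⟩
  exact ⟨k, congrArg Subtype.val hk⟩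

theorem lg_spec {w : A} (hw : w ∈ Subgroup.center A) : pw p D.z (lg p D.z w) = w := by
  obtain ⟨k, rfl⟩ := D.exists_pw_of_mem hw
  rw [lg_pw D.z_pow D.z_ne]

theorem lg_mul {u v : A} (hu : u ∈ Subgroup.center A) (hv : v ∈ Subgroup.center A) :
    lg p D.z (u * v) = lg p D.z u + lg p D.z v := by
  obtain ⟨k, rfl⟩ := D.exists_pw_of_mem hu
  obtain ⟨l, rfl⟩ := D.exists_pw_of_mem hv
  rw [← pw_add D.z_pow, lg_pw D.z_pow D.z_ne, lg_pw D.z_pow D.z_ne, lg_pw D.z_pow D.z_ne]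

theorem lg_one : lg p D.z (1 : A) = 0 := by
  have := lg_pw (p := p) D.z_pow D.z_ne 0
  rwa [pw_zero] at this

theorem lg_z : lg p D.z D.z = 1 := by
  have := lg_pw (p := p) D.z_pow D.z_ne 1
  rwa [pw_one] at this

omit [Fact p.Prime] in
theorem central_comm {u : A} (hu : u ∈ Subgroup.center A) (x : A) : x * u = u * x := by
  rw [Subgroup.mem_center_iff] at hu
  exact hu x

include D in
theorem comm_mul_left (x y w : A) : ⁅x * y, w⁆ = ⁅x, w⁆ * ⁅y, w⁆ := by
  have h1 : ⁅x * y, w⁆ = x * ⁅y, w⁆ * x⁻¹ * ⁅x, w⁆ := by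
    simp only [commutatorElement_def]
    group
  rw [h1, central_comm (D.hcent y w) x, mul_inv_cancel_right]
  exact central_comm (D.hcent x w) _

include D in
theorem comm_mul_right (x y w : A) : ⁅w, x * y⁆ = ⁅w, x⁆ * ⁅w, y⁆ := by
  have h := D.comm_mul_left x y w
  have h1 : ⁅w, x * y⁆ = ⁅x * y, w⁆⁻¹ := (commutatorElement_inv _ _).symm
  rw [h1, h, mul_inv_rev, commutatorElement_inv, commutatorElement_inv]
  exact central_comm (D.hcent w x) _

/-- first coordinate -/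
noncomputable def c₁ (x : A) : ZMod p := lg p D.z ⁅x, D.b⁆

/-- second coordinate -/
noncomputable def c₂ (x : A) : ZMod p := lg p D.z ⁅D.a, x⁆

theorem c₁_add : IsAdd (p := p) D.c₁ := by
  intro x y
  unfold c₁
  rw [D.comm_mul_left, D.lg_mul (D.hcent _ _) (D.hcent _ _)]

theorem c₂_add : IsAdd (p := p) D.c₂ := by
  intro x y
  unfold c₂
  rw [D.comm_mul_right, D.lg_mul (D.hcent _ _) (D.hcent _ _)]

theorem c₁_a : D.c₁ D.a = 1 := D.lg_z

theorem c₂_b : D.c₂ D.b = 1 := D.lg_z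

theorem c₁_b : D.c₁ D.b = 0 := by
  unfold c₁
  rw [commutatorElement_self, D.lg_one]

theorem c₂_a : D.c₂ D.a = 0 := by
  unfold c₂
  rw [commutatorElement_self, D.lg_one]

omit [Fact p.Prime] in
theorem comm_eq_one_of_center {w : A} (hw : w ∈ Subgroup.center A) (x : A) : ⁅w, x⁆ = 1 := by
  rw [commutatorElement_eq_one_iff_mul_comm]
  exact (central_comm hw x).symm

omit [Fact p.Prime] in
theorem comm_eq_one_of_center' {w : A} (hw : w ∈ Subgroup.center A) (x : A) : ⁅x, w⁆ = 1 := by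
  rw [commutatorElement_eq_one_iff_mul_comm]
  exact central_comm hw x

theorem c₁_center {w : A} (hw : w ∈ Subgroup.center A) : D.c₁ w = 0 := by
  unfold c₁
  rw [comm_eq_one_of_center hw, D.lg_one]

theorem c₂_center {w : A} (hw : w ∈ Subgroup.center A) : D.c₂ w = 0 := by
  unfold c₂
  rw [comm_eq_one_of_center' hw, D.lg_one]

theorem surj (u v : ZMod p) : ∃ x : A, D.c₁ x = u ∧ D.c₂ x = v := by
  refine ⟨pw p D.a u * pw p D.b v, ?_, ?_⟩
  · rw [D.c₁_add, D.c₁_add.map_pw, D.c₁_add.map_pw, D.c₁_a, D.c₁_b]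
    ring
  · rw [D.c₂_add, D.c₂_add.map_pw, D.c₂_add.map_pw, D.c₂_a, D.c₂_b]
    ring

/-- the coordinate homomorphism -/
noncomputable def φ : A →* Multiplicative (ZMod p × ZMod p) where
  toFun x := Multiplicative.ofAdd (D.c₁ x, D.c₂ x)
  map_one' := by
    rw [D.c₁_add.map_one, D.c₂_add.map_one]
    rfl
  map_mul' x y := by
    rw [D.c₁_add, D.c₂_add]
    rfl

theorem ker_eq : D.φ.ker = Subgroup.center A := by
  haveI := D.finA
  have hp : (p.Prime) := Fact.out
  haveI : NeZero p := ⟨hp.ne_zero⟩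
  have hsurj : Function.Surjective D.φ := by
    intro w
    obtain ⟨x, h1, h2⟩ := D.surj (Multiplicative.toAdd w).1 (Multiplicative.toAdd w).2
    refine ⟨x, ?_⟩
    show Multiplicative.ofAdd (D.c₁ x, D.c₂ x) = w
    rw [h1, h2]
    rfl
  have h1 := Subgroup.card_mul_index D.φ.ker
  rw [Subgroup.index_ker, MonoidHom.range_eq_top.2 hsurj, Subgroup.card_top, D.hA] at h1
  have h2 : Nat.card (Multiplicative (ZMod p × ZMod p)) = p ^ 2 := by
    show Nat.card (ZMod p × ZMod p) = p ^ 2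
    rw [Nat.card_prod, Nat.card_zmod]
    ring
  rw [h2] at h1
  have h3 : Nat.card D.φ.ker = p := by
    have h4 : Nat.card D.φ.ker * p ^ 2 = p * p ^ 2 := by
      rw [h1]
      ring
    exact Nat.eq_of_mul_eq_mul_right (pow_pos hp.pos 2) h4
  symm
  apply Subgroup.eq_of_le_of_card_ge
  · intro w hw
    rw [MonoidHom.mem_ker]
    show Multiplicative.ofAdd (D.c₁ w, D.c₂ w) = 1
    rw [D.c₁_center hw, D.c₂_center hw]
    rfl
  · rw [h3, D.hZ]

theorem mem_center_of_coord {x : A} (h1 : D.c₁ x = 0) (h2 : D.c₂ x = 0) : x ∈ Subgroup.center A := by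
  rw [← D.ker_eq, MonoidHom.mem_ker]
  show Multiplicative.ofAdd (D.c₁ x, D.c₂ x) = 1
  rw [h1, h2]
  rfl

/-- Expansion of an additive functional vanishing on the centre. -/
theorem expand {f : A → ZMod p} (hf : IsAdd f) (hZ : ∀ w ∈ Subgroup.center A, f w = 0) (x : A) :
    f x = D.c₁ x * f D.a + D.c₂ x * f D.b := by
  set y : A := pw p D.a (D.c₁ x) * pw p D.b (D.c₂ x) with hy
  have h1 : D.c₁ y = D.c₁ x := by
    rw [hy, D.c₁_add, D.c₁_add.map_pw, D.c₁_add.map_pw, D.c₁_a, D.c₁_b]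
    ring
  have h2 : D.c₂ y = D.c₂ x := by
    rw [hy, D.c₂_add, D.c₂_add.map_pw, D.c₂_add.map_pw, D.c₂_a, D.c₂_b]
    ring
  have h3 : x * y⁻¹ ∈ Subgroup.center A := by
    apply D.mem_center_of_coord
    · rw [D.c₁_add, D.c₁_add.map_inv, h1]
      ring
    · rw [D.c₂_add, D.c₂_add.map_inv, h2]
      ring
  have h4 := hZ _ h3
  rw [hf, hf.map_inv] at h4
  have h5 : f y = D.c₁ x * f D.a + D.c₂ x * f D.b := by
    rw [hy, hf, hf.map_pw, hf.map_pw]
  rw [← h5]
  linear_combination h4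

/-- The commutator formula. -/
theorem lg_comm (u v : A) : lg p D.z ⁅u, v⁆ = D.c₁ u * D.c₂ v - D.c₂ u * D.c₁ v := by
  have hf : IsAdd (p := p) (fun x : A => lg p D.z ⁅x, v⁆) := by
    intro x y
    show lg p D.z ⁅x * y, v⁆ = _
    rw [D.comm_mul_left, D.lg_mul (D.hcent _ _) (D.hcent _ _)]
  have hZ : ∀ w ∈ Subgroup.center A, (fun x : A => lg p D.z ⁅x, v⁆) w = 0 := by
    intro w hw
    show lg p D.z ⁅w, v⁆ = 0
    rw [comm_eq_one_of_center hw, D.lg_one]
  have h := D.expand hf hZ u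
  have h1 : lg p D.z ⁅u, v⁆ = D.c₁ u * lg p D.z ⁅D.a, v⁆ + D.c₂ u * lg p D.z ⁅D.b, v⁆ := h
  rw [h1]
  have h2 : lg p D.z ⁅D.b, v⁆ = - D.c₁ v := by
    have h3 : lg p D.z (⁅v, D.b⁆ * ⁅D.b, v⁆) = 0 := by
      have : ⁅v, D.b⁆ * ⁅D.b, v⁆ = 1 := by
        rw [← commutatorElement_inv v D.b]
        exact mul_inv_cancel _
      rw [this, D.lg_one]
    rw [D.lg_mul (D.hcent _ _) (D.hcent _ _)] at h3
    have : D.c₁ v = lg p D.z ⁅v, D.b⁆ := rfl
    rw [this]
    linear_combination h3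
  rw [h2]
  have : D.c₂ v = lg p D.z ⁅D.a, v⁆ := rfl
  rw [this]
  ring

/-- Commutators with a noncentral element are onto. -/
theorem exists_comm_eq {x : A} (hx : x ∉ Subgroup.center A) (s : ZMod p) : ∃ y : A, ⁅y, x⁆ = pw p D.z s := by
  have key : ∃ y : A, lg p D.z ⁅y, x⁆ = s := by
    by_cases h2 : D.c₂ x = 0
    · have h1 : D.c₁ x ≠ 0 := fun h1 => hx (D.mem_center_of_coord h1 h2)
      obtain ⟨y, hy1, hy2⟩ := D.surj 0 (- s / D.c₁ x)
      refine ⟨y, ?_⟩
      rw [D.lg_comm, hy1, hy2, h2]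
      field_simp
      ring
    · obtain ⟨y, hy1, hy2⟩ := D.surj (s / D.c₂ x) 0
      refine ⟨y, ?_⟩
      rw [D.lg_comm, hy1, hy2]
      field_simp
      ring
  obtain ⟨y, hy⟩ := key
  refine ⟨y, ?_⟩
  rw [← hy, D.lg_spec (D.hcent _ _)]

omit [Fact p.Prime] in
theorem aut_center (α : MulAut A) {w : A} (hw : w ∈ Subgroup.center A) : α w ∈ Subgroup.center A := by
  rw [Subgroup.mem_center_iff] at hw ⊢
  intro g
  obtain ⟨h, rfl⟩ := α.surjective g
  rw [← map_mul, ← map_mul, hw h]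

/-- The matrix of an automorphism. -/
noncomputable def mat (α : MulAut A) : Matrix (Fin 2) (Fin 2) (ZMod p) :=
  !![D.c₁ (α D.a), D.c₁ (α D.b); D.c₂ (α D.a), D.c₂ (α D.b)]

theorem c₁_aut (α : MulAut A) (x : A) : D.c₁ (α x) = D.c₁ x * D.c₁ (α D.a) + D.c₂ x * D.c₁ (α D.b) := by
  have hf : IsAdd (p := p) (fun x : A => D.c₁ (α x)) := by
    intro x y
    show D.c₁ (α (x * y)) = _
    rw [map_mul, D.c₁_add]
  exact D.expand hf (fun w hw => D.c₁_center (aut_center α hw)) x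

theorem c₂_aut (α : MulAut A) (x : A) : D.c₂ (α x) = D.c₁ x * D.c₂ (α D.a) + D.c₂ x * D.c₂ (α D.b) := by
  have hf : IsAdd (p := p) (fun x : A => D.c₂ (α x)) := by
    intro x y
    show D.c₂ (α (x * y)) = _
    rw [map_mul, D.c₂_add]
  exact D.expand hf (fun w hw => D.c₂_center (aut_center α hw)) x

theorem mat_one : D.mat 1 = 1 := by
  unfold mat
  ext i j
  fin_cases i <;> fin_cases j
  · simpa using D.c₁_a
  · simpa using D.c₁_b
  · simpa using D.c₂_a
  · simpa using D.c₂_b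

theorem mat_mul (α β : MulAut A) : D.mat (α * β) = D.mat α * D.mat β := by
  unfold mat
  rw [Matrix.mul_fin_two]
  simp only [MulAut.mul_apply]
  rw [D.c₁_aut α (β D.a), D.c₁_aut α (β D.b), D.c₂_aut α (β D.a), D.c₂_aut α (β D.b)]
  congr 1
  ext i j
  fin_cases i <;> fin_cases j <;> simp <;> ring

/-- The representation on `P / Z(P)`. -/
noncomputable def matHom : MulAut A →* Matrix (Fin 2) (Fin 2) (ZMod p) where
  toFun := D.mat
  map_one' := D.mat_one
  map_mul' := D.mat_mul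

/-- The representation on `P / Z(P)`, into `GL₂`. -/
noncomputable def ψ : MulAut A →* GL (Fin 2) (ZMod p) := MonoidHom.toHomUnits D.matHom

theorem ψ_val (α : MulAut A) : ((D.ψ α : GL (Fin 2) (ZMod p)) : Matrix (Fin 2) (Fin 2) (ZMod p)) = D.mat α := rfl

theorem ψ_00 (α : MulAut A) : (D.ψ α) 0 0 = D.c₁ (α D.a) := by
  rw [ψ_val]
  simp [mat]

theorem ψ_01 (α : MulAut A) : (D.ψ α) 0 1 = D.c₁ (α D.b) := by
  rw [ψ_val]
  simp [mat]

theorem ψ_10 (α : MulAut A) : (D.ψ α) 1 0 = D.c₂ (α D.a) := by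
  rw [ψ_val]
  simp [mat]

theorem ψ_11 (α : MulAut A) : (D.ψ α) 1 1 = D.c₂ (α D.b) := by
  rw [ψ_val]
  simp [mat]

theorem c₁_ψ (α : MulAut A) (x : A) : D.c₁ (α x) = (D.ψ α) 0 0 * D.c₁ x + (D.ψ α) 0 1 * D.c₂ x := by
  rw [D.c₁_aut, ψ_00, ψ_01]
  ring

theorem c₂_ψ (α : MulAut A) (x : A) : D.c₂ (α x) = (D.ψ α) 1 0 * D.c₁ x + (D.ψ α) 1 1 * D.c₂ x := by
  rw [D.c₂_aut, ψ_10, ψ_11]
  ring

theorem det_ψ (α : MulAut A) : ((D.ψ α : GL (Fin 2) (ZMod p)) : Matrix (Fin 2) (Fin 2) (ZMod p)).det = lg p D.z (α D.z) := by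
  rw [Matrix.det_fin_two, ψ_00, ψ_01, ψ_10, ψ_11]
  have : α D.z = ⁅α D.a, α D.b⁆ := by
    show α ⁅D.a, D.b⁆ = _
    rw [commutatorElement_def, commutatorElement_def]
    simp only [map_mul, map_inv]
  rw [this, D.lg_comm]
  ring

theorem ψ_eq_one (α : MulAut A) (h1 : ∀ x, D.c₁ (α x) = D.c₁ x) (h2 : ∀ x, D.c₂ (α x) = D.c₂ x) : D.ψ α = 1 := by
  apply Units.ext
  show D.mat α = 1
  unfold mat
  rw [h1, h1, h2, h2, D.c₁_a, D.c₁_b, D.c₂_a, D.c₂_b]
  ext i j
  fin_cases i <;> fin_cases j <;> simp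

/-- Conjugation acts trivially on coordinates. -/
theorem c₁_conj (y x : A) : D.c₁ (y * x * y⁻¹) = D.c₁ x := by
  have : y * x * y⁻¹ = ⁅y, x⁆ * x := by
    rw [commutatorElement_def]
    group
  rw [this, D.c₁_add, D.c₁_center (D.hcent _ _), zero_add]

theorem c₂_conj (y x : A) : D.c₂ (y * x * y⁻¹) = D.c₂ x := by
  have : y * x * y⁻¹ = ⁅y, x⁆ * x := by
    rw [commutatorElement_def]
    group
  rw [this, D.c₂_add, D.c₂_center (D.hcent _ _), zero_add]

end Data

end Cfsg.Agent.Lib.LocalEven.Extra3
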