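/-
Fusion in a Sylow subgroup extraspecial of order `p³` with all nonidentity elements conjugate (helper23).
-/
import Cfsg.Agent.Lib.LocalEven.Extra3

set_option autoImplicit false
set_option linter.unusedVariables false

namespace Cfsg.Agent.Lib.LocalEven.Extra3F

open Cfsg.Agent.Lib.LocalEven.Extra3

variable {p : ℕ} [Fact p.Prime] {G : Type*} [Group G]

theorem exists_conj_in [Finite G] (H : Subgroup G) (R : Sylow p G) (hR : (R : Subgroup G) ≤ H) (Q : Subgroup G)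
    (hQ : IsPGroup p Q) (hQH : Q ≤ H) : ∃ c ∈ H, ∀ w ∈ Q, c⁻¹ * w * c ∈ (R : Subgroup G) := by
  have hQ' : IsPGroup p (Q.subgroupOf H) := hQ.comap_of_injective H.subtype H.subtype_injective
  obtain ⟨S, hS⟩ := hQ'.exists_le_sylow
  obtain ⟨c, hc⟩ := MulAction.exists_smul_eq H (R.subtype hR) S
  refine ⟨c, c.2, fun w hw => ?_⟩
  have h1 : (⟨w, hQH hw⟩ : H) ∈ (S : Subgroup H) := hS (Subgroup.mem_subgroupOf.2 hw)
  rw [← hc, Sylow.smul_def, Sylow.pointwise_smul_def, Subgroup.mem_pointwise_smul_iff_inv_smul_mem] at h1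
  have h2 : (c⁻¹ * ⟨w, hQH hw⟩ * c : H) ∈ ((R.subtype hR : Sylow p H) : Subgroup H) := by
    simpa [MulAut.conj_inv_apply, MulAut.smul_def] using h1
  rw [Sylow.coe_subtype, Subgroup.mem_subgroupOf] at h2
  simpa using h2

section Acts

variable {x z : G}

/-- Element of `⟨x⟩ × ⟨z⟩` with coordinates. -/
def vc (p : ℕ) [Fact p.Prime] {G : Type*} [Group G] (x z : G) (i j : ZMod p) : G := pw p x i * pw p z j

/-- Linear action on `⟨x⟩ × ⟨z⟩`. -/
structure Acts (x z g : G) (A B C D : ZMod p) : Prop where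
  hx : g * x * g⁻¹ = vc p x z A C
  hz : g * z * g⁻¹ = vc p x z B D

theorem vc_one_zero : vc p x z 1 0 = x := by
  rw [vc, pw_one, pw_zero, mul_one]

theorem vc_zero_one : vc p x z 0 1 = z := by
  rw [vc, pw_one, pw_zero, one_mul]

theorem vc_mul (hx : x ^ p = 1) (hz : z ^ p = 1) (hxz : Commute x z) (i j i' j' : ZMod p) :
    vc p x z i j * vc p x z i' j' = vc p x z (i + i') (j + j') := by
  unfold vc
  rw [pw_add hx, pw_add hz]
  have : Commute (pw p z j) (pw p x i') := (hxz.pow_pow _ _).symm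
  calc pw p x i * pw p z j * (pw p x i' * pw p z j') = pw p x i * (pw p z j * pw p x i') * pw p z j' := by
        simp only [mul_assoc]
    _ = pw p x i * (pw p x i' * pw p z j) * pw p z j' := by rw [this.eq]
    _ = _ := by simp only [mul_assoc]

theorem pw_vc (hx : x ^ p = 1) (hz : z ^ p = 1) (hxz : Commute x z) (i j k : ZMod p) :
    pw p (vc p x z i j) k = vc p x z (i * k) (j * k) := by
  unfold vc
  rw [pw_mul_comm (show Commute (pw p x i) (pw p z j) from hxz.pow_pow _ _), ← pw_mul hx, ← pw_mul hz]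

theorem conj_vc (hx : x ^ p = 1) (hz : z ^ p = 1) (hxz : Commute x z) {g : G} {A B C D : ZMod p}
    (h : Acts x z g A B C D) (i j : ZMod p) :
    g * vc p x z i j * g⁻¹ = vc p x z (A * i + B * j) (C * i + D * j) := by
  have e : g * vc p x z i j * g⁻¹ = (g * pw p x i * g⁻¹) * (g * pw p z j * g⁻¹) := by
    unfold vc
    group
  rw [e, pw_conj, pw_conj, h.hx, h.hz, pw_vc hx hz hxz, pw_vc hx hz hxz, vc_mul hx hz hxz]

theorem Acts.comp (hx : x ^ p = 1) (hz : z ^ p = 1) (hxz : Commute x z) {g h : G} {A B C D A' B' C' D' : ZMod p}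
    (hg : Acts x z g A B C D) (hh : Acts x z h A' B' C' D') :
    Acts x z (g * h) (A * A' + B * C') (A * B' + B * D') (C * A' + D * C') (C * B' + D * D') := by
  constructor
  · have : g * h * x * (g * h)⁻¹ = g * (h * x * h⁻¹) * g⁻¹ := by group
    rw [this, hh.hx, conj_vc hx hz hxz hg]
  · have : g * h * z * (g * h)⁻¹ = g * (h * z * h⁻¹) * g⁻¹ := by group
    rw [this, hh.hz, conj_vc hx hz hxz hg]

theorem Acts.congr {g : G} {A B C D A' B' C' D' : ZMod p} (h : Acts x z g A B C D) (h1 : A = A') (h2 : B = B')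
    (h3 : C = C') (h4 : D = D') : Acts x z g A' B' C' D' := by
  subst h1 h2 h3 h4
  exact h

theorem conj_cancel (e M : G) : e⁻¹ * (e * M * e⁻¹) * e = M := by
  group

theorem Acts.inv_of (hx : x ^ p = 1) (hz : z ^ p = 1) (hxz : Commute x z) {g : G} {A B C D A' B' C' D' : ZMod p}
    (h : Acts x z g A B C D) (h1 : A * A' + B * C' = 1) (h2 : C * A' + D * C' = 0) (h3 : A * B' + B * D' = 0)
    (h4 : C * B' + D * D' = 1) : Acts x z g⁻¹ A' B' C' D' := by
  constructor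
  · have e1 := conj_vc hx hz hxz h A' C'
    rw [h1, h2, vc_one_zero] at e1
    have e2 := conj_cancel g (vc p x z A' C')
    rw [e1] at e2
    rw [inv_inv]
    exact e2
  · have e1 := conj_vc hx hz hxz h B' D'
    rw [h3, h4, vc_zero_one] at e1
    have e2 := conj_cancel g (vc p x z B' D')
    rw [e1] at e2
    rw [inv_inv]
    exact e2

theorem Acts.one : Acts x z (1 : G) (1 : ZMod p) 0 0 1 := by
  constructor
  · rw [vc_one_zero]
    group
  · rw [vc_zero_one]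
    group

end Acts

/-- The lower unitriangular stabilizer. -/
def Kgrp (p : ℕ) [Fact p.Prime] {G : Type*} [Group G] {x z : G} (hx : x ^ p = 1) (hz : z ^ p = 1) (hxz : Commute x z) :
    Subgroup G where
  carrier := {g | ∃ s : ZMod p, Acts x z g 1 0 s 1}
  one_mem' := ⟨0, Acts.one⟩
  mul_mem' := by
    rintro a b ⟨s, hs⟩ ⟨r, hr⟩
    exact ⟨s + r, (Acts.comp hx hz hxz hs hr).congr (by ring) (by ring) (by ring) (by ring)⟩
  inv_mem' := by
    rintro a ⟨s, hs⟩
    exact ⟨-s, Acts.inv_of hx hz hxz hs (by ring) (by ring) (by ring) (by ring)⟩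

theorem conj_comm_aux (g z : G) (h : (g * z * g⁻¹) * z = z * (g * z * g⁻¹)) : (g⁻¹ * z * g) * z = z * (g⁻¹ * z * g) := by
  have e1 : g * ((g⁻¹ * z * g) * z) * g⁻¹ = z * (g * z * g⁻¹) := by group
  have e2 : g * (z * (g⁻¹ * z * g)) * g⁻¹ = (g * z * g⁻¹) * z := by group
  have : g * ((g⁻¹ * z * g) * z) * g⁻¹ = g * (z * (g⁻¹ * z * g)) * g⁻¹ := by rw [e1, e2, h]
  exact mul_left_cancel (mul_right_cancel this)

/-- The context at the level of `G`. -/
structure Ctx (p : ℕ) [Fact p.Prime] {G : Type*} [Group G] (P : Subgroup G) (z : G) : Prop where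
  hpow : ∀ x ∈ P, x ^ p = 1
  zmem : z ∈ P
  zne : z ≠ 1
  zcent : ∀ y ∈ P, y * z = z * y
  hZ : ∀ w ∈ P, (∀ y ∈ P, y * w = w * y) → ∃ k : ZMod p, w = pw p z k
  hcomm : ∀ u ∈ P, ∀ v ∈ P, ∃ k : ZMod p, u * v * u⁻¹ * v⁻¹ = pw p z k
  hsurj : ∀ x ∈ P, (¬ ∀ y ∈ P, y * x = x * y) → ∀ s : ZMod p, ∃ y ∈ P, y * x * y⁻¹ * x⁻¹ = pw p z s
  hconj : ∀ u ∈ P, ∀ v ∈ P, u ≠ 1 → v ≠ 1 → ∃ g : G, g * u * g⁻¹ = v

section Fusion

variable [Finite G] {R : Sylow p G} {z : G} (C : Ctx p (R : Subgroup G) z)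
include C

/-- Step A: the double conjugation. -/
theorem stepA {x : G} (hxP : x ∈ (R : Subgroup G)) (hxne : x ≠ 1) :
    ∃ h : G, h * z * h⁻¹ = x ∧ h⁻¹ * z * h ∈ (R : Subgroup G) := by
  obtain ⟨g, hg⟩ := C.hconj z C.zmem x hxP C.zne hxne
  set w := g⁻¹ * z * g with hw
  have hwc : w * z = z * w := by
    apply conj_comm_aux
    rw [hg]
    exact C.zcent x hxP
  have hwp : w ^ p = 1 := by
    have : w = g⁻¹ * z * g⁻¹⁻¹ := by
      rw [hw, inv_inv]
    rw [this, conj_pow, C.hpow z C.zmem]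
    group
  have hwne : w ≠ 1 := by
    intro h1
    apply C.zne
    rw [hw] at h1
    have h2 : g * (g⁻¹ * z * g) * g⁻¹ = g * 1 * g⁻¹ := by rw [h1]
    simpa [mul_assoc] using h2
  have hQ : IsPGroup p (Subgroup.zpowers w) := by
    apply IsPGroup.of_card (n := 1)
    rw [Nat.card_zpowers, orderOf_eq_prime hwp hwne, pow_one]
  have hRC : (R : Subgroup G) ≤ Subgroup.centralizer ({z} : Set G) := by
    intro y hy
    rw [Subgroup.mem_centralizer_singleton_iff]
    exact C.zcent y hy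
  have hQC : Subgroup.zpowers w ≤ Subgroup.centralizer ({z} : Set G) := by
    rw [Subgroup.zpowers_le, Subgroup.mem_centralizer_singleton_iff]
    exact hwc
  obtain ⟨c, hc, hcw⟩ := exists_conj_in _ R hRC _ hQ hQC
  have hcz : c * z = z * c := (Subgroup.mem_centralizer_singleton_iff.1 hc)
  refine ⟨g * c, ?_, ?_⟩
  · have e : g * c * z * (g * c)⁻¹ = g * (c * z) * c⁻¹ * g⁻¹ := by group
    rw [e, hcz, ← hg]
    group
  · have e : (g * c)⁻¹ * z * (g * c) = c⁻¹ * w * c := by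
      rw [hw]
      group
    rw [e]
    exact hcw w (Subgroup.mem_zpowers w)

theorem fusion {x : G} (hxR : x ∈ (R : Subgroup G)) (hxc : ¬ ∀ y ∈ (R : Subgroup G), y * x = x * y) {τ : ZMod p}
    (hτ : τ ≠ 0) : ∃ t : G, (∀ y ∈ (R : Subgroup G), t * y * t⁻¹ ∈ (R : Subgroup G)) ∧
      (∃ k : ZMod p, t * x * t⁻¹ = pw p x τ * pw p z k) ∧ t * z * t⁻¹ = pw p z τ⁻¹ := by
  have hxne : x ≠ 1 := by
    rintro rfl
    exact hxc (fun y _ => by simp)
  have hxp : x ^ p = 1 := C.hpow x hxR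
  have hzp : z ^ p = 1 := C.hpow z C.zmem
  have hxz : Commute x z := C.zcent x hxR
  obtain ⟨h, hh1, hh2⟩ := stepA C hxR hxne
  set q := h⁻¹ * z * h with hq
  have hhq : h * q * h⁻¹ = z := by
    rw [hq]
    group
  have hhinvx : h⁻¹ * x * h = z := by
    rw [← hh1]
    group
  have hqc : ¬ ∀ y ∈ (R : Subgroup G), y * q = q * y := by
    intro hq'
    obtain ⟨k, hk⟩ := C.hZ q hh2 hq'
    have hk0 : k ≠ 0 := by
      rintro rfl
      rw [pw_zero] at hk
      rw [hk] at hhq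
      apply C.zne
      rw [← hhq]
      group
    have hzx : z = pw p x k := by
      rw [← hhq, hk, pw_conj, hh1]
    have hxz' : x = pw p z k⁻¹ := by
      rw [hzx, ← pw_mul hxp, mul_inv_cancel₀ hk0, pw_one]
    apply hxc
    intro y hy
    have hyz : Commute y z := C.zcent y hy
    rw [hxz']
    exact hyz.pow_right _
  have hL : ∀ s : ZMod p, ∃ y ∈ (R : Subgroup G), Acts x z y 1 0 s 1 := by
    intro s
    obtain ⟨y, hy, hys⟩ := C.hsurj x hxR hxc s
    refine ⟨y, hy, ?_, ?_⟩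
    · rw [vc, pw_one]
      have hc : Commute x (pw p z s) := hxz.pow_right _
      rw [hc.eq, ← hys]
      group
    · rw [vc_zero_one (p := p), C.zcent y hy]
      group
  have hU : ∀ r : ZMod p, ∃ u : G, Acts x z u 1 r 0 1 := by
    intro r
    obtain ⟨y, hy, hyr⟩ := C.hsurj q hh2 hqc r
    refine ⟨h * y * h⁻¹, ?_, ?_⟩
    · have e : h * y * h⁻¹ * x * (h * y * h⁻¹)⁻¹ = h * (y * (h⁻¹ * x * h) * y⁻¹) * h⁻¹ := by group
      rw [e, hhinvx, C.zcent y hy, vc_one_zero (p := p)]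
      have : h * (z * y * y⁻¹) * h⁻¹ = h * z * h⁻¹ := by group
      rw [this, hh1]
    · have e : h * y * h⁻¹ * z * (h * y * h⁻¹)⁻¹ = h * (y * q * y⁻¹) * h⁻¹ := by
        rw [hq]
        group
      have e2 : y * q * y⁻¹ = pw p z r * q := by
        rw [← hyr]
        group
      have e3 : h * (pw p z r * q) * h⁻¹ = (h * pw p z r * h⁻¹) * (h * q * h⁻¹) := by group
      rw [e, e2, e3, hhq, pw_conj, hh1, vc, pw_one]
  have hτi : τ * τ⁻¹ = 1 := mul_inv_cancel₀ hτ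
  have hE : ∃ e : G, Acts x z e τ 0 0 τ⁻¹ := by
    obtain ⟨y₁, -, h₁⟩ := hL (-(τ - 1) * τ⁻¹)
    obtain ⟨u₁, h₂⟩ := hU 1
    obtain ⟨y₂, -, h₃⟩ := hL (τ - 1)
    obtain ⟨u₂, h₄⟩ := hU (-τ⁻¹)
    refine ⟨y₁ * u₁ * y₂ * u₂, ?_⟩
    refine (Acts.comp hxp hzp hxz (Acts.comp hxp hzp hxz (Acts.comp hxp hzp hxz h₁ h₂) h₃) h₄).congr ?_ ?_ ?_ ?_
    · ring
    · field_simp
      ring
    · field_simp
      ring
    · field_simp
      ring
  obtain ⟨e, he⟩ := hE
  have hei := Acts.inv_of hxp hzp hxz he (A' := τ⁻¹) (B' := 0) (C' := 0) (D' := τ) (by linear_combination hτi) (by ring)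
    (by ring) (by linear_combination hτi)
  let K := Kgrp p hxp hzp hxz
  have hRK : (R : Subgroup G) ≤ K := by
    intro y hy
    obtain ⟨s, hs⟩ := C.hcomm y hy x hxR
    refine ⟨s, ?_, ?_⟩
    · rw [vc, pw_one]
      have hc : Commute x (pw p z s) := hxz.pow_right _
      rw [hc.eq, ← hs]
      group
    · rw [vc_zero_one (p := p), C.zcent y hy]
      group
  have hQ : IsPGroup p ((R : Subgroup G).map (MulAut.conj e).toMonoidHom) := R.isPGroup'.map _
  have hQK : (R : Subgroup G).map (MulAut.conj e).toMonoidHom ≤ K := by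
    rintro _ ⟨y, hy, rfl⟩
    obtain ⟨s, hs⟩ := hRK hy
    have h1 := Acts.comp hxp hzp hxz (Acts.comp hxp hzp hxz he hs) hei
    exact ⟨τ⁻¹ * s * τ⁻¹, h1.congr (by linear_combination hτi) (by ring) (by ring) (by linear_combination hτi)⟩
  obtain ⟨k, hkK, hk⟩ := exists_conj_in K R hRK _ hQ hQK
  obtain ⟨s, hs⟩ := K.inv_mem hkK
  refine ⟨k⁻¹ * e, ?_, ⟨s * τ, ?_⟩, ?_⟩
  · intro y hy
    have := hk _ ⟨y, hy, rfl⟩
    have e1 : k⁻¹ * e * y * (k⁻¹ * e)⁻¹ = k⁻¹ * (e * y * e⁻¹) * k := by group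
    rw [e1]
    exact this
  · have h1 := (Acts.comp hxp hzp hxz hs he).hx
    rw [h1, vc]
    congr 2 <;> ring
  · have h1 := (Acts.comp hxp hzp hxz hs he).hz
    rw [h1, vc]
    have e1 : (1 : ZMod p) * 0 + 0 * τ⁻¹ = 0 := by ring
    have e2 : s * 0 + 1 * τ⁻¹ = τ⁻¹ := by ring
    rw [e1, e2, pw_zero, one_mul]

end Fusion

end Cfsg.Agent.Lib.LocalEven.Extra3F
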