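/-
Klein's orbit count for actions in which every nonidentity element has exactly two fixed points (helper23).
-/
import Mathlib

set_option autoImplicit false
set_option linter.unusedVariables false

namespace Cfsg.Agent.Lib.LocalEven.Klein

open MulAction Finset

section Arith

theorem arith_final {N y u v s a b : ℕ} (hy : y * s = N) (hu : u * a = N) (hv : v * b = N) (hs : 4 ≤ s) (ha : 2 ≤ a)
    (hb : 2 ≤ b) (hy3 : 3 ≤ y) (hsum : y + u + v = N + 2) : y = 6 ∨ (y = 12 ∧ s = 5) := by
  have hy4 : 4 * y ≤ N := by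
    rw [← hy, mul_comm y s]
    exact Nat.mul_le_mul_right _ hs
  have hu2 : 2 * u ≤ N := by
    rw [← hu, mul_comm u a]
    exact Nat.mul_le_mul_right _ ha
  have hv2 : 2 * v ≤ N := by
    rw [← hv, mul_comm v b]
    exact Nat.mul_le_mul_right _ hb
  -- one of `a`, `b` equals 2
  have hcase : a = 2 ∨ b = 2 := by
    by_contra hcon
    push Not at hcon
    have h3a : 3 * u ≤ N := by
      rw [← hu, mul_comm u a]
      exact Nat.mul_le_mul_right _ (by omega)
    have h3b : 3 * v ≤ N := by
      rw [← hv, mul_comm v b]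
      exact Nat.mul_le_mul_right _ (by omega)
    omega
  have key : ∀ {u v a b : ℕ}, u * 2 = N → v * b = N → 2 ≤ b → y + u + v = N + 2 → y = 6 ∨ (y = 12 ∧ s = 5) := by
    intro u v a b hu hv hb hsum
    have hlt : b < 4 := by
      by_contra hcon
      have h4b : 4 * v ≤ N := by
        rw [← hv, mul_comm v b]
        exact Nat.mul_le_mul_right _ (by omega)
      omega
    interval_cases b
    · omega
    · -- `b = 3`
      have hs6 : s < 6 := by
        by_contra hcon
        have h6 : 6 * y ≤ N := by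
          rw [← hy, mul_comm y s]
          exact Nat.mul_le_mul_right _ (by omega)
        omega
      interval_cases s <;> omega
  rcases hcase with rfl | rfl
  · exact key (a := 0) hu hv hb hsum
  · exact key (a := 0) hv hu ha (by omega)

end Arith

section Main

variable {G X : Type*} [Group G] [Finite G] [MulAction G X] [Fintype X] [DecidableEq X]

/-- Order of the stabilizer. -/
noncomputable def sz (G : Type*) {X : Type*} [Group G] [MulAction G X] (x : X) : ℕ := Nat.card (stabilizer G x)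

open Classical in
/-- Orbits as finsets. -/
noncomputable def orb (G : Type*) {X : Type*} [Group G] [MulAction G X] [Fintype X] (x : X) : Finset X :=
  Finset.univ.filter (fun y => y ∈ orbit G x)

theorem mem_orb {x y : X} : y ∈ orb G x ↔ y ∈ orbit G x := by
  simp [orb]

theorem orb_card_mul (x : X) : (orb G x).card * sz G x = Nat.card G := by
  classical
  have h1 := Subgroup.card_mul_index (stabilizer G x)
  have h2 : (stabilizer G x).index = (orb G x).card := by
    rw [index_stabilizer, ← Fintype.card_coe, ← Nat.card_eq_fintype_card]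
    refine Nat.card_congr ⟨fun y => ⟨y.1, mem_orb.2 y.2⟩, fun y => ⟨y.1, mem_orb.1 y.2⟩, ?_, ?_⟩
    · intro y
      rfl
    · intro y
      rfl
  rw [← h2]
  show (stabilizer G x).index * Nat.card (stabilizer G x) = Nat.card G
  rw [mul_comm]
  exact h1

theorem sz_pos (x : X) : 0 < sz G x := Nat.card_pos

theorem sz_of_mem_orb {x y : X} (h : y ∈ orb G x) : sz G y = sz G x := by
  obtain ⟨g, rfl⟩ := mem_orb.1 h
  show Nat.card (stabilizer G (g • x)) = Nat.card (stabilizer G x)
  rw [stabilizer_smul_eq_stabilizer_map_conj]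
  exact Nat.card_congr ((stabilizer G x).equivMapOfInjective _ (MulEquiv.injective _)).symm.toEquiv

theorem orb_sum (x : X) : ∑ y ∈ orb G x, (sz G y - 1) = Nat.card G - (orb G x).card := by
  have h : ∀ y ∈ orb G x, sz G y - 1 = sz G x - 1 := fun y hy => by rw [sz_of_mem_orb hy]
  rw [Finset.sum_congr rfl h, Finset.sum_const, smul_eq_mul, Nat.mul_sub, mul_one, orb_card_mul]

theorem orb_disjoint {x y : X} (h : y ∉ orb G x) : Disjoint (orb G x) (orb G y) := by
  rw [Finset.disjoint_left]
  intro w hw1 hw2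
  apply h
  rw [mem_orb] at *
  have e1 : orbit G x = orbit G w := (orbit_eq_iff.2 hw1).symm
  have e2 : orbit G y = orbit G w := (orbit_eq_iff.2 hw2).symm
  rw [e1, ← e2]
  exact mem_orbit_self y

theorem mem_orb_self (x : X) : x ∈ orb G x := mem_orb.2 (mem_orbit_self x)

theorem burnside_sum (h2 : ∀ g : G, g ≠ 1 → (univ.filter (fun x : X => g • x = x)).card = 2) :
    ∑ x : X, (sz G x - 1) = 2 * (Nat.card G - 1) := by
  classical
  haveI : Fintype G := Fintype.ofFinite G
  have hsz : ∀ x : X, sz G x = (univ.filter (fun g : G => g • x = x)).card := by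
    intro x
    unfold sz
    rw [Nat.card_eq_fintype_card, ← Fintype.card_coe]
    refine Fintype.card_congr ⟨fun g => ⟨g.1, mem_filter.2 ⟨mem_univ _, g.2⟩⟩,
      fun g => ⟨g.1, (mem_filter.1 g.2).2⟩, ?_, ?_⟩
    · intro g
      rfl
    · intro g
      rfl
  have hdc : ∑ x : X, sz G x = ∑ g : G, (univ.filter (fun x : X => g • x = x)).card := by
    simp_rw [hsz]
    exact Finset.sum_card_bipartiteAbove_eq_sum_card_bipartiteBelow (fun (x : X) (g : G) => g • x = x)
  have hsplit : ∑ g : G, (univ.filter (fun x : X => g • x = x)).card = Fintype.card X + 2 * (Nat.card G - 1) := by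
    rw [← Finset.add_sum_erase _ _ (mem_univ (1 : G))]
    congr 1
    · simp [Finset.card_univ]
    · have : ∀ g ∈ (univ : Finset G).erase 1, (univ.filter (fun x : X => g • x = x)).card = 2 :=
        fun g hg => h2 g (Finset.ne_of_mem_erase hg)
      rw [Finset.sum_congr rfl this, Finset.sum_const, smul_eq_mul, mul_comm]
      congr 1
      rw [Finset.card_erase_of_mem (mem_univ _), Finset.card_univ, Nat.card_eq_fintype_card]
  have hsub : ∑ x : X, (sz G x - 1) + Fintype.card X = ∑ x : X, sz G x := by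
    rw [← Finset.card_univ, Finset.card_eq_sum_ones, ← Finset.sum_add_distrib]
    refine Finset.sum_congr rfl (fun x _ => ?_)
    have := sz_pos (G := G) x
    omega
  omega

/-- Sum of `sz - 1` over the complement. -/
theorem sum_compl (S : Finset X) : ∑ x ∈ Sᶜ, (sz G x - 1) + ∑ x ∈ S, (sz G x - 1) = ∑ x : X, (sz G x - 1) :=
  Finset.sum_compl_add_sum S _

theorem exists_of_sum_pos {S : Finset X} (h : 0 < ∑ x ∈ Sᶜ, (sz G x - 1)) : ∃ z, z ∉ S ∧ 2 ≤ sz G z := by
  obtain ⟨z, hz, hz2⟩ := Finset.exists_ne_zero_of_sum_ne_zero (ne_of_gt h)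
  refine ⟨z, by simpa using hz, by omega⟩

/-- An orbit outside `S` gives a contribution of at least half. -/
theorem half_of_outside {S : Finset X} (hS : ∀ g : G, ∀ y ∈ S, g • y ∈ S) {z : X} (hz : z ∉ S) (hz2 : 2 ≤ sz G z) :
    Nat.card G - (orb G z).card ≤ ∑ x ∈ Sᶜ, (sz G x - 1) := by
  rw [← orb_sum]
  refine Finset.sum_le_sum_of_subset (fun w hw => ?_)
  rw [Finset.mem_compl]
  intro hwS
  obtain ⟨g, rfl⟩ := mem_orb.1 hw
  apply hz
  have := hS g⁻¹ _ hwS
  simpa using this

theorem orb_two_le {z : X} (hz2 : 2 ≤ sz G z) : 2 * (orb G z).card ≤ Nat.card G := by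
  rw [← orb_card_mul z, mul_comm]
  exact Nat.mul_le_mul_left _ hz2

theorem orb_invariant (x : X) (g : G) : ∀ y ∈ orb G x, g • y ∈ orb G x := by
  intro y hy
  rw [mem_orb] at *
  obtain ⟨k, rfl⟩ := hy
  exact ⟨g * k, by simp [mul_smul]⟩

/-- Klein's count. -/
theorem klein (h2 : ∀ g : G, g ≠ 1 → (univ.filter (fun x : X => g • x = x)).card = 2) (Y : Finset X)
    (hYinv : ∀ g : G, ∀ y ∈ Y, g • y ∈ Y) (hY : Y.Nonempty) (h4 : ∀ y ∈ Y, 4 ≤ sz G y) :
    Y.card ≤ 2 ∨ Y.card = 6 ∨ (Y.card = 12 ∧ ∀ y ∈ Y, sz G y = 5) := by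
  have tot := burnside_sum (G := G) (X := X) h2
  have hNpos : 0 < Nat.card G := Nat.card_pos
  obtain ⟨y₀, hy₀⟩ := hY
  have hO₀sub : orb G y₀ ⊆ Y := by
    intro w hw
    obtain ⟨g, rfl⟩ := mem_orb.1 hw
    exact hYinv g _ hy₀
  have hO₀card := orb_card_mul (G := G) y₀
  have hs₀ := h4 y₀ hy₀
  have h4O₀ : 4 * (orb G y₀).card ≤ Nat.card G := by
    rw [← hO₀card, mul_comm]
    exact Nat.mul_le_mul_left _ hs₀
  have hsum₀ := orb_sum (G := G) y₀
  by_cases hA : ∃ y₁ ∈ Y, y₁ ∉ orb G y₀
  · -- two orbits inside `Y`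
    obtain ⟨y₁, hy₁, hy₁O⟩ := hA
    left
    have hO₁card := orb_card_mul (G := G) y₁
    have hs₁ := h4 y₁ hy₁
    have h4O₁ : 4 * (orb G y₁).card ≤ Nat.card G := by
      rw [← hO₁card, mul_comm]
      exact Nat.mul_le_mul_left _ hs₁
    have hsum₁ := orb_sum (G := G) y₁
    have hdisj := orb_disjoint (G := G) hy₁O
    set W := orb G y₀ ∪ orb G y₁ with hW
    have hWsum : ∑ x ∈ W, (sz G x - 1) = (Nat.card G - (orb G y₀).card) + (Nat.card G - (orb G y₁).card) := by
      rw [hW, Finset.sum_union hdisj, hsum₀, hsum₁]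
    have hWinv : ∀ g : G, ∀ y ∈ W, g • y ∈ W := by
      intro g y hy
      rw [hW, Finset.mem_union] at *
      exact hy.imp (orb_invariant _ g y) (orb_invariant _ g y)
    have hcompl := sum_compl (G := G) W
    rw [tot, hWsum] at hcompl
    have hout : ∀ z, z ∉ W → sz G z < 2 := by
      intro z hz
      by_contra hcon
      push Not at hcon
      have h1 := half_of_outside hWinv hz hcon
      have h3 := orb_two_le (G := G) hcon
      omega
    have hzero : ∑ x ∈ Wᶜ, (sz G x - 1) = 0 := by
      by_contra hcon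
      obtain ⟨z, hz, hz2⟩ := exists_of_sum_pos (G := G) (S := W) (Nat.pos_of_ne_zero hcon)
      exact absurd hz2 (not_le.2 (hout z hz))
    have hYW : Y ⊆ W := by
      intro y hy
      by_contra hcon
      have := hout y hcon
      have := h4 y hy
      omega
    have hcard := Finset.card_le_card hYW
    rw [hW, Finset.card_union_of_disjoint hdisj] at hcard
    omega
  · -- `Y` is a single orbit
    push Not at hA
    have hYeq : Y = orb G y₀ := Finset.Subset.antisymm hA hO₀sub
    by_cases hsmall : Y.card ≤ 2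
    · exact Or.inl hsmall
    right
    have hY3 : 3 ≤ Y.card := by omega
    rw [← hYeq] at hO₀card h4O₀ hsum₀
    have hYinv' := hYinv
    have hc₀ := sum_compl (G := G) Y
    rw [tot, hsum₀] at hc₀
    -- second orbit
    obtain ⟨z₁, hz₁, hz₁2⟩ := exists_of_sum_pos (G := G) (S := Y) (by omega)
    have hO₁card := orb_card_mul (G := G) z₁
    have hO₁two := orb_two_le (G := G) hz₁2
    have hd₁ : Disjoint Y (orb G z₁) := by
      rw [hYeq]
      exact orb_disjoint (G := G) (by rwa [← hYeq])
    have hsum₁ := orb_sum (G := G) z₁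
    set W₁ := Y ∪ orb G z₁ with hW₁
    have hW₁inv : ∀ g : G, ∀ y ∈ W₁, g • y ∈ W₁ := by
      intro g y hy
      rw [hW₁, Finset.mem_union] at *
      exact hy.imp (hYinv g y) (orb_invariant _ g y)
    have hc₁ := sum_compl (G := G) W₁
    rw [tot, hW₁, Finset.sum_union hd₁, hsum₀, hsum₁, ← hW₁] at hc₁
    obtain ⟨z₂, hz₂, hz₂2⟩ := exists_of_sum_pos (G := G) (S := W₁) (by omega)
    have hO₂card := orb_card_mul (G := G) z₂
    have hO₂two := orb_two_le (G := G) hz₂2
    have hd₂ : Disjoint W₁ (orb G z₂) := by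
      rw [Finset.disjoint_left]
      intro w hw hw2
      apply hz₂
      obtain ⟨g, rfl⟩ := mem_orb.1 hw2
      have := hW₁inv g⁻¹ _ hw
      simpa using this
    have hsum₂ := orb_sum (G := G) z₂
    set W₂ := W₁ ∪ orb G z₂ with hW₂
    have hW₂inv : ∀ g : G, ∀ y ∈ W₂, g • y ∈ W₂ := by
      intro g y hy
      rw [hW₂, Finset.mem_union] at *
      exact hy.imp (hW₁inv g y) (orb_invariant _ g y)
    have hc₂ := sum_compl (G := G) W₂
    rw [tot, hW₂, Finset.sum_union hd₂, hW₁, Finset.sum_union hd₁, hsum₀, hsum₁, hsum₂, ← hW₁, ← hW₂] at hc₂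
    have hzero : ∑ x ∈ W₂ᶜ, (sz G x - 1) = 0 := by
      by_contra hcon
      obtain ⟨z₃, hz₃, hz₃2⟩ := exists_of_sum_pos (G := G) (S := W₂) (Nat.pos_of_ne_zero hcon)
      have h1 := half_of_outside hW₂inv hz₃ hz₃2
      have h3 := orb_two_le (G := G) hz₃2
      omega
    rw [hzero] at hc₂
    have hsum : Y.card + (orb G z₁).card + (orb G z₂).card = Nat.card G + 2 := by omega
    have hfinal := arith_final hO₀card hO₁card hO₂card hs₀ hz₁2 hz₂2 hY3 hsum
    rcases hfinal with h | ⟨h, h'⟩
    · exact Or.inl h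
    · refine Or.inr ⟨h, fun y hy => ?_⟩
      rw [hYeq] at hy
      rw [sz_of_mem_orb hy, h']

end Main

end Cfsg.Agent.Lib.LocalEven.Klein
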