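/-
Fixed points of elements of `GL₂(𝔽_p)` on the projective line over a quadratic extension (helper23).
-/
import Mathlib

set_option autoImplicit false
set_option linter.unusedVariables false

namespace Cfsg.Agent.Lib.LocalEven.Mob

open Matrix OnePoint

section Fixed

variable {K : Type*} [Field K] [DecidableEq K]

theorem coe_fixed_iff (g : GL (Fin 2) K) (k : K) :
    g • (k : OnePoint K) = k ↔ g 1 0 * k ^ 2 + (g 1 1 - g 0 0) * k - g 0 1 = 0 := by
  rw [← Matrix.GeneralLinearGroup.fixpointPolynomial_aeval_eq_zero_iff]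
  simp [Matrix.GeneralLinearGroup.fixpointPolynomial]

theorem card_fixed_two [Fintype K] (h2 : (2 : K) ≠ 0) (g : GL (Fin 2) K) (δ : K) (hδ : δ ≠ 0)
    (hd : δ * δ = (g 0 0 - g 1 1) ^ 2 + 4 * g 0 1 * g 1 0) [DecidablePred fun x : OnePoint K => g • x = x] :
    (Finset.univ.filter (fun x : OnePoint K => g • x = x)).card = 2 := by
  classical
  by_cases hC : g 1 0 = 0
  · have hne : g 1 1 - g 0 0 ≠ 0 := by
      intro h
      apply hδ
      have h0 : δ * δ = 0 := by
        rw [hd, hC]
        linear_combination (g 1 1 - g 0 0) * h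
      exact mul_self_eq_zero.1 h0
    have hset : (Finset.univ.filter (fun x : OnePoint K => g • x = x))
        = {(∞ : OnePoint K), ((g 0 1 / (g 1 1 - g 0 0) : K) : OnePoint K)} := by
      ext x
      simp only [Finset.mem_filter, Finset.mem_univ, true_and, Finset.mem_insert, Finset.mem_singleton]
      induction x using OnePoint.rec with
      | infty =>
        simp [OnePoint.smul_infty_eq_self_iff, hC]
      | coe k =>
        rw [coe_fixed_iff, hC]
        constructor
        · intro h
          right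
          rw [OnePoint.coe_eq_coe, eq_div_iff hne]
          linear_combination h
        · rintro (h | h)
          · exact absurd h (OnePoint.coe_ne_infty _)
          · rw [OnePoint.coe_eq_coe] at h
            rw [h]
            field_simp
            ring
    rw [hset, Finset.card_pair]
    exact (OnePoint.coe_ne_infty _).symm
  · have h2C : 2 * g 1 0 ≠ 0 := mul_ne_zero h2 hC
    have hset : (Finset.univ.filter (fun x : OnePoint K => g • x = x))
        = {(((g 0 0 - g 1 1 + δ) / (2 * g 1 0) : K) : OnePoint K),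
            (((g 0 0 - g 1 1 - δ) / (2 * g 1 0) : K) : OnePoint K)} := by
      ext x
      simp only [Finset.mem_filter, Finset.mem_univ, true_and, Finset.mem_insert, Finset.mem_singleton]
      induction x using OnePoint.rec with
      | infty =>
        simp [OnePoint.smul_infty_eq_self_iff, hC]
      | coe k =>
        rw [coe_fixed_iff, OnePoint.coe_eq_coe, OnePoint.coe_eq_coe, eq_div_iff h2C, eq_div_iff h2C]
        constructor
        · intro h
          have h1 : (k * (2 * g 1 0) - (g 0 0 - g 1 1)) * (k * (2 * g 1 0) - (g 0 0 - g 1 1)) = δ * δ := by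
            rw [hd]
            linear_combination 4 * g 1 0 * h
          rcases mul_self_eq_mul_self_iff.1 h1 with h3 | h3
          · left
            linear_combination h3
          · right
            linear_combination h3
        · rintro (h | h)
          · have : 2 * (2 * g 1 0) * (g 1 0 * k ^ 2 + (g 1 1 - g 0 0) * k - g 0 1) = 0 := by
              have e : k * (2 * g 1 0) - (g 0 0 - g 1 1) = δ := by linear_combination h
              have : (k * (2 * g 1 0) - (g 0 0 - g 1 1)) * (k * (2 * g 1 0) - (g 0 0 - g 1 1)) = δ * δ := by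
                rw [e]
              rw [hd] at this
              linear_combination this
            exact (mul_eq_zero.1 this).resolve_left (mul_ne_zero h2 h2C)
          · have : 2 * (2 * g 1 0) * (g 1 0 * k ^ 2 + (g 1 1 - g 0 0) * k - g 0 1) = 0 := by
              have e : k * (2 * g 1 0) - (g 0 0 - g 1 1) = -δ := by linear_combination h
              have : (k * (2 * g 1 0) - (g 0 0 - g 1 1)) * (k * (2 * g 1 0) - (g 0 0 - g 1 1)) = δ * δ := by
                rw [e]
                ring
              rw [hd] at this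
              linear_combination this
            exact (mul_eq_zero.1 this).resolve_left (mul_ne_zero h2 h2C)
    rw [hset, Finset.card_pair]
    intro h
    rw [OnePoint.coe_eq_coe, div_left_inj' h2C] at h
    apply hδ
    have : 2 * δ = 0 := by linear_combination h
    exact (mul_eq_zero.1 this).resolve_left h2

theorem scalar_of_trivial (g : GL (Fin 2) K) (h : ∀ x : OnePoint K, g • x = x) :
    g 0 1 = 0 ∧ g 1 0 = 0 ∧ g 0 0 = g 1 1 := by
  have h1 : g 1 0 = 0 := OnePoint.smul_infty_eq_self_iff.1 (h _)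
  have h2 := (coe_fixed_iff g 0).1 (h _)
  have h3 := (coe_fixed_iff g 1).1 (h _)
  refine ⟨?_, h1, ?_⟩
  · linear_combination -h2
  · rw [h1] at h3
    linear_combination -h3 + h2

theorem trivial_of_scalar (g : GL (Fin 2) K) (h : g 0 1 = 0 ∧ g 1 0 = 0 ∧ g 0 0 = g 1 1) (x : OnePoint K) :
    g • x = x := by
  obtain ⟨h1, h2, h3⟩ := h
  induction x using OnePoint.rec with
  | infty => exact OnePoint.smul_infty_eq_self_iff.2 h2
  | coe k =>
    rw [coe_fixed_iff, h1, h2, h3]
    ring

end Fixed

section Disc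

variable {F : Type*} [Field F]

theorem pow_nil (N : Matrix (Fin 2) (Fin 2) F) (τ : F) (hN : N * N = 0) (n : ℕ) :
    (τ • (1 : Matrix (Fin 2) (Fin 2) F) + N) ^ (n + 1) = τ ^ (n + 1) • (1 : Matrix (Fin 2) (Fin 2) F) + (((n : F) + 1) * τ ^ n) • N := by
  induction n with
  | zero => simp
  | succ n ih =>
    rw [pow_succ, ih]
    simp only [add_mul, mul_add, smul_mul_assoc, mul_smul_comm, mul_one, one_mul, hN, smul_zero, add_zero, smul_smul]
    push_cast
    ext i j
    simp only [Matrix.add_apply, Matrix.smul_apply, smul_eq_mul]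
    ring

theorem disc_ne_zero [DecidableEq F] (h2 : (2 : F) ≠ 0) (g : GL (Fin 2) F) (r : ℕ) (hr : g ^ r = 1) (hrF : (r : F) ≠ 0)
    (hns : ¬ (g 0 1 = 0 ∧ g 1 0 = 0 ∧ g 0 0 = g 1 1)) : (g 0 0 - g 1 1) ^ 2 + 4 * g 0 1 * g 1 0 ≠ 0 := by
  intro hdisc
  obtain ⟨n, rfl⟩ : ∃ n, r = n + 1 := by
    cases r with
    | zero => exact absurd (by simp) hrF
    | succ n => exact ⟨n, rfl⟩
  set A := g 0 0 with hA
  set B := g 0 1 with hB
  set C := g 1 0 with hC
  set D := g 1 1 with hD
  obtain ⟨τ, hτ⟩ : ∃ τ : F, τ = (A + D) / 2 := ⟨_, rfl⟩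
  obtain ⟨α, hα⟩ : ∃ α : F, α = (A - D) / 2 := ⟨_, rfl⟩
  have hAe : A = τ + α := by
    rw [hτ, hα]
    field_simp
    ring
  have hDe : D = τ - α := by
    rw [hτ, hα]
    field_simp
    ring
  have h2α : 2 * α = A - D := by
    rw [hα]
    field_simp
  have hαB : α * α + B * C = 0 := by
    have : 4 * (α * α + B * C) = 0 := by
      linear_combination hdisc + (2 * α + (A - D)) * h2α
    have h4 : (4 : F) ≠ 0 := by
      have : (4 : F) = 2 * 2 := by norm_num
      rw [this]
      exact mul_ne_zero h2 h2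
    exact (mul_eq_zero.1 this).resolve_left h4
  set N : Matrix (Fin 2) (Fin 2) F := !![α, B; C, -α] with hNdef
  have hM : (g : Matrix (Fin 2) (Fin 2) F) = τ • (1 : Matrix (Fin 2) (Fin 2) F) + N := by
    ext i j
    fin_cases i <;> fin_cases j
    · simp [hNdef, hAe, ← hA]
    · simp [hNdef, ← hB]
    · simp [hNdef, ← hC]
    · simp [hNdef, hDe, ← hD, sub_eq_add_neg]
  have hNN : N * N = 0 := by
    rw [hNdef, Matrix.mul_fin_two]
    ext i j
    fin_cases i <;> fin_cases j
    · simpa using hαB
    · simp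
      ring
    · simp
      ring
    · simpa [mul_comm] using (by linear_combination hαB : C * B + α * α = 0)
  have hdet : τ * τ = A * D - B * C := by
    linear_combination (-D) * hAe - (τ + α) * hDe + hαB
  have hτ0 : τ ≠ 0 := by
    intro h0
    have hd0 : (g : Matrix (Fin 2) (Fin 2) F).det ≠ 0 := g.det_ne_zero
    apply hd0
    rw [Matrix.det_fin_two]
    rw [h0] at hdet
    linear_combination -hdet
  have hpow : ((g : Matrix (Fin 2) (Fin 2) F)) ^ (n + 1) = 1 := by
    have := congrArg (fun u : GL (Fin 2) F => (u : Matrix (Fin 2) (Fin 2) F)) hr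
    simpa using this
  rw [hM, pow_nil N τ hNN] at hpow
  have hcoef : ((n : F) + 1) * τ ^ n ≠ 0 := by
    refine mul_ne_zero ?_ (pow_ne_zero _ hτ0)
    simpa using hrF
  have e01 := congrFun (congrFun hpow 0) 1
  have e10 := congrFun (congrFun hpow 1) 0
  have e00 := congrFun (congrFun hpow 0) 0
  have e11 := congrFun (congrFun hpow 1) 1
  simp [hNdef] at e01 e10 e00 e11
  apply hns
  rcases e01 with e01 | e01
  · exact absurd e01 (by intro h; rcases h with h | h <;> [exact absurd h (by simpa using hrF); exact hτ0 h.1])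
  rcases e10 with e10 | e10
  · exact absurd e10 (by intro h; rcases h with h | h <;> [exact absurd h (by simpa using hrF); exact hτ0 h.1])
  refine ⟨e01, e10, ?_⟩
  have h0 : 2 * (((n : F) + 1) * τ ^ n) * α = 0 := by
    linear_combination e00 - e11
  have hα0 : α = 0 := (mul_eq_zero.1 h0).resolve_left (mul_ne_zero h2 hcoef)
  rw [hAe, hDe, hα0]
  ring

end Disc

section Final

variable {p : ℕ} [Fact p.Prime] {K : Type*} [Field K] [DecidableEq K] [Fintype K]

theorem sq_of_base (hp : p ≠ 2) (ι : ZMod p →+* K) (hK : Fintype.card K = p ^ 2) (b : ZMod p) : IsSquare (ι b) := by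
  by_cases hb : b = 0
  · rw [hb, map_zero]
    exact IsSquare.zero
  have hi : Function.Injective ι := ι.injective
  have hpp : p.Prime := Fact.out
  haveI : CharP K p := charP_of_injective_ringHom hi p
  have hchar : ringChar K ≠ 2 := by
    rw [ringChar.eq K p]
    exact hp
  rw [FiniteField.isSquare_iff hchar ((map_ne_zero ι).2 hb), hK]
  obtain ⟨m, hm⟩ : ∃ m, p = 2 * m + 1 := by
    rcases hpp.eq_two_or_odd' with h | h
    · exact absurd h hp
    · exact h
  have hdiv : p ^ 2 / 2 = (p - 1) * (m + 1) := by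
    rw [hm]
    have : (2 * m + 1) ^ 2 = 2 * ((2 * m + 1 - 1) * (m + 1)) + 1 := by
      rw [Nat.add_sub_cancel]
      ring
    omega
  rw [hdiv, ← map_pow, pow_mul, ZMod.pow_card_sub_one_eq_one hb, one_pow, map_one]

theorem two_ne (hp : p ≠ 2) (ι : ZMod p →+* K) : (2 : K) ≠ 0 := by
  have h : (2 : ZMod p) ≠ 0 := by
    intro h0
    have : ((2 : ℕ) : ZMod p) = 0 := by exact_mod_cast h0
    rw [ZMod.natCast_eq_zero_iff] at this
    have hpp : p.Prime := Fact.out
    exact hp ((Nat.prime_dvd_prime_iff_eq hpp Nat.prime_two).1 this)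
  have := (map_ne_zero ι).2 h
  rwa [map_ofNat] at this

theorem fixed_two (hp : p ≠ 2) (ι : ZMod p →+* K) (hK : Fintype.card K = p ^ 2) (g : GL (Fin 2) (ZMod p)) {r : ℕ}
    (hr : g ^ r = 1) (hpr : ¬ p ∣ r) (hmove : ∃ x : OnePoint K, (Matrix.GeneralLinearGroup.map ι g) • x ≠ x)
    [DecidablePred fun x : OnePoint K => (Matrix.GeneralLinearGroup.map ι g) • x = x] :
    (Finset.univ.filter (fun x : OnePoint K => (Matrix.GeneralLinearGroup.map ι g) • x = x)).card = 2 := by
  have h2p : (2 : ZMod p) ≠ 0 := by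
    intro h0
    have : ((2 : ℕ) : ZMod p) = 0 := by exact_mod_cast h0
    rw [ZMod.natCast_eq_zero_iff] at this
    have hpp : p.Prime := Fact.out
    exact hp ((Nat.prime_dvd_prime_iff_eq hpp Nat.prime_two).1 this)
  have hrF : (r : ZMod p) ≠ 0 := by
    rwa [Ne, ZMod.natCast_eq_zero_iff]
  have hns : ¬ (g 0 1 = 0 ∧ g 1 0 = 0 ∧ g 0 0 = g 1 1) := by
    rintro ⟨h1, h2, h3⟩
    obtain ⟨x, hx⟩ := hmove
    apply hx
    apply trivial_of_scalar
    simp [h1, h2, h3]
  have hdisc := disc_ne_zero h2p g r hr hrF hns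
  obtain ⟨δ, hδ⟩ := sq_of_base hp ι hK ((g 0 0 - g 1 1) ^ 2 + 4 * g 0 1 * g 1 0)
  have hδ0 : δ ≠ 0 := by
    rintro rfl
    rw [mul_zero] at hδ
    exact ((map_ne_zero ι).2 hdisc) hδ
  refine card_fixed_two (two_ne hp ι) _ δ hδ0 ?_
  rw [← hδ]
  simp [map_ofNat]

end Final

end Cfsg.Agent.Lib.LocalEven.Mob
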