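/-
Assembly: a Sylow subgroup extraspecial of order `p³`, exponent `p`, all nonidentity elements conjugate, forces `p ≤ 7` (helper23).
-/
import Cfsg.Agent.Lib.LocalEven.Extra3F
import Cfsg.Agent.Lib.LocalEven.Mob
import Cfsg.Agent.Lib.LocalEven.Klein
import Cfsg.Prelude.Def_Transfer

set_option autoImplicit false
set_option linter.unusedVariables false

namespace Cfsg.Agent.Lib.LocalEven.Extra3G

open Cfsg.Agent.Lib.LocalEven.Extra3 Cfsg.Agent.Lib.LocalEven.Extra3F Cfsg.Agent.Lib.LocalEven.Mob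
open Matrix OnePoint
open scoped commutatorElement

variable {p : ℕ} [Fact p.Prime]

section Vec

/-- Vector of a point of the projective line. -/
def vecOf (c : OnePoint (ZMod p)) : ZMod p × ZMod p := c.elim (1, 0) (fun k => (k, 1))

theorem vecOf_ne (c : OnePoint (ZMod p)) : (vecOf c).1 ≠ 0 ∨ (vecOf c).2 ≠ 0 := by
  induction c using OnePoint.rec with
  | infty => exact Or.inl one_ne_zero
  | coe k => exact Or.inr one_ne_zero

theorem fix_of_eigen (g : GL (Fin 2) (ZMod p)) (c : OnePoint (ZMod p)) (τ : ZMod p)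
    (h1 : g 0 0 * (vecOf c).1 + g 0 1 * (vecOf c).2 = τ * (vecOf c).1)
    (h2 : g 1 0 * (vecOf c).1 + g 1 1 * (vecOf c).2 = τ * (vecOf c).2) : g • c = c := by
  induction c using OnePoint.rec with
  | infty =>
    apply OnePoint.smul_infty_eq_self_iff.2
    have h2' : g 1 0 * 1 + g 1 1 * 0 = τ * 0 := h2
    simpa using h2'
  | coe k =>
    rw [coe_fixed_iff]
    have h1' : g 0 0 * k + g 0 1 * 1 = τ * k := h1
    have h2' : g 1 0 * k + g 1 1 * 1 = τ * 1 := h2
    linear_combination k * h2' - h1'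

/-- Powers of an element with an eigenvector. -/
theorem pow_eigen (g : GL (Fin 2) (ZMod p)) (v₀ v₁ τ : ZMod p) (h1 : g 0 0 * v₀ + g 0 1 * v₁ = τ * v₀)
    (h2 : g 1 0 * v₀ + g 1 1 * v₁ = τ * v₁) (i : ℕ) :
    (g ^ i) 0 0 * v₀ + (g ^ i) 0 1 * v₁ = τ ^ i * v₀ ∧ (g ^ i) 1 0 * v₀ + (g ^ i) 1 1 * v₁ = τ ^ i * v₁ := by
  induction i with
  | zero => simp
  | succ i ih =>
    obtain ⟨e1, e2⟩ := ih
    have hm : ((g ^ (i + 1) : GL (Fin 2) (ZMod p)) : Matrix (Fin 2) (Fin 2) (ZMod p))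
        = ((g ^ i : GL (Fin 2) (ZMod p)) : Matrix (Fin 2) (Fin 2) (ZMod p)) * (g : Matrix (Fin 2) (Fin 2) (ZMod p)) := by
      rw [pow_succ]
      rfl
    rw [hm, Matrix.mul_apply, Matrix.mul_apply, Matrix.mul_apply, Matrix.mul_apply]
    simp only [Fin.sum_univ_two]
    constructor
    · linear_combination ((g ^ i : GL (Fin 2) (ZMod p)) : Matrix (Fin 2) (Fin 2) (ZMod p)) 0 0 * h1
        + ((g ^ i : GL (Fin 2) (ZMod p)) : Matrix (Fin 2) (Fin 2) (ZMod p)) 0 1 * h2 + τ * e1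
    · linear_combination ((g ^ i : GL (Fin 2) (ZMod p)) : Matrix (Fin 2) (Fin 2) (ZMod p)) 1 0 * h1
        + ((g ^ i : GL (Fin 2) (ZMod p)) : Matrix (Fin 2) (Fin 2) (ZMod p)) 1 1 * h2 + τ * e2

theorem scalar_eigen (g : GL (Fin 2) (ZMod p)) (v₀ v₁ τ : ZMod p) (hv : v₀ ≠ 0 ∨ v₁ ≠ 0)
    (h1 : g 0 0 * v₀ + g 0 1 * v₁ = τ * v₀) (h2 : g 1 0 * v₀ + g 1 1 * v₁ = τ * v₁)
    (hdet : (g : Matrix (Fin 2) (Fin 2) (ZMod p)).det * τ = 1) (i : ℕ)
    (hs : (g ^ i) 0 1 = 0 ∧ (g ^ i) 1 0 = 0 ∧ (g ^ i) 0 0 = (g ^ i) 1 1) : τ ^ (3 * i) = 1 := by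
  obtain ⟨e1, e2⟩ := pow_eigen g v₀ v₁ τ h1 h2 i
  obtain ⟨s1, s2, s3⟩ := hs
  rw [s1] at e1
  rw [s2] at e2
  have hs : (g ^ i) 0 0 = τ ^ i := by
    rcases hv with hv | hv
    · apply mul_right_cancel₀ hv
      linear_combination e1
    · apply mul_right_cancel₀ hv
      rw [s3]
      linear_combination e2
  have hd : ((g ^ i : GL (Fin 2) (ZMod p)) : Matrix (Fin 2) (Fin 2) (ZMod p)).det = τ ^ i * τ ^ i := by
    rw [Matrix.det_fin_two, s1, s2, ← s3, hs]
    ring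
  have hd2 : ((g ^ i : GL (Fin 2) (ZMod p)) : Matrix (Fin 2) (Fin 2) (ZMod p)).det
      = (g : Matrix (Fin 2) (Fin 2) (ZMod p)).det ^ i := by
    rw [Units.val_pow_eq_pow_val, Matrix.det_pow]
  have h3 : τ ^ (3 * i) = ((g : Matrix (Fin 2) (Fin 2) (ZMod p)).det * τ) ^ i := by
    rw [mul_pow, ← hd2, hd]
    ring
  rw [h3, hdet, one_pow]

theorem exists_gen : ∃ τ : ZMod p, τ ≠ 0 ∧ ∀ n : ℕ, τ ^ n = 1 → (p - 1) ∣ n := by
  obtain ⟨g, hg⟩ := IsCyclic.exists_generator (α := (ZMod p)ˣ)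
  refine ⟨(g : ZMod p), g.ne_zero, fun n hn => ?_⟩
  have h1 : orderOf g = p - 1 := by
    rw [orderOf_eq_card_of_forall_mem_zpowers hg, Nat.card_eq_fintype_card, ZMod.card_units]
  rw [← h1]
  apply orderOf_dvd_of_pow_eq_one
  apply Units.ext
  simpa using hn

end Vec

section Klein

variable {K : Type*} [Field K] [DecidableEq K] [Fintype K]
variable {N : Type*} [Group N] [Finite N]

theorem klein_contra (hp : p ≠ 2) (h11 : 11 ≤ p) (ι : ZMod p →+* K) (hK : Fintype.card K = p ^ 2)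
    (ψ : N →* GL (Fin 2) (ZMod p)) (hP1 : ∀ t, ∃ r, ¬ p ∣ r ∧ (ψ t) ^ r = 1)
    (hP2 : ∀ v₀ v₁ : ZMod p, (v₀ ≠ 0 ∨ v₁ ≠ 0) → ∀ τ : ZMod p, τ ≠ 0 → ∃ t, (ψ t) 0 0 * v₀ + (ψ t) 0 1 * v₁ = τ * v₀ ∧
      (ψ t) 1 0 * v₀ + (ψ t) 1 1 * v₁ = τ * v₁ ∧ ((ψ t : GL (Fin 2) (ZMod p)) : Matrix (Fin 2) (Fin 2) (ZMod p)).det * τ = 1) :
    False := by
  classical
  let M : GL (Fin 2) (ZMod p) →* GL (Fin 2) K := Matrix.GeneralLinearGroup.map ι
  let ρ : N →* Equiv.Perm (OnePoint K) := (MulAction.toPermHom (GL (Fin 2) K) (OnePoint K)).comp (M.comp ψ)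
  have hρ : ∀ t x, ρ t x = M (ψ t) • x := fun t x => rfl
  let G₁ := ρ.range
  have hgx : ∀ (g : G₁) (x : OnePoint K), g • x = (g : Equiv.Perm (OnePoint K)) x := fun g x => rfl
  -- two fixed points
  have h2 : ∀ g : G₁, g ≠ 1 → (Finset.univ.filter (fun x : OnePoint K => g • x = x)).card = 2 := by
    rintro ⟨_, t, rfl⟩ hg
    obtain ⟨r, hr, hr1⟩ := hP1 t
    have hmove : ∃ x : OnePoint K, M (ψ t) • x ≠ x := by
      by_contra hcon
      push Not at hcon
      apply hg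
      apply Subtype.ext
      apply Equiv.ext
      intro x
      exact hcon x
    exact fixed_two hp ι hK (ψ t) hr1 hr hmove
  let Y : Finset (OnePoint K) := Finset.univ.image (OnePoint.map ι)
  have hYcard : Y.card = p + 1 := by
    rw [Finset.card_image_of_injective]
    · rw [Finset.card_univ]
      show Fintype.card (Option (ZMod p)) = p + 1
      rw [Fintype.card_option, ZMod.card]
    · exact Option.map_injective ι.injective
  have hYinv : ∀ g : G₁, ∀ y ∈ Y, g • y ∈ Y := by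
    rintro ⟨_, t, rfl⟩ y hy
    obtain ⟨c, -, rfl⟩ := Finset.mem_image.1 hy
    refine Finset.mem_image.2 ⟨ψ t • c, Finset.mem_univ _, ?_⟩
    exact OnePoint.map_smul ι (ψ t) c
  have hYne : Y.Nonempty := Finset.card_pos.1 (by omega)
  obtain ⟨τ, hτ, hτgen⟩ := exists_gen (p := p)
  have key : ∀ y ∈ Y, ∃ o, 0 < o ∧ o ∣ Klein.sz G₁ y ∧ (p - 1) ∣ 3 * o := by
    intro y hy
    obtain ⟨c, -, rfl⟩ := Finset.mem_image.1 hy
    obtain ⟨t, h1, h2', h3⟩ := hP2 _ _ (vecOf_ne c) τ hτ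
    have hfix : ψ t • c = c := fix_of_eigen _ c τ h1 h2'
    let g₁ : G₁ := ⟨ρ t, t, rfl⟩
    have hst : g₁ ∈ MulAction.stabilizer G₁ (OnePoint.map ι c) := by
      rw [MulAction.mem_stabilizer_iff]
      show M (ψ t) • (OnePoint.map ι c) = _
      have := OnePoint.map_smul ι (ψ t) c
      rw [hfix] at this
      exact this.symm
    refine ⟨orderOf g₁, orderOf_pos _, ?_, ?_⟩
    · have h4 := orderOf_dvd_natCard (⟨g₁, hst⟩ : MulAction.stabilizer G₁ (OnePoint.map ι c))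
      rw [Subgroup.orderOf_mk] at h4
      exact h4
    · apply hτgen
      apply scalar_eigen (ψ t) _ _ τ (vecOf_ne c) h1 h2' h3
      have hpow : g₁ ^ orderOf g₁ = 1 := pow_orderOf_eq_one _
      have htriv : ∀ x : OnePoint K, M ((ψ t) ^ orderOf g₁) • x = x := by
        intro x
        have h5 : (g₁ ^ orderOf g₁ : G₁) • x = x := by rw [hpow, one_smul]
        have h6 : (g₁ ^ orderOf g₁ : G₁) • x = (ρ (t ^ orderOf g₁)) x := by
          rw [hgx]
          congr 1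
          show (g₁ : Equiv.Perm (OnePoint K)) ^ orderOf g₁ = _
          rw [map_pow]
        rw [h6, hρ, map_pow] at h5
        exact h5
      obtain ⟨s1, s2, s3⟩ := scalar_of_trivial _ htriv
      refine ⟨?_, ?_, ?_⟩
      · apply ι.injective
        rw [map_zero]
        exact s1
      · apply ι.injective
        rw [map_zero]
        exact s2
      · apply ι.injective
        exact s3
  have h4 : ∀ y ∈ Y, 4 ≤ Klein.sz G₁ y := by
    intro y hy
    obtain ⟨o, ho, ho1, ho2⟩ := key y hy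
    have h3o := Nat.le_of_dvd (by omega) ho2
    have h5 := Nat.le_of_dvd (Klein.sz_pos (G := G₁) y) ho1
    omega
  rcases Klein.klein h2 Y hYinv hYne h4 with h | h | ⟨h, h'⟩
  · omega
  · omega
  · obtain ⟨y, hy⟩ := hYne
    obtain ⟨o, ho, ho1, ho2⟩ := key y hy
    rw [h' y hy] at ho1
    have hp11 : p = 11 := by omega
    have ho5 : o = 1 ∨ o = 5 := (Nat.dvd_prime (by norm_num)).1 ho1
    rw [hp11] at ho2
    rcases ho5 with rfl | rfl <;> revert ho2 <;> decide

end Klein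

section Main

theorem exists_data {A : Type*} [Group A] (hE : Cfsg.IsExtraspecial p A) (hcard : Nat.card A = p ^ 3)
    (hexp : Monoid.exponent A = p) : Nonempty (Data p A) := by
  have hpp : p.Prime := Fact.out
  have hZ := hE.2
  have hcomm : commutator A = Subgroup.center A := hE.1.2.2
  have hpow : ∀ x : A, x ^ p = 1 := fun x => by
    rw [← hexp]
    exact Monoid.pow_exponent_eq_one x
  have hcent : ∀ x y : A, ⁅x, y⁆ ∈ Subgroup.center A := fun x y => by
    rw [← hcomm]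
    exact Subgroup.commutator_mem_commutator (Subgroup.mem_top x) (Subgroup.mem_top y)
  have hex : ∃ a b : A, ⁅a, b⁆ ≠ 1 := by
    by_contra hcon
    push Not at hcon
    have hc : Subgroup.center A = ⊤ := by
      rw [eq_top_iff]
      intro x _
      rw [Subgroup.mem_center_iff]
      intro y
      exact (commutatorElement_eq_one_iff_mul_comm.1 (hcon y x))
    rw [hc, Subgroup.card_top, hcard] at hZ
    have h2 : p ^ 3 = p ^ 1 := by rw [hZ, pow_one]
    have := Nat.pow_right_injective hpp.two_le h2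
    omega
  obtain ⟨a, b, hab⟩ := hex
  exact ⟨⟨a, b, hpow, hcent, hab, hZ, hcard⟩⟩

variable {G : Type*} [Group G]

theorem coe_pw {P : Subgroup G} (y : ↥P) (k : ZMod p) : ((pw p y k : ↥P) : G) = pw p (y : G) k :=
  map_pw P.subtype y k

theorem mk_ctx {P : Subgroup G} (D : Data p ↥P)
    (hconj : ∀ x y : ↥P, x ≠ 1 → y ≠ 1 → ∃ g : G, g * (x : G) * g⁻¹ = (y : G)) :
    Ctx p P (D.z : G) where
  hpow := fun x hx => by
    have := D.hpow ⟨x, hx⟩
    simpa using congrArg Subtype.val this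
  zmem := D.z.2
  zne := fun h => D.z_ne (Subtype.ext h)
  zcent := fun y hy => by
    have := (Subgroup.mem_center_iff.1 D.z_mem) ⟨y, hy⟩
    simpa using congrArg Subtype.val this
  hZ := fun w hw hc => by
    have hm : (⟨w, hw⟩ : ↥P) ∈ Subgroup.center ↥P := by
      rw [Subgroup.mem_center_iff]
      intro g
      exact Subtype.ext (hc g.1 g.2)
    obtain ⟨k, hk⟩ := D.exists_pw_of_mem hm
    refine ⟨k, ?_⟩
    rw [← coe_pw, hk]
  hcomm := fun u hu v hv => by
    obtain ⟨k, hk⟩ := D.exists_pw_of_mem (D.hcent ⟨u, hu⟩ ⟨v, hv⟩)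
    refine ⟨k, ?_⟩
    rw [← coe_pw, hk, commutatorElement_def]
    rfl
  hsurj := fun x hx hc s => by
    have hm : (⟨x, hx⟩ : ↥P) ∉ Subgroup.center ↥P := by
      intro h
      apply hc
      intro y hy
      have := (Subgroup.mem_center_iff.1 h) ⟨y, hy⟩
      simpa using congrArg Subtype.val this
    obtain ⟨y, hy⟩ := D.exists_comm_eq hm s
    refine ⟨y, y.2, ?_⟩
    rw [← coe_pw, ← hy, commutatorElement_def]
    rfl
  hconj := fun u hu v hv hu1 hv1 => by
    exact hconj ⟨u, hu⟩ ⟨v, hv⟩ (fun h => hu1 (congrArg Subtype.val h)) (fun h => hv1 (congrArg Subtype.val h))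

theorem mem_normalizer_of_conj [Finite G] {P : Subgroup G} {t : G} (h : ∀ y ∈ P, t * y * t⁻¹ ∈ P) :
    t ∈ Subgroup.normalizer (P : Set G) := by
  rw [Subgroup.mem_normalizer_iff]
  intro y
  refine ⟨h y, fun hy => ?_⟩
  let f : ↥P → ↥P := fun w => ⟨t * w * t⁻¹, h w w.2⟩
  have hf : Function.Injective f := by
    intro u v huv
    apply Subtype.ext
    have := congrArg Subtype.val huv
    simpa [f] using this
  obtain ⟨w, hw⟩ := (Finite.injective_iff_surjective.1 hf) ⟨t * y * t⁻¹, hy⟩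
  have := congrArg Subtype.val hw
  have h2 : (w : G) = y := by simpa [f] using this
  rw [← h2]
  exact w.2

theorem final_contra [Finite G] (hp : p ≠ 2) (h11 : 11 ≤ p) (P : Sylow p G) (D : Data p ↥P)
    (hconj : ∀ x y : ↥P, x ≠ 1 → y ≠ 1 → ∃ g : G, g * (x : G) * g⁻¹ = (y : G)) : False := by
  classical
  have hpp : p.Prime := Fact.out
  have C := mk_ctx D hconj
  let θ := (P : Subgroup G).normalizerMonoidHom
  let ψN := D.ψ.comp θ
  have hθ : ∀ (t : Subgroup.normalizer ((P : Subgroup G) : Set G)) (y : ↥(P : Subgroup G)),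
      ((θ t y : ↥(P : Subgroup G)) : G) = (t : G) * y * (t : G)⁻¹ := fun t y => rfl
  have hP1 : ∀ t, ∃ r, ¬ p ∣ r ∧ (ψN t) ^ r = 1 := by
    intro t
    have hne : orderOf t ≠ 0 := (orderOf_pos t).ne'
    obtain ⟨e, r, hr, hm⟩ := Nat.exists_eq_pow_mul_and_not_dvd hne p hpp.ne_one
    refine ⟨r, hr, ?_⟩
    -- `t ^ r` is a `p`-element of the normalizer
    set u : G := ((t ^ r : Subgroup.normalizer ((P : Subgroup G) : Set G)) : G) with hu
    have hupe : u ^ (p ^ e) = 1 := by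
      have : (t ^ r) ^ (p ^ e) = 1 := by
        rw [← pow_mul, mul_comm, ← hm, pow_orderOf_eq_one]
      have h2 := congrArg (Subtype.val) this
      simpa [hu] using h2
    have hQ : IsPGroup p (Subgroup.zpowers u) := by
      intro g
      obtain ⟨g, j, rfl⟩ := g
      refine ⟨e, ?_⟩
      apply Subtype.ext
      show (u ^ j) ^ (p ^ e) = 1
      rw [← zpow_natCast, ← _root_.zpow_mul, mul_comm, _root_.zpow_mul, zpow_natCast, hupe, _root_.one_zpow]
    have hle : Subgroup.zpowers u ≤ Subgroup.normalizer ((P : Subgroup G) : Set G) := by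
      rw [Subgroup.zpowers_le]
      exact (t ^ r).2
    have huP : u ∈ (P : Subgroup G) := by
      have h1 : Subgroup.zpowers u ≤ (P : Subgroup G) := by
        apply hQ.sylow_mem_fixedPoints_iff.1
        exact (Subgroup.sylow_mem_fixedPoints_iff _).2 hle
      exact h1 (Subgroup.mem_zpowers u)
    rw [← map_pow]
    apply D.ψ_eq_one
    · intro x
      have : θ (t ^ r) x = (⟨u, huP⟩ : ↥(P : Subgroup G)) * x * (⟨u, huP⟩ : ↥(P : Subgroup G))⁻¹ := by
        apply Subtype.ext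
        exact hθ _ _
      rw [this, D.c₁_conj]
    · intro x
      have : θ (t ^ r) x = (⟨u, huP⟩ : ↥(P : Subgroup G)) * x * (⟨u, huP⟩ : ↥(P : Subgroup G))⁻¹ := by
        apply Subtype.ext
        exact hθ _ _
      rw [this, D.c₂_conj]
  have hP2 : ∀ v₀ v₁ : ZMod p, (v₀ ≠ 0 ∨ v₁ ≠ 0) → ∀ τ : ZMod p, τ ≠ 0 →
      ∃ t, (ψN t) 0 0 * v₀ + (ψN t) 0 1 * v₁ = τ * v₀ ∧
      (ψN t) 1 0 * v₀ + (ψN t) 1 1 * v₁ = τ * v₁ ∧
        ((ψN t : GL (Fin 2) (ZMod p)) : Matrix (Fin 2) (Fin 2) (ZMod p)).det * τ = 1 := by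
    intro v₀ v₁ hv τ hτ
    obtain ⟨x, hx1, hx2⟩ := D.surj v₀ v₁
    have hxc : ¬ ∀ y ∈ (P : Subgroup G), y * (x : G) = x * y := by
      intro hc
      have hm : x ∈ Subgroup.center ↥(P : Subgroup G) :=
        Subgroup.mem_center_iff.2 (fun g => Subtype.ext (hc g.1 g.2))
      rw [← hx1, ← hx2, D.c₁_center hm, D.c₂_center hm] at hv
      simp at hv
    obtain ⟨t, ht1, ⟨k, ht2⟩, ht3⟩ := fusion C x.2 hxc hτ
    have htN : t ∈ Subgroup.normalizer ((P : Subgroup G) : Set G) := mem_normalizer_of_conj ht1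
    let tN : Subgroup.normalizer ((P : Subgroup G) : Set G) := ⟨t, htN⟩
    have hαx : θ tN x = pw p x τ * pw p D.z k := by
      apply Subtype.ext
      rw [hθ]
      show t * x * t⁻¹ = _
      rw [ht2, Subgroup.coe_mul, coe_pw, coe_pw]
    have hαz : θ tN D.z = pw p D.z τ⁻¹ := by
      apply Subtype.ext
      rw [hθ]
      show t * (D.z : G) * t⁻¹ = _
      rw [ht3, coe_pw]
    refine ⟨tN, ?_, ?_, ?_⟩
    · have h1 := D.c₁_ψ (θ tN) x
      rw [hαx, D.c₁_add, D.c₁_add.map_pw, D.c₁_add.map_pw, D.c₁_center D.z_mem, hx1, hx2] at h1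
      have e : (ψN tN) = D.ψ (θ tN) := rfl
      rw [e]
      linear_combination -h1
    · have h1 := D.c₂_ψ (θ tN) x
      rw [hαx, D.c₂_add, D.c₂_add.map_pw, D.c₂_add.map_pw, D.c₂_center D.z_mem, hx1, hx2] at h1
      have e : (ψN tN) = D.ψ (θ tN) := rfl
      rw [e]
      linear_combination -h1
    · have e : (ψN tN) = D.ψ (θ tN) := rfl
      rw [e, D.det_ψ, hαz, lg_pw D.z_pow D.z_ne]
      exact inv_mul_cancel₀ hτ
  -- the field
  let K := GaloisField p 2
  letI : Fintype K := Fintype.ofFinite K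
  have hK : Fintype.card K = p ^ 2 := by
    rw [← Nat.card_eq_fintype_card]
    exact GaloisField.card p 2 (by norm_num)
  exact klein_contra hp h11 (algebraMap (ZMod p) K) hK ψN hP1 hP2

theorem main [Finite G] (hp : p ≠ 2) (P : Sylow p G) (hE : Cfsg.IsExtraspecial p ↥P)
    (hcard : Nat.card P = p ^ 3) (hexp : Monoid.exponent ↥P = p)
    (hconj : ∀ x y : ↥P, x ≠ 1 → y ≠ 1 → ∃ g : G, g * (x : G) * g⁻¹ = (y : G)) : p ≤ 7 := by
  by_contra h
  push Not at h
  have hpp : p.Prime := Fact.out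
  have h11 : 11 ≤ p := by
    have : p = 8 ∨ p = 9 ∨ p = 10 ∨ 11 ≤ p := by omega
    rcases this with rfl | rfl | rfl | h
    · norm_num at hpp
    · norm_num at hpp
    · norm_num at hpp
    · exact h
  obtain ⟨D⟩ := exists_data hE hcard hexp
  exact final_contra hp h11 P D hconj

end Main

end Cfsg.Agent.Lib.LocalEven.Extra3G
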