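import Cfsg.Agent.Lib.Coprime.Extraspecial

/-! The minimal degree of a faithful representation of an extraspecial group. -/

set_option autoImplicit false

namespace Cfsg.Agent.Lib.LocalEven.ExtraRep

open Cfsg
open scoped commutatorElement

section es

variable {Q : Type*} [Group Q]

/-- An abstract description of an extraspecial group (or a group of prime order). -/
structure ESD (p : ℕ) (E Z : Subgroup Q) : Prop where
  le : Z ≤ E
  card : Nat.card Z = p
  central : ∀ z ∈ Z, ∀ g ∈ E, z * g = g * z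
  center : ∀ c ∈ E, (∀ g ∈ E, c * g = g * c) → c ∈ Z
  comm : ∀ g ∈ E, ∀ h ∈ E, ⁅g, h⁆ ∈ Z
  pow : ∀ g ∈ E, g ^ p ∈ Z

variable {p : ℕ} {E Z : Subgroup Q}

theorem ESD.comm_mul (h : ESD p E Z) {a b v : Q} (ha : a ∈ E) (hb : b ∈ E) (hv : v ∈ E) :
    ⁅a * b, v⁆ = ⁅a, v⁆ * ⁅b, v⁆ := by
  have h1 := h.central _ (h.comm b hb v hv) a⁻¹ (E.inv_mem ha)
  have e : ⁅a * b, v⁆ = a * ⁅b, v⁆ * v * a⁻¹ * v⁻¹ := by
    simp only [commutatorElement_def]; group
  have e2 : a * ⁅b, v⁆ * v * a⁻¹ * v⁻¹ = a * (⁅b, v⁆ * v) * a⁻¹ * v⁻¹ := by group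
  have h2 : ⁅b, v⁆ * v = v * ⁅b, v⁆ := h.central _ (h.comm b hb v hv) v hv
  rw [e, e2, h2]
  have e3 : a * (v * ⁅b, v⁆) * a⁻¹ * v⁻¹ = a * v * (⁅b, v⁆ * a⁻¹) * v⁻¹ := by group
  rw [e3, h1]
  have h4 := h.central _ (h.comm b hb v hv) v⁻¹ (E.inv_mem hv)
  have e4 : a * v * (a⁻¹ * ⁅b, v⁆) * v⁻¹ = a * v * a⁻¹ * (⁅b, v⁆ * v⁻¹) := by group
  rw [e4, h4, commutatorElement_def a v]
  group

theorem ESD.comm_pow (h : ESD p E Z) {a v : Q} (ha : a ∈ E) (hv : v ∈ E) (k : ℕ) :
    ⁅a ^ k, v⁆ = ⁅a, v⁆ ^ k := by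
  induction k with
  | zero => simp
  | succ k ih =>
    rw [pow_succ, h.comm_mul (E.pow_mem ha k) ha hv, ih, pow_succ]

theorem ESD.comm_swap {a b : Q} : ⁅a, b⁆ = ⁅b, a⁆⁻¹ := by
  simp only [commutatorElement_def]; group

theorem ESD.mul_comm_of_comm_eq_one {a b : Q} (h : ⁅a, b⁆ = 1) : a * b = b * a := by
  rw [commutatorElement_eq_one_iff_mul_comm] at h
  exact h

/-- Conjugation by a power: `y^i x = c^i x y^i` for `c = [y, x]` central. -/
theorem ESD.pow_mul_eq (h : ESD p E Z) {x y : Q} (hx : x ∈ E) (hy : y ∈ E) (i : ℕ) :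
    y ^ i * x = ⁅y, x⁆ ^ i * x * y ^ i := by
  have hc := h.comm y hy x hx
  induction i with
  | zero => simp
  | succ i ih =>
    calc y ^ (i + 1) * x = y ^ i * (y * x) := by rw [pow_succ]; group
      _ = y ^ i * (⁅y, x⁆ * x * y) := by congr 1; simp only [commutatorElement_def]; group
      _ = (y ^ i * ⁅y, x⁆) * x * y := by group
      _ = (⁅y, x⁆ * y ^ i) * x * y := by rw [h.central _ hc _ (E.pow_mem hy i)]
      _ = ⁅y, x⁆ * (y ^ i * x) * y := by group
      _ = ⁅y, x⁆ * (⁅y, x⁆ ^ i * x * y ^ i) * y := by rw [ih]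
      _ = ⁅y, x⁆ ^ (i + 1) * x * y ^ (i + 1) := by rw [pow_succ', pow_succ y]; group

end es

section es2

variable {Q : Type*} [Group Q] [Finite Q] {p : ℕ} [Fact p.Prime] {E Z : Subgroup Q}

/-- Every element of `Z` is a power of a nontrivial element. -/
theorem ESD.exists_pow (h : ESD p E Z) {z₀ z : Q} (hz₀ : z₀ ∈ Z) (h1 : z₀ ≠ 1) (hz : z ∈ Z) :
    ∃ a : ℕ, z = z₀ ^ a := by
  have h2 : (⟨z₀, hz₀⟩ : ↥Z) ≠ 1 := fun e => h1 (congrArg Subtype.val e)
  have h3 := mem_powers_of_prime_card (g := (⟨z₀, hz₀⟩ : ↥Z)) (g' := ⟨z, hz⟩) h.card h2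
  obtain ⟨a, ha⟩ := Submonoid.mem_powers_iff _ _ |>.1 h3
  exact ⟨a, (congrArg Subtype.val ha).symm⟩

theorem ESD.pow_eq_one (h : ESD p E Z) {z : Q} (hz : z ∈ Z) : z ^ p = 1 := by
  have h1 : (⟨z, hz⟩ : ↥Z) ^ Nat.card Z = 1 := pow_card_eq_one'
  rw [h.card] at h1
  exact congrArg Subtype.val h1

theorem ESD.card_inf_centralizer (h : ESD p E Z) {H : Subgroup Q} (hHE : H ≤ E) {x h₀ : Q} (hx : x ∈ E)
    (hh₀ : h₀ ∈ H) (hne : ⁅h₀, x⁆ ≠ 1) :
    Nat.card H = p * Nat.card ↥(H ⊓ Subgroup.centralizer ({x} : Set Q)) := by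
  have hp : p.Prime := Fact.out
  let f : ↥H →* ↥Z := MonoidHom.mk' (fun g => ⟨⁅(g : Q), x⁆, h.comm _ (hHE g.2) _ hx⟩) (fun a b => by
    apply Subtype.ext
    exact h.comm_mul (hHE a.2) (hHE b.2) hx)
  have hker : f.ker = (H ⊓ Subgroup.centralizer ({x} : Set Q)).subgroupOf H := by
    ext g
    rw [MonoidHom.mem_ker, Subgroup.mem_subgroupOf, Subgroup.mem_inf]
    constructor
    · intro e
      have e1 : ⁅(g : Q), x⁆ = 1 := congrArg Subtype.val e
      refine ⟨g.2, ?_⟩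
      rw [Subgroup.mem_centralizer_singleton_iff]
      rw [commutatorElement_eq_one_iff_mul_comm] at e1
      exact e1
    · rintro ⟨-, h2⟩
      rw [Subgroup.mem_centralizer_singleton_iff] at h2
      apply Subtype.ext
      show ⁅(g : Q), x⁆ = 1
      rw [commutatorElement_eq_one_iff_mul_comm]
      exact h2
  have hrange : Nat.card f.range = p := by
    have h1 : Nat.card f.range ∣ p := by
      rw [← h.card]
      exact Subgroup.card_subgroup_dvd_card _
    rcases (Nat.dvd_prime hp).1 h1 with h2 | h2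
    · exfalso
      have h3 : f.range = ⊥ := Subgroup.eq_bot_of_card_eq _ h2
      have h4 : f ⟨h₀, hh₀⟩ ∈ f.range := ⟨_, rfl⟩
      rw [h3, Subgroup.mem_bot] at h4
      exact hne (congrArg Subtype.val h4)
    · exact h2
  have h5 : Nat.card f.ker * f.ker.index = Nat.card ↥H := Subgroup.card_mul_index _
  rw [Subgroup.index_ker, hrange, hker] at h5
  have h6 : Nat.card ↥((H ⊓ Subgroup.centralizer ({x} : Set Q)).subgroupOf H) =
      Nat.card ↥(H ⊓ Subgroup.centralizer ({x} : Set Q)) :=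
    Nat.card_congr (Subgroup.subgroupOfEquivOfLe inf_le_left).toEquiv
  rw [h6] at h5
  rw [← h5, mul_comm]

theorem ESD.inf (h : ESD p E Z) {x y : Q} (hx : x ∈ E) (hy : y ∈ E) (hne : ⁅x, y⁆ ≠ 1) :
    ESD p (E ⊓ Subgroup.centralizer ({x} : Set Q) ⊓ Subgroup.centralizer ({y} : Set Q)) Z := by
  have hZc : ∀ z ∈ Z, ∀ v ∈ E, z ∈ Subgroup.centralizer ({v} : Set Q) := by
    intro z hz v hv
    rw [Subgroup.mem_centralizer_singleton_iff]
    exact h.central z hz v hv
  refine ⟨?_, h.card, ?_, ?_, ?_, ?_⟩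
  · intro z hz
    exact ⟨⟨h.le hz, hZc z hz x hx⟩, hZc z hz y hy⟩
  · intro z hz g hg
    exact h.central z hz g hg.1.1
  · intro c hc hcc
    apply h.center c hc.1.1
    intro g hg
    have hcx : c * x = x * c := Subgroup.mem_centralizer_singleton_iff.1 hc.1.2
    have hcy : c * y = y * c := Subgroup.mem_centralizer_singleton_iff.1 hc.2
    have hz₀ := h.comm x hx y hy
    have hz₀' := h.comm y hy x hx
    have hne' : ⁅y, x⁆ ≠ 1 := by
      intro e
      apply hne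
      rw [ESD.comm_swap, e, inv_one]
    obtain ⟨a, ha⟩ := h.exists_pow hz₀ hne (h.comm g hg y hy)
    obtain ⟨b, hb⟩ := h.exists_pow hz₀' hne' (h.comm g hg x hx)
    set t := x ^ a * y ^ b with ht
    have htE : t ∈ E := E.mul_mem (E.pow_mem hx a) (E.pow_mem hy b)
    have hxx : ⁅x ^ a, x⁆ = 1 := by
      rw [commutatorElement_eq_one_iff_mul_comm]
      exact ((Commute.refl x).pow_left a).eq
    have hyy : ⁅y ^ b, y⁆ = 1 := by
      rw [commutatorElement_eq_one_iff_mul_comm]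
      exact ((Commute.refl y).pow_left b).eq
    have ht1 : ⁅t, x⁆ = ⁅y, x⁆ ^ b := by
      rw [ht, h.comm_mul (E.pow_mem hx a) (E.pow_mem hy b) hx, hxx, one_mul, h.comm_pow hy hx]
    have ht2 : ⁅t, y⁆ = ⁅x, y⁆ ^ a := by
      rw [ht, h.comm_mul (E.pow_mem hx a) (E.pow_mem hy b) hy, hyy, mul_one, h.comm_pow hx hy]
    set e := g * t⁻¹ with he
    have heE : e ∈ E := E.mul_mem hg (E.inv_mem htE)
    have hg' : g = e * t := by rw [he]; group
    have h3 := h.comm_mul heE htE hx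
    have h4 := h.comm_mul heE htE hy
    rw [← hg', hb, ht1] at h3
    rw [← hg', ha, ht2] at h4
    have h5 : ⁅e, x⁆ = 1 := mul_eq_right.1 h3.symm
    have h6 : ⁅e, y⁆ = 1 := mul_eq_right.1 h4.symm
    rw [commutatorElement_eq_one_iff_mul_comm] at h5 h6
    have heE₁ : e ∈ E ⊓ Subgroup.centralizer ({x} : Set Q) ⊓ Subgroup.centralizer ({y} : Set Q) :=
      ⟨⟨heE, Subgroup.mem_centralizer_singleton_iff.2 h5⟩, Subgroup.mem_centralizer_singleton_iff.2 h6⟩
    have hce := hcc e heE₁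
    have hct : c * t = t * c := by
      rw [ht]
      have h7 : Commute c (x ^ a) := (Commute.pow_right (show Commute c x from hcx) a)
      have h8 : Commute c (y ^ b) := (Commute.pow_right (show Commute c y from hcy) b)
      exact (h7.mul_right h8).eq
    rw [hg']
    calc c * (e * t) = (c * e) * t := by group
      _ = (e * c) * t := by rw [hce]
      _ = e * (c * t) := by group
      _ = e * (t * c) := by rw [hct]
      _ = _ := by group
  · intro g hg k hk
    exact h.comm g hg.1.1 k hk.1.1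
  · intro g hg
    exact h.pow g hg.1.1

/-- Power formula in a group of class two. -/
theorem ESD.mul_pow (h : ESD p E Z) {g k : Q} (hg : g ∈ E) (hk : k ∈ E) (n : ℕ) :
    (g * k) ^ n = g ^ n * k ^ n * ⁅k, g⁆ ^ (n.choose 2) := by
  have hc := h.comm k hk g hg
  have hcentral : ∀ m : ℕ, ∀ v ∈ E, ⁅k, g⁆ ^ m * v = v * ⁅k, g⁆ ^ m := by
    intro m v hv
    exact h.central _ (Z.pow_mem hc m) v hv
  induction n with
  | zero => simp
  | succ n ih =>
    have h1 := h.pow_mul_eq hg hk n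
    have e : (n + 1).choose 2 = n + n.choose 2 := by
      rw [Nat.choose_succ_succ' n 1, Nat.choose_one_right]
    calc (g * k) ^ (n + 1) = (g * k) ^ n * (g * k) := pow_succ _ _
      _ = g ^ n * k ^ n * ⁅k, g⁆ ^ (n.choose 2) * (g * k) := by rw [ih]
      _ = g ^ n * k ^ n * (⁅k, g⁆ ^ (n.choose 2) * (g * k)) := by group
      _ = g ^ n * k ^ n * ((g * k) * ⁅k, g⁆ ^ (n.choose 2)) := by
        rw [hcentral _ _ (E.mul_mem hg hk)]
      _ = g ^ n * (k ^ n * g) * k * ⁅k, g⁆ ^ (n.choose 2) := by group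
      _ = g ^ n * (⁅k, g⁆ ^ n * g * k ^ n) * k * ⁅k, g⁆ ^ (n.choose 2) := by rw [h1]
      _ = g ^ n * (⁅k, g⁆ ^ n * (g * k ^ n * k)) * ⁅k, g⁆ ^ (n.choose 2) := by group
      _ = g ^ n * ((g * k ^ n * k) * ⁅k, g⁆ ^ n) * ⁅k, g⁆ ^ (n.choose 2) := by
        rw [hcentral _ _ (E.mul_mem (E.mul_mem hg (E.pow_mem hk n)) hk)]
      _ = g ^ (n + 1) * k ^ (n + 1) * ⁅k, g⁆ ^ ((n + 1).choose 2) := by
        rw [e, pow_add, pow_succ g, pow_succ k]
        group

theorem ESD.exists_noncentral_odd (h : ESD p E Z) (hp2 : p ≠ 2) (hlt : Nat.card Z < Nat.card E) :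
    ∃ x ∈ E, x ∉ Z ∧ x ^ p = 1 := by
  have hp : p.Prime := Fact.out
  have hZE : Z < E := lt_of_le_of_ne h.le (by
    rintro rfl
    exact lt_irrefl _ hlt)
  obtain ⟨x, hxE, hxZ⟩ := SetLike.exists_of_lt hZE
  by_cases hx1 : x ^ p = 1
  · exact ⟨x, hxE, hxZ, hx1⟩
  obtain ⟨y, hyE, hxy⟩ : ∃ y ∈ E, x * y ≠ y * x := by
    by_contra hno
    push Not at hno
    exact hxZ (h.center x hxE hno)
  obtain ⟨e, he⟩ := h.exists_pow (h.pow x hxE) hx1 (h.pow y hyE)
  have hpow : ∀ g ∈ E, ∀ k ∈ E, (g * k) ^ p = g ^ p * k ^ p := by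
    intro g hg k hk
    rw [h.mul_pow hg hk]
    have h1 : p ∣ p.choose 2 := hp.dvd_choose_self (by norm_num) (by
      have := hp.two_le
      omega)
    obtain ⟨q, hq⟩ := h1
    rw [hq, pow_mul, h.pow_eq_one (h.comm k hk g hg), one_pow, mul_one]
  refine ⟨(x⁻¹) ^ e * y, E.mul_mem (E.pow_mem (E.inv_mem hxE) e) hyE, ?_, ?_⟩
  · intro hu
    apply hxy
    have h1 := h.central _ hu x hxE
    have hc : Commute ((x⁻¹) ^ e) x := ((Commute.refl x).inv_left).pow_left e
    have h2 : (x⁻¹) ^ e * (y * x) = (x⁻¹) ^ e * (x * y) := by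
      calc (x⁻¹) ^ e * (y * x) = (x⁻¹) ^ e * y * x := by group
        _ = x * ((x⁻¹) ^ e * y) := h1
        _ = (x * (x⁻¹) ^ e) * y := by group
        _ = ((x⁻¹) ^ e * x) * y := by rw [hc.eq]
        _ = _ := by group
    exact (mul_left_cancel h2).symm
  · rw [hpow _ (E.pow_mem (E.inv_mem hxE) e) _ hyE, he, ← pow_mul, mul_comm e p, pow_mul, inv_pow]
    group

theorem ESD.exists_noncentral_two (h : ESD 2 E Z) (hlt : 16 < Nat.card E) [Fact (Nat.Prime 2)] :
    ∃ x ∈ E, x ∉ Z ∧ x ^ 2 = 1 := by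
  by_contra hno
  push Not at hno
  have hZE : Z < E := lt_of_le_of_ne h.le (by
    rintro rfl
    rw [h.card] at hlt
    omega)
  obtain ⟨a, haE, haZ⟩ := SetLike.exists_of_lt hZE
  obtain ⟨b, hbE, hab⟩ : ∃ b ∈ E, a * b ≠ b * a := by
    by_contra hno2
    push Not at hno2
    exact haZ (h.center a haE hno2)
  have hab' : ⁅a, b⁆ ≠ 1 := by
    rw [Ne, commutatorElement_eq_one_iff_mul_comm]; exact hab
  have hba' : ⁅b, a⁆ ≠ 1 := by
    intro e
    apply hab'
    rw [ESD.comm_swap, e, inv_one]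
  set E₁ := E ⊓ Subgroup.centralizer ({a} : Set Q) ⊓ Subgroup.centralizer ({b} : Set Q) with hE₁
  have hE₁es := h.inf haE hbE hab'
  have c1 := h.card_inf_centralizer le_rfl haE hbE hba'
  have c2 := h.card_inf_centralizer (H := E ⊓ Subgroup.centralizer ({a} : Set Q)) inf_le_left hbE
    (h₀ := a) ⟨haE, Subgroup.mem_centralizer_singleton_iff.2 rfl⟩ hab'
  have hcard : 2 < Nat.card E₁ := by
    have c2' : Nat.card ↥(E ⊓ Subgroup.centralizer ({a} : Set Q)) = 2 * Nat.card E₁ := c2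
    rw [c2'] at c1
    omega
  have hZE₁ : Z < E₁ := lt_of_le_of_ne hE₁es.le (by
    intro e
    rw [← e, h.card] at hcard
    omega)
  obtain ⟨c, hcE₁, hcZ⟩ := SetLike.exists_of_lt hZE₁
  have hcE : c ∈ E := hcE₁.1.1
  have hca : c * a = a * c := Subgroup.mem_centralizer_singleton_iff.1 hcE₁.1.2
  have hcb : c * b = b * c := Subgroup.mem_centralizer_singleton_iff.1 hcE₁.2
  have ha2 := hno a haE haZ
  have hc2 := hno c hcE hcZ
  obtain ⟨e, he⟩ := h.exists_pow (h.pow a haE) ha2 (h.pow c hcE)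
  have he' : c ^ 2 = a ^ 2 := by
    have hs := h.pow_eq_one (h.pow a haE)
    rcases Nat.even_or_odd' e with ⟨f, rfl | rfl⟩
    · exfalso
      rw [pow_mul, hs, one_pow] at he
      exact hc2 he
    · rw [he, pow_succ, pow_mul, hs, one_pow, one_mul]
  have hac : (a * c) ^ 2 = 1 := by
    have hcomm : Commute a c := hca.symm
    have hs := h.pow_eq_one (h.pow a haE)
    rw [hcomm.mul_pow, he', ← pow_two]
    exact hs
  have hacZ : a * c ∈ Z := by
    by_contra hn
    exact hno (a * c) (E.mul_mem haE hcE) hn hac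
  have h1 := h.central _ hacZ b hbE
  apply hab
  have h2 : (a * b) * c = (b * a) * c := by
    calc (a * b) * c = a * (b * c) := by group
      _ = a * (c * b) := by rw [hcb]
      _ = (a * c) * b := by group
      _ = b * (a * c) := h1
      _ = _ := by group
  exact mul_right_cancel h2

end es2

section action

variable {Q V : Type*} [Group Q] [CommGroup V] (ρ : Q →* MulAut V)

theorem rho_mul (a b : Q) (v : V) : ρ (a * b) v = ρ a (ρ b v) := by
  rw [map_mul]; rfl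

theorem rho_one (v : V) : ρ 1 v = v := by
  rw [map_one]; rfl

theorem rho_pow_fix {g : Q} {v : V} (h : ρ g v = v) (k : ℕ) : ρ (g ^ k) v = v := by
  induction k with
  | zero => rw [pow_zero, rho_one]
  | succ k ih => rw [pow_succ, rho_mul, h, ih]

/-- The norm map `v ↦ ∏_{k < p} g^k v`. -/
def Nm (p : ℕ) (g : Q) : V →* V := ∏ k ∈ Finset.range p, (ρ (g ^ k)).toMonoidHom

theorem Nm_apply (p : ℕ) (g : Q) (v : V) : Nm ρ p g v = ∏ k ∈ Finset.range p, ρ (g ^ k) v := by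
  simp only [Nm, MonoidHom.finset_prod_apply]
  rfl

theorem Nm_fixed {p : ℕ} {g : Q} (hg : g ^ p = 1) (v : V) : ρ g (Nm ρ p g v) = Nm ρ p g v := by
  rw [Nm_apply, map_prod]
  have h1 : ∀ k, ρ g (ρ (g ^ k) v) = ρ (g ^ (k + 1)) v := by
    intro k
    rw [← rho_mul, pow_succ']
  simp only [h1]
  have h2 := Finset.prod_range_succ (fun k => ρ (g ^ k) v) p
  have h3 := Finset.prod_range_succ' (fun k => ρ (g ^ k) v) p
  rw [h2] at h3
  simp only [hg, rho_one, pow_zero] at h3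
  exact (mul_right_cancel h3).symm

theorem Nm_of_fix {p : ℕ} {u g : Q} {v : V} (hfix : ρ g v = v) (hc : Commute u g) :
    Nm ρ p (u * g) v = Nm ρ p u v := by
  rw [Nm_apply, Nm_apply]
  refine Finset.prod_congr rfl fun k _ => ?_
  rw [hc.mul_pow, rho_mul, rho_pow_fix ρ hfix]

theorem Nm_one (p : ℕ) (v : V) : Nm ρ p 1 v = v ^ p := by
  rw [Nm_apply]
  simp [rho_one]

theorem Nm_self {p : ℕ} {g : Q} {v : V} (hfix : ρ g v = v) : Nm ρ p g v = v ^ p := by
  have h := Nm_of_fix ρ (p := p) (u := 1) hfix (Commute.one_left g)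
  rw [one_mul] at h
  rw [h, Nm_one]

/-- Fixed points as a subgroup. -/
def fixS (g : Q) : Subgroup V where
  carrier := {v | ρ g v = v}
  mul_mem' := by
    intro a b ha hb
    show ρ g (a * b) = a * b
    rw [map_mul, show ρ g a = a from ha, show ρ g b = b from hb]
  one_mem' := map_one _
  inv_mem' := by
    intro a ha
    show ρ g a⁻¹ = a⁻¹
    rw [map_inv, show ρ g a = a from ha]

theorem mem_fixS {g : Q} {v : V} : v ∈ fixS ρ g ↔ ρ g v = v := Iff.rfl

variable [Finite Q] {p : ℕ} [Fact p.Prime] {E Z : Subgroup Q} {W : Subgroup V}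

theorem Nm_mem (hst : ∀ g ∈ E, ∀ v ∈ W, ρ g v ∈ W) {g : Q} (hg : g ∈ E) {v : V} (hv : v ∈ W) :
    Nm ρ p g v ∈ W := by
  rw [Nm_apply]
  exact Subgroup.prod_mem _ fun k _ => hst _ (E.pow_mem hg k) _ hv

theorem Nm_central (h : ESD p E Z) (hst : ∀ g ∈ E, ∀ v ∈ W, ρ g v ∈ W)
    (hfpf : ∀ v ∈ W, (∀ u ∈ Z, ρ u v = v) → v = 1) {u : Q} (hu : u ∈ Z) (hu1 : u ≠ 1) {v : V} (hv : v ∈ W) :
    Nm ρ p u v = 1 := by
  apply hfpf _ (Nm_mem ρ hst (h.le hu) hv)
  intro t ht
  obtain ⟨a, rfl⟩ := h.exists_pow hu hu1 ht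
  exact rho_pow_fix ρ (Nm_fixed ρ (h.pow_eq_one hu) v) a

theorem pow_inj_of_coprime {r : ℕ} (hr : ∀ v : V, v ^ r = 1) (hc : Nat.Coprime p r) {a b : V}
    (h : a ^ p = b ^ p) : a = b := by
  have h1 : (a * b⁻¹) ^ p = 1 := by
    rw [mul_pow, inv_pow, h, mul_inv_cancel]
  have h2 := orderOf_dvd_of_pow_eq_one h1
  have h3 := orderOf_dvd_of_pow_eq_one (hr (a * b⁻¹))
  have h4 := Nat.Coprime.eq_one_of_dvd (hc.coprime_dvd_left h2) h3
  have h5 := orderOf_eq_one_iff.1 h4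
  exact mul_inv_eq_one.1 h5

/-- The fixed points of `x` are nontrivial. -/
theorem fix_ne_bot {r : ℕ} (h : ESD p E Z) (hst : ∀ g ∈ E, ∀ v ∈ W, ρ g v ∈ W)
    (hfpf : ∀ v ∈ W, (∀ u ∈ Z, ρ u v = v) → v = 1) (hr : ∀ v : V, v ^ r = 1) (hc : Nat.Coprime p r)
    {x y : Q} (hx : x ∈ E) (hxp : x ^ p = 1) (hy : y ∈ E) (hne : ⁅y, x⁆ ≠ 1) (hW : W ≠ ⊥) :
    W ⊓ fixS ρ x ≠ ⊥ := by
  have hp : p.Prime := Fact.out
  set c := ⁅y, x⁆ with hcdef
  have hcZ : c ∈ Z := h.comm y hy x hx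
  have hcp : c ^ p = 1 := h.pow_eq_one hcZ
  have hoc : orderOf c = p := orderOf_eq_prime hcp hne
  obtain ⟨v, hvW, hv1⟩ := (Subgroup.ne_bot_iff_exists_ne_one).1 hW |> fun ⟨w, hw⟩ => (⟨w.1, w.2, fun e => hw (Subtype.ext e)⟩ : ∃ v, v ∈ W ∧ v ≠ 1)
  have hcomm : ∀ j : ℕ, Commute (c ^ j) x := fun j =>
    (show Commute c x from h.central _ hcZ x hx).pow_left j
  -- the sum formula
  have hsum : ∏ j ∈ Finset.range p, Nm ρ p (c ^ j * x) v = v ^ p := by
    simp only [Nm_apply]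
    rw [Finset.prod_comm]
    rw [Finset.prod_eq_single 0]
    · simp [rho_one]
    · intro k hk hk0
      have h1 : ∀ j, ρ ((c ^ j * x) ^ k) v = ρ ((c ^ k) ^ j) (ρ (x ^ k) v) := by
        intro j
        rw [(hcomm j).mul_pow, rho_mul, ← pow_mul, ← pow_mul, mul_comm]
      simp only [h1]
      have h2 : c ^ k ≠ 1 := by
        intro e
        have h3 := orderOf_dvd_of_pow_eq_one e
        rw [hoc] at h3
        have := Nat.le_of_dvd (Nat.pos_of_ne_zero hk0) h3
        have := Finset.mem_range.1 hk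
        omega
      have h3 := Nm_central ρ h hst hfpf (Z.pow_mem hcZ k) h2 (hst _ (E.pow_mem hx k) _ hvW)
      rwa [Nm_apply] at h3
    · intro h0
      exact absurd (Finset.mem_range.2 hp.pos) h0
  have hvp : v ^ p ≠ 1 := by
    intro e
    have h1 : v ^ p = (1 : V) ^ p := by rw [e, one_pow]
    exact hv1 (pow_inj_of_coprime hr hc h1)
  obtain ⟨j, -, hj⟩ : ∃ j ∈ Finset.range p, Nm ρ p (c ^ j * x) v ≠ 1 := by
    by_contra hno
    push Not at hno
    apply hvp
    rw [← hsum]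
    exact Finset.prod_eq_one hno
  set g := c ^ j * x with hg
  have hgE : g ∈ E := E.mul_mem (h.le (Z.pow_mem hcZ j)) hx
  have hgp : g ^ p = 1 := by
    rw [hg, (hcomm j).mul_pow, hxp, mul_one, ← pow_mul, mul_comm, pow_mul, hcp, one_pow]
  set w := Nm ρ p g v with hw
  have hwfix : ρ g w = w := Nm_fixed ρ hgp v
  have hwW : w ∈ W := Nm_mem ρ hst hgE hvW
  have hrel : y ^ j * x = g * y ^ j := by
    rw [hg]; exact h.pow_mul_eq hx hy j
  have hrel' : x * (y ^ j)⁻¹ = (y ^ j)⁻¹ * g := by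
    rw [eq_inv_mul_iff_mul_eq, ← mul_assoc, hrel]; group
  intro hbot
  have hmem : ρ (y ^ j)⁻¹ w ∈ W ⊓ fixS ρ x := by
    refine ⟨hst _ (E.inv_mem (E.pow_mem hy j)) _ hwW, ?_⟩
    show ρ x (ρ (y ^ j)⁻¹ w) = ρ (y ^ j)⁻¹ w
    rw [← rho_mul, hrel', rho_mul, hwfix]
  rw [hbot, Subgroup.mem_bot] at hmem
  apply hj
  have h5 := congrArg (ρ (y ^ j)) hmem
  rw [← rho_mul, mul_inv_cancel, rho_one, map_one] at h5
  exact h5

/-- `|W| ≥ |C_W(x)|^p`. -/
theorem fix_card_pow_le {r : ℕ} [Finite V] (h : ESD p E Z) (hst : ∀ g ∈ E, ∀ v ∈ W, ρ g v ∈ W)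
    (hfpf : ∀ v ∈ W, (∀ u ∈ Z, ρ u v = v) → v = 1) (hr : ∀ v : V, v ^ r = 1) (hc : Nat.Coprime p r)
    {x y : Q} (hx : x ∈ E) (hy : y ∈ E) (hne : ⁅y, x⁆ ≠ 1) :
    Nat.card ↥(W ⊓ fixS ρ x) ^ p ≤ Nat.card W := by
  classical
  have hp : p.Prime := Fact.out
  set c := ⁅y, x⁆ with hcdef
  have hcZ : c ∈ Z := h.comm y hy x hx
  have hcp : c ^ p = 1 := h.pow_eq_one hcZ
  have hoc : orderOf c = p := orderOf_eq_prime hcp hne
  set W₁ := W ⊓ fixS ρ x with hW₁
  let Φ : (Fin p → ↥W₁) → ↥W := fun f =>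
    ⟨∏ i : Fin p, ρ (y ^ (i : ℕ)) (f i : V), Subgroup.prod_mem _ fun i _ =>
      hst _ (E.pow_mem hy _) _ (f i).2.1⟩
  have hfix : ∀ (i : ℕ) (v : V), v ∈ W₁ → ρ (c ^ i * x) (ρ (y ^ i) v) = ρ (y ^ i) v := by
    intro i v hv
    rw [← rho_mul]
    have h1 := h.pow_mul_eq hx hy i
    rw [← hcdef] at h1
    rw [← h1, rho_mul]
    have h2 : ρ x v = v := hv.2
    rw [h2]
  have hinj : Function.Injective Φ := by
    intro f f' hff
    funext j
    apply Subtype.ext
    have hff' : ∏ i : Fin p, ρ (y ^ (i : ℕ)) (f i : V) = ∏ i : Fin p, ρ (y ^ (i : ℕ)) (f' i : V) :=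
      congrArg Subtype.val hff
    have key : ∀ f : Fin p → ↥W₁, Nm ρ p (c ^ (j : ℕ) * x) (∏ i : Fin p, ρ (y ^ (i : ℕ)) (f i : V)) =
        (ρ (y ^ (j : ℕ)) (f j : V)) ^ p := by
      intro f
      rw [map_prod, Finset.prod_eq_single j]
      · exact Nm_self ρ (hfix _ _ (f j).2)
      · intro i _ hij
        set u := c ^ (j : ℕ) * (c ^ (i : ℕ))⁻¹ with hu
        have hue : c ^ (j : ℕ) * x = u * (c ^ (i : ℕ) * x) := by
          rw [hu]; group
        have hcc : Commute u (c ^ (i : ℕ) * x) := by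
          have h1 : u ∈ Z := Z.mul_mem (Z.pow_mem hcZ _) (Z.inv_mem (Z.pow_mem hcZ _))
          exact h.central _ h1 _ (E.mul_mem (h.le (Z.pow_mem hcZ _)) hx)
        rw [hue, Nm_of_fix ρ (hfix _ _ (f i).2) hcc]
        apply Nm_central ρ h hst hfpf (Z.mul_mem (Z.pow_mem hcZ _) (Z.inv_mem (Z.pow_mem hcZ _)))
        · intro e
          apply hij
          have h2 : c ^ (j : ℕ) = c ^ (i : ℕ) := mul_inv_eq_one.1 e
          have h3 := pow_injOn_Iio_orderOf (x := c)
            (by rw [Set.mem_Iio, hoc]; exact j.2) (by rw [Set.mem_Iio, hoc]; exact i.2) h2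
          exact (Fin.ext h3).symm
        · exact hst _ (E.pow_mem hy _) _ (f i).2.1
      · intro hj'
        exact absurd (Finset.mem_univ j) hj'
    have h1 := key f
    rw [hff', key f'] at h1
    have h2 := pow_inj_of_coprime hr hc h1
    exact ((ρ (y ^ (j : ℕ))).injective h2).symm
  have h3 := Nat.card_le_card_of_injective Φ hinj
  rwa [Nat.card_fun, Nat.card_fin] at h3

end action

section main

variable {Q V : Type*} [Group Q] [CommGroup V] [Finite Q] [Finite V] (ρ : Q →* MulAut V)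
  {p r : ℕ} [Fact p.Prime] [Fact r.Prime]

theorem abs_bound (hr : ∀ v : V, v ^ r = 1) (hpr : p ≠ r) (n : ℕ)
    (hmin : ∀ k : ℕ, 1 ≤ k → p ∣ r ^ k - 1 → n ≤ k) :
    ∀ (w : ℕ) (E Z : Subgroup Q) (W : Subgroup V), ESD p E Z → Nat.card E = p ^ (2 * w + 1) →
      (∀ g ∈ E, ∀ v ∈ W, ρ g v ∈ W) → (∀ v ∈ W, (∀ u ∈ Z, ρ u v = v) → v = 1) → W ≠ ⊥ →
      r ^ (n * p ^ w) ≤ Nat.card W := by
  have hp : p.Prime := Fact.out
  have hrp : r.Prime := Fact.out
  have hc : Nat.Coprime p r := (Nat.coprime_primes hp hrp).2 hpr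
  have hWcard : ∀ W : Subgroup V, W ≠ ⊥ → ∃ d, d ≠ 0 ∧ Nat.card W = r ^ d := by
    intro W hW
    have h1 : IsPGroup r ↥W := by
      intro v
      refine ⟨1, ?_⟩
      apply Subtype.ext
      simpa using hr (v : V)
    obtain ⟨d, hd⟩ := IsPGroup.iff_card.1 h1
    refine ⟨d, ?_, hd⟩
    rintro rfl
    rw [pow_zero] at hd
    exact hW (Subgroup.eq_bot_of_card_eq _ hd)
  intro w
  induction w with
  | zero =>
    intro E Z W h hcard hst hfpf hW
    rw [pow_zero, mul_one]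
    obtain ⟨d, hd0, hd⟩ := hWcard W hW
    letI : MulAction ↥Z ↥W :=
      { smul := fun z v => ⟨ρ z v, hst _ (h.le z.2) _ v.2⟩
        one_smul := fun v => Subtype.ext (rho_one ρ _)
        mul_smul := fun a b v => Subtype.ext (rho_mul ρ _ _ _) }
    have hZ : IsPGroup p ↥Z := IsPGroup.of_card (n := 1) (by rw [h.card, pow_one])
    have h1 := hZ.card_modEq_card_fixedPoints ↥W
    have h2 : MulAction.fixedPoints ↥Z ↥W = {1} := by
      ext v
      simp only [MulAction.mem_fixedPoints, Set.mem_singleton_iff]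
      constructor
      · intro hv
        apply Subtype.ext
        apply hfpf _ v.2
        intro u hu
        exact congrArg Subtype.val (hv ⟨u, hu⟩)
      · rintro rfl z
        apply Subtype.ext
        exact map_one _
    rw [h2, Nat.card_coe_set_eq, Set.ncard_singleton, hd] at h1
    have h3 : p ∣ r ^ d - 1 := (Nat.modEq_iff_dvd' (Nat.one_le_pow _ _ hrp.pos)).1 h1.symm
    have h4 := hmin d (Nat.pos_of_ne_zero hd0) h3
    rw [hd]
    exact Nat.pow_le_pow_right hrp.pos h4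
  | succ w ih =>
    intro E Z W h hcard hst hfpf hW
    by_cases hex : ∃ x ∈ E, x ∉ Z ∧ x ^ p = 1
    · obtain ⟨x, hxE, hxZ, hxp⟩ := hex
      obtain ⟨y, hyE, hxy⟩ : ∃ y ∈ E, x * y ≠ y * x := by
        by_contra hno
        push Not at hno
        exact hxZ (h.center x hxE hno)
      have hxy' : ⁅x, y⁆ ≠ 1 := by
        rw [Ne, commutatorElement_eq_one_iff_mul_comm]; exact hxy
      have hyx' : ⁅y, x⁆ ≠ 1 := by
        intro e
        apply hxy'
        rw [ESD.comm_swap, e, inv_one]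
      have hE₁ := h.inf hxE hyE hxy'
      have c1 := h.card_inf_centralizer le_rfl hxE hyE hyx'
      have c2 := h.card_inf_centralizer (H := E ⊓ Subgroup.centralizer ({x} : Set Q)) inf_le_left hyE
        (h₀ := x) ⟨hxE, Subgroup.mem_centralizer_singleton_iff.2 rfl⟩ hxy'
      have hcard₁ : Nat.card ↥(E ⊓ Subgroup.centralizer ({x} : Set Q) ⊓ Subgroup.centralizer ({y} : Set Q)) =
          p ^ (2 * w + 1) := by
        rw [c2, hcard] at c1
        have e : p ^ (2 * (w + 1) + 1) = p * (p * p ^ (2 * w + 1)) := by ring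
        rw [e] at c1
        exact (Nat.eq_of_mul_eq_mul_left hp.pos (Nat.eq_of_mul_eq_mul_left hp.pos c1)).symm
      have hst₁ : ∀ g ∈ E ⊓ Subgroup.centralizer ({x} : Set Q) ⊓ Subgroup.centralizer ({y} : Set Q),
          ∀ v ∈ W ⊓ fixS ρ x, ρ g v ∈ W ⊓ fixS ρ x := by
        intro g hg v hv
        refine ⟨hst g hg.1.1 v hv.1, ?_⟩
        show ρ x (ρ g v) = ρ g v
        have hgx : g * x = x * g := Subgroup.mem_centralizer_singleton_iff.1 hg.1.2
        rw [← rho_mul, ← hgx, rho_mul]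
        have h2 : ρ x v = v := hv.2
        rw [h2]
      have hfpf₁ : ∀ v ∈ W ⊓ fixS ρ x, (∀ u ∈ Z, ρ u v = v) → v = 1 :=
        fun v hv hu => hfpf v hv.1 hu
      have hne := fix_ne_bot ρ h hst hfpf hr hc hxE hxp hyE hyx' hW
      have h1 := ih _ Z _ hE₁ hcard₁ hst₁ hfpf₁ hne
      have h2 := fix_card_pow_le ρ h hst hfpf hr hc hxE hyE hyx'
      calc r ^ (n * p ^ (w + 1)) = (r ^ (n * p ^ w)) ^ p := by rw [← pow_mul]; congr 1; rw [pow_succ]; ring
        _ ≤ Nat.card ↥(W ⊓ fixS ρ x) ^ p := Nat.pow_le_pow_left h1 p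
        _ ≤ _ := h2
    · -- `p = 2`, `|E| = 8`
      have hp2 : p = 2 := by
        by_contra hp2
        apply hex
        apply h.exists_noncentral_odd hp2
        rw [h.card, hcard]
        calc p = p ^ 1 := (pow_one p).symm
          _ < p ^ (2 * (w + 1) + 1) := Nat.pow_lt_pow_right hp.one_lt (by omega)
      subst hp2
      have hw0 : w = 0 := by
        by_contra hw0
        apply hex
        apply h.exists_noncentral_two
        rw [hcard]
        calc 16 < 2 ^ 5 := by norm_num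
          _ ≤ 2 ^ (2 * (w + 1) + 1) := Nat.pow_le_pow_right (by norm_num) (by omega)
      subst hw0
      have hn1 : n ≤ 1 := by
        apply hmin 1 le_rfl
        rw [pow_one]
        have h1 : Odd r := hrp.odd_of_ne_two (Ne.symm hpr)
        exact (Nat.Odd.sub_odd h1 odd_one).two_dvd
      obtain ⟨d, hd0, hd⟩ := hWcard W hW
      have hd2 : 2 ≤ d := by
        by_contra hd2
        have hd1 : d = 1 := by omega
        subst hd1
        rw [pow_one] at hd
        -- `W` has prime order: a contradiction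
        have hZE : Z < E := lt_of_le_of_ne h.le (by
          rintro rfl
          rw [h.card] at hcard
          norm_num at hcard)
        obtain ⟨x, hxE, hxZ⟩ := SetLike.exists_of_lt hZE
        obtain ⟨y, hyE, hxy⟩ : ∃ y ∈ E, x * y ≠ y * x := by
          by_contra hno
          push Not at hno
          exact hxZ (h.center x hxE hno)
        have hxy' : ⁅x, y⁆ ≠ 1 := by
          rw [Ne, commutatorElement_eq_one_iff_mul_comm]; exact hxy
        obtain ⟨v, hvW, hv1⟩ := (Subgroup.ne_bot_iff_exists_ne_one).1 hW |> fun ⟨w, hw⟩ =>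
          (⟨w.1, w.2, fun e => hw (Subtype.ext e)⟩ : ∃ v, v ∈ W ∧ v ≠ 1)
        have hv1' : (⟨v, hvW⟩ : ↥W) ≠ 1 := fun e => hv1 (congrArg Subtype.val e)
        have hpow : ∀ g ∈ E, ∃ a : ℕ, ρ g v = v ^ a := by
          intro g hg
          have h3 := mem_powers_of_prime_card (g := (⟨v, hvW⟩ : ↥W)) (g' := ⟨ρ g v, hst g hg v hvW⟩) hd hv1'
          obtain ⟨a, ha⟩ := Submonoid.mem_powers_iff _ _ |>.1 h3
          exact ⟨a, (congrArg Subtype.val ha).symm⟩
        obtain ⟨a, ha⟩ := hpow x hxE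
        obtain ⟨b, hb⟩ := hpow y hyE
        have hcomm : ρ (x * y) v = ρ (y * x) v := by
          rw [rho_mul, rho_mul, ha, hb, map_pow, map_pow, ha, hb, ← pow_mul, ← pow_mul, mul_comm]
        have hcz := h.comm x hxE y hyE
        have hrel : x * y = ⁅x, y⁆ * (y * x) := by
          simp only [commutatorElement_def]; group
        rw [hrel, rho_mul] at hcomm
        have hfix : ρ ⁅x, y⁆ (ρ (y * x) v) = ρ (y * x) v := hcomm
        have h5 : ρ (y * x) v = 1 := by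
          apply hfpf _ (hst _ (E.mul_mem hyE hxE) _ hvW)
          intro u hu
          obtain ⟨a, rfl⟩ := h.exists_pow hcz hxy' hu
          exact rho_pow_fix ρ hfix a
        apply hv1
        exact (map_eq_one_iff _ (ρ (y * x)).injective).1 h5
      rw [hd]
      apply Nat.pow_le_pow_right hrp.pos
      have : n * 2 ^ 1 ≤ 2 := by omega
      omega

end main

section final

variable {G : Type*} [Group G] [Finite G] {p r : ℕ} [Fact p.Prime] [Fact r.Prime]

theorem main_S2912 (hpr : p ≠ r) (E A : Subgroup G) (w : ℕ) (hE : IsExtraspecial p ↥E)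
    (hEcard : Nat.card ↥E = p ^ (2 * w + 1)) (hA : IsElementaryAbelian r A)
    (hnorm : E ≤ Subgroup.normalizer (A : Set G)) (hfaith : E ⊓ Subgroup.centralizer (A : Set G) = ⊥)
    (n : ℕ) (hmin : ∀ k : ℕ, 1 ≤ k → p ∣ r ^ k - 1 → n ≤ k) :
    r ^ (n * p ^ w) ≤ Nat.card ↥A := by
  have hp : p.Prime := Fact.out
  letI : CommGroup ↥A := { (inferInstance : Group ↥A) with
    mul_comm := fun a b => by
      haveI := hA.1
      exact mul_comm' a b }
  have hconj : ∀ (g : ↥E) (a : ↥A), (g : G) * a * (g : G)⁻¹ ∈ A := fun g a =>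
    (Subgroup.mem_normalizer_iff.1 (hnorm g.2) a).1 a.2
  let ρ : ↥E →* MulAut ↥A := MonoidHom.mk'
    (fun g =>
      { toFun := fun a => ⟨(g : G) * a * (g : G)⁻¹, hconj g a⟩
        invFun := fun a => ⟨(g : G)⁻¹ * a * (g : G), by
          have := hconj g⁻¹ a
          simpa using this⟩
        left_inv := fun a => Subtype.ext (by simp [mul_assoc])
        right_inv := fun a => Subtype.ext (by simp [mul_assoc])
        map_mul' := fun a b => Subtype.ext (by simp [mul_assoc]) })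
    (fun a b => by
      ext v
      simp [MulAut.mul_apply]
      group)
  have hρ : ∀ (g : ↥E) (a : ↥A), ((ρ g a : ↥A) : G) = (g : G) * a * (g : G)⁻¹ := fun _ _ => rfl
  have hr : ∀ v : ↥A, v ^ r = 1 := fun v => Subtype.ext (hA.2 v v.2)
  -- the data for `E`
  have hES : ESD p (⊤ : Subgroup ↥E) (Subgroup.center ↥E) :=
    { le := le_top
      card := hE.2
      central := fun z hz g _ => (Subgroup.mem_center_iff.1 hz g).symm
      center := fun c _ hc => Subgroup.mem_center_iff.2 fun g => (hc g trivial).symm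
      comm := fun g _ h _ => Cfsg.Agent.Lib.Coprime.ext_commutator_mem hE g h
      pow := fun g _ => Cfsg.Agent.Lib.Coprime.ext_pow_mem hE g }
  -- a nontrivial central element
  obtain ⟨u, hu1⟩ : ∃ u : ↥(Subgroup.center ↥E), u ≠ 1 := by
    haveI : Nontrivial ↥(Subgroup.center ↥E) := by
      apply Finite.one_lt_card_iff_nontrivial.1
      rw [hE.2]
      exact hp.one_lt
    exact exists_ne 1
  have huZ : (u : ↥E) ∈ Subgroup.center ↥E := u.2
  have hu1' : (u : ↥E) ≠ 1 := fun e => hu1 (Subtype.ext e)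
  have hup : (u : ↥E) ^ p = 1 := hES.pow_eq_one huZ
  set W : Subgroup ↥A := (Nm ρ p (u : ↥E)).ker with hW
  have hstW : ∀ g ∈ (⊤ : Subgroup ↥E), ∀ v ∈ W, ρ g v ∈ W := by
    intro g _ v hv
    have hv' : Nm ρ p (u : ↥E) v = 1 := hv
    show Nm ρ p (u : ↥E) (ρ g v) = 1
    have h1 : Nm ρ p (u : ↥E) (ρ g v) = ρ g (Nm ρ p (u : ↥E) v) := by
      rw [Nm_apply, Nm_apply, map_prod]
      refine Finset.prod_congr rfl fun k _ => ?_
      rw [← rho_mul, ← rho_mul]
      have h2 : Commute ((u : ↥E) ^ k) g := (show Commute (u : ↥E) g from (Subgroup.mem_center_iff.1 huZ g).symm).pow_left k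
      rw [h2.eq]
    rw [h1, hv', map_one]
  have hfpfW : ∀ v ∈ W, (∀ t ∈ Subgroup.center ↥E, ρ t v = v) → v = 1 := by
    intro v hv ht
    have h1 : Nm ρ p (u : ↥E) v = 1 := hv
    rw [Nm_self ρ (ht _ huZ)] at h1
    have h2 : v ^ p = (1 : ↥A) ^ p := by rw [h1, one_pow]
    exact pow_inj_of_coprime hr ((Nat.coprime_primes hp Fact.out).2 hpr) h2
  have hWne : W ≠ ⊥ := by
    -- `u` acts nontrivially
    have hun : ¬ ∀ a : ↥A, ρ (u : ↥E) a = a := by
      intro hall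
      apply hu1'
      have h1 : ((u : ↥E) : G) ∈ E ⊓ Subgroup.centralizer (A : Set G) := by
        refine ⟨(u : ↥E).2, ?_⟩
        show ((u : ↥E) : G) ∈ Subgroup.centralizer (A : Set G)
        rw [Subgroup.mem_centralizer_iff]
        intro a ha
        have h2 := congrArg Subtype.val (hall ⟨a, ha⟩)
        rw [hρ] at h2
        have h3 : (u : ↥E).1 * a * (u : ↥E).1⁻¹ = a := h2
        rw [mul_inv_eq_iff_eq_mul] at h3
        exact h3.symm
      rw [hfaith, Subgroup.mem_bot] at h1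
      exact Subtype.ext h1
    push Not at hun
    obtain ⟨a, ha⟩ := hun
    intro hbot
    have hmem : (ρ (u : ↥E) a) * a⁻¹ ∈ W := by
      show Nm ρ p (u : ↥E) ((ρ (u : ↥E) a) * a⁻¹) = 1
      rw [map_mul, map_inv]
      have h1 : Nm ρ p (u : ↥E) (ρ (u : ↥E) a) = Nm ρ p (u : ↥E) a := by
        rw [Nm_apply, ← Nm_fixed ρ hup a, Nm_apply, map_prod]
        refine Finset.prod_congr rfl fun k _ => ?_
        rw [← rho_mul, ← rho_mul]
        exact congrArg (fun t => ρ t a) (((Commute.refl (u : ↥E)).pow_left k).eq)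
      rw [h1, mul_inv_cancel]
    rw [hbot, Subgroup.mem_bot] at hmem
    exact ha (mul_inv_eq_one.1 hmem)
  have hbound := abs_bound ρ hr hpr n hmin w _ _ W hES (by rw [Subgroup.card_top]; exact hEcard) hstW hfpfW hWne
  exact hbound.trans (Subgroup.card_le_card_group W)

end final

end Cfsg.Agent.Lib.LocalEven.ExtraRep
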