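import Mathlib

/-!
# Counting fixed points: at most two points with stabilizer of order at least six

If every nontrivial element of a finite group fixes exactly two points of a finite set, then at most
two points have stabilizer of order at least six.
-/

set_option autoImplicit false

namespace Cfsg.Agent.Lib.LocalEven.ExtraTorA

open Finset

/-- Elementary arithmetic for three orbits. -/
theorem triple_aux {w a b c : ℕ} (hw : 0 < w) (hb : b ∣ w) (hc : c ∣ w) (hbw : b < w) (hcw : c < w)
    (hsum : a + b + c = w + 2) (ha : 6 * a ≤ w) : a = 2 ∧ w = 2 * b ∧ w = 2 * c := by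
  have key : ∀ d e : ℕ, d ∣ w → e ∣ w → d < w → e < w → a + d + e = w + 2 → w = 2 * d := by
    intro d e hd he hdw hew hs
    obtain ⟨k, hk⟩ := hd
    obtain ⟨l, hl⟩ := he
    have hdpos : 0 < d := Nat.pos_of_ne_zero (by rintro rfl; simp at hk; omega)
    have hepos : 0 < e := Nat.pos_of_ne_zero (by rintro rfl; simp at hl; omega)
    have hk2 : 2 ≤ k := by
      by_contra hlt
      have : k = 0 ∨ k = 1 := by omega
      rcases this with rfl | rfl <;> simp at hk <;> omega
    have hl2 : 2 ≤ l := by
      by_contra hlt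
      have : l = 0 ∨ l = 1 := by omega
      rcases this with rfl | rfl <;> simp at hl <;> omega
    have h1 : 2 * e ≤ w := by
      calc 2 * e = e * 2 := by ring
        _ ≤ e * l := Nat.mul_le_mul_left _ hl2
        _ = w := hl.symm
    have hk3 : k < 3 := by
      by_contra hge
      have h2 : 3 * d ≤ w := by
        calc 3 * d = d * 3 := by ring
          _ ≤ d * k := Nat.mul_le_mul_left _ (by omega)
          _ = w := hk.symm
      omega
    have : k = 2 := by omega
    subst this
    rw [hk]; ring
  have h1 := key b c hb hc hbw hcw hsum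
  have h2 := key c b hc hb hcw hbw (by omega)
  exact ⟨by omega, h1, h2⟩

/-- The arithmetic of orbit sizes. -/
theorem arith_orbits {Q : Type*} [Fintype Q] [DecidableEq Q] (n : Q → ℕ) {w : ℕ} (hw : 0 < w)
    (hd : ∀ q, n q ∣ w) (hsum : ∑ q, (w - n q) + 2 = 2 * w) :
    ∑ q ∈ univ.filter (fun q => 6 * n q ≤ w), n q ≤ 2 := by
  have hle : ∀ q, n q ≤ w := fun q => Nat.le_of_dvd hw (hd q)
  have hpos : ∀ q, 0 < n q := fun q => Nat.pos_of_dvd_of_pos (hd q) hw
  have hhalf : ∀ q, n q < w → 2 * n q ≤ w := by
    intro q hq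
    obtain ⟨k, hk⟩ := hd q
    have hk2 : 2 ≤ k := by
      by_contra hlt
      have : k = 0 ∨ k = 1 := by omega
      rcases this with h | h <;> rw [h] at hk <;> simp at hk <;> omega
    rw [hk]; nlinarith [hpos q]
  let B : Finset Q := univ.filter (fun q => n q < w)
  have hB : ∑ q ∈ B, (w - n q) + 2 = 2 * w := by
    rw [← hsum]
    congr 1
    apply Finset.sum_subset (Finset.subset_univ _)
    intro q _ hq
    have : ¬ n q < w := by simpa [B] using hq
    have : n q = w := le_antisymm (hle q) (by omega)
    rw [this]; simp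
  have hbig : (univ.filter (fun q => 6 * n q ≤ w)) ⊆ B := by
    intro q hq
    simp only [mem_filter, mem_univ, true_and, B] at hq ⊢
    have := hpos q
    omega
  have hcard : B.card ≤ 3 := by
    by_contra hgt
    have h4 : 4 ≤ B.card := by omega
    have h1 : ∑ q ∈ B, (2 * (w - n q)) ≥ ∑ _q ∈ B, w := by
      apply Finset.sum_le_sum
      intro q hq
      have : n q < w := by simpa [B] using hq
      have := hhalf q this
      omega
    rw [← Finset.mul_sum, Finset.sum_const, smul_eq_mul] at h1
    nlinarith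
  have hsplit : ∑ q ∈ univ.filter (fun q => 6 * n q ≤ w), n q = ∑ q ∈ B, (if 6 * n q ≤ w then n q else 0) := by
    rw [← Finset.sum_filter]
    apply Finset.sum_congr _ (fun _ _ => rfl)
    ext q
    simp only [mem_filter, mem_univ, true_and]
    constructor
    · intro h
      exact ⟨hbig (by simpa using h), h⟩
    · exact fun h => h.2
  rw [hsplit]
  have hBmem : ∀ q ∈ B, n q < w := fun q hq => by simpa [B] using hq
  obtain h0 | h1 | h2 | h3 : B.card = 0 ∨ B.card = 1 ∨ B.card = 2 ∨ B.card = 3 := by omega
  · rw [Finset.card_eq_zero] at h0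
    rw [h0]; simp
  · obtain ⟨q, hq⟩ := Finset.card_eq_one.1 h1
    rw [hq] at hB ⊢
    simp only [sum_singleton] at hB ⊢
    have := hpos q
    have h5 := hBmem q (by rw [hq]; simp)
    omega
  · obtain ⟨q, r, hqr, hq⟩ := Finset.card_eq_two.1 h2
    rw [hq] at hB ⊢
    rw [Finset.sum_pair hqr] at hB ⊢
    have h5 := hBmem q (by rw [hq]; simp)
    have h6 := hBmem r (by rw [hq]; simp)
    split_ifs <;> omega
  · obtain ⟨q, r, s, hqr, hqs, hrs, hq⟩ := Finset.card_eq_three.1 h3
    have hqB := hBmem q (by rw [hq]; simp)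
    have hrB := hBmem r (by rw [hq]; simp)
    have hsB := hBmem s (by rw [hq]; simp)
    rw [hq] at hB ⊢
    rw [Finset.sum_insert (by simp [hqr, hqs]), Finset.sum_pair hrs] at hB ⊢
    have ht : n q + n r + n s = w + 2 := by omega
    by_cases h6q : 6 * n q ≤ w
    · obtain ⟨-, h7, h8⟩ := triple_aux hw (hd r) (hd s) hrB hsB ht h6q
      have := hpos r
      have := hpos s
      rw [if_pos h6q, if_neg (by omega), if_neg (by omega)]
      omega
    · by_cases h6r : 6 * n r ≤ w
      · obtain ⟨-, h7, h8⟩ := triple_aux hw (hd q) (hd s) hqB hsB (by omega : n r + n q + n s = w + 2) h6r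
        have := hpos q
        have := hpos s
        rw [if_neg h6q, if_pos h6r, if_neg (by omega)]
        omega
      · by_cases h6s : 6 * n s ≤ w
        · obtain ⟨-, h7, h8⟩ := triple_aux hw (hd q) (hd r) hqB hrB (by omega : n s + n q + n r = w + 2) h6s
          have := hpos q
          have := hpos r
          rw [if_neg h6q, if_neg h6r, if_pos h6s]
          omega
        · rw [if_neg h6q, if_neg h6r, if_neg h6s]
          omega

open MulAction in
/-- If every nontrivial element fixes exactly two points, no three points have stabilizers of order at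
least six. -/
theorem no_three_big {Γ X : Type*} [Group Γ] [Finite Γ] [Finite X] [MulAction Γ X]
    (hfix : ∀ γ : Γ, γ ≠ 1 → Nat.card (fixedBy X γ) = 2) (x₁ x₂ x₃ : X) (h12 : x₁ ≠ x₂) (h13 : x₁ ≠ x₃)
    (h23 : x₂ ≠ x₃) (h1 : 6 ≤ Nat.card (stabilizer Γ x₁)) (h2 : 6 ≤ Nat.card (stabilizer Γ x₂))
    (h3 : 6 ≤ Nat.card (stabilizer Γ x₃)) : False := by
  classical
  haveI := Fintype.ofFinite Γ
  haveI := Fintype.ofFinite X
  haveI : ∀ γ : Γ, Fintype (fixedBy X γ) := fun γ => Fintype.ofFinite _
  haveI : Fintype (Quotient (orbitRel Γ X)) := Fintype.ofFinite _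
  let Q := Quotient (orbitRel Γ X)
  obtain ⟨w, hw⟩ : ∃ w, w = Fintype.card Γ := ⟨_, rfl⟩
  have hwpos : 0 < w := by rw [hw]; exact Fintype.card_pos
  let π : X → Q := fun x => Quotient.mk'' x
  let n : Q → ℕ := fun q => (univ.filter (fun y => π y = q)).card
  have hπ : ∀ x y : X, π y = π x ↔ y ∈ orbit Γ x := by
    intro x y
    exact Quotient.eq''.trans (orbitRel_apply)
  have hnorb : ∀ x : X, n (π x) = Nat.card (orbit Γ x) := by
    intro x
    rw [Nat.card_eq_fintype_card]
    refine (Fintype.card_of_subtype _ (fun y => ?_)).symm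
    simp only [mem_filter, mem_univ, true_and]
    exact hπ x y
  have horb : ∀ x : X, n (π x) * Nat.card (stabilizer Γ x) = w := by
    intro x
    rw [hnorb, hw]
    have := card_orbit_mul_card_stabilizer_eq_card_group Γ x
    simpa only [Nat.card_eq_fintype_card] using this
  have hπsurj : ∀ q : Q, ∃ x, π x = q := fun q => Quotient.exists_rep q
  have hd : ∀ q, n q ∣ w := by
    intro q
    obtain ⟨x, rfl⟩ := hπsurj q
    exact ⟨_, (horb x).symm⟩
  have hcardX : ∑ q, n q = Fintype.card X := by
    have := Finset.card_eq_sum_card_fiberwise (f := π) (s := (univ : Finset X)) (t := (univ : Finset Q))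
      (fun _ _ => by simp)
    rw [Finset.card_univ] at this
    exact this.symm
  have hburn := sum_card_fixedBy_eq_card_orbits_mul_card_group Γ X
  have hburn2 : ∑ γ : Γ, Fintype.card (fixedBy X γ) = Fintype.card X + 2 * (w - 1) := by
    have h1 : ∑ γ : Γ, Fintype.card (fixedBy X γ) =
        Fintype.card (fixedBy X (1 : Γ)) + ∑ γ ∈ univ.erase (1 : Γ), Fintype.card (fixedBy X γ) := by
      exact (Finset.add_sum_erase univ (fun γ : Γ => Fintype.card (fixedBy X γ)) (mem_univ (1 : Γ))).symm
    rw [h1]
    have h2 : Fintype.card (fixedBy X (1 : Γ)) = Fintype.card X := by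
      rw [← Nat.card_eq_fintype_card, ← Nat.card_eq_fintype_card]
      apply Nat.card_congr
      refine ⟨fun x => x.1, fun x => ⟨x, by simp⟩, fun x => rfl, fun x => rfl⟩
    have h3 : ∑ γ ∈ univ.erase (1 : Γ), Fintype.card (fixedBy X γ) = ∑ _γ ∈ univ.erase (1 : Γ), 2 := by
      apply Finset.sum_congr rfl
      intro γ hγ
      rw [← Nat.card_eq_fintype_card]
      exact hfix γ (by simpa using hγ)
    rw [h2, h3, Finset.sum_const, Finset.card_erase_of_mem (mem_univ _), Finset.card_univ, ← hw, smul_eq_mul]
    ring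
  have hsum : ∑ q, (w - n q) + 2 = 2 * w := by
    have hle : ∀ q, n q ≤ w := fun q => Nat.le_of_dvd hwpos (hd q)
    have h5 : ∑ q : Q, (w - n q) + ∑ q, n q = ∑ _q : Q, w := by
      rw [← Finset.sum_add_distrib]
      apply Finset.sum_congr rfl
      intro q _
      exact Nat.sub_add_cancel (hle q)
    rw [Finset.sum_const, smul_eq_mul, Finset.card_univ, hcardX] at h5
    rw [hburn2, ← hw] at hburn
    change Fintype.card X + 2 * (w - 1) = Fintype.card Q * w at hburn
    change ∑ q : Q, (w - n q) + Fintype.card X = Fintype.card Q * w at h5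
    change ∑ q : Q, (w - n q) + 2 = 2 * w
    omega
  have harith := arith_orbits n hwpos hd hsum
  have hbigOf : ∀ x : X, 6 ≤ Nat.card (stabilizer Γ x) → 6 * n (π x) ≤ w := by
    intro x hx
    rw [← horb x]
    rw [mul_comm]
    exact Nat.mul_le_mul_left _ hx
  let big : Finset Q := univ.filter (fun q => 6 * n q ≤ w)
  have hcnt : (univ.filter (fun y => π y ∈ big)).card = ∑ q ∈ big, n q := by
    rw [Finset.card_eq_sum_card_fiberwise (f := π) (t := big)
      (fun y hy => by simpa using hy)]
    apply Finset.sum_congr rfl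
    intro q hq
    congr 1
    ext y
    simp only [mem_filter, mem_univ, true_and]
    constructor
    · exact fun h => h.2
    · intro h
      exact ⟨by rw [h]; exact hq, h⟩
  have hthree : ({x₁, x₂, x₃} : Finset X) ⊆ univ.filter (fun y => π y ∈ big) := by
    intro y hy
    simp only [mem_insert, mem_singleton] at hy
    simp only [mem_filter, mem_univ, true_and, big]
    rcases hy with rfl | rfl | rfl
    · exact hbigOf _ h1
    · exact hbigOf _ h2
    · exact hbigOf _ h3
  have h4 := Finset.card_le_card hthree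
  rw [hcnt, Finset.card_eq_three.2 ⟨x₁, x₂, x₃, h12, h13, h23, rfl⟩] at h4
  have : ∑ q ∈ big, n q ≤ 2 := harith
  omega

end Cfsg.Agent.Lib.LocalEven.ExtraTorA
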