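import Cfsg.Agent.Lib.LocalEven.ExtraTorA

/-!
# The projective line over `𝔽_{p²}`

Non-scalar matrices in `GL₂(p)` of order prime to `p` fix exactly two points of the projective line
over `𝔽_{p²}`.
-/

set_option autoImplicit false

namespace Cfsg.Agent.Lib.LocalEven.ExtraTorB

open Matrix

section eig

variable {K : Type*} [Field K]

/-- Two eigenvectors for distinct eigenvalues determine the fixed points of the projective line. -/
theorem fix_two_K (M : GL (Fin 2) K) {l m : K} (hne : l ≠ m) (htr : l + m = M.val 0 0 + M.val 1 1)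
    (hdet : l * m = M.val 0 0 * M.val 1 1 - M.val 0 1 * M.val 1 0) :
    ∃ p₁ p₂ : Projectivization K (Fin 2 → K), p₁ ≠ p₂ ∧
      ∀ x : Projectivization K (Fin 2 → K), M • x = x ↔ x = p₁ ∨ x = p₂ := by
  have heig : ∀ c : K, c * c - (l + m) * c + l * m = 0 → ∃ v : Fin 2 → K, v ≠ 0 ∧ M.val.mulVec v = c • v := by
    intro c hc
    have hd : (M.val - c • (1 : Matrix (Fin 2) (Fin 2) K)).det = 0 := by
      rw [Matrix.det_fin_two]
      simp only [Matrix.sub_apply, Matrix.smul_apply, Matrix.one_apply_eq, smul_eq_mul, mul_one]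
      simp only [Matrix.one_apply_ne (show (0 : Fin 2) ≠ 1 by decide), Matrix.one_apply_ne (show (1 : Fin 2) ≠ 0 by decide),
        smul_zero, sub_zero]
      rw [htr, hdet] at hc
      linear_combination hc
    obtain ⟨v, hv, hv0⟩ := Matrix.exists_mulVec_eq_zero_iff.2 hd
    refine ⟨v, hv, ?_⟩
    rw [Matrix.sub_mulVec, Matrix.smul_mulVec, Matrix.one_mulVec] at hv0
    exact sub_eq_zero.1 hv0
  obtain ⟨v₁, hv₁, hM₁⟩ := heig l (by ring)
  obtain ⟨v₂, hv₂, hM₂⟩ := heig m (by ring)
  have hlm : l - m ≠ 0 := sub_ne_zero.2 hne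
  -- independence
  have hD : v₁ 0 * v₂ 1 - v₁ 1 * v₂ 0 ≠ 0 := by
    intro hD
    have h0 := congrFun hM₁ 0
    have h1 := congrFun hM₁ 1
    have h0' := congrFun hM₂ 0
    have h1' := congrFun hM₂ 1
    simp only [Matrix.mulVec, dotProduct, Fin.sum_univ_two, Pi.smul_apply, smul_eq_mul] at h0 h1 h0' h1'
    by_cases h : v₂ 0 = 0
    · have hb : v₂ 1 ≠ 0 := by
        intro hb
        apply hv₂
        ext i
        fin_cases i
        · exact h
        · exact hb
      rw [h, mul_zero, sub_zero] at hD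
      have hv10 : v₁ 0 = 0 := by
        rcases mul_eq_zero.1 hD with h2 | h2
        · exact h2
        · exact absurd h2 hb
      have hv11 : v₁ 1 ≠ 0 := by
        intro hb'
        apply hv₁
        ext i
        fin_cases i
        · exact hv10
        · exact hb'
      rw [hv10, mul_zero, zero_add] at h0 h1
      rw [h, mul_zero, zero_add] at h0' h1'
      have h3 : (l - m) * (v₁ 1 * v₂ 1) = 0 := by
        linear_combination -v₂ 1 * h1 + v₁ 1 * h1'
      rcases mul_eq_zero.1 h3 with h4 | h4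
      · exact hlm h4
      · exact (mul_ne_zero hv11 hb) h4
    · -- `v₁ = (v₁ 0 / v₂ 0) • v₂`
      have h5 : v₁ 1 = (v₁ 0 / v₂ 0) * v₂ 1 := by
        field_simp
        linear_combination -hD
      have h6 : v₁ 0 = (v₁ 0 / v₂ 0) * v₂ 0 := by field_simp
      obtain ⟨c, hc⟩ : ∃ c, c = v₁ 0 / v₂ 0 := ⟨_, rfl⟩
      rw [← hc] at h5 h6
      have hc0 : c ≠ 0 := by
        intro hc0
        apply hv₁
        ext i
        fin_cases i
        · simpa [hc0] using h6
        · simpa [hc0] using h5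
      rw [h6, h5] at h0
      have h7 : (l - m) * (c * v₂ 0) = 0 := by
        linear_combination -h0 + c * h0'
      rcases mul_eq_zero.1 h7 with h8 | h8
      · exact hlm h8
      · exact (mul_ne_zero hc0 h) h8
  -- the points
  refine ⟨Projectivization.mk K v₁ hv₁, Projectivization.mk K v₂ hv₂, ?_, ?_⟩
  · intro h
    rw [Projectivization.mk_eq_mk_iff'] at h
    obtain ⟨a, ha⟩ := h
    apply hD
    rw [← ha]
    simp only [Pi.smul_apply, smul_eq_mul]
    ring
  · intro x
    induction x using Projectivization.ind with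
    | h v hv =>
      rw [Projectivization.smul_mk M hv, Projectivization.mk_eq_mk_iff']
      constructor
      · rintro ⟨ν, hν⟩
        have hν' : M.val.mulVec v = ν • v := hν.symm
        -- Cramer
        obtain ⟨D, hDd⟩ : ∃ D, D = v₁ 0 * v₂ 1 - v₁ 1 * v₂ 0 := ⟨_, rfl⟩
        rw [← hDd] at hD
        obtain ⟨α, hα⟩ : ∃ α, α = (v 0 * v₂ 1 - v 1 * v₂ 0) / D := ⟨_, rfl⟩
        obtain ⟨β, hβ⟩ : ∃ β, β = (v₁ 0 * v 1 - v₁ 1 * v 0) / D := ⟨_, rfl⟩
        have hvexp : v = α • v₁ + β • v₂ := by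
          ext i
          fin_cases i
          · simp only [Pi.add_apply, Pi.smul_apply, smul_eq_mul, Fin.zero_eta, Fin.mk_one]
            rw [hα, hβ]
            field_simp
            rw [hDd]; ring
          · simp only [Pi.add_apply, Pi.smul_apply, smul_eq_mul, Fin.zero_eta, Fin.mk_one]
            rw [hα, hβ]
            field_simp
            rw [hDd]; ring
        have hcomb : (α * (l - ν)) • v₁ + (β * (m - ν)) • v₂ = 0 := by
          have h1 : M.val.mulVec v = α • (l • v₁) + β • (m • v₂) := by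
            rw [hvexp, Matrix.mulVec_add, Matrix.mulVec_smul, Matrix.mulVec_smul, hM₁, hM₂]
          rw [hν'] at h1
          have h2 : ν • v = α • (ν • v₁) + β • (ν • v₂) := by
            nth_rewrite 1 [hvexp]
            rw [smul_add, smul_comm ν α, smul_comm ν β]
          ext i
          have h3 := congrFun h1 i
          have h4 := congrFun h2 i
          simp only [Pi.add_apply, Pi.smul_apply, smul_eq_mul, Pi.zero_apply] at h3 h4 ⊢
          linear_combination h4 - h3
        have hc0 := congrFun hcomb 0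
        have hc1 := congrFun hcomb 1
        simp only [Pi.add_apply, Pi.smul_apply, smul_eq_mul, Pi.zero_apply] at hc0 hc1
        have hα0 : (α * (l - ν)) * D = 0 := by
          rw [hDd]
          linear_combination v₂ 1 * hc0 - v₂ 0 * hc1
        have hβ0 : (β * (m - ν)) * D = 0 := by
          rw [hDd]
          linear_combination v₁ 0 * hc1 - v₁ 1 * hc0
        have hα1 : α * (l - ν) = 0 := (mul_eq_zero.1 hα0).resolve_right hD
        have hβ1 : β * (m - ν) = 0 := (mul_eq_zero.1 hβ0).resolve_right hD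
        by_cases hα2 : α = 0
        · right
          rw [Projectivization.mk_eq_mk_iff']
          refine ⟨β, ?_⟩
          rw [hvexp, hα2]; simp
        · left
          have hνl : l = ν := by
            have := (mul_eq_zero.1 hα1).resolve_left hα2
            exact sub_eq_zero.1 this
          have hβ2 : β = 0 := by
            rcases mul_eq_zero.1 hβ1 with h | h
            · exact h
            · exfalso
              apply hne
              rw [hνl]
              exact (sub_eq_zero.1 h).symm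
          rw [Projectivization.mk_eq_mk_iff']
          refine ⟨α, ?_⟩
          rw [hvexp, hβ2]; simp
      · rintro (h | h)
        · rw [Projectivization.mk_eq_mk_iff'] at h
          obtain ⟨a, ha⟩ := h
          refine ⟨l, ?_⟩
          have : M • v = M.val.mulVec v := rfl
          rw [this, ← ha, Matrix.mulVec_smul, hM₁, smul_comm]
        · rw [Projectivization.mk_eq_mk_iff'] at h
          obtain ⟨a, ha⟩ := h
          refine ⟨m, ?_⟩
          have : M • v = M.val.mulVec v := rfl
          rw [this, ← ha, Matrix.mulVec_smul, hM₂, smul_comm]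

/-- Scalar matrices act trivially. -/
theorem scalar_fix (M : GL (Fin 2) K) {c : K} (hc : M.val = c • 1) (x : Projectivization K (Fin 2 → K)) : M • x = x := by
  induction x using Projectivization.ind with
  | h v hv =>
    rw [Projectivization.smul_mk M hv, Projectivization.mk_eq_mk_iff']
    refine ⟨c, ?_⟩
    have : M • v = M.val.mulVec v := rfl
    rw [this, hc, Matrix.smul_mulVec, Matrix.one_mulVec]

/-- Three points of the line. -/
theorem three_points (M : GL (Fin 2) K) (p₁ p₂ : Projectivization K (Fin 2 → K))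
    (h : ∀ x : Projectivization K (Fin 2 → K), M • x = x ↔ x = p₁ ∨ x = p₂) :
    ∃ x : Projectivization K (Fin 2 → K), M • x ≠ x := by
  by_contra hno
  push Not at hno
  let e₀ : Fin 2 → K := ![1, 0]
  let e₁ : Fin 2 → K := ![0, 1]
  let e₂ : Fin 2 → K := ![1, 1]
  have he₀ : e₀ ≠ 0 := by
    intro h
    have := congrFun h 0
    simp [e₀] at this
  have he₁ : e₁ ≠ 0 := by
    intro h
    have := congrFun h 1
    simp [e₁] at this
  have he₂ : e₂ ≠ 0 := by
    intro h
    have := congrFun h 0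
    simp [e₂] at this
  have h01 : Projectivization.mk K e₀ he₀ ≠ Projectivization.mk K e₁ he₁ := by
    rw [Ne, Projectivization.mk_eq_mk_iff']
    rintro ⟨a, ha⟩
    have := congrFun ha 0
    simp [e₀, e₁] at this
  have h02 : Projectivization.mk K e₀ he₀ ≠ Projectivization.mk K e₂ he₂ := by
    rw [Ne, Projectivization.mk_eq_mk_iff']
    rintro ⟨a, ha⟩
    have h1 := congrFun ha 0
    have h2 := congrFun ha 1
    simp [e₀, e₂] at h1 h2
    rw [h2] at h1
    simp at h1
  have h12 : Projectivization.mk K e₁ he₁ ≠ Projectivization.mk K e₂ he₂ := by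
    rw [Ne, Projectivization.mk_eq_mk_iff']
    rintro ⟨a, ha⟩
    have h1 := congrFun ha 0
    have h2 := congrFun ha 1
    simp [e₁, e₂] at h1 h2
    rw [h1] at h2
    simp at h2
  have a0 := (h _).1 (hno (Projectivization.mk K e₀ he₀))
  have a1 := (h _).1 (hno (Projectivization.mk K e₁ he₁))
  have a2 := (h _).1 (hno (Projectivization.mk K e₂ he₂))
  rcases a0 with a0 | a0 <;> rcases a1 with a1 | a1 <;> rcases a2 with a2 | a2
  · exact h01 (a0.trans a1.symm)
  · exact h01 (a0.trans a1.symm)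
  · exact h02 (a0.trans a2.symm)
  · exact h12 (a1.trans a2.symm)
  · exact h12 (a1.trans a2.symm)
  · exact h02 (a0.trans a2.symm)
  · exact h01 (a0.trans a1.symm)
  · exact h01 (a0.trans a1.symm)

end eig

section fp

variable {p : ℕ} [Fact p.Prime]

/-- Non-scalar matrices of order prime to `p` have nonzero discriminant. -/
theorem disc_ne (hp : p ≠ 2) (M : GL (Fin 2) (ZMod p)) (hco : Nat.Coprime (orderOf M) p)
    (hns : ¬ ∃ c : ZMod p, M.val = c • 1) :
    (M.val 0 0 + M.val 1 1) ^ 2 - 4 * (M.val 0 0 * M.val 1 1 - M.val 0 1 * M.val 1 0) ≠ 0 := by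
  intro hΔ
  haveI : Fact (p.Prime) := inferInstance
  have h2 : (2 : ZMod p) ≠ 0 := by
    intro h
    have : ((2 : ℕ) : ZMod p) = 0 := by exact_mod_cast h
    rw [ZMod.natCast_eq_zero_iff] at this
    have h3 := Nat.le_of_dvd (by norm_num) this
    have h4 := (Fact.out : p.Prime).two_le
    omega
  obtain ⟨l, hl⟩ : ∃ l : ZMod p, 2 * l = M.val 0 0 + M.val 1 1 := ⟨(M.val 0 0 + M.val 1 1) / 2, by field_simp⟩
  obtain ⟨N, hN⟩ : ∃ N : Matrix (Fin 2) (Fin 2) (ZMod p), N = M.val - l • 1 := ⟨_, rfl⟩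
  have hNN : N * N = 0 := by
    have h4 : (4 : ZMod p) ≠ 0 := by
      have : (4 : ZMod p) = 2 * 2 := by norm_num
      rw [this]
      exact mul_ne_zero h2 h2
    rw [hN]
    obtain ⟨a, ha⟩ : ∃ a, a = M.val 0 0 := ⟨_, rfl⟩
    obtain ⟨b, hb⟩ : ∃ b, b = M.val 0 1 := ⟨_, rfl⟩
    obtain ⟨c, hc⟩ : ∃ c, c = M.val 1 0 := ⟨_, rfl⟩
    obtain ⟨d, hd⟩ : ∃ d, d = M.val 1 1 := ⟨_, rfl⟩
    rw [← ha, ← hb, ← hc, ← hd] at hΔ
    rw [← ha, ← hd] at hl
    ext i j
    fin_cases i <;> fin_cases j <;>
      simp [Matrix.mul_apply, Fin.sum_univ_two, Matrix.sub_apply, Matrix.one_apply, ← ha, ← hb, ← hc, ← hd]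
    · apply mul_left_cancel₀ h4
      rw [mul_zero]
      linear_combination hΔ + (-2 * (a - d) + (2 * l - a - d)) * hl
    · linear_combination (-b) * hl
    · linear_combination (-c) * hl
    · apply mul_left_cancel₀ h4
      rw [mul_zero]
      linear_combination hΔ + (-2 * (d - a) + (2 * l - a - d)) * hl
  have hM : M.val = l • 1 + N := by rw [hN]; abel
  have hcomm : Commute (l • (1 : Matrix (Fin 2) (Fin 2) (ZMod p))) N := (Commute.one_left N).smul_left l
  have hpow : M.val ^ p = (l • (1 : Matrix (Fin 2) (Fin 2) (ZMod p))) ^ p + N ^ p := by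
    rw [hM]
    exact add_pow_char_of_commute p hcomm
  have hNp : N ^ p = 0 := by
    have hp2 := (Fact.out : p.Prime).two_le
    exact pow_eq_zero_of_le hp2 (by rw [pow_two]; exact hNN)
  have hscal : (M ^ p).val = (l ^ p) • 1 := by
    rw [Units.val_pow_eq_pow_val, hpow, hNp, add_zero, smul_pow, one_pow]
  obtain ⟨m, hm⟩ := exists_pow_eq_self_of_coprime (x := M) (n := p) hco.symm
  apply hns
  refine ⟨(l ^ p) ^ m, ?_⟩
  rw [← hm, Units.val_pow_eq_pow_val, hscal, smul_pow, one_pow]

/-- The field with `p²` elements. -/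
abbrev KK (p : ℕ) [Fact p.Prime] := GaloisField p 2

/-- Every element of the prime field is a square in `𝔽_{p²}`. -/
theorem exists_sqrt (hp : p ≠ 2) (δ : ZMod p) : ∃ s : KK p, s * s = algebraMap (ZMod p) (KK p) δ := by
  classical
  by_cases hδ : δ = 0
  · exact ⟨0, by simp [hδ]⟩
  have hpp : p.Prime := Fact.out
  haveI : Fintype (KK p) := Fintype.ofFinite _
  have hchar : ringChar (KK p) ≠ 2 := by
    rw [ringChar.eq (KK p) p]
    exact hp
  have hne : algebraMap (ZMod p) (KK p) δ ≠ 0 := by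
    intro h
    exact hδ ((map_eq_zero _).1 h)
  have hcard : Fintype.card (KK p) = p ^ 2 := by
    rw [← Nat.card_eq_fintype_card]
    exact GaloisField.card p 2 (by norm_num)
  have hsq := (FiniteField.isSquare_iff hchar hne).2 ?_
  · obtain ⟨s, hs⟩ := hsq
    exact ⟨s, hs.symm⟩
  · rw [hcard]
    obtain ⟨r, hr⟩ : ∃ r, p = 2 * r + 1 := by
      rcases hpp.eq_two_or_odd' with h | ⟨r, hr⟩
      · exact absurd h hp
      · exact ⟨r, hr⟩
    have h1 : p ^ 2 / 2 = (p - 1) * (r + 1) := by
      rw [hr]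
      have : (2 * r + 1) ^ 2 = 2 * (2 * r * (r + 1)) + 1 := by ring
      rw [this]
      have h5 : 2 * r + 1 - 1 = 2 * r := by omega
      rw [h5]
      omega
    rw [h1, pow_mul, ← map_pow, ZMod.pow_card_sub_one_eq_one hδ, map_one, one_pow]

/-- The map `GL₂(p) → GL₂(p²)`. -/
noncomputable abbrev mK (p : ℕ) [Fact p.Prime] : GL (Fin 2) (ZMod p) →* GL (Fin 2) (KK p) :=
  Matrix.GeneralLinearGroup.map (algebraMap (ZMod p) (KK p))

/-- The action on the projective line. -/
noncomputable def phi (p : ℕ) [Fact p.Prime] : GL (Fin 2) (ZMod p) →* Equiv.Perm (Projectivization (KK p) (Fin 2 → KK p)) :=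
  (MulAction.toPermHom (GL (Fin 2) (KK p)) (Projectivization (KK p) (Fin 2 → KK p))).comp (mK p)

theorem phi_apply (M : GL (Fin 2) (ZMod p)) (x : Projectivization (KK p) (Fin 2 → KK p)) :
    phi p M x = mK p M • x := rfl

/-- Non-scalar matrices of order prime to `p` fix exactly two points. -/
theorem phi_fix_two (hp : p ≠ 2) (M : GL (Fin 2) (ZMod p)) (hco : Nat.Coprime (orderOf M) p)
    (hns : ¬ ∃ c : ZMod p, M.val = c • 1) :
    ∃ p₁ p₂ : Projectivization (KK p) (Fin 2 → KK p), p₁ ≠ p₂ ∧ ∀ x, phi p M x = x ↔ x = p₁ ∨ x = p₂ := by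
  have hd := disc_ne hp M hco hns
  obtain ⟨s, hs⟩ := exists_sqrt hp ((M.val 0 0 + M.val 1 1) ^ 2 - 4 * (M.val 0 0 * M.val 1 1 - M.val 0 1 * M.val 1 0))
  have hs0 : s ≠ 0 := by
    rintro rfl
    rw [mul_zero] at hs
    exact hd ((map_eq_zero _).1 hs.symm)
  have h2 : (2 : KK p) ≠ 0 := by
    intro h
    have hc : ringChar (KK p) ≠ 2 := by
      rw [ringChar.eq (KK p) p]
      exact hp
    have : ((2 : ℕ) : KK p) = 0 := by exact_mod_cast h
    rw [ringChar.spec] at this
    have h3 := Nat.le_of_dvd (by norm_num) this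
    have h4 : ringChar (KK p) = p := ringChar.eq (KK p) p
    have h5 := (Fact.out : p.Prime).two_le
    rw [h4] at h3 hc
    omega
  let κ := algebraMap (ZMod p) (KK p)
  obtain ⟨t, ht⟩ : ∃ t, t = κ (M.val 0 0) + κ (M.val 1 1) := ⟨_, rfl⟩
  obtain ⟨l, hl⟩ : ∃ l, l = (t + s) / 2 := ⟨_, rfl⟩
  obtain ⟨m, hm⟩ : ∃ m, m = (t - s) / 2 := ⟨_, rfl⟩
  have hne : l ≠ m := by
    rw [hl, hm]
    intro h
    apply hs0
    field_simp at h
    have : (2 : KK p) * s = 0 := by linear_combination h
    exact (mul_eq_zero.1 this).resolve_left h2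
  have hmap : ∀ i j, (mK p M).val i j = κ (M.val i j) := fun i j => rfl
  have hhs : s * s = (κ (M.val 0 0) + κ (M.val 1 1)) ^ 2 - 4 * (κ (M.val 0 0) * κ (M.val 1 1) - κ (M.val 0 1) * κ (M.val 1 0)) := by
    have hs' : s * s = κ ((M.val 0 0 + M.val 1 1) ^ 2 - 4 * (M.val 0 0 * M.val 1 1 - M.val 0 1 * M.val 1 0)) := hs
    have h4 : κ 4 = 4 := map_ofNat κ 4
    rw [hs']
    simp only [map_sub, map_add, map_mul, map_pow, h4]
  obtain ⟨p₁, p₂, h12, hfix⟩ := fix_two_K (mK p M) (l := l) (m := m) hne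
    (by rw [hmap, hmap, hl, hm, ← ht]; field_simp; ring)
    (by
      rw [hmap, hmap, hmap, hmap, hl, hm]
      field_simp
      rw [ht] at *
      linear_combination -hhs)
  exact ⟨p₁, p₂, h12, hfix⟩

theorem phi_ne_one (hp : p ≠ 2) (M : GL (Fin 2) (ZMod p)) (hco : Nat.Coprime (orderOf M) p)
    (hns : ¬ ∃ c : ZMod p, M.val = c • 1) : phi p M ≠ 1 := by
  intro h
  obtain ⟨p₁, p₂, -, hfix⟩ := phi_fix_two hp M hco hns
  obtain ⟨x, hx⟩ := three_points (mK p M) p₁ p₂ hfix
  apply hx
  have : phi p M x = x := by rw [h]; rfl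
  exact this

theorem phi_scalar (M : GL (Fin 2) (ZMod p)) {c : ZMod p} (hc : M.val = c • 1) : phi p M = 1 := by
  ext1 x
  rw [phi_apply]
  refine scalar_fix (mK p M) (c := algebraMap (ZMod p) (KK p) c) ?_ x
  ext i j
  have : (mK p M).val i j = algebraMap (ZMod p) (KK p) (M.val i j) := rfl
  rw [this, hc]
  fin_cases i <;> fin_cases j <;> simp

/-- Three distinct rational lines cannot all be fixed by elements with five non-scalar powers. -/
theorem line_lemma (hp : p ≠ 2) (W : Subgroup (GL (Fin 2) (ZMod p)))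
    (hW : ∀ w ∈ W, Nat.Coprime (orderOf w) p)
    (x : Fin 3 → (Fin 2 → ZMod p)) (hx : ∀ i, x i ≠ 0)
    (hind : ∀ i j, i ≠ j → x i 0 * x j 1 - x i 1 * x j 0 ≠ 0)
    (g : Fin 3 → GL (Fin 2) (ZMod p)) (hgW : ∀ i, g i ∈ W)
    (hg : ∀ i, ∃ c : ZMod p, (g i).val.mulVec (x i) = c • x i)
    (hns : ∀ i, ∀ k : ℕ, 1 ≤ k → k ≤ 5 → ¬ ∃ c : ZMod p, ((g i) ^ k).val = c • 1) : False := by
  classical
  let X := Projectivization (KK p) (Fin 2 → KK p)
  let κ := algebraMap (ZMod p) (KK p)
  let Γ : Subgroup (Equiv.Perm X) := ((phi p).comp W.subtype).range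
  have hκinj : Function.Injective κ := κ.injective
  have hfix : ∀ γ : Γ, γ ≠ 1 → Nat.card (MulAction.fixedBy X γ) = 2 := by
    rintro ⟨_, ⟨w, rfl⟩⟩ hγ
    have hco := hW w w.2
    have hnsw : ¬ ∃ c : ZMod p, (w : GL (Fin 2) (ZMod p)).val = c • 1 := by
      rintro ⟨c, hc⟩
      apply hγ
      apply Subtype.ext
      exact phi_scalar _ hc
    obtain ⟨p₁, p₂, h12, hf⟩ := phi_fix_two hp _ hco hnsw
    have hset : MulAction.fixedBy X (⟨_, ⟨w, rfl⟩⟩ : Γ) = {p₁, p₂} := by
      ext y
      rw [MulAction.mem_fixedBy, Set.mem_insert_iff, Set.mem_singleton_iff]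
      exact hf y
    rw [hset, Nat.card_coe_set_eq, Set.ncard_pair h12]
  let xt : Fin 3 → (Fin 2 → KK p) := fun i l => κ (x i l)
  have hxt : ∀ i, xt i ≠ 0 := by
    intro i h
    apply hx i
    ext l
    have := congrFun h l
    exact hκinj (by simpa [xt] using this)
  let P : Fin 3 → X := fun i => Projectivization.mk _ (xt i) (hxt i)
  have hPne : ∀ i j, i ≠ j → P i ≠ P j := by
    intro i j hij h
    rw [Projectivization.mk_eq_mk_iff'] at h
    obtain ⟨a, ha⟩ := h
    apply hind i j hij
    apply hκinj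
    rw [map_sub, map_mul, map_mul, map_zero]
    have h0 : a * κ (x j 0) = κ (x i 0) := congrFun ha 0
    have h1 : a * κ (x j 1) = κ (x i 1) := congrFun ha 1
    rw [← h0, ← h1]
    ring
  have hfixP : ∀ i, phi p (g i) (P i) = P i := by
    intro i
    obtain ⟨c, hc⟩ := hg i
    rw [phi_apply]
    show mK p (g i) • Projectivization.mk _ (xt i) (hxt i) = Projectivization.mk _ (xt i) (hxt i)
    rw [Projectivization.smul_mk, Projectivization.mk_eq_mk_iff']
    refine ⟨κ c, ?_⟩
    ext l
    have h1 := congrFun hc l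
    have h2 : (mK p (g i) • xt i) l = κ (((g i).val.mulVec (x i)) l) := by
      show ((mK p (g i)).val.mulVec (xt i)) l = _
      simp only [Matrix.mulVec, dotProduct, Fin.sum_univ_two, map_add, map_mul]
      rfl
    rw [h2, h1]
    simp [xt]
  have hbig : ∀ i, 6 ≤ Nat.card (MulAction.stabilizer Γ (P i)) := by
    intro i
    let f : Fin 6 → MulAction.stabilizer Γ (P i) := fun k =>
      ⟨⟨phi p ((g i) ^ (k : ℕ)), ⟨⟨(g i) ^ (k : ℕ), W.pow_mem (hgW i) _⟩, rfl⟩⟩, by
        rw [MulAction.mem_stabilizer_iff]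
        show phi p ((g i) ^ (k : ℕ)) (P i) = P i
        rw [map_pow]
        have : ∀ n : ℕ, ((phi p (g i)) ^ n) (P i) = P i := by
          intro n
          induction n with
          | zero => rfl
          | succ n ih =>
            rw [pow_succ, Equiv.Perm.mul_apply, hfixP, ih]
        exact this _⟩
    have hinj : Function.Injective f := by
      intro k l hkl
      have h1 : phi p ((g i) ^ (k : ℕ)) = phi p ((g i) ^ (l : ℕ)) := by
        have := congrArg (fun s : MulAction.stabilizer Γ (P i) => ((s : Γ) : Equiv.Perm X)) hkl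
        exact this
      by_contra hne
      have hcase : ∀ a b : Fin 6, (a : ℕ) < b → phi p ((g i) ^ (a : ℕ)) ≠ phi p ((g i) ^ (b : ℕ)) := by
        intro a b hab h
        have h2 : phi p ((g i) ^ ((b : ℕ) - a)) = 1 := by
          have h3 : (g i) ^ (b : ℕ) = (g i) ^ (a : ℕ) * (g i) ^ ((b : ℕ) - a) := by
            rw [← pow_add]; congr 1; omega
          rw [h3, map_mul] at h
          exact (mul_eq_left.1 h.symm)
        refine phi_ne_one hp _ (hW _ (W.pow_mem (hgW i) _)) (hns i _ (by omega) (by omega)) h2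
      rcases lt_or_gt_of_ne (fun h : (k : ℕ) = l => hne (Fin.ext h)) with h | h
      · exact hcase k l h h1
      · exact hcase l k h h1.symm
    have := Nat.card_le_card_of_injective f hinj
    simpa using this
  haveI : Finite X := inferInstance
  exact ExtraTorA.no_three_big hfix (P 0) (P 1) (P 2) (hPne _ _ (by decide)) (hPne _ _ (by decide))
    (hPne _ _ (by decide)) (hbig 0) (hbig 1) (hbig 2)

end fp

end Cfsg.Agent.Lib.LocalEven.ExtraTorB
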