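import Cfsg.Agent.Lib.LocalEven.ExtraTorB
import Cfsg.Agent.Lib.Basic.QuatSylow

/-!
# Torus elements from transvections on `C_p × C_p`
-/

set_option autoImplicit false

namespace Cfsg.Agent.Lib.LocalEven.ExtraTorC

open Subgroup

variable {p : ℕ} [hp : Fact p.Prime]

section pw

variable {E : Type*} [Group E]

theorem pow_eq_pow_zmod {x : E} (hx : x ^ p = 1) {m n : ℕ} (h : (m : ZMod p) = (n : ZMod p)) : x ^ m = x ^ n := by
  have h1 := (ZMod.natCast_eq_natCast_iff' m n p).1 h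
  rw [pow_eq_pow_mod m hx, pow_eq_pow_mod n hx, h1]

theorem pw_add {x : E} (hx : x ^ p = 1) (s t : ZMod p) : x ^ (s + t).val = x ^ s.val * x ^ t.val := by
  rw [← pow_add]
  apply pow_eq_pow_zmod hx
  simp

theorem pw_mul {x : E} (hx : x ^ p = 1) (s t : ZMod p) : (x ^ s.val) ^ t.val = x ^ (s * t).val := by
  rw [← pow_mul]
  apply pow_eq_pow_zmod hx
  simp

/-- A coordinate system on an elementary abelian group of order `p²` and the resulting action of `SL₂(p)`. -/
theorem exists_coord_hom [Finite E] (hcomm : ∀ x y : E, x * y = y * x) (hcard : Nat.card E = p ^ 2)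
    (hexp : ∀ x : E, x ^ p = 1) (e₁ e₂ : E) (h₁ : e₁ ≠ 1) (h₂ : e₂ ∉ zpowers e₁) :
    ∃ θ : Matrix.SpecialLinearGroup (Fin 2) (ZMod p) →* MulAut E, ∀ (M : Matrix.SpecialLinearGroup (Fin 2) (ZMod p))
      (u v : ZMod p), θ M (e₁ ^ u.val * e₂ ^ v.val) =
        e₁ ^ ((M : Matrix (Fin 2) (Fin 2) (ZMod p)) 0 0 * u + (M : Matrix (Fin 2) (Fin 2) (ZMod p)) 0 1 * v).val *
        e₂ ^ ((M : Matrix (Fin 2) (Fin 2) (ZMod p)) 1 0 * u + (M : Matrix (Fin 2) (Fin 2) (ZMod p)) 1 1 * v).val := by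
  have hpp : p.Prime := hp.out
  haveI : Fact (1 < p) := ⟨hpp.one_lt⟩
  let c₀ : Multiplicative (Fin 2 → ZMod p) →* E :=
    { toFun := fun w => e₁ ^ ((Multiplicative.toAdd w) 0).val * e₂ ^ ((Multiplicative.toAdd w) 1).val
      map_one' := by simp
      map_mul' := by
        intro w w'
        simp only [toAdd_mul, Pi.add_apply]
        rw [pw_add (hexp e₁), pw_add (hexp e₂)]
        rw [mul_assoc, mul_assoc, ← mul_assoc (e₁ ^ _) (e₂ ^ _), hcomm (e₁ ^ _) (e₂ ^ _)]
        simp only [mul_assoc] }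
  have hc₀ : ∀ w : Fin 2 → ZMod p, c₀ (Multiplicative.ofAdd w) = e₁ ^ (w 0).val * e₂ ^ (w 1).val := fun w => rfl
  have hord : orderOf e₁ = p := orderOf_eq_prime (hexp e₁) h₁
  have hinj : Function.Injective c₀ := by
    rw [injective_iff_map_eq_one]
    intro w hw
    obtain ⟨w, rfl⟩ := Multiplicative.ofAdd.surjective w
    rw [hc₀] at hw
    have h1 : w 1 = 0 := by
      by_contra hne
      apply h₂
      have e : e₂ = (e₂ ^ (w 1).val) ^ ((w 1)⁻¹).val := by
        rw [pw_mul (hexp e₂), mul_inv_cancel₀ hne, ZMod.val_one, pow_one]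
      rw [e]
      refine Subgroup.pow_mem _ ?_ _
      have : e₂ ^ (w 1).val = (e₁ ^ (w 0).val)⁻¹ := by
        rw [eq_inv_iff_mul_eq_one, hcomm]
        exact hw
      rw [this]
      exact Subgroup.inv_mem _ (Subgroup.pow_mem _ (Subgroup.mem_zpowers _) _)
    have h0 : w 0 = 0 := by
      rw [h1] at hw
      simp only [ZMod.val_zero, pow_zero, mul_one] at hw
      have := orderOf_dvd_of_pow_eq_one hw
      rw [hord] at this
      have hlt := ZMod.val_lt (w 0)
      have := Nat.eq_zero_of_dvd_of_lt this hlt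
      exact (ZMod.val_eq_zero _).1 this
    have : w = 0 := by
      ext i
      fin_cases i
      · exact h0
      · exact h1
    rw [this]
    rfl
  have hcardW : Nat.card (Multiplicative (Fin 2 → ZMod p)) = p ^ 2 := by
    simp [Nat.card_eq_fintype_card, ZMod.card]
  have hbij : Function.Bijective c₀ :=
    (Nat.bijective_iff_injective_and_card c₀).2 ⟨hinj, by rw [hcardW, hcard]⟩
  let ι : Multiplicative (Fin 2 → ZMod p) ≃* E := MulEquiv.ofBijective c₀ hbij
  have hι : ∀ w : Fin 2 → ZMod p, ι (Multiplicative.ofAdd w) = e₁ ^ (w 0).val * e₂ ^ (w 1).val := fun w => rfl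
  let θf : Matrix.SpecialLinearGroup (Fin 2) (ZMod p) → MulAut E := fun g =>
    ι.symm.trans ((AddEquiv.toMultiplicative (Matrix.SpecialLinearGroup.toLin' g).toAddEquiv).trans ι)
  have hθf : ∀ g w, θf g (ι (Multiplicative.ofAdd w)) = ι (Multiplicative.ofAdd ((Matrix.SpecialLinearGroup.toLin' g) w)) := by
    intro g w
    show ι ((AddEquiv.toMultiplicative (Matrix.SpecialLinearGroup.toLin' g).toAddEquiv) (ι.symm (ι (Multiplicative.ofAdd w)))) = _
    rw [MulEquiv.symm_apply_apply]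
    rfl
  let θ : Matrix.SpecialLinearGroup (Fin 2) (ZMod p) →* MulAut E :=
    { toFun := θf
      map_one' := by
        apply MulEquiv.ext
        intro x
        obtain ⟨w, rfl⟩ := ι.surjective x
        obtain ⟨w, rfl⟩ := Multiplicative.ofAdd.surjective w
        rw [hθf, map_one]
        rfl
      map_mul' := by
        intro g h
        apply MulEquiv.ext
        intro x
        obtain ⟨w, rfl⟩ := ι.surjective x
        obtain ⟨w, rfl⟩ := Multiplicative.ofAdd.surjective w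
        rw [hθf, MulAut.mul_apply, hθf, hθf, map_mul]
        rfl }
  refine ⟨θ, ?_⟩
  intro M u v
  have h1 : e₁ ^ u.val * e₂ ^ v.val = ι (Multiplicative.ofAdd ![u, v]) := by
    rw [hι]; simp
  rw [h1]
  show θf M (ι (Multiplicative.ofAdd ![u, v])) = _
  rw [hθf, hι]
  rw [Matrix.SpecialLinearGroup.toLin'_apply, Matrix.toLin'_apply]
  simp [Matrix.mulVec, dotProduct, Fin.sum_univ_two]

end pw

section torus

variable {G : Type*} [Group G] [Finite G]

/-- The torus element from transvections. -/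
theorem torus_on_A (A : Subgroup G) (hcard : Nat.card A = p ^ 2) (hexp : ∀ a ∈ A, a ^ p = 1)
    (hSL : ∀ φ : MulAut A, orderOf φ = p → ∃ g : G, ∀ a : A, (φ a : G) = g * (a : G) * g⁻¹) {z a : G}
    (hz : z ∈ A) (ha : a ∈ A) (hz1 : z ≠ 1) (haz : a ∉ zpowers z) (t : ZMod p) (ht : t ≠ 0) :
    ∃ g : G, g * z * g⁻¹ = z ^ t.val ∧ g * a * g⁻¹ = a ^ (t⁻¹).val := by
  have hpp : p.Prime := hp.out
  haveI : Fact (1 < p) := ⟨hpp.one_lt⟩
  have hcomm : ∀ x y : A, x * y = y * x := by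
    have := IsPGroup.isMulCommutative_of_card_eq_prime_sq (p := p) hcard
    intro x y
    exact mul_comm' x y
  have hexpE : ∀ x : A, x ^ p = 1 := fun x => Subtype.ext (by simpa using hexp x x.2)
  obtain ⟨e₁, he₁⟩ : ∃ e : A, e = ⟨z, hz⟩ := ⟨_, rfl⟩
  obtain ⟨e₂, he₂⟩ : ∃ e : A, e = ⟨a, ha⟩ := ⟨_, rfl⟩
  have h₁ : e₁ ≠ 1 := by
    rw [he₁]
    intro h
    exact hz1 (congrArg Subtype.val h)
  have h₂ : e₂ ∉ zpowers e₁ := by
    intro h
    apply haz
    obtain ⟨k, hk⟩ := mem_zpowers_iff.1 h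
    rw [mem_zpowers_iff]
    refine ⟨k, ?_⟩
    have := congrArg Subtype.val hk
    rw [he₁, he₂] at this
    simpa using this
  obtain ⟨θ, hθ⟩ := exists_coord_hom hcomm hcard hexpE e₁ e₂ h₁ h₂
  have hord : orderOf e₁ = p := orderOf_eq_prime (hexpE e₁) h₁
  have hord2 : orderOf e₂ = p := by
    refine orderOf_eq_prime (hexpE e₂) ?_
    intro h
    apply h₂
    rw [h]
    exact one_mem _
  have hpow_ne : ∀ (x : A), orderOf x = p → ∀ s : ZMod p, s ≠ 0 → x ^ s.val ≠ 1 := by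
    intro x hx s hs h
    have := orderOf_dvd_of_pow_eq_one h
    rw [hx] at this
    have hlt := ZMod.val_lt s
    exact hs ((ZMod.val_eq_zero _).1 (Nat.eq_zero_of_dvd_of_lt this hlt))
  have he₁e : e₁ = e₁ ^ (1 : ZMod p).val * e₂ ^ (0 : ZMod p).val := by simp [ZMod.val_one]
  have he₂e : e₂ = e₁ ^ (0 : ZMod p).val * e₂ ^ (1 : ZMod p).val := by simp [ZMod.val_one]
  let X : ZMod p → Matrix.SpecialLinearGroup (Fin 2) (ZMod p) := fun s =>
    ⟨!![1, s; 0, 1], by simp [Matrix.det_fin_two_of]⟩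
  let Y : ZMod p → Matrix.SpecialLinearGroup (Fin 2) (ZMod p) := fun s =>
    ⟨!![1, 0; s, 1], by simp [Matrix.det_fin_two_of]⟩
  have hXadd : ∀ s r, X s * X r = X (s + r) := by
    intro s r
    apply Subtype.ext
    show !![1, s; 0, 1] * !![1, r; 0, 1] = !![1, s + r; 0, 1]
    ext i j
    fin_cases i <;> fin_cases j <;>
      simp [Matrix.mul_apply, Fin.sum_univ_two, add_comm]
  have hYadd : ∀ s r, Y s * Y r = Y (s + r) := by
    intro s r
    apply Subtype.ext
    show !![1, 0; s, 1] * !![1, 0; r, 1] = !![1, 0; s + r, 1]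
    ext i j
    fin_cases i <;> fin_cases j <;>
      simp [Matrix.mul_apply, Fin.sum_univ_two, add_comm]
  have hX0 : X 0 = 1 := by
    apply Subtype.ext
    ext i j
    fin_cases i <;> fin_cases j <;> simp [X]
  have hY0 : Y 0 = 1 := by
    apply Subtype.ext
    ext i j
    fin_cases i <;> fin_cases j <;> simp [Y]
  have hXpow : ∀ (s : ZMod p) (n : ℕ), (X s) ^ n = X ((n : ZMod p) * s) := by
    intro s n
    induction n with
    | zero => simp [hX0]
    | succ n ih =>
      rw [pow_succ, ih, hXadd]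
      congr 1
      push_cast
      ring
  have hYpow : ∀ (s : ZMod p) (n : ℕ), (Y s) ^ n = Y ((n : ZMod p) * s) := by
    intro s n
    induction n with
    | zero => simp [hY0]
    | succ n ih =>
      rw [pow_succ, ih, hYadd]
      congr 1
      push_cast
      ring
  let Ind : Matrix.SpecialLinearGroup (Fin 2) (ZMod p) → Prop := fun M => ∃ g : G, ∀ u : A, (θ M u : G) = g * (u : G) * g⁻¹
  have hIndMul : ∀ M N, Ind M → Ind N → Ind (M * N) := by
    rintro M N ⟨g₁, h₁⟩ ⟨g₂, h₂⟩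
    refine ⟨g₁ * g₂, fun u => ?_⟩
    rw [map_mul, MulAut.mul_apply, h₁, h₂]
    group
  have hIndX : ∀ s, s ≠ 0 → Ind (X s) := by
    intro s hs
    apply hSL
    apply orderOf_eq_prime
    · rw [← map_pow, hXpow]
      simp [hX0]
    · intro h
      have h1 := hθ (X s) 0 1
      rw [h] at h1
      have h2 : (1 : MulAut A) (e₁ ^ (0 : ZMod p).val * e₂ ^ (1 : ZMod p).val) = e₁ ^ (0 : ZMod p).val * e₂ ^ (1 : ZMod p).val := rfl
      rw [h2] at h1
      simp [X, ZMod.val_one] at h1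
      exact hpow_ne e₁ hord s hs h1
  have hIndY : ∀ s, s ≠ 0 → Ind (Y s) := by
    intro s hs
    apply hSL
    apply orderOf_eq_prime
    · rw [← map_pow, hYpow]
      simp [hY0]
    · intro h
      have h1 := hθ (Y s) 1 0
      rw [h] at h1
      have h2 : (1 : MulAut A) (e₁ ^ (1 : ZMod p).val * e₂ ^ (0 : ZMod p).val) = e₁ ^ (1 : ZMod p).val * e₂ ^ (0 : ZMod p).val := rfl
      rw [h2] at h1
      simp [Y, ZMod.val_one] at h1
      exact hpow_ne e₂ hord2 s hs h1
  have hneg : (-1 : ZMod p) ≠ 0 := neg_ne_zero.2 one_ne_zero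
  have htinv : t⁻¹ ≠ 0 := inv_ne_zero ht
  obtain ⟨D, hDdef⟩ : ∃ D, D = X t * Y (-t⁻¹) * X t * X (-1) * Y 1 * X (-1) := ⟨_, rfl⟩
  have hIndD : Ind D := by
    rw [hDdef]
    exact hIndMul _ _ (hIndMul _ _ (hIndMul _ _ (hIndMul _ _ (hIndMul _ _ (hIndX t ht) (hIndY _ (neg_ne_zero.2 htinv))) (hIndX t ht))
      (hIndX _ hneg)) (hIndY 1 one_ne_zero)) (hIndX _ hneg)
  have hD : (D : Matrix (Fin 2) (Fin 2) (ZMod p)) = !![t, 0; 0, t⁻¹] := by
    rw [hDdef]
    show !![1, t; 0, 1] * !![1, 0; -t⁻¹, 1] * !![1, t; 0, 1] * !![1, -1; 0, 1] * !![1, 0; 1, 1] * !![1, -1; 0, 1] = _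
    ext i j
    fin_cases i <;> fin_cases j <;>
      simp [Matrix.mul_apply, Fin.sum_univ_two] <;> field_simp <;> ring
  obtain ⟨g, hg⟩ := hIndD
  refine ⟨g, ?_, ?_⟩
  · have h1 := hθ D 1 0
    rw [← he₁e, hD] at h1
    simp at h1
    have h2 := hg e₁
    rw [h1] at h2
    rw [he₁] at h2
    have h3 := h2.symm
    simpa using h3
  · have h1 := hθ D 0 1
    rw [← he₂e, hD] at h1
    simp at h1
    have h2 := hg e₂
    rw [h1] at h2
    rw [he₂] at h2
    have h3 := h2.symm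
    simpa using h3

end torus

end Cfsg.Agent.Lib.LocalEven.ExtraTorC
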