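import Cfsg.Agent.Lib.LocalEven.ExtraTorC

/-!
# Correcting the torus element into the normalizer of the Sylow subgroup
-/

set_option autoImplicit false

namespace Cfsg.Agent.Lib.LocalEven.ExtraTorD

open Subgroup
open Cfsg.Agent.Lib.LocalEven.ExtraTorC

variable {p : ℕ} [hp : Fact p.Prime] {G : Type*} [Group G]

/-- Conjugating `a` by powers of `b` when `[b,a] = z` commutes with both. -/
theorem conj_zpow_comm {a b z : G} (hz : b * a * b⁻¹ = a * z) (hbz : b * z = z * b) (haz : a * z = z * a) (n : ℤ) :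
    b ^ n * a * (b ^ n)⁻¹ = a * z ^ n := by
  have hbzn : ∀ m : ℤ, b ^ m * z = z * b ^ m := fun m => (Commute.zpow_left (show Commute b z from hbz) m)
  have hbinv : b⁻¹ * a * b = a * z⁻¹ := by
    have h1 : b⁻¹ * (a * z) * b = a := by rw [← hz]; group
    have h2 : b⁻¹ * (a * z) * b = (b⁻¹ * a * b) * (b⁻¹ * z * b) := by group
    have h3 : b⁻¹ * z * b = z := by
      have : z * b = b * z := hbz.symm
      rw [mul_assoc, this]; group
    rw [h2, h3] at h1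
    calc b⁻¹ * a * b = (b⁻¹ * a * b * z) * z⁻¹ := by group
      _ = a * z⁻¹ := by rw [h1]
  induction n using Int.induction_on with
  | zero => simp
  | succ n ih =>
    have h1 : b ^ ((n : ℤ) + 1) = b ^ (n : ℤ) * b := zpow_add_one b _
    rw [h1]
    calc b ^ (n : ℤ) * b * a * (b ^ (n : ℤ) * b)⁻¹ = b ^ (n : ℤ) * (b * a * b⁻¹) * (b ^ (n : ℤ))⁻¹ := by group
      _ = b ^ (n : ℤ) * (a * z) * (b ^ (n : ℤ))⁻¹ := by rw [hz]
      _ = (b ^ (n : ℤ) * a * (b ^ (n : ℤ))⁻¹) * (b ^ (n : ℤ) * z * (b ^ (n : ℤ))⁻¹) := by group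
      _ = (a * z ^ (n : ℤ)) * z := by
        rw [ih, hbzn]
        congr 1
        group
      _ = a * z ^ ((n : ℤ) + 1) := by rw [zpow_add_one]; group
  | pred n ih =>
    have h1 : b ^ (-(n : ℤ) - 1) = b ^ (-(n : ℤ)) * b⁻¹ := by rw [zpow_sub_one]
    rw [h1]
    calc b ^ (-(n : ℤ)) * b⁻¹ * a * (b ^ (-(n : ℤ)) * b⁻¹)⁻¹ = b ^ (-(n : ℤ)) * (b⁻¹ * a * b) * (b ^ (-(n : ℤ)))⁻¹ := by group
      _ = b ^ (-(n : ℤ)) * (a * z⁻¹) * (b ^ (-(n : ℤ)))⁻¹ := by rw [hbinv]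
      _ = (b ^ (-(n : ℤ)) * a * (b ^ (-(n : ℤ)))⁻¹) * (b ^ (-(n : ℤ)) * z⁻¹ * (b ^ (-(n : ℤ)))⁻¹) := by group
      _ = (a * z ^ (-(n : ℤ))) * z⁻¹ := by
        rw [ih]
        congr 1
        have : b ^ (-(n : ℤ)) * z⁻¹ = z⁻¹ * b ^ (-(n : ℤ)) := by
          have h2 := hbzn (-(n : ℤ))
          calc b ^ (-(n : ℤ)) * z⁻¹ = z⁻¹ * (z * b ^ (-(n : ℤ))) * z⁻¹ := by group
            _ = z⁻¹ * (b ^ (-(n : ℤ)) * z) * z⁻¹ := by rw [h2]
            _ = z⁻¹ * b ^ (-(n : ℤ)) := by group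
        rw [this]; group
      _ = a * z ^ (-(n : ℤ) - 1) := by rw [zpow_sub_one]; group

/-- The subgroup of elements acting on `a, z` like `P`. -/
def transSub (a z : G) (haz : a * z = z * a) : Subgroup G where
  carrier := {q | q * z * q⁻¹ = z ∧ ∃ e : ℤ, q * a * q⁻¹ = a * z ^ e}
  one_mem' := ⟨by group, 0, by simp⟩
  mul_mem' := by
    rintro q₁ q₂ ⟨h1, e₁, h2⟩ ⟨h3, e₂, h4⟩
    refine ⟨?_, e₁ + e₂, ?_⟩
    · calc q₁ * q₂ * z * (q₁ * q₂)⁻¹ = q₁ * (q₂ * z * q₂⁻¹) * q₁⁻¹ := by group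
        _ = z := by rw [h3, h1]
    · calc q₁ * q₂ * a * (q₁ * q₂)⁻¹ = q₁ * (q₂ * a * q₂⁻¹) * q₁⁻¹ := by group
        _ = q₁ * (a * z ^ e₂) * q₁⁻¹ := by rw [h4]
        _ = (q₁ * a * q₁⁻¹) * (q₁ * z * q₁⁻¹) ^ e₂ := by rw [_root_.conj_zpow]; group
        _ = a * z ^ (e₁ + e₂) := by rw [h2, h1, zpow_add]; group
  inv_mem' := by
    rintro q ⟨h1, e, h2⟩
    have h3 : q⁻¹ * z * q = z := by
      nth_rewrite 1 [← h1]
      group
    refine ⟨by simpa using h3, -e, ?_⟩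
    have h4 : q⁻¹ * (a * z ^ e) * q = a := by rw [← h2]; group
    have h6 : (q⁻¹ * z * q) ^ e = q⁻¹ * z ^ e * q := by
      have := _root_.conj_zpow (a := q⁻¹) (b := z) (i := e)
      simpa using this
    have h5 : q⁻¹ * (a * z ^ e) * q = (q⁻¹ * a * q) * (q⁻¹ * z * q) ^ e := by
      rw [h6]; group
    rw [h5, h3] at h4
    rw [inv_inv, zpow_neg]
    calc q⁻¹ * a * q = (q⁻¹ * a * q * z ^ e) * (z ^ e)⁻¹ := by group
      _ = a * (z ^ e)⁻¹ := by rw [h4]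

theorem mem_transSub {a z : G} {haz : a * z = z * a} {q : G} :
    q ∈ transSub a z haz ↔ q * z * q⁻¹ = z ∧ ∃ e : ℤ, q * a * q⁻¹ = a * z ^ e := Iff.rfl

theorem frattini_correct [Finite G] (P : Sylow p G) {a b z g₀ : G} (hbP : b ∈ (P : Subgroup G))
    (hba : b * a * b⁻¹ = a * z) (hzc : ∀ u ∈ (P : Subgroup G), u * z = z * u) (haz : a * z = z * a)
    (hzp : z ^ p = 1) (hap : a ^ p = 1)
    (hcom : ∀ u ∈ (P : Subgroup G), ∃ e : ℤ, u * a * u⁻¹ = a * z ^ e)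
    {t s : ZMod p} (hts : t * s = 1)
    (h1 : g₀ * z * g₀⁻¹ = z ^ t.val) (h2 : g₀ * a * g₀⁻¹ = a ^ s.val) :
    ∃ g : G, g ∈ normalizer ((P : Subgroup G) : Set G) ∧ g * z * g⁻¹ = z ^ t.val ∧ g * a * g⁻¹ = a ^ s.val := by
  classical
  haveI : Fact (1 < p) := ⟨hp.out.one_lt⟩
  have hsval : g₀⁻¹ * z * g₀ = z ^ s.val := by
    have h3 : g₀ * z ^ s.val * g₀⁻¹ = z := by
      rw [← conj_pow, h1, pw_mul hzp, hts, ZMod.val_one, pow_one]
    calc g₀⁻¹ * z * g₀ = g₀⁻¹ * (g₀ * z ^ s.val * g₀⁻¹) * g₀ := by rw [h3]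
      _ = z ^ s.val := by group
  have htval : g₀⁻¹ * a * g₀ = a ^ t.val := by
    have h3 : g₀ * a ^ t.val * g₀⁻¹ = a := by
      rw [← conj_pow, h2, pw_mul hap, mul_comm s t, hts, ZMod.val_one, pow_one]
    calc g₀⁻¹ * a * g₀ = g₀⁻¹ * (g₀ * a ^ t.val * g₀⁻¹) * g₀ := by rw [h3]
      _ = a ^ t.val := by group
  let Q := transSub a z haz
  have hPQ : (P : Subgroup G) ≤ Q := by
    intro u hu
    refine ⟨?_, hcom u hu⟩
    rw [hzc u hu]; group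
  have hPQ' : ((g₀ • P : Sylow p G) : Subgroup G) ≤ Q := by
    intro v hv
    have hu : g₀⁻¹ * v * g₀ ∈ (P : Subgroup G) := by
      rw [Sylow.coe_subgroup_smul, Subgroup.mem_pointwise_smul_iff_inv_smul_mem] at hv
      simpa [MulAut.smul_def] using hv
    obtain ⟨u, huu⟩ : ∃ u, u = g₀⁻¹ * v * g₀ := ⟨_, rfl⟩
    rw [← huu] at hu
    have hv' : v = g₀ * u * g₀⁻¹ := by rw [huu]; group
    rw [hv']
    refine ⟨?_, ?_⟩
    · calc g₀ * u * g₀⁻¹ * z * (g₀ * u * g₀⁻¹)⁻¹ = g₀ * (u * (g₀⁻¹ * z * g₀) * u⁻¹) * g₀⁻¹ := by group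
        _ = g₀ * (u * z ^ s.val * u⁻¹) * g₀⁻¹ := by rw [hsval]
        _ = g₀ * z ^ s.val * g₀⁻¹ := by
          rw [← conj_pow, show u * z * u⁻¹ = z by rw [hzc u hu]; group]
        _ = (g₀ * z * g₀⁻¹) ^ s.val := by rw [conj_pow]
        _ = z := by rw [h1, pw_mul hzp, hts, ZMod.val_one, pow_one]
    · obtain ⟨e, he⟩ := hcom u hu
      refine ⟨(t * t).val * e, ?_⟩
      have hcommaz : ∀ (n : ℕ), (a * z ^ e) ^ n = a ^ n * z ^ (n * e) := by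
        intro n
        induction n with
        | zero => simp
        | succ n ih =>
          have hc : Commute a z := haz
          have hc' : Commute (z ^ ((n : ℤ) * e)) a := (Commute.zpow_left hc.symm _)
          rw [pow_succ, ih]
          have : ((n + 1 : ℕ) : ℤ) * e = (n : ℤ) * e + e := by push_cast; ring
          rw [this, zpow_add, pow_succ]
          calc a ^ n * z ^ ((n : ℤ) * e) * (a * z ^ e) = a ^ n * (z ^ ((n : ℤ) * e) * a) * z ^ e := by group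
            _ = a ^ n * (a * z ^ ((n : ℤ) * e)) * z ^ e := by rw [hc'.eq]
            _ = _ := by group
      calc g₀ * u * g₀⁻¹ * a * (g₀ * u * g₀⁻¹)⁻¹ = g₀ * (u * (g₀⁻¹ * a * g₀) * u⁻¹) * g₀⁻¹ := by group
        _ = g₀ * (u * a ^ t.val * u⁻¹) * g₀⁻¹ := by rw [htval]
        _ = g₀ * (u * a * u⁻¹) ^ t.val * g₀⁻¹ := by rw [conj_pow]
        _ = g₀ * (a ^ t.val * z ^ ((t.val : ℤ) * e)) * g₀⁻¹ := by rw [he, hcommaz]
        _ = (g₀ * a * g₀⁻¹) ^ t.val * (g₀ * z * g₀⁻¹) ^ ((t.val : ℤ) * e) := by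
          rw [_root_.conj_zpow, conj_pow]; group
        _ = a ^ (s * t).val * (z ^ t.val) ^ ((t.val : ℤ) * e) := by rw [h2, h1, pw_mul hap]
        _ = a * z ^ (((t * t).val : ℤ) * e) := by
          rw [mul_comm s t, hts, ZMod.val_one, pow_one]
          congr 1
          rw [zpow_mul, zpow_natCast, pw_mul hzp, zpow_mul, zpow_natCast]
  -- conjugate the Sylow subgroups inside `Q`
  obtain ⟨q, hq⟩ := MulAction.exists_smul_eq (↥Q) ((g₀ • P : Sylow p G).subtype hPQ') (P.subtype hPQ)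
  have hqconj : ∀ v ∈ ((g₀ • P : Sylow p G) : Subgroup G), (q : G) * v * (q : G)⁻¹ ∈ (P : Subgroup G) := by
    intro v hv
    have h3 : (q • ((g₀ • P : Sylow p G).subtype hPQ') : Sylow p Q) = P.subtype hPQ := hq
    have h4 : (⟨v, hPQ' hv⟩ : Q) ∈ (((g₀ • P : Sylow p G).subtype hPQ') : Subgroup Q) := by
      rw [Sylow.coe_subtype]
      exact hv
    have h5 : q * ⟨v, hPQ' hv⟩ * q⁻¹ ∈ ((q • ((g₀ • P : Sylow p G).subtype hPQ') : Sylow p Q) : Subgroup Q) := by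
      rw [Sylow.coe_subgroup_smul]
      exact Subgroup.smul_mem_pointwise_smul _ (MulAut.conj q) _ h4
    rw [h3, Sylow.coe_subtype] at h5
    exact h5
  obtain ⟨hq1, e, hq2⟩ := q.2
  -- the correction
  obtain ⟨u₀, hu₀⟩ : ∃ u₀, u₀ = b ^ e := ⟨_, rfl⟩
  have hu₀P : u₀ ∈ (P : Subgroup G) := hu₀ ▸ (P : Subgroup G).zpow_mem hbP e
  have hu₀a : u₀ * a * u₀⁻¹ = a * z ^ e := by
    rw [hu₀]
    exact conj_zpow_comm hba (hzc b hbP) haz e
  have hu₀z : u₀⁻¹ * z * u₀ = z := by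
    have h3 : z * u₀ = u₀ * z := (hzc u₀ hu₀P).symm
    rw [mul_assoc, h3]; group
  obtain ⟨c, hc⟩ : ∃ c, c = u₀⁻¹ * (q : G) := ⟨_, rfl⟩
  have hcz : c * z * c⁻¹ = z := by
    rw [hc]
    calc u₀⁻¹ * (q : G) * z * (u₀⁻¹ * (q : G))⁻¹ = u₀⁻¹ * ((q : G) * z * (q : G)⁻¹) * u₀ := by group
      _ = z := by rw [hq1, hu₀z]
  have hca : c * a * c⁻¹ = a := by
    rw [hc]
    calc u₀⁻¹ * (q : G) * a * (u₀⁻¹ * (q : G))⁻¹ = u₀⁻¹ * ((q : G) * a * (q : G)⁻¹) * u₀ := by group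
      _ = u₀⁻¹ * (u₀ * a * u₀⁻¹) * u₀ := by rw [hq2, hu₀a]
      _ = a := by group
  refine ⟨c * g₀, ?_, ?_, ?_⟩
  · apply Cfsg.Agent.Lib.Basic.qs_mem_normalizer
    intro x hx
    have h3 : g₀ * x * g₀⁻¹ ∈ ((g₀ • P : Sylow p G) : Subgroup G) := by
      rw [Sylow.coe_subgroup_smul]
      exact Subgroup.smul_mem_pointwise_smul _ (MulAut.conj g₀) _ hx
    have h4 := hqconj _ h3
    have h5 : c * g₀ * x * (c * g₀)⁻¹ = u₀⁻¹ * ((q : G) * (g₀ * x * g₀⁻¹) * (q : G)⁻¹) * u₀⁻¹⁻¹ := by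
      rw [hc]; group
    rw [h5]
    exact (P : Subgroup G).mul_mem ((P : Subgroup G).mul_mem ((P : Subgroup G).inv_mem hu₀P) h4)
      ((P : Subgroup G).inv_mem ((P : Subgroup G).inv_mem hu₀P))
  · calc c * g₀ * z * (c * g₀)⁻¹ = c * (g₀ * z * g₀⁻¹) * c⁻¹ := by group
      _ = (c * z * c⁻¹) ^ t.val := by rw [h1, conj_pow]
      _ = z ^ t.val := by rw [hcz]
  · calc c * g₀ * a * (c * g₀)⁻¹ = c * (g₀ * a * g₀⁻¹) * c⁻¹ := by group
      _ = (c * a * c⁻¹) ^ s.val := by rw [h2, conj_pow]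
      _ = a ^ s.val := by rw [hca]

end Cfsg.Agent.Lib.LocalEven.ExtraTorD
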