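import Cfsg.Agent.Lib.LocalEven.ExtraTorD
import Cfsg.Prelude.Def_Transfer

/-!
# Coordinates on `P/Z(P)` and the representation of `N_G(P)`
-/

set_option autoImplicit false

namespace Cfsg.Agent.Lib.LocalEven.ExtraTorE

open Subgroup
open Cfsg.Agent.Lib.LocalEven.ExtraTorC Cfsg.Agent.Lib.LocalEven.ExtraTorD

variable {p : ℕ} [hp : Fact p.Prime]

theorem coord_mod {V : Type*} [AddCommGroup V] [Module (ZMod p) V] [Finite V] (hcard : Nat.card V = p ^ 2) :
    Nonempty (V ≃+ (Fin 2 → ZMod p)) := by
  haveI : Module.Finite (ZMod p) V := Module.Finite.of_finite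
  have hfr : Module.finrank (ZMod p) V = 2 := by
    have h1 : Nat.card V = Nat.card (ZMod p) ^ Module.finrank (ZMod p) V :=
      Module.natCard_eq_pow_finrank
    rw [hcard, Nat.card_zmod] at h1
    exact (Nat.pow_right_injective hp.out.two_le h1).symm
  let b : Module.Basis (Fin 2) (ZMod p) V := Module.finBasisOfFinrankEq (ZMod p) V hfr
  exact ⟨b.equivFun.toAddEquiv⟩

/-- Coordinates of an elementary abelian group of order `p²`. -/
theorem coord_comm {D : Type*} [CommGroup D] [Finite D] (hexp : ∀ x : D, x ^ p = 1) (hcard : Nat.card D = p ^ 2) :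
    ∃ π : D →* Multiplicative (Fin 2 → ZMod p), Function.Bijective π := by
  classical
  letI instM : Module (ZMod p) (Additive D) := AddCommGroup.zmodModule (n := p) (fun x => by
    obtain ⟨x, rfl⟩ := Additive.ofMul.surjective x
    rw [← ofMul_pow, hexp]
    rfl)
  haveI : Finite (Additive D) := inferInstanceAs (Finite D)
  obtain ⟨e⟩ := coord_mod (p := p) (V := Additive D) hcard
  let π : D →* Multiplicative (Fin 2 → ZMod p) :=
    { toFun := fun u => Multiplicative.ofAdd (e (Additive.ofMul u))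
      map_one' := by
        have : e (Additive.ofMul (1 : D)) = 0 := by
          have h : Additive.ofMul (1 : D) = 0 := rfl
          rw [h, map_zero]
        rw [this]; rfl
      map_mul' := by
        intro x y
        have h : Additive.ofMul (x * y) = Additive.ofMul x + Additive.ofMul y := rfl
        rw [h, map_add]
        rfl }
  refine ⟨π, ?_, ?_⟩
  · intro x y hxy
    have h1 : e (Additive.ofMul x) = e (Additive.ofMul y) := Multiplicative.ofAdd.injective hxy
    exact Additive.ofMul.injective (e.injective h1)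
  · intro w
    obtain ⟨x, hx⟩ := Additive.ofMul.surjective (e.symm (Multiplicative.toAdd w))
    refine ⟨x, ?_⟩
    show Multiplicative.ofAdd (e (Additive.ofMul x)) = w
    rw [hx]
    simp

/-- Coordinates of a group with elementary abelian quotient of order `p²`. -/
theorem exists_coord {E : Type*} [Group E] [Finite E] (Z : Subgroup E) [Z.Normal]
    (hcomm : ∀ x y : E, x * y * x⁻¹ * y⁻¹ ∈ Z) (hexp : ∀ x : E, x ^ p = 1) (hcard : Nat.card (E ⧸ Z) = p ^ 2) :
    ∃ π : E →* Multiplicative (Fin 2 → ZMod p), Function.Surjective π ∧ π.ker = Z := by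
  classical
  have hD : ∀ x y : E ⧸ Z, x * y = y * x := by
    intro x y
    obtain ⟨x, rfl⟩ := QuotientGroup.mk_surjective x
    obtain ⟨y, rfl⟩ := QuotientGroup.mk_surjective y
    rw [← QuotientGroup.mk_mul, ← QuotientGroup.mk_mul, QuotientGroup.eq]
    have := hcomm y⁻¹ x⁻¹
    have h2 : (x * y)⁻¹ * (y * x) = y⁻¹ * x⁻¹ * y⁻¹⁻¹ * x⁻¹⁻¹ := by group
    rw [h2]
    exact this
  letI instC : CommGroup (E ⧸ Z) := { (inferInstance : Group (E ⧸ Z)) with mul_comm := hD }
  have hexpD : ∀ x : E ⧸ Z, x ^ p = 1 := by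
    intro x
    obtain ⟨x, rfl⟩ := QuotientGroup.mk_surjective x
    rw [← QuotientGroup.mk_pow, hexp]
    rfl
  obtain ⟨π, hπ⟩ := coord_comm hexpD hcard
  refine ⟨π.comp (QuotientGroup.mk' Z), hπ.2.comp (QuotientGroup.mk'_surjective Z), ?_⟩
  ext u
  rw [MonoidHom.mem_ker, MonoidHom.comp_apply]
  constructor
  · intro h
    have h1 : QuotientGroup.mk' Z u = 1 := hπ.1 (h.trans (map_one π).symm)
    exact (QuotientGroup.eq_one_iff u).1 h1
  · intro h
    have h1 : QuotientGroup.mk' Z u = 1 := (QuotientGroup.eq_one_iff u).2 h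
    rw [h1, map_one]

/-- The linear representation on the coordinates. -/
theorem exists_rep {E H : Type*} [Group E] [Group H] (π : E →* Multiplicative (Fin 2 → ZMod p))
    (hs : Function.Surjective π) (θ : H →* MulAut E) (hθ : ∀ h, ∀ u ∈ π.ker, θ h u ∈ π.ker) :
    ∃ ρ : H →* GL (Fin 2) (ZMod p), ∀ h u, (ρ h).val.mulVec (Multiplicative.toAdd (π u)) =
      Multiplicative.toAdd (π (θ h u)) := by
  classical
  let sec := Function.surjInv hs
  have hsec : ∀ v, π (sec v) = v := Function.surjInv_eq hs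
  let L : H → (Fin 2 → ZMod p) → (Fin 2 → ZMod p) := fun h v =>
    Multiplicative.toAdd (π (θ h (sec (Multiplicative.ofAdd v))))
  have hchar : ∀ h u, L h (Multiplicative.toAdd (π u)) = Multiplicative.toAdd (π (θ h u)) := by
    intro h u
    have h1 : (sec (π u))⁻¹ * u ∈ π.ker := by
      rw [MonoidHom.mem_ker, map_mul, map_inv, hsec]
      simp
    have h2 := hθ h _ h1
    rw [MonoidHom.mem_ker, map_mul, map_mul, map_inv, map_inv] at h2
    have h3 : π (θ h (sec (π u))) = π (θ h u) := by
      have := eq_of_inv_mul_eq_one h2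
      exact this
    show Multiplicative.toAdd (π (θ h (sec (Multiplicative.ofAdd (Multiplicative.toAdd (π u)))))) = _
    rw [ofAdd_toAdd, h3]
  have hadd : ∀ h v w, L h (v + w) = L h v + L h w := by
    intro h v w
    have h1 : v + w = Multiplicative.toAdd (π (sec (Multiplicative.ofAdd v) * sec (Multiplicative.ofAdd w))) := by
      rw [map_mul, hsec, hsec]
      rfl
    rw [h1, hchar, map_mul, map_mul, toAdd_mul]
  let L₁ : H → (Fin 2 → ZMod p) →+ (Fin 2 → ZMod p) := fun h =>
    AddMonoidHom.mk' (L h) (hadd h)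
  let L₂ : H → (Fin 2 → ZMod p) →ₗ[ZMod p] (Fin 2 → ZMod p) := fun h => AddMonoidHom.toZModLinearMap p (L₁ h)
  have hL₂ : ∀ h u, L₂ h (Multiplicative.toAdd (π u)) = Multiplicative.toAdd (π (θ h u)) := hchar
  have hsurj : ∀ v : Fin 2 → ZMod p, ∃ u, Multiplicative.toAdd (π u) = v := by
    intro v
    obtain ⟨u, hu⟩ := hs (Multiplicative.ofAdd v)
    exact ⟨u, by rw [hu]; rfl⟩
  let ρ₀ : H →* Matrix (Fin 2) (Fin 2) (ZMod p) :=
    { toFun := fun h => LinearMap.toMatrix' (L₂ h)
      map_one' := by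
        have : L₂ 1 = LinearMap.id := by
          refine LinearMap.ext fun v => ?_
          obtain ⟨u, rfl⟩ := hsurj v
          rw [hL₂]
          simp
        rw [this, LinearMap.toMatrix'_id]
      map_mul' := by
        intro g h
        have : L₂ (g * h) = (L₂ g).comp (L₂ h) := by
          refine LinearMap.ext fun v => ?_
          obtain ⟨u, rfl⟩ := hsurj v
          rw [LinearMap.comp_apply, hL₂, hL₂, hL₂]
          simp
        rw [this, LinearMap.toMatrix'_comp] }
  refine ⟨ρ₀.toHomUnits, ?_⟩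
  intro h u
  rw [MonoidHom.coe_toHomUnits]
  show (LinearMap.toMatrix' (L₂ h)).mulVec _ = _
  rw [LinearMap.toMatrix'_mulVec, hL₂]

/-- Commutators are bilinear. -/
theorem comm_pow {G : Type*} [Group G] {a b z : G} (hz : b * a * b⁻¹ = a * z) (hbz : b * z = z * b)
    (haz : a * z = z * a) (m n : ℕ) : b ^ m * a ^ n * (b ^ m)⁻¹ * (a ^ n)⁻¹ = z ^ (m * n) := by
  have h1 : b ^ m * a * (b ^ m)⁻¹ = a * z ^ m := by
    have := conj_zpow_comm hz hbz haz m
    simpa using this
  have hc : Commute a (z ^ m) := (show Commute a z from haz).pow_right m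
  have h2 : b ^ m * a ^ n * (b ^ m)⁻¹ = a ^ n * z ^ (m * n) := by
    rw [← conj_pow, h1, hc.mul_pow, pow_mul]
  rw [h2]
  have hc2 : Commute (a ^ n) (z ^ (m * n)) := (show Commute a z from haz).pow_pow n (m * n)
  rw [hc2.eq]
  group

end Cfsg.Agent.Lib.LocalEven.ExtraTorE
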