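import Cfsg.Agent.Lib.LocalEven.ExtraTorE

/-!
# Extraspecial Sylow subgroups of order `p³` with three `SL₂(p)`-automizers: `p ≤ 13`
-/

set_option autoImplicit false

namespace Cfsg.Agent.Lib.LocalEven.ExtraTorF

open Subgroup
open Cfsg.Agent.Lib.LocalEven.ExtraTorC Cfsg.Agent.Lib.LocalEven.ExtraTorD Cfsg.Agent.Lib.LocalEven.ExtraTorE
open Cfsg.Agent.Lib.LocalEven.ExtraTorB

variable {p : ℕ} [hp : Fact p.Prime] {G : Type*} [Group G] [Finite G]

/-- The center of `P` lies in every subgroup of order `p²`. -/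
theorem center_le {E : Type*} [Group E] [Finite E] (hcard : Nat.card E = p ^ 3)
    (hZ : Nat.card (center E) = p) (A : Subgroup E) (hA : Nat.card A = p ^ 2) : center E ≤ A := by
  by_contra hle
  have hpp := hp.out
  have hp1 := hpp.one_lt
  have hAcomm : ∀ x y : A, x * y = y * x := by
    have := IsPGroup.isMulCommutative_of_card_eq_prime_sq (p := p) hA
    intro x y
    exact mul_comm' x y
  have hsup : Nat.card (A ⊔ center E : Subgroup E) = p ^ 3 := by
    have h1 : Nat.card (A ⊔ center E : Subgroup E) ∣ p ^ 3 := by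
      rw [← hcard]
      exact Subgroup.card_subgroup_dvd_card _
    obtain ⟨k, hk, hk2⟩ := (Nat.dvd_prime_pow hpp).1 h1
    have h2 : p ^ 2 ∣ p ^ k := by
      rw [← hk2, ← hA]
      exact Subgroup.card_dvd_of_le le_sup_left
    have h3 : 2 ≤ k := (Nat.pow_dvd_pow_iff_le_right hp1).1 h2
    have h4 : k = 2 ∨ k = 3 := by omega
    rcases h4 with rfl | rfl
    · exfalso
      apply hle
      have h5 : A = A ⊔ center E := Subgroup.eq_of_le_of_card_ge le_sup_left (by rw [hk2, hA])
      rw [h5]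
      exact le_sup_right
    · exact hk2
  have htop : (A ⊔ center E : Subgroup E) = ⊤ := by
    apply Subgroup.eq_top_of_card_eq
    rw [hsup, hcard]
  have hcomm : ∀ x y : E, x * y = y * x := by
    intro x y
    have hx : x ∈ (A ⊔ center E : Subgroup E) := by rw [htop]; trivial
    have hy : y ∈ (A ⊔ center E : Subgroup E) := by rw [htop]; trivial
    obtain ⟨a, ha, c, hc, rfl⟩ := Subgroup.mem_sup_of_normal_right.1 hx
    obtain ⟨a', ha', c', hc', rfl⟩ := Subgroup.mem_sup_of_normal_right.1 hy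
    have h1 : a * a' = a' * a := congrArg Subtype.val (hAcomm ⟨a, ha⟩ ⟨a', ha'⟩)
    have hcc : ∀ c ∈ center E, ∀ u : E, c * u = u * c := by
      intro c hc u
      exact ((Subgroup.mem_center_iff.1 hc) u).symm
    calc a * c * (a' * c') = a * a' * (c * c') := by
          rw [mul_assoc, ← mul_assoc c, hcc c hc a']; simp only [mul_assoc]
      _ = a' * a * (c' * c) := by rw [h1, (Subgroup.mem_center_iff.1 hc) c']
      _ = a' * c' * (a * c) := by
          rw [mul_assoc, ← mul_assoc a, ← hcc c' hc' a]; simp only [mul_assoc]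
  have htopZ : center E = ⊤ := by
    ext x
    simp only [Subgroup.mem_top, iff_true]
    exact Subgroup.mem_center_iff.2 (fun y => hcomm y x)
  rw [htopZ, Subgroup.card_top, hcard] at hZ
  have : p ^ 3 = p ^ 1 := by rw [hZ, pow_one]
  have := Nat.pow_right_injective hpp.two_le this
  omega

/-- The data attached to a subgroup of order `p²`. -/
structure TData (P : Subgroup G) (a b z g : G) (t : ZMod p) : Prop where
  haP : a ∈ P
  hbP : b ∈ P
  hz1 : z ≠ 1
  hzP : z ∈ P
  hzc : ∀ u ∈ P, u * z = z * u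
  hba : b * a * b⁻¹ = a * z
  hgN : g ∈ normalizer (P : Set G)
  hgz : g * z * g⁻¹ = z ^ t.val
  hga : g * a * g⁻¹ = a ^ (t⁻¹).val

/-- Existence of the data. -/
theorem exists_data (P : Sylow p G) (hE : Cfsg.IsExtraspecial p ↥(P : Subgroup G))
    (hcard : Nat.card ↥(P : Subgroup G) = p ^ 3)
    (hexp : ∀ u ∈ (P : Subgroup G), u ^ p = 1) (A : Subgroup G) (hAP : A ≤ (P : Subgroup G))
    (hAcard : Nat.card A = p ^ 2)
    (hSL : ∀ φ : MulAut ↥A, orderOf φ = p → ∃ g : G, ∀ a : ↥A, (φ a : G) = g * (a : G) * g⁻¹)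
    (t : ZMod p) (ht : t ≠ 0) :
    ∃ a b z g : G, a ∈ A ∧ TData (P : Subgroup G) a b z g t := by
  classical
  have hpp := hp.out
  haveI : Fact (1 < p) := ⟨hpp.one_lt⟩
  have hZ : Nat.card (center ↥(P : Subgroup G)) = p := hE.2
  have hcomE : ∀ x y : ↥(P : Subgroup G), x * y * x⁻¹ * y⁻¹ ∈ center ↥(P : Subgroup G) := by
    intro x y
    rw [← hE.1.2.2]
    exact Subgroup.commutator_mem_commutator (mem_top x) (mem_top y)
  let A' : Subgroup ↥(P : Subgroup G) := A.subgroupOf (P : Subgroup G)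
  have hA' : Nat.card A' = p ^ 2 := by
    rw [← hAcard]
    exact Nat.card_congr (Subgroup.subgroupOfEquivOfLe hAP).toEquiv
  have hZA := center_le (p := p) hcard hZ A' hA'
  -- `a`
  obtain ⟨a', haA, haZ⟩ : ∃ a' ∈ A', a' ∉ center ↥(P : Subgroup G) := by
    by_contra hno
    push Not at hno
    have h1 : A' ≤ center ↥(P : Subgroup G) := hno
    have h2 := Subgroup.card_le_of_le h1
    rw [hA', hZ] at h2
    have h3 : p ^ 1 < p ^ 2 := Nat.pow_lt_pow_right hpp.one_lt (by norm_num)
    rw [pow_one] at h3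
    omega
  obtain ⟨b', hb'⟩ : ∃ b', b' * a' ≠ a' * b' := by
    by_contra hno
    push Not at hno
    exact haZ (Subgroup.mem_center_iff.2 hno)
  obtain ⟨z', hz'⟩ : ∃ z', z' = b' * a' * b'⁻¹ * a'⁻¹ := ⟨_, rfl⟩
  have hz'Z : z' ∈ center ↥(P : Subgroup G) := hz' ▸ hcomE b' a'
  have hz'1 : z' ≠ 1 := by
    rw [hz']
    intro h
    apply hb'
    have h1 : b' * a' * b'⁻¹ = a' := by
      have := mul_inv_eq_one.1 h
      exact this
    calc b' * a' = (b' * a' * b'⁻¹) * b' := by group
      _ = a' * b' := by rw [h1]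
  have hz'A : z' ∈ A' := hZA hz'Z
  have hcc : ∀ u : ↥(P : Subgroup G), u * z' = z' * u := fun u => (Subgroup.mem_center_iff.1 hz'Z u)
  have hza : b' * a' * b'⁻¹ = a' * z' := by
    rw [hz']
    calc b' * a' * b'⁻¹ = (b' * a' * b'⁻¹ * a'⁻¹) * a' := by group
      _ = a' * (b' * a' * b'⁻¹ * a'⁻¹) := by rw [← hz']; exact (hcc a').symm
  -- generators of the center
  have hexpE : ∀ u : ↥(P : Subgroup G), u ^ p = 1 := fun u => Subtype.ext (by simpa using hexp u u.2)
  have hordz : orderOf z' = p := orderOf_eq_prime (hexpE z') hz'1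
  have hzpow : center ↥(P : Subgroup G) = zpowers z' := by
    symm
    apply Subgroup.eq_of_le_of_card_ge
    · rw [zpowers_le]; exact hz'Z
    · rw [hZ, Nat.card_zpowers, hordz]
  have hcom : ∀ u : ↥(P : Subgroup G), ∃ e : ℤ, u * a' * u⁻¹ = a' * z' ^ e := by
    intro u
    have h1 := hcomE u a'
    rw [hzpow] at h1
    obtain ⟨e, he⟩ := mem_zpowers_iff.1 h1
    refine ⟨e, ?_⟩
    have hc : z' ^ e * a' = a' * z' ^ e := (Commute.zpow_left (show Commute z' a' from (hcc a').symm) e)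
    calc u * a' * u⁻¹ = (u * a' * u⁻¹ * a'⁻¹) * a' := by group
      _ = z' ^ e * a' := by rw [he]
      _ = _ := hc
  -- pass to `G`
  obtain ⟨a, haa⟩ : ∃ a : G, a = a' := ⟨_, rfl⟩
  obtain ⟨b, hbb⟩ : ∃ b : G, b = b' := ⟨_, rfl⟩
  obtain ⟨z, hzz⟩ : ∃ z : G, z = z' := ⟨_, rfl⟩
  have haP : a ∈ (P : Subgroup G) := haa ▸ a'.2
  have hbP : b ∈ (P : Subgroup G) := hbb ▸ b'.2
  have hzP : z ∈ (P : Subgroup G) := hzz ▸ z'.2
  have haAG : a ∈ A := haa ▸ haA
  have hzAG : z ∈ A := hzz ▸ hz'A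
  have hz1G : z ≠ 1 := by
    rw [hzz]
    intro h
    exact hz'1 (Subtype.ext h)
  have hzc : ∀ u ∈ (P : Subgroup G), u * z = z * u := by
    intro u hu
    rw [hzz]
    exact congrArg Subtype.val (hcc ⟨u, hu⟩)
  have hbaG : b * a * b⁻¹ = a * z := by
    rw [haa, hbb, hzz]
    exact congrArg Subtype.val hza
  have hazG : a * z = z * a := (hzc a haP).symm ▸ rfl
  have hcomG : ∀ u ∈ (P : Subgroup G), ∃ e : ℤ, u * a * u⁻¹ = a * z ^ e := by
    intro u hu
    obtain ⟨e, he⟩ := hcom ⟨u, hu⟩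
    refine ⟨e, ?_⟩
    rw [haa, hzz]
    have := congrArg Subtype.val he
    simpa using this
  have haz : a ∉ zpowers z := by
    intro h
    obtain ⟨k, hk⟩ := mem_zpowers_iff.1 h
    apply haZ
    rw [hzpow, mem_zpowers_iff]
    refine ⟨k, Subtype.ext ?_⟩
    rw [← haa, ← hk, hzz]
    simp
  obtain ⟨g₀, hg₀z, hg₀a⟩ := torus_on_A A hAcard (fun u hu => hexp u (hAP hu)) hSL hzAG haAG hz1G haz t ht
  obtain ⟨g, hgN, hgz, hga⟩ := frattini_correct P hbP hbaG hzc hazG (hexp z hzP) (hexp a haP) hcomG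
    (mul_inv_cancel₀ ht) hg₀z hg₀a
  exact ⟨a, b, z, g, haAG, ⟨haP, hbP, hz1G, hzP, hzc, hbaG, hgN, hgz, hga⟩⟩

/-- Iterating a power action. -/
theorem conj_iter {g z : G} (hz : z ^ p = 1) {t : ZMod p} (h : g * z * g⁻¹ = z ^ t.val) (k : ℕ) :
    g ^ k * z * (g ^ k)⁻¹ = z ^ (t ^ k).val := by
  haveI : Fact (1 < p) := ⟨hp.out.one_lt⟩
  induction k with
  | zero => simp [ZMod.val_one]
  | succ k ih =>
    calc g ^ (k + 1) * z * (g ^ (k + 1))⁻¹ = g * (g ^ k * z * (g ^ k)⁻¹) * g⁻¹ := by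
          rw [pow_succ']; group
      _ = (g * z * g⁻¹) ^ (t ^ k).val := by rw [ih, conj_pow]
      _ = z ^ (t ^ (k + 1)).val := by rw [h, pw_mul hz, pow_succ']

/-- Proportional vectors in the plane. -/
theorem prop_of_det {K : Type*} [Field K] {u v : Fin 2 → K} (hv : v ≠ 0) (hd : u 0 * v 1 - u 1 * v 0 = 0) :
    ∃ c : K, u = c • v := by
  by_cases h0 : v 0 = 0
  · have h1 : v 1 ≠ 0 := by
      intro h1
      apply hv
      ext i
      fin_cases i
      · exact h0
      · exact h1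
    refine ⟨u 1 / v 1, ?_⟩
    ext i
    fin_cases i
    · simp only [Pi.smul_apply, smul_eq_mul, Fin.zero_eta]
      rw [h0, mul_zero, sub_zero] at hd
      rw [h0, mul_zero]
      exact (mul_eq_zero.1 hd).resolve_right h1
    · simp only [Pi.smul_apply, smul_eq_mul, Fin.mk_one]
      field_simp
  · refine ⟨u 0 / v 0, ?_⟩
    ext i
    fin_cases i
    · simp only [Pi.smul_apply, smul_eq_mul, Fin.zero_eta]
      field_simp
    · simp only [Pi.smul_apply, smul_eq_mul, Fin.mk_one]
      field_simp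
      linear_combination -hd

/-- The main theorem. -/
theorem main {G : Type*} [Group G] [Finite G] {p : ℕ} [Fact p.Prime] (hp2 : p ≠ 2) (P : Sylow p G)
    (hE : Cfsg.IsExtraspecial p ↥(P : Subgroup G))
    (hcard : Nat.card ↥(P : Subgroup G) = p ^ 3) (hexp : ∀ u ∈ (P : Subgroup G), u ^ p = 1)
    (A : Fin 3 → Subgroup G) (hA : Function.Injective A) (hAP : ∀ i, A i ≤ (P : Subgroup G))
    (hAcard : ∀ i, Nat.card ↥(A i) = p ^ 2)
    (hSL : ∀ i, ∀ φ : MulAut ↥(A i), orderOf φ = p → ∃ g : G, ∀ a : ↥(A i), (φ a : G) = g * (a : G) * g⁻¹) :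
    p ≤ 13 := by
  classical
  have hpp : p.Prime := Fact.out
  haveI : Fact (1 < p) := ⟨hpp.one_lt⟩
  by_contra hgt
  have hp17 : 17 ≤ p := by
    by_contra hlt
    have h1 : p = 14 ∨ p = 15 ∨ p = 16 := by omega
    rcases h1 with rfl | rfl | rfl <;> revert hpp <;> norm_num
  -- a generator of the multiplicative group
  obtain ⟨u, hu⟩ := IsCyclic.exists_generator (α := (ZMod p)ˣ)
  have hordu : orderOf u = p - 1 := by
    rw [← Nat.card_zpowers]
    have h1 : zpowers u = ⊤ := by
      ext x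
      simp [hu x]
    rw [h1, Subgroup.card_top, Nat.card_units, Nat.card_zmod]
  obtain ⟨t, ht⟩ : ∃ t : ZMod p, t = (u : ZMod p) := ⟨_, rfl⟩
  have ht0 : t ≠ 0 := ht ▸ u.ne_zero
  have htpow : ∀ k : ℕ, 1 ≤ k → k ≤ 5 → t ^ (3 * k) ≠ 1 := by
    intro k hk hk5 h
    have h1 : u ^ (3 * k) = 1 := by
      apply Units.ext
      rw [Units.val_pow_eq_pow_val, ← ht, h]
      rfl
    have h2 := orderOf_dvd_of_pow_eq_one h1
    rw [hordu] at h2
    have h3 := Nat.le_of_dvd (by omega) h2
    omega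
  have hdata := fun i => exists_data P hE hcard hexp (A i) (hAP i) (hAcard i) (hSL i) t ht0
  choose a b z g haA hT using hdata
  -- coordinates
  have hZ : Nat.card (center ↥(P : Subgroup G)) = p := hE.2
  have hcomE : ∀ x y : ↥(P : Subgroup G), x * y * x⁻¹ * y⁻¹ ∈ center ↥(P : Subgroup G) := by
    intro x y
    rw [← hE.1.2.2]
    exact Subgroup.commutator_mem_commutator (mem_top x) (mem_top y)
  have hexpE : ∀ u : ↥(P : Subgroup G), u ^ p = 1 := fun u => Subtype.ext (by simpa using hexp u u.2)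
  have hquot : Nat.card (↥(P : Subgroup G) ⧸ center ↥(P : Subgroup G)) = p ^ 2 := by
    have h1 := Subgroup.card_eq_card_quotient_mul_card_subgroup (center ↥(P : Subgroup G))
    rw [hZ, hcard] at h1
    have h2 : p ^ 3 = p ^ 2 * p := by ring
    rw [h2] at h1
    exact (Nat.eq_of_mul_eq_mul_right hpp.pos h1).symm
  obtain ⟨π, hπs, hπk⟩ := exists_coord (center ↥(P : Subgroup G)) hcomE hexpE hquot
  let θ := Subgroup.normalizerMonoidHom (P : Subgroup G)
  have hθv : ∀ (n : normalizer (((P : Subgroup G)) : Set G)) (u : ↥(P : Subgroup G)), ((θ n u : ↥(P : Subgroup G)) : G) = (n : G) * u * (n : G)⁻¹ :=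
    fun n u => rfl
  have hθc : ∀ n, ∀ u ∈ π.ker, θ n u ∈ π.ker := by
    intro n u hu
    rw [hπk] at hu ⊢
    rw [Subgroup.mem_center_iff] at hu ⊢
    intro v
    obtain ⟨w, rfl⟩ := (θ n).surjective v
    rw [← map_mul, ← map_mul, hu w]
  obtain ⟨ρ, hρ⟩ := ExtraTorE.exists_rep π hπs θ hθc
  -- coprimality
  have hco : ∀ n, Nat.Coprime (orderOf (ρ n)) p := by
    intro n
    have hordpos : orderOf (n : G) ≠ 0 := (orderOf_pos _).ne'
    obtain ⟨r, m, hm, hord⟩ := Nat.exists_eq_pow_mul_and_not_dvd hordpos p hpp.ne_one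
    have hmpow : ((n ^ m : normalizer (((P : Subgroup G)) : Set G)) : G) ∈ (P : Subgroup G) := by
      have hQ : IsPGroup p (zpowers ((n ^ m : normalizer (((P : Subgroup G)) : Set G)) : G)) := by
        rintro ⟨x, hx⟩
        obtain ⟨i, rfl⟩ := mem_zpowers_iff.1 hx
        refine ⟨r, Subtype.ext ?_⟩
        simp only [SubmonoidClass.mk_pow, Subgroup.coe_one]
        rw [← zpow_natCast, ← zpow_mul, mul_comm, zpow_mul, zpow_natCast]
        have : ((n ^ m : normalizer (((P : Subgroup G)) : Set G)) : G) ^ p ^ r = 1 := by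
          rw [Subgroup.coe_pow, ← pow_mul, mul_comm, ← hord, pow_orderOf_eq_one]
        rw [this, one_zpow]
      have h1 : zpowers ((n ^ m : normalizer (((P : Subgroup G)) : Set G)) : G) ⊓ normalizer ((P : Subgroup G) : Set G) =
          zpowers ((n ^ m : normalizer (((P : Subgroup G)) : Set G)) : G) ⊓ (P : Subgroup G) := IsPGroup.inf_normalizer_sylow hQ P
      have h2 : ((n ^ m : normalizer (((P : Subgroup G)) : Set G)) : G) ∈
          zpowers ((n ^ m : normalizer (((P : Subgroup G)) : Set G)) : G) ⊓ normalizer ((P : Subgroup G) : Set G) :=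
        Subgroup.mem_inf.2 ⟨mem_zpowers _, (n ^ m).2⟩
      rw [h1] at h2
      exact (Subgroup.mem_inf.1 h2).2
    have hone : (ρ n) ^ m = 1 := by
      rw [← map_pow]
      apply Units.ext
      rw [Units.val_one]
      apply Matrix.mulVec_injective
      funext v
      rw [Matrix.one_mulVec]
      obtain ⟨x, hx⟩ := hπs (Multiplicative.ofAdd v)
      have hv : v = Multiplicative.toAdd (π x) := by rw [hx]; rfl
      have h3 : θ (n ^ m) x = ⟨_, hmpow⟩ * x * (⟨_, hmpow⟩ : ↥(P : Subgroup G))⁻¹ := Subtype.ext rfl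
      have h4 : π (θ (n ^ m) x) = π x := by
        rw [h3, map_mul, map_mul, map_inv, mul_comm (π _) (π x), mul_assoc, mul_inv_cancel, mul_one]
      rw [hv, hρ, h4]
    have hd := orderOf_dvd_of_pow_eq_one hone
    have hcop : Nat.Coprime m p := ((Nat.Prime.coprime_iff_not_dvd hpp).2 hm).symm
    exact Nat.Coprime.coprime_dvd_left hd hcop
  -- the points
  let a' : Fin 3 → ↥(P : Subgroup G) := fun i => ⟨a i, (hT i).haP⟩
  let x : Fin 3 → (Fin 2 → ZMod p) := fun i => Multiplicative.toAdd (π (a' i))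
  have hanc : ∀ i, a' i ∉ center ↥(P : Subgroup G) := by
    intro i h
    apply (hT i).hz1
    have h1 := Subgroup.mem_center_iff.1 h ⟨b i, (hT i).hbP⟩
    have h2 : b i * a i = a i * b i := congrArg Subtype.val h1
    have h3 := (hT i).hba
    rw [h2] at h3
    have h4 : a i * b i * (b i)⁻¹ = a i := by group
    rw [h4] at h3
    exact (mul_eq_left.1 h3.symm)
  have hx0 : ∀ i, x i ≠ 0 := by
    intro i h
    apply hanc i
    rw [← hπk, MonoidHom.mem_ker]
    exact h
  have hZleA : ∀ i, ∀ u : ↥(P : Subgroup G), u ∈ center ↥(P : Subgroup G) → (u : G) ∈ A i := by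
    intro i u hu
    have hA' : Nat.card ((A i).subgroupOf (P : Subgroup G)) = p ^ 2 := by
      rw [← hAcard i]
      exact Nat.card_congr (Subgroup.subgroupOfEquivOfLe (hAP i)).toEquiv
    exact center_le (p := p) hcard hZ _ hA' hu
  have hind : ∀ i j, i ≠ j → x i 0 * x j 1 - x i 1 * x j 0 ≠ 0 := by
    intro i j hij hd
    obtain ⟨c, hc⟩ := prop_of_det (hx0 j) hd
    apply hij
    apply hA
    -- `a i ∈ A j`
    have h1 : (a' j ^ c.val)⁻¹ * a' i ∈ center ↥(P : Subgroup G) := by
      rw [← hπk, MonoidHom.mem_ker, map_mul, map_inv, map_pow]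
      have h2 : π (a' i) = π (a' j) ^ c.val := by
        apply Multiplicative.toAdd.injective
        rw [toAdd_pow]
        show x i = c.val • x j
        rw [hc]
        rw [← Nat.cast_smul_eq_nsmul (ZMod p), ZMod.natCast_zmod_val]
      rw [h2]
      simp
    have h3 : a i ∈ A j := by
      have h4 := hZleA j _ h1
      have h5 : a i = (a j) ^ c.val * (((a' j ^ c.val)⁻¹ * a' i : ↥(P : Subgroup G)) : G) := by
        simp [a']
      rw [h5]
      exact (A j).mul_mem ((A j).pow_mem (haA j) _) h4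
    -- the intersection
    have hsub : Nat.card (A i ⊓ A j : Subgroup G) = p ^ 2 := by
      have h6 : Nat.card (A i ⊓ A j : Subgroup G) ∣ p ^ 2 := by
        rw [← hAcard i]
        exact Subgroup.card_dvd_of_le inf_le_left
      obtain ⟨k, hk, hk2⟩ := (Nat.dvd_prime_pow hpp).1 h6
      have h7 : k = 0 ∨ k = 1 ∨ k = 2 := by omega
      have h8 : p ≤ Nat.card (A i ⊓ A j : Subgroup G) := by
        by_contra hlt
        have hle : Nat.card (center ↥(P : Subgroup G)) ≤ Nat.card (A i ⊓ A j : Subgroup G) + 0 := by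
          have hinj : Function.Injective (fun u : center ↥(P : Subgroup G) =>
              (⟨((u : ↥(P : Subgroup G)) : G), Subgroup.mem_inf.2 ⟨hZleA i _ u.2, hZleA j _ u.2⟩⟩ : (A i ⊓ A j : Subgroup G))) := by
            intro u v huv
            apply Subtype.ext
            apply Subtype.ext
            have h := congrArg (fun y : (A i ⊓ A j : Subgroup G) => (y : G)) huv
            exact h
          exact Nat.card_le_card_of_injective _ hinj
        rw [hZ] at hle
        omega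
      rcases h7 with rfl | rfl | rfl
      · rw [pow_zero] at hk2
        rw [hk2] at h8
        have := hpp.two_le
        omega
      · -- then the intersection is the center, but `a i` is not central
        exfalso
        rw [pow_one] at hk2
        apply hanc i
        have h9 : Nat.card (A i ⊓ A j : Subgroup G) = Nat.card (center ↥(P : Subgroup G)) := by rw [hk2, hZ]
        let f : center ↥(P : Subgroup G) → (A i ⊓ A j : Subgroup G) := fun u =>
          ⟨((u : ↥(P : Subgroup G)) : G), Subgroup.mem_inf.2 ⟨hZleA i _ u.2, hZleA j _ u.2⟩⟩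
        have hinj : Function.Injective f := by
          intro u v huv
          apply Subtype.ext
          apply Subtype.ext
          have h := congrArg (fun y : (A i ⊓ A j : Subgroup G) => (y : G)) huv
          exact h
        have hbij : Function.Bijective f := (Nat.bijective_iff_injective_and_card f).2 ⟨hinj, h9.symm⟩
        obtain ⟨w, hw⟩ := hbij.2 ⟨a i, Subgroup.mem_inf.2 ⟨haA i, h3⟩⟩
        have h10 : (w : ↥(P : Subgroup G)) = a' i := by
          apply Subtype.ext
          have h := congrArg (fun y : (A i ⊓ A j : Subgroup G) => (y : G)) hw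
          exact h
        rw [← h10]
        exact w.2
      · exact hk2
    have hle1 : A i ⊓ A j = A i := Subgroup.eq_of_le_of_card_ge inf_le_left (by rw [hsub, hAcard])
    have hle2 : A i ⊓ A j = A j := Subgroup.eq_of_le_of_card_ge inf_le_right (by rw [hsub, hAcard])
    rw [← hle1, hle2]
  let n : Fin 3 → normalizer ((P : Subgroup G) : Set G) := fun i => ⟨g i, (hT i).hgN⟩
  have hconja : ∀ (i : Fin 3) (h : normalizer ((P : Subgroup G) : Set G)) (s : ZMod p), (h : G) * a i * (h : G)⁻¹ = a i ^ s.val →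
      (ρ h).val.mulVec (x i) = s • x i := by
    intro i h s hs
    have h1 := hρ h (a' i)
    have h2 : θ h (a' i) = (a' i) ^ s.val := by
      apply Subtype.ext
      rw [hθv]
      simpa [a'] using hs
    rw [h2, map_pow, toAdd_pow, ← Nat.cast_smul_eq_nsmul (ZMod p), ZMod.natCast_zmod_val] at h1
    exact h1
  refine line_lemma hp2 ρ.range ?_ x hx0 hind (fun i => ρ (n i)) (fun i => ⟨n i, rfl⟩) ?_ ?_
  · rintro _ ⟨m, rfl⟩
    exact hco m
  · intro i
    exact ⟨t⁻¹, hconja i (n i) t⁻¹ (hT i).hga⟩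
  · -- non-scalar powers
    intro i k hk1 hk5
    rintro ⟨c, hc⟩
    have hT' := hT i
    have hgk : ((n i ^ k : normalizer ((P : Subgroup G) : Set G)) : G) = g i ^ k := by
      simp [n]
    obtain ⟨h, hh⟩ : ∃ h, h = n i ^ k := ⟨_, rfl⟩
    have hhG : (h : G) = g i ^ k := by rw [hh, hgk]
    have hρh : (ρ h).val = c • 1 := by
      rw [hh, map_pow]
      exact hc
    have hτ : (h : G) * z i * (h : G)⁻¹ = z i ^ (t ^ k).val := by
      rw [hhG]
      exact conj_iter (hexp _ hT'.hzP) hT'.hgz k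
    have hσ : (h : G) * a i * (h : G)⁻¹ = a i ^ ((t⁻¹) ^ k).val := by
      rw [hhG]
      exact conj_iter (hexp _ hT'.haP) hT'.hga k
    have hcσ : c = (t⁻¹) ^ k := by
      have h1 := hconja i h _ hσ
      rw [hρh, Matrix.smul_mulVec, Matrix.one_mulVec] at h1
      have h2 : (c - (t⁻¹) ^ k) • x i = 0 := by
        rw [sub_smul, h1, sub_self]
      rcases smul_eq_zero.1 h2 with h3 | h3
      · exact sub_eq_zero.1 h3
      · exact absurd h3 (hx0 i)
    -- `b`
    let b' : ↥(P : Subgroup G) := ⟨b i, hT'.hbP⟩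
    obtain ⟨σ, hσd⟩ : ∃ σ : ZMod p, σ = (t⁻¹) ^ k := ⟨_, rfl⟩
    rw [← hσd] at hσ hcσ
    have hw : (b' ^ σ.val)⁻¹ * θ h b' ∈ center ↥(P : Subgroup G) := by
      rw [← hπk, MonoidHom.mem_ker, map_mul, map_inv, map_pow]
      have h1 := hρ h b'
      rw [hρh, Matrix.smul_mulVec, Matrix.one_mulVec, hcσ] at h1
      have h2 : π (θ h b') = π b' ^ σ.val := by
        apply Multiplicative.toAdd.injective
        rw [toAdd_pow, ← h1, ← Nat.cast_smul_eq_nsmul (ZMod p), ZMod.natCast_zmod_val]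
      rw [h2]
      simp
    obtain ⟨w, hwd⟩ : ∃ w, w = (b' ^ σ.val)⁻¹ * θ h b' := ⟨_, rfl⟩
    rw [← hwd] at hw
    have hwc : ∀ u : ↥(P : Subgroup G), u * w = w * u := fun u => Subgroup.mem_center_iff.1 hw u
    have hbh : (h : G) * b i * (h : G)⁻¹ = b i ^ σ.val * (w : G) := by
      have h1 : θ h b' = b' ^ σ.val * w := by rw [hwd]; group
      have h2 := congrArg Subtype.val h1
      rw [hθv] at h2
      simpa [b'] using h2
    have hazc : a i * z i = z i * a i := hT'.hzc _ hT'.haP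
    have hbzc : b i * z i = z i * b i := hT'.hzc _ hT'.hbP
    have hcomm2 : b i ^ σ.val * a i ^ σ.val * (b i ^ σ.val)⁻¹ * (a i ^ σ.val)⁻¹ = z i ^ (σ.val * σ.val) :=
      comm_pow hT'.hba hbzc hazc _ _
    have hwa : (w : G) * a i ^ σ.val = a i ^ σ.val * (w : G) := by
      have := hwc ((⟨a i, hT'.haP⟩ : ↥(P : Subgroup G)) ^ σ.val)
      have h2 := congrArg Subtype.val this
      simpa using h2.symm
    have hzeq : z i ^ (t ^ k).val = z i ^ (σ.val * σ.val) := by
      rw [← hτ, ← hcomm2]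
      have h1 : (h : G) * (b i * a i * (b i)⁻¹) * (h : G)⁻¹ = (h : G) * (a i * z i) * (h : G)⁻¹ := by rw [hT'.hba]
      have h2 : (h : G) * (b i * a i * (b i)⁻¹) * (h : G)⁻¹ =
          ((h : G) * b i * (h : G)⁻¹) * ((h : G) * a i * (h : G)⁻¹) * ((h : G) * b i * (h : G)⁻¹)⁻¹ := by group
      have h3 : (h : G) * (a i * z i) * (h : G)⁻¹ = ((h : G) * a i * (h : G)⁻¹) * ((h : G) * z i * (h : G)⁻¹) := by group
      rw [h2, h3, hbh, hσ] at h1
      have h4 : b i ^ σ.val * (w : G) * a i ^ σ.val * (b i ^ σ.val * (w : G))⁻¹ =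
          b i ^ σ.val * a i ^ σ.val * (b i ^ σ.val)⁻¹ := by
        rw [mul_assoc (b i ^ σ.val), hwa]
        group
      rw [h4] at h1
      calc (h : G) * z i * (h : G)⁻¹ = (a i ^ σ.val)⁻¹ * (a i ^ σ.val * ((h : G) * z i * (h : G)⁻¹)) := by group
        _ = (a i ^ σ.val)⁻¹ * (b i ^ σ.val * a i ^ σ.val * (b i ^ σ.val)⁻¹) := by rw [h1]
        _ = b i ^ σ.val * a i ^ σ.val * (b i ^ σ.val)⁻¹ * (a i ^ σ.val)⁻¹ := by
          have hc1 : Commute (a i ^ σ.val) (z i ^ (σ.val * σ.val)) := (show Commute (a i) (z i) from hazc).pow_pow _ _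
          have hc2 : b i ^ σ.val * a i ^ σ.val * (b i ^ σ.val)⁻¹ = z i ^ (σ.val * σ.val) * a i ^ σ.val := by
            rw [← hcomm2]; group
          rw [hc2]
          have h5 := hc1.eq
          calc (a i ^ σ.val)⁻¹ * (z i ^ (σ.val * σ.val) * a i ^ σ.val)
              = (a i ^ σ.val)⁻¹ * (a i ^ σ.val * z i ^ (σ.val * σ.val)) := by rw [h5]
            _ = z i ^ (σ.val * σ.val) := by simp
            _ = z i ^ (σ.val * σ.val) * a i ^ σ.val * (a i ^ σ.val)⁻¹ := by simp
    have hordz : orderOf (z i) = p := orderOf_eq_prime (hexp _ hT'.hzP) hT'.hz1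
    have hτσ : t ^ k = σ * σ := by
      have h1 := (pow_eq_pow_iff_modEq).1 hzeq
      rw [hordz] at h1
      have h2 := (ZMod.natCast_eq_natCast_iff _ _ _).2 h1
      simpa using h2
    have hone : t ^ (3 * k) = 1 := by
      have h1 : σ * t ^ k = 1 := by
        rw [hσd, ← mul_pow, inv_mul_cancel₀ ht0, one_pow]
      have h2 : t ^ (3 * k) = t ^ k * t ^ k * t ^ k := by ring
      rw [h2]
      calc t ^ k * t ^ k * t ^ k = (σ * σ) * t ^ k * t ^ k := by rw [← hτσ]
        _ = (σ * t ^ k) * (σ * t ^ k) := by ring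
        _ = 1 := by rw [h1, one_mul]
    exact htpow k hk1 hk5 hone

end Cfsg.Agent.Lib.LocalEven.ExtraTorF
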