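/-
Galois input for the freeness of modules over Frobenius complements (helper23):
dual normal elements, and the projection `p = φ θ · Σ · φ β`.
-/
import Mathlib

set_option autoImplicit false
set_option linter.unusedVariables false
set_option linter.unusedSectionVars false

namespace Cfsg.Agent.Lib.LocalEven.FreeGal

open scoped BigOperators

section Gal

variable {K G : Type*} [Field K] [Group G] [Finite G] [MulSemiringAction G K] [FaithfulSMul G K]

theorem exists_theta_beta [Fintype G] [DecidableEq G] : ∃ θ β : K,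
    (∀ g : G, ∑ h : G, (h • β) * (h • (g • θ)) = if g = 1 then 1 else 0) ∧
    (∀ r : G, ∑ g : G, (g • θ) * (r • (g • β)) = if r = 1 then 1 else 0) := by
  classical
  let K₀ := FixedPoints.subfield G K
  let b := IsGalois.normalBasis K₀ K
  let θ : K := b 1
  let hdeg := traceForm_nondegenerate K₀ K
  let d := (Algebra.traceForm K₀ K).dualBasis hdeg b
  let β : K := d 1
  let e : G ≃* Gal(K/K₀) := FixedPoints.toAlgAutMulEquiv G K
  have he : ∀ (g : G) (x : K), e g x = g • x := fun g x => rfl
  have hbe : ∀ g : G, b (e g) = g • θ := by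
    intro g
    rw [IsGalois.normalBasis_apply, he]
  -- the trace identity
  have hA : ∀ g : G, ∑ h : G, h • (β * (g • θ)) = if g = 1 then 1 else 0 := by
    intro g
    have h1 := LinearMap.BilinForm.apply_dualBasis_left hdeg b (1 : Gal(K/K₀)) (e g)
    rw [Algebra.traceForm_apply] at h1
    have h2 := trace_eq_sum_automorphisms (K := K₀) (L := K) (β * b (e g))
    rw [h1] at h2
    rw [hbe] at h2
    have h3 : ∑ σ : Gal(K/K₀), σ (β * (g • θ)) = ∑ h : G, h • (β * (g • θ)) := by
      refine Fintype.sum_equiv e.symm.toEquiv _ _ (fun σ => ?_)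
      have : e (e.symm σ) = σ := e.apply_symm_apply σ
      show σ _ = (e.symm σ) • _
      conv_lhs => rw [← this]
      rfl
    rw [← h3, ← h2]
    by_cases hg : g = 1
    · subst hg
      simp
    · have : e g ≠ 1 := by
        intro h
        exact hg (e.injective (by rw [h, map_one]))
      simp [this, hg]
  have hX : ∀ g g' : G, ∑ h : G, (h • (g • β)) * (h • (g' • θ)) = if g = g' then 1 else 0 := by
    intro g g'
    have e1 : ∀ h : G, (h • (g • β)) * (h • (g' • θ)) = (h * g) • (β * ((g⁻¹ * g') • θ)) := by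
      intro h
      have e2 : g' • θ = g • ((g⁻¹ * g') • θ) := by
        rw [← mul_smul, mul_inv_cancel_left]
      rw [e2, ← smul_mul', ← smul_mul', mul_smul h g]
    rw [Finset.sum_congr rfl (fun h _ => e1 h)]
    rw [Fintype.sum_equiv (Equiv.mulRight g) (fun h => (h * g) • (β * ((g⁻¹ * g') • θ)))
      (fun h => h • (β * ((g⁻¹ * g') • θ))) (fun h => rfl)]
    rw [hA]
    by_cases hg : g = g'
    · subst hg
      simp
    · have : g⁻¹ * g' ≠ 1 := by
        intro h
        exact hg (inv_mul_eq_one.1 h)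
      simp [this, hg]
  let X : Matrix G G K := Matrix.of fun h g => h • (g • β)
  let Y : Matrix G G K := Matrix.of fun h g => h • (g • θ)
  have hXY : X.transpose * Y = 1 := by
    ext g g'
    simp only [Matrix.mul_apply, Matrix.transpose_apply, X, Y, Matrix.of_apply, Matrix.one_apply]
    exact hX g g'
  have hYX : Y * X.transpose = 1 := mul_eq_one_comm.1 hXY
  refine ⟨θ, β, ?_, ?_⟩
  · intro g
    have := hX 1 g
    simp only [one_smul] at this
    rw [this]
    by_cases hg : g = 1
    · simp [hg]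
    · simp [hg, Ne.symm hg]
  · intro r
    have h1 := congrFun (congrFun hYX 1) r
    simp only [Matrix.mul_apply, Matrix.transpose_apply, X, Y, Matrix.of_apply, Matrix.one_apply, one_smul] at h1
    rw [h1]
    by_cases hr : r = 1
    · simp [hr]
    · simp [hr, Ne.symm hr]

end Gal

section HFsec

variable {k V H : Type*} [Field k] [AddCommGroup V] [Module k V] [Group H] [Fintype H]

/-- `p` generates a free `H`-direct summand of `ε V`. -/
structure HF (ρ : H →* Module.End k V) (ε p : Module.End k V) : Prop where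
  sum_eq : ∑ h : H, ρ h * p * ρ h⁻¹ = ε
  ortho : ∀ h : H, h ≠ 1 → p * ρ h * p = 0
  left : ε * p = p
  right : p * ε = p

omit [Fintype H] in
lemma rho_inv_mul (ρ : H →* Module.End k V) (h : H) : ρ h⁻¹ * ρ h = 1 := by
  rw [← map_mul, inv_mul_cancel, map_one]

omit [Fintype H] in
lemma rho_mul_inv (ρ : H →* Module.End k V) (h : H) : ρ h * ρ h⁻¹ = 1 := by
  rw [← map_mul, mul_inv_cancel, map_one]

theorem HF.zero (ρ : H →* Module.End k V) : HF ρ 0 0 := by
  refine ⟨?_, ?_, ?_, ?_⟩ <;> simp

theorem HF.comm {ρ : H →* Module.End k V} {ε p : Module.End k V} (hf : HF ρ ε p) (g : H) :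
    ρ g * ε = ε * ρ g := by
  rw [← hf.sum_eq, Finset.mul_sum, Finset.sum_mul]
  refine Fintype.sum_equiv (Equiv.mulLeft g) _ _ (fun h => ?_)
  simp only [Equiv.coe_mulLeft, map_mul, mul_inv_rev, mul_assoc]
  rw [rho_inv_mul, mul_one]

theorem HF.add {ρ : H →* Module.End k V} {ε₁ ε₂ p₁ p₂ : Module.End k V}
    (h₁ : HF ρ ε₁ p₁) (h₂ : HF ρ ε₂ p₂) (h12 : ε₁ * ε₂ = 0) (h21 : ε₂ * ε₁ = 0) :
    HF ρ (ε₁ + ε₂) (p₁ + p₂) := by
  refine ⟨?_, ?_, ?_, ?_⟩
  · rw [← h₁.sum_eq, ← h₂.sum_eq, ← Finset.sum_add_distrib]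
    refine Finset.sum_congr rfl (fun h _ => ?_)
    rw [mul_add, add_mul]
  · intro h hh
    have a1 : p₁ * ρ h * p₂ = 0 := by
      calc p₁ * ρ h * p₂ = (p₁ * ε₁) * ρ h * (ε₂ * p₂) := by rw [h₁.right, h₂.left]
        _ = p₁ * (ρ h * (ε₁ * ε₂)) * p₂ := by
              have := h₁.comm h
              calc (p₁ * ε₁) * ρ h * (ε₂ * p₂) = p₁ * (ε₁ * ρ h) * (ε₂ * p₂) := by
                    simp only [mul_assoc]
                _ = p₁ * (ρ h * ε₁) * (ε₂ * p₂) := by rw [this]
                _ = _ := by simp only [mul_assoc]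
        _ = 0 := by rw [h12]; simp
    have a2 : p₂ * ρ h * p₁ = 0 := by
      calc p₂ * ρ h * p₁ = (p₂ * ε₂) * ρ h * (ε₁ * p₁) := by rw [h₂.right, h₁.left]
        _ = p₂ * (ρ h * (ε₂ * ε₁)) * p₁ := by
              have := h₂.comm h
              calc (p₂ * ε₂) * ρ h * (ε₁ * p₁) = p₂ * (ε₂ * ρ h) * (ε₁ * p₁) := by
                    simp only [mul_assoc]
                _ = p₂ * (ρ h * ε₂) * (ε₁ * p₁) := by rw [this]
                _ = _ := by simp only [mul_assoc]
        _ = 0 := by rw [h21]; simp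
    have b1 := h₁.ortho h hh
    have b2 := h₂.ortho h hh
    simp only [add_mul, mul_add, a1, a2, b1, b2, add_zero]
  · have a1 : ε₁ * p₂ = 0 := by rw [← h₂.left, ← mul_assoc, h12, zero_mul]
    have a2 : ε₂ * p₁ = 0 := by rw [← h₁.left, ← mul_assoc, h21, zero_mul]
    rw [add_mul, mul_add, mul_add, h₁.left, h₂.left, a1, a2, add_zero, zero_add]
  · have a1 : p₂ * ε₁ = 0 := by rw [← h₂.right, mul_assoc, h21, mul_zero]
    have a2 : p₁ * ε₂ = 0 := by rw [← h₁.right, mul_assoc, h12, mul_zero]
    rw [mul_add, add_mul, add_mul, h₁.right, h₂.right, a1, a2, add_zero, zero_add]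

theorem HF.mul_central {ρ : H →* Module.End k V} {ε p c : Module.End k V} (hf : HF ρ ε p)
    (hc : c * c = c) (hcp : c * p = p * c) (hcρ : ∀ h, c * ρ h = ρ h * c) :
    HF ρ (c * ε) (c * p) := by
  refine ⟨?_, ?_, ?_, ?_⟩
  · rw [← hf.sum_eq, Finset.mul_sum]
    refine Finset.sum_congr rfl (fun h _ => ?_)
    rw [← mul_assoc (ρ h), ← hcρ h]
    simp only [mul_assoc]
  · intro h hh
    have := hf.ortho h hh
    calc c * p * ρ h * (c * p) = c * p * (ρ h * c) * p := by simp only [mul_assoc]
      _ = c * p * (c * ρ h) * p := by rw [hcρ h]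
      _ = c * (p * c) * ρ h * p := by simp only [mul_assoc]
      _ = c * (c * p) * ρ h * p := by rw [hcp]
      _ = (c * c) * (p * ρ h * p) := by simp only [mul_assoc]
      _ = 0 := by rw [this, mul_zero]
  · have e1 : ε * c = c * ε := by
      rw [← hf.sum_eq, Finset.mul_sum, Finset.sum_mul]
      refine Finset.sum_congr rfl (fun h _ => ?_)
      calc ρ h * p * ρ h⁻¹ * c = ρ h * p * (ρ h⁻¹ * c) := by simp only [mul_assoc]
        _ = ρ h * p * (c * ρ h⁻¹) := by rw [hcρ]
        _ = ρ h * (p * c) * ρ h⁻¹ := by simp only [mul_assoc]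
        _ = ρ h * (c * p) * ρ h⁻¹ := by rw [hcp]
        _ = (ρ h * c) * p * ρ h⁻¹ := by simp only [mul_assoc]
        _ = (c * ρ h) * p * ρ h⁻¹ := by rw [hcρ]
        _ = _ := by simp only [mul_assoc]
    calc c * ε * (c * p) = c * (ε * c) * p := by simp only [mul_assoc]
      _ = c * (c * ε) * p := by rw [e1]
      _ = (c * c) * (ε * p) := by simp only [mul_assoc]
      _ = c * p := by rw [hc, hf.left]
  · have e1 : ε * c = c * ε := by
      rw [← hf.sum_eq, Finset.mul_sum, Finset.sum_mul]
      refine Finset.sum_congr rfl (fun h _ => ?_)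
      calc ρ h * p * ρ h⁻¹ * c = ρ h * p * (ρ h⁻¹ * c) := by simp only [mul_assoc]
        _ = ρ h * p * (c * ρ h⁻¹) := by rw [hcρ]
        _ = ρ h * (p * c) * ρ h⁻¹ := by simp only [mul_assoc]
        _ = ρ h * (c * p) * ρ h⁻¹ := by rw [hcp]
        _ = (ρ h * c) * p * ρ h⁻¹ := by simp only [mul_assoc]
        _ = (c * ρ h) * p * ρ h⁻¹ := by rw [hcρ]
        _ = _ := by simp only [mul_assoc]
    calc c * p * (c * ε) = c * (p * c) * ε := by simp only [mul_assoc]
      _ = c * (c * p) * ε := by rw [hcp]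
      _ = (c * c) * (p * ε) := by simp only [mul_assoc]
      _ = c * p := by rw [hc, hf.right]

variable {R : Type*} [CommRing R] [MulSemiringAction H R]

theorem hf_of_theta_beta (ρ : H →* Module.End k V) (φ : R →+* Module.End k V)
    (hcompat : ∀ g x, ρ g * φ x = φ (g • x) * ρ g)
    [DecidableEq H] (θ β e : R) (he : e * θ = θ) (he' : e * β = β)
    (hA : ∀ g : H, ∑ h : H, (h • β) * (h • (g • θ)) = if g = 1 then e else 0)
    (hB : ∀ r : H, ∑ g : H, (g • θ) * (r • (g • β)) = if r = 1 then e else 0) :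
    HF ρ (φ e) (φ θ * (∑ h : H, ρ h) * φ β) := by
  set S : Module.End k V := ∑ h : H, ρ h with hS
  have hS1 : ∀ g, ρ g * S = S := by
    intro g
    rw [hS, Finset.mul_sum]
    refine Fintype.sum_equiv (Equiv.mulLeft g) _ _ (fun h => ?_)
    simp
  have hS2 : ∀ g, S * ρ g = S := by
    intro g
    rw [hS, Finset.sum_mul]
    refine Fintype.sum_equiv (Equiv.mulRight g) _ _ (fun h => ?_)
    simp
  have comm2 : ∀ (g : H) (x : R), φ x * ρ g⁻¹ = ρ g⁻¹ * φ (g • x) := by
    intro g x
    rw [hcompat g⁻¹ (g • x), inv_smul_smul]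
  have hSφ : ∀ x : R, S * φ x * S = φ (∑ h : H, h • x) * S := by
    intro x
    calc S * φ x * S = (∑ h : H, ρ h) * φ x * S := rfl
      _ = ∑ h : H, ρ h * φ x * S := by rw [Finset.sum_mul, Finset.sum_mul]
      _ = ∑ h : H, φ (h • x) * S := by
            refine Finset.sum_congr rfl (fun h _ => ?_)
            rw [hcompat, mul_assoc, hS1]
      _ = _ := by rw [map_sum, Finset.sum_mul]
  refine ⟨?_, ?_, ?_, ?_⟩
  · -- the trace
    have t1 : ∀ g : H, ρ g * (φ θ * S * φ β) * ρ g⁻¹ = ∑ r : H, φ ((g • θ) * (r • (g • β))) * ρ r := by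
      intro g
      calc ρ g * (φ θ * S * φ β) * ρ g⁻¹
          = (ρ g * φ θ) * S * (φ β * ρ g⁻¹) := by simp only [mul_assoc]
        _ = φ (g • θ) * (ρ g * S) * (ρ g⁻¹ * φ (g • β)) := by
              rw [hcompat, comm2]; simp only [mul_assoc]
        _ = φ (g • θ) * (S * ρ g⁻¹) * φ (g • β) := by
              rw [hS1]; simp only [mul_assoc]
        _ = φ (g • θ) * S * φ (g • β) := by rw [hS2]
        _ = ∑ r : H, φ (g • θ) * ρ r * φ (g • β) := by
              rw [hS, Finset.mul_sum, Finset.sum_mul]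
        _ = _ := by
              refine Finset.sum_congr rfl (fun r _ => ?_)
              rw [map_mul, mul_assoc, hcompat, mul_assoc]
    rw [Finset.sum_congr rfl (fun g _ => t1 g), Finset.sum_comm]
    have t2 : ∀ r : H, ∑ g : H, φ ((g • θ) * (r • (g • β))) * ρ r = φ (if r = 1 then e else 0) * ρ r := by
      intro r
      rw [← Finset.sum_mul, ← map_sum, hB]
    rw [Finset.sum_congr rfl (fun r _ => t2 r), Finset.sum_eq_single (1 : H)]
    · simp
    · intro r _ hr
      simp [hr]
    · simp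
  · intro g hg
    calc φ θ * S * φ β * ρ g * (φ θ * S * φ β)
        = φ θ * S * φ β * (ρ g * φ θ) * S * φ β := by simp only [mul_assoc]
      _ = φ θ * (S * (φ β * φ (g • θ)) * (ρ g * S)) * φ β := by
            rw [hcompat]; simp only [mul_assoc]
      _ = φ θ * (S * φ (β * (g • θ)) * S) * φ β := by rw [hS1, map_mul]
      _ = φ θ * (φ (∑ h : H, h • (β * (g • θ))) * S) * φ β := by rw [hSφ]
      _ = 0 := by
            have : ∑ h : H, h • (β * (g • θ)) = 0 := by
              have := hA g
              simp only [hg, if_false] at this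
              rw [← this]
              refine Finset.sum_congr rfl (fun h _ => ?_)
              rw [smul_mul']
            rw [this]
            simp
  · calc φ e * (φ θ * S * φ β) = φ (e * θ) * S * φ β := by
          rw [map_mul]; simp only [mul_assoc]
      _ = _ := by rw [he]
  · calc φ θ * S * φ β * φ e = φ θ * S * φ (e * β) := by
          rw [mul_comm e β, map_mul]; simp only [mul_assoc]
      _ = _ := by rw [he']

theorem hf_orbit [DecidableEq R] (ρ : H →* Module.End k V) (φ : R →+* Module.End k V)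
    (hcompat : ∀ g x, ρ g * φ x = φ (g • x) * ρ g)
    (e : R) (he : e * e = e) (horth : ∀ h : H, h • e ≠ e → e * (h • e) = 0)
    (G : Subgroup H) [Fintype G] (hG : ∀ h, h ∈ G ↔ h • e = e)
    (p : Module.End k V) (hp : HF (ρ.comp G.subtype) (φ e) p) :
    HF ρ (φ (∑ x ∈ Finset.univ.image (fun h : H => h • e), x)) p := by
  classical
  set O := Finset.univ.image (fun h : H => h • e) with hO
  have he1 : e ∈ O := by
    rw [hO, Finset.mem_image]
    exact ⟨1, Finset.mem_univ _, one_smul _ _⟩
  have hfe : (∑ x ∈ O, x) * e = e := by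
    rw [Finset.sum_mul, Finset.sum_eq_single e]
    · exact he
    · intro x hx hxe
      rw [hO, Finset.mem_image] at hx
      obtain ⟨h, -, rfl⟩ := hx
      rw [mul_comm]
      exact horth h hxe
    · intro h
      exact absurd he1 h
  have hconj : ∀ h : H, ρ h * φ e * ρ h⁻¹ = φ (h • e) := by
    intro h
    rw [hcompat, mul_assoc, rho_mul_inv, mul_one]
  refine ⟨?_, ?_, ?_, ?_⟩
  · rw [map_sum]
    rw [← Finset.sum_fiberwise_of_maps_to (s := Finset.univ) (t := O) (g := fun h : H => h • e)
      (fun h _ => by rw [hO]; exact Finset.mem_image_of_mem _ (Finset.mem_univ h))]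
    refine Finset.sum_congr rfl (fun x hx => ?_)
    rw [hO, Finset.mem_image] at hx
    obtain ⟨h₀, -, rfl⟩ := hx
    rw [← hconj h₀, ← hp.sum_eq, Finset.mul_sum, Finset.sum_mul]
    symm
    refine Finset.sum_bij (fun (g : G) _ => h₀ * (g : H)) ?_ ?_ ?_ ?_
    · intro g _
      rw [Finset.mem_filter]
      refine ⟨Finset.mem_univ _, ?_⟩
      rw [mul_smul, (hG _).1 g.2]
    · intro a _ b _ hab
      exact Subtype.ext (mul_left_cancel hab)
    · intro h hh
      rw [Finset.mem_filter] at hh
      refine ⟨⟨h₀⁻¹ * h, ?_⟩, Finset.mem_univ _, mul_inv_cancel_left _ _⟩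
      rw [hG, mul_smul, hh.2, inv_smul_smul]
    · intro g _
      simp only [MonoidHom.comp_apply, Subgroup.coe_subtype, map_mul, mul_inv_rev, mul_assoc,
        Subgroup.coe_inv]
  · intro h hh
    by_cases hhG : h ∈ G
    · have := hp.ortho ⟨h, hhG⟩ (by
        intro h1
        exact hh (congrArg Subtype.val h1))
      simpa using this
    · have h0 : h • e ≠ e := fun h1 => hhG ((hG h).2 h1)
      have h1 := horth h h0
      calc p * ρ h * p = (p * φ e) * ρ h * (φ e * p) := by rw [hp.left, hp.right]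
        _ = p * φ e * (ρ h * φ e) * p := by simp only [mul_assoc]
        _ = p * (φ (e * (h • e))) * ρ h * p := by
              rw [hcompat, map_mul]; simp only [mul_assoc]
        _ = 0 := by rw [h1]; simp
  · calc φ (∑ x ∈ O, x) * p = φ (∑ x ∈ O, x) * (φ e * p) := by rw [hp.left]
      _ = φ ((∑ x ∈ O, x) * e) * p := by rw [map_mul, mul_assoc]
      _ = p := by rw [hfe, hp.left]
  · calc p * φ (∑ x ∈ O, x) = (p * φ e) * φ (∑ x ∈ O, x) := by rw [hp.right]
      _ = p * φ ((∑ x ∈ O, x) * e) := by rw [mul_comm _ e, map_mul, mul_assoc]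
      _ = p := by rw [hfe, hp.right]

/-- From `HF ρ 1 p` get a direct sum decomposition. -/
theorem HF.isInternal [DecidableEq H] {ρ : H →* Module.End k V} {p : Module.End k V}
    (hf : HF ρ 1 p) :
    DirectSum.IsInternal (fun h : H => (LinearMap.range p).map (ρ h)) := by
  have hpp : p * p = p := by
    have h1 := hf.right
    rw [← hf.sum_eq, Finset.mul_sum, Finset.sum_eq_single (1 : H)] at h1
    · simpa [mul_assoc] using h1
    · intro h _ hh
      rw [← mul_assoc, ← mul_assoc, hf.ortho h hh, zero_mul]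
    · simp
  -- the idempotents
  set q : H → Module.End k V := fun h => ρ h * p * ρ h⁻¹ with hq
  have hqq : ∀ g h, g ≠ h → q g * q h = 0 := by
    intro g h hgh
    have hne : g⁻¹ * h ≠ 1 := fun h1 => hgh (inv_mul_eq_one.1 h1)
    calc q g * q h = ρ g * (p * (ρ g⁻¹ * ρ h) * p) * ρ h⁻¹ := by
          simp only [hq, mul_assoc]
      _ = 0 := by
          rw [← map_mul, hf.ortho _ hne]; simp
  have hqq' : ∀ g, q g * q g = q g := by
    intro g
    calc q g * q g = ρ g * (p * (ρ g⁻¹ * ρ g) * p) * ρ g⁻¹ := by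
          simp only [hq, mul_assoc]
      _ = q g := by
          rw [rho_inv_mul, mul_one, hpp]
  have hW : ∀ h, (LinearMap.range p).map (ρ h) = LinearMap.range (q h) := by
    intro h
    ext x
    simp only [Submodule.mem_map, LinearMap.mem_range, hq]
    constructor
    · rintro ⟨_, ⟨y, rfl⟩, rfl⟩
      refine ⟨ρ h (y), ?_⟩
      have : (ρ h * p * ρ h⁻¹) (ρ h y) = ρ h (p ((ρ h⁻¹ * ρ h) y)) := rfl
      rw [this, rho_inv_mul]
      rfl
    · rintro ⟨y, rfl⟩
      exact ⟨p (ρ h⁻¹ y), ⟨_, rfl⟩, rfl⟩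
  have hsum : ∑ h, q h = 1 := hf.sum_eq
  simp only [hW]
  apply DirectSum.isInternal_submodule_of_iSupIndep_of_iSup_eq_top
  · intro g
    rw [Submodule.disjoint_def]
    intro x hx hx2
    obtain ⟨y, rfl⟩ := LinearMap.mem_range.1 hx
    have hle : (⨆ j, ⨆ (_ : j ≠ g), LinearMap.range (q j)) ≤ LinearMap.ker (q g) := by
      refine iSup₂_le (fun j hj => ?_)
      rintro _ ⟨z, rfl⟩
      rw [LinearMap.mem_ker]
      have := hqq g j (Ne.symm hj)
      exact LinearMap.congr_fun this z
    have h1 := hle hx2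
    rw [LinearMap.mem_ker] at h1
    have h2 : q g (q g y) = q g y := LinearMap.congr_fun (hqq' g) y
    rw [← h2, h1]
  · rw [eq_top_iff]
    rintro x -
    have : x = ∑ h, q h x := by
      have := LinearMap.congr_fun hsum x
      simpa [LinearMap.sum_apply] using this.symm
    rw [this]
    refine Submodule.sum_mem _ (fun h _ => ?_)
    exact Submodule.mem_iSup_of_mem h ⟨x, rfl⟩

end HFsec

end Cfsg.Agent.Lib.LocalEven.FreeGal
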