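/-
Freeness over a group acting on a reduced Artinian ring, and on the group algebra of an
abelian group (helper23).
-/
import Mathlib
import Cfsg.Agent.Lib.LocalEven.FreeGal

set_option autoImplicit false
set_option linter.unusedVariables false
set_option linter.unusedSectionVars false

namespace Cfsg.Agent.Lib.LocalEven.FreeR

open scoped BigOperators
open Cfsg.Agent.Lib.LocalEven.FreeGal

section P2

variable {R : Type*} [CommRing R] [IsArtinianRing R] [IsReduced R]

open Classical in
/-- The primitive idempotent attached to a maximal ideal. -/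
noncomputable def prim (m : MaximalSpectrum R) : R :=
  (IsArtinianRing.equivPi R).symm (Pi.single m 1)

open Classical in
lemma prim_mk (m n : MaximalSpectrum R) :
    Ideal.Quotient.mk n.asIdeal (prim m) = if n = m then 1 else 0 := by
  have h1 : IsArtinianRing.equivPi R (prim m) = Pi.single m 1 := by
    rw [prim, AlgEquiv.apply_symm_apply]
  have h2 := congrFun h1 n
  rw [IsArtinianRing.equivPi_apply] at h2
  rw [show (Ideal.Quotient.mk n.asIdeal (prim m)) = ((prim m : R) : R ⧸ n.asIdeal) from rfl, h2]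
  by_cases h : n = m
  · subst h; simp
  · simp [h]

lemma eq_of_mk {x y : R} (h : ∀ n : MaximalSpectrum R,
    Ideal.Quotient.mk n.asIdeal x = Ideal.Quotient.mk n.asIdeal y) : x = y := by
  apply (IsArtinianRing.equivPi R).injective
  funext n
  rw [IsArtinianRing.equivPi_apply, IsArtinianRing.equivPi_apply]
  exact h n

lemma mk_prim_self (m : MaximalSpectrum R) : Ideal.Quotient.mk m.asIdeal (prim m) = 1 := by
  classical
  rw [prim_mk]; simp

lemma mk_prim_ne {m n : MaximalSpectrum R} (h : n ≠ m) :
    Ideal.Quotient.mk n.asIdeal (prim m) = 0 := by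
  classical
  rw [prim_mk]; simp [h]

lemma prim_mem {m n : MaximalSpectrum R} (h : n ≠ m) : prim m ∈ n.asIdeal :=
  Ideal.Quotient.eq_zero_iff_mem.1 (mk_prim_ne h)

lemma prim_mul_eq_zero_iff (m : MaximalSpectrum R) (x : R) :
    prim m * x = 0 ↔ x ∈ m.asIdeal := by
  constructor
  · intro h
    have := congrArg (Ideal.Quotient.mk m.asIdeal) h
    rw [map_mul, mk_prim_self, one_mul, map_zero] at this
    exact Ideal.Quotient.eq_zero_iff_mem.1 this
  · intro h
    apply eq_of_mk
    intro n
    rw [map_mul, map_zero]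
    by_cases hn : n = m
    · subst hn
      rw [Ideal.Quotient.eq_zero_iff_mem.2 h, mul_zero]
    · rw [mk_prim_ne hn, zero_mul]

lemma prim_idem (m : MaximalSpectrum R) : prim m * prim m = prim m := by
  apply eq_of_mk
  intro n
  rw [map_mul]
  by_cases hn : n = m
  · subst hn
    rw [mk_prim_self, one_mul]
  · rw [mk_prim_ne hn, zero_mul]

lemma prim_orth {m m' : MaximalSpectrum R} (h : m ≠ m') : prim m * prim m' = 0 :=
  (prim_mul_eq_zero_iff m _).2 (prim_mem h)

lemma prim_injective : Function.Injective (prim : MaximalSpectrum R → R) := by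
  intro m n h
  by_contra hne
  have h1 := mk_prim_self m
  rw [h, mk_prim_ne hne] at h1
  haveI := m.isMaximal
  exact zero_ne_one h1

lemma prim_ne_zero (m : MaximalSpectrum R) : prim m ≠ 0 := by
  intro h
  have h1 := mk_prim_self m
  rw [h, map_zero] at h1
  haveI := m.isMaximal
  exact zero_ne_one h1

lemma prim_mul_sub_one (m : MaximalSpectrum R) {x : R} (h : x - 1 ∈ m.asIdeal) :
    prim m * x = prim m := by
  have := (prim_mul_eq_zero_iff m _).2 h
  rw [mul_sub, mul_one, sub_eq_zero] at this
  exact this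

lemma prim_sub_one_mem (m : MaximalSpectrum R) : prim m - 1 ∈ m.asIdeal := by
  rw [← Ideal.Quotient.eq_zero_iff_mem, map_sub, mk_prim_self, map_one, sub_self]

lemma prim_sum [Fintype (MaximalSpectrum R)] : ∑ m : MaximalSpectrum R, prim m = 1 := by
  classical
  apply eq_of_mk
  intro n
  rw [map_sum, map_one]
  simp only [prim_mk]
  simp

/-- Ring automorphisms permute the primitive idempotents. -/
noncomputable def mapMax (f : R ≃+* R) (m : MaximalSpectrum R) : MaximalSpectrum R :=
  ⟨Ideal.comap (f.symm : R →+* R) m.asIdeal, by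
    haveI := m.isMaximal
    exact Ideal.comap_isMaximal_of_surjective _ f.symm.surjective⟩

lemma mem_mapMax (f : R ≃+* R) (m : MaximalSpectrum R) (x : R) :
    x ∈ (mapMax f m).asIdeal ↔ f.symm x ∈ m.asIdeal := Iff.rfl

lemma mapMax_symm (f : R ≃+* R) (m : MaximalSpectrum R) : mapMax f (mapMax f.symm m) = m := by
  apply MaximalSpectrum.ext
  ext x
  rw [mem_mapMax, mem_mapMax]
  simp

lemma map_prim (f : R ≃+* R) (m : MaximalSpectrum R) : f (prim m) = prim (mapMax f m) := by
  apply eq_of_mk
  intro n
  by_cases hn : n = mapMax f m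
  · subst hn
    rw [mk_prim_self]
    rw [← sub_eq_zero, ← map_one (Ideal.Quotient.mk _), ← map_sub, Ideal.Quotient.eq_zero_iff_mem,
      mem_mapMax]
    have : f.symm (f (prim m) - 1) = prim m - 1 := by simp
    rw [this]
    exact prim_sub_one_mem m
  · rw [mk_prim_ne hn]
    have h1 : mapMax f.symm n ≠ m := by
      intro h
      apply hn
      rw [← h, mapMax_symm]
    have h2 := prim_mem h1
    rw [mem_mapMax] at h2
    simp only [RingEquiv.symm_symm] at h2
    exact Ideal.Quotient.eq_zero_iff_mem.2 h2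

end P2

section P2H

variable {k V H R : Type*} [Field k] [AddCommGroup V] [Module k V] [Group H] [Fintype H]
  [CommRing R] [IsArtinianRing R] [IsReduced R] [MulSemiringAction H R]

lemma smul_prim (h : H) (m : MaximalSpectrum R) : ∃ m', h • prim m = prim m' :=
  ⟨mapMax (MulSemiringAction.toRingEquiv H R h) m, map_prim (MulSemiringAction.toRingEquiv H R h) m⟩

lemma mem_iff_smul_of_stab {m : MaximalSpectrum R} {g : H} (hg : g • prim m = prim m) (x : R) :
    g • x ∈ m.asIdeal ↔ x ∈ m.asIdeal := by
  rw [← prim_mul_eq_zero_iff, ← prim_mul_eq_zero_iff]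
  conv_lhs => rw [← hg, ← smul_mul']
  constructor
  · intro h
    have := congrArg (fun y => g⁻¹ • y) h
    simpa using this
  · intro h
    rw [h, smul_zero]

lemma stab_le {m : MaximalSpectrum R} (g : MulAction.stabilizer H (prim m)) :
    m.asIdeal ≤ Ideal.comap (MulSemiringAction.toRingHom H R (g : H)) m.asIdeal := by
  intro y hy
  exact (mem_iff_smul_of_stab (MulAction.mem_stabilizer_iff.1 g.2) y).2 hy

/-- The action of the stabilizer on the residue field. -/
@[reducible] noncomputable def stabAction (m : MaximalSpectrum R) :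
    MulSemiringAction (MulAction.stabilizer H (prim m)) (R ⧸ m.asIdeal) where
  smul g x := Ideal.quotientMap m.asIdeal (MulSemiringAction.toRingHom H R (g : H)) (stab_le g) x
  one_smul x := by
    obtain ⟨y, rfl⟩ := Ideal.Quotient.mk_surjective x
    show Ideal.quotientMap _ _ _ _ = _
    rw [Ideal.quotientMap_mk]
    simp
  mul_smul g g' x := by
    obtain ⟨y, rfl⟩ := Ideal.Quotient.mk_surjective x
    show Ideal.quotientMap _ _ _ _ = Ideal.quotientMap _ _ _ (Ideal.quotientMap _ _ _ _)
    rw [Ideal.quotientMap_mk, Ideal.quotientMap_mk, Ideal.quotientMap_mk]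
    simp [mul_smul]
  smul_zero g := map_zero _
  smul_add g := map_add _
  smul_one g := map_one _
  smul_mul g := map_mul _

lemma stab_smul_mk (m : MaximalSpectrum R) (g : MulAction.stabilizer H (prim m)) (y : R) :
    (stabAction m).toSMul.smul g (Ideal.Quotient.mk m.asIdeal y)
      = Ideal.Quotient.mk m.asIdeal ((g : H) • y) := by
  show Ideal.quotientMap _ _ _ _ = _
  rw [Ideal.quotientMap_mk]
  rfl

end P2H

section P2Main

variable {k V H R : Type*} [Field k] [AddCommGroup V] [Module k V] [Group H] [Fintype H]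
  [CommRing R] [IsArtinianRing R] [IsReduced R] [MulSemiringAction H R]

theorem hf_prim (ρ : H →* Module.End k V) (φ : R →+* Module.End k V)
    (hcompat : ∀ g x, ρ g * φ x = φ (g • x) * ρ g) [DecidableEq R]
    (m : MaximalSpectrum R)
    (hfaith : ∀ g : H, g ≠ 1 → ∃ x : R, g • x - x ∉ m.asIdeal) :
    ∃ p, HF ρ (φ (∑ x ∈ Finset.univ.image (fun h : H => h • prim m), x)) p ∧
      ∀ c : Module.End k V, (∀ x, Commute c (φ x)) → (∀ h, Commute c (ρ h)) → Commute c p := by
  classical
  let G : Subgroup H := MulAction.stabilizer H (prim m)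
  haveI := m.isMaximal
  letI fK : Field (R ⧸ m.asIdeal) := Ideal.Quotient.field m.asIdeal
  letI act : MulSemiringAction G (R ⧸ m.asIdeal) := stabAction m
  have hact : ∀ (g : G) (y : R), g • (Ideal.Quotient.mk m.asIdeal y)
      = Ideal.Quotient.mk m.asIdeal ((g : H) • y) := fun g y => stab_smul_mk m g y
  haveI hfa : FaithfulSMul G (R ⧸ m.asIdeal) := ⟨by
    intro g₁ g₂ h
    by_contra hne
    have hne' : ((g₂⁻¹ * g₁ : G) : H) ≠ 1 := by
      intro h1
      apply hne
      have h2 : g₂⁻¹ * g₁ = 1 := Subtype.ext h1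
      exact (inv_mul_eq_one.1 h2).symm
    obtain ⟨x, hx⟩ := hfaith _ hne'
    apply hx
    rw [← Ideal.Quotient.eq_zero_iff_mem, map_sub, sub_eq_zero, ← hact, mul_smul, h, smul_smul]
    simp⟩
  letI : Fintype G := Fintype.ofFinite G
  obtain ⟨θ', β', hA, hB⟩ := exists_theta_beta (K := R ⧸ m.asIdeal) (G := G)
  obtain ⟨θ₀, rfl⟩ := Ideal.Quotient.mk_surjective θ'
  obtain ⟨β₀, rfl⟩ := Ideal.Quotient.mk_surjective β'
  set e := prim m with he_def
  have heinv : ∀ g : G, (g : H) • e = e := fun g => MulAction.mem_stabilizer_iff.1 g.2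
  have hee : e * e = e := prim_idem m
  let θ := e * θ₀
  let β := e * β₀
  have hmkθ : Ideal.Quotient.mk m.asIdeal θ = Ideal.Quotient.mk m.asIdeal θ₀ := by
    rw [map_mul, mk_prim_self, one_mul]
  have hmkβ : Ideal.Quotient.mk m.asIdeal β = Ideal.Quotient.mk m.asIdeal β₀ := by
    rw [map_mul, mk_prim_self, one_mul]
  have heθ : e * θ = θ := by
    show e * (e * θ₀) = e * θ₀
    rw [← mul_assoc, hee]
  have heβ : e * β = β := by
    show e * (e * β₀) = e * β₀
    rw [← mul_assoc, hee]
  have hecancel : ∀ x y : R, e * x = x → e * y = y →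
      Ideal.Quotient.mk m.asIdeal x = Ideal.Quotient.mk m.asIdeal y → x = y := by
    intro x y hx hy hxy
    have h1 : x - y ∈ m.asIdeal := by
      rw [← Ideal.Quotient.eq_zero_iff_mem, map_sub, hxy, sub_self]
    have h2 := (prim_mul_eq_zero_iff m _).2 h1
    rw [mul_sub, hx, hy, sub_eq_zero] at h2
    exact h2
  have hsm : ∀ (g : G) (x : R), e * x = x → e * ((g : H) • x) = (g : H) • x := by
    intro g x hx
    conv_lhs => rw [← heinv g]
    rw [← smul_mul', hx]
  have hmul_e : ∀ x y : R, e * x = x → e * (x * y) = x * y := by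
    intro x y hx
    rw [← mul_assoc, hx]
  have hA' : ∀ g : G, ∑ h : G, (h • β) * (h • (g • θ)) = if g = 1 then e else 0 := by
    intro g
    apply hecancel
    · rw [Finset.mul_sum]
      refine Finset.sum_congr rfl (fun h _ => ?_)
      exact hmul_e _ _ (hsm h β heβ)
    · split_ifs
      · exact hee
      · simp
    · rw [map_sum]
      have := hA g
      have h2 : ∀ h : G, Ideal.Quotient.mk m.asIdeal ((h • β) * (h • (g • θ)))
          = (h • Ideal.Quotient.mk m.asIdeal β₀) * (h • (g • Ideal.Quotient.mk m.asIdeal θ₀)) := by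
        intro h
        rw [← hmkβ, ← hmkθ, hact, hact, hact, map_mul]
        rfl
      rw [Finset.sum_congr rfl (fun h _ => h2 h), this]
      split_ifs
      · exact (mk_prim_self m).symm
      · simp
  have hB' : ∀ r : G, ∑ g : G, (g • θ) * (r • (g • β)) = if r = 1 then e else 0 := by
    intro g
    apply hecancel
    · rw [Finset.mul_sum]
      refine Finset.sum_congr rfl (fun h _ => ?_)
      exact hmul_e _ _ (hsm h θ heθ)
    · split_ifs
      · exact hee
      · simp
    · rw [map_sum]
      have := hB g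
      have h2 : ∀ h : G, Ideal.Quotient.mk m.asIdeal ((h • θ) * (g • (h • β)))
          = (h • Ideal.Quotient.mk m.asIdeal θ₀) * (g • (h • Ideal.Quotient.mk m.asIdeal β₀)) := by
        intro h
        rw [← hmkβ, ← hmkθ, hact, hact, hact, map_mul]
        rfl
      rw [Finset.sum_congr rfl (fun h _ => h2 h), this]
      split_ifs
      · exact (mk_prim_self m).symm
      · simp
  have hp := hf_of_theta_beta (H := G) (ρ.comp G.subtype) φ (fun g x => hcompat g x) θ β e
    heθ heβ hA' hB'
  refine ⟨_, hf_orbit ρ φ hcompat e hee ?_ G (fun h => MulAction.mem_stabilizer_iff) _ hp, ?_⟩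
  · intro h hne
    obtain ⟨m', hm'⟩ := smul_prim h m
    rw [hm'] at hne ⊢
    apply prim_orth
    intro h1
    apply hne
    rw [← h1]
  · intro c hc1 hc2
    refine ((hc1 θ).mul_right ?_).mul_right (hc1 β)
    exact Commute.sum_right _ _ _ (fun g _ => hc2 g)

theorem hf_invariant (ρ : H →* Module.End k V) (φ : R →+* Module.End k V)
    (hcompat : ∀ g x, ρ g * φ x = φ (g • x) * ρ g)
    (π' : R) (hidem : π' * π' = π') (hfix : ∀ h : H, h • π' = π')
    (hfaith : ∀ m : MaximalSpectrum R, π' ∉ m.asIdeal → ∀ g : H, g ≠ 1 →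
      ∃ x : R, g • x - x ∉ m.asIdeal) :
    ∃ p, HF ρ (φ π') p ∧
      ∀ c : Module.End k V, (∀ x, Commute c (φ x)) → (∀ h, Commute c (ρ h)) → Commute c p := by
  classical
  haveI : Fintype (MaximalSpectrum R) := Fintype.ofFinite _
  have key : ∀ S : Finset R, (∀ x ∈ S, ∃ m : MaximalSpectrum R, x = prim m ∧ π' ∉ m.asIdeal) →
      (∀ h : H, ∀ x ∈ S, h • x ∈ S) →
      ∃ p, HF ρ (φ (∑ x ∈ S, x)) p ∧
        ∀ c : Module.End k V, (∀ x, Commute c (φ x)) → (∀ h, Commute c (ρ h)) → Commute c p := by
    intro S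
    induction S using Finset.strongInduction with
    | H S ih =>
      intro hS1 hS2
      by_cases hS : S = ∅
      · subst hS
        refine ⟨0, ?_, fun c _ _ => Commute.zero_right c⟩
        simpa using HF.zero ρ
      · obtain ⟨x₀, hx₀⟩ := Finset.nonempty_iff_ne_empty.2 hS
        obtain ⟨m, rfl, hm⟩ := hS1 x₀ hx₀
        set O := Finset.univ.image (fun h : H => h • prim m) with hO
        have hOS : O ⊆ S := by
          intro y hy
          rw [hO, Finset.mem_image] at hy
          obtain ⟨h, -, rfl⟩ := hy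
          exact hS2 h _ hx₀
        have hx₀O : prim m ∈ O := by
          rw [hO, Finset.mem_image]
          exact ⟨1, Finset.mem_univ _, one_smul _ _⟩
        have hss : S \ O ⊂ S := by
          refine Finset.sdiff_ssubset hOS ⟨_, hx₀O⟩
        obtain ⟨p₁, hp₁, hc₁⟩ := ih _ hss
          (fun x hx => hS1 x (Finset.sdiff_subset hx))
          (by
            intro h x hx
            rw [Finset.mem_sdiff] at hx ⊢
            refine ⟨hS2 h x hx.1, fun hmem => hx.2 ?_⟩
            rw [hO, Finset.mem_image] at hmem ⊢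
            obtain ⟨h', -, h1⟩ := hmem
            refine ⟨h⁻¹ * h', Finset.mem_univ _, ?_⟩
            rw [mul_smul, h1, inv_smul_smul])
        obtain ⟨p₂, hp₂, hc₂⟩ := hf_prim ρ φ hcompat m (hfaith m hm)
        have horth1 : (∑ x ∈ S \ O, x) * (∑ y ∈ O, y) = 0 := by
          rw [Finset.sum_mul_sum]
          refine Finset.sum_eq_zero (fun x hx => Finset.sum_eq_zero (fun y hy => ?_))
          rw [Finset.mem_sdiff] at hx
          obtain ⟨m₁, rfl, -⟩ := hS1 x hx.1
          obtain ⟨m₂, rfl, -⟩ := hS1 y (hOS hy)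
          apply prim_orth
          intro h1
          apply hx.2
          rw [h1]
          exact hy
        have hadd := hp₁.add hp₂ (by rw [← map_mul, horth1, map_zero])
          (by rw [← map_mul, mul_comm, horth1, map_zero])
        rw [← map_add, Finset.sum_sdiff hOS] at hadd
        exact ⟨_, hadd, fun c h1 h2 => (hc₁ c h1 h2).add_right (hc₂ c h1 h2)⟩
  have hmemsmul : ∀ (h : H) (m m' : MaximalSpectrum R), h • prim m = prim m' → π' ∉ m.asIdeal →
      π' ∉ m'.asIdeal := by
    intro h m m' hmm hm hm'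
    apply hm
    rw [← prim_mul_eq_zero_iff] at hm' ⊢
    rw [← hmm, ← hfix h, ← smul_mul'] at hm'
    have := congrArg (fun y => h⁻¹ • y) hm'
    simpa using this
  obtain ⟨p, hp, hc⟩ := key ((Finset.univ.filter (fun m : MaximalSpectrum R => π' ∉ m.asIdeal)).image prim)
    (by
      intro x hx
      rw [Finset.mem_image] at hx
      obtain ⟨m, hm, rfl⟩ := hx
      exact ⟨m, rfl, (Finset.mem_filter.1 hm).2⟩)
    (by
      intro h x hx
      rw [Finset.mem_image] at hx ⊢
      obtain ⟨m, hm, rfl⟩ := hx
      obtain ⟨m', hm'⟩ := smul_prim h m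
      refine ⟨m', ?_, hm'.symm⟩
      rw [Finset.mem_filter]
      exact ⟨Finset.mem_univ _, hmemsmul h m m' hm' (Finset.mem_filter.1 hm).2⟩)
  have hsum : ∑ x ∈ (Finset.univ.filter (fun m : MaximalSpectrum R => π' ∉ m.asIdeal)).image prim, x = π' := by
    rw [Finset.sum_image (fun a _ b _ hab => prim_injective hab)]
    conv_rhs => rw [← mul_one π', ← prim_sum, Finset.mul_sum]
    rw [Finset.sum_filter]
    refine Finset.sum_congr rfl (fun m _ => ?_)
    by_cases hm : π' ∈ m.asIdeal
    · simp only [hm, not_true_eq_false, if_false]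
      rw [mul_comm, (prim_mul_eq_zero_iff m π').2 hm]
    · simp only [hm, not_false_eq_true, if_true]
      haveI := m.isMaximal
      have h1 : π' - 1 ∈ m.asIdeal := by
        have h2 : π' * (π' - 1) ∈ m.asIdeal := by
          rw [mul_sub, mul_one, hidem, sub_self]
          exact Ideal.zero_mem _
        exact (m.isMaximal.isPrime.mem_or_mem h2).resolve_left hm
      rw [mul_comm, prim_mul_sub_one m h1]
  rw [hsum] at hp
  exact ⟨p, hp, hc⟩

end P2Main

section P3

open MonoidAlgebra

variable {k V H E : Type*} [Field k] [AddCommGroup V] [Module k V] [Group H] [Fintype H]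
  [CommGroup E] [Fintype E]

theorem hf_group_algebra (hE : (Nat.card E : k) ≠ 0) (α : H →* MulAut E)
    (hα : ∀ h : H, h ≠ 1 → ∀ x : E, α h x = x → x = 1)
    (ρ : H →* Module.End k V) (ρE : E →* Module.End k V)
    (hcompat : ∀ h x, ρ h * ρE x = ρE (α h x) * ρ h) :
    ∃ p, HF ρ (1 - ((Nat.card E : k)⁻¹ • ∑ x : E, ρE x)) p ∧
      ∀ c : Module.End k V, (∀ x, Commute c (ρE x)) → (∀ h, Commute c (ρ h)) → Commute c p := by
  classical
  haveI : NeZero (Nat.card E : k) := ⟨hE⟩
  haveI : IsArtinianRing (MonoidAlgebra k E) := IsArtinianRing.of_finite k _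
  haveI : IsReduced (MonoidAlgebra k E) := inferInstance
  letI act : MulSemiringAction H (MonoidAlgebra k E) :=
    MulSemiringAction.compHom (MonoidAlgebra k E)
      ((MonoidAlgebra.domCongrAut (R := k) (A := k) (M := E)).comp α)
  have hsm : ∀ (h : H) (x : MonoidAlgebra k E), h • x = MonoidAlgebra.domCongr k k (α h) x :=
    fun _ _ => rfl
  have hsingle : ∀ (h : H) (x : E) (c : k), h • (single x c : MonoidAlgebra k E) = single (α h x) c := by
    intro h x c
    rw [hsm, domCongr_single]
  let φa : MonoidAlgebra k E →ₐ[k] Module.End k V := MonoidAlgebra.lift k (Module.End k V) E ρE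
  let φ : MonoidAlgebra k E →+* Module.End k V := φa.toRingHom
  have hφ : ∀ x, φ x = φa x := fun _ => rfl
  have hφs : ∀ (x : E) (c : k), φ (single x c) = c • ρE x := by
    intro x c
    rw [hφ]
    exact MonoidAlgebra.lift_single _ _ _
  have hsm_smul : ∀ (h : H) (c : k) (x : MonoidAlgebra k E), h • (c • x) = c • (h • x) := by
    intro h c x
    rw [hsm, hsm, map_smul]
  have hcompat' : ∀ g x, ρ g * φ x = φ (g • x) * ρ g := by
    intro g x
    induction x using MonoidAlgebra.induction_on with
    | of a =>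
      have e1 : (of k E a : MonoidAlgebra k E) = single a 1 := rfl
      rw [e1, hsingle, hφs, hφs, one_smul, one_smul]
      exact hcompat g a
    | add x y hx hy =>
      rw [map_add, mul_add, hx, hy, smul_add, map_add, add_mul]
    | smul c x hx =>
      rw [hsm_smul, hφ, map_smul, ← hφ, hφ (c • (g • x)), map_smul, ← hφ, mul_smul_comm, hx,
        smul_mul_assoc]
  have hcard : (Nat.card E : k)⁻¹ * (Nat.card E : k) = 1 := inv_mul_cancel₀ hE
  set σ : MonoidAlgebra k E := ∑ x : E, single x 1 with hσ
  set π_R : MonoidAlgebra k E := (Nat.card E : k)⁻¹ • σ with hπ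
  have hsσ : ∀ y : E, single y 1 * σ = σ := by
    intro y
    rw [hσ, Finset.mul_sum]
    refine Fintype.sum_equiv (Equiv.mulLeft y) _ _ (fun x => ?_)
    rw [single_mul_single, one_mul]
    rfl
  have hσσ : σ * σ = (Nat.card E : k) • σ := by
    calc σ * σ = ∑ x : E, single x 1 * σ := by rw [hσ, Finset.sum_mul]
      _ = ∑ x : E, σ := Finset.sum_congr rfl (fun x _ => hsσ x)
      _ = (Nat.card E : k) • σ := by
          rw [Finset.sum_const, Finset.card_univ, Nat.card_eq_fintype_card, Nat.cast_smul_eq_nsmul]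
  have hππ : π_R * π_R = π_R := by
    rw [hπ, smul_mul_smul_comm, hσσ, smul_smul, mul_assoc, hcard, mul_one]
  have hidem : (1 - π_R) * (1 - π_R) = 1 - π_R := by
    rw [mul_sub, sub_mul, sub_mul, one_mul, one_mul, mul_one, hππ]
    abel
  have hσfix : ∀ h : H, h • σ = σ := by
    intro h
    rw [hσ, Finset.smul_sum]
    refine Fintype.sum_equiv (α h).toEquiv _ _ (fun x => ?_)
    rw [hsingle]
    rfl
  have hfix : ∀ h : H, h • (1 - π_R) = 1 - π_R := by
    intro h
    rw [smul_sub, smul_one, hπ, hsm_smul, hσfix]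
  have hfaith : ∀ m : MaximalSpectrum (MonoidAlgebra k E), (1 - π_R) ∉ m.asIdeal → ∀ g : H, g ≠ 1 →
      ∃ x : MonoidAlgebra k E, g • x - x ∉ m.asIdeal := by
    intro m hm g hg
    by_contra hcon
    push Not at hcon
    have h1 : ∀ y : E, (single (y⁻¹ * α g y) 1 : MonoidAlgebra k E) - 1 ∈ m.asIdeal := by
      intro y
      have h2 := hcon (single y 1)
      rw [hsingle] at h2
      have h3 := Ideal.mul_mem_left m.asIdeal (single y⁻¹ 1 : MonoidAlgebra k E) h2
      rw [mul_sub, single_mul_single, single_mul_single, one_mul, inv_mul_cancel] at h3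
      exact h3
    have hinj : Function.Injective (fun y : E => y⁻¹ * α g y) := by
      intro y z hyz
      have hyz' : y⁻¹ * α g y = z⁻¹ * α g z := hyz
      have h4 : α g (y * z⁻¹) = y * z⁻¹ := by
        rw [map_mul, map_inv]
        have h5 : α g y = y * (z⁻¹ * α g z) := by
          rw [← hyz']; simp
        rw [h5]
        have h6 : y * (z⁻¹ * (α g) z) * ((α g) z)⁻¹ = y * z⁻¹ := by
          rw [mul_assoc, mul_assoc, mul_inv_cancel, mul_one]
        exact h6
      have h7 := hα g hg _ h4
      exact mul_inv_eq_one.1 h7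
    have hsurj := Finite.injective_iff_surjective.1 hinj
    have h2 : ∀ z : E, (single z 1 : MonoidAlgebra k E) - 1 ∈ m.asIdeal := by
      intro z
      obtain ⟨y, rfl⟩ := hsurj z
      exact h1 y
    apply hm
    have h3 : 1 - π_R = -((Nat.card E : k)⁻¹ • ∑ z : E, ((single z 1 : MonoidAlgebra k E) - 1)) := by
      rw [Finset.sum_sub_distrib, smul_sub, neg_sub, hπ]
      congr 1
      rw [Finset.sum_const, Finset.card_univ, ← Nat.cast_smul_eq_nsmul k, ← Nat.card_eq_fintype_card,
        smul_smul, hcard, one_smul]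
    rw [h3]
    refine neg_mem (Submodule.smul_of_tower_mem _ _ (Submodule.sum_mem _ (fun z _ => h2 z)))
  obtain ⟨p, hp, hc⟩ := hf_invariant ρ φ hcompat' (1 - π_R) hidem hfix hfaith
  have hφπ : φ (1 - π_R) = 1 - ((Nat.card E : k)⁻¹ • ∑ x : E, ρE x) := by
    rw [map_sub, map_one, hφ π_R, hπ, map_smul, hσ, map_sum]
    congr 2
    refine Finset.sum_congr rfl (fun x _ => ?_)
    rw [← hφ, hφs, one_smul]
  rw [hφπ] at hp
  refine ⟨p, hp, fun c hc1 hc2 => hc c ?_ hc2⟩
  intro x
  induction x using MonoidAlgebra.induction_on with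
  | of a =>
    have e1 : (of k E a : MonoidAlgebra k E) = single a 1 := rfl
    rw [e1, hφs, one_smul]
    exact hc1 a
  | add x y hx hy =>
    rw [map_add]
    exact hx.add_right hy
  | smul r x hx =>
    rw [hφ, map_smul, ← hφ]
    exact hx.smul_right r

end P3

end Cfsg.Agent.Lib.LocalEven.FreeR
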