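/-
Freeness of modules over a group acting fixed-point-freely on a nilpotent group (helper23).
-/
import Mathlib
import Cfsg.Agent.Lib.LocalEven.FreeR
import Cfsg.Agent.Lib.Basic.Nilpotent
import Cfsg.Prelude.Def_Solvable

set_option autoImplicit false
set_option linter.unusedVariables false
set_option linter.unusedSectionVars false

namespace Cfsg.Agent.Lib.LocalEven.FreeT

open scoped BigOperators
open Cfsg.Agent.Lib.LocalEven.FreeGal Cfsg.Agent.Lib.LocalEven.FreeR Subgroup

universe u

variable {k V H : Type*} [Field k] [AddCommGroup V] [Module k V] [Group H]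

section Aut

variable {N : Type*} [Group N]

lemma aut_inv_apply (α : H →* MulAut N) (h : H) (x : N) : α h⁻¹ (α h x) = x := by
  rw [← MulAut.mul_apply, ← map_mul, inv_mul_cancel, map_one, MulAut.one_apply]

lemma aut_apply_inv (α : H →* MulAut N) (h : H) (x : N) : α h (α h⁻¹ x) = x := by
  rw [← MulAut.mul_apply, ← map_mul, mul_inv_cancel, map_one, MulAut.one_apply]

/-- Restriction of automorphisms to an invariant subgroup. -/
noncomputable def autRestrict (α : H →* MulAut N) (E : Subgroup N)
    (hE : ∀ h, ∀ x ∈ E, α h x ∈ E) : H →* MulAut E where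
  toFun h :=
    { toFun := fun x => ⟨α h (x : N), hE h x x.2⟩
      invFun := fun x => ⟨α h⁻¹ (x : N), hE h⁻¹ x x.2⟩
      left_inv := fun x => Subtype.ext (aut_inv_apply α h x)
      right_inv := fun x => Subtype.ext (aut_apply_inv α h x)
      map_mul' := fun x y => Subtype.ext (map_mul (α h) (x : N) (y : N)) }
  map_one' := by
    ext x
    show α 1 (x : N) = x
    rw [map_one, MulAut.one_apply]
  map_mul' g h := by
    ext x
    show α (g * h) (x : N) = α g (α h x)
    rw [map_mul, MulAut.mul_apply]

/-- Automorphisms of the quotient by an invariant normal subgroup. -/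
noncomputable def autQuot (α : H →* MulAut N) (E : Subgroup N) [E.Normal]
    (hE : ∀ h, ∀ x ∈ E, α h x ∈ E) : H →* MulAut (N ⧸ E) where
  toFun h :=
    { toFun := QuotientGroup.map E E (α h).toMonoidHom (fun x hx => hE h x hx)
      invFun := QuotientGroup.map E E (α h⁻¹).toMonoidHom (fun x hx => hE h⁻¹ x hx)
      left_inv := by
        intro x
        induction x using QuotientGroup.induction_on with
        | H x =>
          show ((α h⁻¹ (α h x) : N) : N ⧸ E) = x
          rw [aut_inv_apply]
      right_inv := by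
        intro x
        induction x using QuotientGroup.induction_on with
        | H x =>
          show ((α h (α h⁻¹ x) : N) : N ⧸ E) = x
          rw [aut_apply_inv]
      map_mul' := map_mul _ }
  map_one' := by
    ext x
    induction x using QuotientGroup.induction_on with
    | H x =>
      show ((α 1 x : N) : N ⧸ E) = x
      rw [map_one, MulAut.one_apply]
  map_mul' g h := by
    ext x
    induction x using QuotientGroup.induction_on with
    | H x =>
      show ((α (g * h) x : N) : N ⧸ E) = ((α g (α h x) : N) : N ⧸ E)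
      rw [map_mul, MulAut.mul_apply]

lemma autQuot_mk (α : H →* MulAut N) (E : Subgroup N) [E.Normal]
    (hE : ∀ h, ∀ x ∈ E, α h x ∈ E) (h : H) (x : N) :
    autQuot α E hE h (x : N ⧸ E) = ((α h x : N) : N ⧸ E) := rfl

end Aut

theorem descent [Fintype H] {N : Type*} [Group N] [Finite N]
    (α : H →* MulAut N) (hα : ∀ h : H, h ≠ 1 → ∀ x : N, α h x = x → x = 1)
    (ρH : H →* Module.End k V) (ρN : N →* Module.End k V)
    (hcomp : ∀ h x, ρH h * ρN x = ρN (α h x) * ρH h)
    (ε : Module.End k V) (hεε : ε * ε = ε)
    (hεN : ∀ x, Commute ε (ρN x)) (hεH : ∀ h, Commute ε (ρH h))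
    (hfix : ∀ v, (∀ x, ρN x v = v) → ε v = v → v = 0)
    (E : Subgroup N) [E.Normal] (hEc : E ≤ center N) (hEα : ∀ h, ∀ x ∈ E, α h x ∈ E)
    (hE0 : (Nat.card E : k) ≠ 0)
    (IH : ∀ (αQ : H →* MulAut (N ⧸ E)) (hαQ : ∀ h : H, h ≠ 1 → ∀ x, αQ h x = x → x = 1)
      (ρQ : N ⧸ E →* Module.End k V) (hcompQ : ∀ h x, ρH h * ρQ x = ρQ (αQ h x) * ρH h)
      (ε' : Module.End k V) (hεε' : ε' * ε' = ε') (hεN' : ∀ x, Commute ε' (ρQ x))
      (hεH' : ∀ h, Commute ε' (ρH h))
      (hfix' : ∀ v, (∀ x, ρQ x v = v) → ε' v = v → v = 0), ∃ p, HF ρH ε' p) :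
    ∃ p, HF ρH ε p := by
  classical
  letI fE : Fintype E := Fintype.ofFinite E
  letI cE : CommGroup E := { (inferInstance : Group E) with
    mul_comm := fun x y => Subtype.ext ((mem_center_iff.1 (hEc y.2) x.1)) }
  let αE : H →* MulAut E := autRestrict α E hEα
  have hαE : ∀ h : H, h ≠ 1 → ∀ x : E, αE h x = x → x = 1 := by
    intro h hh x hx
    exact Subtype.ext (hα h hh x (congrArg Subtype.val hx))
  let ρE : E →* Module.End k V := ρN.comp E.subtype
  have hcompE : ∀ h x, ρH h * ρE x = ρE (αE h x) * ρH h := fun h x => hcomp h x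
  obtain ⟨p₁, hp₁, hc₁⟩ := hf_group_algebra hE0 αE hαE ρH ρE hcompE
  set σ := ∑ x : E, ρE x with hσ
  set π := (Nat.card E : k)⁻¹ • σ with hπ
  have hcard : (Nat.card E : k)⁻¹ * (Nat.card E : k) = 1 := inv_mul_cancel₀ hE0
  have hyσ : ∀ y : E, ρE y * σ = σ := by
    intro y
    rw [hσ, Finset.mul_sum]
    refine Fintype.sum_equiv (Equiv.mulLeft y) _ _ (fun x => ?_)
    rw [← map_mul]
    rfl
  have hyπ : ∀ y : E, ρE y * π = π := by
    intro y
    rw [hπ, mul_smul_comm, hyσ]
  have hσσ : σ * σ = (Nat.card E : k) • σ := by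
    calc σ * σ = ∑ x : E, ρE x * σ := by rw [hσ, Finset.sum_mul]
      _ = ∑ x : E, σ := Finset.sum_congr rfl (fun x _ => hyσ x)
      _ = (Nat.card E : k) • σ := by
          rw [Finset.sum_const, Finset.card_univ, Nat.card_eq_fintype_card, Nat.cast_smul_eq_nsmul]
  have hππ : π * π = π := by
    rw [hπ, smul_mul_smul_comm, hσσ, smul_smul, mul_assoc, hcard, mul_one]
  have hcomE : ∀ x : N, ∀ y : E, Commute (ρN x) (ρE y) := by
    intro x y
    show ρN x * ρN y = ρN y * ρN x
    rw [← map_mul, ← map_mul, (mem_center_iff.1 (hEc y.2) x)]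
  have hπN : ∀ x : N, Commute π (ρN x) := by
    intro x
    have : Commute (ρN x) π := by
      rw [hπ]
      exact (Commute.sum_right _ _ _ (fun y _ => hcomE x y)).smul_right ((Nat.card E : k)⁻¹)
    exact this.symm
  have hπH : ∀ h, Commute π (ρH h) := by
    intro h
    have h1 : ρH h * σ = σ * ρH h := by
      rw [hσ, Finset.mul_sum, Finset.sum_mul]
      refine Fintype.sum_equiv (αE h).toEquiv _ _ (fun x => ?_)
      exact hcompE h x
    show π * ρH h = ρH h * π
    rw [hπ, smul_mul_assoc, mul_smul_comm, h1]
  have hεπ : Commute ε π := by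
    have hεσ : Commute ε σ := by
      rw [hσ]
      exact Commute.sum_right _ _ _ (fun y _ => hεN (y : N))
    rw [hπ]
    exact hεσ.smul_right ((Nat.card E : k)⁻¹)
  have hp₁' := hp₁.mul_central hεε (hc₁ ε (fun x => hεN x) hεH) hεH
  -- the quotient
  have a2 : π * (1 - π) = 0 := by rw [mul_sub, mul_one, hππ, sub_self]
  have a4 : (1 - π) * (1 - π) = 1 - π := by rw [sub_mul, one_mul, a2, sub_zero]
  let ρt : N →* Module.End k V :=
    { toFun := fun x => ρN x * π + (1 - π)
      map_one' := by
        rw [map_one, one_mul]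
        abel
      map_mul' := by
        intro x y
        have a1 : π * (ρN y * π) = ρN y * π := by
          rw [← mul_assoc, (hπN y).eq, mul_assoc, hππ]
        have a3 : (1 - π) * (ρN y * π) = 0 := by rw [sub_mul, one_mul, a1, sub_self]
        simp only [map_mul, add_mul, mul_add, mul_assoc, a1, a2, a3, a4, mul_zero, add_zero,
          zero_add] }
  have hρt : ∀ x, ρt x = ρN x * π + (1 - π) := fun _ => rfl
  have hker : E ≤ ρt.ker := by
    intro x hx
    rw [MonoidHom.mem_ker, hρt]
    have := hyπ ⟨x, hx⟩
    have e1 : ρN x * π = π := this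
    rw [e1]
    abel
  let ρQ : N ⧸ E →* Module.End k V := QuotientGroup.lift E ρt hker
  have hρQ : ∀ x : N, ρQ (x : N ⧸ E) = ρN x * π + (1 - π) := fun _ => rfl
  let αQ : H →* MulAut (N ⧸ E) := autQuot α E hEα
  have hαQ : ∀ h : H, h ≠ 1 → ∀ x, αQ h x = x → x = 1 := by
    intro h hh xb hx
    induction xb using QuotientGroup.induction_on with
    | H x =>
      have h1 : ((α h x : N) : N ⧸ E) = (x : N ⧸ E) := hx
      rw [eq_comm, QuotientGroup.eq] at h1
      -- `z = x⁻¹ * α h x`
      have hinj : Function.Injective (fun y : E => y * (αE h y)⁻¹) := by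
        intro y w hyw
        have hyw' : y * (αE h y)⁻¹ = w * (αE h w)⁻¹ := hyw
        have h2 : αE h (w⁻¹ * y) = w⁻¹ * y := by
          rw [map_mul, map_inv]
          have h3 : y = w * (αE h w)⁻¹ * αE h y := by
            rw [← hyw']; simp
          conv_rhs => rw [h3]
          rw [mul_assoc, inv_mul_cancel_left]
        have h4 := hαE h hh _ h2
        have h5 : y = w := by
          rw [inv_mul_eq_one] at h4
          exact h4.symm
        exact h5
      have hsurj := Finite.injective_iff_surjective.1 hinj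
      obtain ⟨y, hy⟩ := hsurj ⟨_, h1⟩
      have hy' : (y : N) * (α h y)⁻¹ = x⁻¹ * α h x := congrArg Subtype.val hy
      have h6 : α h (x * y) = x * y := by
        rw [map_mul]
        have h7 : α h x = x * ((y : N) * (α h y)⁻¹) := by
          rw [hy']; simp
        rw [h7]
        simp [mul_assoc]
      have h8 := hα h hh _ h6
      rw [QuotientGroup.eq_one_iff]
      have h9 : x = (y : N)⁻¹ := eq_inv_of_mul_eq_one_left h8
      rw [h9]
      exact E.inv_mem y.2
  have hcompQ : ∀ h x, ρH h * ρQ x = ρQ (αQ h x) * ρH h := by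
    intro h xb
    induction xb using QuotientGroup.induction_on with
    | H x =>
      show ρH h * ρQ (x : N ⧸ E) = ρQ ((α h x : N) : N ⧸ E) * ρH h
      rw [hρQ, hρQ]
      rw [mul_add, add_mul, mul_sub, sub_mul, mul_one, one_mul, ← mul_assoc, hcomp, mul_assoc,
        (hπH h).eq.symm, mul_assoc]
  have hp₂ := IH αQ hαQ ρQ hcompQ (ε * π)
    (by
      calc ε * π * (ε * π) = ε * (π * ε) * π := by simp only [mul_assoc]
        _ = ε * (ε * π) * π := by rw [hεπ.eq]
        _ = (ε * ε) * (π * π) := by simp only [mul_assoc]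
        _ = ε * π := by rw [hεε, hππ])
    (by
      intro xb
      induction xb using QuotientGroup.induction_on with
      | H x =>
        rw [hρQ]
        have c1 : Commute ε (ρN x * π + (1 - π)) :=
          ((hεN x).mul_right hεπ).add_right ((Commute.one_right ε).sub_right hεπ)
        have c2 : Commute π (ρN x * π + (1 - π)) :=
          ((hπN x).mul_right (Commute.refl π)).add_right
            ((Commute.one_right π).sub_right (Commute.refl π))
        exact c1.mul_left c2)
    (fun h => (hεH h).mul_left (hπH h))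
    (by
      intro v hv1 hv2
      have hv3 : π v = v := by
        have : (π * (ε * π)) v = π v := by
          show π ((ε * π) v) = π v
          rw [hv2]
        have e1 : π * (ε * π) = ε * π := by
          rw [← mul_assoc, ← hεπ.eq, mul_assoc, hππ]
        rw [e1, hv2] at this
        exact this.symm
      have hv4 : ε v = v := by
        have : (ε * (ε * π)) v = ε v := by
          show ε ((ε * π) v) = ε v
          rw [hv2]
        rw [← mul_assoc, hεε, hv2] at this
        exact this.symm
      refine hfix v (fun x => ?_) hv4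
      have h1 := hv1 (x : N ⧸ E)
      rw [hρQ] at h1
      have e2 : (ρN x * π + (1 - π)) v = ρN x (π v) + (v - π v) := rfl
      rw [e2, hv3, sub_self, add_zero] at h1
      exact h1)
  obtain ⟨p₂, hp₂⟩ := hp₂
  have h12 : ε * (1 - π) * (ε * π) = 0 := by
    calc ε * (1 - π) * (ε * π) = ε * ((1 - π) * ε) * π := by simp only [mul_assoc]
      _ = ε * (ε * (1 - π)) * π := by rw [((Commute.one_right ε).sub_right hεπ).eq]
      _ = (ε * ε) * ((1 - π) * π) := by simp only [mul_assoc]
      _ = 0 := by
          rw [sub_mul, one_mul, hππ, sub_self, mul_zero]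
  have h21 : ε * π * (ε * (1 - π)) = 0 := by
    calc ε * π * (ε * (1 - π)) = ε * (π * ε) * (1 - π) := by simp only [mul_assoc]
      _ = ε * (ε * π) * (1 - π) := by rw [hεπ.eq]
      _ = (ε * ε) * (π * (1 - π)) := by simp only [mul_assoc]
      _ = 0 := by rw [a2, mul_zero]
  have hadd := hp₁'.add hp₂ h12 h21
  have hsum : ε * (1 - π) + ε * π = ε := by
    rw [← mul_add]
    simp
  rw [hsum] at hadd
  exact ⟨_, hadd⟩

theorem exists_fixed_of_pgroup {p : ℕ} [hp : Fact p.Prime] (hpk : (p : k) = 0)
    {N : Type*} [Group N] [Finite N] (hN : IsPGroup p N) (ρN : N →* Module.End k V)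
    (v₀ : V) (hv₀ : v₀ ≠ 0) :
    ∃ v ∈ AddSubgroup.closure (Set.range (fun x : N => ρN x v₀)), v ≠ 0 ∧ ∀ x, ρN x v = v := by
  classical
  set A := AddSubgroup.closure (Set.range (fun x : N => ρN x v₀)) with hA
  have hpv : ∀ v : V, p • v = 0 := by
    intro v
    rw [← Nat.cast_smul_eq_nsmul k, hpk, zero_smul]
  haveI hfg : AddGroup.FG A := by
    rw [AddGroup.fg_iff_addSubgroup_fg]
    exact ⟨(Set.finite_range (fun x : N => ρN x v₀)).toFinset, by simp [hA]⟩
  haveI hfin : Finite A := by
    refine AddCommGroup.finite_of_fg_isAddTorsion A ?_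
    intro a
    rw [isOfFinAddOrder_iff_nsmul_eq_zero]
    exact ⟨p, hp.out.pos, Subtype.ext (hpv a)⟩
  have hmap : ∀ (x : N), ∀ a ∈ A, ρN x a ∈ A := by
    intro x a ha
    induction ha using AddSubgroup.closure_induction with
    | mem a ha =>
      obtain ⟨y, rfl⟩ := ha
      refine AddSubgroup.subset_closure ⟨x * y, ?_⟩
      show ρN (x * y) v₀ = ρN x (ρN y v₀)
      rw [map_mul]
      rfl
    | zero => rw [map_zero]; exact A.zero_mem
    | add a b _ _ ha hb => rw [map_add]; exact A.add_mem ha hb
    | neg a _ ha => rw [map_neg]; exact A.neg_mem ha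
  letI act : MulAction N A :=
    { smul := fun x a => ⟨ρN x a, hmap x a a.2⟩
      one_smul := fun a => Subtype.ext (by
        show ρN 1 (a : V) = a
        rw [map_one]; rfl)
      mul_smul := fun x y a => Subtype.ext (by
        show ρN (x * y) (a : V) = ρN x (ρN y a)
        rw [map_mul]; rfl) }
  have h1 := hN.card_modEq_card_fixedPoints A
  have hv₀A : v₀ ∈ A := by
    refine AddSubgroup.subset_closure ⟨1, ?_⟩
    show ρN 1 v₀ = v₀
    rw [map_one]; rfl
  have h2 : p ∣ Nat.card A := by
    have h3 : addOrderOf (⟨v₀, hv₀A⟩ : A) = p :=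
      addOrderOf_eq_prime (Subtype.ext (hpv v₀)) (fun h => hv₀ (congrArg Subtype.val h))
    rw [← h3]
    exact addOrderOf_dvd_natCard _
  have h4 : p ∣ Nat.card (MulAction.fixedPoints N A) :=
    (Nat.ModEq.dvd_iff h1 (dvd_refl p)).1 h2
  have h0fix : (0 : A) ∈ MulAction.fixedPoints N A := by
    intro x
    exact Subtype.ext (map_zero (ρN x))
  by_contra hcon
  push Not at hcon
  have h5 : Nat.card (MulAction.fixedPoints N A) = 1 := by
    rw [Nat.card_eq_one_iff_unique]
    refine ⟨⟨?_⟩, ⟨⟨0, h0fix⟩⟩⟩
    have h6 : ∀ a : MulAction.fixedPoints N A, a = ⟨0, h0fix⟩ := by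
      intro a
      apply Subtype.ext
      apply Subtype.ext
      by_contra hne
      obtain ⟨x, hx⟩ := hcon (a : A) (a : A).2 hne
      apply hx
      have := a.2 x
      exact congrArg Subtype.val this
    intro a b
    rw [h6 a, h6 b]
  rw [h5] at h4
  exact hp.out.not_dvd_one h4

theorem exists_hf [Fintype H] (ρH : H →* Module.End k V) :
    ∀ (n : ℕ) (N : Type u) [Group N] [Finite N] [Group.IsNilpotent N], Nat.card N = n →
    ∀ (α : H →* MulAut N) (hα : ∀ h : H, h ≠ 1 → ∀ x : N, α h x = x → x = 1)
      (ρN : N →* Module.End k V)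
      (hcomp : ∀ h x, ρH h * ρN x = ρN (α h x) * ρH h)
      (ε : Module.End k V) (hεε : ε * ε = ε)
      (hεN : ∀ x, Commute ε (ρN x)) (hεH : ∀ h, Commute ε (ρH h))
      (hfix : ∀ v, (∀ x, ρN x v = v) → ε v = v → v = 0),
      ∃ p, HF ρH ε p := by
  intro n
  induction n using Nat.strong_induction_on with
  | _ n ih =>
    intro N _ _ _ hn α hα ρN hcomp ε hεε hεN hεH hfix
    by_cases hZ : ∃ r : ℕ, r.Prime ∧ r ∣ Nat.card (center N) ∧ (r : k) ≠ 0
    · obtain ⟨r, hr, hrZ, hrk⟩ := hZ
      haveI : Fact r.Prime := ⟨hr⟩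
      let E : Subgroup N :=
        { carrier := {x | x ∈ center N ∧ x ^ r = 1}
          mul_mem' := by
            rintro x y ⟨hx, hx'⟩ ⟨hy, hy'⟩
            refine ⟨mul_mem hx hy, ?_⟩
            have : Commute x y := (mem_center_iff.1 hx y).symm
            rw [this.mul_pow, hx', hy', one_mul]
          one_mem' := ⟨one_mem _, one_pow _⟩
          inv_mem' := by
            rintro x ⟨hx, hx'⟩
            exact ⟨inv_mem hx, by rw [inv_pow, hx', inv_one]⟩ }
      have hEmem : ∀ x, x ∈ E ↔ x ∈ center N ∧ x ^ r = 1 := fun x => Iff.rfl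
      have hEc : E ≤ center N := fun x hx => hx.1
      haveI hEn : E.Normal := ⟨by
        intro x hx g
        rw [mem_center_iff.1 (hEc hx) g, mul_inv_cancel_right]
        exact hx⟩
      have hEα : ∀ h, ∀ x ∈ E, α h x ∈ E := by
        intro h x hx
        refine ⟨?_, ?_⟩
        · rw [mem_center_iff]
          intro g
          have h1 := mem_center_iff.1 hx.1 (α h⁻¹ g)
          have h2 := congrArg (α h) h1
          rw [map_mul, map_mul, aut_apply_inv] at h2
          exact h2
        · rw [← map_pow, hx.2, map_one]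
      have hE0 : (Nat.card E : k) ≠ 0 := by
        have hpg : IsPGroup r E := by
          intro x
          refine ⟨1, Subtype.ext ?_⟩
          rw [pow_one]
          exact x.2.2
        obtain ⟨m, hm⟩ := IsPGroup.iff_card.1 hpg
        rw [hm, Nat.cast_pow]
        exact pow_ne_zero _ hrk
      have hEne : E ≠ ⊥ := by
        obtain ⟨z, hz⟩ := exists_prime_orderOf_dvd_card' r hrZ
        intro hbot
        have hzE : (z : N) ∈ E := by
          refine ⟨z.2, ?_⟩
          have := pow_orderOf_eq_one z
          rw [hz] at this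
          exact congrArg Subtype.val this
        rw [hbot, mem_bot] at hzE
        have hz1 : z = 1 := Subtype.ext hzE
        rw [hz1, orderOf_one] at hz
        exact hr.one_lt.ne hz
      have hlt : Nat.card (N ⧸ E) < n := by
        have h1 := E.card_eq_card_quotient_mul_card_subgroup
        have h2 : 1 < Nat.card E := by
          have h3 : Nontrivial E := (nontrivial_iff_ne_bot E).2 hEne
          exact Finite.one_lt_card
        rw [← hn, h1]
        have h3 : 0 < Nat.card (N ⧸ E) := Nat.card_pos
        nlinarith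
      refine descent α hα ρH ρN hcomp ε hεε hεN hεH hfix E hEc hEα hE0 ?_
      intro αQ hαQ ρQ hcompQ ε' h1 h2 h3 h4
      exact ih _ hlt (N ⧸ E) rfl αQ hαQ ρQ hcompQ ε' h1 h2 h3 h4
    · push Not at hZ
      by_cases hε : ε = 0
      · subst hε
        exact ⟨0, HF.zero ρH⟩
      · exfalso
        obtain ⟨w, hw⟩ : ∃ w, ε w ≠ 0 := by
          by_contra hcon
          push Not at hcon
          exact hε (LinearMap.ext hcon)
        have hεv : ε (ε w) = ε w := LinearMap.congr_fun hεε w
        by_cases hNt : Nontrivial N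
        · have hcen : center N ≠ ⊥ := by
            have h1 := Cfsg.Agent.Lib.Basic.normal_inf_center_ne_bot (⊤ : Subgroup N) (by
              exact top_ne_bot)
            rwa [top_inf_eq] at h1
          have hcn : Nontrivial (center N) := (nontrivial_iff_ne_bot _).2 hcen
          obtain ⟨p, hp, hpZ⟩ : ∃ p : ℕ, p.Prime ∧ p ∣ Nat.card (center N) :=
            Nat.exists_prime_and_dvd (ne_of_gt Finite.one_lt_card)
          have hpk : (p : k) = 0 := hZ p hp hpZ
          haveI : Fact p.Prime := ⟨hp⟩
          have hNp : IsPGroup p N := by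
            have hq : ∀ {q : ℕ}, q.Prime → q ∣ Nat.card N → q = p := by
              intro q hq hqN
              haveI : Fact q.Prime := ⟨hq⟩
              let S : Sylow q N := Classical.arbitrary (Sylow q N)
              have hsyl := (Group.isNilpotent_of_finite_tfae (G := N)).out 0 3
              haveI hS : (S : Subgroup N).Normal :=
                hsyl.mp (inferInstanceAs (Group.IsNilpotent N)) q ⟨hq⟩ S
              have hne := S.ne_bot_of_dvd_card hqN
              have h1 := Cfsg.Agent.Lib.Basic.normal_inf_center_ne_bot (S : Subgroup N) hne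
              obtain ⟨⟨z, hzS, hzZ⟩, hz1⟩ := Subgroup.ne_bot_iff_exists_ne_one.1 h1
              have hz1' : z ≠ 1 := fun h => hz1 (Subtype.ext h)
              obtain ⟨m, hm⟩ := S.isPGroup' ⟨z, hzS⟩
              have hm' : z ^ (q ^ m) = 1 := congrArg Subtype.val hm
              have hzq : q ∣ orderOf z := by
                obtain ⟨j, -, hj⟩ := (Nat.dvd_prime_pow hq).1 (orderOf_dvd_of_pow_eq_one hm')
                rw [hj]
                refine dvd_pow_self q ?_
                rintro rfl
                rw [pow_zero, orderOf_eq_one_iff] at hj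
                exact hz1' hj
              have hzc : orderOf z ∣ Nat.card (center N) := by
                have := orderOf_dvd_natCard (⟨z, hzZ⟩ : center N)
                rwa [Subgroup.orderOf_mk] at this
              have hq0 : (q : k) = 0 := hZ q hq (hzq.trans hzc)
              by_contra hqp
              have h1 : ringChar k ∣ q := (ringChar.spec k q).1 hq0
              have h2 : ringChar k ∣ p := (ringChar.spec k p).1 hpk
              have h3 := Nat.dvd_gcd h1 h2
              rw [(Nat.coprime_primes hq hp).2 hqp] at h3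
              exact CharP.ringChar_ne_one (Nat.dvd_one.1 h3)
            exact IsPGroup.of_card (Nat.eq_prime_pow_of_unique_prime_dvd Nat.card_pos.ne' hq)
          obtain ⟨v, hvA, hv0, hvfix⟩ := exists_fixed_of_pgroup hpk hNp ρN (ε w) hw
          have hvε : ε v = v := by
            have hle : AddSubgroup.closure (Set.range (fun x : N => ρN x (ε w)))
                ≤ (LinearMap.ker (ε - 1)).toAddSubgroup := by
              rw [AddSubgroup.closure_le]
              rintro _ ⟨x, rfl⟩
              show (ε - 1) (ρN x (ε w)) = 0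
              have h1 : ε (ρN x (ε w)) = ρN x (ε (ε w)) := LinearMap.congr_fun (hεN x).eq (ε w)
              rw [LinearMap.sub_apply, h1, hεv]
              simp
            have h2 := hle hvA
            have h3 : (ε - 1) v = 0 := h2
            rw [LinearMap.sub_apply] at h3
            exact sub_eq_zero.1 h3
          exact hv0 (hfix v hvfix hvε)
        · rw [not_nontrivial_iff_subsingleton] at hNt
          apply hw
          refine hfix _ (fun x => ?_) hεv
          rw [Subsingleton.elim x 1, map_one]
          rfl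

section Frob

open scoped Pointwise

theorem frobenius_free {k V A : Type*} [Field k] [AddCommGroup V] [Module k V] [Group A] [Finite A]
    [DecidableEq A] (ρ : Representation k A V)
    (Fk Hc : Subgroup A) [Fk.Normal] (hHc : Cfsg.IsFrobeniusComplement Hc)
    (hker : Cfsg.frobeniusKernel Hc = (Fk : Set A)) (hnil : Group.IsNilpotent ↥Fk)
    (hCF : ∀ v : V, (∀ f ∈ Fk, ρ f v = v) → v = 0) :
    ∃ W : Submodule k V, DirectSum.IsInternal (fun h : ↥Hc => W.map (ρ (h : A))) := by
  classical
  letI fH : Fintype Hc := Fintype.ofFinite Hc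
  let ρH : Hc →* Module.End k V := ρ.comp Hc.subtype
  let ρN : Fk →* Module.End k V := ρ.comp Fk.subtype
  let α : Hc →* MulAut Fk := (MulAut.conjNormal (H := Fk)).comp Hc.subtype
  have hαa : ∀ (h : Hc) (x : Fk), ((α h x : Fk) : A) = (h : A) * x * (h : A)⁻¹ :=
    fun h x => MulAut.conjNormal_apply (h : A) x
  have hα : ∀ h : Hc, h ≠ 1 → ∀ x : Fk, α h x = x → x = 1 := by
    intro h hh x hx
    by_contra hx1
    have hx1' : (x : A) ≠ 1 := fun h1 => hx1 (Subtype.ext h1)
    have hxk : (x : A) ∈ (Cfsg.frobeniusKernel Hc) := by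
      rw [hker]
      exact x.2
    have hxk' := hxk.resolve_left hx1'
    have hxH : (x : A) ∉ Hc := by
      intro h1
      apply hxk' 1
      have : (MulAut.conj (1 : A)) • Hc = Hc := by
        rw [map_one, one_smul]
      rw [this]
      exact h1
    have hbot := hHc.2.2 (x : A) hxH
    have hmem : (h : A) ∈ Hc ⊓ (MulAut.conj (x : A) • Hc) := by
      refine Subgroup.mem_inf.2 ⟨h.2, ?_⟩
      rw [Subgroup.mem_smul_pointwise_iff_exists]
      refine ⟨(h : A), h.2, ?_⟩
      have h1 := congrArg Subtype.val hx
      rw [hαa] at h1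
      -- `h x h⁻¹ = x`
      have h2 : (x : A) * (h : A) * (x : A)⁻¹ = h := by
        have h3 : (h : A) * x = x * h := by
          calc (h : A) * x = (h : A) * x * (h : A)⁻¹ * h := by group
            _ = x * h := by rw [h1]
        rw [← h3]
        group
      exact h2
    rw [hbot, Subgroup.mem_bot] at hmem
    exact hh (Subtype.ext hmem)
  have hcomp : ∀ h x, ρH h * ρN x = ρN (α h x) * ρH h := by
    intro h x
    show ρ (h : A) * ρ (x : A) = ρ ((α h x : Fk) : A) * ρ (h : A)
    rw [hαa, ← map_mul, ← map_mul]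
    congr 1
    group
  obtain ⟨p, hp⟩ := exists_hf ρH (Nat.card Fk) Fk rfl α hα ρN hcomp 1
    (one_mul _) (fun x => Commute.one_left _) (fun h => Commute.one_left _)
    (fun v hv _ => hCF v (fun f hf => hv ⟨f, hf⟩))
  exact ⟨LinearMap.range p, hp.isInternal⟩

end Frob

end Cfsg.Agent.Lib.LocalEven.FreeT
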