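import Cfsg.Agent.Lib.LocalEven.GWFinal
import Cfsg.Agent.Lib.Transfer.Frobenius
import Cfsg.Agent.Lib.Fusion.GTModel
import Cfsg.Agent.S0071

/-! Thompson's normal `p`-complement theorem for the abelian-version `J(S)`. -/

set_option autoImplicit false

namespace Cfsg.Agent.Lib.LocalEven

open Cfsg Cfsg.Agent.Lib.Basic Cfsg.Agent.Lib.LocalEven2
open scoped commutatorElement

variable {G : Type*} [Group G] [Finite G] {p : ℕ} [Fact p.Prime]

/-- `Z(S)` lies in the centre of `N(J(S))` when the latter is `p`-nilpotent. -/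
theorem center_sylow_central_of_pnilp (S : Sylow p G)
    (hN : HasNormalPComplement p ↥(Subgroup.normalizer (GJ (S : Subgroup G) : Set G)))
    {z : G} (hzS : z ∈ (S : Subgroup G)) (hzc : z ∈ Subgroup.centralizer ((S : Subgroup G) : Set G)) :
    ∀ n ∈ Subgroup.normalizer (GJ (S : Subgroup G) : Set G), n * z = z * n := by
  set N := Subgroup.normalizer (GJ (S : Subgroup G) : Set G) with hNd
  have hSN : (S : Subgroup G) ≤ N :=
    (Subgroup.le_normalizer).trans (normalizer_le_normalizer_GJ _)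
  let S₀ : Sylow p N := S.subtype hSN
  obtain ⟨K, hKn, hK⟩ := Cfsg.Agent.Lib.Transfer.exists_normal_isComplement'_of_hasNormalPComplement hN S₀
  have hKc := Cfsg.Agent.Lib.Transfer.card_coprime_of_isComplement' S₀ hK
  have hstable := Cfsg.Agent.Lib.Transfer.frobeniusStable_of_hasNormalPComplement hN
  have hzJ : z ∈ GJ (S : Subgroup G) := mem_GJ_of_central hzS hzc
  intro n hn
  obtain ⟨⟨⟨k, hk⟩, ⟨τ, hτ⟩⟩, e⟩ := (Subgroup.isComplement'_def.1 hK).2 (⟨n, hn⟩ : N)
  have hτS : (τ : G) ∈ (S : Subgroup G) := by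
    have h0 : τ ∈ (S₀ : Subgroup N) := hτ
    rw [Sylow.coe_subtype] at h0
    exact h0
  have hkJ : k ∈ Subgroup.centralizer (((GJ (S : Subgroup G)).subgroupOf N : Subgroup N) : Set N) := by
    apply hstable
    · have h1 : IsPGroup p (GJ (S : Subgroup G)) := S.isPGroup'.to_le (GJ_le _)
      exact h1.of_equiv (Subgroup.subgroupOfEquivOfLe Subgroup.le_normalizer).symm
    · rw [Subgroup.mem_normalizer_iff]
      intro y
      exact Subgroup.mem_normalizer_iff.1 k.2 y
    · refine Nat.Coprime.coprime_dvd_left ?_ hKc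
      have h2 : orderOf (⟨k, hk⟩ : K) ∣ Nat.card K := orderOf_dvd_natCard _
      rwa [Subgroup.orderOf_mk] at h2
  have hkz : (k : G) * z = z * k := by
    have h1 := (Subgroup.mem_centralizer_iff.1 hkJ) ⟨z, Subgroup.le_normalizer hzJ⟩ hzJ
    exact (congrArg Subtype.val h1).symm
  have hτz : (τ : G) * z = z * τ := (Subgroup.mem_centralizer_iff.1 hzc) τ hτS
  have en : n = (k : G) * τ := (congrArg Subtype.val e).symm
  rw [en]
  calc (k : G) * τ * z = k * (τ * z) := by group
    _ = k * (z * τ) := by rw [hτz]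
    _ = (k * z) * τ := by group
    _ = (z * k) * τ := by rw [hkz]
    _ = _ := by group

/-- Thompson's theorem, in the form of the statement. -/
theorem thompson_normal_complement (S : Sylow p G) (h : p ≠ 2 ∨ ¬ Involves (Equiv.Perm (Fin 4)) G)
    (hC : HasNormalPComplement p ↥(Subgroup.centralizer
      (((S : Subgroup G) ⊓ Subgroup.centralizer ((S : Subgroup G) : Set G) : Subgroup G) : Set G)))
    (hN : HasNormalPComplement p ↥(Subgroup.normalizer (GJ (S : Subgroup G) : Set G))) :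
    HasNormalPComplement p G := by
  set Z := (S : Subgroup G) ⊓ Subgroup.centralizer ((S : Subgroup G) : Set G) with hZd
  have hwc : ∀ z ∈ Z, ∀ g : G, g * z * g⁻¹ ∈ (S : Subgroup G) → g * z * g⁻¹ = z := by
    intro z hz
    apply glauberman_weakly_closed S z hz.1 (center_sylow_central_of_pnilp S hN hz.1 hz.2)
    rcases h with h1 | h1
    · exact Or.inl h1
    · exact Or.inr (Or.inr h1)
  have hstable := Cfsg.Agent.Lib.Transfer.frobeniusStable_of_hasNormalPComplement hC
  have hex : ∃ N : Subgroup G, N.Normal ∧ N.IsComplement' (S : Subgroup G) := by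
    rw [Cfsg.Agent.S0071.result]
    intro Q hQ g hg hcop
    have hQc : ∀ y ∈ Q, ∀ z ∈ Z, y * z = z * y := fun y hy z hz =>
      (Subgroup.mem_centralizer_iff.1 hz.2) y (hQ hy)
    have hginv : ∀ {y}, y ∈ Q → g⁻¹ * y * g ∈ Q := by
      intro y hy
      have := (Subgroup.mem_normalizer_iff.1 (Subgroup.inv_mem _ hg) y).1 hy
      simpa using this
    -- the centralizer of `Q`
    set C₁ := Subgroup.centralizer (Q : Set G) with hC₁
    have hZC : Z ≤ C₁ := by
      intro z hz
      rw [hC₁, Subgroup.mem_centralizer_iff]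
      intro y hy
      exact hQc y hy z hz
    have hgZC : cj g Z ≤ C₁ := by
      rintro _ ⟨z, hz, rfl⟩
      show g * z * g⁻¹ ∈ C₁
      rw [hC₁, Subgroup.mem_centralizer_iff]
      intro y hy
      have h1 := hQc _ (hginv hy) z hz
      calc y * (g * z * g⁻¹) = g * ((g⁻¹ * y * g) * z) * g⁻¹ := by group
        _ = g * (z * (g⁻¹ * y * g)) * g⁻¹ := by rw [h1]
        _ = _ := by group
    have hZp : IsPGroup p Z := S.isPGroup'.to_le inf_le_left
    obtain ⟨S₀, hZS₀, hS₀⟩ := exists_sylIn_ge hZC hZp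
    obtain ⟨c, hc, hcS₀⟩ := hS₀.exists_cj_le hgZC (isPGroup_cj hZp g)
    obtain ⟨S₁, hS₁⟩ := hS₀.isP.exists_le_sylow
    obtain ⟨w, hw⟩ := exists_sylow_conj S S₁
    rw [hw] at hS₁
    have hwz : ∀ z ∈ Z, w * z * w⁻¹ = z := by
      intro z hz
      have h1 : w⁻¹ * z * w ∈ (S : Subgroup G) := mem_cj.1 (hS₁ (hZS₀ hz))
      have h2 := hwc z hz w⁻¹ (by simpa using h1)
      have h3 : z = w⁻¹ * (w * z * w⁻¹) * w := by group
      have h4 : w⁻¹ * z * w⁻¹⁻¹ = z := h2
      calc w * z * w⁻¹ = w * (w⁻¹ * z * w⁻¹⁻¹) * w⁻¹ := by rw [h4]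
        _ = z := by group
    have htz : ∀ z ∈ Z, (c * g) * z * (c * g)⁻¹ = z := by
      intro z hz
      have h0 : c * (g * z * g⁻¹) * c⁻¹ ∈ S₀ := hcS₀ (conj_mem_cj (conj_mem_cj hz))
      have h1 : w⁻¹ * (c * (g * z * g⁻¹) * c⁻¹) * w ∈ (S : Subgroup G) := mem_cj.1 (hS₁ h0)
      have h2 := hwc z hz (w⁻¹ * (c * g)) (by
        have e : (w⁻¹ * (c * g)) * z * (w⁻¹ * (c * g))⁻¹ = w⁻¹ * (c * (g * z * g⁻¹) * c⁻¹) * w := by group
        rw [e]
        exact h1)
      have e2 : (c * g) * z * (c * g)⁻¹ = w * ((w⁻¹ * (c * g)) * z * (w⁻¹ * (c * g))⁻¹) * w⁻¹ := by group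
      rw [e2, h2, hwz z hz]
    set X := Subgroup.centralizer ((Z : Subgroup G) : Set G) with hX
    have htX : c * g ∈ X := by
      rw [hX, Subgroup.mem_centralizer_iff]
      intro z hz
      have h1 := htz z hz
      calc z * (c * g) = ((c * g) * z * (c * g)⁻¹) * (c * g) := by rw [h1]
        _ = _ := by group
    have htN : c * g ∈ Subgroup.normalizer (Q : Set G) :=
      Subgroup.mul_mem _ (Subgroup.centralizer_le_normalizer _ hc) hg
    have hQX : Q ≤ X := by
      intro y hy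
      rw [hX, Subgroup.mem_centralizer_iff]
      intro z hz
      exact (hQc y hy z hz).symm
    obtain ⟨u, v, e, hu, hv, ⟨k, hk⟩, hm, hcomm⟩ := exists_p_decomp (p := p) (c * g) (isOfFinOrder_of_finite _)
    have hvX : v ∈ X := (Subgroup.zpowers_le.2 htX) hv
    have hvN : v ∈ Subgroup.normalizer (Q : Set G) := (Subgroup.zpowers_le.2 htN) hv
    have hvQ : (⟨v, hvX⟩ : X) ∈ Subgroup.centralizer ((Q.subgroupOf X : Subgroup X) : Set X) := by
      apply hstable
      · have h1 : IsPGroup p Q := S.isPGroup'.to_le hQ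
        exact h1.of_equiv (Subgroup.subgroupOfEquivOfLe hQX).symm
      · rw [Subgroup.mem_normalizer_iff]
        intro y
        exact Subgroup.mem_normalizer_iff.1 hvN y
      · rw [Subgroup.orderOf_mk]
        exact hm
    have hvc : ∀ y ∈ Q, v * y * v⁻¹ = y := by
      intro y hy
      have h1 := (Subgroup.mem_centralizer_iff.1 hvQ) ⟨y, hQX hy⟩ hy
      have h2 : y * v = v * y := congrArg Subtype.val h1
      rw [← h2]
      group
    -- `g` acts on `Q` as `u`
    have hgu : ∀ y ∈ Q, g * y * g⁻¹ = u * y * u⁻¹ := by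
      intro y hy
      have h1 : g * y * g⁻¹ ∈ Q := (Subgroup.mem_normalizer_iff.1 hg y).1 hy
      have h2 : c * (g * y * g⁻¹) * c⁻¹ = g * y * g⁻¹ := by
        have := (Subgroup.mem_centralizer_iff.1 hc) _ h1
        rw [← this]
        group
      calc g * y * g⁻¹ = c * (g * y * g⁻¹) * c⁻¹ := h2.symm
        _ = (c * g) * y * (c * g)⁻¹ := by group
        _ = (u * v) * y * (u * v)⁻¹ := by rw [e]
        _ = u * (v * y * v⁻¹) * u⁻¹ := by group
        _ = _ := by rw [hvc y hy]
    have hpow : ∀ n : ℕ, ∀ y ∈ Q, g ^ n * y * (g ^ n)⁻¹ = u ^ n * y * (u ^ n)⁻¹ := by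
      intro n
      induction n with
      | zero => intro y _; simp
      | succ n ih =>
        intro y hy
        have h1 : g * y * g⁻¹ ∈ Q := (Subgroup.mem_normalizer_iff.1 hg y).1 hy
        calc g ^ (n + 1) * y * (g ^ (n + 1))⁻¹ = g ^ n * (g * y * g⁻¹) * (g ^ n)⁻¹ := by
              rw [pow_succ]; group
          _ = u ^ n * (g * y * g⁻¹) * (u ^ n)⁻¹ := ih _ h1
          _ = u ^ n * (u * y * u⁻¹) * (u ^ n)⁻¹ := by rw [hgu y hy]
          _ = _ := by rw [pow_succ]; group
    apply Cfsg.Agent.Lib.Fusion.GT.mem_center_of_pow (p := p) (k := k) ?_ hcop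
    rw [Subgroup.mem_centralizer_iff]
    intro y hy
    have h1 := hpow (p ^ k) y hy
    have h2 : u ^ p ^ k = 1 := by rw [← hk]; exact pow_orderOf_eq_one u
    rw [h2] at h1
    simp only [one_mul, inv_one, mul_one] at h1
    calc y * g ^ p ^ k = (g ^ p ^ k * y * (g ^ p ^ k)⁻¹) * g ^ p ^ k := by rw [h1]
      _ = _ := by group
  obtain ⟨N, h1, h2⟩ := hex
  exact ⟨S, N, h1, h2⟩

end Cfsg.Agent.Lib.LocalEven
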