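import Cfsg.Agent.Lib.LocalEven.GWS4
import Cfsg.Agent.Lib.OddLocal.QuadPair
import Cfsg.Agent.Lib.Basic.MinNormal
import Cfsg.Agent.Lib.PGroups.Parts
import Cfsg.Agent.Lib.LocalEven2.GT1

/-! `S₃` acting on a `2`-group gives a section `S₄`, and inverted elements in sections of `S₃`. -/

set_option autoImplicit false
set_option linter.unusedSectionVars false

namespace Cfsg.Agent.Lib.LocalEven.S4Inv

open Cfsg Cfsg.Agent.Lib.Basic Subgroup

theorem conj3 {Γ : Type*} [Group Γ] (y t : Γ) :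
    y ^ 3 * t * (y ^ 3)⁻¹ = y * (y * (y * t * y⁻¹) * y⁻¹) * y⁻¹ := by
  simp [pow_succ, mul_assoc]

/-- Core: an element `y` acting with `y³ = 1` nontrivially on a normal `2`-subgroup, inverted by a `2`-element `x`. -/
theorem s4_core : ∀ (n : ℕ) {Γ : Type*} [Group Γ] [Finite Γ], Nat.card Γ = n → ∀ (T : Subgroup Γ) [T.Normal]
    (_ : IsPGroup 2 T) (x y : Γ) (_ : ∀ t ∈ T, y ^ 3 * t = t * y ^ 3) (_ : ∃ t ∈ T, y * t ≠ t * y)
    (k : ℕ) (_ : x ^ (2 ^ k) = 1) (_ : x * y * x⁻¹ = y⁻¹), Involves (Equiv.Perm (Fin 4)) Γ := by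
  intro n
  induction n using Nat.strong_induction_on with
  | _ n ih =>
  intro Γ _ _ hcard T hTn hT x y hy3 hy k hxk hxy
  have hTne : T ≠ ⊥ := by
    rintro rfl
    obtain ⟨t, ht, hne⟩ := hy
    rw [mem_bot] at ht
    subst ht
    simp at hne
  obtain ⟨A, hA, hAT⟩ := exists_isMinNormal_le hTn hTne
  obtain ⟨hAc, hAe⟩ := Cfsg.Agent.Lib.OddLocal.minNormal_in_pGroup T hT A hA hAT
  have hAn : A.Normal := hA.1
  have hA2 : ∀ a ∈ A, a * a = 1 := fun a ha => by rw [← pow_two]; exact hAe a ha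
  have hAinv : ∀ a ∈ A, a⁻¹ = a := fun a ha => inv_eq_of_mul_eq_one_left (hA2 a ha)
  have hAcomm : ∀ a ∈ A, ∀ b ∈ A, a * b = b * a := fun a ha b hb => hAc a ha b (hAT hb)
  by_cases hyA : ∀ a ∈ A, y * a = a * y
  · -- pass to the quotient
    have hnb : Nat.card (Γ ⧸ A) < n := by
      rw [← hcard]
      have h1 := Subgroup.card_mul_index A
      have h2 : 1 < Nat.card A := by
        have := (Subgroup.one_lt_card_iff_ne_bot A).2 hA.2.1
        exact this
      rw [Subgroup.index_eq_card] at h1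
      have h3 : 0 < Nat.card (Γ ⧸ A) := Nat.card_pos
      rw [← h1]
      nlinarith
    have hquot : Involves (Equiv.Perm (Fin 4)) (Γ ⧸ A) := by
      let q := QuotientGroup.mk' A
      haveI hTq : (T.map q).Normal := hTn.map _ (QuotientGroup.mk'_surjective A)
      refine ih _ hnb rfl (T.map q) (hT.map _) (q x) (q y) ?_ ?_ k ?_ ?_
      · rintro _ ⟨t, ht, rfl⟩
        rw [← map_pow, ← map_mul, ← map_mul, hy3 t ht]
      · by_contra hcon
        push Not at hcon
        obtain ⟨t, ht, hne⟩ := hy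
        apply hne
        have h1 : q y * q t = q t * q y := hcon _ ⟨t, ht, rfl⟩
        -- the commutator lies in A
        have h2 : y * t * y⁻¹ * t⁻¹ ∈ A := by
          rw [← QuotientGroup.eq_one_iff (y * t * y⁻¹ * t⁻¹)]
          show q (y * t * y⁻¹ * t⁻¹) = 1
          rw [map_mul, map_mul, map_mul, h1]
          simp
        obtain ⟨c, hc⟩ : ∃ c, c = y * t * y⁻¹ * t⁻¹ := ⟨_, rfl⟩
        rw [← hc] at h2
        have h3 : y * t * y⁻¹ = c * t := by
          rw [hc]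
          simp
        have h4 : y ^ 3 * t * (y ^ 3)⁻¹ = c * (c * (c * t)) := by
          have hyc : y * c * y⁻¹ = c := by
            rw [hyA c h2]
            simp
          calc y ^ 3 * t * (y ^ 3)⁻¹ = y * (y * (y * t * y⁻¹) * y⁻¹) * y⁻¹ := conj3 y t
            _ = y * (y * (c * t) * y⁻¹) * y⁻¹ := by rw [h3]
            _ = y * ((y * c * y⁻¹) * (y * t * y⁻¹)) * y⁻¹ := by simp [mul_assoc]
            _ = y * (c * (c * t)) * y⁻¹ := by rw [hyc, h3]
            _ = (y * c * y⁻¹) * ((y * c * y⁻¹) * (y * t * y⁻¹)) := by simp [mul_assoc]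
            _ = c * (c * (c * t)) := by rw [hyc, h3]
        have h5 : y ^ 3 * t * (y ^ 3)⁻¹ = t := by
          rw [hy3 t ht]
          simp
        rw [h5] at h4
        have h6 : c * (c * c) = 1 := by
          have : (c * (c * c)) * t = t := by
            rw [mul_assoc, mul_assoc]
            exact h4.symm
          exact mul_eq_right.1 this
        have h7 : c = 1 := by
          rw [hA2 c h2, mul_one] at h6
          exact h6
        rw [h7, one_mul] at h3
        exact mul_inv_eq_iff_eq_mul.1 h3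
      · rw [← map_pow, hxk, map_one]
      · rw [← map_mul, ← map_inv, ← map_mul, hxy, map_inv]
    exact Cfsg.Agent.Lib.Fusion.Qd.involves_of_quotient A hquot
  · -- the direct construction
    push Not at hyA
    obtain ⟨u, hu, huy⟩ := hyA
    -- conjugation by `y` on `A`
    have hcA : ∀ a ∈ A, y * a * y⁻¹ ∈ A := fun a ha => hAn.conj_mem a ha y
    have hy3A : ∀ a ∈ A, y * (y * (y * a * y⁻¹) * y⁻¹) * y⁻¹ = a := by
      intro a ha
      have h1 := hy3 a (hAT ha)
      calc y * (y * (y * a * y⁻¹) * y⁻¹) * y⁻¹ = y ^ 3 * a * (y ^ 3)⁻¹ := (conj3 y a).symm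
        _ = a := by rw [h1]; simp
    -- the subgroup `[A, y]`
    let W : Subgroup Γ :=
      { carrier := {v | ∃ w ∈ A, v = w * (y * w * y⁻¹)⁻¹}
        one_mem' := ⟨1, A.one_mem, by simp⟩
        mul_mem' := by
          rintro _ _ ⟨a, ha, rfl⟩ ⟨b, hb, rfl⟩
          refine ⟨a * b, A.mul_mem ha hb, ?_⟩
          have e1 : y * (a * b) * y⁻¹ = (y * a * y⁻¹) * (y * b * y⁻¹) := by simp [mul_assoc]
          have e1' : (y * (a * b) * y⁻¹)⁻¹ = (y * b * y⁻¹)⁻¹ * (y * a * y⁻¹)⁻¹ := by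
            rw [e1, mul_inv_rev]
          rw [e1']
          have hb' := A.inv_mem (hcA b hb)
          have ha' := A.inv_mem (hcA a ha)
          have e2 := hAcomm _ hb _ ha'
          calc a * (y * a * y⁻¹)⁻¹ * (b * (y * b * y⁻¹)⁻¹) = a * ((y * a * y⁻¹)⁻¹ * b) * (y * b * y⁻¹)⁻¹ := by
                simp only [mul_assoc]
            _ = a * (b * (y * a * y⁻¹)⁻¹) * (y * b * y⁻¹)⁻¹ := by rw [e2]
            _ = a * b * ((y * a * y⁻¹)⁻¹ * (y * b * y⁻¹)⁻¹) := by simp only [mul_assoc]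
            _ = a * b * ((y * b * y⁻¹)⁻¹ * (y * a * y⁻¹)⁻¹) := by
                rw [hAcomm _ ha' _ hb']
        inv_mem' := by
          rintro _ ⟨a, ha, rfl⟩
          refine ⟨a⁻¹, A.inv_mem ha, ?_⟩
          rw [hAinv a ha, hAinv _ (A.mul_mem ha (A.inv_mem (hcA a ha)))]
      }
    have hWA : W ≤ A := by
      rintro _ ⟨a, ha, rfl⟩
      exact A.mul_mem ha (A.inv_mem (hcA a ha))
    have hWne : W ≠ ⊥ := by
      intro h
      have h1 : u * (y * u * y⁻¹)⁻¹ ∈ W := ⟨u, hu, rfl⟩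
      rw [h, mem_bot, mul_inv_eq_one] at h1
      apply huy
      exact (mul_inv_eq_iff_eq_mul.1 h1.symm)
    -- `x` normalizes `W`
    have hxA : ∀ a ∈ A, x * a * x⁻¹ ∈ A := fun a ha => hAn.conj_mem a ha x
    have hxW : ∀ v ∈ W, x * v * x⁻¹ ∈ W := by
      rintro _ ⟨a, ha, rfl⟩
      -- with `b = y⁻¹ (x a x⁻¹) y`
      have hb : y⁻¹ * (x * a * x⁻¹) * y ∈ A := by
        have := hAn.conj_mem _ (hxA a ha) y⁻¹
        simpa using this
      set b := y⁻¹ * (x * a * x⁻¹) * y with hbdef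
      have e1 : y * b * y⁻¹ = x * a * x⁻¹ := by
        rw [hbdef]
        simp [mul_assoc]
      have hxyinv : x * y * x⁻¹ = y⁻¹ := hxy
      have e2 : x * (y * a * y⁻¹) * x⁻¹ = b := by
        calc x * (y * a * y⁻¹) * x⁻¹ = (x * y * x⁻¹) * (x * a * x⁻¹) * (x * y * x⁻¹)⁻¹ := by
              simp [mul_assoc]
          _ = b := by rw [hxyinv, hbdef]; simp
      have e3 : x * (a * (y * a * y⁻¹)⁻¹) * x⁻¹ = (x * a * x⁻¹) * (x * (y * a * y⁻¹) * x⁻¹)⁻¹ := by
        simp [mul_assoc]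
      rw [e3, e2, ← e1]
      have : (y * b * y⁻¹) * b⁻¹ = b⁻¹ * (y * b * y⁻¹) := hAcomm _ (hcA b hb) _ (A.inv_mem hb)
      rw [this]
      refine ⟨b⁻¹, A.inv_mem hb, ?_⟩
      simp [mul_assoc]
    -- a nontrivial fixed vector
    have hxP : IsPGroup 2 (zpowers x) := by
      rw [IsPGroup.iff_card]
      have : orderOf x ∣ 2 ^ k := orderOf_dvd_of_pow_eq_one hxk
      obtain ⟨m, _, hm⟩ := (Nat.dvd_prime_pow Nat.prime_two).1 this
      exact ⟨m, by rw [Nat.card_zpowers, hm]⟩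
    have hWp : IsPGroup 2 W := hT.to_le (hWA.trans hAT)
    have hxN : zpowers x ≤ normalizer (W : Set Γ) := by
      rw [zpowers_le]
      exact Cfsg.Agent.Lib.PGroups.mem_normalizer_of_conj_le' W x hxW
    have hPp : IsPGroup 2 ((W ⊔ zpowers x : Subgroup Γ)) :=
      IsPGroup.to_sup_of_normal_left' hWp hxP hxN
    haveI : Fact (Nat.Prime 2) := ⟨Nat.prime_two⟩
    obtain ⟨v, hvW, hv1, _, hvc⟩ := Cfsg.Agent.Lib.LocalEven2.exists_central_order_p hPp (le_sup_left : W ≤ W ⊔ zpowers x)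
      (sup_le (le_normalizer) hxN) hWne
    have hxv : x * v * x⁻¹ = v := by
      have := hvc x (mem_sup_right (mem_zpowers x))
      rw [this]
      simp
    -- the norm identity
    obtain ⟨w, hw, hvw⟩ := hvW
    have hvA : v ∈ A := hWA ⟨w, hw, hvw⟩
    set v₁ := y * v * y⁻¹ with hv₁
    set v₂ := y * v₁ * y⁻¹ with hv₂
    have hv₁A : v₁ ∈ A := hcA v hvA
    have hv₂A : v₂ ∈ A := hcA _ hv₁A
    have hy3v : y * v₂ * y⁻¹ = v := hy3A v hvA
    have hnorm : v * v₁ * v₂ = 1 := by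
      set w₁ := y * w * y⁻¹ with hw₁
      set w₂ := y * w₁ * y⁻¹ with hw₂
      have h3 : y * w₂ * y⁻¹ = w := hy3A w hw
      have e1 : v₁ = w₁ * w₂⁻¹ := by
        rw [hv₁, hvw]
        simp [hw₁, hw₂, mul_assoc]
      have e2 : v₂ = w₂ * w⁻¹ := by
        rw [hv₂, e1]
        have : y * (w₁ * w₂⁻¹) * y⁻¹ = (y * w₁ * y⁻¹) * (y * w₂ * y⁻¹)⁻¹ := by simp [mul_assoc]
        rw [this, h3]
      rw [e1, e2, hvw]
      simp [mul_assoc]
    have hprod : v * v₁ = v₂ := by
      have h1 : (v * v₁) * v₂ = 1 := hnorm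
      have h2 := eq_inv_of_mul_eq_one_left h1
      rw [h2, hAinv v₂ hv₂A]
    have hvne : v ≠ v₁ := by
      intro h
      apply hv1
      have h2 : v₂ = v := by
        rw [hv₂, ← h, ← hv₁, ← h]
      rw [← h, h2, hA2 v hvA, one_mul] at hnorm
      exact hnorm
    have hv₁1 : v₁ ≠ 1 := by
      intro h
      apply hv1
      rw [hv₁] at h
      have : y * v * y⁻¹ = 1 := h
      rw [mul_inv_eq_one] at this
      exact mul_left_cancel (this.trans (mul_one y).symm)
    have hyinv : y⁻¹ * v * y = v₂ := by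
      rw [← hy3v]
      simp [mul_assoc]
    have ha2 : x * v₁ * x⁻¹ = v * v₁ := by
      rw [hprod, ← hyinv]
      calc x * v₁ * x⁻¹ = (x * y * x⁻¹) * (x * v * x⁻¹) * (x * y * x⁻¹)⁻¹ := by
            rw [hv₁]
            simp [mul_assoc]
        _ = _ := by rw [hxy, hxv]; simp
    have hxv2 : x * v₂ * x⁻¹ = v₁ := by
      rw [← hprod]
      calc x * (v * v₁) * x⁻¹ = (x * v * x⁻¹) * (x * v₁ * x⁻¹) := by simp [mul_assoc]
        _ = v * (v * v₁) := by rw [hxv, ha2]
        _ = v₁ := by rw [← mul_assoc, hA2 v hvA, one_mul]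
    refine Cfsg.Agent.Lib.LocalEven.involves_S4_of_four (w := v) (w' := v₁) (a := x) (b := y * x * y⁻¹)
      (hA2 v hvA) (hA2 v₁ hv₁A) hvne hv1 hv₁1 (hAcomm _ hvA _ hv₁A) hxv ha2 ?_ ?_
    · calc (y * x * y⁻¹) * v * (y * x * y⁻¹)⁻¹ = y * (x * (y⁻¹ * v * y) * x⁻¹) * y⁻¹ := by simp [mul_assoc]
        _ = y * (x * v₂ * x⁻¹) * y⁻¹ := by rw [hyinv]
        _ = v₂ := by rw [hxv2]
        _ = v * v₁ := hprod.symm
    · calc (y * x * y⁻¹) * v₁ * (y * x * y⁻¹)⁻¹ = y * (x * (y⁻¹ * v₁ * y) * x⁻¹) * y⁻¹ := by simp [mul_assoc]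
        _ = y * (x * v * x⁻¹) * y⁻¹ := by rw [hv₁]; simp [mul_assoc]
        _ = v₁ := by rw [hxv]

/-! ### Inversion -/

section Inv

variable {H : Type*} [Group H]

/-- Decomposition under an involutory automorphism of an odd order subgroup. -/
theorem inv_decomp (P : Subgroup H) [Finite P] (hodd : Odd (Nat.card P)) (s : H) (hs : ∀ p ∈ P, s * p * s⁻¹ ∈ P)
    (hs2 : ∀ p ∈ P, s * (s * p * s⁻¹) * s⁻¹ = p) (u : H) (hu : u ∈ P) :
    ∃ c ∈ P, ∃ i ∈ P, u = c * i ∧ s * c * s⁻¹ = c ∧ s * i * s⁻¹ = i⁻¹ := by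
  obtain ⟨m, hm⟩ := hodd
  set z := u⁻¹ * (s * u * s⁻¹) with hz
  have hzP : z ∈ P := P.mul_mem (P.inv_mem hu) (hs u hu)
  have htz : s * z * s⁻¹ = z⁻¹ := by
    have : s * z * s⁻¹ = (s * u * s⁻¹)⁻¹ * (s * (s * u * s⁻¹) * s⁻¹) := by
      rw [hz]
      simp [mul_assoc]
    rw [this, hs2 u hu, hz]
    simp
  have hz1 : z ^ (Nat.card P) = 1 := by
    have := pow_card_eq_one' (G := P) (x := ⟨z, hzP⟩)
    exact congrArg Subtype.val this
  set w := z ^ (m + 1) with hw
  have hw2 : w * w = z := by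
    rw [hw, ← pow_add]
    have : m + 1 + (m + 1) = Nat.card P + 1 := by omega
    rw [this, pow_succ, hz1, one_mul]
  have hwP : w ∈ P := P.pow_mem hzP _
  have htw : s * w * s⁻¹ = w⁻¹ := by
    rw [hw, ← conj_pow, htz, inv_pow]
  refine ⟨u * w, P.mul_mem hu hwP, w⁻¹, P.inv_mem hwP, by simp, ?_, ?_⟩
  · have h1 : s * u * s⁻¹ = u * z := by
      rw [hz]
      simp
    calc s * (u * w) * s⁻¹ = (s * u * s⁻¹) * (s * w * s⁻¹) := by simp [mul_assoc]
      _ = u * (w * w) * w⁻¹ := by rw [h1, htw, hw2]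
      _ = u * w := by simp [mul_assoc]
  · have : s * w⁻¹ * s⁻¹ = (s * w * s⁻¹)⁻¹ := by simp [mul_assoc]
    rw [this, htw]

/-- Lifting an inversion from a section. -/
theorem exists_inverted {Q : Type*} [Group Q] (π : H →* Q) (x : H) : ∀ (k : ℕ) (P : Subgroup H) [Finite P]
    (_ : Odd (Nat.card P)) (_ : ∀ p ∈ P, x * p * x⁻¹ ∈ P)
    (_ : ∀ p ∈ P, x ^ (2 ^ k) * p * (x ^ (2 ^ k))⁻¹ = p)
    (_ : ∀ p ∈ P, π x * π p * (π x)⁻¹ = (π p)⁻¹)
    (_ : ∀ p ∈ P, π p * π p = 1 → π p = 1)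
    (u : H) (_ : u ∈ P) (_ : π u ≠ 1), ∃ y ∈ P, x * y * x⁻¹ = y⁻¹ ∧ π y ≠ 1 := by
  intro k
  induction k with
  | zero =>
    intro P _ _ _ hk hinv hnoinv u hu hπu
    exfalso
    apply hπu
    apply hnoinv u hu
    have h1 := hk u hu
    simp only [pow_zero, pow_one] at h1
    have h2 := hinv u hu
    rw [← map_inv, ← map_mul, ← map_mul, h1] at h2
    exact mul_eq_one_iff_eq_inv.2 h2
  | succ k ih =>
    intro P _ hodd hxP hk hinv hnoinv u hu hπu
    set s := x ^ (2 ^ k) with hs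
    have hss : x ^ (2 ^ (k + 1)) = s * s := by
      rw [hs, ← pow_add, pow_succ, mul_two]
    have hxpow : ∀ n : ℕ, ∀ p ∈ P, x ^ n * p * (x ^ n)⁻¹ ∈ P := by
      intro n
      induction n with
      | zero => simp
      | succ n ih2 =>
        intro p hp
        have := hxP _ (ih2 p hp)
        have e : x ^ (n + 1) * p * (x ^ (n + 1))⁻¹ = x * (x ^ n * p * (x ^ n)⁻¹) * x⁻¹ := by
          rw [pow_succ']
          simp [mul_assoc]
        rw [e]
        exact this
    have hsP : ∀ p ∈ P, s * p * s⁻¹ ∈ P := hxpow _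
    have hs2 : ∀ p ∈ P, s * (s * p * s⁻¹) * s⁻¹ = p := by
      intro p hp
      have := hk p hp
      rw [hss] at this
      have e : s * (s * p * s⁻¹) * s⁻¹ = (s * s) * p * (s * s)⁻¹ := by simp [mul_assoc]
      rw [e, this]
    obtain ⟨c, hc, i, hi, huc, hcfix, hiinv⟩ := inv_decomp P hodd s hsP hs2 u hu
    by_cases hk0 : k = 0
    · subst hk0
      have hs1 : s = x := by simp [hs]
      rw [hs1] at hiinv hcfix
      refine ⟨i, hi, hiinv, ?_⟩
      have h1 : π c = 1 := by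
        apply hnoinv c hc
        have h2 := hinv c hc
        rw [← map_inv, ← map_mul, ← map_mul, hcfix] at h2
        exact mul_eq_one_iff_eq_inv.2 h2
      rw [huc, map_mul, h1, one_mul] at hπu
      exact hπu
    · -- `s` is an even power of `x`
      have hπs : ∀ p ∈ P, π s * π p * (π s)⁻¹ = π p := by
        obtain ⟨k', rfl⟩ := Nat.exists_eq_succ_of_ne_zero hk0
        have e1 : ∀ n : ℕ, ∀ p ∈ P, π (x ^ (2 * n)) * π p * (π (x ^ (2 * n)))⁻¹ = π p := by
          intro n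
          induction n with
          | zero => simp
          | succ n ih2 =>
            intro p hp
            have hpP := hxP p hp
            have e2 : π (x ^ (2 * (n + 1))) * π p * (π (x ^ (2 * (n + 1))))⁻¹ =
                π (x ^ (2 * n)) * (π x * (π x * π p * (π x)⁻¹) * (π x)⁻¹) * (π (x ^ (2 * n)))⁻¹ := by
              rw [mul_add, pow_add, map_mul, mul_one, pow_two, map_mul]
              simp [mul_assoc]
            rw [e2, hinv p hp, ← map_inv π p]
            have hp' : p⁻¹ ∈ P := P.inv_mem hp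
            rw [hinv _ hp', map_inv, inv_inv, ih2 p hp]
        have e3 := e1 (2 ^ k')
        have : s = x ^ (2 * 2 ^ k') := by
          rw [hs, pow_succ, mul_comm]
        rw [this]
        exact e3
      have hπi : π i = 1 := by
        apply hnoinv i hi
        have h1 := hπs i hi
        rw [← map_inv, ← map_mul, ← map_mul, hiinv, map_inv] at h1
        exact mul_eq_one_iff_eq_inv.2 h1.symm
      have hπc : π c ≠ 1 := by
        rw [huc, map_mul, hπi, mul_one] at hπu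
        exact hπu
      let P' : Subgroup H := P ⊓ centralizer ({s} : Set H)
      haveI : Finite P' := Finite.of_injective (fun p : P' => (⟨p.1, p.2.1⟩ : P)) (fun a b h => Subtype.ext (congrArg (fun z : P => (z : H)) h))
      have hP'le : P' ≤ P := inf_le_left
      have hcomm : x * s = s * x := by
        rw [hs]
        exact (Commute.pow_right (Commute.refl x) _)
      have hmemP' : ∀ p, p ∈ P' ↔ p ∈ P ∧ s * p * s⁻¹ = p := by
        intro p
        constructor
        · rintro ⟨h1, h2⟩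
          refine ⟨h1, ?_⟩
          have : s * p = p * s := (mem_centralizer_iff.1 h2) s rfl
          rw [this]
          simp
        · rintro ⟨h1, h2⟩
          refine ⟨h1, mem_centralizer_iff.2 ?_⟩
          rintro _ rfl
          exact mul_inv_eq_iff_eq_mul.1 h2
      obtain ⟨y, hy, hy2, hy3⟩ := ih P' (by
          have h1 : Nat.card P' ∣ Nat.card P := Subgroup.card_dvd_of_le hP'le
          exact Odd.of_dvd_nat hodd h1) (by
          intro p hp
          obtain ⟨h1, h2⟩ := (hmemP' p).1 hp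
          refine (hmemP' _).2 ⟨hxP p h1, ?_⟩
          calc s * (x * p * x⁻¹) * s⁻¹ = x * (s * p * s⁻¹) * x⁻¹ := by
                have h5 : s * x = x * s := hcomm.symm
                calc s * (x * p * x⁻¹) * s⁻¹ = (s * x) * p * (s * x)⁻¹ := by simp [mul_assoc]
                  _ = (x * s) * p * (x * s)⁻¹ := by rw [h5]
                  _ = _ := by simp [mul_assoc]
            _ = x * p * x⁻¹ := by rw [h2]) (by
          intro p hp
          exact ((hmemP' p).1 hp).2) (fun p hp => hinv p (hP'le hp)) (fun p hp => hnoinv p (hP'le hp))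
          c ((hmemP' c).2 ⟨hc, hcfix⟩) hπc
      exact ⟨y, hP'le hy, hy2, hy3⟩

end Inv

/-! ### Getting inverted elements out of a section `S₃` -/

/-- A surjection onto `S₃` yields a `2`-element inverting a `3`-element with nontrivial image. -/
theorem exists_inverted_of_S3 {H : Type*} [Group H] [Finite H] (π : H →* Equiv.Perm (Fin 3))
    (hπ : Function.Surjective π) :
    ∃ (x y : H) (k m : ℕ), x ^ (2 ^ k) = 1 ∧ y ^ (3 ^ m) = 1 ∧ x * y * x⁻¹ = y⁻¹ ∧ π y ≠ 1 := by
  classical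
  haveI : Fact (Nat.Prime 3) := ⟨Nat.prime_three⟩
  haveI : Fact (Nat.Prime 2) := ⟨Nat.prime_two⟩
  let σ : H →* ℤˣ := Equiv.Perm.sign.comp π
  let Ha : Subgroup H := σ.ker
  haveI hHa : Ha.Normal := MonoidHom.normal_ker _
  -- a `3`-element with nontrivial image
  have hS3a : ∃ ρ : Equiv.Perm (Fin 3), Equiv.Perm.sign ρ = 1 ∧ ρ ≠ 1 := by decide
  have hS3t : ∃ τ : Equiv.Perm (Fin 3), Equiv.Perm.sign τ = -1 := by decide
  have hS3 : ∀ ρ : Equiv.Perm (Fin 3), Equiv.Perm.sign ρ = 1 → ρ ^ 3 = 1 := by decide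
  have hS3i : ∀ g h : Equiv.Perm (Fin 3), Equiv.Perm.sign g = 1 → Equiv.Perm.sign h = -1 → h * g * h⁻¹ = g⁻¹ := by
    decide
  have hS3n : ∀ g : Equiv.Perm (Fin 3), Equiv.Perm.sign g = 1 → g * g = 1 → g = 1 := by decide
  obtain ⟨ρ, hρ1, hρ2⟩ := hS3a
  obtain ⟨y₁, hy₁⟩ := hπ ρ
  obtain ⟨a, b, hab, hcomm, ⟨m, ha⟩, hb, haz, hbz⟩ := Cfsg.Agent.Lib.PGroups.exists_pPart 3 y₁
  have hπa : π a ≠ 1 := by
    intro h
    have h1 : π b = ρ := by
      rw [← hy₁, hab, map_mul, h, one_mul]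
    have h2 : π b ^ 3 = 1 := by rw [h1]; exact hS3 ρ hρ1
    have h3 : orderOf (π b) ∣ 3 := orderOf_dvd_of_pow_eq_one h2
    have h4 : orderOf (π b) ∣ orderOf b := orderOf_map_dvd π b
    have h5 : orderOf (π b) = 1 ∨ orderOf (π b) = 3 := (Nat.dvd_prime Nat.prime_three).1 h3
    rcases h5 with h5 | h5
    · rw [orderOf_eq_one_iff] at h5
      exact hρ2 (h1 ▸ h5)
    · rw [h5] at h4
      exact hb h4
  have hy₁a : y₁ ∈ Ha := by
    show σ y₁ = 1
    show Equiv.Perm.sign (π y₁) = 1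
    rw [hy₁, hρ1]
  have haHa : a ∈ Ha := by
    exact (zpowers_le.2 hy₁a) haz
  -- a Sylow subgroup of `Ha`
  let P₀ : Sylow 3 Ha := Sylow.nonempty.some
  let P : Subgroup H := (P₀ : Subgroup Ha).map Ha.subtype
  have hPp : IsPGroup 3 P := P₀.isPGroup'.map _
  -- conjugate `a` into `P`
  have hv : ∃ v ∈ P, π v ≠ 1 := by
    have h1 : IsPGroup 3 (zpowers (⟨a, haHa⟩ : Ha)) := by
      rw [IsPGroup.iff_card, Nat.card_zpowers]
      refine ⟨m, ?_⟩
      rw [← ha]
      exact orderOf_injective Ha.subtype Ha.subtype_injective ⟨a, haHa⟩ |>.symm ▸ rfl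
    obtain ⟨Q, hQ⟩ := h1.exists_le_sylow
    obtain ⟨g, hg⟩ := MulAction.exists_smul_eq Ha Q P₀
    have h2 : (⟨a, haHa⟩ : Ha) ∈ (Q : Subgroup Ha) := hQ (mem_zpowers _)
    have h3 : g * ⟨a, haHa⟩ * g⁻¹ ∈ (P₀ : Subgroup Ha) := by
      rw [← hg, Sylow.coe_subgroup_smul]
      exact ⟨_, h2, rfl⟩
    refine ⟨_, ⟨_, h3, rfl⟩, ?_⟩
    intro h4
    apply hπa
    have h5 : π ((g : H) * a * (g : H)⁻¹) = 1 := h4
    rw [map_mul, map_mul, map_inv] at h5
    have h6 := (mul_inv_eq_one.1 h5)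
    exact mul_left_cancel (h6.trans (mul_one _).symm)
  obtain ⟨v, hvP, hv1⟩ := hv
  -- Frattini
  have hF := Sylow.normalizer_sup_eq_top P₀
  obtain ⟨τ, hτ⟩ := hS3t
  obtain ⟨h₀, hh₀⟩ := hπ τ
  have hmem : h₀ ∈ normalizer (P : Set H) ⊔ Ha := by
    have : h₀ ∈ (⊤ : Subgroup H) := mem_top _
    rw [← hF] at this
    exact this
  rw [Subgroup.mem_sup_of_normal_right] at hmem
  obtain ⟨n, hn, a', ha', hna⟩ := hmem
  have hσn : σ n = -1 := by
    have h1 : σ h₀ = -1 := by
      show Equiv.Perm.sign (π h₀) = -1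
      rw [hh₀, hτ]
    have h2 : σ a' = 1 := ha'
    rw [← hna, map_mul, h2, mul_one] at h1
    exact h1
  obtain ⟨x, o, hxo, hcomm2, ⟨k, hk⟩, ho, hxz, hoz⟩ := Cfsg.Agent.Lib.PGroups.exists_pPart 2 n
  have hσo : σ o = 1 := by
    have h1 : σ o ^ orderOf o = 1 := by rw [← map_pow, pow_orderOf_eq_one, map_one]
    have h2 : ¬ 2 ∣ orderOf o := ho
    have h3 : Odd (orderOf o) := Nat.odd_iff.2 (by omega)
    rcases Int.units_eq_one_or (σ o) with h | h
    · exact h
    · rw [h, h3.neg_one_pow] at h1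
      exact absurd h1 (by decide)
  have hσx : σ x = -1 := by
    rw [hxo, map_mul, hσo, mul_one] at hσn
    exact hσn
  have hxN : x ∈ normalizer (P : Set H) := (zpowers_le.2 hn) hxz
  have hxk : x ^ (2 ^ k) = 1 := by
    rw [← hk]
    exact pow_orderOf_eq_one x
  have hPHa : P ≤ Ha := by
    rintro _ ⟨p, _, rfl⟩
    exact p.2
  haveI : Finite P := inferInstance
  have hoddP : Odd (Nat.card P) := by
    rw [IsPGroup.iff_card] at hPp
    obtain ⟨j, hj⟩ := hPp
    rw [hj]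
    exact Odd.pow (by decide)
  obtain ⟨y, hyP, hy2, hy3⟩ := exists_inverted π x k P hoddP
    (fun p hp => (mem_normalizer_iff.1 hxN p).1 hp)
    (fun p hp => by rw [hxk]; simp)
    (fun p hp => hS3i _ _ (hPHa hp) hσx)
    (fun p hp h => hS3n _ (hPHa hp) h)
    v hvP hv1
  obtain ⟨m', hm'⟩ := (IsPGroup.iff_orderOf.1 hPp) ⟨y, hyP⟩
  refine ⟨x, y, k, m', hxk, ?_, hy2, hy3⟩
  have h1 : orderOf y = 3 ^ m' := (Subgroup.orderOf_mk y hyP).symm.trans hm'
  rw [← h1]
  exact pow_orderOf_eq_one y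

/-- The direction `S₃` involved in `N(T)/C(T)` gives `S₄` involved. -/
theorem involves_S4_of_S3 {G : Type*} [Group G] [Finite G] (T : Subgroup G) (hT : IsPGroup 2 T)
    (h : Involves (Equiv.Perm (Fin 3)) (↥(normalizer (T : Set G)) ⧸
      (centralizer (T : Set G)).subgroupOf (normalizer (T : Set G)))) :
    Involves (Equiv.Perm (Fin 4)) G := by
  classical
  set N := normalizer (T : Set G) with hN
  let C : Subgroup N := (centralizer (T : Set G)).subgroupOf N
  haveI hCn : C.Normal := by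
    refine ⟨fun c hc g => ?_⟩
    rw [mem_subgroupOf, mem_centralizer_iff] at hc ⊢
    intro t ht
    have hg := (mem_normalizer_iff.1 g.2)
    have h1 : (g : G)⁻¹ * t * (g : G) ∈ T := by
      have := (hg ((g : G)⁻¹ * t * (g : G))).2
      apply this
      simpa [mul_assoc] using ht
    have h2 := hc _ h1
    show t * ((g : G) * (c : G) * (g : G)⁻¹) = (g : G) * (c : G) * (g : G)⁻¹ * t
    calc t * ((g : G) * (c : G) * (g : G)⁻¹) = (g : G) * (((g : G)⁻¹ * t * (g : G)) * (c : G)) * (g : G)⁻¹ := by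
          simp [mul_assoc]
      _ = (g : G) * ((c : G) * ((g : G)⁻¹ * t * (g : G))) * (g : G)⁻¹ := by rw [h2]
      _ = _ := by simp [mul_assoc]
  obtain ⟨K', R', hR', ⟨e⟩⟩ := h
  let q : N →* N ⧸ C := QuotientGroup.mk' C
  let H : Subgroup N := K'.comap q
  let π₀ : H →* K' := q.subgroupComap K'
  have hπ₀ : Function.Surjective π₀ := q.subgroupComap_surjective_of_surjective K' (QuotientGroup.mk'_surjective C)
  let π : H →* Equiv.Perm (Fin 3) := e.toMonoidHom.comp ((QuotientGroup.mk' (R'.subgroupOf K')).comp π₀)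
  have hπ : Function.Surjective π := e.surjective.comp ((QuotientGroup.mk'_surjective _).comp hπ₀)
  have hπC : ∀ h : H, ((h : N) : G) ∈ centralizer (T : Set G) → π h = 1 := by
    intro h hc
    have h1 : q (h : N) = 1 := (QuotientGroup.eq_one_iff _).2 hc
    have h2 : π₀ h = 1 := Subtype.ext h1
    show e ((QuotientGroup.mk' (R'.subgroupOf K')) (π₀ h)) = 1
    rw [h2, map_one, map_one]
  obtain ⟨x, y, k, m, hxk, hym, hxy, hy1⟩ := exists_inverted_of_S3 π hπ
  -- the right power of `y`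
  let Cc : Subgroup H := (centralizer (T : Set G)).comap (N.subtype.comp H.subtype)
  have hex : ∃ j, y ^ (3 ^ j) ∈ Cc := ⟨m, by rw [hym]; exact Subgroup.one_mem _⟩
  let j := Nat.find hex
  have hj : y ^ (3 ^ j) ∈ Cc := Nat.find_spec hex
  have hj0 : j ≠ 0 := by
    intro h0
    rw [h0, pow_zero, pow_one] at hj
    exact hy1 (hπC y hj)
  obtain ⟨j', hj'⟩ := Nat.exists_eq_succ_of_ne_zero hj0
  have hj'' : y ^ (3 ^ j') ∉ Cc := Nat.find_min hex (by omega : j' < j)
  set y₀ := y ^ (3 ^ j') with hy₀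
  have hy₀3 : y₀ ^ 3 ∈ Cc := by
    rw [hy₀, ← pow_mul, ← pow_succ]
    rw [hj'] at hj
    exact hj
  have hxy₀ : x * y₀ * x⁻¹ = y₀⁻¹ := by
    rw [hy₀, ← conj_pow, hxy, inv_pow]
  -- apply the core in `N`
  let T' : Subgroup N := T.subgroupOf N
  haveI hT'n : T'.Normal := Subgroup.normal_in_normalizer
  have hT'p : IsPGroup 2 T' := hT.comap_of_injective _ N.subtype_injective
  have hcore := s4_core _ rfl T' hT'p ((x : N)) ((y₀ : N)) (by
      intro t ht
      have h1 : ((y₀ ^ 3 : H) : N).1 ∈ centralizer (T : Set G) := hy₀3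
      have h2 := (mem_centralizer_iff.1 h1) t.1 ht
      apply Subtype.ext
      exact h2.symm) (by
      by_contra hcon
      push Not at hcon
      apply hj''
      show ((y₀ : N) : G) ∈ centralizer (T : Set G)
      rw [mem_centralizer_iff]
      intro t ht
      have htN : t ∈ N := by
        rw [hN]
        have : T ≤ normalizer (T : Set G) := le_normalizer
        exact this ht
      have := hcon ⟨t, htN⟩ ht
      exact (congrArg Subtype.val this).symm) k (by
      have : (x ^ (2 ^ k) : H) = 1 := hxk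
      have h2 := congrArg (fun z : H => (z : N)) this
      simpa using h2) (by
      have h2 := congrArg (fun z : H => (z : N)) hxy₀
      simpa using h2)
  exact Cfsg.Agent.Lib.Fusion.Qd.involves_of_subgroup N hcore

end Cfsg.Agent.Lib.LocalEven.S4Inv
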