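import Cfsg.Agent.Lib.LocalEven.ZJControl
import Cfsg.Agent.Lib.LocalEven.S4Inv

/-! Groups in which no nontrivial `q`-element is inverted: basic properties. -/

set_option autoImplicit false
set_option linter.unusedSectionVars false
set_option linter.style.haveILetI false

namespace Cfsg.Agent.Lib.LocalEven.InvZJ

open Subgroup Cfsg Cfsg.Agent.Lib.LocalEven Cfsg.Agent.Lib.LocalEven2
open scoped commutatorElement

universe u

/-- No nontrivial `q`-element of `X` is inverted by an element of `X`. -/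
def InvFree (q : ℕ) {G : Type*} [Group G] (X : Subgroup G) : Prop :=
  ∀ x ∈ X, (∃ k : ℕ, x ^ q ^ k = 1) → x ≠ 1 → ∀ g ∈ X, g * x * g⁻¹ ≠ x⁻¹

section basic
variable {q : ℕ} {G G' : Type*} [Group G] [Group G']

theorem InvFree.mono {X Y : Subgroup G} (h : InvFree q Y) (hXY : X ≤ Y) : InvFree q X :=
  fun x hx hk hne g hg => h x (hXY hx) hk hne g (hXY hg)

theorem InvFree.of_map {f : G' →* G} (hf : Function.Injective f) {X : Subgroup G'}
    (h : InvFree q (X.map f)) : InvFree q X := by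
  rintro x hx ⟨k, hk⟩ hne g hg he
  apply h (f x) ⟨x, hx, rfl⟩ ⟨k, by rw [← map_pow, hk, map_one]⟩
    (fun h0 => hne (hf (by rw [h0, map_one]))) (f g) ⟨g, hg, rfl⟩
  rw [← map_inv, ← map_mul, ← map_mul, he, map_inv]

theorem conj_pow' (c x : G) (n : ℕ) : (c⁻¹ * x * c) ^ n = c⁻¹ * x ^ n * c := by
  have := conj_pow (a := c⁻¹) (b := x) (i := n)
  simpa using this

theorem InvFree.cjS [Fact q.Prime] [Finite G] {X : Subgroup G} (h : InvFree q X) (c : G) : InvFree q (LocalEven2.cjS c X) := by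
  rintro x hx ⟨k, hk⟩ hne g hg he
  rw [mem_cjS] at hx hg
  apply h _ hx ⟨k, ?_⟩ ?_ _ hg
  · have e : c⁻¹ * g * c * (c⁻¹ * x * c) * (c⁻¹ * g * c)⁻¹ = c⁻¹ * (g * x * g⁻¹) * c := by group
    rw [e, he]
    group
  · rw [conj_pow', hk]
    group
  · intro h0
    apply hne
    have : x = c * (c⁻¹ * x * c) * c⁻¹ := by group
    rw [this, h0]
    group

theorem isPGroup_zpowers_of_pow {x : G} {k : ℕ} (h : x ^ q ^ k = 1) : IsPGroup q (zpowers x) := by
  rintro ⟨_, m, rfl⟩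
  refine ⟨k, Subtype.ext ?_⟩
  show ((x ^ m) ^ q ^ k) = 1
  rw [← zpow_natCast, ← zpow_mul, mul_comm, zpow_mul, zpow_natCast, h, one_zpow]

theorem exists_pow_of_isPGroup {Y : Subgroup G} (hY : IsPGroup q Y) {y : G} (hy : y ∈ Y) :
    ∃ m : ℕ, y ^ q ^ m = 1 := by
  obtain ⟨m, hm⟩ := hY ⟨y, hy⟩
  exact ⟨m, congrArg Subtype.val hm⟩

end basic

section main
variable {q : ℕ} [Fact q.Prime] {G : Type*} [Group G] [Finite G]

theorem SylIn.cjS {X S : Subgroup G} (hS : SylIn q X S) (c : G) :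
    SylIn q (LocalEven2.cjS c X) (LocalEven2.cjS c S) := by
  refine ⟨Subgroup.map_mono hS.le, hS.isP.map _, ?_⟩
  have : (LocalEven2.cjS c S).relIndex (LocalEven2.cjS c X) = S.relIndex X := by
    exact Subgroup.relIndex_map_map_of_injective _ _ (MulEquiv.injective _)
  rw [this]
  exact hS.ndvd

/-- Control on the Sylow subgroup gives absence of inversions. -/
theorem invFree_of_ctrl {H Y S : Subgroup G} (hS : SylIn q H S) (hSY : S ≤ Y) (hY : InvFree q Y)
    (hc : ∀ x ∈ S, ∀ g ∈ H, g * x * g⁻¹ ∈ S → ∃ n ∈ Y, n * x * n⁻¹ = g * x * g⁻¹) : InvFree q H := by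
  rintro x hx ⟨k, hk⟩ hne g hg he
  obtain ⟨c, hcH, hle⟩ := hS.exists_cj_le (zpowers_le.2 hx) (isPGroup_zpowers_of_pow hk)
  have hx' : c * x * c⁻¹ ∈ S := hle ⟨x, mem_zpowers x, rfl⟩
  have e1 : (c * g * c⁻¹) * (c * x * c⁻¹) * (c * g * c⁻¹)⁻¹ = (c * x * c⁻¹)⁻¹ := by
    have : (c * g * c⁻¹) * (c * x * c⁻¹) * (c * g * c⁻¹)⁻¹ = c * (g * x * g⁻¹) * c⁻¹ := by group
    rw [this, he]
    group
  obtain ⟨n, hn, hnx⟩ := hc _ hx' (c * g * c⁻¹) (H.mul_mem (H.mul_mem hcH hg) (H.inv_mem hcH))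
    (by rw [e1]; exact S.inv_mem hx')
  refine hY _ (hSY hx') ⟨k, ?_⟩ ?_ n hn (hnx.trans e1)
  · rw [conj_pow, hk]
    group
  · intro h0
    apply hne
    have : x = c⁻¹ * (c * x * c⁻¹) * c := by group
    rw [this, h0]
    group

/-- Absence of inversions passes to quotients by normal `q`-subgroups. -/
theorem invFree_map_quot (hq : q ≠ 2) {Y M : Subgroup G} [hY : Y.Normal] (hYp : IsPGroup q Y)
    (hYM : Y ≤ M) (hM : InvFree q M) : InvFree q (M.map (QuotientGroup.mk' Y)) := by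
  classical
  have hqp : q.Prime := Fact.out
  have hqodd : Odd q := hqp.odd_of_ne_two hq
  obtain ⟨π, hπdef⟩ : ∃ π : G →* G ⧸ Y, π = QuotientGroup.mk' Y := ⟨_, rfl⟩
  have hπ1 : ∀ x : G, π x = 1 ↔ x ∈ Y := fun x => by rw [hπdef]; exact QuotientGroup.eq_one_iff x
  rw [← hπdef]
  rintro _ ⟨x, hxM, rfl⟩ ⟨k, hk⟩ hne _ ⟨g, hgM, rfl⟩ he
  -- `x` is a `q`-element
  have hk' : x ^ q ^ k ∈ Y := by
    rw [← hπ1, map_pow, hk]
  obtain ⟨m₀, hm₀⟩ := exists_pow_of_isPGroup hYp hk'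
  have hxq : x ^ q ^ (k + m₀) = 1 := by
    rw [pow_add, pow_mul, hm₀]
  -- the `q`-group `R`
  obtain ⟨R, hRdef⟩ : ∃ R : Subgroup G, R = zpowers x ⊔ Y := ⟨_, rfl⟩
  have hRp : IsPGroup q R := by
    rw [hRdef]
    exact IsPGroup.to_sup_of_normal_right (isPGroup_zpowers_of_pow hxq) hYp
  have hRM : R ≤ M := by
    rw [hRdef]
    exact sup_le (zpowers_le.2 hxM) hYM
  have hRπ : ∀ p ∈ R, π p ∈ zpowers (π x) := by
    have : R ≤ (zpowers (π x)).comap π := by
      rw [hRdef]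
      refine sup_le ?_ ?_
      · rw [zpowers_le]
        exact mem_zpowers _
      · intro y hy
        show π y ∈ zpowers (π x)
        rw [(hπ1 y).2 hy]
        exact one_mem _
    exact fun p hp => this hp
  have hinvz : ∀ c : G ⧸ Y, c * π x * c⁻¹ = (π x)⁻¹ → ∀ w ∈ zpowers (π x), c * w * c⁻¹ = w⁻¹ := by
    rintro c hc _ ⟨i, rfl⟩
    show c * (π x) ^ i * c⁻¹ = ((π x) ^ i)⁻¹
    rw [← conj_zpow, hc, inv_zpow]
  -- the `2`-part of `g`
  obtain ⟨a, b, hgab, hab, ⟨m, hm⟩, hb, ha', hb'⟩ := Cfsg.Agent.Lib.PGroups.exists_pPart 2 g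
  have hg2 : π (g * g) * π x * (π (g * g))⁻¹ = π x := by
    rw [map_mul]
    have : (π g * π g) * π x * (π g * π g)⁻¹ = π g * (π g * π x * (π g)⁻¹) * (π g)⁻¹ := by group
    rw [this, he]
    have h2 : π g * (π x)⁻¹ * (π g)⁻¹ = (π g * π x * (π g)⁻¹)⁻¹ := by group
    rw [h2, he, inv_inv]
  have hbcent : π b * π x * (π b)⁻¹ = π x := by
    have hodd : Odd (orderOf b) := by
      rw [← Nat.not_even_iff_odd, even_iff_two_dvd]
      exact hb
    obtain ⟨N, hN⟩ := hodd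
    have hb1 : b ^ (2 * N + 1) = 1 := by rw [← hN, pow_orderOf_eq_one]
    obtain ⟨t, ht⟩ : b ^ (N + 1) ∈ zpowers g := pow_mem hb' _
    have ht' : g ^ t = b ^ (N + 1) := ht
    have e1 : b = (g * g) ^ t := by
      have e2 : b = b ^ (N + 1) * b ^ (N + 1) := by
        rw [← pow_add]
        have : N + 1 + (N + 1) = (2 * N + 1) + 1 := by ring
        rw [this, pow_succ, hb1, one_mul]
      rw [e2, ← ht', ← zpow_add, ← sq, ← zpow_natCast (g) 2, ← zpow_mul]
      congr 1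
      push_cast
      ring
    have hC : π (g * g) ∈ centralizer ({π x} : Set (G ⧸ Y)) := by
      rw [mem_centralizer_iff]
      intro h hh
      rw [Set.mem_singleton_iff.1 hh]
      exact (mul_inv_eq_iff_eq_mul.1 hg2).symm
    have hC2 : π b ∈ centralizer ({π x} : Set (G ⧸ Y)) := by
      rw [e1, map_zpow]
      exact zpow_mem hC t
    have := mem_centralizer_iff.1 hC2 (π x) rfl
    rw [← this]
    group
  have hainv : π a * π x * (π a)⁻¹ = (π x)⁻¹ := by
    have e2 : π a = π g * (π b)⁻¹ := by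
      rw [hgab, map_mul]
      group
    rw [e2]
    have e3 : π g * (π b)⁻¹ * π x * (π g * (π b)⁻¹)⁻¹ = π g * ((π b)⁻¹ * π x * π b) * (π g)⁻¹ := by group
    rw [e3]
    have e4 : (π b)⁻¹ * π x * π b = π x := by
      nth_rewrite 1 [← hbcent]
      group
    rw [e4, he]
  have haM : a ∈ M := (zpowers_le.2 hgM) ha'
  have hRfin : Finite R := inferInstance
  obtain ⟨r₀, hr₀⟩ := IsPGroup.iff_card.1 hRp
  have hRodd : Odd (Nat.card R) := by
    rw [hr₀]
    exact hqodd.pow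
  have ha1 : a ^ 2 ^ m = 1 := by rw [← hm, pow_orderOf_eq_one]
  have hπx2 : ∀ p ∈ R, π p * π p = 1 → π p = 1 := by
    intro p hp h2
    obtain ⟨i, hi⟩ := hRπ p hp
    have h3 : (π p) ^ q ^ k = 1 := by
      rw [← hi, ← zpow_natCast, ← zpow_mul, mul_comm, zpow_mul, zpow_natCast, hk, one_zpow]
    have h4 : (π p) ^ 2 = 1 := by rw [sq, h2]
    have hcop : Nat.Coprime 2 (q ^ k) := Nat.Coprime.pow_right _ (Nat.coprime_two_left.2 hqodd)
    have h5 := pow_gcd_eq_one.2 ⟨h4, h3⟩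
    rwa [hcop, pow_one] at h5
  obtain ⟨y, hyR, hyinv, hy1⟩ := S4Inv.exists_inverted π a m R hRodd
    (by
      have : R ≤ R.comap (MulAut.conj a).toMonoidHom := by
        conv_lhs => rw [hRdef]
        refine sup_le ?_ ?_
        · rw [zpowers_le]
          show a * x * a⁻¹ ∈ R
          have e5 : x * (a * x * a⁻¹) ∈ Y := by
            rw [← hπ1, map_mul, map_mul, map_mul, map_inv, hainv, mul_inv_cancel]
          have e6 : a * x * a⁻¹ = x⁻¹ * (x * (a * x * a⁻¹)) := by group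
          rw [e6, hRdef]
          exact mul_mem (inv_mem (le_sup_left (a := zpowers x) (b := Y) (mem_zpowers x)))
            (le_sup_right (a := zpowers x) (b := Y) e5)
        · intro y hy
          show a * y * a⁻¹ ∈ R
          rw [hRdef]
          exact le_sup_right (a := zpowers x) (b := Y) (hY.conj_mem y hy a)
      exact fun p hp => this hp)
    (by
      intro p _
      rw [ha1]
      group)
    (fun p hp => hinvz _ hainv _ (hRπ p hp))
    hπx2 x (by rw [hRdef]; exact le_sup_left (a := zpowers x) (b := Y) (mem_zpowers x)) hne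
  obtain ⟨m₁, hm₁⟩ := exists_pow_of_isPGroup hRp hyR
  refine hM y (hRM hyR) ⟨m₁, hm₁⟩ ?_ a haM hyinv
  rintro rfl
  exact hy1 (map_one π)

end main

end Cfsg.Agent.Lib.LocalEven.InvZJ
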