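import Cfsg.Agent.Lib.LocalEven.InvZJ1
import Cfsg.Agent.Lib.OddLocal.PStable
import Cfsg.Agent.Lib.Struct.ActBridge

/-! Two quadratic automorphisms: the group generated is a `q`-group or contains an involution commuting
with both of them. -/

set_option autoImplicit false
set_option linter.unusedSectionVars false
set_option linter.style.haveILetI false

namespace Cfsg.Agent.Lib.LocalEven.InvZJ

open Subgroup Cfsg Cfsg.Agent.Lib.LocalEven Cfsg.Agent.Lib.LocalEven2
open scoped commutatorElement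

universe u

section ring
variable {A : Type*} [Ring A]

/-- The invariant of an element `r` of the group generated by `1 + x`, `1 + y`. -/
structure QI (x y r r' : A) : Prop where
  rr : r * r' = 1
  r'r : r' * r = 1
  zc : r * (x * y + y * x) = (x * y + y * x) * r
  t1x : Commute (r + r') x
  t1y : Commute (r + r') y
  t2x : Commute (r * x - x * r') x
  t2y : Commute (r * x - x * r') y
  t3x : Commute (r * y - y * r') x
  t3y : Commute (r * y - y * r') y
  t4x : Commute (r * x * y + y * x * r') x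
  t4y : Commute (r * x * y + y * x * r') y

theorem z_comm_x {x y : A} (hx : x * x = 0) : Commute (x * y + y * x) x := by
  show (x * y + y * x) * x = x * (x * y + y * x)
  have e1 : (x * y + y * x) * x = x * y * x + y * (x * x) := by noncomm_ring
  have e2 : x * (x * y + y * x) = (x * x) * y + x * y * x := by noncomm_ring
  rw [e1, e2, hx]
  simp

theorem z_comm_y {x y : A} (hy : y * y = 0) : Commute (x * y + y * x) y := by
  show (x * y + y * x) * y = y * (x * y + y * x)
  have e1 : (x * y + y * x) * y = x * (y * y) + y * x * y := by noncomm_ring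
  have e2 : y * (x * y + y * x) = y * x * y + (y * y) * x := by noncomm_ring
  rw [e1, e2, hy]
  simp

theorem QI.start {x y : A} (hx : x * x = 0) (hy : y * y = 0) : QI x y 1 1 where
  rr := by simp
  r'r := by simp
  zc := by simp
  t1x := by
    show (1 + 1) * x = x * (1 + 1)
    noncomm_ring
  t1y := by
    show (1 + 1) * y = y * (1 + 1)
    noncomm_ring
  t2x := by
    have : (1 : A) * x - x * 1 = 0 := by simp
    rw [this]
    exact Commute.zero_left _
  t2y := by
    have : (1 : A) * x - x * 1 = 0 := by simp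
    rw [this]
    exact Commute.zero_left _
  t3x := by
    have : (1 : A) * y - y * 1 = 0 := by simp
    rw [this]
    exact Commute.zero_left _
  t3y := by
    have : (1 : A) * y - y * 1 = 0 := by simp
    rw [this]
    exact Commute.zero_left _
  t4x := by
    have : (1 : A) * x * y + y * x * 1 = x * y + y * x := by simp
    rw [this]
    exact z_comm_x hx
  t4y := by
    have : (1 : A) * x * y + y * x * 1 = x * y + y * x := by simp
    rw [this]
    exact z_comm_y hy

theorem QI.stepx {x y r r' : A} (hx : x * x = 0) (h : QI x y r r') :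
    QI x y (r * (1 + x)) ((1 - x) * r') := by
  have hrr : (r * (1 + x)) * ((1 - x) * r') = 1 := by
    have e : (r * (1 + x)) * ((1 - x) * r') = r * r' - r * (x * x) * r' := by noncomm_ring
    rw [e, hx, h.rr]
    simp
  have hr'r : ((1 - x) * r') * (r * (1 + x)) = 1 := by
    have e : ((1 - x) * r') * (r * (1 + x)) = (1 - x) * (r' * r) * (1 + x) := by noncomm_ring
    rw [e, h.r'r]
    have e2 : (1 - x) * 1 * (1 + x) = 1 - x * x := by noncomm_ring
    rw [e2, hx]
    simp
  have e1 : r * (1 + x) + (1 - x) * r' = (r + r') + (r * x - x * r') := by noncomm_ring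
  have e2 : r * (1 + x) * x - x * ((1 - x) * r') = (r * x - x * r') + r * (x * x) + (x * x) * r' := by
    noncomm_ring
  have e3 : r * (1 + x) * y - y * ((1 - x) * r') = (r * y - y * r') + (r * x * y + y * x * r') := by
    noncomm_ring
  have e4 : r * (1 + x) * x * y + y * x * ((1 - x) * r') =
      (r * x * y + y * x * r') + r * (x * x) * y - y * (x * x) * r' := by noncomm_ring
  rw [hx] at e2 e4
  simp only [mul_zero, zero_mul, add_zero, sub_zero] at e2 e4
  refine ⟨hrr, hr'r, ?_, ?_, ?_, ?_, ?_, ?_, ?_, ?_, ?_⟩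
  · have hzx := z_comm_x (y := y) hx
    have : r * (1 + x) * (x * y + y * x) = r * ((1 + x) * (x * y + y * x)) := by noncomm_ring
    rw [this]
    have h3 : (1 + x) * (x * y + y * x) = (x * y + y * x) * (1 + x) :=
      ((Commute.one_left _).add_left hzx.symm)
    rw [h3, ← mul_assoc, h.zc, mul_assoc]
  · rw [e1]; exact h.t1x.add_left h.t2x
  · rw [e1]; exact h.t1y.add_left h.t2y
  · rw [e2]; exact h.t2x
  · rw [e2]; exact h.t2y
  · rw [e3]; exact h.t3x.add_left h.t4x
  · rw [e3]; exact h.t3y.add_left h.t4y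
  · rw [e4]; exact h.t4x
  · rw [e4]; exact h.t4y

theorem QI.negx {x y r r' : A} (h : QI x y r r') : QI (-x) y r r' := by
  have e2 : r * -x - -x * r' = -(r * x - x * r') := by noncomm_ring
  have e4 : r * -x * y + y * -x * r' = -(r * x * y + y * x * r') := by noncomm_ring
  have ez : -x * y + y * -x = -(x * y + y * x) := by noncomm_ring
  refine ⟨h.rr, h.r'r, ?_, h.t1x.neg_right, h.t1y, ?_, ?_, h.t3x.neg_right, h.t3y, ?_, ?_⟩
  · rw [ez, mul_neg, neg_mul, h.zc]
  · rw [e2]; exact h.t2x.neg_left.neg_right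
  · rw [e2]; exact h.t2y.neg_left
  · rw [e4]; exact h.t4x.neg_left.neg_right
  · rw [e4]; exact h.t4y.neg_left

theorem QI.swap {x y r r' : A} (hx : x * x = 0) (hy : y * y = 0) (h : QI x y r r') : QI y x r r' := by
  have hzx := z_comm_x (y := y) hx
  have hzy := z_comm_y (x := x) hy
  have hz' : (x * y + y * x) * r' = r' * (x * y + y * x) := by
    calc (x * y + y * x) * r' = (r' * r) * ((x * y + y * x) * r') := by rw [h.r'r, one_mul]
      _ = r' * (r * (x * y + y * x)) * r' := by noncomm_ring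
      _ = r' * ((x * y + y * x) * r) * r' := by rw [h.zc]
      _ = r' * (x * y + y * x) * (r * r') := by noncomm_ring
      _ = r' * (x * y + y * x) := by rw [h.rr, mul_one]
  have e : r * y * x + x * y * r' = (x * y + y * x) * (r + r') - (r * x * y + y * x * r') := by
    have e5 : (x * y + y * x) * (r + r') = r * (x * y + y * x) + (x * y + y * x) * r' := by
      rw [mul_add, h.zc]
    rw [e5]
    noncomm_ring
  have ez : y * x + x * y = x * y + y * x := add_comm _ _
  refine ⟨h.rr, h.r'r, ?_, h.t1y, h.t1x, h.t3y, h.t3x, h.t2y, h.t2x, ?_, ?_⟩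
  · rw [ez]; exact h.zc
  · rw [e]; exact (hzy.mul_left h.t1y).sub_left h.t4y
  · rw [e]; exact (hzx.mul_left h.t1x).sub_left h.t4x

end ring

section rep
variable {V : Type*} [AddCommGroup V] {L : Type*} [Group L]

theorem mem_closure_qi (ρ : L →* AddMonoid.End V) (a b : L) (ha : (ρ a - 1) * (ρ a - 1) = 0)
    (hb : (ρ b - 1) * (ρ b - 1) = 0) (g : L) (hg : g ∈ closure ({a, b} : Set L)) :
    QI (ρ a - 1) (ρ b - 1) (ρ g) (ρ g⁻¹) := by
  obtain ⟨x, hxdef⟩ : ∃ x, x = ρ a - 1 := ⟨_, rfl⟩
  obtain ⟨y, hydef⟩ : ∃ y, y = ρ b - 1 := ⟨_, rfl⟩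
  rw [← hxdef] at ha ⊢
  rw [← hydef] at hb ⊢
  have hae : ρ a = 1 + x := by rw [hxdef]; abel
  have hbe : ρ b = 1 + y := by rw [hydef]; abel
  have hainv : ρ a⁻¹ = 1 - x := by
    have h1 : ρ a⁻¹ * ρ a = 1 := by rw [← map_mul, inv_mul_cancel, map_one]
    have h2 : (1 + x) * (1 - x) = 1 := by
      have : (1 + x) * (1 - x) = 1 - x * x := by noncomm_ring
      rw [this, ha]
      simp
    calc ρ a⁻¹ = ρ a⁻¹ * ((1 + x) * (1 - x)) := by rw [h2, mul_one]
      _ = (ρ a⁻¹ * ρ a) * (1 - x) := by rw [hae, mul_assoc]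
      _ = _ := by rw [h1, one_mul]
  have hbinv : ρ b⁻¹ = 1 - y := by
    have h1 : ρ b⁻¹ * ρ b = 1 := by rw [← map_mul, inv_mul_cancel, map_one]
    have h2 : (1 + y) * (1 - y) = 1 := by
      have : (1 + y) * (1 - y) = 1 - y * y := by noncomm_ring
      rw [this, hb]
      simp
    calc ρ b⁻¹ = ρ b⁻¹ * ((1 + y) * (1 - y)) := by rw [h2, mul_one]
      _ = (ρ b⁻¹ * ρ b) * (1 - y) := by rw [hbe, mul_assoc]
      _ = _ := by rw [h1, one_mul]
  have hnx : (-x) * (-x) = 0 := by rw [neg_mul_neg, ha]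
  have hny : (-y) * (-y) = 0 := by rw [neg_mul_neg, hb]
  induction hg using Subgroup.closure_induction_right with
  | one =>
    rw [inv_one, map_one]
    exact QI.start ha hb
  | mul_right g _ s hs ih =>
    rcases hs with rfl | hs
    · rw [mul_inv_rev, map_mul, map_mul, hainv, hae]
      exact ih.stepx ha
    · rw [Set.mem_singleton_iff.1 hs, mul_inv_rev, map_mul, map_mul, hbinv, hbe]
      exact ((ih.swap ha hb).stepx hb).swap hb ha
  | mul_inv_cancel g _ s hs ih =>
    rcases hs with rfl | hs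
    · rw [mul_inv_rev, inv_inv, map_mul, map_mul, hainv, hae]
      have h1 := ih.negx.stepx hnx
      have e1 : (1 : AddMonoid.End V) + -x = 1 - x := by abel
      have e2 : (1 : AddMonoid.End V) - -x = 1 + x := by abel
      rw [e1, e2] at h1
      have h2 := h1.negx
      rwa [neg_neg] at h2
    · rw [Set.mem_singleton_iff.1 hs, mul_inv_rev, inv_inv, map_mul, map_mul, hbinv, hbe]
      have h1 := (ih.swap ha hb).negx.stepx hny
      have e1 : (1 : AddMonoid.End V) + -y = 1 - y := by abel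
      have e2 : (1 : AddMonoid.End V) - -y = 1 + y := by abel
      rw [e1, e2] at h1
      have h2 := h1.negx
      rw [neg_neg] at h2
      exact h2.swap hb ha

/-- An involution in the group generated by two quadratic elements commutes with both. -/
theorem quad_invol_comm (h2 : ∀ v : V, v + v = 0 → v = 0) (ρ : L →* AddMonoid.End V) (a b : L)
    (ha : (ρ a - 1) * (ρ a - 1) = 0) (hb : (ρ b - 1) * (ρ b - 1) = 0) (g : L)
    (hg : g ∈ closure ({a, b} : Set L)) (hgg : ρ g * ρ g = 1) :
    Commute (ρ g) (ρ a) ∧ Commute (ρ g) (ρ b) := by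
  have hQ := mem_closure_qi ρ a b ha hb g hg
  have hr' : ρ g⁻¹ = ρ g := by
    have h1 : ρ g⁻¹ * ρ g = 1 := by rw [← map_mul, inv_mul_cancel, map_one]
    calc ρ g⁻¹ = ρ g⁻¹ * (ρ g * ρ g) := by rw [hgg, mul_one]
      _ = (ρ g⁻¹ * ρ g) * ρ g := by rw [mul_assoc]
      _ = ρ g := by rw [h1, one_mul]
  have key : ∀ u : AddMonoid.End V, Commute (ρ g + ρ g⁻¹) u → Commute (ρ g) u := by
    intro u hu
    rw [hr'] at hu
    show ρ g * u = u * ρ g
    refine AddMonoidHom.ext fun v => ?_
    have h3 : (ρ g + ρ g) * u = u * (ρ g + ρ g) := hu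
    have h4 := DFunLike.congr_fun h3 v
    have h5 : (ρ g * u) v + (ρ g * u) v = (u * ρ g) v + (u * ρ g) v := by
      rw [add_mul, mul_add] at h4
      exact h4
    have h6 : ((ρ g * u) v - (u * ρ g) v) + ((ρ g * u) v - (u * ρ g) v) = 0 := by
      rw [sub_add_sub_comm, h5, sub_self]
    exact sub_eq_zero.1 (h2 _ h6)
  constructor
  · have := key _ hQ.t1x
    show ρ g * ρ a = ρ a * ρ g
    have h7 : ρ a = (ρ a - 1) + 1 := by abel
    rw [h7]
    exact this.add_right (Commute.one_right _)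
  · have := key _ hQ.t1y
    show ρ g * ρ b = ρ b * ρ g
    have h7 : ρ b = (ρ b - 1) + 1 := by abel
    rw [h7]
    exact this.add_right (Commute.one_right _)

end rep

section aut
variable {q : ℕ} [Fact q.Prime]

open SemidirectProduct in
/-- An odd group of automorphisms generated by two quadratic automorphisms of a `q`-group is a `q`-group. -/
theorem odd_quad_aut (hq : q ≠ 2) {W : Type u} [Group W] [Finite W] (hW : IsPGroup q W) (a b : MulAut W)
    (hodd : Odd (Nat.card (closure ({a, b} : Set (MulAut W)))))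
    (ha : ∀ w : W, a (w * (a w)⁻¹) = w * (a w)⁻¹) (hb : ∀ w : W, b (w * (b w)⁻¹) = w * (b w)⁻¹) :
    ∀ r ∈ closure ({a, b} : Set (MulAut W)), ∃ k : ℕ, r ^ q ^ k = 1 := by
  classical
  have hqp : q.Prime := Fact.out
  haveI : Finite (MulAut W) := Finite.of_injective (fun f : MulAut W => (f : W → W)) DFunLike.coe_injective
  obtain ⟨R, hRdef⟩ : ∃ R : Subgroup (MulAut W), R = closure ({a, b} : Set (MulAut W)) := ⟨_, rfl⟩
  rw [← hRdef] at hodd ⊢
  have haR : a ∈ R := hRdef ▸ subset_closure (Set.mem_insert _ _)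
  have hbR : b ∈ R := hRdef ▸ subset_closure (Set.mem_insert_of_mem _ rfl)
  obtain ⟨ψ, hψ⟩ : ∃ ψ : R →* MulAut W, ψ = R.subtype := ⟨_, rfl⟩
  haveI : Finite (W ⋊[ψ] R) := Cfsg.Agent.Lib.Struct.finite_semidirect ψ
  have hHodd : Odd (Nat.card (W ⋊[ψ] R)) := by
    rw [SemidirectProduct.card]
    obtain ⟨n, hn⟩ := IsPGroup.iff_card.1 hW
    rw [hn]
    exact (hqp.odd_of_ne_two hq).pow.mul hodd
  obtain ⟨P, hPdef⟩ : ∃ P : Subgroup (W ⋊[ψ] R), P = (inl : W →* W ⋊[ψ] R).range := ⟨_, rfl⟩
  haveI hPn : P.Normal := by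
    rw [hPdef, range_inl_eq_ker_rightHom]
    exact MonoidHom.normal_ker _
  have hPp : IsPGroup q P := by
    rw [hPdef]
    exact hW.of_surjective (MonoidHom.rangeRestrict inl) (MonoidHom.rangeRestrict_surjective _)
  obtain ⟨a', ha'⟩ : ∃ a' : R, a' = ⟨a, haR⟩ := ⟨_, rfl⟩
  obtain ⟨b', hb'⟩ : ∃ b' : R, b' = ⟨b, hbR⟩ := ⟨_, rfl⟩
  have hψa : ψ a' = a := by rw [hψ, ha']; rfl
  have hψb : ψ b' = b := by rw [hψ, hb']; rfl
  have hquad : ∀ (c : R), (∀ w : W, ψ c (w * (ψ c w)⁻¹) = w * (ψ c w)⁻¹) →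
      ∀ w ∈ P, Commute ⁅w, (inr c : W ⋊[ψ] R)⁆ (inr c) := by
    intro c hc w hw
    rw [hPdef] at hw
    obtain ⟨v, rfl⟩ := hw
    have e1 : ⁅(inl v : W ⋊[ψ] R), (inr c : W ⋊[ψ] R)⁆ = inl (v * (ψ c v)⁻¹) := by
      rw [commutatorElement_def, map_mul, map_inv, ← Cfsg.Agent.Lib.Struct.inl_conj]
      group
    rw [e1]
    show inl _ * inr c = inr c * inl _
    have e2 := Cfsg.Agent.Lib.Struct.inl_conj ψ c (v * (ψ c v)⁻¹)
    rw [hc v] at e2
    exact (mul_inv_eq_iff_eq_mul.1 e2).symm
  have hgen : closure ({(inr a' : W ⋊[ψ] R), inr b'} : Set (W ⋊[ψ] R)) = (inr : R →* W ⋊[ψ] R).range := by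
    have h0 : closure ({a', b'} : Set R) = ⊤ := by
      have h1 := Subgroup.closure_closure_coe_preimage (k := ({a, b} : Set (MulAut W)))
      subst hRdef
      rw [← h1]
      congr 1
      ext c
      simp only [Set.mem_insert_iff, Set.mem_singleton_iff, Set.mem_preimage, ha', hb']
      constructor
      · rintro (rfl | rfl)
        · exact Or.inl rfl
        · exact Or.inr rfl
      · rintro (h | h)
        · exact Or.inl (Subtype.ext h)
        · exact Or.inr (Subtype.ext h)
    rw [MonoidHom.range_eq_map, ← h0, MonoidHom.map_closure, Set.image_pair]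
  intro r hr
  obtain ⟨k, hk⟩ := Cfsg.Agent.Lib.OddLocal.quad_pair_pow hq hHodd P hPp (inr a') (inr b')
    (hquad a' (by rw [hψa]; exact ha)) (hquad b' (by rw [hψb]; exact hb))
    (inr (⟨r, hr⟩ : R)) (by rw [hgen]; exact ⟨_, rfl⟩)
  refine ⟨k, ?_⟩
  have hcomm : ∀ v : W, ψ ((⟨r, hr⟩ : R) ^ q ^ k) v = v := by
    intro v
    have h1 := hk (inl v) (by rw [hPdef]; exact ⟨v, rfl⟩)
    rw [← map_pow] at h1
    have h2 := Cfsg.Agent.Lib.Struct.inl_conj ψ ((⟨r, hr⟩ : R) ^ q ^ k) v
    rw [h1] at h2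
    have h3 : (inl v : W ⋊[ψ] R) = inl (ψ ((⟨r, hr⟩ : R) ^ q ^ k) v) := by
      rw [← h2]
      group
    exact (inl_injective h3).symm
  ext v
  have h4 := hcomm v
  rw [hψ] at h4
  exact h4

/-- **Two quadratic elements on an abelian normal `q`-subgroup.** Either they generate a `q`-group modulo the
centralizer, or their group contains an involution modulo the centralizer, commuting with both of them. -/
theorem qa_dichotomy (hq : q ≠ 2) {X : Type u} [Group X] [Finite X] (W : Subgroup X) [hWn : W.Normal]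
    (hWc : ∀ a ∈ W, ∀ b ∈ W, a * b = b * a) (hWp : IsPGroup q W) (a b : X)
    (ha : ∀ w ∈ W, Commute ⁅w, a⁆ a) (hb : ∀ w ∈ W, Commute ⁅w, b⁆ b) :
    (∀ t ∈ closure ({a, b} : Set X), ∃ k : ℕ, t ^ q ^ k ∈ centralizer (W : Set X)) ∨
    ∃ ε ∈ closure ({a, b} : Set X), ε * ε ∈ centralizer (W : Set X) ∧ ε ∉ centralizer (W : Set X) ∧
      ⁅ε, a⁆ ∈ centralizer (W : Set X) ∧ ⁅ε, b⁆ ∈ centralizer (W : Set X) := by
  classical
  have hqp : q.Prime := Fact.out
  have hqodd : Odd q := hqp.odd_of_ne_two hq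
  haveI : Finite (MulAut W) := Finite.of_injective (fun f : MulAut W => (f : W → W)) DFunLike.coe_injective
  obtain ⟨ρ, hρdef⟩ : ∃ ρ : X →* MulAut W, ρ = MulAut.conjNormal := ⟨_, rfl⟩
  have hρa : ∀ (t : X) (w : W), ((ρ t w : W) : X) = t * (w : X) * t⁻¹ := by
    intro t w
    rw [hρdef]
    exact MulAut.conjNormal_apply t w
  have hρ1 : ∀ t : X, ρ t = 1 ↔ t ∈ centralizer (W : Set X) := by
    intro t
    rw [mem_centralizer_iff]
    constructor
    · intro h w hw
      have h1 := hρa t ⟨w, hw⟩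
      rw [h] at h1
      change w = t * w * t⁻¹ at h1
      rw [eq_mul_inv_iff_mul_eq] at h1
      exact h1
    · intro h
      ext w
      rw [hρa]
      rw [← h w w.2]
      show w.1 * t * t⁻¹ = w.1
      group
  have hcl : closure ({ρ a, ρ b} : Set (MulAut W)) = (closure ({a, b} : Set X)).map ρ := by
    rw [MonoidHom.map_closure, Set.image_pair]
  have hquadA : ∀ t : X, (∀ w ∈ W, Commute ⁅w, t⁆ t) →
      ∀ w : W, ρ t (w * (ρ t w)⁻¹) = w * (ρ t w)⁻¹ := by
    intro t ht w
    apply Subtype.ext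
    rw [hρa]
    have e0 : ((w * (ρ t w)⁻¹ : W) : X) = ⁅(w : X), t⁆ := by
      rw [Subgroup.coe_mul, InvMemClass.coe_inv, hρa, commutatorElement_def]
      group
    rw [e0]
    have h1 := ht w w.2
    have h2 : t * ⁅(w : X), t⁆ = ⁅(w : X), t⁆ * t := h1.symm.eq
    rw [h2]
    group
  by_cases hodd : Odd (Nat.card (closure ({ρ a, ρ b} : Set (MulAut W))))
  · left
    intro t ht
    obtain ⟨k, hk⟩ := odd_quad_aut hq hWp (ρ a) (ρ b) hodd (hquadA a ha) (hquadA b hb) (ρ t)
      (by rw [hcl]; exact ⟨t, ht, rfl⟩)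
    refine ⟨k, (hρ1 _).1 ?_⟩
    rw [map_pow, hk]
  right
  have h2dvd : 2 ∣ Nat.card (closure ({ρ a, ρ b} : Set (MulAut W))) := by
    rw [← even_iff_two_dvd]
    exact Nat.not_odd_iff_even.1 hodd
  obtain ⟨⟨r, hr⟩, hr2⟩ := exists_prime_orderOf_dvd_card' 2 h2dvd
  have hr1 : r ≠ 1 := by
    rintro rfl
    have : orderOf (⟨1, hr⟩ : closure ({ρ a, ρ b} : Set (MulAut W))) = 1 := by
      rw [orderOf_eq_one_iff]
      rfl
    omega
  have hrr : r * r = 1 := by
    have : (⟨r, hr⟩ : closure ({ρ a, ρ b} : Set (MulAut W))) ^ 2 = 1 := by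
      rw [← hr2, pow_orderOf_eq_one]
    have h3 := congrArg Subtype.val this
    simpa [sq] using h3
  rw [hcl] at hr
  obtain ⟨ε, hε, rfl⟩ := hr
  refine ⟨ε, hε, ?_, ?_, ?_⟩
  · rw [← hρ1, map_mul, hrr]
  · rw [← hρ1]
    exact hr1
  -- the endomorphism ring
  letI : CommGroup W := { (inferInstance : Group W) with
    mul_comm := fun a b => Subtype.ext (hWc a a.2 b b.2) }
  let V := Additive W
  let cj : X → V → V := fun t v => Additive.ofMul ⟨t * ((Additive.toMul v : W) : X) * t⁻¹, hWn.conj_mem _ (Additive.toMul v).2 t⟩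
  have hcjadd : ∀ t a b, cj t (a + b) = cj t a + cj t b := by
    intro t a b
    apply Additive.toMul.injective
    apply Subtype.ext
    change t * (((Additive.toMul a : W) : X) * ((Additive.toMul b : W) : X)) * t⁻¹ =
      (t * ((Additive.toMul a : W) : X) * t⁻¹) * (t * ((Additive.toMul b : W) : X) * t⁻¹)
    group
  let cjE : X → AddMonoid.End V := fun t => AddMonoidHom.mk' (cj t) (hcjadd t)
  let ρX : X →* AddMonoid.End V :=
    { toFun := cjE
      map_one' := by
        refine AddMonoidHom.ext fun v => ?_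
        apply Additive.toMul.injective
        apply Subtype.ext
        change 1 * ((Additive.toMul v : W) : X) * 1⁻¹ = _
        rw [inv_one, mul_one, one_mul]
        rfl
      map_mul' := by
        intro a b
        refine AddMonoidHom.ext fun v => ?_
        apply Additive.toMul.injective
        apply Subtype.ext
        change (a * b) * ((Additive.toMul v : W) : X) * (a * b)⁻¹ =
          a * (b * ((Additive.toMul v : W) : X) * b⁻¹) * a⁻¹
        group }
  have hρX : ∀ (t : X) (v : V), ((Additive.toMul (ρX t v) : W) : X) = t * ((Additive.toMul v : W) : X) * t⁻¹ :=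
    fun _ _ => rfl
  have hsub : ∀ (t : X) (v : V), ((Additive.toMul ((ρX t - 1) v) : W) : X) =
      (t * ((Additive.toMul v : W) : X) * t⁻¹) * ((Additive.toMul v : W) : X)⁻¹ := by
    intro t v
    change ((Additive.toMul (ρX t v - v) : W) : X) = _
    rw [toMul_sub, div_eq_mul_inv]
    rfl
  have hquad : ∀ t : X, (∀ w ∈ W, Commute ⁅w, t⁆ t) → (ρX t - 1) * (ρX t - 1) = 0 := by
    intro t ht
    refine AddMonoidHom.ext fun v => ?_
    apply Additive.toMul.injective
    apply Subtype.ext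
    change ((Additive.toMul ((ρX t - 1) ((ρX t - 1) v)) : W) : X) = 1
    rw [hsub, hsub]
    obtain ⟨w, hw⟩ : ∃ w : X, w = ((Additive.toMul v : W) : X) := ⟨_, rfl⟩
    rw [← hw]
    have hwW : w ∈ W := hw ▸ (Additive.toMul v).2
    have h1 : Commute ⁅w, t⁆ t := ht w hwW
    have h2 : Commute (t * w * t⁻¹ * w⁻¹) t := by
      have h3 : t * w * t⁻¹ * w⁻¹ = ⁅w, t⁆⁻¹ := by
        rw [commutatorElement_inv]
        rfl
      rw [h3]
      exact h1.inv_left
    have h4 : t * (t * w * t⁻¹ * w⁻¹) * t⁻¹ = t * w * t⁻¹ * w⁻¹ := by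
      rw [← h2.eq, mul_assoc, mul_inv_cancel, mul_one]
    rw [h4, mul_inv_cancel]
  have hρX1 : ∀ t : X, ρX t = 1 ↔ t ∈ centralizer (W : Set X) := by
    intro t
    rw [mem_centralizer_iff]
    constructor
    · intro ht w hw
      have h1 := hρX t (Additive.ofMul (⟨w, hw⟩ : W))
      rw [ht] at h1
      change w = t * w * t⁻¹ at h1
      rw [eq_mul_inv_iff_mul_eq] at h1
      exact h1
    · intro h
      refine AddMonoidHom.ext fun v => ?_
      apply Additive.toMul.injective
      apply Subtype.ext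
      change t * ((Additive.toMul v : W) : X) * t⁻¹ = ((Additive.toMul v : W) : X)
      rw [← h _ (Additive.toMul v).2]
      group
  have hV2 : ∀ v : V, v + v = 0 → v = 0 := by
    intro v hv
    apply Additive.toMul.injective
    have h1 : (Additive.toMul v) * (Additive.toMul v) = 1 := by
      rw [← toMul_add, hv]
      rfl
    obtain ⟨m, hm⟩ := hWp (Additive.toMul v)
    have h4 : (Additive.toMul v) ^ 2 = 1 := by rw [sq, h1]
    have hcop : Nat.Coprime 2 (q ^ m) := Nat.Coprime.pow_right _ (Nat.coprime_two_left.2 hqodd)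
    have h5 := pow_gcd_eq_one.2 ⟨h4, hm⟩
    rwa [hcop, pow_one] at h5
  have hεε : ρX ε * ρX ε = 1 := by
    rw [← map_mul, hρX1, ← hρ1, map_mul, hrr]
  obtain ⟨h1, h2⟩ := quad_invol_comm hV2 ρX a b (hquad a ha) (hquad b hb) ε hε hεε
  have hfin : ∀ c : X, Commute (ρX ε) (ρX c) → ⁅ε, c⁆ ∈ centralizer (W : Set X) := by
    intro c hc
    rw [← hρX1, commutatorElement_def, map_mul, map_mul, map_mul, hc.eq, mul_assoc (ρX c),
      ← map_mul ρX ε, mul_inv_cancel, map_one, mul_one, ← map_mul, mul_inv_cancel, map_one]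
  exact ⟨hfin a h1, hfin b h2⟩

end aut

end Cfsg.Agent.Lib.LocalEven.InvZJ
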