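import Cfsg.Agent.Lib.LocalEven.InvZJ2

/-! An element acting quadratically and nontrivially on a `q`-chief factor forces an inverted `q`-element in a
proper subgroup containing its centralizer. -/

set_option autoImplicit false
set_option linter.unusedSectionVars false
set_option linter.style.haveILetI false

namespace Cfsg.Agent.Lib.LocalEven.InvZJ

open Subgroup Cfsg Cfsg.Agent.Lib.LocalEven Cfsg.Agent.Lib.LocalEven2
open scoped commutatorElement

universe u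

variable {q : ℕ} [Fact q.Prime]

/-- A subgroup acting as a `q`-group on a normal `q`-subgroup has a nontrivial fixed point. -/
theorem exists_fixed_in_normal {X : Type*} [Group X] [Finite X] (W : Subgroup X) [hWn : W.Normal]
    (hWp : IsPGroup q W) (hWne : W ≠ ⊥) (O : Subgroup X)
    (hO : ∀ t ∈ O, ∃ k : ℕ, t ^ q ^ k ∈ centralizer (W : Set X)) :
    ∃ z ∈ W, z ≠ 1 ∧ ∀ t ∈ O, t * z = z * t := by
  classical
  have hqp : q.Prime := Fact.out
  haveI : Finite (MulAut W) := Finite.of_injective (fun f : MulAut W => (f : W → W)) DFunLike.coe_injective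
  obtain ⟨ρ, hρdef⟩ : ∃ ρ : X →* MulAut W, ρ = MulAut.conjNormal := ⟨_, rfl⟩
  have hρa : ∀ (t : X) (w : W), ((ρ t w : W) : X) = t * (w : X) * t⁻¹ := by
    intro t w
    rw [hρdef]
    exact MulAut.conjNormal_apply t w
  have hρ1 : ∀ t : X, t ∈ centralizer (W : Set X) → ρ t = 1 := by
    intro t h
    rw [mem_centralizer_iff] at h
    ext w
    rw [hρa]
    rw [← h w w.2]
    show w.1 * t * t⁻¹ = w.1
    group
  obtain ⟨T, hTdef⟩ : ∃ T : Subgroup (MulAut W), T = O.map ρ := ⟨_, rfl⟩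
  have hTp : IsPGroup q T := by
    rintro ⟨_, h⟩
    rw [hTdef] at h
    obtain ⟨t, ht, rfl⟩ := h
    obtain ⟨k, hk⟩ := hO t ht
    refine ⟨k, Subtype.ext ?_⟩
    show (ρ t) ^ q ^ k = 1
    rw [← map_pow, hρ1 _ hk]
  have hdvd : q ∣ Nat.card W := by
    obtain ⟨n, hn⟩ := IsPGroup.iff_card.1 hWp
    have h1 : 1 < Nat.card W := Subgroup.one_lt_card_iff_ne_bot W |>.2 hWne
    rw [hn] at h1 ⊢
    have hn0 : n ≠ 0 := by
      rintro rfl
      simp at h1
    exact dvd_pow_self q hn0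
  have hfix1 : (1 : W) ∈ MulAction.fixedPoints T W := by
    intro t
    show (t : MulAut W) • (1 : W) = 1
    exact smul_one _
  obtain ⟨b, hb, hne⟩ := hTp.exists_fixed_point_of_prime_dvd_card_of_fixed_point W hdvd hfix1
  refine ⟨b, b.2, ?_, ?_⟩
  · intro h
    exact hne (Subtype.ext h).symm
  · intro t ht
    have h1 : (ρ t) ∈ T := by rw [hTdef]; exact ⟨t, ht, rfl⟩
    have h2 : (ρ t) • b = b := hb ⟨ρ t, h1⟩
    have h3 : ρ t b = b := h2
    have h4 := hρa t b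
    rw [h3] at h4
    rw [eq_mul_inv_iff_mul_eq] at h4
    exact h4.symm

/-- Conjugates of a quadratic element are quadratic. -/
theorem quad_conj {X : Type*} [Group X] (W : Subgroup X) [W.Normal] {a : X}
    (ha : ∀ w ∈ W, Commute ⁅w, a⁆ a) (g : X) : ∀ w ∈ W, Commute ⁅w, g * a * g⁻¹⁆ (g * a * g⁻¹) := by
  intro w hw
  have hw' : g⁻¹ * w * g ∈ W := by
    have := (inferInstance : W.Normal).conj_mem w hw g⁻¹
    rwa [inv_inv] at this
  have h1 := ha _ hw'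
  have h2 : ⁅w, g * a * g⁻¹⁆ = g * ⁅g⁻¹ * w * g, a⁆ * g⁻¹ := by
    simp only [commutatorElement_def]
    group
  rw [h2]
  exact (h1.map (MulAut.conj g).toMonoidHom : _)

/-- An element acting quadratically and nontrivially on a minimal normal `q`-subgroup. -/
theorem exists_eps (hq : q ≠ 2) {X : Type u} [Group X] [Finite X] (W : Subgroup X) [hWn : W.Normal]
    (hWmin : ∀ N : Subgroup X, N.Normal → N ≤ W → N = ⊥ ∨ N = W) (hWne : W ≠ ⊥) (hWp : IsPGroup q W)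
    (hWc : ∀ a ∈ W, ∀ b ∈ W, a * b = b * a) (a : X) (hak : ∃ k : ℕ, a ^ q ^ k = 1)
    (ha : ∀ w ∈ W, Commute ⁅w, a⁆ a) (hna : a ∉ centralizer (W : Set X)) :
    (∃ g : X, ⁅g, a⁆ ∉ centralizer (W : Set X)) ∧
      ∃ ε : X, ε * ε ∈ centralizer (W : Set X) ∧ ε ∉ centralizer (W : Set X) ∧
        ⁅ε, a⁆ ∈ centralizer (W : Set X) := by
  classical
  obtain ⟨C, hCdef⟩ : ∃ C : Subgroup X, C = centralizer (W : Set X) := ⟨_, rfl⟩
  rw [← hCdef] at hna ⊢
  haveI hCn : C.Normal := by rw [hCdef]; infer_instance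
  obtain ⟨π, hπdef⟩ : ∃ π : X →* X ⧸ C, π = QuotientGroup.mk' C := ⟨_, rfl⟩
  have hπ1 : ∀ x : X, π x = 1 ↔ x ∈ C := fun x => by rw [hπdef]; exact QuotientGroup.eq_one_iff x
  have hπs : Function.Surjective π := by rw [hπdef]; exact QuotientGroup.mk'_surjective C
  -- there is a bad pair of conjugates
  have hbad : ∃ g₁ g₂ : X, ¬ ∀ t ∈ closure ({g₁ * a * g₁⁻¹, g₂ * a * g₂⁻¹} : Set X),
      ∃ k : ℕ, t ^ q ^ k ∈ C := by
    by_contra hcon
    push Not at hcon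
    obtain ⟨Δ, hΔdef⟩ : ∃ Δ : Set (X ⧸ C), Δ = {b | ∃ g : X, b = π (g * a * g⁻¹)} := ⟨_, rfl⟩
    have hΔ : Cfsg.Agent.Lib.Invol.ConjClosed Δ := by
      rw [hΔdef]
      rintro _ ⟨g, rfl⟩ h
      obtain ⟨h', rfl⟩ := hπs h
      refine ⟨h' * g, ?_⟩
      simp only [map_mul, map_inv, mul_inv_rev, mul_assoc]
    have hpair : ∀ x ∈ Δ, ∀ y ∈ Δ, IsPGroup q (closure ({x, y} : Set (X ⧸ C))) := by
      rw [hΔdef]
      rintro _ ⟨g₁, rfl⟩ _ ⟨g₂, rfl⟩
      rintro ⟨z', hz'⟩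
      have h1 : closure ({π (g₁ * a * g₁⁻¹), π (g₂ * a * g₂⁻¹)} : Set (X ⧸ C)) =
          (closure ({g₁ * a * g₁⁻¹, g₂ * a * g₂⁻¹} : Set X)).map π := by
        rw [MonoidHom.map_closure, Set.image_pair]
      rw [h1] at hz'
      obtain ⟨z, hz, rfl⟩ := hz'
      obtain ⟨k, hk⟩ := hcon g₁ g₂ z hz
      refine ⟨k, ?_⟩
      apply Subtype.ext
      change π z ^ q ^ k = 1
      rw [← map_pow]
      exact (hπ1 _).2 hk
    have hcl := Cfsg.Agent.Lib.Invol.isPGroup_closure_of_pairs q _ rfl Δ hΔ hpair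
    have hnorm : (closure Δ).Normal := by
      refine ⟨fun n hn g => ?_⟩
      induction hn using Subgroup.closure_induction with
      | mem a ha => exact Subgroup.subset_closure (hΔ a ha g)
      | one => simp
      | mul a b _ _ h1 h2 =>
        have : g * (a * b) * g⁻¹ = (g * a * g⁻¹) * (g * b * g⁻¹) := by group
        rw [this]
        exact Subgroup.mul_mem _ h1 h2
      | inv a _ h1 =>
        have : g * a⁻¹ * g⁻¹ = (g * a * g⁻¹)⁻¹ := by group
        rw [this]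
        exact Subgroup.inv_mem _ h1
    obtain ⟨O, hOdef⟩ : ∃ O : Subgroup X, O = (closure Δ).comap π := ⟨_, rfl⟩
    haveI hOn : O.Normal := by rw [hOdef]; exact hnorm.comap π
    have hO : ∀ t ∈ O, ∃ k : ℕ, t ^ q ^ k ∈ centralizer (W : Set X) := by
      intro t ht
      rw [hOdef] at ht
      obtain ⟨k, hk⟩ := hcl ⟨π t, ht⟩
      refine ⟨k, ?_⟩
      rw [← hCdef, ← hπ1, map_pow]
      exact congrArg Subtype.val hk
    obtain ⟨z, hzW, hz1, hzc⟩ := exists_fixed_in_normal W hWp hWne O hO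
    have hW₀ := hWmin (W ⊓ centralizer (O : Set X)) inferInstance inf_le_left
    have haO : a ∈ O := by
      rw [hOdef]
      show π a ∈ closure Δ
      apply Subgroup.subset_closure
      rw [hΔdef]
      exact ⟨1, by simp⟩
    rcases hW₀ with h0 | h0
    · have : z ∈ W ⊓ centralizer (O : Set X) := ⟨hzW, mem_centralizer_iff.2 hzc⟩
      rw [h0] at this
      exact hz1 (Subgroup.mem_bot.1 this)
    · apply hna
      rw [hCdef, mem_centralizer_iff]
      intro w hw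
      have h1 : w ∈ W ⊓ centralizer (O : Set X) := by rw [h0]; exact hw
      exact (mem_centralizer_iff.1 h1.2 a haO).symm
  obtain ⟨g₁, g₂, hg⟩ := hbad
  constructor
  · -- the element `a` is not central modulo `C`
    by_contra hcon
    push Not at hcon
    have hall : ∀ g : X, π (g * a * g⁻¹) = π a := by
      intro g
      have h1 := (hπ1 _).2 (hcon g)
      rw [commutatorElement_def, map_mul, map_mul, map_mul, map_inv, map_inv] at h1
      rw [map_mul, map_mul, map_inv]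
      exact mul_inv_eq_one.1 h1
    apply hg
    intro t ht
    have h1 : π t ∈ zpowers (π a) := by
      have h2 : closure ({g₁ * a * g₁⁻¹, g₂ * a * g₂⁻¹} : Set X) ≤ (zpowers (π a)).comap π := by
        rw [closure_le]
        rintro _ (rfl | h3)
        · show π (g₁ * a * g₁⁻¹) ∈ zpowers (π a)
          rw [hall]
          exact mem_zpowers _
        · rw [Set.mem_singleton_iff.1 h3]
          show π (g₂ * a * g₂⁻¹) ∈ zpowers (π a)
          rw [hall]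
          exact mem_zpowers _
      exact h2 ht
    obtain ⟨k, hk⟩ := hak
    refine ⟨k, ?_⟩
    rw [← hπ1, map_pow]
    obtain ⟨i, hi⟩ := h1
    rw [← hi]
    show (π a ^ i) ^ q ^ k = 1
    rw [← zpow_natCast, ← zpow_mul, mul_comm, zpow_mul, zpow_natCast, ← map_pow, hk, map_one, one_zpow]
  · rcases qa_dichotomy hq W hWc hWp _ _ (quad_conj W ha g₁) (quad_conj W ha g₂) with h | h
    · exact absurd (by rw [← hCdef] at h; exact h) hg
    · obtain ⟨ε, -, h1, h2, h3, -⟩ := h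
      rw [← hCdef] at h1 h2 h3
      refine ⟨g₁⁻¹ * ε * g₁, ?_, ?_, ?_⟩
      · have e : (g₁⁻¹ * ε * g₁) * (g₁⁻¹ * ε * g₁) = g₁⁻¹ * (ε * ε) * g₁⁻¹⁻¹ := by group
        rw [e]
        exact hCn.conj_mem _ h1 _
      · intro h4
        apply h2
        have e : ε = g₁ * (g₁⁻¹ * ε * g₁) * g₁⁻¹ := by group
        rw [e]
        exact hCn.conj_mem _ h4 _
      · have e : ⁅g₁⁻¹ * ε * g₁, a⁆ = g₁⁻¹ * ⁅ε, g₁ * a * g₁⁻¹⁆ * g₁⁻¹⁻¹ := by
          simp only [commutatorElement_def]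
          group
        rw [e]
        exact hCn.conj_mem _ h3 _

theorem exists_eq_zpow_sq {X : Type*} [Group X] [Finite X] {g b : X} (hb : b ∈ zpowers g)
    (hodd : ¬ 2 ∣ orderOf b) : ∃ t : ℤ, b = (g * g) ^ t := by
  have hodd' : Odd (orderOf b) := by
    rw [← Nat.not_even_iff_odd, even_iff_two_dvd]
    exact hodd
  obtain ⟨N, hN⟩ := hodd'
  have hb1 : b ^ (2 * N + 1) = 1 := by rw [← hN, pow_orderOf_eq_one]
  obtain ⟨t, ht⟩ : b ^ (N + 1) ∈ zpowers g := pow_mem hb _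
  have ht' : g ^ t = b ^ (N + 1) := ht
  refine ⟨t, ?_⟩
  have e2 : b = b ^ (N + 1) * b ^ (N + 1) := by
    rw [← pow_add]
    have : N + 1 + (N + 1) = (2 * N + 1) + 1 := by ring
    rw [this, pow_succ, hb1, one_mul]
  rw [e2, ← ht', ← zpow_add, ← sq, ← zpow_natCast (g) 2, ← zpow_mul]
  congr 1
  push_cast
  ring

/-- **An element acting quadratically and nontrivially on a chief factor.** -/
theorem chief_inverted (hq : q ≠ 2) {G : Type u} [Group G] [Finite G] (B₁ B₂ : Subgroup G)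
    [hB₁ : B₁.Normal] [hB₂ : B₂.Normal] (hlt : B₂ < B₁)
    (hchief : ∀ N : Subgroup G, N.Normal → B₂ ≤ N → N ≤ B₁ → N = B₂ ∨ N = B₁)
    (hB₁p : IsPGroup q B₁) (a : G) (hak : ∃ k : ℕ, a ^ q ^ k = 1)
    (hquad : ∀ w ∈ B₁, Commute ⁅w, a⁆ a) (hna : ∃ b ∈ B₁, a * b * a⁻¹ * b⁻¹ ∉ B₂) :
    ∃ Y : Subgroup G, Y ≠ ⊤ ∧ ¬ InvFree q Y ∧ centralizer ({a} : Set G) ≤ Y := by
  classical
  have hqp : q.Prime := Fact.out
  have hqodd : Odd q := hqp.odd_of_ne_two hq
  obtain ⟨π, hπdef⟩ : ∃ π : G →* G ⧸ B₂, π = QuotientGroup.mk' B₂ := ⟨_, rfl⟩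
  have hπ1 : ∀ x : G, π x = 1 ↔ x ∈ B₂ := fun x => by rw [hπdef]; exact QuotientGroup.eq_one_iff x
  have hπs : Function.Surjective π := by rw [hπdef]; exact QuotientGroup.mk'_surjective B₂
  have hB₂le : B₂ ≤ B₁ := hlt.le
  obtain ⟨W, hWdef⟩ : ∃ W : Subgroup (G ⧸ B₂), W = B₁.map π := ⟨_, rfl⟩
  haveI hWn : W.Normal := by rw [hWdef]; exact Subgroup.Normal.map hB₁ π hπs
  have hmemW : ∀ x : G, π x ∈ W ↔ x ∈ B₁ := by
    intro x
    rw [hWdef]
    constructor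
    · rintro ⟨y, hy, he⟩
      have h1 : y⁻¹ * x ∈ B₂ := by
        rw [← hπ1, map_mul, map_inv, he, inv_mul_cancel]
      have h2 := B₁.mul_mem hy (hB₂le h1)
      rwa [mul_inv_cancel_left] at h2
    · intro hx
      exact ⟨x, hx, rfl⟩
  have hWne : W ≠ ⊥ := by
    intro h0
    obtain ⟨x, hx, hx2⟩ := SetLike.exists_of_lt hlt
    apply hx2
    rw [← hπ1]
    have := (hmemW x).2 hx
    rw [h0] at this
    exact Subgroup.mem_bot.1 this
  have hWp : IsPGroup q W := by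
    rw [hWdef]
    exact hB₁p.map π
  have hWmin : ∀ N : Subgroup (G ⧸ B₂), N.Normal → N ≤ W → N = ⊥ ∨ N = W := by
    intro N hN hNW
    have hNc : (N.comap π).Normal := hN.comap π
    have h1 : B₂ ≤ N.comap π := by
      intro x hx
      show π x ∈ N
      rw [(hπ1 x).2 hx]
      exact one_mem _
    have h2 : N.comap π ≤ B₁ := fun x hx => (hmemW x).1 (hNW hx)
    rcases hchief _ hNc h1 h2 with h3 | h3
    · left
      rw [eq_bot_iff]
      intro z hz
      obtain ⟨z', rfl⟩ := hπs z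
      have : z' ∈ N.comap π := hz
      rw [h3] at this
      exact Subgroup.mem_bot.2 ((hπ1 z').2 this)
    · right
      apply le_antisymm hNW
      intro z hz
      obtain ⟨z', rfl⟩ := hπs z
      have : z' ∈ N.comap π := by
        rw [h3]
        exact (hmemW z').1 hz
      exact this
  obtain ⟨hWc, hWexp⟩ := Cfsg.Agent.Lib.OddLocal.minNormal_in_pGroup W hWp W ⟨hWn, hWne, hWmin⟩ le_rfl
  have hWq : ∀ w ∈ W, w * w = 1 → w = 1 := by
    intro w hw h2
    have h4 : w ^ 2 = 1 := by rw [sq, h2]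
    have h3 := hWexp w hw
    have hcop : Nat.Coprime 2 q := Nat.coprime_two_left.2 hqodd
    have h5 := pow_gcd_eq_one.2 ⟨h4, h3⟩
    rwa [hcop, pow_one] at h5
  have hnaW : π a ∉ centralizer (W : Set (G ⧸ B₂)) := by
    obtain ⟨b, hb, hb2⟩ := hna
    intro h0
    apply hb2
    rw [← hπ1]
    have h1 := mem_centralizer_iff.1 h0 (π b) ((hmemW b).2 hb)
    rw [map_mul, map_mul, map_mul, map_inv, map_inv, ← h1]
    group
  obtain ⟨k₀, hk₀⟩ := hak
  obtain ⟨⟨g', hg'⟩, ε', hε1, hε2, hε3⟩ := exists_eps hq W hWmin hWne hWp hWc (π a)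
    ⟨k₀, by rw [← map_pow, hk₀, map_one]⟩
    (by
      intro w hw
      obtain ⟨v, hv, rfl⟩ : ∃ v ∈ B₁, π v = w := by
        rw [hWdef] at hw
        exact hw
      have h1 := hquad v hv
      have h2 := h1.map π
      rwa [map_commutatorElement] at h2)
    hnaW
  obtain ⟨C, hCdef⟩ : ∃ C : Subgroup (G ⧸ B₂), C = centralizer (W : Set (G ⧸ B₂)) := ⟨_, rfl⟩
  rw [← hCdef] at hg' hε1 hε2 hε3
  haveI hCn : C.Normal := by rw [hCdef]; infer_instance
  obtain ⟨σ, hσdef⟩ : ∃ σ : G →* (G ⧸ B₂) ⧸ C, σ = (QuotientGroup.mk' C).comp π := ⟨_, rfl⟩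
  have hσ1 : ∀ x : G ⧸ B₂, (QuotientGroup.mk' C) x = 1 ↔ x ∈ C := fun x => QuotientGroup.eq_one_iff x
  have hσ2 : ∀ x : G, σ x = 1 ↔ π x ∈ C := fun x => by
    rw [hσdef]
    exact hσ1 _
  obtain ⟨Y, hYdef⟩ : ∃ Y : Subgroup G, Y = (centralizer ({σ a} : Set ((G ⧸ B₂) ⧸ C))).comap σ := ⟨_, rfl⟩
  have hYmem : ∀ t : G, t ∈ Y ↔ σ t * σ a = σ a * σ t := by
    intro t
    rw [hYdef]
    show σ t ∈ centralizer _ ↔ _
    rw [mem_centralizer_iff]
    constructor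
    · intro h
      exact (h _ rfl).symm
    · intro h c hc
      rw [Set.mem_singleton_iff.1 hc]
      exact h.symm
  have hYmem2 : ∀ t : G, t ∈ Y ↔ ⁅π t, π a⁆ ∈ C := by
    intro t
    rw [hYmem, ← hσ1, commutatorElement_def, map_mul, map_mul, map_mul, map_inv, map_inv]
    have e1 : ∀ s : G, (QuotientGroup.mk' C) (π s) = σ s := fun s => by rw [hσdef]; rfl
    rw [e1, e1]
    constructor
    · intro h
      rw [h]
      group
    · intro h
      have h2 : σ t * σ a * (σ t)⁻¹ = σ a := mul_inv_eq_one.1 h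
      exact mul_inv_eq_iff_eq_mul.1 h2
  obtain ⟨g, rfl⟩ := hπs g'
  obtain ⟨ε, rfl⟩ := hπs ε'
  -- the `2`-part of `ε`
  obtain ⟨x, b, hεxb, hxb, ⟨m, hm⟩, hb, hx', hb'⟩ := Cfsg.Agent.Lib.PGroups.exists_pPart 2 ε
  have hπb : π b ∈ C := by
    obtain ⟨t, ht⟩ := exists_eq_zpow_sq hb' hb
    rw [ht, map_zpow, map_mul]
    exact zpow_mem hε1 t
  have hσbe : σ b = 1 := (hσ2 b).2 hπb
  have hσx : σ x = σ ε := by
    rw [hεxb, map_mul, hσbe, mul_one]
  have hx1 : π x ∉ C := by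
    intro h0
    apply hε2
    rw [← hσ2]
    rw [← hσx]
    exact (hσ2 x).2 h0
  have hx2 : π x * π x ∈ C := by
    rw [← map_mul, ← hσ2, map_mul, hσx, ← map_mul, hσ2, map_mul]
    exact hε1
  have hxY : x ∈ Y := by
    rw [hYmem, hσx, ← hYmem, hYmem2]
    exact hε3
  have hYne : Y ≠ ⊤ := by
    intro h0
    apply hg'
    rw [← hYmem2, h0]
    trivial
  have hcent : centralizer ({a} : Set G) ≤ Y := by
    intro t ht
    rw [hYmem, ← map_mul, ← map_mul]
    exact congrArg σ (mem_centralizer_iff.1 ht a rfl).symm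
  refine ⟨Y, hYne, ?_, hcent⟩
  intro hfree
  -- the subgroup of elements inverted modulo `B₂`
  have hxC : ∀ w ∈ W, w * (π x * π x) = (π x * π x) * w := by
    intro w hw
    rw [hCdef] at hx2
    exact mem_centralizer_iff.1 hx2 w hw
  have hinvinv : ∀ p : G, π x * π p * (π x)⁻¹ = (π p)⁻¹ → π x * (π p)⁻¹ * (π x)⁻¹ = π p := by
    intro p hp
    have e : π x * (π p)⁻¹ * (π x)⁻¹ = (π x * π p * (π x)⁻¹)⁻¹ := by group
    rw [e, hp, inv_inv]
  let Pm : Subgroup G :=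
    { carrier := {p | p ∈ B₁ ∧ π x * π p * (π x)⁻¹ = (π p)⁻¹}
      one_mem' := ⟨B₁.one_mem, by simp⟩
      mul_mem' := by
        rintro p r ⟨hp, hp2⟩ ⟨hr, hr2⟩
        refine ⟨B₁.mul_mem hp hr, ?_⟩
        have e : π x * π (p * r) * (π x)⁻¹ = (π x * π p * (π x)⁻¹) * (π x * π r * (π x)⁻¹) := by
          rw [map_mul]
          group
        rw [e, hp2, hr2, map_mul, mul_inv_rev]
        exact hWc _ (inv_mem ((hmemW p).2 hp)) _ (inv_mem ((hmemW r).2 hr))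
      inv_mem' := by
        rintro p ⟨hp, hp2⟩
        refine ⟨B₁.inv_mem hp, ?_⟩
        rw [map_inv, inv_inv]
        exact hinvinv p hp2 }
  have hPmmem : ∀ p, p ∈ Pm ↔ p ∈ B₁ ∧ π x * π p * (π x)⁻¹ = (π p)⁻¹ := fun _ => Iff.rfl
  have hPmB : Pm ≤ B₁ := fun p hp => hp.1
  have hPmp : IsPGroup q Pm := hB₁p.to_le hPmB
  have hPmodd : Odd (Nat.card Pm) := by
    obtain ⟨n, hn⟩ := IsPGroup.iff_card.1 hPmp
    rw [hn]
    exact hqodd.pow
  have hx2k : x ^ 2 ^ m = 1 := by rw [← hm, pow_orderOf_eq_one]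
  have hB₁conj : ∀ p ∈ B₁, x * p * x⁻¹ ∈ B₁ := fun p hp => hB₁.conj_mem p hp x
  -- a moved element
  obtain ⟨u₀, hu₀, hu₀x⟩ : ∃ u₀ ∈ B₁, π u₀ * π x ≠ π x * π u₀ := by
    by_contra hcon
    push Not at hcon
    apply hx1
    rw [hCdef, mem_centralizer_iff]
    intro w hw
    obtain ⟨v, hv, rfl⟩ : ∃ v ∈ B₁, π v = w := by
      rw [hWdef] at hw
      exact hw
    exact hcon v hv
  have hv₀ : π x * (π x * π u₀ * (π x)⁻¹) * (π x)⁻¹ = π u₀ := by
    have e : π x * (π x * π u₀ * (π x)⁻¹) * (π x)⁻¹ = (π x * π x) * π u₀ * (π x * π x)⁻¹ := by group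
    rw [e, ← hxC _ ((hmemW u₀).2 hu₀)]
    group
  have huPm : u₀ * (x * u₀ * x⁻¹)⁻¹ ∈ Pm := by
    refine ⟨B₁.mul_mem hu₀ (B₁.inv_mem (hB₁conj u₀ hu₀)), ?_⟩
    simp only [map_mul, map_inv]
    have e : π x * (π u₀ * (π x * π u₀ * (π x)⁻¹)⁻¹) * (π x)⁻¹ =
        (π x * π u₀ * (π x)⁻¹) * (π x * (π x * π u₀ * (π x)⁻¹) * (π x)⁻¹)⁻¹ := by group
    rw [e, hv₀]
    group
  have huπ : π (u₀ * (x * u₀ * x⁻¹)⁻¹) ≠ 1 := by
    intro h0
    apply hu₀x
    simp only [map_mul, map_inv] at h0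
    have h1 := mul_inv_eq_one.1 h0
    calc π u₀ * π x = (π x * π u₀ * (π x)⁻¹) * π x := by rw [← h1]
      _ = π x * π u₀ := by group
  obtain ⟨y, hyPm, hyinv, hy1⟩ := S4Inv.exists_inverted π x m Pm hPmodd
    (by
      rintro p ⟨hp, hp2⟩
      refine ⟨hB₁conj p hp, ?_⟩
      simp only [map_mul, map_inv]
      rw [hp2, hinvinv p hp2]
      group)
    (by
      intro p _
      rw [hx2k]
      group)
    (fun p hp => hp.2)
    (fun p hp h2 => hWq _ ((hmemW p).2 hp.1) h2)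
    _ huPm huπ
  obtain ⟨m₁, hm₁⟩ := exists_pow_of_isPGroup hB₁p hyPm.1
  refine hfree y ?_ ⟨m₁, hm₁⟩ ?_ x hxY hyinv
  · rw [hYmem2]
    have h1 : π y ∈ C := by
      rw [hCdef, mem_centralizer_iff]
      intro w hw
      exact hWc w hw _ ((hmemW y).2 hyPm.1)
    rw [commutatorElement_def]
    have h2 : π y * π a * (π y)⁻¹ * (π a)⁻¹ = π y * (π a * (π y)⁻¹ * (π a)⁻¹) := by group
    rw [h2]
    exact mul_mem h1 (hCn.conj_mem _ (inv_mem h1) _)
  · rintro rfl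
    exact hy1 (map_one π)

/-- A power of an element stabilizing a chain with `q`-group bottom centralizes. -/
theorem stab_pow {G : Type*} [Group G] {V Y : Subgroup G} {b : G} (hbY : ∀ y ∈ Y, b * y = y * b)
    (hs : ∀ v ∈ V, (b * v * b⁻¹) * v⁻¹ ∈ Y) {m : ℕ} (hm : ∀ y ∈ Y, y ^ m = 1) :
    b ^ m ∈ centralizer (V : Set G) := by
  rw [mem_centralizer_iff]
  intro v hv
  obtain ⟨s, hsdef⟩ : ∃ s : G, s = (b * v * b⁻¹) * v⁻¹ := ⟨_, rfl⟩
  have hsY : s ∈ Y := hsdef ▸ hs v hv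
  have hbv : b * v * b⁻¹ = s * v := by rw [hsdef]; group
  have hbs := hbY s hsY
  have hpow : ∀ n : ℕ, b ^ n * v * (b ^ n)⁻¹ = s ^ n * v := by
    intro n
    induction n with
    | zero => simp
    | succ n ih =>
      have hc : Commute b (s ^ n) := (show Commute b s from hbs).pow_right n
      calc b ^ (n + 1) * v * (b ^ (n + 1))⁻¹ = b * (b ^ n * v * (b ^ n)⁻¹) * b⁻¹ := by
            rw [pow_succ', mul_inv_rev]
            simp only [mul_assoc]
        _ = b * (s ^ n * v) * b⁻¹ := by rw [ih]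
        _ = s ^ n * (b * v * b⁻¹) := by
            rw [← mul_assoc b, hc.eq]
            simp only [mul_assoc]
        _ = s ^ (n + 1) * v := by
            rw [hbv, pow_succ]
            simp only [mul_assoc]
  have h1 := hpow m
  rw [hm s hsY, one_mul] at h1
  exact (mul_inv_eq_iff_eq_mul.1 h1).symm

/-- **Kernel of the action on chief factors.** -/
theorem kb_lemma {G : Type*} [Group G] [Finite G] : ∀ (n : ℕ) (B : Subgroup G), B.Normal → IsPGroup q B →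
    Nat.card B = n → ∀ Λ : Set G,
    (∀ B₁ B₂ : Subgroup G, B₁.Normal → B₂.Normal → B₂ < B₁ → B₁ ≤ B →
      (∀ N : Subgroup G, N.Normal → B₂ ≤ N → N ≤ B₁ → N = B₂ ∨ N = B₁) →
      ∀ a ∈ Λ, ∀ b ∈ B₁, a * b * a⁻¹ * b⁻¹ ∈ B₂) →
    ∃ K : Subgroup G, K.Normal ∧ (∀ a ∈ Λ, a ∈ K) ∧ ∀ k ∈ K, ∃ n : ℕ, k ^ q ^ n ∈ centralizer (B : Set G) := by
  classical
  intro n
  induction n using Nat.strong_induction_on with
  | _ n ih =>
  intro B hBn hBp hcard Λ hΛ
  by_cases hB : B = ⊥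
  · subst hB
    refine ⟨⊤, inferInstance, fun _ _ => trivial, fun k _ => ⟨0, ?_⟩⟩
    rw [mem_centralizer_iff]
    intro h hh
    rw [Subgroup.mem_bot.1 hh]
    group
  obtain ⟨B₂, ⟨hB₂n, hB₂lt⟩, hmax⟩ := Set.exists_max_image {N : Subgroup G | N.Normal ∧ N < B}
    (fun N : Subgroup G => Nat.card N) (Set.toFinite _)
    ⟨⊥, inferInstance, bot_lt_iff_ne_bot.2 hB⟩
  have hchief : ∀ N : Subgroup G, N.Normal → B₂ ≤ N → N ≤ B → N = B₂ ∨ N = B := by
    intro N hN h1 h2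
    by_cases h3 : N = B
    · exact Or.inr h3
    · left
      exact (Subgroup.eq_of_le_of_card_ge h1 (hmax N ⟨hN, lt_of_le_of_ne h2 h3⟩)).symm
  obtain ⟨K₂, hK₂n, hK₂Λ, hK₂⟩ := ih _ (hcard ▸ Cfsg.Agent.Lib.OddLocal.card_lt_of_lt hB₂lt) B₂ hB₂n
    (hBp.to_le hB₂lt.le) rfl Λ
    (fun B₁' B₂' h1 h2 h3 h4 h5 => hΛ B₁' B₂' h1 h2 h3 (h4.trans hB₂lt.le) h5)
  haveI := hBn
  haveI := hB₂n
  obtain ⟨π, hπdef⟩ : ∃ π : G →* G ⧸ B₂, π = QuotientGroup.mk' B₂ := ⟨_, rfl⟩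
  have hπ1 : ∀ x : G, π x = 1 ↔ x ∈ B₂ := fun x => by rw [hπdef]; exact QuotientGroup.eq_one_iff x
  have hπs : Function.Surjective π := by rw [hπdef]; exact QuotientGroup.mk'_surjective B₂
  haveI hmapn : (B.map π).Normal := Subgroup.Normal.map hBn π hπs
  obtain ⟨C₁, hC₁def⟩ : ∃ C₁ : Subgroup G, C₁ = (centralizer ((B.map π : Subgroup (G ⧸ B₂)) : Set (G ⧸ B₂))).comap π := ⟨_, rfl⟩
  have hC₁n : C₁.Normal := by
    rw [hC₁def]
    exact Subgroup.Normal.comap inferInstance π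
  have hC₁mem : ∀ g : G, g ∈ C₁ ↔ ∀ b ∈ B, (g * b * g⁻¹) * b⁻¹ ∈ B₂ := by
    intro g
    rw [hC₁def]
    show π g ∈ centralizer _ ↔ _
    rw [mem_centralizer_iff]
    constructor
    · intro h b hb
      rw [← hπ1, map_mul, map_mul, map_mul, map_inv, map_inv, ← h (π b) ⟨b, hb, rfl⟩]
      group
    · rintro h _ ⟨b, hb, rfl⟩
      have h1 := (hπ1 _).2 (h b hb)
      rw [map_mul, map_mul, map_mul, map_inv, map_inv] at h1
      have h2 := mul_inv_eq_one.1 h1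
      have h3 := mul_inv_eq_iff_eq_mul.1 h2
      exact h3.symm
  refine ⟨K₂ ⊓ C₁, inferInstance, fun a ha => ⟨hK₂Λ a ha, ?_⟩, ?_⟩
  · show a ∈ C₁
    rw [hC₁mem]
    exact fun b hb => hΛ B B₂ hBn hB₂n hB₂lt le_rfl hchief a ha b hb
  · rintro k ⟨hk₁, hk₂⟩
    obtain ⟨n₁, hn₁⟩ := hK₂ k hk₁
    obtain ⟨j, hj⟩ := IsPGroup.iff_card.1 (hBp.to_le hB₂lt.le)
    refine ⟨n₁ + j, ?_⟩
    rw [pow_add, pow_mul]
    apply stab_pow (Y := B₂)
    · intro y hy
      exact (mem_centralizer_iff.1 hn₁ y hy).symm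
    · exact (hC₁mem _).1 (C₁.pow_mem hk₂ _)
    · intro y hy
      rw [← hj]
      have := pow_card_eq_one' (x := (⟨y, hy⟩ : B₂))
      exact congrArg Subtype.val this

end Cfsg.Agent.Lib.LocalEven.InvZJ
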