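import Cfsg.Agent.Lib.LocalEven.InvZJ4

/-! **Theorem.** For `q` odd, if no nontrivial `q`-element is inverted in `N_G(Z(J(D)))`, then this normalizer
controls strong fusion in the Sylow `q`-subgroup. -/

set_option autoImplicit false
set_option linter.unusedSectionVars false
set_option linter.style.haveILetI false

namespace Cfsg.Agent.Lib.LocalEven.InvZJ

open Subgroup Cfsg Cfsg.Agent.Lib.LocalEven Cfsg.Agent.Lib.LocalEven2
open scoped commutatorElement

universe u

variable {q : ℕ} [Fact q.Prime]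

/-- The induction hypothesis of the theorem: it holds in proper subgroups. -/
def ICH (q : ℕ) [Fact q.Prime] (e : ℕ) (G : Type u) [Group G] [Finite G] : Prop :=
  ∀ H : Subgroup G, H ≠ ⊤ → ∀ (S : Sylow q H) (D₁ : Subgroup H), IsStronglyClosed D₁ (S : Subgroup H) →
    InvFree q (normalizer ((zjZ e D₁ : Subgroup H) : Set H)) →
    ∀ U : Subgroup H, U ≤ (S : Subgroup H) →
      SSc (normalizer ((zjZ e D₁ : Subgroup H) : Set H)) (S : Subgroup H) U

section
variable {G : Type u} [Group G] [Finite G]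

theorem SylIn.exists_sylow {X S : Subgroup G} (hS : SylIn q X S) :
    ∃ S' : Sylow q X, (S' : Subgroup X).map X.subtype = S := by
  classical
  have hqp : q.Prime := Fact.out
  have hSle : S ≤ X := hS.le
  have hp' : IsPGroup q ↥(S.subgroupOf X) := hS.isP.of_equiv (Subgroup.subgroupOfEquivOfLe hSle).symm
  obtain ⟨T', hT'⟩ := hp'.exists_le_sylow
  refine ⟨T', ?_⟩
  have hle : S ≤ (T' : Subgroup X).map X.subtype := fun u hu => ⟨⟨u, hSle hu⟩, hT' (by exact hu), rfl⟩
  have hidx : ¬ q ∣ (S.subgroupOf X).relIndex T' := by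
    intro hd
    apply hS.ndvd
    show q ∣ (S.subgroupOf X).index
    rw [← Subgroup.relIndex_mul_index hT']
    exact Dvd.dvd.mul_right hd _
  have hTp : IsPGroup q T' := T'.isPGroup'
  obtain ⟨n, hn⟩ := IsPGroup.iff_card.1 hTp
  have hdvd : (S.subgroupOf X).relIndex T' ∣ q ^ n := by
    rw [← hn]
    exact Subgroup.relIndex_dvd_card _ _
  obtain ⟨m, -, hm⟩ := (Nat.dvd_prime_pow hqp).1 hdvd
  have hone : (S.subgroupOf X).relIndex T' = 1 := by
    rw [hm] at hidx ⊢
    rcases m with _ | m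
    · simp
    · exact absurd (dvd_pow_self q (Nat.succ_ne_zero m)) hidx
  have hle2 : (T' : Subgroup X) ≤ S.subgroupOf X := Subgroup.relIndex_eq_one.1 hone
  apply le_antisymm _ hle
  rintro _ ⟨t, ht, rfl⟩
  exact hle2 ht

theorem sylIn_of_sylow {X : Subgroup G} (S' : Sylow q X) : SylIn q X ((S' : Subgroup X).map X.subtype) :=
  ⟨Subgroup.map_subtype_le _, S'.isPGroup'.map _, sylow_relIndex_not_dvd S'⟩

theorem exists_cjS_le_sylow {T : Subgroup G} (hT : IsPGroup q T) (P : Sylow q G) :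
    ∃ a : G, cjS a T ≤ (P : Subgroup G) := by
  obtain ⟨R, hR⟩ := hT.exists_le_sylow
  obtain ⟨a, ha⟩ := MulAction.exists_smul_eq G R P
  refine ⟨a, ?_⟩
  rintro _ ⟨x, hx, rfl⟩
  show a * x * a⁻¹ ∈ (P : Subgroup G)
  rw [← ha]
  exact Cfsg.Agent.Lib.Transfer.conj_mem_smul_sylow (hR hx)

theorem cjS_ne_top {a : G} {X : Subgroup G} (h : X ≠ ⊤) : cjS a X ≠ ⊤ := by
  intro h0
  apply h
  rw [eq_top_iff]
  intro x _
  have : a * x * a⁻¹ ∈ cjS a X := by rw [h0]; trivial
  rw [mem_cjS] at this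
  have e : a⁻¹ * (a * x * a⁻¹) * a = x := by group
  rwa [e] at this

theorem not_invFree_cjS {a : G} {X : Subgroup G} (h : ¬ InvFree q X) : ¬ InvFree q (cjS a X) := by
  intro h0
  apply h
  refine (h0.cjS a⁻¹).mono ?_
  intro x hx
  rw [mem_cjS, mem_cjS]
  have e : a⁻¹ * (a⁻¹⁻¹ * x * a⁻¹) * a = x := by group
  rwa [e]

theorem cjS_mono {a : G} {X Y : Subgroup G} (h : X ≤ Y) : cjS a X ≤ cjS a Y := Subgroup.map_mono h

variable {e : ℕ} {P : Sylow q G} {D : Subgroup G}

theorem normalizer_inf_of_mem (hD : IsStronglyClosed D (P : Subgroup G)) {S : Subgroup G} {t : G}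
    (htP : t ∈ (P : Subgroup G)) (htN : t ∈ normalizer (S : Set G)) :
    t ∈ normalizer ((zjZ e (D ⊓ S) : Subgroup G) : Set G) := by
  apply zjZ_mem_normalizer
  apply Cfsg.Agent.Lib.PGroups.mem_normalizer_of_conj_le'
  rintro x ⟨hx1, hx2⟩
  exact ⟨hD.2 x hx1 t (P.mul_mem (P.mul_mem htP (hD.1 hx1)) (P.inv_mem htP)),
    (mem_normalizer_iff.1 htN x).1 hx2⟩

/-- Absence of inversions in `N(Z(J(D ∩ S)))` gives it in any proper subgroup with Sylow subgroup `S`. -/
theorem ctrl_of_sub (hih : ICH q e G) (hD : IsStronglyClosed D (P : Subgroup G)) {X S : Subgroup G}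
    (hXne : X ≠ ⊤) (hSP : S ≤ (P : Subgroup G)) (hS : SylIn q X S)
    (hf : InvFree q (normalizer ((zjZ e (D ⊓ S) : Subgroup G) : Set G))) : InvFree q X := by
  classical
  obtain ⟨S', hS'⟩ := SylIn.exists_sylow hS
  have hmemS : ∀ x : X, x ∈ (S' : Subgroup X) ↔ (x : G) ∈ S := by
    intro x
    rw [← hS']
    constructor
    · intro hx
      exact ⟨x, hx, rfl⟩
    · rintro ⟨z, hz, hzx⟩
      have : z = x := Subtype.ext hzx
      rwa [← this]
  have hle : D ⊓ S ≤ X := inf_le_right.trans hS.le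
  have hsc : IsStronglyClosed ((D ⊓ S).subgroupOf X) (S' : Subgroup X) := by
    refine ⟨fun x hx => (hmemS x).2 hx.2, fun x hx g hg => ?_⟩
    have h1 := (hmemS _).1 hg
    exact ⟨hD.2 x hx.1 g (hSP h1), h1⟩
  have hmap : (zjZ e ((D ⊓ S).subgroupOf X)).map X.subtype = zjZ e (D ⊓ S) := by
    rw [zjZ_map X.subtype_injective, Subgroup.map_subgroupOf_eq_of_le hle]
  have hnm : ∀ x ∈ normalizer ((zjZ e ((D ⊓ S).subgroupOf X) : Subgroup X) : Set X),
      (x : G) ∈ normalizer ((zjZ e (D ⊓ S) : Subgroup G) : Set G) := by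
    intro x hx
    rw [← hmap]
    exact mem_normalizer_map_subtype _ _ hx
  have hfree : InvFree q (normalizer ((zjZ e ((D ⊓ S).subgroupOf X) : Subgroup X) : Set X)) := by
    apply InvFree.of_map X.subtype_injective
    refine hf.mono ?_
    rintro _ ⟨x, hx, rfl⟩
    exact hnm x hx
  have hSS := hih X hXne S' _ hsc hfree
  refine invFree_of_ctrl hS (fun t ht => normalizer_inf_of_mem hD (hSP ht)
    (Subgroup.le_normalizer ht)) hf ?_
  intro x hx g hg hgx
  have hxX : x ∈ X := hS.le hx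
  have h1 : zpowers (⟨x, hxX⟩ : X) ≤ (S' : Subgroup X) := by
    rw [zpowers_le]
    exact (hmemS _).2 hx
  have h2 : ∀ u ∈ zpowers (⟨x, hxX⟩ : X), (⟨g, hg⟩ : X) * u * (⟨g, hg⟩ : X)⁻¹ ∈ (S' : Subgroup X) := by
    rintro _ ⟨i, rfl⟩
    apply (hmemS _).2
    have e1 : ((⟨g, hg⟩ * (⟨x, hxX⟩ : X) ^ i * (⟨g, hg⟩ : X)⁻¹ : X) : G) = (g * x * g⁻¹) ^ i := by
      rw [conj_zpow]
      simp
    show ((⟨g, hg⟩ * (⟨x, hxX⟩ : X) ^ i * (⟨g, hg⟩ : X)⁻¹ : X) : G) ∈ S
    rw [e1]
    exact zpow_mem hgx i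
  obtain ⟨n, hn, hnx⟩ := hSS (zpowers (⟨x, hxX⟩ : X)) h1 ⟨g, hg⟩ h2
  refine ⟨n, hnm n hn, ?_⟩
  exact congrArg Subtype.val (hnx ⟨x, hxX⟩ (mem_zpowers _))

/-- The chain of subgroups. -/
theorem chain (hih : ICH q e G) (hD : IsStronglyClosed D (P : Subgroup G))
    (h₀ : InvFree q (normalizer ((zjZ e D : Subgroup G) : Set G))) :
    ∀ (n : ℕ) (X S : Subgroup G), Nat.card (P : Subgroup G) - Nat.card S = n → X ≠ ⊤ →
      S ≤ (P : Subgroup G) → SylIn q X S → ¬ InvFree q X →
      ∃ (S₁ : Subgroup G) (g : G), S₁ ≤ (P : Subgroup G) ∧ cjS g S ≤ S₁ ∧ (zjZ e (D ⊓ S₁)).Normal := by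
  classical
  intro n
  induction n using Nat.strong_induction_on with
  | _ n ih =>
  intro X S hn hXne hSP hS hnf
  have hnf₂ : ¬ InvFree q (normalizer ((zjZ e (D ⊓ S) : Subgroup G) : Set G)) :=
    fun h => hnf (ctrl_of_sub hih hD hXne hSP hS h)
  by_cases htop : normalizer ((zjZ e (D ⊓ S) : Subgroup G) : Set G) = ⊤
  · refine ⟨S, 1, hSP, ?_, Subgroup.normalizer_eq_top_iff.1 htop⟩
    rintro _ ⟨x, hx, rfl⟩
    show 1 * x * 1⁻¹ ∈ S
    simpa using hx
  have hSne : S ≠ (P : Subgroup G) := by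
    intro h0
    apply hnf₂
    rw [h0, inf_of_le_left hD.1]
    exact h₀
  obtain ⟨M, hMdef⟩ : ∃ M : Subgroup G, M = normalizer (S : Set G) ⊓ (P : Subgroup G) := ⟨_, rfl⟩
  have hMP : M ≤ (P : Subgroup G) := hMdef ▸ inf_le_right
  have hMp : IsPGroup q M := P.isPGroup'.to_le hMP
  have hMN : M ≤ normalizer ((zjZ e (D ⊓ S) : Subgroup G) : Set G) := by
    intro t ht
    rw [hMdef] at ht
    exact normalizer_inf_of_mem hD ht.2 ht.1
  have hSM : Nat.card S < Nat.card M := by
    obtain ⟨t, htP, htN, htV⟩ := Cfsg.Agent.Lib.Transfer.exists_mem_normalizer_of_ne (P : Subgroup G) S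
      P.isPGroup' hSP hSne
    apply Cfsg.Agent.Lib.OddLocal.card_lt_of_lt
    refine lt_of_le_of_ne ?_ ?_
    · rw [hMdef]
      exact le_inf Subgroup.le_normalizer hSP
    · intro h
      apply htV
      rw [h, hMdef]
      exact ⟨htN, htP⟩
  obtain ⟨T, hMT, hT⟩ := exists_sylIn_ge hMN hMp
  obtain ⟨a, ha⟩ := exists_cjS_le_sylow hT.isP P
  have hcardT : Nat.card M ≤ Nat.card T := Subgroup.card_le_of_le hMT
  have hcard2 : Nat.card (cjS a T) = Nat.card T := card_cjS a T
  have hcard3 : Nat.card (cjS a T) ≤ Nat.card (P : Subgroup G) := Subgroup.card_le_of_le ha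
  have hS'' : SylIn q (cjS a (normalizer ((zjZ e (D ⊓ S) : Subgroup G) : Set G))) (cjS a T) :=
    SylIn.cjS hT a
  obtain ⟨S₁, g, h1, h2, h3⟩ := ih _ (by omega) _ _ rfl (cjS_ne_top htop) ha hS'' (not_invFree_cjS hnf₂)
  refine ⟨S₁, g * a, h1, ?_, h3⟩
  rw [← cjS_cjS]
  refine (cjS_mono (cjS_mono ?_)).trans h2
  rw [hMdef] at hMT
  exact (le_inf Subgroup.le_normalizer hSP).trans hMT

/-- The conjugates of members of the family lying in the Sylow subgroup are in the family. -/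
theorem cjS_mem_zjFam (hD : IsStronglyClosed D (P : Subgroup G)) {A : Subgroup G} (hA : A ∈ zjFam e D) {c : G}
    (hc : cjS c A ≤ (P : Subgroup G)) : cjS c A ∈ zjFam e D := by
  refine ⟨?_, ?_, ?_, ?_⟩
  · rintro _ ⟨x, hx, rfl⟩
    exact hD.2 x (hA.1 hx) c (hc ⟨x, hx, rfl⟩)
  · rintro _ ⟨x, hx, rfl⟩ _ ⟨y, hy, rfl⟩
    rw [← map_mul, ← map_mul, hA.2.1 x hx y hy]
  · rintro _ ⟨x, hx, rfl⟩
    rw [← map_pow, hA.2.2.1 x hx, map_one]
  · intro B hB h1 h2
    rw [card_cjS]
    exact hA.2.2.2 B hB h1 h2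

/-- **The normal subgroup produced by an inversion in a proper subgroup.** -/
theorem exists_E (hih : ICH q e G) (hD : IsStronglyClosed D (P : Subgroup G))
    (h₀ : InvFree q (normalizer ((zjZ e D : Subgroup G) : Set G))) {X A : Subgroup G} (hXne : X ≠ ⊤)
    (hnf : ¬ InvFree q X) (hA : A ∈ zjFam e D) (hAX : A ≤ X) :
    ∃ E : Subgroup G, E.Normal ∧ (∀ a ∈ E, ∀ b ∈ E, a * b = b * a) ∧ IsPGroup q E ∧ zjZ e D ≤ E ∧
      ∀ a ∈ A, ∀ x ∈ E, a * x = x * a := by
  classical
  have hAp : IsPGroup q A := P.isPGroup'.to_le (hA.1.trans hD.1)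
  obtain ⟨T, hAT, hT⟩ := exists_sylIn_ge hAX hAp
  obtain ⟨c, hc⟩ := exists_cjS_le_sylow hT.isP P
  obtain ⟨S₁, g, hS₁P, hS₁, hn⟩ := chain hih hD h₀ _ (cjS c X) (cjS c T) rfl (cjS_ne_top hXne) hc
    (SylIn.cjS hT c) (not_invFree_cjS hnf)
  rw [cjS_cjS] at hS₁
  have hA''S : cjS (g * c) A ≤ S₁ := (cjS_mono hAT).trans hS₁
  have hA'' : cjS (g * c) A ∈ zjFam e D := cjS_mem_zjFam hD hA (hA''S.trans hS₁P)
  have hA''₁ : cjS (g * c) A ∈ zjFam e (D ⊓ S₁) := by
    refine ⟨le_inf hA''.1 hA''S, hA''.2.1, hA''.2.2.1, ?_⟩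
    intro B hB h1 h2
    exact hA''.2.2.2 B (hB.trans inf_le_left) h1 h2
  have hfam2 : ∀ B, B ∈ zjFam e (D ⊓ S₁) → B ∈ zjFam e D := by
    intro B hB
    refine ⟨hB.1.trans inf_le_left, hB.2.1, hB.2.2.1, ?_⟩
    intro C hC h1 h2
    exact (hA''.2.2.2 C hC h1 h2).trans (hB.2.2.2 _ hA''₁.1 hA''.2.1 hA''.2.2.1)
  have hEA : zjZ e (D ⊓ S₁) ≤ cjS (g * c) A := zjZ_le_of_mem hA''₁
  refine ⟨zjZ e (D ⊓ S₁), hn, zjZ_comm, P.isPGroup'.to_le (zjZ_le.trans (inf_le_right.trans hS₁P)), ?_, ?_⟩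
  · intro z hz
    rw [mem_zjZ]
    obtain ⟨-, h2, h3⟩ := mem_zjZ.1 hz
    refine ⟨le_zjJ hA''₁ (zjZ_le_of_mem hA'' hz), ?_, h3⟩
    have hle : zjJ e (D ⊓ S₁) ≤ zjJ e D := sSup_le fun B hB => le_zjJ (hfam2 B hB)
    rw [mem_centralizer_iff]
    intro j hj
    exact mem_centralizer_iff.1 h2 j (hle hj)
  · intro a ha x hx
    have h1 : (g * c) * a * (g * c)⁻¹ ∈ cjS (g * c) A := conj_mem_cjS ha
    have h2 : (g * c) * x * (g * c)⁻¹ ∈ zjZ e (D ⊓ S₁) := hn.conj_mem x hx _
    have h3 := hA''.2.1 _ h1 _ (hEA h2)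
    have e1 : (g * c) * (a * x) * (g * c)⁻¹ = (g * c) * (x * a) * (g * c)⁻¹ := by
      calc (g * c) * (a * x) * (g * c)⁻¹ = ((g * c) * a * (g * c)⁻¹) * ((g * c) * x * (g * c)⁻¹) := by group
        _ = ((g * c) * x * (g * c)⁻¹) * ((g * c) * a * (g * c)⁻¹) := h3
        _ = _ := by group
    exact mul_left_cancel (mul_right_cancel e1)

/-- If `O_q(G) = 1`, the normalizers of nontrivial `q`-subgroups have no inversions. -/
theorem invFree_normalizer_of_core_bot (hqe : q ∣ e) (hih : ICH q e G)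
    (hD : IsStronglyClosed D (P : Subgroup G))
    (h₀ : InvFree q (normalizer ((zjZ e D : Subgroup G) : Set G))) (hDne : D ≠ ⊥)
    (hQ : pCore q G = ⊥) {U : Subgroup G} (hU : U ≤ (P : Subgroup G)) (hUne : U ≠ ⊥) :
    InvFree q (normalizer (U : Set G)) := by
  classical
  have hDP : D ≤ P := hD.1
  have hPD : (P : Subgroup G) ≤ normalizer (D : Set G) := fun t ht =>
    Cfsg.Agent.Lib.PGroups.mem_normalizer_of_conj_le' D t (fun x hx =>
      hD.2 x hx t (P.mul_mem (P.mul_mem ht (hDP hx)) (P.inv_mem ht)))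
  obtain ⟨g, Vo, T₀, hg, hVoP, hT₀⟩ := LocalEven2.exists_fn P U hU
  have hnormal_bot : ∀ N : Subgroup G, N.Normal → IsPGroup q N → N = ⊥ := by
    intro N hN hNp
    have := Cfsg.Agent.Lib.Basic.le_pCore hN hNp
    rw [hQ] at this
    exact le_bot_iff.1 this
  have hSyl : SylIn q (normalizer (Vo : Set G)) (normalizer (Vo : Set G) ⊓ (P : Subgroup G)) := by
    rw [← hT₀]
    exact sylIn_of_sylow T₀
  have hfree : InvFree q (normalizer (Vo : Set G)) := by
    by_contra hnf
    have hVne : normalizer (Vo : Set G) ≠ ⊤ := by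
      intro h0
      have h1 := hnormal_bot Vo (Subgroup.normalizer_eq_top_iff.1 h0) (P.isPGroup'.to_le hVoP)
      rw [← hg] at h1
      exact cjS_ne_bot hUne h1
    obtain ⟨S₁, g₁, hS₁P, hle, hn⟩ := chain hih hD h₀ _ _ _ rfl hVne inf_le_right hSyl hnf
    obtain ⟨z, hzD, hz1, hzp, hzc⟩ := Cfsg.Agent.Lib.LocalEven2.exists_central_order_p P.isPGroup' hDP hPD hDne
    have hzS : z ∈ normalizer (Vo : Set G) ⊓ (P : Subgroup G) := by
      refine ⟨?_, hDP hzD⟩
      apply Cfsg.Agent.Lib.PGroups.mem_normalizer_of_conj_le'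
      intro u hu
      have h1 := hzc u (hVoP hu)
      have e1 : z * u * z⁻¹ = u := by rw [← h1]; group
      rwa [e1]
    have hz' : g₁ * z * g₁⁻¹ ∈ S₁ := hle ⟨z, hzS, rfl⟩
    have hDS : D ⊓ S₁ ≠ ⊥ := by
      intro h0
      have h2 : g₁ * z * g₁⁻¹ ∈ D ⊓ S₁ := ⟨hD.2 z hzD g₁ (hS₁P hz'), hz'⟩
      rw [h0, Subgroup.mem_bot] at h2
      apply hz1
      have e2 : z = g₁⁻¹ * (g₁ * z * g₁⁻¹) * g₁ := by group
      rw [e2, h2]
      group
    have hS₁p : IsPGroup q S₁ := P.isPGroup'.to_le hS₁P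
    have hS₁N : S₁ ≤ normalizer ((D ⊓ S₁ : Subgroup G) : Set G) := by
      intro t ht
      apply Cfsg.Agent.Lib.PGroups.mem_normalizer_of_conj_le'
      rintro x ⟨hx1, hx2⟩
      have h3 : t * x * t⁻¹ ∈ S₁ := S₁.mul_mem (S₁.mul_mem ht hx2) (S₁.inv_mem ht)
      exact ⟨hD.2 x hx1 t (hS₁P h3), h3⟩
    have h4 := zjZ_ne_bot hS₁p inf_le_right hS₁N hDS hqe
    exact h4 (hnormal_bot _ hn (hS₁p.to_le (zjZ_le.trans inf_le_right)))
  refine (hfree.cjS g⁻¹).mono ?_
  intro y hy
  rw [mem_cjS, inv_inv]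
  have h5 := conj_mem_normalizer_cjS (g := g) hy
  rwa [hg] at h5

end

/-- **Theorem.** If no nontrivial `q`-element is inverted in `N_G(Z(J(D)))`, then this normalizer controls
strong fusion. -/
theorem ic (hq : q ≠ 2) {e : ℕ} (hqe : q ∣ e) : ∀ (n : ℕ) (G : Type u) [Group G] [Finite G] (P : Sylow q G)
    (D : Subgroup G), IsStronglyClosed D (P : Subgroup G) → Nat.card G = n →
    InvFree q (normalizer ((zjZ e D : Subgroup G) : Set G)) →
    ∀ U : Subgroup G, U ≤ (P : Subgroup G) →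
      SSc (normalizer ((zjZ e D : Subgroup G) : Set G)) (P : Subgroup G) U := by
  intro n
  induction n using Nat.strong_induction_on with
  | _ n ih =>
  intro G _ _ P D hD hn h₀
  classical
  have hih : ICH q e G := fun H hne S D₁ hD₁ hf =>
    ih _ (hn ▸ Cfsg.Agent.Lib.OddLocal.card_lt_of_ne_top hne) H S D₁ hD₁ rfl hf
  by_cases hDne : D = ⊥
  · subst hDne
    intro U _ g _
    have h0 : zjZ e (⊥ : Subgroup G) = ⊥ := le_bot_iff.1 zjZ_le
    refine ⟨g, ?_, fun _ _ => rfl⟩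
    rw [h0, Subgroup.normalizer_eq_top_iff.2 inferInstance]
    exact mem_top g
  have hDP : D ≤ P := hD.1
  have hPD : (P : Subgroup G) ≤ normalizer (D : Set G) := fun t ht =>
    Cfsg.Agent.Lib.PGroups.mem_normalizer_of_conj_le' D t (fun x hx =>
      hD.2 x hx t (P.mul_mem (P.mul_mem ht (hDP hx)) (P.inv_mem ht)))
  have hPX : (P : Subgroup G) ≤ normalizer ((zjZ e D : Subgroup G) : Set G) := fun t ht =>
    zjZ_mem_normalizer (hPD ht)
  have hTM : ∀ H : Subgroup G, (P : Subgroup G) ≤ H → H ≠ ⊤ →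
      CtrlIn (normalizer ((zjZ e D : Subgroup G) : Set G)) H (P : Subgroup G) := by
    intro H hPH hne
    apply ctrlIn_of_overgroup P hD.1 hPH
    have hsc : IsStronglyClosed (D.subgroupOf H) ((P.subtype hPH : Sylow q H) : Subgroup H) := by
      rw [Sylow.coe_subtype]
      exact ⟨fun x hx => hD.1 hx, fun x hx g hg => hD.2 _ hx _ hg⟩
    refine hih H hne (P.subtype hPH) (D.subgroupOf H) hsc ?_
    apply InvFree.of_map H.subtype_injective
    refine h₀.mono ?_
    rintro _ ⟨x, hx, rfl⟩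
    have hmap : (zjZ e (D.subgroupOf H)).map H.subtype = zjZ e D := by
      rw [zjZ_map H.subtype_injective, Subgroup.map_subgroupOf_eq_of_le (hD.1.trans hPH)]
    rw [← hmap]
    exact mem_normalizer_map_subtype _ _ hx
  have hFree : ∀ H : Subgroup G, (P : Subgroup G) ≤ H → H ≠ ⊤ → InvFree q H := by
    intro H hPH hne
    have hS : SylIn q H (P : Subgroup G) := by
      refine ⟨hPH, P.isPGroup', ?_⟩
      intro hd
      apply P.not_dvd_index
      rw [← Subgroup.relIndex_mul_index hPH]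
      exact Dvd.dvd.mul_right hd _
    refine invFree_of_ctrl hS hPX h₀ ?_
    intro x hx g hg hgx
    obtain ⟨n', hn', hnx⟩ := hTM H hPH hne (zpowers x) (zpowers_le.2 hx) g hg (by
      rintro _ ⟨i, rfl⟩
      have e1 : g * x ^ i * g⁻¹ = (g * x * g⁻¹) ^ i := by rw [conj_zpow]
      show g * x ^ i * g⁻¹ ∈ (P : Subgroup G)
      rw [e1]
      exact zpow_mem hgx i)
    exact ⟨n', hn', hnx x (mem_zpowers x)⟩
  by_cases hQ : pCore q G = ⊥
  · refine control_main hqe P D hD ?_
    intro U hU hUne T₀ D₁ hD₁ C hC y hy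
    have hNne : normalizer (U : Set G) ≠ ⊤ := by
      intro h
      have hn := Subgroup.normalizer_eq_top_iff.1 h
      have := Cfsg.Agent.Lib.Basic.le_pCore hn (P.isPGroup'.to_le hU)
      rw [hQ] at this
      exact hUne (le_bot_iff.1 this)
    have hf := invFree_normalizer_of_core_bot hqe hih hD h₀ hDne hQ hU hUne
    exact hih _ hNne T₀ D₁ hD₁ (InvFree.of_map (normalizer (U : Set G)).subtype_injective
      (hf.mono (Subgroup.map_subtype_le _))) C hC y hy
  · by_contra hbad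
    have hQn : (pCore q G).Normal := Cfsg.Agent.Lib.Basic.pCore_normal (G := G) q
    have hQp : IsPGroup q (pCore q G) := Cfsg.Agent.Lib.Basic.pCore_isPGroup (G := G) q
    have hQP : pCore q G ≤ P := Cfsg.Agent.Lib.Basic.pCore_le_sylow P
    have hstar : ∀ N : Subgroup G, N.Normal → N ⊔ P ≠ ⊤ → N ⊓ P ≤ pCore q G := by
      intro N hN hne
      haveI := hN
      have hPY : (P : Subgroup G) ≤ normalizer (((P : Subgroup G) ⊓ N : Subgroup G) : Set G) := by
        intro t ht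
        apply Cfsg.Agent.Lib.PGroups.mem_normalizer_of_conj_le'
        rintro x ⟨hx1, hx2⟩
        exact ⟨P.mul_mem (P.mul_mem ht hx1) (P.inv_mem ht), hN.conj_mem x hx2 t⟩
      by_cases hY : normalizer (((P : Subgroup G) ⊓ N : Subgroup G) : Set G) = ⊤
      · have hnormal := Subgroup.normalizer_eq_top_iff.1 hY
        have := Cfsg.Agent.Lib.Basic.le_pCore hnormal (P.isPGroup'.to_le inf_le_left)
        rwa [inf_comm] at this
      · exfalso
        apply hbad
        exact control_frattini P N (hTM _ hPY hY) (hTM _ le_sup_right hne)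
    haveI hCn : (centralizer ((pCore q G : Subgroup G) : Set G)).Normal := inferInstance
    by_cases hcov : ∀ g : G, ∃ c ∈ centralizer ((pCore q G : Subgroup G) : Set G),
        ∃ t ∈ (P : Subgroup G), g = c * t
    · apply hbad
      obtain ⟨Y, hYdef⟩ : ∃ Y : Subgroup G, Y = pCore q G ⊓ centralizer ((pCore q G : Subgroup G) : Set G) := ⟨_, rfl⟩
      haveI hYn : Y.Normal := by
        rw [hYdef]
        infer_instance
      have hYne : Y ≠ ⊥ := by
        intro h0
        obtain ⟨z, hzQ, hz1, -, hzc⟩ := Cfsg.Agent.Lib.LocalEven2.exists_central_order_p hQp le_rfl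
          Subgroup.le_normalizer hQ
        have hzY : z ∈ Y := by
          rw [hYdef]
          exact ⟨hzQ, Subgroup.mem_centralizer_iff.2 hzc⟩
        rw [h0] at hzY
        exact hz1 (Subgroup.mem_bot.1 hzY)
      have hYp : IsPGroup q Y := by
        rw [hYdef]
        exact hQp.to_le inf_le_left
      have hcardq : Nat.card (G ⧸ Y) < n := by
        have h5 := Subgroup.card_eq_card_quotient_mul_card_subgroup Y
        have h6 : 1 < Nat.card Y := Subgroup.one_lt_card_iff_ne_bot Y |>.2 hYne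
        have h7 : 0 < Nat.card (G ⧸ Y) := Nat.card_pos
        rw [← hn, h5]
        nlinarith
      refine control_central_case' hqe P D hD Y hYdef hcov ?_ hTM
      intro Ph Dh hDh hPh hne Uh hUh
      refine ih _ hcardq (G ⧸ Y) Ph Dh hDh rfl ?_ Uh hUh
      obtain ⟨M, hM⟩ : ∃ M : Subgroup G, M = (normalizer ((zjZ e Dh : Subgroup (G ⧸ Y)) : Set (G ⧸ Y))).comap (QuotientGroup.mk' Y) := ⟨_, rfl⟩
      rw [← hM] at hne
      have hPhN : (Ph : Subgroup (G ⧸ Y)) ≤ normalizer (Dh : Set (G ⧸ Y)) := fun t ht =>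
        Cfsg.Agent.Lib.PGroups.mem_normalizer_of_conj_le' Dh t (fun x hx =>
          hDh.2 x hx t (Ph.mul_mem (Ph.mul_mem ht (hDh.1 hx)) (Ph.inv_mem ht)))
      have hPM : (P : Subgroup G) ≤ M := by
        intro t ht
        rw [hM]
        show (QuotientGroup.mk' Y) t ∈ normalizer ((zjZ e Dh : Subgroup (G ⧸ Y)) : Set (G ⧸ Y))
        apply zjZ_mem_normalizer
        apply hPhN
        rw [hPh]
        exact ⟨t, ht, rfl⟩
      have hYM : Y ≤ M := by
        intro y hy
        rw [hM]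
        show (QuotientGroup.mk' Y) y ∈ normalizer ((zjZ e Dh : Subgroup (G ⧸ Y)) : Set (G ⧸ Y))
        have h1 : (QuotientGroup.mk' Y) y = 1 := (QuotientGroup.eq_one_iff y).2 hy
        rw [h1]
        exact one_mem _
      have hmm := invFree_map_quot hq hYp hYM (hFree M hPM hne)
      rw [hM, Subgroup.map_comap_eq_self_of_surjective (QuotientGroup.mk'_surjective Y)] at hmm
      exact hmm
    · -- the element-wise consequence of an inversion in a proper subgroup
      have hcore : ∀ E : Subgroup G, E.Normal → IsPGroup q E → E ≤ pCore q G := fun E h1 h2 =>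
        Cfsg.Agent.Lib.Basic.le_pCore h1 h2
      have hZQ : zjZ e D ≤ pCore q G := by
        by_contra hZ
        obtain ⟨A₀, hA₀⟩ := zjFam_nonempty e D
        have hchief : ∀ B₁ B₂ : Subgroup G, B₁.Normal → B₂.Normal → B₂ < B₁ → B₁ ≤ pCore q G →
            (∀ N : Subgroup G, N.Normal → B₂ ≤ N → N ≤ B₁ → N = B₂ ∨ N = B₁) →
            ∀ a ∈ (zjZ e D : Set G), ∀ b ∈ B₁, a * b * a⁻¹ * b⁻¹ ∈ B₂ := by
          intro B₁ B₂ h1 h2 h3 h4 h5 a ha b hb
          by_contra hne
          haveI := h1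
          haveI := h2
          have haP : a ∈ (P : Subgroup G) := hDP (zjZ_le ha)
          obtain ⟨Y, hYne, hYnf, hYC⟩ := chief_inverted hq B₁ B₂ h3 h5 (hQp.to_le h4) a
            (exists_pow_of_isPGroup P.isPGroup' haP)
            (by
              intro w hw
              have hwP : w ∈ (P : Subgroup G) := hQP (h4 hw)
              have h6 : w * a * w⁻¹ ∈ zjZ e D := (mem_normalizer_iff.1 (hPX hwP) a).1 ha
              have h7 : ⁅w, a⁆ ∈ zjZ e D := by
                rw [commutatorElement_def]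
                exact mul_mem h6 (inv_mem ha)
              exact zjZ_comm _ h7 _ ha)
            ⟨b, hb, hne⟩
          have hAY : A₀ ≤ Y := by
            refine le_trans ?_ hYC
            intro x hx
            rw [mem_centralizer_iff]
            intro y hy
            rw [Set.mem_singleton_iff.1 hy]
            exact hA₀.2.1 a (zjZ_le_of_mem hA₀ ha) x hx
          obtain ⟨E, hEn, -, hEp, hZE, -⟩ := exists_E hih hD h₀ hYne hYnf hA₀ hAY
          exact hZ (hZE.trans (hcore E hEn hEp))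
        obtain ⟨K, hKn, hKΛ, hKc⟩ := kb_lemma _ (pCore q G) hQn hQp rfl (zjZ e D : Set G) hchief
        by_cases hs : K ⊔ P = ⊤
        · exact hcov (top_of_sup_eq_top hKn hKc P hs)
        · apply hZ
          intro z hz
          exact hstar K hKn hs ⟨hKΛ z hz, hDP (zjZ_le hz)⟩
      have hnormal : (zjZ e D).Normal := by
        refine zj_core_inv hq e P D hD hZQ ?_
        intro B hBn hBV A hA hBN
        haveI := hBn
        have hVQ : normalClosure ((zjZ e D : Subgroup G) : Set G) ≤ pCore q G :=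
          @normalClosure_le_normal _ _ _ _ hQn hZQ
        have hBp : IsPGroup q B := hQp.to_le (hBV.trans hVQ)
        have hchief : ∀ B₁ B₂ : Subgroup G, B₁.Normal → B₂.Normal → B₂ < B₁ → B₁ ≤ B →
            (∀ N : Subgroup G, N.Normal → B₂ ≤ N → N ≤ B₁ → N = B₂ ∨ N = B₁) →
            ∀ a ∈ (A : Set G), ∀ b ∈ B₁, a * b * a⁻¹ * b⁻¹ ∈ B₂ := by
          intro B₁ B₂ h1 h2 h3 h4 h5 a ha b hb
          by_contra hne
          haveI := h1
          haveI := h2
          have haP : a ∈ (P : Subgroup G) := hDP (hA.1 ha)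
          obtain ⟨Y, hYne, hYnf, hYC⟩ := chief_inverted hq B₁ B₂ h3 h5 (hBp.to_le h4) a
            (exists_pow_of_isPGroup P.isPGroup' haP)
            (by
              intro w hw
              have h6 : w * a * w⁻¹ ∈ A := (mem_normalizer_iff.1 (hBN (h4 hw)) a).1 ha
              have h7 : ⁅w, a⁆ ∈ A := by
                rw [commutatorElement_def]
                exact mul_mem h6 (inv_mem ha)
              exact hA.2.1 _ h7 _ ha)
            ⟨b, hb, hne⟩
          have hAY : A ≤ Y := by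
            refine le_trans ?_ hYC
            intro x hx
            rw [mem_centralizer_iff]
            intro y hy
            rw [Set.mem_singleton_iff.1 hy]
            exact hA.2.1 a ha x hx
          obtain ⟨E, hEn, -, -, hZE, hAE⟩ := exists_E hih hD h₀ hYne hYnf hA hAY
          have hVE : normalClosure ((zjZ e D : Subgroup G) : Set G) ≤ E :=
            @normalClosure_le_normal _ _ _ _ hEn hZE
          apply hne
          have hbE : b ∈ E := hVE (hBV (h4 hb))
          have h8 := hAE a ha b hbE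
          rw [h8]
          have e1 : b * a * a⁻¹ * b⁻¹ = 1 := by group
          rw [e1]
          exact one_mem _
        obtain ⟨K, hKn, hKΛ, hKc⟩ := kb_lemma _ B hBn hBp rfl (A : Set G) hchief
        by_cases hs : K ⊔ P = ⊤
        · right
          exact top_of_sup_eq_top hKn hKc P hs
        · left
          intro a ha
          exact hstar K hKn hs ⟨hKΛ a ha, hDP (hA.1 ha)⟩
      apply hbad
      intro U hU g hg
      refine ⟨g, ?_, fun _ _ => rfl⟩
      rw [Subgroup.normalizer_eq_top_iff.2 hnormal]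
      trivial

end Cfsg.Agent.Lib.LocalEven.InvZJ
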