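import Cfsg.Agent.Lib.LocalEven.InvZJ5

/-! A group without normal Sylow `2`-subgroup has an element of odd prime order which is inverted. -/

set_option autoImplicit false
set_option linter.unusedSectionVars false
set_option linter.style.haveILetI false

namespace Cfsg.Agent.Lib.LocalEven.InvZJ

open Subgroup Cfsg Cfsg.Agent.Lib.LocalEven Cfsg.Agent.Lib.LocalEven2
open scoped commutatorElement

universe u

section lift
variable {G Q : Type*} [Group G] [Group Q] [Finite G]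

/-- Lifting an inverted element of odd prime order through a surjection with `2`-group kernel. -/
theorem lift_inverted {r : ℕ} [Fact r.Prime] (hr : r ≠ 2) (π : G →* Q) (hπs : Function.Surjective π)
    (hker : IsPGroup 2 π.ker) (c₀ u : Q) (hc₀ : orderOf c₀ = r) (huc : u * c₀ * u⁻¹ = c₀⁻¹) :
    ∃ s g : G, s ≠ 1 ∧ s ^ r = 1 ∧ g * s * g⁻¹ = s⁻¹ := by
  classical
  have hrp : r.Prime := Fact.out
  have hrodd : Odd r := hrp.odd_of_ne_two hr
  have hc₀r : c₀ ^ r = 1 := by rw [← hc₀, pow_orderOf_eq_one]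
  have hc₀1 : c₀ ≠ 1 := by
    rintro rfl
    rw [orderOf_one] at hc₀
    exact hrp.one_lt.ne hc₀
  obtain ⟨K, hKdef⟩ : ∃ K : Subgroup G, K = (zpowers c₀).comap π := ⟨_, rfl⟩
  have hKmem : ∀ x, x ∈ K ↔ π x ∈ zpowers c₀ := fun x => by rw [hKdef]; exact Iff.rfl
  obtain ⟨R, -, hR⟩ := exists_sylIn_ge (p := r) (bot_le : (⊥ : Subgroup G) ≤ K) (IsPGroup.of_bot)
  -- an `r`-element mapping to `c₀`
  obtain ⟨s₁, hs₁⟩ := hπs c₀
  have hs₁K : s₁ ∈ K := by rw [hKmem, hs₁]; exact mem_zpowers _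
  obtain ⟨a, b, hab, hcomm, ⟨m, hm⟩, hb, ha', hb'⟩ := Cfsg.Agent.Lib.PGroups.exists_pPart r s₁
  have hπb : π b = 1 := by
    have h1 : π b ∈ zpowers c₀ := by
      have : zpowers s₁ ≤ K := zpowers_le.2 hs₁K
      exact (hKmem b).1 (this hb')
    obtain ⟨i, hi⟩ := h1
    have h2 : (π b) ^ r = 1 := by
      rw [← hi]
      show (c₀ ^ i) ^ r = 1
      rw [← zpow_natCast, ← zpow_mul, mul_comm, zpow_mul, zpow_natCast, hc₀r, one_zpow]
    have h3 : (π b) ^ orderOf b = 1 := by rw [← map_pow, pow_orderOf_eq_one, map_one]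
    have hcop : Nat.Coprime r (orderOf b) := (Nat.Prime.coprime_iff_not_dvd hrp).2 hb
    have h5 := pow_gcd_eq_one.2 ⟨h2, h3⟩
    rwa [hcop, pow_one] at h5
  have hπa : π a = c₀ := by
    rw [← hs₁, hab, map_mul, hπb, mul_one]
  have haK : a ∈ K := (zpowers_le.2 hs₁K) ha'
  have hak : a ^ r ^ m = 1 := by rw [← hm, pow_orderOf_eq_one]
  obtain ⟨k, hkK, hkle⟩ := hR.exists_cj_le (zpowers_le.2 haK) (isPGroup_zpowers_of_pow hak)
  obtain ⟨s, hsdef⟩ : ∃ s : G, s = k * a * k⁻¹ := ⟨_, rfl⟩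
  have hsR : s ∈ R := by
    rw [hsdef]
    exact hkle ⟨a, mem_zpowers a, rfl⟩
  have hcommz : ∀ y ∈ zpowers c₀, y * c₀ * y⁻¹ = c₀ := by
    rintro _ ⟨i, rfl⟩
    have : Commute (c₀ ^ i) c₀ := (Commute.refl c₀).zpow_left i
    show c₀ ^ i * c₀ * (c₀ ^ i)⁻¹ = c₀
    rw [this.eq]
    group
  have hπs' : π s = c₀ := by
    rw [hsdef, map_mul, map_mul, map_inv, hπa]
    exact hcommz _ ((hKmem k).1 hkK)
  -- the lift of `u`
  obtain ⟨x₀, hx₀⟩ := hπs u
  have hconjz : ∀ y ∈ zpowers c₀, u * y * u⁻¹ ∈ zpowers c₀ := by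
    rintro _ ⟨i, rfl⟩
    show u * c₀ ^ i * u⁻¹ ∈ zpowers c₀
    rw [← conj_zpow, huc]
    exact zpow_mem (inv_mem (mem_zpowers c₀)) i
  have hle2 : cj x₀ R ≤ K := by
    rintro _ ⟨t, ht, rfl⟩
    show x₀ * t * x₀⁻¹ ∈ K
    rw [hKmem, map_mul, map_mul, map_inv, hx₀]
    exact hconjz _ ((hKmem t).1 (hR.le ht))
  obtain ⟨k₂, hk₂K, hk₂le⟩ := hR.exists_cj_le hle2 (isPGroup_cj hR.isP x₀)
  obtain ⟨g, hgdef⟩ : ∃ g : G, g = k₂ * x₀ := ⟨_, rfl⟩
  have hgs : g * s * g⁻¹ ∈ R := by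
    have : k₂ * (x₀ * s * x₀⁻¹) * k₂⁻¹ ∈ R := hk₂le ⟨x₀ * s * x₀⁻¹, ⟨s, hsR, rfl⟩, rfl⟩
    have e : g * s * g⁻¹ = k₂ * (x₀ * s * x₀⁻¹) * k₂⁻¹ := by rw [hgdef]; group
    rwa [e]
  have hπgs : π (g * s * g⁻¹) = c₀⁻¹ := by
    rw [hgdef]
    simp only [map_mul, map_inv, mul_inv_rev, hx₀, hπs']
    have e : π k₂ * u * c₀ * (u⁻¹ * (π k₂)⁻¹) = π k₂ * (u * c₀ * u⁻¹) * (π k₂)⁻¹ := by group
    rw [e, huc]
    have h2 := hcommz _ ((hKmem k₂).1 hk₂K)
    have e2 : π k₂ * c₀⁻¹ * (π k₂)⁻¹ = (π k₂ * c₀ * (π k₂)⁻¹)⁻¹ := by group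
    rw [e2, h2]
  -- elements of `R` in the kernel are trivial
  have hRker : ∀ y ∈ R, π y = 1 → y = 1 := by
    intro y hy hy1
    obtain ⟨i, hi⟩ := hR.isP ⟨y, hy⟩
    obtain ⟨j, hj⟩ := hker ⟨y, hy1⟩
    have h1 : y ^ r ^ i = 1 := congrArg Subtype.val hi
    have h2 : y ^ 2 ^ j = 1 := congrArg Subtype.val hj
    have hcop : Nat.Coprime (r ^ i) (2 ^ j) :=
      Nat.Coprime.pow _ _ ((Nat.coprime_primes hrp Nat.prime_two).2 hr)
    have h5 := pow_gcd_eq_one.2 ⟨h1, h2⟩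
    rwa [hcop, pow_one] at h5
  refine ⟨s, g, ?_, ?_, ?_⟩
  · rintro rfl
    rw [map_one] at hπs'
    exact hc₀1 hπs'.symm
  · apply hRker _ (R.pow_mem hsR r)
    rw [map_pow, hπs', hc₀r]
  · have h1 := hRker (g * s * g⁻¹ * s) (R.mul_mem hgs hsR) (by rw [map_mul, hπgs, hπs', inv_mul_cancel])
    exact mul_eq_one_iff_eq_inv.1 h1

end lift

section main
variable {G : Type*} [Group G] [Finite G]

/-- Two involutions generate a `2`-group if their product is a `2`-element. -/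
theorem isPGroup_closure_of_two_invol {u v : G} (hu : u * u = 1) (hv : v * v = 1)
    (h : IsPGroup 2 (zpowers (u * v))) : IsPGroup 2 (closure ({u, v} : Set G)) := by
  have hu2 : u ^ 2 ^ 1 = 1 := by rw [pow_one, sq, hu]
  have hzu : IsPGroup 2 (zpowers u) := isPGroup_zpowers_of_pow hu2
  have hinv : u * (u * v) * u⁻¹ = (u * v)⁻¹ := by
    have hui : u⁻¹ = u := inv_eq_of_mul_eq_one_left hu
    have hvi : v⁻¹ = v := inv_eq_of_mul_eq_one_left hv
    rw [mul_inv_rev, hui, hvi, ← mul_assoc, hu, one_mul]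
  have hle : zpowers u ≤ normalizer ((zpowers (u * v) : Subgroup G) : Set G) := by
    rw [zpowers_le]
    apply Cfsg.Agent.Lib.PGroups.mem_normalizer_of_conj_le'
    rintro _ ⟨i, rfl⟩
    show u * (u * v) ^ i * u⁻¹ ∈ zpowers (u * v)
    rw [← conj_zpow, hinv]
    exact zpow_mem (inv_mem (mem_zpowers _)) i
  have hsup := IsPGroup.to_sup_of_normal_right' hzu h hle
  refine hsup.to_le ?_
  have h1 : u ∈ zpowers u ⊔ zpowers (u * v) := (le_sup_left (a := zpowers u) (b := zpowers (u * v))) (mem_zpowers u)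
  have h2 : u * v ∈ zpowers u ⊔ zpowers (u * v) :=
    (le_sup_right (a := zpowers u) (b := zpowers (u * v))) (mem_zpowers _)
  have h3 := mul_mem h1 h2
  rw [← mul_assoc, hu, one_mul] at h3
  rw [closure_le]
  rintro x (hx | hx)
  · rw [hx]
    exact h1
  · rw [Set.mem_singleton_iff.1 hx]
    exact h3

/-- **A group with no normal Sylow `2`-subgroup has an inverted element of odd prime order.** -/
theorem exists_inverted_of_not_closed (hG : ¬ ∀ P : Sylow 2 G, (P : Subgroup G).Normal) :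
    ∃ (r : ℕ) (_ : Fact r.Prime) (_ : r ≠ 2) (s g : G), s ≠ 1 ∧ s ^ r = 1 ∧ g * s * g⁻¹ = s⁻¹ := by
  classical
  obtain ⟨O, hOdef⟩ : ∃ O : Subgroup G, O = pCore 2 G := ⟨_, rfl⟩
  haveI hOn : O.Normal := hOdef ▸ Cfsg.Agent.Lib.Basic.pCore_normal (G := G) 2
  have hOp : IsPGroup 2 O := hOdef ▸ Cfsg.Agent.Lib.Basic.pCore_isPGroup (G := G) 2
  have hOmax : ∀ N : Subgroup G, N.Normal → IsPGroup 2 N → N ≤ O := fun N h1 h2 =>
    hOdef ▸ Cfsg.Agent.Lib.Basic.le_pCore h1 h2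
  obtain ⟨π, hπdef⟩ : ∃ π : G →* G ⧸ O, π = QuotientGroup.mk' O := ⟨_, rfl⟩
  have hπ1 : ∀ x : G, π x = 1 ↔ x ∈ O := fun x => by rw [hπdef]; exact QuotientGroup.eq_one_iff x
  have hπs : Function.Surjective π := by rw [hπdef]; exact QuotientGroup.mk'_surjective O
  have hker : IsPGroup 2 π.ker := by
    have : π.ker = O := by
      ext x
      rw [MonoidHom.mem_ker, hπ1]
    rw [this]
    exact hOp
  -- an involution in the quotient
  obtain ⟨w, hw1, hww⟩ : ∃ w : G ⧸ O, w ≠ 1 ∧ w * w = 1 := by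
    by_contra hcon
    push Not at hcon
    apply hG
    intro P
    have hOP : O ≤ (P : Subgroup G) := hOdef ▸ Cfsg.Agent.Lib.Basic.pCore_le_sylow P
    have hPO : (P : Subgroup G) ≤ O := by
      intro x hx
      rw [← hπ1]
      obtain ⟨k, hk⟩ := P.isPGroup' ⟨x, hx⟩
      have h1 : x ^ 2 ^ k = 1 := congrArg Subtype.val hk
      have h2 : (π x) ^ 2 ^ k = 1 := by rw [← map_pow, h1, map_one]
      clear hk h1
      induction k with
      | zero => simpa using h2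
      | succ k ih =>
        apply ih
        by_contra h3
        apply hcon _ h3
        rw [← sq, ← pow_mul, ← pow_succ]
        exact h2
    have : (P : Subgroup G) = O := le_antisymm hPO hOP
    rw [this]
    exact hOn
  -- the set of involutions
  obtain ⟨Δ, hΔdef⟩ : ∃ Δ : Set (G ⧸ O), Δ = {y | y ≠ 1 ∧ y * y = 1} := ⟨_, rfl⟩
  have hΔ : Cfsg.Agent.Lib.Invol.ConjClosed Δ := by
    rw [hΔdef]
    rintro y ⟨h1, h2⟩ g
    refine ⟨?_, ?_⟩
    · intro h3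
      apply h1
      have : y = g⁻¹ * (g * y * g⁻¹) * g := by group
      rw [this, h3]
      group
    · have : g * y * g⁻¹ * (g * y * g⁻¹) = g * (y * y) * g⁻¹ := by group
      rw [this, h2]
      group
  have hbadpair : ∃ u ∈ Δ, ∃ v ∈ Δ, ¬ IsPGroup 2 (closure ({u, v} : Set (G ⧸ O))) := by
    by_contra hcon
    push Not at hcon
    have hcl := Cfsg.Agent.Lib.Invol.isPGroup_closure_of_pairs 2 _ rfl Δ hΔ hcon
    have hnorm : (closure Δ).Normal := by
      refine ⟨fun n hn g => ?_⟩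
      induction hn using Subgroup.closure_induction with
      | mem a ha => exact Subgroup.subset_closure (hΔ a ha g)
      | one => simp
      | mul a b _ _ h1 h2 =>
        have : g * (a * b) * g⁻¹ = (g * a * g⁻¹) * (g * b * g⁻¹) := by group
        rw [this]
        exact Subgroup.mul_mem _ h1 h2
      | inv a _ h1 =>
        have : g * a⁻¹ * g⁻¹ = (g * a * g⁻¹)⁻¹ := by group
        rw [this]
        exact Subgroup.inv_mem _ h1
    have hcp : IsPGroup 2 ((closure Δ).comap π) := by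
      rintro ⟨x, hx⟩
      obtain ⟨k, hk⟩ := hcl ⟨π x, hx⟩
      have h1 : (π x) ^ 2 ^ k = 1 := congrArg Subtype.val hk
      have h2 : x ^ 2 ^ k ∈ O := by
        rw [← hπ1, map_pow, h1]
      obtain ⟨m, hm⟩ := exists_pow_of_isPGroup hOp h2
      refine ⟨k + m, Subtype.ext ?_⟩
      show x ^ 2 ^ (k + m) = 1
      rw [pow_add, pow_mul, hm]
    have hle := hOmax _ (hnorm.comap π) hcp
    obtain ⟨x, rfl⟩ := hπs w
    have hx : x ∈ (closure Δ).comap π := by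
      show π x ∈ closure Δ
      apply Subgroup.subset_closure
      rw [hΔdef]
      exact ⟨hw1, hww⟩
    exact hw1 ((hπ1 x).2 (hle hx))
  obtain ⟨u, hu, v, hv, hbad⟩ := hbadpair
  rw [hΔdef] at hu hv
  -- the product of the two involutions
  obtain ⟨c, hcdef⟩ : ∃ c : G ⧸ O, c = u * v := ⟨_, rfl⟩
  have hnot2 : ¬ IsPGroup 2 (zpowers c) := by
    intro h
    rw [hcdef] at h
    exact hbad (isPGroup_closure_of_two_invol hu.2 hv.2 h)
  have hord : ∃ r : ℕ, r.Prime ∧ r ∣ orderOf c ∧ r ≠ 2 := by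
    by_contra hcon
    push Not at hcon
    apply hnot2
    have h0 : orderOf c ≠ 0 := (orderOf_pos c).ne'
    have h1 := Nat.eq_prime_pow_of_unique_prime_dvd h0 (fun {d} hd hd2 => hcon d hd hd2)
    apply isPGroup_zpowers_of_pow (k := (orderOf c).primeFactorsList.length)
    rw [← h1, pow_orderOf_eq_one]
  obtain ⟨r, hr, hrd, hr2⟩ := hord
  haveI : Fact r.Prime := ⟨hr⟩
  have hc₀ : orderOf (c ^ (orderOf c / r)) = r := by
    exact orderOf_pow_orderOf_div (orderOf_pos c).ne' hrd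
  have huinv : u⁻¹ = u := inv_eq_of_mul_eq_one_left hu.2
  have hvinv : v⁻¹ = v := inv_eq_of_mul_eq_one_left hv.2
  have huc : u * c * u⁻¹ = c⁻¹ := by
    rw [hcdef, mul_inv_rev, huinv, hvinv, ← mul_assoc, hu.2, one_mul]
  have huc₀ : u * c ^ (orderOf c / r) * u⁻¹ = (c ^ (orderOf c / r))⁻¹ := by
    rw [← conj_pow, huc, inv_pow]
  obtain ⟨s, g, h1, h2, h3⟩ := lift_inverted hr2 π hπs hker _ u hc₀ huc₀
  exact ⟨r, inferInstance, hr2, s, g, h1, h2, h3⟩

/-- Subgroups inherit normal Sylow `2`-subgroups. -/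
theorem sub_two_closed (hG : ∀ P : Sylow 2 G, (P : Subgroup G).Normal) (H : Subgroup G) (P : Sylow 2 H) :
    (P : Subgroup H).Normal := by
  have hp : IsPGroup 2 ((P : Subgroup H).map H.subtype) := P.isPGroup'.map _
  obtain ⟨S₀, hS₀⟩ := hp.exists_le_sylow
  haveI := hG S₀
  have hQ : IsPGroup 2 ((S₀ : Subgroup G).subgroupOf H) := by
    rintro ⟨⟨x, hxH⟩, hx⟩
    obtain ⟨k, hk⟩ := S₀.isPGroup' ⟨x, hx⟩
    have h1 : x ^ 2 ^ k = 1 := congrArg Subtype.val hk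
    exact ⟨k, Subtype.ext (Subtype.ext h1)⟩
  have hle : (P : Subgroup H) ≤ (S₀ : Subgroup G).subgroupOf H := by
    intro x hx
    exact hS₀ ⟨x, hx, rfl⟩
  rw [← P.is_maximal' hQ hle]
  infer_instance

/-- In a group with normal Sylow `2`-subgroups, no nontrivial element of odd prime power order is inverted. -/
theorem two_closed_no_invert {q : ℕ} [Fact q.Prime] (hq : q ≠ 2)
    (hG : ∀ P : Sylow 2 G, (P : Subgroup G).Normal) {x g : G} (hx : ∃ k : ℕ, x ^ q ^ k = 1)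
    (hinv : g * x * g⁻¹ = x⁻¹) : x = 1 := by
  classical
  have hqp : q.Prime := Fact.out
  have hqodd : Odd q := hqp.odd_of_ne_two hq
  obtain ⟨k, hk⟩ := hx
  obtain ⟨t, b, hgtb, -, ⟨m, hm⟩, hb, ht', hb'⟩ := Cfsg.Agent.Lib.PGroups.exists_pPart 2 g
  obtain ⟨j, hj⟩ := exists_eq_zpow_sq hb' hb
  have hg2 : (g * g) * x = x * (g * g) := by
    have h1 : (g * g) * x * (g * g)⁻¹ = g * (g * x * g⁻¹) * g⁻¹ := by group
    have h2 : g * x⁻¹ * g⁻¹ = (g * x * g⁻¹)⁻¹ := by group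
    rw [hinv, h2, hinv, inv_inv] at h1
    exact mul_inv_eq_iff_eq_mul.1 h1
  have hbx : b * x = x * b := by
    rw [hj]
    exact ((show Commute (g * g) x from hg2).zpow_left j).eq
  have htinv : t * x * t⁻¹ = x⁻¹ := by
    have e : t = g * b⁻¹ := by rw [hgtb]; group
    have e3 : b⁻¹ * x * b = x := by
      rw [mul_assoc, ← hbx]
      group
    rw [e]
    have e2 : g * b⁻¹ * x * (g * b⁻¹)⁻¹ = g * (b⁻¹ * x * b) * g⁻¹ := by group
    rw [e2, e3, hinv]
  have ht2 : t ^ 2 ^ m = 1 := by rw [← hm, pow_orderOf_eq_one]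
  obtain ⟨P, hP⟩ := (isPGroup_zpowers_of_pow ht2).exists_le_sylow
  haveI := hG P
  have htP : t ∈ (P : Subgroup G) := hP (mem_zpowers t)
  have h1 : x⁻¹ * x⁻¹ ∈ (P : Subgroup G) := by
    have e : x⁻¹ * x⁻¹ = (t * x * t⁻¹) * x⁻¹ := by rw [htinv]
    have e2 : (t * x * t⁻¹) * x⁻¹ = t * (x * t⁻¹ * x⁻¹) := by group
    rw [e, e2]
    exact mul_mem htP ((inferInstance : (P : Subgroup G).Normal).conj_mem _ (inv_mem htP) x)
  obtain ⟨n, hn⟩ := P.isPGroup' ⟨_, h1⟩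
  have h2 : (x⁻¹ * x⁻¹) ^ 2 ^ n = 1 := congrArg Subtype.val hn
  have h3 : (x⁻¹ * x⁻¹) ^ q ^ k = 1 := by
    rw [← sq, ← pow_mul, mul_comm, pow_mul, inv_pow, hk]
    simp
  have hcop : Nat.Coprime (2 ^ n) (q ^ k) :=
    Nat.Coprime.pow _ _ (Nat.coprime_two_left.2 hqodd)
  have h5 := pow_gcd_eq_one.2 ⟨h2, h3⟩
  rw [hcop, pow_one] at h5
  have h6 : x ^ 2 = 1 := by
    have : x⁻¹ * x⁻¹ = (x ^ 2)⁻¹ := by
      rw [sq, mul_inv_rev]
    rw [this] at h5
    exact inv_eq_one.1 h5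
  have hcop2 : Nat.Coprime 2 (q ^ k) := Nat.Coprime.pow_right _ (Nat.coprime_two_left.2 hqodd)
  have h7 := pow_gcd_eq_one.2 ⟨h6, hk⟩
  rwa [hcop2, pow_one] at h7

end main

section final
variable {G : Type u} [Group G] [Finite G]

/-- The hypothesis of the inversion theorem, for a Sylow subgroup. -/
theorem invFree_of_sylow {q : ℕ} [Fact q.Prime] {e : ℕ} (T : Sylow q G)
    (hc : ∀ x ∈ (T : Subgroup G), x ≠ 1 → ∀ g ∈ normalizer ((zjZ e (T : Subgroup G) : Subgroup G) : Set G),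
      g * x * g⁻¹ ≠ x⁻¹) :
    InvFree q (normalizer ((zjZ e (T : Subgroup G) : Subgroup G) : Set G)) := by
  obtain ⟨N₀, hN₀⟩ : ∃ N₀ : Subgroup G, N₀ = normalizer ((zjZ e (T : Subgroup G) : Subgroup G) : Set G) := ⟨_, rfl⟩
  rw [← hN₀] at hc ⊢
  have hTN : (T : Subgroup G) ≤ N₀ := by
    rw [hN₀]
    intro t ht
    exact zjZ_mem_normalizer (Subgroup.le_normalizer ht)
  have hS : SylIn q N₀ (T : Subgroup G) := by
    refine ⟨hTN, T.isPGroup', ?_⟩
    intro hd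
    apply T.not_dvd_index
    rw [← Subgroup.relIndex_mul_index hTN]
    exact Dvd.dvd.mul_right hd _
  rintro x hx ⟨k, hk⟩ hne g hg he
  obtain ⟨c, hcN, hle⟩ := hS.exists_cj_le (zpowers_le.2 hx) (isPGroup_zpowers_of_pow hk)
  have hx' : c * x * c⁻¹ ∈ (T : Subgroup G) := hle ⟨x, mem_zpowers x, rfl⟩
  refine hc _ hx' ?_ (c * g * c⁻¹) (N₀.mul_mem (N₀.mul_mem hcN hg) (N₀.inv_mem hcN)) ?_
  · intro h0
    apply hne
    have : x = c⁻¹ * (c * x * c⁻¹) * c := by group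
    rw [this, h0]
    group
  · have : (c * g * c⁻¹) * (c * x * c⁻¹) * (c * g * c⁻¹)⁻¹ = c * (g * x * g⁻¹) * c⁻¹ := by group
    rw [this, he]
    group

/-- (c) ⟹ (a). -/
theorem closed_of_no_inversion
    (hc : ∀ (q : ℕ) [Fact q.Prime], q ≠ 2 → ∀ T : Sylow q G, ∀ x ∈ (T : Subgroup G), x ≠ 1 →
      ∀ g ∈ Subgroup.normalizer (Cfsg.centerThompsonAOf (T : Subgroup G) : Set G), g * x * g⁻¹ ≠ x⁻¹) :
    ∀ P : Sylow 2 G, (P : Subgroup G).Normal := by
  by_contra hG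
  obtain ⟨r, _, hr2, s, g, h1, h2, h3⟩ := exists_inverted_of_not_closed hG
  have hrp : r.Prime := Fact.out
  have hsp : IsPGroup r (zpowers s) := isPGroup_zpowers_of_pow (k := 1) (by rw [pow_one]; exact h2)
  obtain ⟨T, hT⟩ := hsp.exists_le_sylow
  have he : ∀ x ∈ (T : Subgroup G), x ^ (r * Nat.card G) = 1 := fun x _ => by
    rw [mul_comm, pow_mul, pow_card_eq_one', one_pow]
  have hcT := hc r hr2 T
  rw [centerThompsonA_eq (T : Subgroup G) he] at hcT
  have hsc : IsStronglyClosed (T : Subgroup G) (T : Subgroup G) := ⟨le_rfl, fun _ _ _ hg => hg⟩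
  obtain ⟨n, hn, hnx⟩ := ic hr2 (dvd_mul_right r (Nat.card G)) _ G T (T : Subgroup G) hsc rfl
    (invFree_of_sylow T hcT) (zpowers s) hT g (by
      rintro _ ⟨i, rfl⟩
      show g * s ^ i * g⁻¹ ∈ (T : Subgroup G)
      rw [← conj_zpow, h3]
      exact zpow_mem (inv_mem (hT (mem_zpowers s))) i)
  have h4 := hnx s (mem_zpowers s)
  rw [h3] at h4
  exact hcT s (hT (mem_zpowers s)) h1 n hn h4

/-- **Normal Sylow `2`-subgroups and `Z(J(T))`.** -/
theorem two_closed_iff :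
    ((∀ P : Sylow 2 G, (P : Subgroup G).Normal) ↔ ∀ (q : ℕ) [Fact q.Prime], q ≠ 2 → q ∣ Nat.card G → ∀ T : Sylow q G,
      ∀ P : Sylow 2 ↥(Subgroup.normalizer (Cfsg.centerThompsonAOf (T : Subgroup G) : Set G)),
        (P : Subgroup ↥(Subgroup.normalizer (Cfsg.centerThompsonAOf (T : Subgroup G) : Set G))).Normal) ∧
    ((∀ P : Sylow 2 G, (P : Subgroup G).Normal) ↔ ∀ (q : ℕ) [Fact q.Prime], q ≠ 2 → ∀ T : Sylow q G,
      ∀ x ∈ (T : Subgroup G), x ≠ 1 →
      ∀ g ∈ Subgroup.normalizer (Cfsg.centerThompsonAOf (T : Subgroup G) : Set G), g * x * g⁻¹ ≠ x⁻¹) := by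
  have hab : (∀ P : Sylow 2 G, (P : Subgroup G).Normal) → ∀ (q : ℕ) [Fact q.Prime], q ≠ 2 → q ∣ Nat.card G →
      ∀ T : Sylow q G, ∀ P : Sylow 2 ↥(Subgroup.normalizer (Cfsg.centerThompsonAOf (T : Subgroup G) : Set G)),
        (P : Subgroup ↥(Subgroup.normalizer (Cfsg.centerThompsonAOf (T : Subgroup G) : Set G))).Normal :=
    fun h q _ _ _ T P => sub_two_closed h _ P
  have hbc : (∀ (q : ℕ) [Fact q.Prime], q ≠ 2 → q ∣ Nat.card G → ∀ T : Sylow q G,
      ∀ P : Sylow 2 ↥(Subgroup.normalizer (Cfsg.centerThompsonAOf (T : Subgroup G) : Set G)),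
        (P : Subgroup ↥(Subgroup.normalizer (Cfsg.centerThompsonAOf (T : Subgroup G) : Set G))).Normal) →
      ∀ (q : ℕ) [Fact q.Prime], q ≠ 2 → ∀ T : Sylow q G, ∀ x ∈ (T : Subgroup G), x ≠ 1 →
      ∀ g ∈ Subgroup.normalizer (Cfsg.centerThompsonAOf (T : Subgroup G) : Set G), g * x * g⁻¹ ≠ x⁻¹ := by
    intro hb q _ hq T x hx hne g hg hinv
    have hqp : q.Prime := Fact.out
    obtain ⟨k, hk⟩ := exists_pow_of_isPGroup T.isPGroup' hx
    have hdvd : q ∣ Nat.card G := by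
      have h1 : orderOf x ∣ q ^ k := orderOf_dvd_of_pow_eq_one hk
      obtain ⟨j, -, hj⟩ := (Nat.dvd_prime_pow hqp).1 h1
      have hj0 : j ≠ 0 := by
        rintro rfl
        apply hne
        rw [pow_zero] at hj
        exact orderOf_eq_one_iff.1 hj
      have h2 : q ∣ orderOf x := by
        rw [hj]
        exact dvd_pow_self q hj0
      exact h2.trans (orderOf_dvd_natCard x)
    have hxN : x ∈ Subgroup.normalizer (Cfsg.centerThompsonAOf (T : Subgroup G) : Set G) := by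
      have he : ∀ y ∈ (T : Subgroup G), y ^ (q * Nat.card G) = 1 := fun y _ => by
        rw [mul_comm, pow_mul, pow_card_eq_one', one_pow]
      rw [centerThompsonA_eq (T : Subgroup G) he]
      exact zjZ_mem_normalizer (Subgroup.le_normalizer hx)
    have h1 := two_closed_no_invert (G := ↥(Subgroup.normalizer (Cfsg.centerThompsonAOf (T : Subgroup G) : Set G)))
      hq (hb q hq hdvd T) (x := ⟨x, hxN⟩) (g := ⟨g, hg⟩) ⟨k, Subtype.ext hk⟩ (Subtype.ext hinv)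
    exact hne (congrArg Subtype.val h1)
  exact ⟨⟨hab, fun h => closed_of_no_inversion (hbc h)⟩,
    ⟨fun h => hbc (hab h), closed_of_no_inversion⟩⟩

end final

end Cfsg.Agent.Lib.LocalEven.InvZJ
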