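import Cfsg.Agent.Lib.LocalEven.StrongP2

/-! Wielandt's join theorem for finite groups. -/

namespace Cfsg.Agent.Lib.LocalEven

open Subgroup

universe u

theorem isSubnormal_sup_aux : ∀ (n : ℕ) (G : Type u) [Group G] [Finite G], Nat.card G = n →
    ∀ (m : ℕ) (H K : Subgroup G), H.index = m → H.IsSubnormal → K.IsSubnormal → (H ⊔ K).IsSubnormal := by
  intro n
  induction n using Nat.strong_induction_on with
  | _ n ihn =>
  intro G _ _ hcard m
  induction m using Nat.strong_induction_on with
  | _ m ihm =>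
  intro H K hm hH hK
  by_cases hnorm : H.Normal
  · have h1 := (hK.quotient (K := H)).comap (QuotientGroup.mk' H)
    rw [Subgroup.comap_map_eq, QuotientGroup.ker_mk', sup_comm] at h1
    exact h1
  have hHt : H ≠ ⊤ := by
    rintro rfl
    exact hnorm inferInstance
  obtain ⟨B, hBn, hHB, hBt⟩ := hH.exists_normal_and_le_and_lt_top_of_ne hHt
  obtain ⟨H₁, hHH₁, hH₁sn, hH₁n⟩ := (IsSubnormal.iff_eq_top_or_exists.1 hH).resolve_left hHt
  have hcardlt : ∀ U : Subgroup G, U < ⊤ → Nat.card U < n := by
    intro U hU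
    rw [← hcard]
    have h1 : Nat.card U < Nat.card (⊤ : Subgroup G) := Cfsg.Agent.Lib.LocalEven.card_lt_of_lt' hU
    rwa [Subgroup.card_top] at h1
  have hidxlt : ∀ A : Subgroup G, H < A → A.index < m := by
    intro A hA
    have h1 := Subgroup.card_mul_index H
    have h2 := Subgroup.card_mul_index A
    have h3 : Nat.card H < Nat.card A := Cfsg.Agent.Lib.LocalEven.card_lt_of_lt' hA
    rw [← hm]
    by_contra hc
    push Not at hc
    have h4 : Nat.card H * H.index < Nat.card A * A.index :=
      Nat.mul_lt_mul_of_lt_of_le h3 hc (Nat.pos_of_ne_zero Subgroup.index_ne_zero_of_finite)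
    omega
  by_cases hKN : K ≤ normalizer (H : Set G)
  · -- `K` normalizes `H`
    have hH₁N : H₁ ≤ normalizer (H : Set G) := (normal_subgroupOf_iff_le_normalizer hHH₁.le).1 hH₁n
    set U := H₁ ⊔ K with hU
    have hUN : U ≤ normalizer (H : Set G) := sup_le hH₁N hKN
    have hUt : U < ⊤ := by
      apply lt_of_le_of_ne le_top
      intro e
      apply hnorm
      rw [← normalizer_eq_top_iff, eq_top_iff, ← e]
      exact hUN
    have hUsn : U.IsSubnormal := ihm _ (hidxlt _ hHH₁) H₁ K rfl hH₁sn hK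
    have hsub : (H ⊔ K).IsSubnormal := by
      have hle : H ⊔ K ≤ U := sup_le (hHH₁.le.trans le_sup_left) le_sup_right
      have h1 := ihn _ (hcardlt U hUt) (↥U) rfl _ (H.subgroupOf U) (K.subgroupOf U) rfl hH.subgroupOf hK.subgroupOf
      rw [← Subgroup.subgroupOf_sup (hHH₁.le.trans le_sup_left) le_sup_right] at h1
      exact IsSubnormal.trans hle h1 hUsn
    exact hsub
  · -- some element of `K` moves `H`
    obtain ⟨k, hk, hkN⟩ := SetLike.not_le_iff_exists.1 hKN
    set H' := Cfsg.Agent.Lib.LocalEven.cj k H with hH'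
    have hH'ne : H' ≠ H := fun e => hkN (Cfsg.Agent.Lib.LocalEven.mem_normalizer_of_cj_eq e)
    have hH'sn : H'.IsSubnormal := hH.map (MulAut.conj k).surjective
    have hH'B : H' ≤ B := by
      rintro _ ⟨x, hx, rfl⟩
      exact hBn.conj_mem _ (hHB hx) k
    have hsup : (H ⊔ H').IsSubnormal := by
      have h1 := ihn _ (hcardlt B hBt) (↥B) rfl _ (H.subgroupOf B) (H'.subgroupOf B) rfl hH.subgroupOf hH'sn.subgroupOf
      rw [← Subgroup.subgroupOf_sup hHB hH'B] at h1
      exact IsSubnormal.trans (sup_le hHB hH'B) h1 hBn.isSubnormal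
    have hlt : H < H ⊔ H' := by
      apply lt_of_le_of_ne le_sup_left
      intro e
      have h2 : H' ≤ H := by rw [e]; exact le_sup_right
      apply hH'ne
      apply Subgroup.eq_of_le_of_card_ge h2
      rw [hH']
      exact (Cfsg.Agent.Lib.LocalEven.card_cj k H).ge
    have h3 := ihm _ (hidxlt _ hlt) (H ⊔ H') K rfl hsup hK
    have h4 : H ⊔ H' ⊔ K = H ⊔ K := by
      apply le_antisymm
      · refine sup_le (sup_le le_sup_left ?_) le_sup_right
        rintro _ ⟨x, hx, rfl⟩
        exact Subgroup.mul_mem _ (Subgroup.mul_mem _ (Subgroup.mem_sup_right hk) (Subgroup.mem_sup_left hx))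
          (Subgroup.inv_mem _ (Subgroup.mem_sup_right hk))
      · exact sup_le_sup_right le_sup_left _
    rwa [h4] at h3

/-- **Wielandt's join theorem.** -/
theorem isSubnormal_sup {G : Type*} [Group G] [Finite G] {H K : Subgroup G} (hH : H.IsSubnormal)
    (hK : K.IsSubnormal) : (H ⊔ K).IsSubnormal :=
  isSubnormal_sup_aux _ G rfl _ H K rfl hH hK

theorem isSubnormal_iSup {G : Type*} [Group G] [Finite G] {ι : Type*} [Finite ι] (f : ι → Subgroup G)
    (hf : ∀ i, (f i).IsSubnormal) : (⨆ i, f i).IsSubnormal := by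
  classical
  haveI : Fintype ι := Fintype.ofFinite _
  rw [← Finset.sup_univ_eq_iSup]
  refine Finset.sup_induction (p := fun A : Subgroup G => A.IsSubnormal) ?_ (fun a ha b hb => isSubnormal_sup ha hb)
    (fun i _ => hf i)
  exact Subgroup.IsSubnormal.bot

end Cfsg.Agent.Lib.LocalEven
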