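import Cfsg.Agent.Lib.LocalEven.CharPFacts
import Cfsg.Agent.Lib.Coprime.PGroup
import Cfsg.Agent.Lib.LocalEven.Frat
import Cfsg.Agent.Lib.OddLocal.PGroup
import Cfsg.Agent.Lib.Transfer.Frobenius
import Cfsg.Agent.Lib.Transfer.Critical2

/-! Miscellaneous group theory. -/

namespace Cfsg.Agent.Lib.LocalEven

open Cfsg Cfsg.Agent.Lib.Basic
open scoped commutatorElement

variable {G : Type*} [Group G] {p : ℕ} [Fact p.Prime]

theorem commutator_bot_of_S2908 [Finite G] (P A B : Subgroup G) (hP : IsPGroup p ↥P) (hA : IsPGroup p ↥A)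
    (hB : ¬ p ∣ Nat.card ↥B) (hnA : A ≤ Subgroup.normalizer (P : Set G))
    (hnB : B ≤ Subgroup.normalizer (P : Set G)) (hAB : ⁅A, B⁆ = ⊥) (hcomm : ⁅P, B⁆ ≤ ⁅P, A⁆) :
    ⁅P, B⁆ = ⊥ := by
  have hp : p.Prime := Fact.out
  set N := P ⊔ A with hN
  have hNp : IsPGroup p ↥N := IsPGroup.to_sup_of_normal_left' hP hA hnA
  have hABc : ∀ a ∈ A, ∀ b ∈ B, a * b = b * a := by
    intro a ha b hb
    have h1 := Subgroup.commutator_mem_commutator ha hb
    rw [hAB, Subgroup.mem_bot, commutatorElement_eq_one_iff_mul_comm] at h1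
    exact h1
  have hBA : B ≤ Subgroup.normalizer (A : Set G) := by
    intro b hb
    rw [Subgroup.mem_normalizer_iff]
    intro a
    constructor
    · intro ha
      rw [← hABc a ha b hb]
      simpa using ha
    · intro ha
      have h1 := hABc _ ha b hb
      have h2 : a = b * a * b⁻¹ := by
        have h3 : b * a = b * (b * a * b⁻¹) := by rw [← h1]; group
        exact mul_left_cancel h3
      rw [h2]
      exact ha
  have hBN : B ≤ Subgroup.normalizer (N : Set G) :=
    Cfsg.Agent.Lib.Basic.le_normalizer_sup hnB hBA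
  have hact : Cfsg.Agent.Lib.Coprime.CoprimeAction B N := by
    refine ⟨hBN, ?_, Or.inr (Cfsg.Agent.Lib.Components.isSolvable_of_isPGroup hNp)⟩
    obtain ⟨k, hk⟩ := IsPGroup.iff_card.1 hNp
    rw [hk]
    apply Nat.Coprime.pow_right
    exact ((Nat.Prime.coprime_iff_not_dvd hp).2 hB).symm
  have hle : ⁅N, B⁆ ≤ (frattini ↥N).map N.subtype := by
    refine le_trans ?_ (commutator_le_frattini_map N hNp)
    rw [Subgroup.commutator_le]
    intro n hn b hb
    obtain ⟨x, hx, a, ha, rfl⟩ := (mem_sup_iff_of_normalizes hnA).1 hn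
    have h1 : ⁅x * a, b⁆ = ⁅x, b⁆ := by
      simp only [commutatorElement_def]
      have e : x * a * b * (x * a)⁻¹ * b⁻¹ = x * (a * b) * a⁻¹ * x⁻¹ * b⁻¹ := by group
      rw [e, hABc a ha b hb]
      group
    rw [h1]
    have h2 : ⁅x, b⁆ ∈ ⁅P, A⁆ := hcomm (Subgroup.commutator_mem_commutator hx hb)
    exact Subgroup.commutator_mono (le_sup_left : P ≤ N) (le_sup_right : A ≤ N) h2
  have h3 := hact.commutator_eq_bot_of_le_frattini hle
  rw [eq_bot_iff, ← h3]
  exact Subgroup.commutator_mono le_sup_left le_rfl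

/-- The core of S2909: the commutators with a centralizer. -/
theorem core_S2909 [Finite G] (E : Subgroup G) [hE : E.Normal] (hEp : IsPGroup p ↥E) (U : Subgroup G)
    (hU : IsElementaryAbelian p U)
    (hcond : (∀ u ∈ U, u ≠ 1 → E ⊓ Subgroup.centralizer (U : Set G) = E ⊓ Subgroup.centralizer ({u} : Set G)) ∨
      (∀ u ∈ U, u ≠ 1 → ⁅E, U⁆ = ⁅E, Subgroup.zpowers u⁆))
    (R : Subgroup G) (hR : ¬ p ∣ Nat.card ↥R) (hRU : U ≤ Subgroup.normalizer (R : Set G))
    {u : G} (huU : u ∈ U) (hu1 : u ≠ 1) :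
    ⁅R ⊓ Subgroup.centralizer ({u} : Set G), U⁆ ≤ Subgroup.centralizer (E : Set G) := by
  have hp : p.Prime := Fact.out
  set H := R ⊓ Subgroup.centralizer ({u} : Set G) with hH
  have hUc : ∀ a ∈ U, ∀ b ∈ U, a * b = b * a := by
    intro a ha b hb
    have := hU.1.is_comm.comm (⟨a, ha⟩ : U) ⟨b, hb⟩
    exact congrArg Subtype.val this
  have hNE : ∀ g : G, g ∈ Subgroup.normalizer (E : Set G) := by
    intro g
    rw [Subgroup.normalizer_eq_top_iff.2 hE]
    trivial
  have hUH : U ≤ Subgroup.normalizer (H : Set G) := by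
    apply inf_normalizer hRU
    intro v hv
    apply Subgroup.le_normalizer
    rw [Subgroup.mem_centralizer_singleton_iff]
    exact hUc v hv u huU
  set T := ⁅H, U⁆ with hT
  have hTH : T ≤ H := by
    rw [hT, Subgroup.commutator_le]
    intro h hh v hv
    rw [commutatorElement_def]
    have e : h * v * h⁻¹ * v⁻¹ = h * (v * h⁻¹ * v⁻¹) := by group
    rw [e]
    exact H.mul_mem hh ((Subgroup.mem_normalizer_iff.1 (hUH hv) _).1 (H.inv_mem hh))
  have hTR : T ≤ R := hTH.trans inf_le_left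
  have hTu : ∀ a ∈ T, a * u = u * a := by
    intro a ha
    have h1 := (hTH ha).2
    exact Subgroup.mem_centralizer_singleton_iff.1 h1
  have hTc : ¬ p ∣ Nat.card ↥T := fun hd => hR (hd.trans (Subgroup.card_dvd_of_le hTR))
  have huz : IsPGroup p ↥(Subgroup.zpowers u) := isPGroup_zpowers_of_pow (hU.2 u huU)
  rcases hcond with hc | hc
  · have hfix := hc u huU hu1
    have hTD : T ≤ Subgroup.centralizer ((E ⊓ Subgroup.centralizer (U : Set G) : Subgroup G) : Set G) := by
      rw [hT, Subgroup.commutator_le]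
      intro h hh v hv
      rw [Subgroup.mem_centralizer_iff]
      intro x hx
      -- `x` and its `h`-conjugate are centralized by `U`
      have hx1 : x ∈ E := hx.1
      have hx2 : ∀ w ∈ U, w * x = x * w := fun w hw =>
        (Subgroup.mem_centralizer_iff.1 hx.2 w hw)
      have hy : h⁻¹ * x * h ∈ E ⊓ Subgroup.centralizer (U : Set G) := by
        rw [hfix]
        rw [hfix] at hx
        refine ⟨?_, ?_⟩
        · have := hE.conj_mem x hx.1 h⁻¹
          simpa using this
        · apply Subgroup.mem_centralizer_singleton_iff.2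
          have h1 := Subgroup.mem_centralizer_singleton_iff.1 hx.2
          have h2 := Subgroup.mem_centralizer_singleton_iff.1 hh.2
          have e1 : h⁻¹ * u = u * h⁻¹ := by
            have : h⁻¹ * (h * u) * h⁻¹ = h⁻¹ * (u * h) * h⁻¹ := by rw [h2]
            simpa [mul_assoc] using this.symm
          calc h⁻¹ * x * h * u = h⁻¹ * x * (h * u) := by group
            _ = h⁻¹ * x * (u * h) := by rw [h2]
            _ = h⁻¹ * (x * u) * h := by group
            _ = h⁻¹ * (u * x) * h := by rw [h1]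
            _ = u * (h⁻¹ * x * h) := by
              rw [← mul_assoc h⁻¹ u x, e1]; group
      have hy2 := (Subgroup.mem_centralizer_iff.1 hy.2 v hv)
      rw [commutatorElement_def]
      have hv' := hx2 v⁻¹ (U.inv_mem hv)
      calc x * (h * v * h⁻¹ * v⁻¹) = h * ((h⁻¹ * x * h) * v) * h⁻¹ * v⁻¹ := by group
        _ = h * (v * (h⁻¹ * x * h)) * h⁻¹ * v⁻¹ := by rw [hy2]
        _ = h * v * h⁻¹ * (x * v⁻¹) := by group
        _ = h * v * h⁻¹ * (v⁻¹ * x) := by rw [hv']
        _ = h * v * h⁻¹ * v⁻¹ * x := by group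
    have hcop : (Nat.card ↥T).Coprime p :=
      ((Nat.Prime.coprime_iff_not_dvd hp).2 hTc).symm
    have := Cfsg.Agent.Lib.OddLocal.thompson_AxB p E T (Subgroup.zpowers u) hEp huz hcop
      (fun a _ => hNE a) (fun a _ => hNE a)
      (by
        intro a ha b hb
        obtain ⟨m, rfl⟩ := hb
        have h5 : Commute a u := hTu a ha
        exact (h5.zpow_right m).eq)
      (by
        intro a ha x hx hb
        have h5 : x ∈ E ⊓ Subgroup.centralizer ({u} : Set G) := by
          refine ⟨hx, ?_⟩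
          apply Subgroup.mem_centralizer_singleton_iff.2
          exact (hb u (Subgroup.mem_zpowers u)).symm
        rw [← hfix] at h5
        have := Subgroup.mem_centralizer_iff.1 (hTD ha) x h5
        exact this.symm)
    exact this
  · -- use S2908
    have hW := hc u huU hu1
    set W := ⁅E, U⁆ with hWdef
    have hzU : Subgroup.zpowers u ≤ U := by
      rw [Subgroup.zpowers_le]; exact huU
    -- `U` and `H` normalize `W`
    have hUW : U ≤ Subgroup.normalizer (W : Set G) := fun v hv =>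
      normalizer_le_normalizer_commutator E U ⟨hNE v, Subgroup.le_normalizer hv⟩
    have hHz : H ≤ Subgroup.normalizer ((Subgroup.zpowers u : Subgroup G) : Set G) := by
      intro h hh
      have hh2 := Subgroup.mem_centralizer_singleton_iff.1 hh.2
      have hcu : Commute h u := hh2
      rw [Subgroup.mem_normalizer_iff]
      intro a
      constructor
      · rintro ⟨m, rfl⟩
        refine ⟨m, ?_⟩
        show u ^ m = h * u ^ m * h⁻¹
        rw [(hcu.zpow_right m).eq]
        group
      · rintro ⟨m, hm⟩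
        refine ⟨m, ?_⟩
        have h7 : h * a * h⁻¹ = u ^ m := hm.symm
        have h8 : a = h⁻¹ * u ^ m * h := by rw [← h7]; group
        show u ^ m = a
        rw [h8]
        have h9 : Commute h⁻¹ (u ^ m) := (hcu.zpow_right m).inv_left
        rw [h9.eq]
        group
    have hHW : H ≤ Subgroup.normalizer (W : Set G) := by
      intro h hh
      rw [hW]
      exact normalizer_le_normalizer_commutator E (Subgroup.zpowers u) ⟨hNE h, hHz hh⟩
    -- the subgroup acting trivially on `E/W`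
    have hS₀ : ∀ (e : G), e ∈ E → ∀ v ∈ U, v * e * v⁻¹ * e⁻¹ ∈ W := by
      intro e he v hv
      have h1 : ⁅e, v⁆ ∈ W := Subgroup.commutator_mem_commutator he hv
      rw [commutatorElement_def] at h1
      have h2 : v * e * v⁻¹ * e⁻¹ = v * (e * v⁻¹ * e⁻¹ * v) * v⁻¹ := by group
      rw [h2]
      apply (Subgroup.mem_normalizer_iff.1 (hUW hv) _).1
      have h3 : ⁅e, v⁻¹⁆ ∈ W := Subgroup.commutator_mem_commutator he (U.inv_mem hv)
      rw [commutatorElement_def, inv_inv] at h3
      exact h3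
    let S₀ : Subgroup G :=
      { carrier := {g | g ∈ Subgroup.normalizer (W : Set G) ∧ ∀ e ∈ E, g * e * g⁻¹ * e⁻¹ ∈ W}
        one_mem' := ⟨Subgroup.one_mem _, fun e _ => by simp⟩
        mul_mem' := by
          rintro a b ⟨ha, ha'⟩ ⟨hb, hb'⟩
          refine ⟨Subgroup.mul_mem _ ha hb, ?_⟩
          intro e he
          have e1 : (a * b) * e * (a * b)⁻¹ * e⁻¹ = (a * (b * e * b⁻¹ * e⁻¹) * a⁻¹) * (a * e * a⁻¹ * e⁻¹) := by group
          rw [e1]
          exact W.mul_mem ((Subgroup.mem_normalizer_iff.1 ha _).1 (hb' e he)) (ha' e he)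
        inv_mem' := by
          rintro a ⟨ha, ha'⟩
          refine ⟨Subgroup.inv_mem _ ha, ?_⟩
          intro e he
          have e1 : a⁻¹ * e * a⁻¹⁻¹ * e⁻¹ = a⁻¹ * (a * e * a⁻¹ * e⁻¹)⁻¹ * a⁻¹⁻¹ := by group
          rw [e1]
          exact (Subgroup.mem_normalizer_iff.1 (Subgroup.inv_mem _ ha) _).1 (W.inv_mem (ha' e he)) }
    have hvS : ∀ v ∈ U, v ∈ S₀ := fun v hv => ⟨hUW hv, fun e he => hS₀ e he v hv⟩
    have hTS : T ≤ S₀ := by
      rw [hT, Subgroup.commutator_le]
      intro h hh v hv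
      rw [commutatorElement_def]
      have hh' : h * v * h⁻¹ ∈ S₀ := by
        refine ⟨Subgroup.mul_mem _ (Subgroup.mul_mem _ (hHW hh) (hUW hv)) (Subgroup.inv_mem _ (hHW hh)), ?_⟩
        intro e he
        have he₁ : h⁻¹ * e * h ∈ E := by
          have := hE.conj_mem e he h⁻¹
          simpa using this
        have e1 : (h * v * h⁻¹) * e * (h * v * h⁻¹)⁻¹ * e⁻¹ =
            h * (v * (h⁻¹ * e * h) * v⁻¹ * (h⁻¹ * e * h)⁻¹) * h⁻¹ := by group
        rw [e1]
        exact (Subgroup.mem_normalizer_iff.1 (hHW hh) _).1 (hS₀ _ he₁ v hv)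
      exact S₀.mul_mem hh' (S₀.inv_mem (hvS v hv))
    have hcomm : ⁅E, T⁆ ≤ ⁅E, Subgroup.zpowers u⁆ := by
      rw [← hW, Subgroup.commutator_le]
      intro e he a ha
      rw [commutatorElement_def]
      have e1 : e * a * e⁻¹ * a⁻¹ = (a * e * a⁻¹ * e⁻¹)⁻¹ := by group
      rw [e1]
      exact W.inv_mem ((hTS ha).2 e he)
    have hAB : ⁅Subgroup.zpowers u, T⁆ = ⊥ := by
      rw [eq_bot_iff, Subgroup.commutator_le]
      rintro _ ⟨m, rfl⟩ a ha
      rw [Subgroup.mem_bot, commutatorElement_eq_one_iff_mul_comm]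
      have h5 : Commute a u := hTu a ha
      exact ((h5.zpow_right m).eq).symm
    have hfin := commutator_bot_of_S2908 E (Subgroup.zpowers u) T hEp huz hTc (fun a _ => hNE a)
      (fun a _ => hNE a) hAB hcomm
    rw [Subgroup.commutator_eq_bot_iff_le_centralizer] at hfin
    exact Subgroup.le_centralizer_iff.1 hfin

theorem main_S2909 [Finite G] (E : Subgroup G) [hE : E.Normal] (hEp : IsPGroup p ↥E) (U : Subgroup G)
    (hU : IsElementaryAbelian p U) (hnc : ¬ IsCyclic ↥U)
    (hcond : (∀ u ∈ U, u ≠ 1 → E ⊓ Subgroup.centralizer (U : Set G) = E ⊓ Subgroup.centralizer ({u} : Set G)) ∨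
      (∀ u ∈ U, u ≠ 1 → ⁅E, U⁆ = ⁅E, Subgroup.zpowers u⁆))
    (R : Subgroup G) (hR : ¬ p ∣ Nat.card ↥R) (hRU : U ≤ Subgroup.normalizer (R : Set G)) :
    ⁅R, U⁆ ≤ Subgroup.centralizer (E : Set G) := by
  have hp : p.Prime := Fact.out
  set C := Subgroup.centralizer (E : Set G) with hC
  have hCn : C.Normal := by
    constructor
    intro c hc g
    rw [hC, Subgroup.mem_centralizer_iff]
    intro o ho
    have h3 := Subgroup.mem_centralizer_iff.1 hc (g⁻¹ * o * g) (by
      have := hE.conj_mem o ho g⁻¹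
      simpa using this)
    calc o * (g * c * g⁻¹) = g * ((g⁻¹ * o * g) * c) * g⁻¹ := by group
      _ = g * (c * (g⁻¹ * o * g)) * g⁻¹ := by rw [h3]
      _ = g * c * g⁻¹ * o := by group
  let S₁ : Subgroup G :=
    { carrier := {r | ∀ v ∈ U, r * v * r⁻¹ * v⁻¹ ∈ C}
      one_mem' := fun v _ => by simp
      mul_mem' := by
        intro a b ha hb v hv
        have e1 : (a * b) * v * (a * b)⁻¹ * v⁻¹ = (a * (b * v * b⁻¹ * v⁻¹) * a⁻¹) * (a * v * a⁻¹ * v⁻¹) := by group
        rw [e1]
        exact C.mul_mem (hCn.conj_mem _ (hb v hv) a) (ha v hv)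
      inv_mem' := by
        intro a ha v hv
        have e1 : a⁻¹ * v * a⁻¹⁻¹ * v⁻¹ = a⁻¹ * (a * v * a⁻¹ * v⁻¹)⁻¹ * a⁻¹⁻¹ := by group
        rw [e1]
        exact hCn.conj_mem _ (C.inv_mem (ha v hv)) _ }
  have hRS : R ≤ S₁ := by
    have h1 := Cfsg.Agent.Lib.Components.le_iSup_centralizer_hyperplane hU hR hRU
    refine h1.trans (iSup_le ?_)
    rintro ⟨B, hBU, hBi⟩
    -- `B` is nontrivial
    have hB1 : B ≠ ⊥ := by
      intro e
      rw [e, Subgroup.relIndex_bot_left] at hBi
      apply hnc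
      have hUp : IsPGroup p ↥U := IsElementaryAbelian_isPGroup hU
      obtain ⟨k, hk⟩ := IsPGroup.iff_card.1 hUp
      rw [hk] at hBi
      have hk1 : k ≤ 1 := by
        by_contra hc
        have : p ^ 1 < p ^ k := Nat.pow_lt_pow_right hp.one_lt (by omega)
        rw [pow_one] at this
        omega
      interval_cases k
      · rw [pow_zero] at hk
        haveI : Subsingleton ↥U := (Nat.card_eq_one_iff_unique.1 hk).1
        exact isCyclic_of_subsingleton
      · rw [pow_one] at hk
        haveI : Fact (Nat.card ↥U).Prime := ⟨hk ▸ hp⟩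
        exact isCyclic_of_prime_card (p := Nat.card ↥U) rfl
    obtain ⟨b, hb, hb1⟩ := B.ne_bot_iff_exists_ne_one.1 hB1 |> fun ⟨x, hx⟩ =>
      (⟨(x : G), x.2, fun e => hx (Subtype.ext e)⟩ : ∃ x ∈ B, x ≠ (1 : G))
    intro r hr v hv
    have h2 := core_S2909 E hEp U hU hcond R hR hRU (hBU hb) hb1
    have h3 : r ∈ R ⊓ Subgroup.centralizer ({b} : Set G) :=
      ⟨hr.1, Subgroup.centralizer_le (by
        rintro _ rfl
        exact hb) hr.2⟩
    have h4 := h2 (Subgroup.commutator_mem_commutator h3 hv)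
    rwa [commutatorElement_def] at h4
  rw [Subgroup.commutator_le]
  intro r hr v hv
  rw [commutatorElement_def]
  exact hRS hr v hv

theorem conjEquiv_pow (D : Subgroup G) {g : G} (hg : g ∈ Subgroup.normalizer (D : Set G)) (n : ℕ) (d : ↥D) :
    (((Cfsg.Agent.Lib.LocalEven2.conjEquivOfNormalizer D hg : MulAut ↥D) ^ n) d : G) = g ^ n * d * (g ^ n)⁻¹ := by
  induction n with
  | zero => simp
  | succ n ih =>
    rw [pow_succ', MulAut.mul_apply, Cfsg.Agent.Lib.LocalEven2.conjEquivOfNormalizer_coe, ih, pow_succ']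
    group

theorem main_S2910 [Finite G] (hp2 : p ≠ 2) (hdiv : p ∣ Nat.card G) (P : Sylow p G)
    (hZ : omegaOne p (P : Subgroup G) ≤ Subgroup.center G) :
    HasNormalPComplement p G ∧ ¬ IsQuasisimple G := by
  have hp : p.Prime := Fact.out
  have hcen : ∀ x : G, x ^ p = 1 → x ∈ Subgroup.center G := by
    intro x hx
    obtain ⟨T, hT⟩ := (isPGroup_zpowers_of_pow hx).exists_le_sylow
    obtain ⟨g, hg⟩ := exists_sylow_conj T P
    have h1 : g * x * g⁻¹ ∈ (P : Subgroup G) := by
      rw [hg]; exact conj_mem_cj (hT (Subgroup.mem_zpowers x))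
    have h2 : g * x * g⁻¹ ∈ omegaOne p (P : Subgroup G) := by
      apply mem_omegaOne_of h1
      rw [conj_pow, hx]
      group
    have h3 := hZ h2
    have h4 := Subgroup.mem_center_iff.1 h3 g
    have e : x = g * x * g⁻¹ := by
      calc x = g⁻¹ * ((g * x * g⁻¹) * g) := by group
        _ = g⁻¹ * (g * (g * x * g⁻¹)) := by rw [h4]
        _ = g * x * g⁻¹ := by group
    rw [e]
    exact h3
  have hst : Cfsg.Agent.Lib.Transfer.FrobeniusStable p G := by
    intro D hD g hg hgc
    set a : MulAut ↥D := Cfsg.Agent.Lib.LocalEven2.conjEquivOfNormalizer D hg with ha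
    have hao : orderOf a ∣ orderOf g := by
      apply orderOf_dvd_of_pow_eq_one
      ext d
      rw [ha, conjEquiv_pow, pow_orderOf_eq_one]
      simp
    have h1 := Cfsg.Agent.Lib.Transfer.eq_one_of_fix_omega hp2 hD a (hgc.coprime_dvd_left hao) (by
      intro x hx
      apply Subtype.ext
      have h2 : (x : G) ^ p = 1 := congrArg Subtype.val hx
      have h3 := Subgroup.mem_center_iff.1 (hcen _ h2) g
      show g * (x : G) * g⁻¹ = x
      rw [h3]
      group)
    rw [Subgroup.mem_centralizer_iff]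
    intro d hd
    have h2 : a ⟨d, hd⟩ = ⟨d, hd⟩ := by rw [h1]; rfl
    have h3 : g * d * g⁻¹ = d := congrArg Subtype.val h2
    calc d * g = (g * d * g⁻¹) * g := by rw [h3]
      _ = g * d := by group
  have hN := Cfsg.Agent.Lib.Transfer.hasNormalPComplement_of_stable hst
  refine ⟨hN, ?_⟩
  intro hq
  obtain ⟨N, hn, hc, k, hk⟩ := Cfsg.Agent.Lib.Transfer.exists_hall_of_hasNormalPComplement hN
  haveI := hn
  haveI := hq.1
  have hperf : Group.IsPerfect (G ⧸ N) := inferInstance
  have hpq : IsPGroup p (G ⧸ N) := IsPGroup.of_card (n := k) (by rw [← Subgroup.index_eq_card]; exact hk)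
  have hsub := Cfsg.Agent.Lib.Components.subsingleton_of_perfect_of_solvable hperf.commutator_eq_top
    (Cfsg.Agent.Lib.Components.isSolvable_of_isPGroup hpq)
  have htop : N = ⊤ := by
    rw [← Subgroup.index_eq_one, Subgroup.index_eq_card]
    exact Nat.card_of_subsingleton (1 : G ⧸ N)
  rw [htop, Subgroup.card_top] at hc
  have h3 := Nat.dvd_gcd hdiv (dvd_refl p)
  rw [hc] at h3
  exact hp.one_lt.ne' (Nat.dvd_one.1 h3)

end Cfsg.Agent.Lib.LocalEven
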