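import Cfsg.Agent.Lib.LocalEven.PMinimal
import Cfsg.Agent.Lib.LocalEven.Join
import Cfsg.Agent.Lib.Basic.Index

/-! Structure of `p`-minimal groups. -/

namespace Cfsg.Agent.Lib.LocalEven

open Cfsg Cfsg.Agent.Lib.Basic

variable {G : Type*} [Group G] {p : ℕ} [Fact p.Prime]

theorem pmin_le (hP : IsPMinimal p G) (S : Sylow p G) {M : Subgroup G} (hM : IsCoatom M)
    (hSM : (S : Subgroup G) ≤ M) [Finite G] : ∀ A : Subgroup G, (S : Subgroup G) ≤ A → A ≠ ⊤ → A ≤ M := by
  intro A hA hAt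
  obtain ⟨M', hM', hAM'⟩ := (eq_top_or_exists_le_coatom A).resolve_left hAt
  obtain ⟨-, M₀, -, hu⟩ := hP S
  have h1 := hu M' ⟨hM', hA.trans hAM'⟩
  have h2 := hu M ⟨hM, hSM⟩
  rw [h2, ← h1]
  exact hAM'

/-- `S`-invariant overgroups: conjugates under `S` generate an `S`-invariant subgroup. -/
theorem le_normalizer_iSup_cj (S X : Subgroup G) :
    S ≤ Subgroup.normalizer ((⨆ s : S, cj (s : G) X : Subgroup G) : Set G) := by
  apply le_normalizer_of_conj_le
  intro g hg
  rw [Subgroup.map_iSup]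
  apply iSup_le
  intro s
  have h1 : (cj (s : G) X).map (MulAut.conj g).toMonoidHom = cj ((⟨g, hg⟩ * s : S) : G) X := by
    show cj g (cj (s : G) X) = cj (g * s) X
    rw [cj_mul]
  rw [h1]
  exact le_iSup (f := fun s : S => cj (s : G) X) _

theorem le_iSup_cj (S X : Subgroup G) : X ≤ (⨆ s : S, cj (s : G) X : Subgroup G) := by
  have h1 : cj ((1 : S) : G) X ≤ (⨆ s : S, cj (s : G) X : Subgroup G) :=
    le_iSup (f := fun s : S => cj (s : G) X) _
  rwa [Subgroup.coe_one, cj_one] at h1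

theorem isSubnormal_iSup_cj [Finite G] (S : Subgroup G) {X : Subgroup G} (hX : X.IsSubnormal) :
    (⨆ s : S, cj (s : G) X : Subgroup G).IsSubnormal :=
  isSubnormal_iSup _ (fun s => hX.map (MulAut.conj (s : G)).surjective)

/-- A normal subgroup of `P` in `M` has normal Sylow `p`-subgroup. -/
theorem pmin_normal_case [Finite G] (hP : IsPMinimal p G) (S : Sylow p G) {M : Subgroup G} (hM : IsCoatom M)
    (hSM : (S : Subgroup G) ≤ M) (A : Subgroup G) [hA : A.Normal] (hAM : A ≤ M) :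
    (S : Subgroup G) ⊓ A ≤ pCore p G := by
  set T := (S : Subgroup G) ⊓ A with hT
  have hTp : IsPGroup p T := S.isPGroup'.to_le inf_le_left
  have hnT : ¬ p ∣ T.relIndex A := not_dvd_relIndex_inf_normal S A
  have hTA : T ≤ A := inf_le_right
  have hcjA : ∀ x : G, cj x A = A := fun x => cj_eq_of_mem_normalizer (by
    rw [Subgroup.normalizer_eq_top_iff.2 hA]; trivial)
  have hSN : (S : Subgroup G) ≤ Subgroup.normalizer (T : Set G) := by
    apply le_normalizer_of_conj_le
    intro g hg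
    rintro _ ⟨x, hx, rfl⟩
    refine ⟨S.1.mul_mem (S.1.mul_mem hg hx.1) (S.1.inv_mem hg), hA.conj_mem _ hx.2 g⟩
  have hNt : Subgroup.normalizer (T : Set G) = ⊤ := by
    by_contra hne
    have hNM := pmin_le hP S hM hSM _ hSN hne
    apply hM.1
    rw [eq_top_iff]
    intro x _
    have h1 : cj x T ≤ A := by
      have := cj_mono (g := x) hTA
      rwa [hcjA] at this
    have h2 : ¬ p ∣ (cj x T).relIndex A := by
      have h3 := relIndex_conj T A x
      have h4 : (cj x T).relIndex (cj x A) = T.relIndex A := h3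
      rw [hcjA] at h4
      rw [h4]
      exact hnT
    obtain ⟨a, ha, hae⟩ := exists_conj_of_relIndex (R := A) hTA h1 hTp (isPGroup_cj hTp x) hnT h2
    have h5 : a⁻¹ * x ∈ Subgroup.normalizer (T : Set G) := by
      apply mem_normalizer_of_cj_eq
      rw [cj_mul]
      have h6 : cj x T = cj a T := hae
      rw [h6, cj_inv_cj]
    have : x = a * (a⁻¹ * x) := by group
    rw [this]
    exact M.mul_mem (hAM ha) (hNM h5)
  have hTn : T.Normal := Subgroup.normalizer_eq_top_iff.1 hNt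
  exact le_pCore hTn hTp

theorem pmin_subnormal [Finite G] (hP : IsPMinimal p G) (S : Sylow p G) {M : Subgroup G} (hM : IsCoatom M)
    (hSM : (S : Subgroup G) ≤ M) (N : Subgroup G) (hN : N.IsSubnormal) (hNM : N ≤ M) :
    N ⊓ (S : Subgroup G) ≤ pCore p G := by
  set D := (⨆ s : (S : Subgroup G), cj (s : G) N : Subgroup G) with hD
  have hDM : D ≤ M := by
    apply iSup_le
    rintro ⟨s, hs⟩
    rintro _ ⟨x, hx, rfl⟩
    exact M.mul_mem (M.mul_mem (hSM hs) (hNM hx)) (M.inv_mem (hSM hs))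
  have hDsn : D.IsSubnormal := isSubnormal_iSup_cj _ hN
  have hDS : (S : Subgroup G) ≤ Subgroup.normalizer (D : Set G) := le_normalizer_iSup_cj _ _
  have hne : ({A : Subgroup G | D ≤ A ∧ A.IsSubnormal ∧ (S : Subgroup G) ≤ Subgroup.normalizer (A : Set G) ∧ A ≤ M}).Nonempty :=
    ⟨D, le_rfl, hDsn, hDS, hDM⟩
  obtain ⟨A, ⟨hDA, hAsn, hAS, hAM⟩, hmax⟩ := (Set.toFinite _).exists_maximal hne
  have hAn : A.Normal := by
    by_contra hnn
    have hAt : A ≠ ⊤ := fun e => hM.1 (top_le_iff.1 (e ▸ hAM))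
    obtain ⟨A₁, hAA₁, hA₁sn, hA₁n⟩ := (Subgroup.IsSubnormal.iff_eq_top_or_exists.1 hAsn).resolve_left hAt
    set A₂ := (⨆ s : (S : Subgroup G), cj (s : G) A₁ : Subgroup G) with hA₂
    have hA₂sn : A₂.IsSubnormal := isSubnormal_iSup_cj _ hA₁sn
    have hA₂S : (S : Subgroup G) ≤ Subgroup.normalizer (A₂ : Set G) := le_normalizer_iSup_cj _ _
    have hAA₂ : A < A₂ := hAA₁.trans_le (le_iSup_cj _ _)
    have hA₁N : A₁ ≤ Subgroup.normalizer (A : Set G) :=
      (Subgroup.normal_subgroupOf_iff_le_normalizer hAA₁.le).1 hA₁n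
    have hA₂N : A₂ ≤ Subgroup.normalizer (A : Set G) := by
      apply iSup_le
      rintro ⟨s, hs⟩
      have h1 : cj s A = A := cj_eq_of_mem_normalizer (hAS hs)
      rintro _ ⟨x, hx, rfl⟩
      apply mem_normalizer_of_cj_eq
      show cj (s * x * s⁻¹) A = A
      rw [cj_mul, cj_mul]
      have h2 : cj s⁻¹ A = A := by
        rw [← h1, cj_inv_cj, h1]
      rw [h2, cj_eq_of_mem_normalizer (hA₁N hx), h1]
    by_cases hA₂M : A₂ ≤ M
    · have h3 := hmax (y := A₂) ⟨hDA.trans hAA₂.le, hA₂sn, hA₂S, hA₂M⟩ hAA₂.le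
      exact absurd (le_antisymm hAA₂.le h3) hAA₂.ne
    · have hsupt : A₂ ⊔ (S : Subgroup G) = ⊤ := by
        by_contra hc
        exact hA₂M (le_sup_left.trans (pmin_le hP S hM hSM _ le_sup_right hc))
      apply hnn
      rw [← Subgroup.normalizer_eq_top_iff, eq_top_iff, ← hsupt]
      exact sup_le hA₂N hAS
  have h1 := pmin_normal_case hP S hM hSM A hAM
  refine le_trans ?_ h1
  rw [inf_comm]
  exact inf_le_inf_left _ ((le_iSup_cj _ _).trans hDA)

theorem card_sup_dvd [Finite G] {A B : Subgroup G} (h : A ≤ Subgroup.normalizer (B : Set G)) :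
    Nat.card ↥(A ⊔ B) ∣ Nat.card A * Nat.card B := by
  set U := A ⊔ B with hU
  have hAU : A ≤ U := le_sup_left
  have hBU : B ≤ U := le_sup_right
  set B' := B.subgroupOf U with hB'
  set A' := A.subgroupOf U with hA'
  haveI hBn : B'.Normal := by
    apply (Subgroup.normal_subgroupOf_iff_le_normalizer hBU).2
    exact sup_le h Subgroup.le_normalizer
  have hsup : A' ⊔ B' = ⊤ := by
    rw [hA', hB', ← Subgroup.subgroupOf_sup hAU hBU]
    exact Subgroup.subgroupOf_self _
  have h1 := Subgroup.card_mul_index B'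
  have h2 : B'.index = B'.relIndex A' := by
    have h3 := Subgroup.relIndex_sup_right (H := A') (K := B')
    rw [hsup, Subgroup.relIndex_top_right] at h3
    exact h3
  have h4 : Nat.card B' = Nat.card B := Nat.card_congr (Subgroup.subgroupOfEquivOfLe hBU).toEquiv
  have h5 : Nat.card A' = Nat.card A := Nat.card_congr (Subgroup.subgroupOfEquivOfLe hAU).toEquiv
  have h6 : Nat.card (↥U) = Nat.card B' * B'.index := h1.symm
  rw [h6, h4, h2, mul_comm]
  apply Nat.mul_dvd_mul_right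
  rw [← h5]
  exact Subgroup.relIndex_dvd_card _ _

/-- The key construction for the case of a `p`-closed residual. -/
theorem pmin_exists_invariant [Finite G] (S : Sylow p G) (R : Subgroup G) [hR : R.Normal]
    (hRc : R ≤ Subgroup.normalizer ((((S : Subgroup G) ⊓ R) : Subgroup G) : Set G)) (t : ℕ) [ht : Fact t.Prime] (htp : t ≠ p) :
    ∃ W Q : Subgroup G, (S : Subgroup G) ≤ Subgroup.normalizer (W : Set G) ∧ (S : Subgroup G) ⊓ R ≤ W ∧ Q ≤ W ∧ Q ≤ R ∧
      ¬ t ∣ Q.relIndex R ∧ (∀ r : ℕ, r.Prime → r ∣ Nat.card W → r = p ∨ r = t) := by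
  have hp : p.Prime := Fact.out
  have ht' : t.Prime := Fact.out
  set T₀ := (S : Subgroup G) ⊓ R with hT₀
  have hT₀p : IsPGroup p T₀ := S.isPGroup'.to_le inf_le_left
  have hnT : ¬ p ∣ T₀.relIndex R := not_dvd_relIndex_inf_normal S R
  have hT₀R : T₀ ≤ R := inf_le_right
  have hcjR : ∀ x : G, cj x R = R := fun x => cj_eq_of_mem_normalizer (by
    rw [Subgroup.normalizer_eq_top_iff.2 hR]; trivial)
  -- `T₀` is normal
  have hT₀n : ∀ x : G, cj x T₀ = T₀ := by
    intro x
    have h1 : cj x T₀ ≤ R := by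
      have := cj_mono (g := x) hT₀R
      rwa [hcjR] at this
    have h2 : ¬ p ∣ (cj x T₀).relIndex R := by
      have h4 : (cj x T₀).relIndex (cj x R) = T₀.relIndex R := relIndex_conj T₀ R x
      rw [hcjR] at h4
      rw [h4]
      exact hnT
    obtain ⟨a, ha, hae⟩ := exists_conj_of_relIndex (R := R) hT₀R h1 hT₀p (isPGroup_cj hT₀p x) hnT h2
    have h6 : cj x T₀ = cj a T₀ := hae
    rw [h6]
    exact cj_eq_of_mem_normalizer (hRc ha)
  have hT₀nn : T₀.Normal := by
    rw [← Subgroup.normalizer_eq_top_iff, eq_top_iff]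
    intro x _
    exact mem_normalizer_of_cj_eq (hT₀n x)
  -- a Sylow `t`-subgroup of `R`
  obtain ⟨Q'⟩ : Nonempty (Sylow t ↥R) := inferInstance
  set Q := (Q' : Subgroup R).map R.subtype with hQ
  have hQp : IsPGroup t Q := Q'.isPGroup'.map _
  have hQR : Q ≤ R := by
    rintro _ ⟨x, _, rfl⟩; exact x.2
  have hnQ : ¬ t ∣ Q.relIndex R := sylow_relIndex_not_dvd Q'
  set W := Q ⊔ T₀ with hW
  have hQW : Q ≤ W := le_sup_left
  have hT₀W : T₀ ≤ W := le_sup_right
  have hWc : Nat.card W ∣ Nat.card Q * Nat.card T₀ := card_sup_dvd (by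
    rw [Subgroup.normalizer_eq_top_iff.2 hT₀nn]; exact le_top)
  -- Frattini
  have hcjW : ∀ x : G, cj x W = Q.map (MulAut.conj x).toMonoidHom ⊔ T₀ := by
    intro x
    have : cj x W = cj x Q ⊔ cj x T₀ := Subgroup.map_sup _ _ _
    rw [this, hT₀n]
  have hN : Subgroup.normalizer (W : Set G) ⊔ R = ⊤ := by
    rw [eq_top_iff]
    intro x _
    have h1 : cj x Q ≤ R := by
      have := cj_mono (g := x) hQR
      rwa [hcjR] at this
    have h2 : ¬ t ∣ (cj x Q).relIndex R := by
      have h4 : (cj x Q).relIndex (cj x R) = Q.relIndex R := relIndex_conj Q R x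
      rw [hcjR] at h4
      rw [h4]
      exact hnQ
    obtain ⟨a, ha, hae⟩ := exists_conj_of_relIndex (p := t) (R := R) hQR h1 hQp (isPGroup_cj hQp x) hnQ h2
    have h5 : a⁻¹ * x ∈ Subgroup.normalizer (W : Set G) := by
      apply mem_normalizer_of_cj_eq
      rw [cj_mul, hcjW x]
      have h6 : cj x Q = cj a Q := hae
      show cj a⁻¹ (cj x Q ⊔ T₀) = _
      rw [h6]
      have h7 : cj a⁻¹ (cj a Q ⊔ T₀) = cj a⁻¹ (cj a Q) ⊔ cj a⁻¹ T₀ := Subgroup.map_sup _ _ _
      rw [h7, cj_inv_cj, hT₀n]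
    have : x = (a⁻¹ * x) * (x⁻¹ * a * x) := by group
    rw [this]
    apply Subgroup.mul_mem _ (Subgroup.mem_sup_left h5)
    apply Subgroup.mem_sup_right
    have h8 := hR.conj_mem a ha x⁻¹
    simpa using h8
  -- the index of the normalizer
  have hidx : ¬ p ∣ (Subgroup.normalizer (W : Set G)).index := by
    intro hd
    have h1 : (Subgroup.normalizer (W : Set G)).relIndex (Subgroup.normalizer (W : Set G) ⊔ R) =
        (Subgroup.normalizer (W : Set G)).relIndex R := relIndex_sup_of_normal _ _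
    rw [hN, Subgroup.relIndex_top_right] at h1
    rw [h1] at hd
    apply hnT
    exact hd.trans (Subgroup.relIndex_dvd_of_le_left R (hT₀W.trans Subgroup.le_normalizer))
  obtain ⟨S₁'⟩ : Nonempty (Sylow p ↥(Subgroup.normalizer (W : Set G))) := inferInstance
  set S₁ := (S₁' : Subgroup _).map (Subgroup.normalizer (W : Set G)).subtype with hS₁
  have hS₁p : IsPGroup p S₁ := S₁'.isPGroup'.map _
  have hS₁N : S₁ ≤ Subgroup.normalizer (W : Set G) := by
    rintro _ ⟨y, _, rfl⟩; exact y.2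
  have hS₁i : ¬ p ∣ S₁.index := by
    rw [← Subgroup.relIndex_mul_index hS₁N]
    intro hd
    rcases (Nat.Prime.dvd_mul hp).1 hd with h | h
    · exact sylow_relIndex_not_dvd S₁' h
    · exact hidx h
  obtain ⟨x, hx⟩ := exists_sylow_conj S (hS₁p.toSylow hS₁i)
  have hx' : S₁ = cj x (S : Subgroup G) := hx
  refine ⟨cj x⁻¹ W, cj x⁻¹ Q, ?_, ?_, cj_mono hQW, ?_, ?_, ?_⟩
  · intro s hs
    have h1 : x * s * x⁻¹ ∈ Subgroup.normalizer (W : Set G) := by
      apply hS₁N
      rw [hx']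
      exact conj_mem_cj hs
    have h2 := conj_mem_normalizer_cj h1 x⁻¹
    have h3 : x⁻¹ * (x * s * x⁻¹) * x⁻¹⁻¹ = s := by group
    rwa [h3] at h2
  · have h1 := cj_mono (g := x⁻¹) hT₀W
    rwa [hT₀n] at h1
  · have h1 := cj_mono (g := x⁻¹) hQR
    rwa [hcjR] at h1
  · have h4 : (cj x⁻¹ Q).relIndex (cj x⁻¹ R) = Q.relIndex R := relIndex_conj Q R x⁻¹
    rw [hcjR] at h4
    rw [h4]
    exact hnQ
  · intro r hr hd
    rw [card_cj] at hd
    have h1 := hd.trans hWc
    rcases (Nat.Prime.dvd_mul hr).1 h1 with h | h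
    · right
      obtain ⟨a, ha⟩ := IsPGroup.iff_card.1 hQp
      rw [ha] at h
      exact (Nat.prime_dvd_prime_iff_eq hr ht').1 (hr.dvd_of_dvd_pow h)
    · left
      obtain ⟨a, ha⟩ := IsPGroup.iff_card.1 hT₀p
      rw [ha] at h
      exact (Nat.prime_dvd_prime_iff_eq hr hp).1 (hr.dvd_of_dvd_pow h)

theorem pmin_two_primes [Finite G] (hP : IsPMinimal p G) (S : Sylow p G) {M : Subgroup G} (hM : IsCoatom M)
    (hSM : (S : Subgroup G) ≤ M)
    (hT : ∀ T : Sylow p ↥(pResidual p G), (T : Subgroup ↥(pResidual p G)).Normal) :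
    (Nat.card G).primeFactors.card ≤ 2 := by
  have hp : p.Prime := Fact.out
  set R := pResidual p G with hR
  haveI hRn : R.Normal := pResidual_normal p
  have hRc : R ≤ Subgroup.normalizer ((((S : Subgroup G) ⊓ R) : Subgroup G) : Set G) := by
    obtain ⟨T, hTe⟩ := exists_sylow_inf_normal S R
    have hTn := hT T
    apply le_normalizer_of_conj_le
    intro g hg
    rw [← hTe]
    rintro _ ⟨_, ⟨y, hy, rfl⟩, rfl⟩
    exact ⟨⟨g, hg⟩ * y * (⟨g, hg⟩ : R)⁻¹, hTn.conj_mem y hy _, rfl⟩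
  have hsupR : R ⊔ (S : Subgroup G) = ⊤ := pResidual_sup_sylow S
  -- some prime `t` has `W ⊔ S = ⊤`
  by_cases hall : ∀ t : ℕ, t.Prime → t ≠ p → ∀ W Q : Subgroup G, (S : Subgroup G) ≤ Subgroup.normalizer (W : Set G) →
      (S : Subgroup G) ⊓ R ≤ W → Q ≤ W → Q ≤ R → ¬ t ∣ Q.relIndex R →
      (∀ r : ℕ, r.Prime → r ∣ Nat.card W → r = p ∨ r = t) → W ⊔ (S : Subgroup G) ≠ ⊤
  · exfalso
    have h1 : (R ⊓ M).relIndex R = 1 := by
      by_contra hne
      obtain ⟨r, hr, hrd⟩ := Nat.exists_prime_and_dvd hne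
      by_cases hrp : r = p
      · subst hrp
        apply not_dvd_relIndex_inf_normal S R
        refine hrd.trans (Subgroup.relIndex_dvd_of_le_left R ?_)
        exact le_inf inf_le_right (inf_le_left.trans hSM)
      · haveI : Fact r.Prime := ⟨hr⟩
        obtain ⟨W, Q, h1, h2, h3, h4, h5, h6⟩ := pmin_exists_invariant S R hRc r hrp
        have h7 := hall r hr hrp W Q h1 h2 h3 h4 h5 h6
        have h8 : W ≤ M := le_sup_left.trans (pmin_le hP S hM hSM _ le_sup_right h7)
        apply h5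
        refine hrd.trans (Subgroup.relIndex_dvd_of_le_left R ?_)
        exact le_inf h4 (h3.trans h8)
    have h2 : R ≤ R ⊓ M := Subgroup.relIndex_eq_one.1 h1
    have h3 : R ≤ M := h2.trans inf_le_right
    apply hM.1
    rw [eq_top_iff, ← hsupR]
    exact sup_le h3 hSM
  · push Not at hall
    obtain ⟨t, ht, htp, W, Q, h1, h2, h3, h4, h5, h6, h7⟩ := hall
    have h8 : Nat.card G ∣ Nat.card W * Nat.card (S : Subgroup G) := by
      have h9 := card_sup_dvd h1
      rw [sup_comm, h7, Subgroup.card_top] at h9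
      rwa [mul_comm] at h9
    have hsub : (Nat.card G).primeFactors ⊆ {p, t} := by
      intro r hr
      have hr1 := Nat.prime_of_mem_primeFactors hr
      have hr2 := Nat.dvd_of_mem_primeFactors hr
      rw [Finset.mem_insert, Finset.mem_singleton]
      rcases (Nat.Prime.dvd_mul hr1).1 (hr2.trans h8) with h | h
      · exact h6 r hr1 h
      · left
        obtain ⟨a, ha⟩ := IsPGroup.iff_card.1 S.isPGroup'
        rw [ha] at h
        exact (Nat.prime_dvd_prime_iff_eq hr1 hp).1 (hr1.dvd_of_dvd_pow h)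
    have h10 := Finset.card_le_card hsub
    have h11 : ({p, t} : Finset ℕ).card ≤ 2 := Finset.card_le_two
    omega

theorem main_S2905 [Finite G] (hP : IsPMinimal p G) (S : Sylow p G) (M : Subgroup G) (hM : IsCoatom M)
    (hSM : (S : Subgroup G) ≤ M) :
    (∀ N : Subgroup G, N.IsSubnormal → N ≤ M → N ⊓ (S : Subgroup G) ≤ pCore p G) ∧
    ((∀ T : Sylow p ↥(pResidual p G), (T : Subgroup ↥(pResidual p G)).Normal) → (Nat.card G).primeFactors.card ≤ 2) ∧
    (∀ N : Subgroup G, N.Normal → pResidual p G ≤ N ∨ N ≤ M.normalCore) ∧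
    (∀ N : Subgroup G, N.Normal → M.normalCore ≤ N → N ≤ pResidual p G ⊔ M.normalCore →
      N = M.normalCore ∨ N = pResidual p G ⊔ M.normalCore) ∧
    M.normalCore < pResidual p G ⊔ M.normalCore := by
  have hc : ∀ N : Subgroup G, N.Normal → pResidual p G ≤ N ∨ N ≤ M.normalCore := by
    intro N hN
    by_cases hNM : N ≤ M
    · right
      exact Subgroup.normal_le_normalCore.2 hNM
    · left
      have hsupt : N ⊔ (S : Subgroup G) = ⊤ := by
        by_contra hc
        exact hNM (le_sup_left.trans (pmin_le hP S hM hSM _ le_sup_right hc))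
      delta pResidual
      rw [Subgroup.closure_le]
      intro x hx
      apply coprime_mem_of_mem_sup (p := p) (M := N) (Y := S) _ S.isPGroup' _ hx
      · rw [Subgroup.normalizer_eq_top_iff.2 hN]; exact le_top
      · rw [hsupt]; trivial
  have he : ¬ pResidual p G ≤ M.normalCore := by
    intro h
    apply hM.1
    rw [eq_top_iff, ← pResidual_sup_sylow S]
    exact sup_le (h.trans M.normalCore_le) hSM
  refine ⟨fun N h1 h2 => pmin_subnormal hP S hM hSM N h1 h2, pmin_two_primes hP S hM hSM, hc, ?_, ?_⟩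
  · intro N hN h1 h2
    rcases hc N hN with h | h
    · right
      exact le_antisymm h2 (sup_le h h1)
    · left
      exact le_antisymm h h1
  · apply lt_of_le_of_ne le_sup_right
    intro e
    apply he
    rw [e]
    exact le_sup_left

end Cfsg.Agent.Lib.LocalEven
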