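import Cfsg.Agent.Lib.LocalEven.PMinimal2
import Cfsg.Agent.Lib.LocalEven.GFit
import Cfsg.Agent.Lib.Basic.Misc2
import Cfsg.Agent.Lib.Basic.Frattini

/-! Components of `p`-minimal groups. -/

set_option autoImplicit false

namespace Cfsg.Agent.Lib.LocalEven

open Cfsg Cfsg.Agent.Lib.Basic
open scoped commutatorElement

variable {G : Type*} [Group G] {p : ℕ} [Fact p.Prime] [Finite G]

/-- A maximal subgroup containing a Sylow subgroup of a `p`-minimal group is a conjugate of `M`. -/
theorem pmin_coatom_conj (hP : IsPMinimal p G) (S : Sylow p G) {M : Subgroup G} (hM : IsCoatom M)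
    (hSM : (S : Subgroup G) ≤ M) {Y : Subgroup G} (hY : IsCoatom Y) (hi : ¬ p ∣ Y.index) :
    ∃ g : G, Y = cj g M := by
  have hp : p.Prime := Fact.out
  obtain ⟨T'⟩ : Nonempty (Sylow p ↥Y) := inferInstance
  set T₁ := (T' : Subgroup ↥Y).map Y.subtype with hT₁
  have hT₁p : IsPGroup p T₁ := T'.isPGroup'.map _
  have hT₁Y : T₁ ≤ Y := Subgroup.map_subtype_le _
  have hT₁i : ¬ p ∣ T₁.index := by
    rw [← Subgroup.relIndex_mul_index hT₁Y]
    intro hd
    rcases (Nat.Prime.dvd_mul hp).1 hd with h | h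
    · exact sylow_relIndex_not_dvd T' h
    · exact hi h
  obtain ⟨g, hg⟩ := exists_sylow_conj S (hT₁p.toSylow hT₁i)
  have hg' : T₁ = cj g (S : Subgroup G) := hg
  refine ⟨g, ?_⟩
  have h1 : IsCoatom (cj g⁻¹ Y) := isCoatom_cj _ hY
  have h2 : (S : Subgroup G) ≤ cj g⁻¹ Y := by
    rw [← cj_inv_cj g (S : Subgroup G), ← hg']
    exact cj_mono hT₁Y
  obtain ⟨-, M₀, -, hu⟩ := hP S
  have h3 := hu _ ⟨h1, h2⟩
  have h4 := hu _ ⟨hM, hSM⟩
  rw [← cj_cj_inv g Y, h3, ← h4]

/-- A normal `p'`-subgroup of a `p`-minimal group is nilpotent. -/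
theorem pmin_normal_coprime_nilpotent (hP : IsPMinimal p G) (S : Sylow p G) {M : Subgroup G} (hM : IsCoatom M)
    (hSM : (S : Subgroup G) ≤ M) (N : Subgroup G) [hN : N.Normal] (hc : (Nat.card N).Coprime p) :
    Group.IsNilpotent N := by
  have hp : p.Prime := Fact.out
  have hpN : ¬ p ∣ Nat.card N := fun h => (Nat.Prime.coprime_iff_not_dvd hp).1 hc.symm h
  have hinf : (S : Subgroup G) ⊓ N = ⊥ := by
    apply Subgroup.eq_bot_of_card_eq
    obtain ⟨k, hk⟩ := IsPGroup.iff_card.1 (S.isPGroup'.to_le (inf_le_left : (S : Subgroup G) ⊓ N ≤ S))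
    have h1 : Nat.card ↥((S : Subgroup G) ⊓ N) ∣ Nat.card N := Subgroup.card_dvd_of_le inf_le_right
    rcases Nat.eq_zero_or_pos k with rfl | hk0
    · rw [hk, pow_zero]
    · exfalso
      exact hpN ((dvd_pow_self p hk0.ne').trans (hk ▸ h1))
  have hRc : N ≤ Subgroup.normalizer ((((S : Subgroup G) ⊓ N) : Subgroup G) : Set G) := by
    rw [hinf]
    have hb : (⊥ : Subgroup G).Normal := inferInstance
    rw [Subgroup.normalizer_eq_top_iff.2 hb]
    exact le_top
  by_cases hall : ∀ t : ℕ, t.Prime → t ≠ p → ∀ W Q : Subgroup G, (S : Subgroup G) ≤ Subgroup.normalizer (W : Set G) →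
      (S : Subgroup G) ⊓ N ≤ W → Q ≤ W → Q ≤ N → ¬ t ∣ Q.relIndex N →
      (∀ r : ℕ, r.Prime → r ∣ Nat.card W → r = p ∨ r = t) → W ⊔ (S : Subgroup G) ≠ ⊤
  · -- `N ≤ M`, so `N ≤ Φ(G)`
    have h1 : (N ⊓ M).relIndex N = 1 := by
      by_contra hne
      obtain ⟨r, hr, hrd⟩ := Nat.exists_prime_and_dvd hne
      by_cases hrp : r = p
      · subst hrp
        apply hpN
        refine hrd.trans ?_
        rw [Subgroup.inf_relIndex_left]
        exact Subgroup.relIndex_dvd_card _ _
      · haveI : Fact r.Prime := ⟨hr⟩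
        obtain ⟨W, Q, h1, h2, h3, h4, h5, h6⟩ := pmin_exists_invariant S N hRc r hrp
        have h7 := hall r hr hrp W Q h1 h2 h3 h4 h5 h6
        have h8 : W ≤ M := le_sup_left.trans (pmin_le hP S hM hSM _ le_sup_right h7)
        apply h5
        refine hrd.trans (Subgroup.relIndex_dvd_of_le_left N ?_)
        exact le_inf h4 (h3.trans h8)
    have h2 : N ≤ N ⊓ M := Subgroup.relIndex_eq_one.1 h1
    have h3 : N ≤ M := h2.trans inf_le_right
    have h4 : N ≤ frattini G := by
      rw [le_frattini_iff]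
      intro Y hY
      by_contra hNY
      have hsup : Y ⊔ N = ⊤ := hY.2 _ (lt_of_le_of_ne le_sup_left fun h => hNY (by
        rw [h]; exact le_sup_right))
      have hi : ¬ p ∣ Y.index := by
        have h5 : Y.relIndex (Y ⊔ N) = Y.relIndex N := relIndex_sup_of_normal _ _
        rw [hsup, Subgroup.relIndex_top_right] at h5
        rw [h5]
        intro hd
        apply hpN
        rw [Subgroup.relIndex, ] at hd
        exact hd.trans (by
          rw [← Subgroup.card_mul_index (Y.subgroupOf N)]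
          exact Dvd.intro_left _ rfl)
      obtain ⟨g, hg⟩ := pmin_coatom_conj hP S hM hSM hY hi
      apply hNY
      rw [hg]
      have h6 : cj g N = N := cj_eq_of_mem_normalizer (by
        rw [Subgroup.normalizer_eq_top_iff.2 hN]; trivial)
      rw [← h6]
      exact cj_mono h3
    haveI : Group.IsNilpotent (frattini G) := frattini_nilpotent
    exact Cfsg.Agent.Lib.Components.isNilpotent_of_le h4 inferInstance
  · push Not at hall
    obtain ⟨t, ht, htp, W, Q, h1, h2, h3, h4, h5, h6, h7⟩ := hall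
    have h8 : Nat.card ↥(W ⊔ (S : Subgroup G)) ∣ Nat.card W * Nat.card (S : Subgroup G) := by
      rw [sup_comm]
      rw [mul_comm]
      exact card_sup_dvd h1
    rw [h7, Nat.card_congr (Subgroup.topEquiv.toEquiv)] at h8
    have h9 : ∀ r : ℕ, r.Prime → r ∣ Nat.card N → r = t := by
      intro r hr hrd
      have h10 : r ∣ Nat.card W * Nat.card (S : Subgroup G) := hrd.trans ((Subgroup.card_subgroup_dvd_card N).trans h8)
      have hrp : r ≠ p := by
        rintro rfl
        exact hpN hrd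
      rcases (Nat.Prime.dvd_mul hr).1 h10 with h | h
      · exact (h6 r hr h).resolve_left hrp
      · exfalso
        obtain ⟨a, ha⟩ := IsPGroup.iff_card.1 S.isPGroup'
        rw [ha] at h
        exact hrp ((Nat.prime_dvd_prime_iff_eq hr hp).1 (hr.dvd_of_dvd_pow h))
    haveI : Fact t.Prime := ⟨ht⟩
    have h11 : IsPGroup t N :=
      IsPGroup.of_card (Nat.eq_prime_pow_of_unique_prime_dvd Nat.card_pos.ne' (fun {d} hd hdn => h9 d hd hdn))
    exact h11.isNilpotent

section comp

open Cfsg.Agent.Lib.Components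

theorem pmin_component_inf_ne_bot (hP : IsPMinimal p G) (S : Sylow p G) {M : Subgroup G} (hM : IsCoatom M)
    (hSM : (S : Subgroup G) ≤ M) {K : Subgroup G} (hK : IsComponent K) : K ⊓ (S : Subgroup G) ≠ ⊥ := by
  have hp : p.Prime := Fact.out
  intro h
  have hnd := not_dvd_relIndex_of_isSubnormal S hK.1
  rw [← Subgroup.inf_relIndex_right, inf_comm, h, Subgroup.relIndex_bot_left] at hnd
  have h1 : (Nat.card K).Coprime p := ((Nat.Prime.coprime_iff_not_dvd hp).2 hnd).symm
  have h2 := subnormal_le_pPrimeCore hK.1 h1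
  haveI hn : (pPrimeCore p G).Normal := pPrimeCore_normal p G
  have h3 := pmin_normal_coprime_nilpotent hP S hM hSM (pPrimeCore p G) (pPrimeCore_coprime p)
  exact qs_not_isNilpotent hK.2 (Cfsg.Agent.Lib.Components.isNilpotent_of_le h2 h3)

/-- A normal subgroup supplementing `S` contains `O^p`. -/
theorem pResidual_le_of_sup_sylow (S : Sylow p G) {B : Subgroup G} (hSB : (S : Subgroup G) ≤ Subgroup.normalizer (B : Set G))
    (hsup : B ⊔ (S : Subgroup G) = ⊤) : pResidual p G ≤ B := by
  delta pResidual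
  rw [Subgroup.closure_le]
  intro x hx
  exact coprime_mem_of_mem_sup hSB S.isPGroup' (by rw [hsup]; trivial) hx

theorem main_S2906 (hP : IsPMinimal p G) (hOp : pCore p G = ⊥) (S : Sylow p G) (K : Subgroup G)
    (hK : IsComponent K) :
    pResidual p G = generalizedFittingSubgroup G ∧ generalizedFittingSubgroup G = layer G ∧
    layer G = ⨆ s : ↥(S : Subgroup G), K.map (MulAut.conj (s : G)).toMonoidHom ∧
    IsPMinimal p ↥(K ⊔ ((S : Subgroup G) ⊓ Subgroup.normalizer (K : Set G))) := by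
  have hp : p.Prime := Fact.out
  obtain ⟨hSn, M, ⟨hM, hSM⟩, -⟩ := hP S
  have hne := pmin_component_inf_ne_bot hP S hM hSM hK
  have hKM : ¬ K ≤ M := by
    intro h
    have h1 := pmin_subnormal hP S hM hSM K hK.1 h
    rw [hOp] at h1
    exact hne (le_bot_iff.1 h1)
  set D := (⨆ s : ↥(S : Subgroup G), cj (s : G) K : Subgroup G) with hD
  have hSD : (S : Subgroup G) ≤ Subgroup.normalizer (D : Set G) := le_normalizer_iSup_cj _ K
  have hKD : K ≤ D := le_iSup_cj _ K
  have hDS : D ⊔ (S : Subgroup G) = ⊤ := by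
    by_contra h
    exact hKM (hKD.trans (le_sup_left.trans (pmin_le hP S hM hSM _ le_sup_right h)))
  set R := pResidual p G with hR
  haveI hRn : R.Normal := pResidual_normal p
  have hRD : R ≤ D := pResidual_le_of_sup_sylow S hSD hDS
  have hsol : Group.IsSolvable (G ⧸ R) := by
    have h1 : IsPGroup p (G ⧸ R) := isPGroup_quotient_pResidual
    haveI := h1.isNilpotent
    infer_instance
  have hcompR : ∀ L : Subgroup G, IsComponent L → L ≤ R := fun L hL =>
    perfect_le_of_solvable_quot hsol (component_self hL)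
  have hDR : D ≤ R := iSup_le fun s => hcompR _ (component_conj hK s)
  have hDE : D ≤ layer G := iSup_le fun s => component_le_layer (component_conj hK s)
  have hER : layer G ≤ R := layer_le hcompR
  have hRE : R = layer G := le_antisymm (hRD.trans hDE) hER
  have hFR : fittingSubgroup G ≤ R := by
    intro x hx
    apply mem_pResidual_of_coprime
    exact Nat.Coprime.coprime_dvd_left (Subgroup.orderOf_dvd_natCard _ hx) (fitting_coprime hOp)
  have hGE : generalizedFittingSubgroup G = layer G := by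
    apply le_antisymm
    · rw [← hRE]
      exact sup_le hER hFR
    · exact le_sup_left
  refine ⟨by rw [hGE, hRE], hGE, (hRE.symm.trans (le_antisymm hRD hDR)), ?_⟩
  -- the `p`-minimality of `K N_S(K)`
  set S₀ := (S : Subgroup G) ⊓ Subgroup.normalizer (K : Set G) with hS₀
  set K₀ := K ⊔ S₀ with hK₀
  have hS₀N : S₀ ≤ Subgroup.normalizer (K : Set G) := inf_le_right
  have hS₀S : S₀ ≤ (S : Subgroup G) := inf_le_left
  have hKK₀ : K ≤ K₀ := le_sup_left
  have hS₀K₀ : S₀ ≤ K₀ := le_sup_right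
  have hinfK : K ⊓ S₀ = K ⊓ (S : Subgroup G) := by
    apply le_antisymm
    · exact inf_le_inf_left _ hS₀S
    · rintro x ⟨hxK, hxS⟩
      exact ⟨hxK, hxS, Subgroup.le_normalizer hxK⟩
  have hidx : ¬ p ∣ S₀.relIndex K₀ := by
    have h1 : K.relIndex K₀ = K.relIndex S₀ :=
      Cfsg.Agent.Lib.Coprime.relIndex_sup_of_le_normalizer K S₀ hS₀N
    have h2 := Subgroup.relIndex_mul_relIndex (K ⊓ S₀) K K₀ inf_le_left hKK₀
    have h3 := Subgroup.relIndex_mul_relIndex (K ⊓ S₀) S₀ K₀ inf_le_right hS₀K₀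
    rw [h1, ← Subgroup.inf_relIndex_right K S₀] at h2
    rw [← h3] at h2
    have h4 : (K ⊓ S₀).relIndex S₀ ≠ 0 := Subgroup.FiniteIndex.index_ne_zero
    have h5 : S₀.relIndex K₀ = (K ⊓ S₀).relIndex K := by
      have h6 : (K ⊓ S₀).relIndex K * (K ⊓ S₀).relIndex S₀ = (K ⊓ S₀).relIndex S₀ * S₀.relIndex K₀ := h2
      rw [mul_comm] at h6
      exact (Nat.eq_of_mul_eq_mul_left (Nat.pos_of_ne_zero h4) h6).symm
    rw [h5, hinfK, inf_comm, Subgroup.inf_relIndex_right]
    exact not_dvd_relIndex_of_isSubnormal S hK.1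
  have hS₀p : IsPGroup p ↥(S₀.subgroupOf K₀) :=
    (S.isPGroup'.to_le hS₀S).comap_of_injective _ K₀.subtype_injective
  let S₀' : Sylow p ↥K₀ := hS₀p.toSylow hidx
  have hS₀'coe : (S₀' : Subgroup ↥K₀) = S₀.subgroupOf K₀ := rfl
  -- the main claim
  have hA : ∀ A : Subgroup G, S₀ ≤ A → A ≤ K₀ → A ≠ K₀ → A ≤ M := by
    intro A hS₀A hAK₀ hAne
    set A₀ := A ⊓ K with hA₀
    set B := (⨆ s : ↥(S : Subgroup G), cj (s : G) A₀ : Subgroup G) with hB
    have hSB : (S : Subgroup G) ≤ Subgroup.normalizer (B : Set G) := le_normalizer_iSup_cj _ A₀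
    have hA₀B : A₀ ≤ B := le_iSup_cj _ A₀
    have hBle : B ≤ A₀ ⊔ Subgroup.centralizer (K : Set G) := by
      refine iSup_le fun s => ?_
      rcases component_eq_or_commute (component_conj hK (s : G)) hK with h | h
      · refine le_sup_of_le_left ?_
        have hsN : (s : G) ∈ Subgroup.normalizer (K : Set G) := mem_normalizer_of_cj_eq h
        have hsA : (s : G) ∈ A := hS₀A ⟨s.2, hsN⟩
        rintro _ ⟨a, ⟨haA, haK⟩, rfl⟩
        exact ⟨A.mul_mem (A.mul_mem hsA haA) (A.inv_mem hsA), (Subgroup.mem_normalizer_iff.1 hsN a).1 haK⟩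
      · refine le_sup_of_le_right ?_
        rw [Subgroup.commutator_eq_bot_iff_le_centralizer] at h
        exact (cj_mono inf_le_right).trans h
    have hBS : B ⊔ (S : Subgroup G) ≠ ⊤ := by
      intro h
      have hRB := pResidual_le_of_sup_sylow S hSB h
      have hKB : K ≤ A₀ ⊔ Subgroup.centralizer (K : Set G) :=
        (hcompR K hK).trans (hRB.trans hBle)
      have hCN : Subgroup.centralizer (K : Set G) ≤ Subgroup.normalizer (A₀ : Set G) := by
        apply le_normalizer_of_conj_le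
        rintro c hc _ ⟨a, ha, rfl⟩
        have h1 := Subgroup.mem_centralizer_iff.1 hc a (Subgroup.mem_inf.1 ha).2
        have h2 : (MulAut.conj c).toMonoidHom a = a := by
          show c * a * c⁻¹ = a
          rw [← h1]; group
        rw [h2]
        exact ha
      have hKA₀ : K ≤ A₀ := by
        calc K = ⁅K, K⁆ := (component_self hK).symm
          _ ≤ A₀ := by
            rw [Subgroup.commutator_le]
            intro k hk k' hk'
            obtain ⟨a, ha, c, hc, rfl⟩ := (mem_sup_iff_of_normalizes hCN).1 (hKB hk)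
            obtain ⟨a', ha', c', hc', rfl⟩ := (mem_sup_iff_of_normalizes hCN).1 (hKB hk')
            have haK := (Subgroup.mem_inf.1 ha).2
            have ha'K := (Subgroup.mem_inf.1 ha').2
            have hc'K : c' ∈ K := by
              have := K.mul_mem (K.inv_mem ha'K) hk'
              simpa using this
            have e := comm_mul_central (c := a) (c' := a') (u := c) (u' := c')
              (Subgroup.mem_centralizer_iff.1 hc a haK).symm
              (Subgroup.mem_centralizer_iff.1 hc a' ha'K).symm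
              (Subgroup.mem_centralizer_iff.1 hc c' hc'K).symm
              (Subgroup.mem_centralizer_iff.1 hc' a haK).symm
              (Subgroup.mem_centralizer_iff.1 hc' a' ha'K).symm
            rw [e, commutatorElement_def]
            exact A₀.mul_mem (A₀.mul_mem (A₀.mul_mem ha ha') (A₀.inv_mem ha)) (A₀.inv_mem ha')
      apply hAne
      apply le_antisymm hAK₀
      exact sup_le (hKA₀.trans inf_le_left) hS₀A
    have hBM : B ⊔ (S : Subgroup G) ≤ M := pmin_le hP S hM hSM _ le_sup_right hBS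
    have hA₀M : A₀ ≤ M := hA₀B.trans (le_sup_left.trans hBM)
    intro a ha
    obtain ⟨k, hk, s, hs, rfl⟩ := (mem_sup_iff_of_normalizes hS₀N).1 (hAK₀ ha)
    have hkA : k ∈ A := by
      have := A.mul_mem ha (A.inv_mem (hS₀A hs))
      simpa using this
    exact M.mul_mem (hA₀M ⟨hkA, hk⟩) (hSM (hS₀S hs))
  refine isPMinimal_of_one S₀' ?_ ?_
  · intro hn
    rw [hS₀'coe] at hn
    apply hne
    have hT : IsPGroup p ↥(K ⊓ (S : Subgroup G)) := S.isPGroup'.to_le inf_le_right
    have hTn : ((K ⊓ (S : Subgroup G)).subgroupOf K).Normal := by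
      refine ⟨?_⟩
      intro x hx k
      rw [Subgroup.mem_subgroupOf] at hx ⊢
      obtain ⟨hxK, hxS⟩ := hx
      refine ⟨K.mul_mem (K.mul_mem k.2 hxK) (K.inv_mem k.2), ?_⟩
      have hxS₀ : (x : G) ∈ S₀ := ⟨hxS, Subgroup.le_normalizer hxK⟩
      have h1 := hn.conj_mem (⟨x, hKK₀ hxK⟩ : ↥K₀) hxS₀ ⟨k, hKK₀ k.2⟩
      exact hS₀S h1
    have h2 := subnormal_le_pCore (Subgroup.IsSubnormal.trans inf_le_left (Subgroup.Normal.isSubnormal hTn) hK.1) hT
    rw [hOp] at h2
    exact le_bot_iff.1 h2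
  · have hnt : M.subgroupOf K₀ ≠ ⊤ := by
      intro h
      exact hKM (hKK₀.trans (Subgroup.subgroupOf_eq_top.1 h))
    have hS₀M : S₀.subgroupOf K₀ ≤ M.subgroupOf K₀ :=
      (Subgroup.subgroupOf_mono K₀) (hS₀S.trans hSM)
    obtain ⟨C, hC, hMC⟩ := (eq_top_or_exists_le_coatom (M.subgroupOf K₀)).resolve_left hnt
    have hall : ∀ C' : Subgroup ↥K₀, IsCoatom C' → S₀.subgroupOf K₀ ≤ C' → C' ≤ M.subgroupOf K₀ := by
      intro C' hC' hSC' x hx
      have hmap : S₀ ≤ C'.map K₀.subtype := by
        intro s hs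
        exact ⟨⟨s, hS₀K₀ hs⟩, hSC' hs, rfl⟩
      have h1 := hA (C'.map K₀.subtype) hmap (Subgroup.map_subtype_le _) (by
        intro e
        apply hC'.1
        rw [eq_top_iff]
        intro y _
        have h2 : (y : G) ∈ C'.map K₀.subtype := by rw [e]; exact y.2
        obtain ⟨z, hz, hzy⟩ := h2
        have e2 : z = y := Subtype.ext hzy
        rwa [← e2])
      exact h1 ⟨x, hx, rfl⟩
    refine ⟨C, ⟨hC, ?_⟩, ?_⟩
    · rw [hS₀'coe]
      exact hS₀M.trans hMC
    · rintro C' ⟨hC', hSC'⟩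
      rw [hS₀'coe] at hSC'
      have h1 := hall C' hC' hSC'
      have h2 := h1.trans hMC
      exact ((hC'.le_iff.1 h2).resolve_left hC.1).symm

end comp

end Cfsg.Agent.Lib.LocalEven
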