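/-
Maximal subgroups of `PGL₂(q)`: tori and dihedral groups (helper23).
-/
import Mathlib
import Cfsg.Agent.Lib.LocalEven.PglMax

set_option autoImplicit false
set_option linter.unusedSimpArgs false
set_option linter.unusedVariables false
set_option linter.unusedSectionVars false
set_option linter.style.haveILetI false

namespace Cfsg.Agent.Lib.LocalEven.PglMax2

open Cfsg.Agent.Lib.Classical Cfsg.Agent.Lib.LocalEven.PslMax Cfsg.Agent.Lib.LocalEven.PslMax2
  Cfsg.Agent.Lib.LocalEven.PslMax3 Cfsg.Agent.Lib.LocalEven.PslMax4 Cfsg.Agent.Lib.LocalEven.PglMax Matrix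
open scoped MatrixGroups

variable {F : Type*} [Field F]

theorem one_add_sq (B : SL(2, F)) : (1 + B.1) * (1 + B.1) = (2 + trS B) • B.1 := by
  have h := sq_CH B
  rw [add_mul, one_mul, mul_add, mul_one, h, add_smul, two_smul]
  abel

theorem det_one_add (B : SL(2, F)) : (1 + B.1).det = 2 + trS B := by
  have hd := sl_det B
  rw [Matrix.det_fin_two]
  simp [trS]
  linear_combination hd

/-- The square root of `mkP B` in `PGL₂`. -/
noncomputable def rootG (B : SL(2, F)) (h : 2 + trS B ≠ 0) : GL (Fin 2) F :=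
  Matrix.GeneralLinearGroup.mkOfDetNeZero (1 + B.1) (by rw [det_one_add]; exact h)

theorem rootG_coe (B : SL(2, F)) (h : 2 + trS B ≠ 0) : (rootG B h).1 = 1 + B.1 := rfl

theorem rootG_sq (B : SL(2, F)) (h : 2 + trS B ≠ 0) : mkG (rootG B h) ^ 2 = iota F (mkP B) := by
  rw [pow_two, ← map_mul, iota_mkP, mkG_eq_iff]
  refine ⟨_, h, ?_⟩
  rw [Units.val_mul, rootG_coe, one_add_sq]
  rfl

theorem sl_inv_coe_mul (B : SL(2, F)) : (B⁻¹).1 * B.1 = 1 := by
  rw [← Matrix.SpecialLinearGroup.coe_mul, inv_mul_cancel, Matrix.SpecialLinearGroup.coe_one]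

theorem sl_mul_inv_coe (B : SL(2, F)) : B.1 * (B⁻¹).1 = 1 := by
  rw [← Matrix.SpecialLinearGroup.coe_mul, mul_inv_cancel, Matrix.SpecialLinearGroup.coe_one]

/-- Conjugation of the square root by an inverting element. -/
theorem rootG_conj (B S' : SL(2, F)) (h : 2 + trS B ≠ 0) (hS : S'.1 * B.1 * (S'⁻¹).1 = (B⁻¹).1) :
    iota F (mkP S') * mkG (rootG B h) * (iota F (mkP S'))⁻¹ = (mkG (rootG B h))⁻¹ := by
  have hρ := rootG_sq B h
  set ρ' := mkG (rootG B h) with hρ'
  have e1 : iota F (mkP S') * ρ' * (iota F (mkP S'))⁻¹ = (iota F (mkP B))⁻¹ * ρ' := by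
    have e0 : iota F (mkP S') * ρ' * (iota F (mkP S'))⁻¹ =
        mkG (Matrix.SpecialLinearGroup.toGL S' * rootG B h * Matrix.SpecialLinearGroup.toGL S'⁻¹) := by
      rw [iota_mkP, map_mul, map_mul, map_inv, map_inv]
    have e00 : (iota F (mkP B))⁻¹ * ρ' = mkG (Matrix.SpecialLinearGroup.toGL B⁻¹ * rootG B h) := by
      rw [iota_mkP, map_mul, map_inv, map_inv]
    rw [e0, e00, mkG_eq_iff]
    refine ⟨1, one_ne_zero, ?_⟩
    rw [one_smul]
    show S'.1 * (rootG B h).1 * (S'⁻¹).1 = (B⁻¹).1 * (rootG B h).1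
    rw [rootG_coe, mul_add, add_mul, mul_one, sl_mul_inv_coe, hS, mul_add, mul_one, sl_inv_coe_mul, add_comm]
  rw [e1, ← hρ, pow_two]
  group

variable [Fintype F] {q : ℕ} (hF : Fintype.card F = q) (p : ℕ) [hp : Fact p.Prime] [CharP F p]

include hF in
/-- Big tori and their normalisers in `PGL₂`. -/
theorem torus_dataG (hodd : Odd q) (h5 : 5 ≤ q) (r : Pe F) (hr : r ^ p ≠ 1) :
    ∃ N : ℕ, (N = q - 1 ∨ N = q + 1) ∧ ∃ ρ' σ' : Pg F, orderOf ρ' = N ∧ σ' * σ' = 1 ∧ σ' * ρ' * σ'⁻¹ = ρ'⁻¹ ∧
      σ' ∉ Subgroup.zpowers ρ' ∧ iota F r ∈ Subgroup.zpowers ρ' ∧ ρ' ∉ LL F ∧ σ' ∈ LL F := by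
  classical
  have h2F : (2 : F) ≠ 0 := two_ne_zero_of_odd (by rw [hF]; exact hodd)
  obtain ⟨N, hN, hN3, ρ, σ, hord, hσσ, hc, hn, hg⟩ := torus_data hF p r hr
  rw [gcd_two_odd (Nat.odd_iff.1 hodd)] at hord
  have hNeven : Even N := by
    obtain ⟨k, hk⟩ := hodd
    rcases hN with h | h
    · exact ⟨k, by omega⟩
    · exact ⟨k + 1, by omega⟩
  obtain ⟨n, hn'⟩ := hNeven
  have hnN : N / 2 = n := by omega
  rw [hnN] at hord
  have hn2 : 2 ≤ n := by omega
  refine ⟨N, hN, ?_⟩
  have hρp : ρ ^ p ≠ 1 := by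
    intro h
    apply hr
    obtain ⟨z, hz⟩ := Subgroup.mem_zpowers_iff.1 hg
    rw [← hz, ← zpow_natCast, ← _root_.zpow_mul, mul_comm, _root_.zpow_mul, zpow_natCast, h, _root_.one_zpow]
  -- a good lift
  obtain ⟨B₀, hB₀⟩ := mkP_surj ρ
  have h1 : mkP (B₀ ^ n) = 1 := by
    rw [mkP_pow, hB₀, ← hord]
    exact pow_orderOf_eq_one ρ
  obtain ⟨B, hB, hBn⟩ : ∃ B : SL(2, F), mkP B = ρ ∧ (B ^ n).1 = -1 := by
    rcases (mkP_eq_one_iff _).1 h1 with h | h
    · rcases Nat.even_or_odd' n with ⟨m, rfl | rfl⟩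
      · exfalso
        have hm : m ≠ 0 := by omega
        have hC : mkP (B₀ ^ m) ≠ 1 := by
          intro h3
          rw [mkP_pow, hB₀] at h3
          have := orderOf_dvd_of_pow_eq_one h3
          rw [hord] at this
          have := Nat.le_of_dvd (by omega) this
          omega
        have hC2 : (B₀ ^ m).1 * (B₀ ^ m).1 = 1 := by
          have := congrArg Subtype.val h
          rw [two_mul, pow_add] at this
          simpa using this
        have h4 := sq_CH (B₀ ^ m)
        rw [hC2] at h4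
        have h5' : trS (B₀ ^ m) • (B₀ ^ m).1 = (2 : F) • 1 := by
          rw [two_smul]
          rw [eq_sub_iff_add_eq] at h4
          rw [← h4]
        have ht0 : trS (B₀ ^ m) ≠ 0 := by
          intro h0
          rw [h0, zero_smul] at h5'
          have := congrFun (congrFun h5' 0) 0
          simp at this
          exact h2F this.symm
        apply hC
        apply mkP_eq_one_of_scalar _ (l := (trS (B₀ ^ m))⁻¹ * 2)
        have : (B₀ ^ m).1 = (trS (B₀ ^ m))⁻¹ • (trS (B₀ ^ m) • (B₀ ^ m).1) := by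
          rw [smul_smul, inv_mul_cancel₀ ht0, one_smul]
        rw [this, h5', smul_smul]
      · refine ⟨slScale (-1) (by ring) B₀, by rw [mkP_slScale, hB₀], ?_⟩
        have e : ∀ k : ℕ, ((slScale (-1) (by ring) B₀) ^ k).1 = (-1 : F) ^ k • (B₀ ^ k).1 := by
          intro k
          induction k with
          | zero => simp
          | succ k ih =>
            rw [pow_succ, Matrix.SpecialLinearGroup.coe_mul, ih, slScale_coe, pow_succ, pow_succ,
              Matrix.SpecialLinearGroup.coe_mul, smul_mul_smul_comm]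
        rw [e, h, Odd.neg_one_pow ⟨m, rfl⟩]
        simp
    · exact ⟨B₀, hB₀, h⟩
  have ht : 2 + trS B ≠ 0 := by
    intro h0
    have hdet : (1 + B.1).det = 0 := by rw [det_one_add, h0]
    obtain ⟨v, hv0, hv⟩ := Matrix.exists_mulVec_eq_zero_iff.2 hdet
    have hBv : B.1 *ᵥ v = (-1 : F) • v := by
      rw [Matrix.add_mulVec, Matrix.one_mulVec] at hv
      rw [neg_smul, one_smul]
      exact eq_neg_of_add_eq_zero_right hv
    apply hρp
    rw [← hB]
    exact pow_char_of_eig p B hv0 (by ring) hBv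
  set ρ' := mkG (rootG B ht) with hρ'
  have hsq : ρ' ^ 2 = iota F ρ := by rw [hρ', rootG_sq, hB]
  have hnotL : ρ' ∉ LL F := by
    intro hmem
    obtain ⟨y, hy⟩ := mem_LL_iff.1 hmem
    obtain ⟨C, rfl⟩ := mkP_surj y
    rw [iota_mkP, eq_comm, hρ', mkG_eq_iff] at hy
    obtain ⟨u, hu0, hu⟩ := hy
    have hu' : 1 + B.1 = u • C.1 := hu
    have hdet : 2 + trS B = u ^ 2 := by
      rw [← det_one_add, hu', Matrix.det_smul, show C.1.det = 1 from C.2]
      simp
    have hCB : C.1 * C.1 = B.1 := by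
      have h3 := one_add_sq B
      rw [hu', smul_mul_smul_comm, hdet, ← pow_two] at h3
      exact smul_right_injective _ (pow_ne_zero 2 hu0) h3
    have hCB' : C * C = B := Subtype.ext hCB
    have hC2 : mkP C ^ 2 = ρ := by rw [pow_two, ← mkP_mul, hCB', hB]
    have hCp : mkP C ^ p ≠ 1 := by
      intro h
      apply hρp
      rw [← hC2, ← pow_mul, mul_comm, pow_mul, h, one_pow]
    obtain ⟨N₂, hN₂, -, ρ₂, -, hord₂, -, -, -, hg₂⟩ := torus_data hF p (mkP C) hCp
    rw [gcd_two_odd (Nat.odd_iff.1 hodd)] at hord₂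
    have hd := orderOf_dvd_of_mem_zpowers hg₂
    rw [hord₂] at hd
    have ho : orderOf ρ = orderOf (mkP C) / Nat.gcd (orderOf (mkP C)) 2 := by
      rw [← hC2]
      exact orderOf_pow _
    rw [hord] at ho
    rcases Nat.even_or_odd (orderOf (mkP C)) with h | h
    · have hg2 : Nat.gcd (orderOf (mkP C)) 2 = 2 := Nat.gcd_eq_right (even_iff_two_dvd.1 h)
      rw [hg2] at ho
      obtain ⟨k, hk⟩ := h
      have h9 : orderOf (mkP C) = N := by omega
      rw [h9] at hd
      have hN2pos : 0 < N₂ / 2 := by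
        rcases hN₂ with h | h <;> omega
      have := Nat.le_of_dvd hN2pos hd
      rcases hN with h | h <;> rcases hN₂ with h' | h' <;> omega
    · have hg2 : Nat.gcd (orderOf (mkP C)) 2 = 1 := Nat.Coprime.symm (Nat.coprime_two_left.2 h)
      rw [hg2, Nat.div_one] at ho
      have h3 : mkP (C ^ n) = 1 := by
        rw [mkP_pow, ho]
        exact pow_orderOf_eq_one _
      have h4 : (C ^ n).1 * (C ^ n).1 = 1 := by
        rcases (mkP_eq_one_iff _).1 h3 with h5 | h5
        · rw [h5]
          simp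
        · rw [h5]
          simp
      have h6 : (B ^ n).1 = 1 := by
        rw [← hCB', ← pow_two, ← pow_mul, mul_comm, pow_mul, pow_two, Matrix.SpecialLinearGroup.coe_mul]
        exact h4
      rw [hBn] at h6
      have := congrFun (congrFun h6 0) 0
      simp at this
      apply h2F
      linear_combination -this
  have hordρ' : orderOf ρ' = N := by
    have ho : orderOf (ρ' ^ 2) = orderOf ρ' / Nat.gcd (orderOf ρ') 2 := orderOf_pow _
    rw [hsq, orderOf_injective (iota F) iota_injective, hord] at ho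
    rcases Nat.even_or_odd (orderOf ρ') with h | h
    · have hg2 : Nat.gcd (orderOf ρ') 2 = 2 := Nat.gcd_eq_right (even_iff_two_dvd.1 h)
      rw [hg2] at ho
      obtain ⟨k, hk⟩ := h
      omega
    · exfalso
      obtain ⟨m, hm⟩ := h
      have h3 := pow_orderOf_eq_one ρ'
      rw [hm, pow_succ, pow_mul, hsq] at h3
      apply hnotL
      have h4 : ρ' = ((iota F ρ) ^ m)⁻¹ := eq_inv_of_mul_eq_one_right h3
      rw [h4, ← map_pow, ← map_inv]
      exact iota_mem_LL _
  have hσ1 : σ ≠ 1 := by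
    intro h
    apply hn
    rw [h]
    exact Subgroup.one_mem _
  have hσ2 : σ ^ 2 = 1 := by rw [pow_two, hσσ]
  refine ⟨ρ', iota F σ, hordρ', by rw [← map_mul, hσσ, map_one], ?_, ?_, ?_, hnotL, iota_mem_LL σ⟩
  · obtain ⟨S', rfl⟩ := mkP_surj σ
    have hS2 := sq_of_inv h2F S' hσ2 hσ1
    have e0 : mkP (S' * B * S'⁻¹) = mkP (B⁻¹) := by
      rw [mkP_mul, mkP_mul, mkP_inv, mkP_inv, hB, hc]
    rcases (mkP_eq_iff _ _).1 e0 with h | h
    · exact rootG_conj B S' ht (by
        rw [← Matrix.SpecialLinearGroup.coe_mul, ← Matrix.SpecialLinearGroup.coe_mul, h])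
    · exfalso
      have htr : trS B = 0 := by
        have e1 : trS (B⁻¹) = trS B := by
          simp only [trS, sl_inv_00, sl_inv_11]
          ring
        have e2 : trS (S' * B * S'⁻¹) = trS B := by
          have e3 : trS (S' * B * S'⁻¹) = Matrix.trace (S'.1 * B.1 * (S'⁻¹).1) := by
            rw [← Matrix.SpecialLinearGroup.coe_mul, ← Matrix.SpecialLinearGroup.coe_mul]
            simp [trS, Matrix.trace_fin_two]
          have e4 : trS B = Matrix.trace B.1 := by simp [trS, Matrix.trace_fin_two]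
          rw [e3, e4, Matrix.trace_mul_comm, ← mul_assoc, sl_inv_coe_mul, one_mul]
        have e5 : trS (B⁻¹) = - trS (S' * B * S'⁻¹) := by
          have e6 : trS (B⁻¹) = (B⁻¹).1 0 0 + (B⁻¹).1 1 1 := rfl
          rw [e6, h]
          simp [trS]
          ring
        rw [e1, e2] at e5
        apply mul_left_cancel₀ h2F
        linear_combination e5
      have hB2 : B.1 * B.1 = -1 := by
        rw [sq_CH, htr]
        simp
      have hBi : (B⁻¹).1 = -B.1 := by
        have e1 : (B⁻¹).1 * (B.1 * B.1) = B.1 := by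
          rw [← mul_assoc, sl_inv_coe_mul, one_mul]
        rw [hB2] at e1
        simp at e1
        rw [← e1]
        simp
      have e1 : S'.1 * B.1 * (S'⁻¹).1 = B.1 := by
        have e2 : (B⁻¹).1 = -(S' * B * S'⁻¹).1 := h
        rw [hBi] at e2
        have e3 : (S' * B * S'⁻¹).1 = B.1 := by
          rw [neg_eq_iff_eq_neg.1 e2]
          simp
        simpa using e3
      have hcomm : S'.1 * B.1 = B.1 * S'.1 := by
        calc S'.1 * B.1 = S'.1 * B.1 * ((S'⁻¹).1 * S'.1) := by rw [sl_inv_coe_mul, mul_one]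
          _ = S'.1 * B.1 * (S'⁻¹).1 * S'.1 := by rw [mul_assoc, mul_assoc, mul_assoc]
          _ = B.1 * S'.1 := by rw [e1]
      have hS'2 : S'.1 * S'.1 = -1 := hS2
      have hprod : ((S' * B) * (S' * B)).1 = 1 := by
        show (S'.1 * B.1) * (S'.1 * B.1) = 1
        calc (S'.1 * B.1) * (S'.1 * B.1) = (S'.1 * S'.1) * (B.1 * B.1) := by
              rw [mul_assoc, ← mul_assoc B.1, ← hcomm, mul_assoc, mul_assoc]
          _ = 1 := by rw [hS'2, hB2]; simp
      have hsq1 : mkP (S' * B) ^ 2 = 1 := by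
        rw [← mkP_pow, pow_two]
        apply (mkP_eq_one_iff _).2
        left
        exact Subtype.ext hprod
      by_cases hSB : mkP (S' * B) = 1
      · apply hn
        have : mkP S' = ρ⁻¹ := by
          rw [mkP_mul, hB, mul_eq_one_iff_eq_inv] at hSB
          exact hSB
        rw [this]
        exact Subgroup.inv_mem _ (Subgroup.mem_zpowers _)
      · have := sq_of_inv h2F (S' * B) hsq1 hSB
        have h3 : (S' * B).1 * (S' * B).1 = 1 := hprod
        rw [h3] at this
        have := congrFun (congrFun this 0) 0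
        simp at this
        apply h2F
        linear_combination this
  · intro hmem
    obtain ⟨z, hz⟩ := Subgroup.mem_zpowers_iff.1 hmem
    rcases Int.even_or_odd' z with ⟨m, rfl | rfl⟩
    · apply hn
      have e : iota F (ρ ^ m) = iota F σ := by
        rw [map_zpow, ← hsq, ← zpow_natCast, ← _root_.zpow_mul, ← hz]
        norm_num
      rw [← iota_injective e]
      exact Subgroup.zpow_mem_zpowers _ _
    · apply hnotL
      have e : ρ' = iota F (ρ ^ (-m) * σ) := by
        rw [map_mul, map_zpow, ← hsq, ← hz, ← zpow_natCast, ← _root_.zpow_mul, ← _root_.zpow_add]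
        have : ((2 : ℕ) : ℤ) * -m + (2 * m + 1) = 1 := by push_cast; ring
        rw [this, zpow_one]
      rw [e]
      exact iota_mem_LL _
  · obtain ⟨z, hz⟩ := Subgroup.mem_zpowers_iff.1 hg
    rw [← hz, map_zpow, ← hsq, ← zpow_natCast, ← _root_.zpow_mul]
    exact Subgroup.zpow_mem_zpowers _ _

end Cfsg.Agent.Lib.LocalEven.PglMax2
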