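/-
Maximal subgroups of `PGL₂(q)`: generic lemmas, cyclic and dihedral cases (helper23).
-/
import Mathlib
import Cfsg.Agent.Lib.LocalEven.PglMax2
import Cfsg.Agent.Lib.TwoGroups.Present

set_option autoImplicit false
set_option linter.unusedSimpArgs false
set_option linter.unusedVariables false
set_option linter.unusedSectionVars false
set_option linter.style.haveILetI false

namespace Cfsg.Agent.Lib.LocalEven.PglMax3

open Cfsg.Agent.Lib.Classical Cfsg.Agent.Lib.LocalEven.PslMax Cfsg.Agent.Lib.LocalEven.PslMax2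
  Cfsg.Agent.Lib.LocalEven.PslMax3 Cfsg.Agent.Lib.LocalEven.PslMax4 Cfsg.Agent.Lib.LocalEven.PglMax
  Cfsg.Agent.Lib.LocalEven.PglMax2 Matrix
open scoped MatrixGroups

variable {F : Type*} [Field F]

theorem conj_mem_NN {M : Subgroup (Pg F)} {h : GL (Fin 2) F} (ht : mkG h ∈ M) {x : Pe F} (hx : x ∈ NN M) :
    Th h x ∈ NN M := by
  rw [mem_NN, ← iota_conj]
  exact M.mul_mem (M.mul_mem ht hx) (M.inv_mem ht)

theorem dih_pow {c : ℕ} (i : ZMod c) (k : ℕ) :
    (DihedralGroup.r i : DihedralGroup c) ^ k = DihedralGroup.r ((k : ZMod c) * i) := by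
  induction k with
  | zero => simp
  | succ k ih =>
    rw [pow_succ, ih, DihedralGroup.r_mul_r]
    congr 1
    push_cast
    ring

theorem dih_mem_zpowers {c : ℕ} (hc : 0 < c) (i j : ZMod c)
    (hi : orderOf (DihedralGroup.r i : DihedralGroup c) = c) :
    ∃ k : ℕ, (DihedralGroup.r j : DihedralGroup c) = (DihedralGroup.r i) ^ k := by
  haveI : NeZero c := ⟨hc.ne'⟩
  rw [DihedralGroup.orderOf_r] at hi
  have hg : Nat.gcd c i.val = 1 := by
    have h1 := Nat.gcd_dvd_left c i.val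
    obtain ⟨d, hd⟩ := h1
    have h2 : Nat.gcd c i.val ≠ 0 := by
      intro h0
      rw [h0] at hd
      omega
    have h3 := Nat.div_mul_cancel (Nat.gcd_dvd_left c i.val)
    rw [hi] at h3
    have h4 : c * Nat.gcd c i.val = c * 1 := by rw [h3, mul_one]
    exact Nat.eq_of_mul_eq_mul_left hc h4
  have hcop : Nat.Coprime i.val c := Nat.Coprime.symm hg
  have h1 := ZMod.coe_mul_inv_eq_one i.val hcop
  rw [ZMod.natCast_zmod_val] at h1
  refine ⟨(j * i⁻¹).val, ?_⟩
  rw [dih_pow, ZMod.natCast_zmod_val]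
  congr 1
  rw [mul_assoc, mul_comm i⁻¹, h1, mul_one]

variable [Fintype F] {q : ℕ} (hF : Fintype.card F = q) (hodd : Odd q) (p : ℕ) [hp : Fact p.Prime] [CharP F p]

include hF hodd in
theorem LL_ne_top : LL F ≠ ⊤ := by
  intro h
  have := index_LL hF hodd
  rw [h, Subgroup.index_top] at this
  omega

include hF hodd in
theorem not_le_LL {M : Subgroup (Pg F)} (hM : IsCoatom M) (hML : ¬ LL F ≤ M) : ¬ M ≤ LL F := by
  intro h
  rcases hM.le_iff.1 h with h1 | h1
  · exact LL_ne_top hF hodd h1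
  · exact hML h1.le

include hF hodd in
theorem card_M {M : Subgroup (Pg F)} (hM : IsCoatom M) (hML : ¬ LL F ≤ M) :
    Nat.card M = 2 * Nat.card (NN M) :=
  card_H_of_not_le hF hodd M (not_le_LL hF hodd hM hML)

include hF in
/-- A maximal subgroup normalising a cyclic subgroup of `L` is its full normaliser. -/
theorem norm_in_M (hq4 : 4 ≤ q) {M : Subgroup (Pg F)} (hM : IsCoatom M) {r : Pe F} (hr : r ≠ 1)
    (hMr : ∀ t ∈ M, t * iota F r * t⁻¹ ∈ Subgroup.zpowers (iota F r)) {y : Pg F}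
    (hy : y * iota F r * y⁻¹ ∈ Subgroup.zpowers (iota F r)) : y ∈ M := by
  haveI simple : IsSimpleGroup (Pe F) :=
    Cfsg.Agent.Lib.Classical.psl_isSimpleGroup_of_four_le (by rw [Nat.card_eq_fintype_card, hF]; exact hq4)
  set Nz := Subgroup.normalizer (Subgroup.zpowers (iota F r) : Set (Pg F)) with hN
  have hle : M ≤ Nz := fun x hx => mem_norm_zpowers _ x (hMr x hx)
  have hNtop : Nz ≠ ⊤ := by
    intro h
    have hn : (Subgroup.zpowers (iota F r)).Normal := Subgroup.normalizer_eq_top_iff.1 h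
    have hn' : (Subgroup.zpowers r).Normal := by
      constructor
      intro n hn1 g
      obtain ⟨z, rfl⟩ := Subgroup.mem_zpowers_iff.1 hn1
      have h1 := hn.conj_mem (iota F (r ^ z)) (by rw [map_zpow]; exact Subgroup.zpow_mem_zpowers _ _) (iota F g)
      rw [← map_inv, ← map_mul, ← map_mul] at h1
      obtain ⟨w, hw⟩ := Subgroup.mem_zpowers_iff.1 h1
      rw [← map_zpow] at hw
      rw [← iota_injective hw]
      exact Subgroup.zpow_mem_zpowers _ _
    rcases IsSimpleGroup.eq_bot_or_eq_top_of_normal _ hn' with h1 | h1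
    · exact hr (Subgroup.zpowers_eq_bot.1 h1)
    · exact not_cyclic_of_zpowers_top h1
  have hNM : Nz = M := by
    by_contra hne
    exact hNtop (hM.2 Nz (lt_of_le_of_ne hle (Ne.symm hne)))
  rw [← hNM]
  exact mem_norm_zpowers _ y hy

include hF hodd in
/-- The big torus and its normaliser lie in `M`. -/
theorem torus_in_M (h5 : 5 ≤ q) {M : Subgroup (Pg F)} (hM : IsCoatom M) {r : Pe F} (hr1 : r ≠ 1) (hrp : r ^ p ≠ 1)
    (hMr : ∀ t ∈ M, t * iota F r * t⁻¹ ∈ Subgroup.zpowers (iota F r)) :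
    ∃ N : ℕ, (N = q - 1 ∨ N = q + 1) ∧ ∃ ρ' σ' : Pg F, orderOf ρ' = N ∧ σ' * σ' = 1 ∧ σ' * ρ' * σ'⁻¹ = ρ'⁻¹ ∧
      σ' ∉ Subgroup.zpowers ρ' ∧ iota F r ∈ Subgroup.zpowers ρ' ∧ ρ' ∉ LL F ∧ σ' ∈ LL F ∧ ρ' ∈ M ∧ σ' ∈ M := by
  obtain ⟨N, hN, ρ', σ', ho, hσσ, hcc, hn, hg, hρL, hσL⟩ := torus_dataG hF p hodd h5 r hrp
  refine ⟨N, hN, ρ', σ', ho, hσσ, hcc, hn, hg, hρL, hσL, ?_, ?_⟩
  · obtain ⟨z, hz⟩ := Subgroup.mem_zpowers_iff.1 hg
    apply norm_in_M hF (by omega) hM hr1 hMr
    have hcomm : ρ' * iota F r = iota F r * ρ' := by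
      rw [← hz]
      exact ((Commute.refl ρ').zpow_right z)
    rw [hcomm, mul_inv_cancel_right]
    exact Subgroup.mem_zpowers _
  · obtain ⟨z, hz⟩ := Subgroup.mem_zpowers_iff.1 hg
    apply norm_in_M hF (by omega) hM hr1 hMr
    have e1 : σ' * iota F r * σ'⁻¹ = (iota F r)⁻¹ := by
      rw [← hz, ← conj_zpow, hcc, _root_.inv_zpow]
    rw [e1]
    exact Subgroup.inv_mem _ (Subgroup.mem_zpowers _)

include hF hodd in
/-- Square roots in the torus. -/
theorem torus_sq {ρ' : Pg F} {r : Pe F} (hρL : ρ' ∉ LL F) (hg : iota F r ∈ Subgroup.zpowers ρ') :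
    ∃ y : Pe F, iota F y = ρ' ^ 2 ∧ r ∈ Subgroup.zpowers y := by
  obtain ⟨y, hy⟩ := mem_LL_iff.1 (sq_mem_LL hF hodd ρ')
  rw [← pow_two] at hy
  refine ⟨y, hy, ?_⟩
  obtain ⟨z, hz⟩ := Subgroup.mem_zpowers_iff.1 hg
  rcases Int.even_or_odd' z with ⟨m, rfl | rfl⟩
  · have e : iota F (y ^ m) = iota F r := by
      rw [map_zpow, hy, ← zpow_natCast, ← _root_.zpow_mul, ← hz]
      norm_num
    rw [← iota_injective e]
    exact Subgroup.zpow_mem_zpowers _ _
  · exfalso
    apply hρL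
    have e : ρ' = iota F (y ^ (-m) * r) := by
      rw [map_mul, map_zpow, hy, ← hz, ← zpow_natCast, ← _root_.zpow_mul, ← _root_.zpow_add]
      have : ((2 : ℕ) : ℤ) * -m + (2 * m + 1) = 1 := by push_cast; ring
      rw [this, zpow_one]
    rw [e]
    exact iota_mem_LL _

include hF hodd p in
/-- The dihedral case with `3 ≤ c`. -/
theorem case_dihG (h5 : 5 ≤ q) {M : Subgroup (Pg F)} (hM : IsCoatom M) (hML : ¬ LL F ≤ M) {c : ℕ} (hc3 : 3 ≤ c)
    (ρ : NN M) (hρ : orderOf ρ = c) (hρp : ρ ^ p ≠ 1) (e : NN M ≃* DihedralGroup c) :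
    ∃ N : ℕ, (N = q - 1 ∨ N = q + 1) ∧ 2 * c = N ∧ Nonempty (M ≃* DihedralGroup N) := by
  classical
  set r : Pe F := (ρ : Pe F) with hr
  have hro : orderOf r = c := by rw [hr, Subgroup.orderOf_coe, hρ]
  have hr1 : r ≠ 1 := by
    intro h
    rw [h, orderOf_one] at hro
    omega
  have hrp : r ^ p ≠ 1 := fun h => hρp (Subtype.ext (by simpa using h))
  have heo : orderOf (e ρ) = c := by rw [MulEquiv.orderOf_eq, hρ]
  obtain ⟨i, hi⟩ : ∃ i, e ρ = DihedralGroup.r i := by
    rcases h : e ρ with i | i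
    · exact ⟨i, rfl⟩
    · rw [h, DihedralGroup.orderOf_sr] at heo
      omega
  have hMr : ∀ t ∈ M, t * iota F r * t⁻¹ ∈ Subgroup.zpowers (iota F r) := by
    intro t ht
    obtain ⟨h, rfl⟩ := Matrix.ProjGenLinGroup.mk_surjective t
    change mkG h ∈ M at ht
    change mkG h * iota F r * (mkG h)⁻¹ ∈ _
    rw [iota_conj]
    have hmem : Th h r ∈ NN M := conj_mem_NN ht ρ.2
    let x : NN M := ⟨Th h r, hmem⟩
    have hxo : orderOf (e x) = c := by
      rw [MulEquiv.orderOf_eq]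
      have e1 : orderOf x = orderOf (Th h r) := (Subgroup.orderOf_coe x).symm
      rw [e1, MulEquiv.orderOf_eq, hro]
    obtain ⟨j, hj⟩ : ∃ j, e x = DihedralGroup.r j := by
      rcases h : e x with j | j
      · exact ⟨j, rfl⟩
      · rw [h, DihedralGroup.orderOf_sr] at hxo
        omega
    obtain ⟨k, hk⟩ := dih_mem_zpowers (by omega) i j (by rw [← hi]; exact heo)
    have hxk : x = ρ ^ k := by
      apply e.injective
      rw [hj, map_pow, hi, hk]
    have hxk' : Th h r = r ^ k := by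
      have := congrArg Subtype.val hxk
      simpa using this
    rw [hxk', map_pow]
    exact Subgroup.npow_mem_zpowers _ _
  obtain ⟨N, hN, ρ', σ', ho, hσσ, hcc, hn, hg, hρL, hσL, hρM, hσM⟩ := torus_in_M hF hodd p h5 hM hr1 hrp hMr
  obtain ⟨y, hy, hry⟩ := torus_sq hF hodd hρL hg
  refine ⟨N, hN, ?_⟩
  have hNeven : Even N := by
    obtain ⟨k, hk⟩ := hodd
    rcases hN with h | h
    · exact ⟨k, by omega⟩
    · exact ⟨k + 1, by omega⟩
  obtain ⟨n, hn'⟩ := hNeven
  have hyo : orderOf y = n := by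
    have h1 : orderOf (ρ' ^ 2) = orderOf ρ' / Nat.gcd (orderOf ρ') 2 := orderOf_pow _
    rw [← hy, orderOf_injective (iota F) iota_injective, ho] at h1
    rw [h1, hn', Nat.gcd_eq_right (by omega : 2 ∣ n + n)]
    omega
  have hyM : y ∈ NN M := by
    rw [mem_NN, hy]
    exact M.pow_mem hρM 2
  have hcy : y * r = r * y := by
    apply iota_injective
    rw [map_mul, map_mul, hy]
    obtain ⟨z, hz⟩ := Subgroup.mem_zpowers_iff.1 hg
    rw [← hz]
    exact (((Commute.refl ρ').zpow_right z).pow_left 2)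
  -- `n ∣ c`
  have hnc : n ∣ c := by
    let y' : NN M := ⟨y, hyM⟩
    have hcomm' : y' * ρ = ρ * y' := Subtype.ext hcy
    have hecomm : e y' * DihedralGroup.r i = DihedralGroup.r i * e y' := by
      rw [← hi, ← map_mul, ← map_mul, hcomm']
    haveI : NeZero c := ⟨by omega⟩
    obtain ⟨j, hj⟩ : ∃ j, e y' = DihedralGroup.r j := by
      rcases h : e y' with j | j
      · exact ⟨j, rfl⟩
      · exfalso
        rw [h, DihedralGroup.sr_mul_r, DihedralGroup.r_mul_sr] at hecomm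
        have h2 : j + i = j - i := DihedralGroup.sr.inj hecomm
        have h3 : i + i = 0 := by linear_combination h2
        have h4 : (DihedralGroup.r i : DihedralGroup c) ^ 2 = 1 := by
          rw [pow_two, DihedralGroup.r_mul_r, h3]
          rfl
        have h5 := orderOf_dvd_of_pow_eq_one h4
        rw [← hi, heo] at h5
        have := Nat.le_of_dvd (by norm_num) h5
        omega
    have h1 : orderOf y = orderOf (DihedralGroup.r j : DihedralGroup c) := by
      rw [← hj, MulEquiv.orderOf_eq]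
      exact (Subgroup.orderOf_mk y hyM).symm
    rw [← hyo, h1, DihedralGroup.orderOf_r]
    exact Nat.div_dvd_of_dvd (Nat.gcd_dvd_left _ _)
  have hcn : c ∣ n := by
    rw [← hro, ← hyo]
    exact orderOf_dvd_of_mem_zpowers hry
  have hcn' : c = n := Nat.dvd_antisymm hcn hnc
  refine ⟨by omega, ?_⟩
  haveI : NeZero N := ⟨by omega⟩
  have hcM : Nat.card M = 2 * N := by
    rw [card_M hF hodd hM hML, Nat.card_congr e.toEquiv, DihedralGroup.nat_card]
    omega
  refine Cfsg.Agent.Lib.TwoGroups.nonempty_mulEquiv_dihedral_of (⟨ρ', hρM⟩ : M) (⟨σ', hσM⟩ : M)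
    ?_ (Subtype.ext hσσ) (Subtype.ext hcc) ?_ hcM
  · rw [← Subgroup.orderOf_coe]
    exact ho
  · intro hmem
    apply hn
    obtain ⟨z, hz⟩ := Subgroup.mem_zpowers_iff.1 hmem
    have := congrArg Subtype.val hz
    apply Subgroup.mem_zpowers_iff.2
    exact ⟨z, by simpa using this⟩

include hF hodd in
/-- `M` is not small. -/
theorem not_card_two {M : Subgroup (Pg F)} (hq : 3 ≤ q) (hM : IsCoatom M) (hc : Nat.card M = 2) : False := by
  haveI : Fact (Nat.Prime 2) := ⟨Nat.prime_two⟩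
  have h2 : IsPGroup 2 M := IsPGroup.iff_card.2 ⟨1, by rw [hc, pow_one]⟩
  obtain ⟨Q, hQ⟩ := h2.exists_le_sylow
  have hcP : Nat.card (Pg F) = q * (q ^ 2 - 1) := by
    rw [card_pgl_eq, Nat.card_eq_fintype_card, hF]
  have h4 : 2 ^ 2 ∣ Nat.card (Pg F) := by
    rw [hcP]
    obtain ⟨k, hk⟩ := hodd
    apply Dvd.dvd.mul_left
    refine ⟨k * (k + 1), ?_⟩
    rw [hk]
    apply Nat.sub_eq_of_eq_add
    ring
  have h5 := Q.pow_dvd_card_of_pow_dvd_card h4
  rcases hM.le_iff.1 hQ with h | h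
  · obtain ⟨n, hn⟩ := IsPGroup.iff_card.1 Q.2
    have e1 : (Q : Subgroup (Pg F)) = ⊤ := h
    have e2 : Nat.card (Q : Subgroup (Pg F)) = Nat.card (Pg F) := by
      rw [e1]
      exact card_top_eq
    rw [e2, hcP] at hn
    have h6 : q ∣ 2 ^ n := ⟨_, hn.symm⟩
    obtain ⟨j, -, hj⟩ := (Nat.dvd_prime_pow Nat.prime_two).1 h6
    have hj0 : j ≠ 0 := by
      rintro rfl
      rw [pow_zero] at hj
      omega
    have h7 : Even q := by
      rw [hj]
      exact (even_two).pow_of_ne_zero hj0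
    exact (Nat.not_even_iff_odd.2 hodd) h7
  · have e1 : (Q : Subgroup (Pg F)) = M := h
    rw [e1, hc] at h5
    omega

include hF hodd p in
/-- The cyclic case cannot occur. -/
theorem case_cycG (h5 : 5 ≤ q) {M : Subgroup (Pg F)} (hM : IsCoatom M) (hML : ¬ LL F ≤ M) (hc : IsCyclic (NN M))
    (hnp : ∀ g : NN M, g ≠ 1 → g ^ p ≠ 1) : False := by
  classical
  obtain ⟨g₀, hgen⟩ := IsCyclic.exists_generator (α := NN M)
  have hcM := card_M hF hodd hM hML
  have hg1 : g₀ ≠ 1 := by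
    intro h
    have h1 : Nat.card (NN M) = 1 := by
      rw [Nat.card_eq_one_iff_unique]
      refine ⟨⟨fun a b => ?_⟩, ⟨1⟩⟩
      obtain ⟨z, hz⟩ := Subgroup.mem_zpowers_iff.1 (hgen a)
      obtain ⟨w, hw⟩ := Subgroup.mem_zpowers_iff.1 (hgen b)
      rw [h, _root_.one_zpow] at hz hw
      rw [← hz, ← hw]
    rw [h1] at hcM
    exact not_card_two hF hodd (by omega) hM hcM
  set r : Pe F := (g₀ : Pe F) with hr
  have hr1 : r ≠ 1 := fun h => hg1 (Subtype.ext h)
  have hrp : r ^ p ≠ 1 := fun h => hnp g₀ hg1 (Subtype.ext (by simpa using h))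
  have hMr : ∀ t ∈ M, t * iota F r * t⁻¹ ∈ Subgroup.zpowers (iota F r) := by
    intro t ht
    obtain ⟨h, rfl⟩ := Matrix.ProjGenLinGroup.mk_surjective t
    change mkG h ∈ M at ht
    change mkG h * iota F r * (mkG h)⁻¹ ∈ _
    rw [iota_conj]
    have hmem : Th h r ∈ NN M := conj_mem_NN ht g₀.2
    obtain ⟨z, hz⟩ := Subgroup.mem_zpowers_iff.1 (hgen ⟨_, hmem⟩)
    have hz' : r ^ z = Th h r := by
      have := congrArg Subtype.val hz
      simpa using this
    rw [← hz', map_zpow]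
    exact Subgroup.zpow_mem_zpowers _ _
  obtain ⟨N, hN, ρ', σ', ho, hσσ, hcc, hn, hg, hρL, hσL, hρM, hσM⟩ := torus_in_M hF hodd p h5 hM hr1 hrp hMr
  obtain ⟨y, hy, hry⟩ := torus_sq hF hodd hρL hg
  obtain ⟨s, hs⟩ := mem_LL_iff.1 hσL
  have hyM : y ∈ NN M := by
    rw [mem_NN, hy]
    exact M.pow_mem hρM 2
  have hsM : s ∈ NN M := by
    rw [mem_NN, hs]
    exact hσM
  letI : CommGroup (NN M) := IsCyclic.commGroup
  let y' : NN M := ⟨y, hyM⟩
  let s' : NN M := ⟨s, hsM⟩
  have hcm : s * y = y * s := congrArg Subtype.val (mul_comm s' y')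
  have h1 : ρ' ^ 2 * σ' = σ' * ρ' ^ 2 := by
    rw [← hy, ← hs, ← map_mul, ← map_mul, hcm]
  have h2 : σ' * ρ' ^ 2 * σ'⁻¹ = (ρ'⁻¹) ^ 2 := by
    rw [← hcc, ← conj_pow]
  have h3 : ρ' ^ 4 = 1 := by
    rw [← h1, mul_inv_cancel_right] at h2
    have e : ρ' ^ 4 = ρ' ^ 2 * ρ' ^ 2 := by rw [← pow_add]
    rw [e]
    nth_rw 1 [h2]
    rw [inv_pow, inv_mul_cancel]
  have h4 := orderOf_dvd_of_pow_eq_one h3
  rw [ho] at h4
  have h6 := Nat.le_of_dvd (by norm_num) h4
  have hN4 : N = 4 := by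
    have : N ∣ 4 := h4
    obtain ⟨k, hk⟩ := hodd
    rcases hN with h | h <;> omega
  have hy1 : y' ≠ 1 := by
    intro h
    have h7 : y = 1 := congrArg Subtype.val h
    rw [h7, map_one] at hy
    have := orderOf_dvd_of_pow_eq_one hy.symm
    rw [ho, hN4] at this
    omega
  have hs1 : s' ≠ 1 := by
    intro h
    have h7 : s = 1 := congrArg Subtype.val h
    rw [h7, map_one] at hs
    apply hn
    rw [← hs]
    exact Subgroup.one_mem _
  have hne : y' ≠ s' := by
    intro h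
    have h7 : y = s := congrArg Subtype.val h
    apply hn
    rw [← hs, ← h7, hy]
    exact Subgroup.npow_mem_zpowers _ _
  have hy2 : y' ^ 2 = 1 := by
    apply Subtype.ext
    apply iota_injective
    show iota F (y ^ 2) = iota F 1
    rw [map_pow, hy, map_one, ← pow_mul]
    exact h3
  have hs2 : s' ^ 2 = 1 := by
    apply Subtype.ext
    apply iota_injective
    show iota F (s ^ 2) = iota F 1
    rw [map_pow, hs, map_one, pow_two, hσσ]
  haveI : Fintype (NN M) := Fintype.ofFinite _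
  have hle := IsCyclic.card_pow_eq_one_le (α := NN M) (n := 2) (by norm_num)
  have hsub : ({1, y', s'} : Finset (NN M)) ⊆ Finset.univ.filter (fun a : NN M => a ^ 2 = 1) := by
    intro a ha
    simp only [Finset.mem_insert, Finset.mem_singleton] at ha
    simp only [Finset.mem_filter, Finset.mem_univ, true_and]
    rcases ha with rfl | rfl | rfl
    · exact one_pow _
    · exact hy2
    · exact hs2
  have hcard : ({1, y', s'} : Finset (NN M)).card = 3 := by
    rw [Finset.card_insert_of_notMem, Finset.card_insert_of_notMem, Finset.card_singleton]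
    · simpa using hne
    · simp only [Finset.mem_insert, Finset.mem_singleton, not_or]
      exact ⟨hy1.symm, hs1.symm⟩
  have := Finset.card_le_card hsub
  omega

end Cfsg.Agent.Lib.LocalEven.PglMax3
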