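/-
Maximal subgroups of `PGL₂(q)`: subfield subgroups and the point stabiliser (helper23).
-/
import Mathlib
import Cfsg.Agent.Lib.LocalEven.PglMax3

set_option autoImplicit false
set_option linter.unusedSimpArgs false
set_option linter.unusedVariables false
set_option linter.unusedSectionVars false
set_option linter.style.haveILetI false

namespace Cfsg.Agent.Lib.LocalEven.PglMax4

open Cfsg.Agent.Lib.Classical Cfsg.Agent.Lib.LocalEven.PslMax Cfsg.Agent.Lib.LocalEven.PslMax2
  Cfsg.Agent.Lib.LocalEven.PslMax3 Cfsg.Agent.Lib.LocalEven.PslMax4 Cfsg.Agent.Lib.LocalEven.PglMax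
  Cfsg.Agent.Lib.LocalEven.PglMax2 Cfsg.Agent.Lib.LocalEven.PglMax3 Matrix
open scoped MatrixGroups

variable {F : Type*} [Field F]

/-- The map from `PGL₂(K)`. -/
noncomputable def pglMap (K : Subfield F) : Pg K →* Pg F :=
  QuotientGroup.lift (Subgroup.center (GL (Fin 2) K)) (mkG.comp (Matrix.GeneralLinearGroup.map K.subtype)) (by
    intro g hg
    rw [Matrix.GeneralLinearGroup.center_eq_range_scalar] at hg
    obtain ⟨u, rfl⟩ := hg
    show mkG _ = 1
    rw [← map_one mkG, mkG_eq_iff]
    refine ⟨((u : K) : F), by simp, ?_⟩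
    ext i j
    show K.subtype (((Matrix.GeneralLinearGroup.scalar (Fin 2) u : GL (Fin 2) K) : Matrix (Fin 2) (Fin 2) K) i j) =
      ((u : K) : F) * (1 : Matrix (Fin 2) (Fin 2) F) i j
    rw [scalar_coe]
    fin_cases i <;> fin_cases j <;> simp)

theorem pglMap_mk (K : Subfield F) (g : GL (Fin 2) K) :
    pglMap K (Matrix.ProjGenLinGroup.mk g) = mkG (Matrix.GeneralLinearGroup.map K.subtype g) := rfl

theorem map_coe_apply (K : Subfield F) (g : GL (Fin 2) K) (i j : Fin 2) :
    ((Matrix.GeneralLinearGroup.map K.subtype g : GL (Fin 2) F) : Matrix (Fin 2) (Fin 2) F) i j = ((g.1 i j : K) : F) := rfl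

theorem pglMap_injective (K : Subfield F) : Function.Injective (pglMap K) := by
  rw [injective_iff_map_eq_one]
  intro x hx
  obtain ⟨g, rfl⟩ := Matrix.ProjGenLinGroup.mk_surjective x
  rw [pglMap_mk, ← map_one mkG, mkG_eq_iff] at hx
  obtain ⟨u, hu0, hu⟩ := hx
  have e : ∀ i j, ((g.1 i j : K) : F) = u * (1 : Matrix (Fin 2) (Fin 2) F) i j := by
    intro i j
    rw [← map_coe_apply, hu]
    rfl
  have e00 : ((g.1 0 0 : K) : F) = u := by simpa using e 0 0
  have e11 : ((g.1 1 1 : K) : F) = u := by simpa using e 1 1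
  have e01 : ((g.1 0 1 : K) : F) = 0 := by simpa using e 0 1
  have e10 : ((g.1 1 0 : K) : F) = 0 := by simpa using e 1 0
  have h0 : g.1 0 0 ≠ 0 := by
    intro h
    rw [h] at e00
    exact hu0 e00.symm
  show mkG g = 1
  rw [← map_one mkG, mkG_eq_iff]
  refine ⟨g.1 0 0, h0, ?_⟩
  rw [Units.val_one]
  ext i j
  fin_cases i <;> fin_cases j <;> simp [e00, e11, e01, e10]

theorem mem_pglMap (K : Subfield F) (g : GL (Fin 2) F) (u : F) (hu : u ≠ 0) (h : ∀ i j, u * g.1 i j ∈ K) :
    mkG g ∈ (pglMap K).range := by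
  let M₀ : Matrix (Fin 2) (Fin 2) K := fun i j => ⟨u * g.1 i j, h i j⟩
  have hM : M₀.map K.subtype = u • g.1 := by
    ext i j
    rfl
  have hd0 : M₀.det ≠ 0 := by
    intro h0
    have e1 : K.subtype M₀.det = (u • g.1).det := by
      rw [RingHom.map_det]
      show (M₀.map K.subtype).det = _
      rw [hM]
    rw [h0, map_zero, Matrix.det_smul] at e1
    have h1 : g.1.det ≠ 0 := ((Matrix.isUnit_iff_isUnit_det _).1 g.isUnit).ne_zero
    exact mul_ne_zero (pow_ne_zero _ hu) h1 e1.symm
  let G : GL (Fin 2) K := Matrix.GeneralLinearGroup.mkOfDetNeZero M₀ hd0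
  refine ⟨Matrix.ProjGenLinGroup.mk G, ?_⟩
  rw [pglMap_mk, mkG_eq_iff]
  exact ⟨u, hu, hM⟩

theorem pglMap_range_le {K K₁ : Subfield F} (h : K ≤ K₁) : (pglMap K).range ≤ (pglMap K₁).range := by
  rintro _ ⟨x, rfl⟩
  obtain ⟨g, rfl⟩ := Matrix.ProjGenLinGroup.mk_surjective x
  rw [pglMap_mk]
  apply mem_pglMap K₁ _ 1 one_ne_zero
  intro i j
  rw [one_mul, map_coe_apply]
  exact h (g.1 i j).2

theorem pglMap_range_le_LL (K : Subfield F) (hsq : ∀ a : K, a ≠ 0 → IsSquare (K.subtype a)) :
    (pglMap K).range ≤ LL F := by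
  rintro _ ⟨x, rfl⟩
  obtain ⟨g, rfl⟩ := Matrix.ProjGenLinGroup.mk_surjective x
  rw [pglMap_mk]
  have hdet0 : (g : Matrix (Fin 2) (Fin 2) K).det ≠ 0 := ((Matrix.isUnit_iff_isUnit_det _).1 g.isUnit).ne_zero
  obtain ⟨s, hs⟩ := hsq _ hdet0
  have hs0 : s ≠ 0 := by
    rintro rfl
    rw [mul_zero] at hs
    exact hdet0 (K.subtype_injective (by rw [hs, map_zero]))
  rw [mkG_of_scalar _ (pglLift K.subtype g s hs.symm) hs0 ?_]
  · exact iota_mem_LL _
  · rw [pglLift_coe, smul_smul, mul_inv_cancel₀ hs0, one_smul]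
    rfl

variable [Fintype F] {q : ℕ} (hF : Fintype.card F = q) (hodd : Odd q) (p : ℕ) [hp : Fact p.Prime] [CharP F p]

theorem range_card_pglMap (K : Subfield F) : Nat.card (pglMap K).range = Nat.card K * (Nat.card K ^ 2 - 1) := by
  rw [← Nat.card_congr (MonoidHom.ofInjective (pglMap_injective K)).toEquiv, card_pgl_eq]

theorem card_Pg_eq : Nat.card (Pg F) = Fintype.card F * (Fintype.card F ^ 2 - 1) := by
  rw [card_pgl_eq, Nat.card_eq_fintype_card]

include hF hodd in
theorem three_le_card_subfield (K : Subfield F) : 3 ≤ Nat.card K := by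
  obtain ⟨k, hk⟩ := odd_card_subfield hF hodd K
  have : 2 ≤ Nat.card K := Finite.one_lt_card
  omega

include hF hodd p in
/-- The exponent of a maximal subfield subgroup of `PGL₂(F)`. -/
theorem pgl_exp {M : Subgroup (Pg F)} (hM : IsCoatom M) (hML : ¬ LL F ≤ M) (P : GL (Fin 2) F) (K : Subfield F)
    (hle : conjG P M ≤ (pglMap K).range) (hne : (pglMap K).range ≠ ⊤) :
    conjG P M = (pglMap K).range ∧ ∃ m : ℕ, m.Prime ∧ Odd m ∧ Nat.card K ^ m = q := by
  classical
  haveI : Fintype K := Fintype.ofFinite _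
  have hc := coatom_conjG hM P
  have hML' : ¬ LL F ≤ conjG P M := fun h => hML (LL_le_conjG P h)
  have heq : conjG P M = (pglMap K).range := by
    rcases hc.le_iff.1 hle with h | h
    · exact absurd h hne
    · exact h.symm
  obtain ⟨m, hm, hm1⟩ := subfield_num hF K
  have h3 := three_le_card_subfield hF hodd K
  have hcP : Nat.card (Pg F) = q * (q ^ 2 - 1) := by rw [card_Pg_eq, hF]
  have htop : Nat.card (⊤ : Subgroup (Pg F)) = Nat.card (Pg F) := card_top_eq
  have hm0 : m ≠ 1 := by
    rintro rfl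
    rw [pow_one] at hm
    apply hne
    apply Subgroup.eq_top_of_card_eq
    rw [range_card_pglMap, hm, hcP]
  have hm2n : m ≠ 2 := by
    rintro rfl
    have hc1 : Fintype.card K = Nat.card K := Nat.card_eq_fintype_card.symm
    have hsq := hsq_of_sq (K := K) (F := F) (q := Nat.card K) hc1 (by rw [hF, hm]) (odd_card_subfield hF hodd K) K.subtype
    apply not_le_LL hF hodd hc hML'
    rw [heq]
    exact pglMap_range_le_LL K hsq
  have hmp : m.Prime := by
    by_contra hnp
    set a := m.minFac with ha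
    have hap : a.Prime := Nat.minFac_prime hm0
    obtain ⟨b, hb⟩ := Nat.minFac_dvd m
    rw [← ha] at hb
    have hb0 : b ≠ 0 := by
      rintro rfl
      omega
    have hb1 : b ≠ 1 := by
      rintro rfl
      rw [mul_one] at hb
      rw [hb] at hnp
      exact hnp hap
    obtain ⟨K₁, hle1, hcard⟩ := exists_mid_field p K (a := a) (b := b) hap.ne_zero
      (by rw [← hb, hm, hF]) (by omega)
    have ha2 : Nat.card K ^ 2 ≤ Nat.card K₁ := by
      rw [hcard]
      exact Nat.pow_le_pow_right (by omega) hap.two_le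
    have h31 : 3 ≤ Nat.card K₁ := three_le_card_subfield hF hodd K₁
    have hb2 : Nat.card K₁ ^ 2 ≤ q := by
      rw [hcard, ← pow_mul, ← hm, hb]
      apply Nat.pow_le_pow_right (by omega)
      have : 2 ≤ b := by omega
      exact Nat.mul_le_mul_left a this
    have hlt1 := pgl_card_lt h3 ha2
    have hlt2 := pgl_card_lt h31 hb2
    have hr := range_card_pglMap K
    have hr1 := range_card_pglMap K₁
    rcases hc.le_iff.1 (heq.le.trans (pglMap_range_le hle1)) with h | h
    · rw [h, htop, hcP] at hr1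
      omega
    · rw [h, heq, hr] at hr1
      have h9 : 1 ≤ Nat.card K * (Nat.card K ^ 2 - 1) := by
        apply Nat.mul_pos (by omega)
        have : 9 ≤ Nat.card K ^ 2 := by nlinarith
        omega
      omega
  exact ⟨heq, m, hmp, hmp.odd_of_ne_two hm2n, hm⟩

include hF hodd p in
/-- The branch `PGL₂(K)` inside `PGL₂(F)`. -/
theorem pgl_pgl_branch {M : Subgroup (Pg F)} (hM : IsCoatom M) (hML : ¬ LL F ≤ M) (P : GL (Fin 2) F) (K : Subfield F)
    (hle : conjG P M ≤ (pglMap K).range) (hne : (pglMap K).range ≠ ⊤) :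
    ∃ (F₀ : Type) (_ : Field F₀) (_ : Fintype F₀) (r : ℕ), r.Prime ∧ Odd r ∧ Fintype.card F = Fintype.card F₀ ^ r ∧
        Nonempty (M ≃* Matrix.ProjGenLinGroup (Fin 2) F₀) := by
  classical
  haveI : Fintype K := Fintype.ofFinite _
  obtain ⟨heq, m, hmp, hmo, hm⟩ := pgl_exp hF hodd p hM hML P K hle hne
  obtain ⟨K', i1, i2, m', hm', ⟨e⟩⟩ := exists_type_field hF p K
  have hcK : Fintype.card K' = Nat.card K := by
    rw [← Nat.card_eq_fintype_card]
    exact (Nat.card_congr e.toEquiv).symm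
  refine ⟨K', i1, i2, m, hmp, hmo, by rw [hcK, hm, hF], ?_⟩
  exact ⟨(conjGEquiv P M).trans ((MulEquiv.subgroupCongr heq).trans
    ((MonoidHom.ofInjective (pglMap_injective K)).symm.trans (pglCongr e)))⟩

section Norm

omit [Fintype F] in
theorem gl_inv_coe (h : GL (Fin 2) F) : ((h⁻¹ : GL (Fin 2) F) : Matrix (Fin 2) (Fin 2) F) =
    (h.1.det)⁻¹ • !![h.1 1 1, -h.1 0 1; -h.1 1 0, h.1 0 0] := by
  rw [Matrix.coe_units_inv, Matrix.inv_def, Matrix.adjugate_fin_two, Ring.inverse_eq_inv']

omit [Fintype F] in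
theorem entries_of_mem (K : Subfield F) (X : SL(2, F)) (h : mkP X ∈ (pslEmbed K.subtype).range) (i j : Fin 2) :
    X.1 i j ∈ K := by
  obtain ⟨y, hy⟩ := h
  obtain ⟨A, rfl⟩ := mkP_surj y
  rw [pslEmbed_mkP] at hy
  have hA : ((Matrix.SpecialLinearGroup.map K.subtype A).1 i j) ∈ K := (A.1 i j).2
  rcases (mkP_eq_iff _ _).1 hy with h1 | h1
  · rw [← h1]
    exact hA
  · have e : X.1 i j = -((Matrix.SpecialLinearGroup.map K.subtype A).1 i j) := by
      rw [h1]
      simp
    rw [e]
    exact K.neg_mem hA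

omit [Fintype F] in
theorem final_entries (K : Subfield F) (a b c d w : F) (h : GL (Fin 2) F) (hh : h.1 = !![a, b; c, d]) (hw0 : w ≠ 0)
    (faa : a * a * w ∈ K) (fab : a * b * w ∈ K) (fac : a * c * w ∈ K) (fad : a * d * w ∈ K)
    (fbb : b * b * w ∈ K) (fbc : b * c * w ∈ K) (fbd : b * d * w ∈ K)
    (fcc : c * c * w ∈ K) (fcd : c * d * w ∈ K) (fdd : d * d * w ∈ K) : mkG h ∈ (pglMap K).range := by
  have hne : a ≠ 0 ∨ b ≠ 0 ∨ c ≠ 0 ∨ d ≠ 0 := by
    by_contra hcon
    push Not at hcon
    obtain ⟨rfl, rfl, rfl, rfl⟩ := hcon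
    have h1 : h.1.det ≠ 0 := ((Matrix.isUnit_iff_isUnit_det _).1 h.isUnit).ne_zero
    rw [hh, Matrix.det_fin_two] at h1
    simp at h1
  rcases hne with h0 | h0 | h0 | h0
  · apply mem_pglMap K h (a * w) (mul_ne_zero h0 hw0)
    intro i j
    rw [hh]
    fin_cases i <;> fin_cases j
    · show a * w * a ∈ K
      rw [show a * w * a = a * a * w by ring]
      exact faa
    · show a * w * b ∈ K
      rw [show a * w * b = a * b * w by ring]
      exact fab
    · show a * w * c ∈ K
      rw [show a * w * c = a * c * w by ring]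
      exact fac
    · show a * w * d ∈ K
      rw [show a * w * d = a * d * w by ring]
      exact fad
  · apply mem_pglMap K h (b * w) (mul_ne_zero h0 hw0)
    intro i j
    rw [hh]
    fin_cases i <;> fin_cases j
    · show b * w * a ∈ K
      rw [show b * w * a = a * b * w by ring]
      exact fab
    · show b * w * b ∈ K
      rw [show b * w * b = b * b * w by ring]
      exact fbb
    · show b * w * c ∈ K
      rw [show b * w * c = b * c * w by ring]
      exact fbc
    · show b * w * d ∈ K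
      rw [show b * w * d = b * d * w by ring]
      exact fbd
  · apply mem_pglMap K h (c * w) (mul_ne_zero h0 hw0)
    intro i j
    rw [hh]
    fin_cases i <;> fin_cases j
    · show c * w * a ∈ K
      rw [show c * w * a = a * c * w by ring]
      exact fac
    · show c * w * b ∈ K
      rw [show c * w * b = b * c * w by ring]
      exact fbc
    · show c * w * c ∈ K
      rw [show c * w * c = c * c * w by ring]
      exact fcc
    · show c * w * d ∈ K
      rw [show c * w * d = c * d * w by ring]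
      exact fcd
  · apply mem_pglMap K h (d * w) (mul_ne_zero h0 hw0)
    intro i j
    rw [hh]
    fin_cases i <;> fin_cases j
    · show d * w * a ∈ K
      rw [show d * w * a = a * d * w by ring]
      exact fad
    · show d * w * b ∈ K
      rw [show d * w * b = b * d * w by ring]
      exact fbd
    · show d * w * c ∈ K
      rw [show d * w * c = c * d * w by ring]
      exact fcd
    · show d * w * d ∈ K
      rw [show d * w * d = d * d * w by ring]
      exact fdd

omit [Fintype F] in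
/-- Normalising `PSL₂(K)` implies lying in `PGL₂(K)`. -/
theorem norm_psl_le (K : Subfield F) (h : GL (Fin 2) F) (h1 : Th h (mkP (uu 1)) ∈ (pslEmbed K.subtype).range)
    (h2 : Th h (mkP (ll 1)) ∈ (pslEmbed K.subtype).range) : mkG h ∈ (pglMap K).range := by
  have h3 : Th h (mkP (uu 1 * ll 1)) ∈ (pslEmbed K.subtype).range := by
    rw [mkP_mul, map_mul]
    exact Subgroup.mul_mem _ h1 h2
  rw [Th_mkP] at h1 h2 h3
  have e1 := entries_of_mem K _ h1
  have e2 := entries_of_mem K _ h2
  have e3 := entries_of_mem K _ h3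
  obtain ⟨a, b, c, d, hh⟩ : ∃ a b c d : F, h.1 = !![a, b; c, d] := ⟨_, _, _, _, Matrix.eta_fin_two h.1⟩
  have hD : a * d - b * c ≠ 0 := by
    have h4 : h.1.det ≠ 0 := ((Matrix.isUnit_iff_isUnit_det _).1 h.isUnit).ne_zero
    rw [hh, Matrix.det_fin_two] at h4
    simpa using h4
  set w := (a * d - b * c)⁻¹ with hw
  have hw0 : w ≠ 0 := inv_ne_zero hD
  have hwD : w * (a * d - b * c) = 1 := inv_mul_cancel₀ hD
  have key : ∀ A : SL(2, F), (ThS h A).1 = !![a, b; c, d] * A.1 * (w • !![d, -b; -c, a]) := by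
    intro A
    rw [ThS_coe, gl_inv_coe, hh]
    simp [Matrix.det_fin_two, hw]
  have hone : (1 : F) ∈ K := K.one_mem
  have u00 : (ThS h (uu 1)).1 0 0 = 1 - a * c * w := by
    rw [key]
    simp [uu, Matrix.mul_apply, Fin.sum_univ_two]
    linear_combination hwD
  have u01 : (ThS h (uu 1)).1 0 1 = a * a * w := by
    rw [key]
    simp [uu, Matrix.mul_apply, Fin.sum_univ_two]
    ring
  have u10 : (ThS h (uu 1)).1 1 0 = -(c * c * w) := by
    rw [key]
    simp [uu, Matrix.mul_apply, Fin.sum_univ_two]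
    ring
  have l00 : (ThS h (ll 1)).1 0 0 = 1 + b * d * w := by
    rw [key]
    simp [ll, Matrix.mul_apply, Fin.sum_univ_two]
    linear_combination hwD
  have l01 : (ThS h (ll 1)).1 0 1 = -(b * b * w) := by
    rw [key]
    simp [ll, Matrix.mul_apply, Fin.sum_univ_two]
    ring
  have l10 : (ThS h (ll 1)).1 1 0 = d * d * w := by
    rw [key]
    simp [ll, Matrix.mul_apply, Fin.sum_univ_two]
    ring
  have hprod : (uu (1 : F) * ll 1).1 = !![1 + 1, 1; 1, 1] := by
    rw [Matrix.SpecialLinearGroup.coe_mul]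
    ext i j
    fin_cases i <;> fin_cases j <;> simp [uu, ll, Matrix.mul_apply, Fin.sum_univ_two]
  have p00 : (ThS h (uu 1 * ll 1)).1 0 0 = 1 + (a * d * w + b * d * w - a * c * w) := by
    rw [key, hprod]
    simp [Matrix.mul_apply, Fin.sum_univ_two]
    linear_combination hwD
  have p01 : (ThS h (uu 1 * ll 1)).1 0 1 = a * a * w - a * b * w - b * b * w := by
    rw [key, hprod]
    simp [Matrix.mul_apply, Fin.sum_univ_two]
    ring
  have p10 : (ThS h (uu 1 * ll 1)).1 1 0 = c * d * w + d * d * w - c * c * w := by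
    rw [key, hprod]
    simp [Matrix.mul_apply, Fin.sum_univ_two]
    ring
  have p11 : (ThS h (uu 1 * ll 1)).1 1 1 = 1 + (a * c * w - b * d * w - b * c * w) := by
    rw [key, hprod]
    simp [Matrix.mul_apply, Fin.sum_univ_two]
    linear_combination hwD
  have faa : a * a * w ∈ K := u01 ▸ e1 0 1
  have fcc : c * c * w ∈ K := by
    have := K.neg_mem (e1 1 0)
    rwa [u10, neg_neg] at this
  have fac : a * c * w ∈ K := by
    have := K.sub_mem hone (e1 0 0)
    rwa [u00, sub_sub_cancel] at this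
  have fbb : b * b * w ∈ K := by
    have := K.neg_mem (e2 0 1)
    rwa [l01, neg_neg] at this
  have fdd : d * d * w ∈ K := l10 ▸ e2 1 0
  have fbd : b * d * w ∈ K := by
    have := K.sub_mem (e2 0 0) hone
    rwa [l00, add_sub_cancel_left] at this
  have fad : a * d * w ∈ K := by
    have := K.sub_mem (K.sub_mem (K.add_mem (K.sub_mem (e3 0 0) hone) fac) fbd) (K.zero_mem)
    rw [p00, add_sub_cancel_left] at this
    convert this using 1
    ring
  have fab : a * b * w ∈ K := by
    have := K.sub_mem (K.sub_mem faa (e3 0 1)) fbb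
    rw [p01] at this
    convert this using 1
    ring
  have fcd : c * d * w ∈ K := by
    have := K.sub_mem (K.add_mem (e3 1 0) fcc) fdd
    rw [p10] at this
    convert this using 1
    ring
  have fbc : b * c * w ∈ K := by
    have := K.sub_mem (K.sub_mem (K.add_mem hone fac) fbd) (e3 1 1)
    rw [p11] at this
    convert this using 1
    ring
  exact final_entries K a b c d w h hh hw0 faa fab fac fad fbb fbc fbd fcc fcd fdd

omit [Fintype F] in
theorem uu_mem_psl (K : Subfield F) {s : F} (hs : s ∈ K) : mkP (uu s) ∈ (pslEmbed K.subtype).range := by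
  apply psl_mem_of_entries
  intro i j
  fin_cases i <;> fin_cases j
  · exact K.one_mem
  · exact hs
  · exact K.zero_mem
  · exact K.one_mem

omit [Fintype F] in
theorem ll_mem_psl (K : Subfield F) {s : F} (hs : s ∈ K) : mkP (ll s) ∈ (pslEmbed K.subtype).range := by
  apply psl_mem_of_entries
  intro i j
  fin_cases i <;> fin_cases j
  · exact K.one_mem
  · exact K.zero_mem
  · exact hs
  · exact K.one_mem

omit [Fintype F] in
theorem pgl_sq_mem_psl (K : Subfield F) (hsq : ∀ a : K, a ≠ 0 → IsSquare (K.subtype a)) {y : Pe F}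
    (hy : y ∈ (pglEmbed K.subtype hsq).range) : y * y ∈ (pslEmbed K.subtype).range := by
  obtain ⟨x, rfl⟩ := hy
  obtain ⟨G, rfl⟩ := Matrix.ProjGenLinGroup.mk_surjective x
  have hdet0 : (G : Matrix (Fin 2) (Fin 2) K).det ≠ 0 := ((Matrix.isUnit_iff_isUnit_det _).1 G.isUnit).ne_zero
  obtain ⟨s, hs⟩ := hsq _ hdet0
  have e1 : pglEmbed K.subtype hsq (Matrix.ProjGenLinGroup.mk G) = mkP (pglLift K.subtype G s hs.symm) :=
    glToPsl_apply K.subtype hsq G s hs.symm
  rw [e1, ← mkP_mul]
  apply psl_mem_of_entries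
  intro i j
  rw [Matrix.SpecialLinearGroup.coe_mul, pglLift_coe, smul_mul_smul_comm, ← Matrix.map_mul, Matrix.smul_apply,
    Matrix.map_apply, smul_eq_mul, ← mul_inv, ← hs]
  exact K.mul_mem (K.inv_mem (Subtype.mem _)) (Subtype.mem _)

include hF hodd p in
/-- The subfield case. -/
theorem case_sub {M : Subgroup (Pg F)} (hM : IsCoatom M) (hML : ¬ LL F ≤ M) (P : GL (Fin 2) F) (K : Subfield F)
    (hK : conjSub P (NN M) = (pslEmbed K.subtype).range ∨
      ∃ hsq : (∀ a : K, a ≠ 0 → IsSquare (K.subtype a)), conjSub P (NN M) = (pglEmbed K.subtype hsq).range) :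
    conjSub P (NN M) = (pslEmbed K.subtype).range ∧ conjG P M = (pglMap K).range ∧ (pglMap K).range ≠ ⊤ ∧
    (∃ m : ℕ, m.Prime ∧ Odd m ∧ Nat.card K ^ m = q) ∧
    ∃ (F₀ : Type) (_ : Field F₀) (_ : Fintype F₀) (r : ℕ), r.Prime ∧ Odd r ∧ Fintype.card F = Fintype.card F₀ ^ r ∧
        Nonempty (M ≃* Matrix.ProjGenLinGroup (Fin 2) F₀) := by
  classical
  haveI : Fintype K := Fintype.ofFinite _
  have hc := coatom_conjG hM P
  have hML' : ¬ LL F ≤ conjG P M := fun h => hML (LL_le_conjG P h)
  have hN := NN_conjG P M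
  have hp2 : (2 : F) ≠ 0 := two_ne_zero_of_odd (by rw [hF]; exact hodd)
  have ht : (2 : F)⁻¹ ∈ K := K.inv_mem (two_mem K)
  have htt : (2 : F)⁻¹ + (2 : F)⁻¹ = 1 := by field_simp; norm_num
  have huu : uu (2 : F)⁻¹ * uu (2 : F)⁻¹ = uu 1 := by rw [← uu_add, htt]
  have hll : ll (2 : F)⁻¹ * ll (2 : F)⁻¹ = ll 1 := by rw [← ll_add, htt]
  rcases hK with hK | ⟨hsq, hK⟩
  · have hle : conjG P M ≤ (pglMap K).range := by
      intro t ht
      obtain ⟨h, rfl⟩ := Matrix.ProjGenLinGroup.mk_surjective t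
      apply norm_psl_le K h
      · rw [← hK, ← hN]
        apply conj_mem_NN ht
        rw [hN, hK]
        exact uu_mem_psl K K.one_mem
      · rw [← hK, ← hN]
        apply conj_mem_NN ht
        rw [hN, hK]
        exact ll_mem_psl K K.one_mem
    have hne : (pglMap K).range ≠ ⊤ := by
      intro htop
      obtain ⟨m, hm, hm1⟩ := subfield_num hF K
      have hcP : Nat.card (Pg F) = q * (q ^ 2 - 1) := by rw [card_Pg_eq, hF]
      have htc : Nat.card (⊤ : Subgroup (Pg F)) = Nat.card (Pg F) := card_top_eq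
      have h3 := three_le_card_subfield hF hodd K
      have hr := range_card_pglMap K
      rw [htop, htc, hcP] at hr
      have hm1' : m = 1 := by
        by_contra hne
        have hm2 : 2 ≤ m := by omega
        have hle2 : Nat.card K ^ 2 ≤ q := by
          rw [← hm]
          exact Nat.pow_le_pow_right (by omega) hm2
        have := pgl_card_lt h3 hle2
        have h9 : 1 ≤ Nat.card K * (Nat.card K ^ 2 - 1) := by
          apply Nat.mul_pos (by omega)
          have : 9 ≤ Nat.card K ^ 2 := by nlinarith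
          omega
        omega
      subst hm1'
      rw [pow_one] at hm
      apply hML'
      rintro _ ⟨A, rfl⟩
      have hKtop : NN (conjG P M) = ⊤ := by
        apply Subgroup.eq_top_of_card_eq
        rw [hN, hK, range_card_psl]
        have hKc : Fintype.card K = q := by rw [← Nat.card_eq_fintype_card, hm]
        have e1 : 2 * Nat.card (Pe K) = q * (q ^ 2 - 1) := card_psl2_odd hKc hodd
        have e2 : 2 * Nat.card (Pe F) = q * (q ^ 2 - 1) := card_psl2_odd hF hodd
        omega
      have hmem : mkP A ∈ NN (conjG P M) := by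
        rw [hKtop]
        trivial
      exact hmem
    have heq : conjG P M = (pglMap K).range := by
      rcases hc.le_iff.1 hle with h | h
      · exact absurd h hne
      · exact h.symm
    exact ⟨hK, heq, hne, (pgl_exp hF hodd p hM hML P K hle hne).2, pgl_pgl_branch hF hodd p hM hML P K hle hne⟩
  · exfalso
    have hpp : ∀ x ∈ (pslEmbed K.subtype).range, x ∈ (pglEmbed K.subtype hsq).range := by
      rintro _ ⟨x, rfl⟩
      obtain ⟨A, rfl⟩ := mkP_surj x
      exact map_mem_pgl _ hsq A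
    have hle : conjG P M ≤ (pglMap K).range := by
      intro t ht'
      obtain ⟨h, rfl⟩ := Matrix.ProjGenLinGroup.mk_surjective t
      apply norm_psl_le K h
      · rw [← huu, mkP_mul, map_mul]
        apply pgl_sq_mem_psl K hsq
        rw [← hK, ← hN]
        apply conj_mem_NN ht'
        rw [hN, hK]
        exact hpp _ (uu_mem_psl K ht)
      · rw [← hll, mkP_mul, map_mul]
        apply pgl_sq_mem_psl K hsq
        rw [← hK, ← hN]
        apply conj_mem_NN ht'
        rw [hN, hK]
        exact hpp _ (ll_mem_psl K ht)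
    exact not_le_LL hF hodd hc hML' (hle.trans (pglMap_range_le_LL K hsq))

end Norm

section Borel

omit [Fintype F] in
/-- The stabiliser of a point in `PGL₂`. -/
noncomputable def BG (F : Type*) [Field F] : Subgroup (Pg F) where
  carrier := {x | ∃ h : GL (Fin 2) F, mkG h = x ∧ h.1 1 0 = 0}
  mul_mem' := by
    rintro _ _ ⟨h, rfl, h0⟩ ⟨k, rfl, k0⟩
    refine ⟨h * k, map_mul _ _ _, ?_⟩
    rw [Units.val_mul, Matrix.mul_apply, Fin.sum_univ_two, h0, k0]
    simp
  one_mem' := ⟨1, map_one _, by simp⟩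
  inv_mem' := by
    rintro _ ⟨h, rfl, h0⟩
    refine ⟨h⁻¹, map_inv _ _, ?_⟩
    rw [gl_inv_coe]
    simp [h0]

omit [Fintype F] in
theorem NN_BG : NN (BG F) = Bo F := by
  ext x
  obtain ⟨A, rfl⟩ := mkP_surj x
  constructor
  · rintro ⟨h, hh, h0⟩
    rw [iota_mkP, mkG_eq_iff] at hh
    obtain ⟨u, hu0, hu⟩ := hh
    apply mem_Bo_of
    have e : h.1 1 0 = u * A.1 1 0 := by
      rw [hu]
      rfl
    rw [e] at h0
    exact (mul_eq_zero.1 h0).resolve_left hu0
  · intro hx
    rw [Bo, MulAction.mem_stabilizer_iff, mkP_fix_iff] at hx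
    obtain ⟨c, hc⟩ := hx
    have h1 := congrFun hc 1
    simp [Matrix.mulVec, dotProduct, Fin.sum_univ_two] at h1
    exact ⟨Matrix.SpecialLinearGroup.toGL A, rfl, h1⟩

omit [Fintype F] in
theorem BG_ne_top : BG F ≠ ⊤ := by
  intro h
  have hmem : mkG (Matrix.SpecialLinearGroup.toGL (ll (1 : F))) ∈ BG F := by
    rw [h]
    trivial
  obtain ⟨g, hg, h0⟩ := hmem
  rw [mkG_eq_iff] at hg
  obtain ⟨u, hu0, hu⟩ := hg
  have e : g.1 1 0 = u * 1 := by
    rw [hu]
    rfl
  rw [e, mul_one] at h0
  exact hu0 h0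

theorem upper_pow (A : SL(2, F)) (h : A.1 1 0 = 0) (k : ℕ) :
    (A ^ k).1 0 0 = (A.1 0 0) ^ k ∧ (A ^ k).1 1 0 = 0 := by
  induction k with
  | zero => simp
  | succ k ih =>
    rw [pow_succ, Matrix.SpecialLinearGroup.coe_mul, Matrix.mul_apply, Matrix.mul_apply, Fin.sum_univ_two,
      Fin.sum_univ_two, ih.1, ih.2, h, pow_succ]
    simp

include hF hodd p in
/-- The Borel case. -/
theorem case_borel {M : Subgroup (Pg F)} (hM : IsCoatom M) (hML : ¬ LL F ≤ M) (P : GL (Fin 2) F)
    (hg : ∃ g : NN M, g ≠ 1 ∧ g ^ p = 1) (hP : ∀ A : SL(2, F), mkP A ∈ conjSub P (NN M) → A.1 1 0 = 0) :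
    conjG P M = BG F ∧ Nat.card M = q * (q - 1) := by
  classical
  have hc := coatom_conjG hM P
  have hML' : ¬ LL F ≤ conjG P M := fun h => hML (LL_le_conjG P h)
  have hN := NN_conjG P M
  obtain ⟨g, hg1, hgp⟩ := hg
  have hp2 : (2 : F) ≠ 0 := two_ne_zero_of_odd (by rw [hF]; exact hodd)
  have hpodd : p ≠ 2 := by
    rintro rfl
    exact hp2 (CharP.cast_eq_zero F 2 |> fun h => by simpa using h)
  obtain ⟨A, hA⟩ := mkP_surj ((Th P).symm (g : Pe F))
  have hAm : mkP A ∈ conjSub P (NN M) := by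
    rw [hA, mem_conjSub, MulEquiv.apply_symm_apply]
    exact g.2
  have hA0 := hP A hAm
  have hA1 : mkP A ≠ 1 := by
    rw [hA]
    intro h
    apply hg1
    apply Subtype.ext
    have := congrArg (Th P) h
    rwa [MulEquiv.apply_symm_apply, map_one] at this
  have hAp : mkP A ^ p = 1 := by
    rw [hA, ← map_pow]
    have : (g : Pe F) ^ p = 1 := by
      have := congrArg Subtype.val hgp
      simpa using this
    rw [this, map_one]
  have hdet : A.1 0 0 * A.1 1 1 = 1 := by
    have := sl_det A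
    rw [hA0] at this
    simpa using this
  -- the diagonal entries agree
  have hdiag : A.1 0 0 = A.1 1 1 := by
    rw [← mkP_pow, mkP_eq_one_iff] at hAp
    have h1 := (upper_pow A hA0 p).1
    have hsgn : ∃ ε : F, ε * ε = 1 ∧ ε ^ p = ε ∧ (A.1 0 0) ^ p = ε := by
      rcases hAp with h | h
      · refine ⟨1, by simp, by simp, ?_⟩
        rw [← h1, h]
        simp
      · refine ⟨-1, by simp, ?_, ?_⟩
        · exact Odd.neg_one_pow (hp.out.odd_of_ne_two hpodd)
        · rw [← h1, h]
          simp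
    obtain ⟨ε, hε, hεp, hε2⟩ := hsgn
    have h2 : (A.1 0 0 - ε) ^ p = 0 := by
      rw [sub_pow_char, hε2, hεp, sub_self]
    have h3 : A.1 0 0 = ε := sub_eq_zero.1 (pow_eq_zero_iff hp.out.ne_zero |>.1 h2)
    rw [h3] at hdet ⊢
    have h4 : ε * (ε - A.1 1 1) = 0 := by linear_combination hε - hdet
    have hε0 : ε ≠ 0 := by
      rintro rfl
      simp at hε
    exact sub_eq_zero.1 ((mul_eq_zero.1 h4).resolve_left hε0)
  have hb : A.1 0 1 ≠ 0 := by
    intro hb0
    apply hA1
    apply mkP_eq_one_of_scalar _ (l := A.1 0 0)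
    ext i j
    fin_cases i <;> fin_cases j <;> simp [hA0, hb0, ← hdiag]
  have hle : conjG P M ≤ BG F := by
    intro t ht
    obtain ⟨h, rfl⟩ := Matrix.ProjGenLinGroup.mk_surjective t
    have hX : mkP (ThS h A) ∈ conjSub P (NN M) := by
      rw [← hN, ← Th_mkP]
      apply conj_mem_NN ht
      rw [hN]
      exact hAm
    have hX0 := hP _ hX
    refine ⟨h, rfl, ?_⟩
    have hm := ThS_mul_P h A
    have e10 := congrFun (congrFun hm 1) 0
    have e11 := congrFun (congrFun hm 1) 1
    simp only [Matrix.mul_apply, Fin.sum_univ_two, hX0, hA0] at e10 e11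
    by_contra hγ
    have h5 : (ThS h A).1 1 1 = A.1 0 0 := by
      apply mul_right_cancel₀ hγ
      linear_combination e10
    rw [h5, hdiag] at e11
    have h6 : h.1 1 0 * A.1 0 1 = 0 := by linear_combination -e11
    exact (mul_ne_zero hγ hb) h6
  have heq : conjG P M = BG F := by
    rcases hc.le_iff.1 hle with h | h
    · exact absurd h BG_ne_top
    · exact h.symm
  refine ⟨heq, ?_⟩
  have e1 : Nat.card M = Nat.card (conjG P M) := Nat.card_congr (conjGEquiv P M).toEquiv
  have e2 := card_M hF hodd hc hML'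
  rw [heq, NN_BG] at e2
  have e3 := card_Bo hF
  have e4 : 2 * Nat.card (Pe F) = q * (q ^ 2 - 1) := card_psl2_odd hF hodd
  rw [e1, heq, e2]
  obtain ⟨k, hk⟩ := hodd
  have e5 : q ^ 2 - 1 = (q - 1) * (q + 1) := by
    subst hk
    have : 2 * k + 1 - 1 = 2 * k := by omega
    rw [this]
    apply Nat.sub_eq_of_eq_add
    ring
  rw [e5, ← mul_assoc, ← e3] at e4
  have h7 : 0 < q + 1 := by omega
  apply Nat.eq_of_mul_eq_mul_right h7
  rw [← e4]
  ring

end Borel

end Cfsg.Agent.Lib.LocalEven.PglMax4
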