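/-
Maximal subgroups of `PGL₂(q)`: Klein groups, octahedral and icosahedral subgroups (helper23).
-/
import Mathlib
import Cfsg.Agent.Lib.LocalEven.PglMax4

set_option autoImplicit false
set_option linter.unusedSimpArgs false
set_option linter.unusedVariables false
set_option linter.unusedSectionVars false
set_option linter.style.haveILetI false

namespace Cfsg.Agent.Lib.LocalEven.PglMax5

open Cfsg.Agent.Lib.Classical Cfsg.Agent.Lib.LocalEven.PslMax Cfsg.Agent.Lib.LocalEven.PslMax2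
  Cfsg.Agent.Lib.LocalEven.PslMax3 Cfsg.Agent.Lib.LocalEven.PslMax4 Cfsg.Agent.Lib.LocalEven.PglMax
  Cfsg.Agent.Lib.LocalEven.PglMax2 Cfsg.Agent.Lib.LocalEven.PglMax3 Cfsg.Agent.Lib.LocalEven.PglMax4 Matrix
open scoped MatrixGroups

variable {F : Type*} [Field F]

/-- Conjugation by an element of `M` on `NN M`. -/
noncomputable def alphaM {M : Subgroup (Pg F)} {h : GL (Fin 2) F} (ht : mkG h ∈ M) : NN M →* NN M where
  toFun x := ⟨Th h x, conj_mem_NN ht x.2⟩
  map_one' := Subtype.ext (map_one _)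
  map_mul' x y := Subtype.ext (map_mul _ _ _)

theorem alphaM_injective {M : Subgroup (Pg F)} {h : GL (Fin 2) F} (ht : mkG h ∈ M) :
    Function.Injective (alphaM ht) := by
  intro x y hxy
  apply Subtype.ext
  exact (Th h).injective (congrArg Subtype.val hxy)

/-- The embedding attached to an isomorphism. -/
noncomputable def embH {M : Subgroup (Pg F)} {X : Type*} [Group X] (e : NN M ≃* X) : X →* Pe F :=
  (NN M).subtype.comp e.symm.toMonoidHom

theorem embH_injective {M : Subgroup (Pg F)} {X : Type*} [Group X] (e : NN M ≃* X) : Function.Injective (embH e) :=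
  fun x y h => e.symm.injective (Subtype.ext h)

theorem embH_mem {M : Subgroup (Pg F)} {X : Type*} [Group X] (e : NN M ≃* X) (x : X) : embH e x ∈ NN M := (e.symm x).2

theorem embH_surj {M : Subgroup (Pg F)} {X : Type*} [Group X] (e : NN M ≃* X) {y : Pe F} (hy : y ∈ NN M) :
    embH e (e ⟨y, hy⟩) = y := by
  show ((e.symm (e ⟨y, hy⟩) : NN M) : Pe F) = y
  rw [MulEquiv.symm_apply_apply]

/-- The endomorphism of the model. -/
noncomputable def betaM {M : Subgroup (Pg F)} {h : GL (Fin 2) F} (ht : mkG h ∈ M) {X : Type*} [Group X]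
    (e : NN M ≃* X) : X →* X :=
  e.toMonoidHom.comp ((alphaM ht).comp e.symm.toMonoidHom)

theorem betaM_injective {M : Subgroup (Pg F)} {h : GL (Fin 2) F} (ht : mkG h ∈ M) {X : Type*} [Group X]
    (e : NN M ≃* X) : Function.Injective (betaM ht e) :=
  e.injective.comp ((alphaM_injective ht).comp e.symm.injective)

theorem embH_betaM {M : Subgroup (Pg F)} {h : GL (Fin 2) F} (ht : mkG h ∈ M) {X : Type*} [Group X]
    (e : NN M ≃* X) (x : X) : embH e (betaM ht e x) = Th h (embH e x) := by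
  show ((e.symm (e (alphaM ht (e.symm x))) : NN M) : Pe F) = _
  rw [MulEquiv.symm_apply_apply]
  rfl

theorem conj_back (P : GL (Fin 2) F) (x : Pe F) : (mkG P)⁻¹ * iota F (Th P x) * mkG P = iota F x := by
  rw [← iota_conj]
  group

/-- The centraliser of a Klein group lies in `L`. -/
theorem cent_klein (S : QSplit F) {a b : Pe F} (ha : a ^ 2 = 1) (hb : b ^ 2 = 1) (ha1 : a ≠ 1) (hb1 : b ≠ 1)
    (hab : a ≠ b) (hc : a * b = b * a) (z : Pg F) (h1 : z * iota F a = iota F a * z)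
    (h2 : z * iota F b = iota F b * z) : z ∈ LL F := by
  obtain ⟨P, e1, e2⟩ := frame S ha hb ha1 hb1 hab hc
  obtain ⟨g, hg⟩ := Matrix.ProjGenLinGroup.mk_surjective ((mkG P)⁻¹ * z * mkG P)
  have hg' : mkG g = (mkG P)⁻¹ * z * mkG P := hg
  have f1 : iota F a = mkG P * iota F S.ia * (mkG P)⁻¹ := by rw [iota_conj, e1]
  have f2 : iota F b = mkG P * iota F S.jb * (mkG P)⁻¹ := by rw [iota_conj, e2]
  have h1' : mkG g * iota F S.ia = iota F S.ia * mkG g := by
    rw [f1] at h1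
    have e3 : mkG g * iota F S.ia = (mkG P)⁻¹ * (z * (mkG P * iota F S.ia * (mkG P)⁻¹)) * mkG P := by
      rw [hg']
      group
    have e4 : iota F S.ia * mkG g = (mkG P)⁻¹ * ((mkG P * iota F S.ia * (mkG P)⁻¹) * z) * mkG P := by
      rw [hg']
      group
    rw [e3, e4, h1]
  have h2' : mkG g * iota F S.jb = iota F S.jb * mkG g := by
    rw [f2] at h2
    have e3 : mkG g * iota F S.jb = (mkG P)⁻¹ * (z * (mkG P * iota F S.jb * (mkG P)⁻¹)) * mkG P := by
      rw [hg']
      group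
    have e4 : iota F S.jb * mkG g = (mkG P)⁻¹ * ((mkG P * iota F S.jb * (mkG P)⁻¹) * z) * mkG P := by
      rw [hg']
      group
    rw [e3, e4, h2]
  have hL : mkG g ∈ LL F := by
    rcases cent_VG S g h1' h2' with h | h | h | h <;> rw [h]
    · exact Subgroup.one_mem _
    · exact iota_mem_LL _
    · exact iota_mem_LL _
    · exact Subgroup.mul_mem _ (iota_mem_LL _) (iota_mem_LL _)
  obtain ⟨y, hy⟩ := mem_LL_iff.1 hL
  have e5 : z = mkG P * iota F y * (mkG P)⁻¹ := by
    rw [hy, hg']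
    group
  rw [e5, iota_conj]
  exact iota_mem_LL _

variable [Fintype F] {q : ℕ} (hF : Fintype.card F = q) (hodd : Odd q) (p : ℕ) [hp : Fact p.Prime] [CharP F p]

include hF hodd in
/-- A maximal subgroup normalising a Klein group is the octahedral group. -/
theorem klein_X (S : QSplit F) (h5 : 5 ≤ q) {M : Subgroup (Pg F)} (hM : IsCoatom M) {X : Type*} [Group X]
    (e : NN M ≃* X) (a₀ b₀ : X) (ha : a₀ ^ 2 = 1) (hb : b₀ ^ 2 = 1) (ha1 : a₀ ≠ 1) (hb1 : b₀ ≠ 1) (hab : a₀ ≠ b₀)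
    (hc : a₀ * b₀ = b₀ * a₀)
    (hV : ∀ β : X →* X, (β a₀ = 1 ∨ β a₀ = a₀ ∨ β a₀ = b₀ ∨ β a₀ = a₀ * b₀) ∧
      (β b₀ = 1 ∨ β b₀ = a₀ ∨ β b₀ = b₀ ∨ β b₀ = a₀ * b₀)) :
    ∃ P : GL (Fin 2) F, conjG P M = (X4 S).S := by
  classical
  set a := embH e a₀ with ha'
  set b := embH e b₀ with hb'
  have hinj := embH_injective e
  obtain ⟨P, e1, e2⟩ := frame S (a := a) (b := b) (by rw [ha', ← map_pow, ha, map_one]) (by rw [hb', ← map_pow, hb, map_one])
    (fun h => ha1 (hinj (by rw [map_one]; exact h))) (fun h => hb1 (hinj (by rw [map_one]; exact h)))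
    (fun h => hab (hinj h)) (by rw [ha', hb', ← map_mul, ← map_mul, hc])
  refine ⟨P, ?_⟩
  have hc' := coatom_conjG hM P
  have hle : conjG P M ≤ (X4 S).S := by
    intro t ht
    obtain ⟨h, hh⟩ := Matrix.ProjGenLinGroup.mk_surjective (mkG P * t * (mkG P)⁻¹)
    have hh' : mkG h = mkG P * t * (mkG P)⁻¹ := hh
    have htM : mkG h ∈ M := by
      rw [hh']
      exact ht
    obtain ⟨hβ1, hβ2⟩ := hV (betaM htM e)
    have key : ∀ x : Pe F, t * iota F x * t⁻¹ = (mkG P)⁻¹ * iota F (Th h (Th P x)) * mkG P := by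
      intro x
      rw [← iota_conj, ← iota_conj, hh']
      group
    have vmem : ∀ y : X, (y = 1 ∨ y = a₀ ∨ y = b₀ ∨ y = a₀ * b₀) →
        (mkG P)⁻¹ * iota F (embH e y) * mkG P ∈ (X4 S).V := by
      intro y hy
      rw [(X4 S).mem_V]
      rcases hy with rfl | rfl | rfl | rfl
      · left
        simp
      · right; left
        rw [← ha', ← e1, conj_back]
        rfl
      · right; right; left
        rw [← hb', ← e2, conj_back]
        rfl
      · right; right; right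
        rw [map_mul, ← ha', ← hb', ← e1, ← e2, ← map_mul, conj_back, map_mul]
        rfl
    apply norm_V_X4 S t
    · rw [key, e1, ha', ← embH_betaM htM e]
      exact vmem _ hβ1
    · rw [key, e2, hb', ← embH_betaM htM e]
      exact vmem _ hβ2
  have hcS : Nat.card (X4 S).S = 24 := (X4 S).card_S
  have hne : (X4 S).S ≠ ⊤ := by
    intro h
    have h1 : Nat.card (Pg F) = 24 := by
      rw [← hcS, h]
      exact card_top_eq.symm
    rw [card_Pg hF hodd] at h1
    have := card_large hF hodd h5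
    omega
  rcases hc'.le_iff.1 hle with h | h
  · exact absurd h hne
  · exact h.symm

/-- The elements in the Klein group of `A₄`. -/
theorem a4_invol : ∀ x : alternatingGroup (Fin 4), x ^ 2 = 1 → x = 1 ∨ x = a4DataAlt4.a ∨ x = a4DataAlt4.b ∨
    x = a4DataAlt4.a * a4DataAlt4.b := by
  decide +kernel

theorem s4_sq_a : ∃ y : Equiv.Perm (Fin 4), y ^ 4 = 1 ∧ y ^ 2 = (a4DataAlt4.a : Equiv.Perm (Fin 4)) := by
  decide +kernel

theorem s4_sq_b : ∃ y : Equiv.Perm (Fin 4), y ^ 4 = 1 ∧ y ^ 2 = (a4DataAlt4.b : Equiv.Perm (Fin 4)) := by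
  decide +kernel

theorem s4_sq_all : ∀ y : Equiv.Perm (Fin 4), y ^ 4 = 1 → y ^ 2 = 1 ∨ y ^ 2 = (a4DataAlt4.a : Equiv.Perm (Fin 4)) ∨
    y ^ 2 = (a4DataAlt4.b : Equiv.Perm (Fin 4)) ∨
    y ^ 2 = (a4DataAlt4.a : Equiv.Perm (Fin 4)) * (a4DataAlt4.b : Equiv.Perm (Fin 4)) := by
  decide +kernel

theorem d2_all : ∃ a b : DihedralGroup 2, a ^ 2 = 1 ∧ b ^ 2 = 1 ∧ a ≠ 1 ∧ b ≠ 1 ∧ a ≠ b ∧ a * b = b * a ∧
    ∀ x : DihedralGroup 2, x = 1 ∨ x = a ∨ x = b ∨ x = a * b := by
  decide +kernel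

include hF hodd in
/-- The dihedral group of order four does not occur. -/
theorem case_D2 (S : QSplit F) (h5 : 5 ≤ q) {M : Subgroup (Pg F)} (hM : IsCoatom M) (hML : ¬ LL F ≤ M)
    (e : NN M ≃* DihedralGroup 2) : False := by
  obtain ⟨a₀, b₀, ha, hb, ha1, hb1, hab, hc, hall⟩ := d2_all
  obtain ⟨P, hP⟩ := klein_X hF hodd S h5 hM e a₀ b₀ ha hb ha1 hb1 hab hc (fun β => ⟨hall _, hall _⟩)
  have h1 : Nat.card M = Nat.card (conjG P M) := Nat.card_congr (conjGEquiv P M).toEquiv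
  rw [hP, (X4 S).card_S, card_M hF hodd hM hML, Nat.card_congr e.toEquiv, DihedralGroup.nat_card] at h1
  omega

include hF hodd in
/-- The group `S₄` does not occur as the intersection with `L`. -/
theorem case_S4G (S : QSplit F) (h5 : 5 ≤ q) {M : Subgroup (Pg F)} (hM : IsCoatom M) (hML : ¬ LL F ≤ M)
    (e : NN M ≃* Equiv.Perm (Fin 4)) : False := by
  have hfa : ∀ β : Equiv.Perm (Fin 4) →* Equiv.Perm (Fin 4), ∀ x : Equiv.Perm (Fin 4), (∃ y : Equiv.Perm (Fin 4), y ^ 4 = 1 ∧ y ^ 2 = x) →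
      β x = 1 ∨ β x = (a4DataAlt4.a : Equiv.Perm (Fin 4)) ∨ β x = (a4DataAlt4.b : Equiv.Perm (Fin 4)) ∨
        β x = (a4DataAlt4.a : Equiv.Perm (Fin 4)) * (a4DataAlt4.b : Equiv.Perm (Fin 4)) := by
    rintro β x ⟨y, hy, rfl⟩
    rw [map_pow]
    exact s4_sq_all _ (by rw [← map_pow, hy, map_one])
  obtain ⟨P, hP⟩ := klein_X hF hodd S h5 hM e (a4DataAlt4.a : Equiv.Perm (Fin 4)) (a4DataAlt4.b : Equiv.Perm (Fin 4))
    (by decide +kernel) (by decide +kernel) (by decide +kernel) (by decide +kernel) (by decide +kernel) (by decide +kernel)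
    (fun β => ⟨hfa β _ s4_sq_a, hfa β _ s4_sq_b⟩)
  have h1 : Nat.card M = Nat.card (conjG P M) := Nat.card_congr (conjGEquiv P M).toEquiv
  rw [hP, (X4 S).card_S, card_M hF hodd hM hML, Nat.card_congr e.toEquiv, card_perm_four] at h1
  omega

omit [Fintype F] in
theorem qm_mem (S : QSplit F) (K : Subfield F) (hx : S.x ∈ K) (hy : S.y ∈ K) {a b c d : F} (ha : a ∈ K) (hb : b ∈ K)
    (hc : c ∈ K) (hd : d ∈ K) (i j : Fin 2) : S.qm a b c d i j ∈ K := by
  fin_cases i <;> fin_cases j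
  · exact K.add_mem (K.add_mem ha (K.mul_mem hc hx)) (K.mul_mem hd hy)
  · exact K.sub_mem (K.add_mem hb (K.mul_mem hc hy)) (K.mul_mem hd hx)
  · exact K.sub_mem (K.add_mem (K.neg_mem hb) (K.mul_mem hc hy)) (K.mul_mem hd hx)
  · exact K.sub_mem (K.sub_mem ha (K.mul_mem hc hx)) (K.mul_mem hd hy)

theorem X4_le_range (S : QSplit F) (K : Subfield F) (hx : S.x ∈ K) (hy : S.y ∈ K) (hh : S.h ∈ K) :
    (X4 S).S ≤ (pglMap K).range := by
  have hi := K.zero_mem
  have h1 := K.one_mem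
  have key : ∀ (g : GL (Fin 2) F) {a b c d : F}, g.1 = S.qm a b c d → a ∈ K → b ∈ K → c ∈ K → d ∈ K → mkG g ∈ (pglMap K).range := by
    intro g a b c d hg ha hb hc hd
    apply mem_pglMap K g 1 one_ne_zero
    intro i j
    rw [one_mul, hg]
    exact qm_mem S K hx hy ha hb hc hd i j
  have ha : (X4 S).a ∈ (pglMap K).range := by
    show iota F S.ia ∈ _
    rw [iota_ia]
    exact key _ (a := 0) (b := 1) (c := 0) (d := 0) rfl hi h1 hi hi
  have hb : (X4 S).b ∈ (pglMap K).range := by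
    show iota F S.jb ∈ _
    rw [iota_jb]
    exact key _ (a := 0) (b := 0) (c := 1) (d := 0) rfl hi hi h1 hi
  have hw : (X4 S).w ∈ (pglMap K).range := by
    show iota F S.om ∈ _
    rw [← mk_omS, iota_mkP]
    exact key _ (a := -S.h) (b := S.h) (c := S.h) (d := S.h) rfl (K.neg_mem hh) hh hh hh
  have hr : (X4 S).r ∈ (pglMap K).range :=
    key _ (a := 0) (b := 1) (c := -1) (d := 0) (rG_coe S) hi h1 (K.neg_mem h1) hi
  have hT := T_le_of (X4 S).toA4Data _ ha hb hw
  rintro x ⟨v, hv, k, rfl⟩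
  exact Subgroup.mul_mem _ (hT hv) (Subgroup.pow_mem _ hr k)

omit [Fintype F] in
theorem rG_mem_LL (S : QSplit F) {s : F} (hs : s * s = 2) : mkG (rG S) ∈ LL F := by
  have hs0 : s ≠ 0 := by
    rintro rfl
    apply S.two_ne
    rw [← hs, zero_mul]
  have hdet : (s⁻¹ • S.qm 0 1 (-1) 0).det = 1 := by
    rw [Matrix.det_smul, S.qm_det]
    simp
    field_simp
    linear_combination -hs
  let X : SL(2, F) := ⟨s⁻¹ • S.qm 0 1 (-1) 0, hdet⟩
  rw [mkG_of_scalar (rG S) X hs0 (by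
    show (rG S).1 = s • (s⁻¹ • S.qm 0 1 (-1) 0)
    rw [rG_coe, smul_smul, mul_inv_cancel₀ hs0, one_smul])]
  exact iota_mem_LL _

theorem X4_le_LL (S : QSplit F) {s : F} (hs : s * s = 2) : (X4 S).S ≤ LL F := by
  have ha : (X4 S).a ∈ LL F := iota_mem_LL _
  have hb : (X4 S).b ∈ LL F := iota_mem_LL _
  have hw : (X4 S).w ∈ LL F := iota_mem_LL _
  have hT := T_le_of (X4 S).toA4Data _ ha hb hw
  rintro x ⟨v, hv, k, rfl⟩
  exact Subgroup.mul_mem _ (hT hv) (Subgroup.pow_mem _ (rG_mem_LL S hs) k)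

include hF hodd p in
/-- The case `A₄`. -/
theorem case_A4G (h5 : 5 ≤ q) {M : Subgroup (Pg F)} (hM : IsCoatom M) (hML : ¬ LL F ≤ M)
    (e : NN M ≃* alternatingGroup (Fin 4)) :
    (∃ (P : GL (Fin 2) F) (K : Subfield F), conjG P M ≤ (pglMap K).range ∧ (pglMap K).range ≠ ⊤) ∨
    (q = p ∧ (q % 8 = 3 ∨ q % 8 = 5) ∧ Nonempty (M ≃* Equiv.Perm (Fin 4))) := by
  classical
  obtain ⟨K₀, S, hK₀, hx, hy, hh⟩ := exists_std hF hodd p
  have hfa : ∀ β : alternatingGroup (Fin 4) →* alternatingGroup (Fin 4), ∀ x : alternatingGroup (Fin 4), x ^ 2 = 1 →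
      β x = 1 ∨ β x = a4DataAlt4.a ∨ β x = a4DataAlt4.b ∨ β x = a4DataAlt4.a * a4DataAlt4.b := by
    intro β x hx
    apply a4_invol
    rw [← map_pow, hx, map_one]
  obtain ⟨P, hP⟩ := klein_X hF hodd S h5 hM e a4DataAlt4.a a4DataAlt4.b a4DataAlt4.ha a4DataAlt4.hb a4DataAlt4.ha1
    a4DataAlt4.hb1 a4DataAlt4.hne a4DataAlt4.hab (fun β => ⟨hfa β _ a4DataAlt4.ha, hfa β _ a4DataAlt4.hb⟩)
  have hle : conjG P M ≤ (pglMap K₀).range := by
    rw [hP]
    exact X4_le_range S K₀ hx hy hh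
  have hc := coatom_conjG hM P
  have hML' : ¬ LL F ≤ conjG P M := fun h => hML (LL_le_conjG P h)
  by_cases hne : (pglMap K₀).range = ⊤
  · right
    have hr := range_card_pglMap K₀
    have htc : Nat.card (⊤ : Subgroup (Pg F)) = Nat.card (Pg F) := card_top_eq
    have hcP : Nat.card (Pg F) = q * (q ^ 2 - 1) := by rw [card_Pg_eq, hF]
    rw [hne, htc, hcP, hK₀] at hr
    have hq : q = p := by
      obtain ⟨m, hm, hm1⟩ := subfield_num hF K₀
      rw [hK₀] at hm
      have hp3 : 3 ≤ p := by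
        have := three_le_card_subfield hF hodd K₀
        rwa [hK₀] at this
      by_contra hne'
      have hm2 : 2 ≤ m := by
        by_contra hlt
        have : m = 1 := by omega
        subst this
        rw [pow_one] at hm
        exact hne' hm.symm
      have hle2 : p ^ 2 ≤ q := by
        rw [← hm]
        exact Nat.pow_le_pow_right (by omega) hm2
      have := pgl_card_lt hp3 hle2
      have h9 : 1 ≤ p * (p ^ 2 - 1) := by
        apply Nat.mul_pos (by omega)
        have : 9 ≤ p ^ 2 := by nlinarith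
        omega
      omega
    refine ⟨hq, ?_, ?_⟩
    · by_contra h8
      have h2 : IsSquare (2 : F) := by
        rw [FiniteField.isSquare_two_iff, hF]
        omega
      obtain ⟨s, hs⟩ := h2
      apply not_le_LL hF hodd hc hML'
      rw [hP]
      exact X4_le_LL S hs.symm
    · obtain ⟨eS⟩ := (X4 S).S_equiv
      exact ⟨(conjGEquiv P M).trans ((MulEquiv.subgroupCongr hP).trans eS)⟩
  · left
    exact ⟨P, K₀, hle, hne⟩

/-- Generators of `A₅`. -/
def a0 : alternatingGroup (Fin 5) := ⟨Equiv.swap 0 1 * Equiv.swap 2 3, by rw [Equiv.Perm.mem_alternatingGroup]; decide⟩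
/-- Generators of `A₅`. -/
def b0 : alternatingGroup (Fin 5) := ⟨Equiv.swap 1 2 * Equiv.swap 2 4, by rw [Equiv.Perm.mem_alternatingGroup]; decide⟩

set_option maxRecDepth 100000 in
theorem a5_aut : ∀ a' b' : alternatingGroup (Fin 5), a' ^ 2 = 1 → b' ^ 3 = 1 → (a' * b') ^ 5 = 1 → a' ≠ 1 → b' ≠ 1 →
    (∃ g : alternatingGroup (Fin 5), g * a0 * g⁻¹ = a' ∧ g * b0 * g⁻¹ = b') ∨
    (∃ g : alternatingGroup (Fin 5), g * ((a0 * b0) * (a0 * b0)) * g⁻¹ = a' * b') := by
  decide +kernel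

/-- A word. -/
def W0 : alternatingGroup (Fin 5) := b0 * a0 * b0 * a0 * b0 * b0
/-- An involution commuting with `a0`. -/
def v0 : alternatingGroup (Fin 5) := W0 * a0 * W0⁻¹

theorem a0_sq : a0 ^ 2 = 1 := by decide +kernel
theorem b0_cube : b0 ^ 3 = 1 := by decide +kernel
theorem a0b0_five : (a0 * b0) ^ 5 = 1 := by decide +kernel
theorem a0_ne : a0 ≠ 1 := by decide +kernel
theorem b0_ne : b0 ≠ 1 := by decide +kernel
theorem a0b0_ne : a0 * b0 ≠ 1 := by decide +kernel
theorem v0_sq : v0 ^ 2 = 1 := by decide +kernel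
theorem v0_ne : v0 ≠ 1 := by decide +kernel
theorem a0_ne_v0 : a0 ≠ v0 := by decide +kernel
theorem a0_v0 : a0 * v0 = v0 * a0 := by decide +kernel

omit [Fintype F] in
theorem trS_conj (C X : SL(2, F)) : trS (C * X * C⁻¹) = trS X := by
  have e3 : trS (C * X * C⁻¹) = Matrix.trace (C.1 * X.1 * (C⁻¹).1) := by
    rw [← Matrix.SpecialLinearGroup.coe_mul, ← Matrix.SpecialLinearGroup.coe_mul]
    simp [trS, Matrix.trace_fin_two]
  have e4 : trS X = Matrix.trace X.1 := by simp [trS, Matrix.trace_fin_two]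
  rw [e3, e4, Matrix.trace_mul_comm, ← mul_assoc, sl_inv_coe_mul, one_mul]

omit [Fintype F] in
theorem trS_sq (B : SL(2, F)) : trS (B * B) = trS B ^ 2 - 2 := by
  have h := sq_CH B
  have e1 : trS (B * B) = Matrix.trace (B.1 * B.1) := by
    rw [← Matrix.SpecialLinearGroup.coe_mul]
    simp [trS, Matrix.trace_fin_two]
  rw [e1, h, Matrix.trace_sub, Matrix.trace_smul, Matrix.trace_one]
  have e4 : trS B = Matrix.trace B.1 := by simp [trS, Matrix.trace_fin_two]
  rw [← e4]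
  simp [pow_two]

include hF hodd p in
/-- The case `A₅`. -/
theorem case_A5G (h5 : 5 ≤ q) {M : Subgroup (Pg F)} (hM : IsCoatom M) (hML : ¬ LL F ≤ M)
    (e : NN M ≃* alternatingGroup (Fin 5)) :
    ∃ (K : Subfield F) (P : GL (Fin 2) F), conjSub P (NN M) = (pslEmbed K.subtype).range := by
  classical
  obtain ⟨K₀, S, hK₀, hx, hy, hh⟩ := exists_std hF hodd p
  obtain ⟨t, htM, htL⟩ := SetLike.not_le_iff_exists.1 (not_le_LL hF hodd hM hML)
  obtain ⟨h, rfl⟩ := Matrix.ProjGenLinGroup.mk_surjective t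
  change mkG h ∈ M at htM
  change mkG h ∉ LL F at htL
  set β := betaM htM e with hβ
  have hβi : Function.Injective β := betaM_injective htM e
  have hinj := embH_injective e
  rcases a5_aut (β a0) (β b0) (by rw [← map_pow, a0_sq, map_one]) (by rw [← map_pow, b0_cube, map_one])
    (by rw [← map_mul, ← map_pow, a0b0_five, map_one]) (fun h1 => a0_ne (hβi (by rw [h1, map_one])))
    (fun h1 => b0_ne (hβi (by rw [h1, map_one]))) with ⟨g, h1, h2⟩ | ⟨g, h1⟩
  · exfalso
    let C : Subgroup (alternatingGroup (Fin 5)) := MonoidHom.eqLocus β (MulAut.conj g).toMonoidHom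
    have hCa : a0 ∈ C := h1.symm
    have hCb : b0 ∈ C := h2.symm
    have hCW : W0 ∈ C := C.mul_mem (C.mul_mem (C.mul_mem (C.mul_mem (C.mul_mem hCb hCa) hCb) hCa) hCb) hCb
    have hCv : v0 ∈ C := C.mul_mem (C.mul_mem hCW hCa) (C.inv_mem hCW)
    set G : Pg F := iota F (embH e g) with hG
    have hcomm : ∀ w ∈ C, (G⁻¹ * mkG h) * iota F (embH e w) = iota F (embH e w) * (G⁻¹ * mkG h) := by
      intro w hw
      have e1 : β w = g * w * g⁻¹ := hw
      have e2 : mkG h * iota F (embH e w) * (mkG h)⁻¹ = G * iota F (embH e w) * G⁻¹ := by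
        rw [iota_conj, ← embH_betaM htM e, ← hβ, e1, map_mul, map_mul, map_inv, map_mul, map_mul, map_inv]
      have e3 : mkG h * iota F (embH e w) = G * iota F (embH e w) * G⁻¹ * mkG h := by
        rw [← e2]
        group
      rw [mul_assoc, e3]
      group
    have hz := cent_klein S (a := embH e a0) (b := embH e v0) (by rw [← map_pow, a0_sq, map_one])
      (by rw [← map_pow, v0_sq, map_one]) (fun h3 => a0_ne (hinj (by rw [h3, map_one])))
      (fun h3 => v0_ne (hinj (by rw [h3, map_one]))) (fun h3 => a0_ne_v0 (hinj h3))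
      (by rw [← map_mul, ← map_mul, a0_v0]) (G⁻¹ * mkG h) (hcomm _ hCa) (hcomm _ hCv)
    apply htL
    have e5 : mkG h = G * (G⁻¹ * mkG h) := by group
    rw [e5]
    exact Subgroup.mul_mem _ (iota_mem_LL _) hz
  · -- the outer case forces characteristic five
    set R₀ := a0 * b0 with hR₀
    obtain ⟨B, hB⟩ := mkP_surj (embH e R₀)
    obtain ⟨C, hC⟩ := mkP_surj (embH e g)
    have e1 : β R₀ = g * (R₀ * R₀) * g⁻¹ := by
      rw [hR₀, map_mul, ← h1]
    have e2 : Th h (embH e R₀) = embH e g * (embH e R₀ * embH e R₀) * (embH e g)⁻¹ := by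
      rw [← embH_betaM htM e, ← hβ, e1, map_mul, map_mul, map_inv, map_mul]
    rw [← hB, ← hC, Th_mkP, ← mkP_mul, ← mkP_inv, ← mkP_mul, ← mkP_mul, mkP_eq_iff] at e2
    have hfive : mkP B ^ 5 = 1 := by
      rw [hB, ← map_pow, a0b0_five, map_one]
    have hne1 : mkP B ≠ 1 := by
      rw [hB]
      exact fun h3 => a0b0_ne (hinj (by rw [h3, map_one]))
    have h6 := tr_of_five B hfive hne1
    have h7 : trS B = trS B ^ 2 - 2 ∨ trS B = -(trS B ^ 2 - 2) := by
      rcases e2 with h3 | h3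
      · left
        have e9 := tr_ThS h B
        rw [h3, trS_conj, trS_sq] at e9
        exact e9.symm
      · right
        have h4 : trS (C * (B * B) * C⁻¹) = - trS (ThS h B) := by
          show (C * (B * B) * C⁻¹).1 0 0 + (C * (B * B) * C⁻¹).1 1 1 = _
          rw [h3]
          simp [trS]
          ring
        rw [trS_conj, trS_sq, tr_ThS] at h4
        linear_combination h4
    set s := trS B with hs
    have h55 : (5 : F) = 0 := by
      rcases h7 with h7 | h7 <;> rcases mul_eq_zero.1 h6 with h8 | h8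
      · exact absurd (by linear_combination h8 + h7 : (1 : F) = 0) one_ne_zero
      · linear_combination (2 * s - 3) * (h8 + h7) + 4 * h7
      · linear_combination (2 * s + 3) * (h7 - h8) - 4 * h7
      · exact absurd (by linear_combination h8 - h7 : (1 : F) = 0) one_ne_zero
    have hp5 : p = 5 := by
      have h9 : p ∣ 5 := (CharP.cast_eq_zero_iff F p 5).1 (by exact_mod_cast h55)
      exact (Nat.prime_dvd_prime_iff_eq hp.out (by norm_num)).1 h9
    -- the icosahedral group is `PSL₂(5)`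
    let D := a4DataAlt5.map (embH e) hinj
    obtain ⟨P, h3, h4⟩ := frame S D.ha D.hb D.ha1 D.hb1 D.hne D.hab
    refine ⟨K₀, P, ?_⟩
    have hia : S.ia ∈ conjSub P (NN M) := by
      rw [mem_conjSub, h3]
      exact embH_mem e _
    have hjb : S.jb ∈ conjSub P (NN M) := by
      rw [mem_conjSub, h4]
      exact embH_mem e _
    let e' : conjSub P (NN M) ≃* alternatingGroup (Fin 5) := (conjSubEquiv P (NN M)).symm.trans e
    have ho : ∀ x ∈ conjSub P (NN M), x ^ 2 = 1 ∨ x ^ 3 = 1 ∨ x ^ 5 = 1 := by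
      intro x hx
      rcases Cfsg.Agent.Lib.LocalEven.PslMax4.a5_orders (e' ⟨x, hx⟩) with h | h | h
      · exact Or.inl (pow_of_equiv e' hx h)
      · exact Or.inr (Or.inl (pow_of_equiv e' hx h))
      · exact Or.inr (Or.inr (pow_of_equiv e' hx h))
    have hφ : (3 : F) ^ 2 = 3 + 1 := by linear_combination h55
    have hφK : (3 : F) ∈ K₀ := by
      have := K₀.add_mem (two_mem K₀) K₀.one_mem
      convert this using 1
      norm_num
    have hle := le_psl S K₀ hx hy hh hia hjb (by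
      intro G hG
      rcases ho _ hG with h | h | h
      · exact tr_mem_small K₀ G (Or.inl h)
      · exact tr_mem_small K₀ G (Or.inr h)
      · exact tr_mem_five K₀ hφK hφ G h)
    apply Subgroup.eq_of_le_of_card_ge hle
    rw [range_card_psl, Nat.card_congr e'.toEquiv, card_alt_five]
    haveI : Fintype K₀ := Fintype.ofFinite _
    have hKc : Fintype.card K₀ = 5 := by rw [← Nat.card_eq_fintype_card, hK₀, hp5]
    have e9 : 2 * Nat.card (Pe K₀) = 5 * (5 ^ 2 - 1) := card_psl2_odd hKc (by decide)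
    omega

/-- Maximal subgroups of `PGL₂(q)`. -/
theorem main_pgl (F : Type*) [Field F] [Fintype F]
    (hodd : Odd (Fintype.card F)) (h3 : 3 < Fintype.card F) (M : Subgroup (Matrix.ProjGenLinGroup (Fin 2) F)) (hM : IsCoatom M)
    (hML : ¬ (Matrix.ProjGenLinGroup.mk.comp Matrix.SpecialLinearGroup.toGL).range ≤ M) :
    Nat.card M = Fintype.card F * (Fintype.card F - 1) ∨
    (Fintype.card F ≠ 5 ∧ Nonempty (M ≃* DihedralGroup (Fintype.card F - 1))) ∨
    Nonempty (M ≃* DihedralGroup (Fintype.card F + 1)) ∨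
    ((Fintype.card F).Prime ∧ (Fintype.card F % 8 = 3 ∨ Fintype.card F % 8 = 5) ∧ Nonempty (M ≃* Equiv.Perm (Fin 4))) ∨
    (∃ (F₀ : Type) (_ : Field F₀) (_ : Fintype F₀) (r : ℕ), r.Prime ∧ Odd r ∧ Fintype.card F = Fintype.card F₀ ^ r ∧
        Nonempty (M ≃* Matrix.ProjGenLinGroup (Fin 2) F₀)) := by
  classical
  set q := Fintype.card F with hq
  have hF : Fintype.card F = q := rfl
  have h5 : 5 ≤ q := by
    obtain ⟨k, hk⟩ := hodd
    omega
  obtain ⟨p, hcp⟩ := CharP.exists F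
  haveI : Fact p.Prime := ⟨CharP.char_is_prime F p⟩
  have hodd2 : Fintype.card F % 2 = 1 := Nat.odd_iff.1 hodd
  obtain ⟨S⟩ := QSplit.nonempty_of_odd hodd2
  rcases dickson_master p (NN M) with ⟨h1, h2⟩ | ⟨⟨c, ρ, hc, hρ, hρp, ⟨e⟩⟩, -⟩ | ⟨⟨e⟩, -⟩ | ⟨⟨e⟩, -⟩ | ⟨⟨e⟩, -⟩ | ⟨P, hg, hP⟩ | ⟨K₀, P, hK⟩
  · exact (case_cycG hF hodd p h5 hM hML h1 h2).elim
  · rcases (by omega : c = 2 ∨ 3 ≤ c) with rfl | hc3
    · exact (case_D2 hF hodd S h5 hM hML e).elim
    · obtain ⟨N, hN, h2c, hdih⟩ := case_dihG hF hodd p h5 hM hML hc3 ρ hρ hρp e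
      rcases hN with rfl | rfl
      · exact Or.inr (Or.inl ⟨by omega, hdih⟩)
      · exact Or.inr (Or.inr (Or.inl hdih))
  · rcases case_A4G hF hodd p h5 hM hML e with ⟨P, K, h1, h2⟩ | ⟨h1, h2, h3⟩
    · exact Or.inr (Or.inr (Or.inr (Or.inr (pgl_pgl_branch hF hodd p hM hML P K h1 h2))))
    · exact Or.inr (Or.inr (Or.inr (Or.inl ⟨by rw [h1]; exact ‹Fact p.Prime›.out, h2, h3⟩)))
  · exact (case_S4G hF hodd S h5 hM hML e).elim
  · obtain ⟨K, P, hK⟩ := case_A5G hF hodd p h5 hM hML e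
    exact Or.inr (Or.inr (Or.inr (Or.inr (case_sub hF hodd p hM hML P K (Or.inl hK)).2.2.2.2)))
  · exact Or.inl (case_borel hF hodd p hM hML P hg hP).2
  · exact Or.inr (Or.inr (Or.inr (Or.inr (case_sub hF hodd p hM hML P K₀ hK).2.2.2.2)))

end Cfsg.Agent.Lib.LocalEven.PglMax5
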