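/-
Maximal subgroups of `PGL₂(q)` meet `PSL₂(q)` in maximal subgroups (helper23).
-/
import Mathlib
import Cfsg.Agent.Lib.LocalEven.PglMax5

set_option autoImplicit false
set_option linter.unusedSimpArgs false
set_option linter.unusedVariables false
set_option linter.unusedSectionVars false
set_option linter.style.haveILetI false

namespace Cfsg.Agent.Lib.LocalEven.PglMax6

open Cfsg.Agent.Lib.Classical Cfsg.Agent.Lib.LocalEven.PslMax Cfsg.Agent.Lib.LocalEven.PslMax2
  Cfsg.Agent.Lib.LocalEven.PslMax3 Cfsg.Agent.Lib.LocalEven.PslMax4 Cfsg.Agent.Lib.LocalEven.PglMax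
  Cfsg.Agent.Lib.LocalEven.PglMax2 Cfsg.Agent.Lib.LocalEven.PglMax3 Cfsg.Agent.Lib.LocalEven.PglMax4
  Cfsg.Agent.Lib.LocalEven.PglMax5 Matrix
open scoped MatrixGroups

variable {F : Type*} [Field F]

theorem coatom_of_conjSub {H : Subgroup (Pe F)} (P : GL (Fin 2) F) (h : IsCoatom (conjSub P H)) : IsCoatom H :=
  ((Th P).comapSubgroup.isCoatom_iff H).1 h

theorem coatom_of_all {G : Type*} [Group G] [Finite G] {N : Subgroup G} (hN : N ≠ ⊤)
    (h : ∀ H : Subgroup G, IsCoatom H → N ≤ H → N = H) : IsCoatom N := by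
  rcases eq_top_or_exists_le_coatom N with h1 | ⟨H, hH, hle⟩
  · exact absurd h1 hN
  · rw [h H hH hle]
    exact hH

/-- Transfer to `L`. -/
theorem transfer {M : Subgroup (Pg F)} (h : IsCoatom (NN M)) : IsCoatom ((M ⊓ LL F).subgroupOf (LL F)) := by
  let e : Pe F ≃* LL F := (MonoidHom.ofInjective (iota_injective (F := F))).trans (MulEquiv.subgroupCongr iota_range)
  have he : ∀ x, ((e x : LL F) : Pg F) = iota F x := fun x => rfl
  have h1 : (e.comapSubgroup ((M ⊓ LL F).subgroupOf (LL F))) = NN M := by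
    ext x
    constructor
    · intro hx
      have h2 : ((e x : LL F) : Pg F) ∈ M ⊓ LL F := hx
      exact h2.1
    · intro hx
      have h2 : ((e x : LL F) : Pg F) ∈ M ⊓ LL F := ⟨hx, (e x).2⟩
      exact h2
  rw [← h1] at h
  exact (e.comapSubgroup.isCoatom_iff _).1 h

variable [Fintype F] {q : ℕ} (hF : Fintype.card F = q) (hodd : Odd q) (p : ℕ) [hp : Fact p.Prime] [CharP F p]

/-- In even characteristic the embedding is onto. -/
theorem iota_surj_even (h2 : Even (Fintype.card F)) : Function.Surjective (iota F) := by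
  classical
  intro x
  obtain ⟨g, rfl⟩ := Matrix.ProjGenLinGroup.mk_surjective x
  have hdet0 : g.1.det ≠ 0 := ((Matrix.isUnit_iff_isUnit_det _).1 g.isUnit).ne_zero
  have hc2 : ringChar F = 2 := by
    obtain ⟨n, hnp, hn⟩ := FiniteField.card F (ringChar F)
    by_contra hne
    have hpr := hnp
    have hodd' : Odd (ringChar F) := hpr.odd_of_ne_two hne
    rw [hn] at h2
    exact (Nat.not_even_iff_odd.2 hodd'.pow) h2
  obtain ⟨s, hs⟩ := FiniteField.isSquare_of_char_two hc2 g.1.det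
  have hs0 : s ≠ 0 := by
    rintro rfl
    rw [mul_zero] at hs
    exact hdet0 hs
  have hd : (s⁻¹ • g.1).det = 1 := by
    rw [Matrix.det_smul, hs]
    simp
    field_simp
  let X : SL(2, F) := ⟨s⁻¹ • g.1, hd⟩
  refine ⟨mkP X, ?_⟩
  symm
  show mkG g = _
  apply mkG_of_scalar g X hs0
  show g.1 = s • (s⁻¹ • g.1)
  rw [smul_smul, mul_inv_cancel₀ hs0, one_smul]

/-- The even case. -/
theorem coatom_even (h2 : Even (Fintype.card F)) {M : Subgroup (Pg F)} (hM : IsCoatom M) : IsCoatom (NN M) := by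
  let e : Pe F ≃* Pg F := MulEquiv.ofBijective (iota F) ⟨iota_injective, iota_surj_even h2⟩
  exact (e.comapSubgroup.isCoatom_iff M).2 hM

include hF hodd in
/-- The pull-back of `PGL₂(K)`. -/
theorem conj_psl_of_pgl {M : Subgroup (Pg F)} (hM : IsCoatom M) (hML : ¬ LL F ≤ M) (P : GL (Fin 2) F) (K : Subfield F)
    (heq : conjG P M = (pglMap K).range) : conjSub P (NN M) = (pslEmbed K.subtype).range := by
  classical
  haveI : Fintype K := Fintype.ofFinite _
  have hc := coatom_conjG hM P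
  have hML' : ¬ LL F ≤ conjG P M := fun h => hML (LL_le_conjG P h)
  have hN := NN_conjG P M
  have e2 := card_M hF hodd hc hML'
  have e5 : Nat.card (conjG P M) = Nat.card K * (Nat.card K ^ 2 - 1) := by rw [heq, range_card_pglMap]
  symm
  apply Subgroup.eq_of_le_of_card_ge
  · rw [← hN, heq]
    rintro _ ⟨x, rfl⟩
    obtain ⟨A, rfl⟩ := mkP_surj x
    rw [pslEmbed_mkP]
    show iota F (mkP (Matrix.SpecialLinearGroup.map K.subtype A)) ∈ (pglMap K).range
    rw [iota_mkP]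
    refine ⟨Matrix.ProjGenLinGroup.mk (Matrix.SpecialLinearGroup.toGL A), ?_⟩
    rw [pglMap_mk, mkG_eq_iff]
    refine ⟨1, one_ne_zero, ?_⟩
    rw [one_smul]
    rfl
  · rw [← hN, range_card_psl]
    have ho := odd_card_subfield hF hodd K
    have e3 : 2 * Nat.card (Pe K) = Fintype.card K * (Fintype.card K ^ 2 - 1) :=
      card_psl2_odd rfl (by rw [← Nat.card_eq_fintype_card]; exact ho)
    rw [← Nat.card_eq_fintype_card] at e3
    rw [e5] at e2
    have e6 := e3.trans e2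
    exact le_of_eq (Nat.eq_of_mul_eq_mul_left (by norm_num : 0 < 2) e6.symm)

section Num

theorem not_dvd_sub (q₀ r : ℕ) (h3 : 3 ≤ q₀) (hr : Odd r) : ¬ (q₀ + 1) ∣ q₀ ^ r - 1 := by
  intro h
  have h1 : q₀ + 1 ∣ q₀ ^ r + 1 := by
    have := Odd.nat_add_dvd_pow_add_pow q₀ 1 hr
    simpa using this
  have hq1 : 1 ≤ q₀ ^ r := Nat.one_le_pow _ _ (by omega)
  have h2 : q₀ + 1 ∣ 2 := by
    have := Nat.dvd_sub h1 h
    rwa [show q₀ ^ r + 1 - (q₀ ^ r - 1) = 2 by omega] at this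
  have := Nat.le_of_dvd (by norm_num) h2
  omega

theorem dvd_of_card (q₀ c : ℕ) (h3 : Odd q₀) (hc : 2 * c = q₀ * (q₀ ^ 2 - 1)) : q₀ + 1 ∣ c := by
  obtain ⟨k, rfl⟩ := h3
  have e : (2 * k + 1) ^ 2 - 1 = 4 * (k * (k + 1)) := by
    apply Nat.sub_eq_of_eq_add
    ring
  rw [e] at hc
  refine ⟨(2 * k + 1) * k, ?_⟩
  nlinarith

theorem three_pow_odd_mod (r : ℕ) (h : Odd r) : 3 ^ r % 10 = 3 ∨ 3 ^ r % 10 = 7 := by
  obtain ⟨j, rfl⟩ := h
  induction j with
  | zero => left; rfl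
  | succ j ih =>
    have e : 3 ^ (2 * (j + 1) + 1) = 3 ^ (2 * j + 1) * 9 := by ring
    rw [e]
    generalize 3 ^ (2 * j + 1) = x at ih ⊢
    omega

end Num

include hF hodd in
/-- The Borel subgroup is maximal. -/
theorem coatom_Bo (h5 : 5 ≤ q) : IsCoatom (Bo F) := by
  classical
  have hp' : ∀ p : ℕ, True := fun _ => trivial
  obtain ⟨p, hcp⟩ := CharP.exists F
  haveI : Fact p.Prime := ⟨CharP.char_is_prime F p⟩
  have hB := card_Bo hF
  have hG : 2 * Nat.card (Pe F) = q * (q ^ 2 - 1) := card_psl2_odd hF hodd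
  have hpos : 0 < Nat.card (Pe F) := Nat.card_pos
  have hq21 : q ^ 2 - 1 = (q - 1) * (q + 1) := by
    obtain ⟨k, rfl⟩ := hodd
    have : 2 * k + 1 - 1 = 2 * k := by omega
    rw [this]
    apply Nat.sub_eq_of_eq_add
    ring
  have hB2 : 2 * Nat.card (Bo F) = q * (q - 1) := by
    apply Nat.eq_of_mul_eq_mul_right (by omega : 0 < q + 1)
    rw [mul_assoc, hB, hG, hq21]
    ring
  have hqpos : 0 < q - 1 := by omega
  have hne : Bo F ≠ ⊤ := by
    intro h
    have h1 : Nat.card (Bo F) = Nat.card (Pe F) := by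
      rw [h]
      exact card_top_eq
    rw [h1] at hB
    nlinarith
  apply coatom_of_all hne
  intro H hH hle
  have hdvd : Nat.card (Bo F) ∣ Nat.card H := Subgroup.card_dvd_of_le hle
  have hqdvd : q ∣ Nat.card (Bo F) := by
    have h1 : q ∣ 2 * Nat.card (Bo F) := ⟨_, hB2⟩
    have h2 : Nat.Coprime q 2 := (Nat.coprime_two_left.2 hodd).symm
    exact h2.dvd_of_dvd_mul_left h1
  have hqH : q ∣ Nat.card H := hqdvd.trans hdvd
  rw [← hF] at h5
  rcases main_odd p (by rw [hF]; exact hodd) h5 H hH with h | ⟨-, k, hk, ⟨e⟩⟩ | ⟨-, -, k, hk, ⟨e⟩⟩ | ⟨F₁, i1, i2, hq1, ⟨e⟩⟩ | ⟨F₁, i1, i2, r, hr, hro, hq1, ⟨e⟩⟩ | ⟨h10, -, ⟨e⟩⟩ | ⟨-, h8, -, ⟨e⟩⟩ | ⟨h1, h8, ⟨e⟩⟩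
  · rw [hF] at h
    have h' : 2 * Nat.card H = q * (q - 1) := h
    apply Subgroup.eq_of_le_of_card_ge hle
    omega
  · exfalso
    rw [hF] at h5 hk
    haveI : NeZero k := ⟨by omega⟩
    rw [Nat.card_congr e.toEquiv, DihedralGroup.nat_card, hk] at hqH
    have := Nat.le_of_dvd (by omega) hqH
    omega
  · exfalso
    rw [hF] at h5 hk
    haveI : NeZero k := ⟨by omega⟩
    rw [Nat.card_congr e.toEquiv, DihedralGroup.nat_card, hk] at hqH
    have h1 : q ∣ 1 := by
      have := Nat.dvd_sub hqH (dvd_refl q)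
      rwa [Nat.add_sub_cancel_left] at this
    have := Nat.le_of_dvd (by norm_num) h1
    omega
  · exfalso
    rw [hF] at h5 hq1
    rw [Nat.card_congr e.toEquiv, card_pgl_eq, Nat.card_eq_fintype_card, ← hq1] at hqH
    set r := Fintype.card F₁ with hr
    have hr2 : 2 ≤ r := Fintype.one_lt_card
    have h0 : r * r ∣ r * (r ^ 2 - 1) := by
      rw [← pow_two r, ← hq1]
      exact hqH
    have h1 : r ∣ r ^ 2 - 1 := Nat.dvd_of_mul_dvd_mul_left (by omega) h0
    have h2 : r ∣ r ^ 2 := Dvd.intro_left _ (pow_two r).symm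
    have h3 : r ∣ 1 := by
      have := Nat.dvd_sub h2 h1
      rwa [show r ^ 2 - (r ^ 2 - 1) = 1 by
        have : 1 ≤ r ^ 2 := Nat.one_le_pow _ _ (by omega)
        omega] at this
    have := Nat.le_of_dvd (by norm_num) h3
    omega
  · exfalso
    rw [hF] at h5 hq1
    set r₁ := Fintype.card F₁ with hr₁
    have hr2 : 2 ≤ r₁ := Fintype.one_lt_card
    have hodd₁ : Odd r₁ := by
      rw [hq1] at hodd
      exact (Nat.odd_pow_iff hr.ne_zero).1 hodd
    have e2 : 2 * Nat.card (Pe F₁) = r₁ * (r₁ ^ 2 - 1) := card_psl2_odd rfl hodd₁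
    rw [Nat.card_congr e.toEquiv] at hqH
    have h1 : r₁ ^ 2 ∣ q := by
      rw [hq1]
      exact pow_dvd_pow _ hr.two_le
    have h2 : r₁ ^ 2 ∣ r₁ * (r₁ ^ 2 - 1) := by
      rw [← e2]
      exact (h1.trans hqH).mul_left 2
    have h0 : r₁ * r₁ ∣ r₁ * (r₁ ^ 2 - 1) := by
      rw [← pow_two r₁]
      exact h2
    have h1' : r₁ ∣ r₁ ^ 2 - 1 := Nat.dvd_of_mul_dvd_mul_left (by omega) h0
    have h2' : r₁ ∣ r₁ ^ 2 := Dvd.intro_left _ (pow_two r₁).symm
    have h3 : r₁ ∣ 1 := by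
      have := Nat.dvd_sub h2' h1'
      rwa [show r₁ ^ 2 - (r₁ ^ 2 - 1) = 1 by
        have : 1 ≤ r₁ ^ 2 := Nat.one_le_pow _ _ (by omega)
        omega] at this
    have := Nat.le_of_dvd (by norm_num) h3
    omega
  · exfalso
    rw [hF] at h5 h10
    rw [Nat.card_congr e.toEquiv, card_alt_five] at hdvd
    have h1 : Nat.card (Bo F) ≤ 60 := Nat.le_of_dvd (by norm_num) hdvd
    have h2 : q * (q - 1) ≤ 120 := by omega
    have h3 : q ≤ 11 := by
      by_contra h4
      have : 12 ≤ q := by omega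
      have : 12 * 11 ≤ q * (q - 1) := Nat.mul_le_mul this (by omega)
      omega
    have h9 : q = 9 ∨ q = 11 := by omega
    rcases h9 with rfl | rfl
    · have : Nat.card (Bo F) = 36 := by omega
      rw [this] at hdvd
      omega
    · have : Nat.card (Bo F) = 55 := by omega
      rw [this] at hdvd
      omega
  · exfalso
    rw [hF] at h5
    rw [Nat.card_congr e.toEquiv, card_alt_four] at hdvd
    have h1 : Nat.card (Bo F) ≤ 12 := Nat.le_of_dvd (by norm_num) hdvd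
    have h2 : q * (q - 1) ≤ 24 := by omega
    have h3 : q ≤ 5 := by
      by_contra h4
      have : 6 ≤ q := by omega
      have : 6 * 5 ≤ q * (q - 1) := Nat.mul_le_mul this (by omega)
      omega
    have h9 : q = 5 := by omega
    subst h9
    have : Nat.card (Bo F) = 10 := by omega
    rw [this] at hdvd
    omega
  · exfalso
    rw [hF] at h5 h1
    rw [Nat.card_congr e.toEquiv, card_perm_four] at hdvd
    have h3' : Nat.card (Bo F) ≤ 24 := Nat.le_of_dvd (by norm_num) hdvd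
    have h2 : q * (q - 1) ≤ 48 := by omega
    have h3 : q ≤ 7 := by
      by_contra h4
      have : 8 ≤ q := by omega
      have : 8 * 7 ≤ q * (q - 1) := Nat.mul_le_mul this (by omega)
      omega
    rw [← h1] at h8
    have h9 : q = 7 := by
      obtain ⟨k, hk⟩ := hodd
      omega
    subst h9
    have : Nat.card (Bo F) = 21 := by omega
    rw [this] at hdvd
    omega

section Num2

theorem exp_dvd {p a b : ℕ} (hp : p.Prime) (ha : 0 < a) (h : p ^ (2 * a) - 1 ∣ p ^ (2 * b) - 1) : a ∣ b := by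
  have h1 := Nat.pow_sub_one_gcd_pow_sub_one p (2 * a) (2 * b)
  rw [Nat.gcd_eq_left h] at h1
  have h2 : 1 ≤ p ^ (2 * a) := Nat.one_le_pow _ _ hp.pos
  have h3 : 1 ≤ p ^ Nat.gcd (2 * a) (2 * b) := Nat.one_le_pow _ _ hp.pos
  have h4 : p ^ (2 * a) = p ^ Nat.gcd (2 * a) (2 * b) := by omega
  have h5 := Nat.pow_right_injective hp.two_le h4
  have h6 : 2 * a ∣ 2 * b := by
    rw [h5]
    exact Nat.gcd_dvd_right _ _
  exact Nat.dvd_of_mul_dvd_mul_left (by norm_num) h6

theorem coprime_pow_sub {p a b : ℕ} (hp : p.Prime) (ha : 0 < a) : Nat.Coprime (p ^ (2 * a) - 1) (p ^ b) := by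
  apply Nat.Coprime.pow_right
  rw [Nat.coprime_comm, hp.coprime_iff_not_dvd]
  intro h
  have h1 : p ∣ p ^ (2 * a) := dvd_pow_self p (by omega)
  have h2 : 1 ≤ p ^ (2 * a) := Nat.one_le_pow _ _ hp.pos
  have h3 : p ∣ 1 := by
    have := Nat.dvd_sub h1 h
    rwa [show p ^ (2 * a) - (p ^ (2 * a) - 1) = 1 by omega] at this
  have := Nat.le_of_dvd (by norm_num) h3
  have := hp.two_le
  omega

end Num2

include hF hodd p in
/-- `PSL₂(q₀)` is maximal in `PSL₂(q₀^r)` for an odd prime `r`. -/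
theorem coatom_subfield (h5 : 5 ≤ q) (K : Subfield F) {r : ℕ} (hr : r.Prime) (hro : Odd r) (hm : Nat.card K ^ r = q) :
    IsCoatom (pslEmbed K.subtype).range := by
  classical
  haveI : Fintype K := Fintype.ofFinite _
  set q₀ := Nat.card K with hq₀
  have h3 : 3 ≤ q₀ := three_le_card_subfield hF hodd K
  have ho : Odd q₀ := odd_card_subfield hF hodd K
  have hcard := range_card_psl K
  have e0 : 2 * Nat.card (Pe K) = q₀ * (q₀ ^ 2 - 1) := by
    have e3 : 2 * Nat.card (Pe K) = Fintype.card K * (Fintype.card K ^ 2 - 1) :=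
      card_psl2_odd rfl (by rw [← Nat.card_eq_fintype_card]; exact ho)
    rw [← Nat.card_eq_fintype_card] at e3
    exact e3
  have hq0lt : q₀ ^ 2 ≤ q := by
    rw [← hm]
    exact Nat.pow_le_pow_right (by omega) hr.two_le
  have hne : (pslEmbed K.subtype).range ≠ ⊤ := by
    intro h
    have h1 := card_top_psl hF K h
    nlinarith
  apply coatom_of_all hne
  intro H hH hle
  have hdvd : Nat.card (pslEmbed K.subtype).range ∣ Nat.card H := Subgroup.card_dvd_of_le hle
  have hdH : Nat.card (Pe K) ∣ Nat.card H := by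
    rw [← hcard]
    exact hdvd
  have hd1 : q₀ + 1 ∣ Nat.card H := (dvd_of_card q₀ _ ho e0).trans hdH
  have hcop : Nat.Coprime (q₀ + 1) q := by
    rw [← hm]
    exact Nat.Coprime.pow_right r (by simp)
  have hnd : ¬ q₀ + 1 ∣ q - 1 := by
    rw [← hm]
    exact not_dvd_sub q₀ r h3 hro
  have hq₀dvd : q₀ ∣ Nat.card (Pe K) := by
    have h1 : q₀ ∣ 2 * Nat.card (Pe K) := ⟨_, e0⟩
    have h2 : Nat.Coprime q₀ 2 := (Nat.coprime_two_left.2 ho).symm
    exact h2.dvd_of_dvd_mul_left h1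
  have hq₀H : q₀ ∣ Nat.card H := hq₀dvd.trans hdH
  have hq₀q : q₀ ∣ q := by
    rw [← hm]
    exact dvd_pow_self _ hr.ne_zero
  have hq1 : ¬ q₀ ∣ 1 := by
    intro h
    have := Nat.le_of_dvd (by norm_num) h
    omega
  have hqn : ¬ Nat.Prime q := by
    rw [← hm]
    exact Nat.Prime.not_prime_pow hr.two_le
  rw [← hF] at h5
  rcases main_odd p (by rw [hF]; exact hodd) h5 H hH with h | ⟨-, k, hk, ⟨e⟩⟩ | ⟨-, -, k, hk, ⟨e⟩⟩ | ⟨F₁, i1, i2, hq1', ⟨e⟩⟩ | ⟨F₁, i1, i2, r₁, hr₁, hro₁, hq1', ⟨e⟩⟩ | ⟨h10, -, ⟨e⟩⟩ | ⟨hqp, h8, -, ⟨e⟩⟩ | ⟨hqp, h8, ⟨e⟩⟩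
  · exfalso
    rw [hF] at h
    have h1 : q₀ + 1 ∣ q * (q - 1) := by
      rw [← h]
      exact hd1.mul_left 2
    exact hnd (hcop.dvd_of_dvd_mul_left h1)
  · exfalso
    rw [hF] at h5 hk
    haveI : NeZero k := ⟨by omega⟩
    rw [Nat.card_congr e.toEquiv, DihedralGroup.nat_card, hk] at hq₀H
    apply hq1
    have := Nat.dvd_sub hq₀q hq₀H
    rwa [show q - (q - 1) = 1 by omega] at this
  · exfalso
    rw [hF] at h5 hk
    haveI : NeZero k := ⟨by omega⟩
    rw [Nat.card_congr e.toEquiv, DihedralGroup.nat_card, hk] at hq₀H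
    apply hq1
    have := Nat.dvd_sub hq₀H hq₀q
    rwa [Nat.add_sub_cancel_left] at this
  · exfalso
    rw [hF] at hq1'
    rw [Nat.card_congr e.toEquiv, card_pgl_eq, Nat.card_eq_fintype_card, ← hq1'] at hd1
    have hc2 : Nat.Coprime (q₀ + 1) (Fintype.card F₁) :=
      Nat.Coprime.coprime_dvd_right (by rw [hq1']; exact Dvd.intro_left _ (pow_two _).symm) hcop
    exact hnd (hc2.dvd_of_dvd_mul_left hd1)
  · rw [hF] at hq1'
    set q₁ := Fintype.card F₁ with hq₁
    have hq₁2 : 2 ≤ q₁ := Fintype.one_lt_card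
    have hodd₁ : Odd q₁ := by
      rw [hq1'] at hodd
      exact (Nat.odd_pow_iff hr₁.ne_zero).1 hodd
    have e2 : 2 * Nat.card (Pe F₁) = q₁ * (q₁ ^ 2 - 1) := card_psl2_odd rfl hodd₁
    have ec : Nat.card H = Nat.card (Pe F₁) := Nat.card_congr e.toEquiv
    obtain ⟨n, -, hn⟩ := FiniteField.card F p
    rw [hF] at hn
    obtain ⟨a, -, ha⟩ := (Nat.dvd_prime_pow hp.out).1 (hn ▸ hq₀q)
    have hq₁q : q₁ ∣ q := by
      rw [hq1']
      exact dvd_pow_self _ hr₁.ne_zero
    obtain ⟨b, -, hb⟩ := (Nat.dvd_prime_pow hp.out).1 (hn ▸ hq₁q)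
    have ha0 : 0 < a := by
      rcases Nat.eq_zero_or_pos a with h | h
      · rw [h, pow_zero] at ha
        omega
      · exact h
    have hb0 : 0 < b := by
      rcases Nat.eq_zero_or_pos b with h | h
      · rw [h, pow_zero] at hb
        omega
      · exact h
    have hd2 : q₀ ^ 2 - 1 ∣ q₁ * (q₁ ^ 2 - 1) := by
      rw [← e2, ← ec]
      have : q₀ ^ 2 - 1 ∣ 2 * Nat.card (Pe K) := by
        rw [e0]
        exact Dvd.intro_left _ rfl
      exact this.trans (Nat.mul_dvd_mul_left 2 hdH)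
    have hab : a ∣ b := by
      rw [ha, hb, ← pow_mul, ← pow_mul, mul_comm a 2, mul_comm b 2] at hd2
      have hc3 : Nat.Coprime (p ^ (2 * a) - 1) (p ^ b) := coprime_pow_sub hp.out ha0
      exact exp_dvd hp.out ha0 (hc3.dvd_of_dvd_mul_left hd2)
    obtain ⟨c, rfl⟩ := hab
    have e5 : p ^ (a * r) = p ^ (a * c * r₁) := by
      rw [pow_mul, ← ha, hm, hq1', hb, ← pow_mul]
    have e6 := Nat.pow_right_injective hp.out.two_le e5
    have e7 : r = c * r₁ := by
      apply Nat.eq_of_mul_eq_mul_left ha0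
      rw [e6]
      ring
    have hc1 : c = 1 := by
      rcases (Nat.dvd_prime hr).1 (Dvd.intro _ e7.symm) with h | h
      · exact h
      · exfalso
        rw [h] at e7
        have : r₁ = 1 := by
          apply Nat.eq_of_mul_eq_mul_left hr.pos
          rw [← e7, mul_one]
        exact hr₁.ne_one this
    subst hc1
    rw [mul_one] at hb
    have hq01 : q₀ = q₁ := by rw [ha, hb]
    apply Subgroup.eq_of_le_of_card_ge hle
    rw [hcard, ec]
    rw [← hq01] at e2
    have : 2 * Nat.card (Pe F₁) = 2 * Nat.card (Pe K) := e2.trans e0.symm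
    exact le_of_eq (Nat.eq_of_mul_eq_mul_left (by norm_num) this)
  · rw [hF] at h10
    have ec : Nat.card H = 60 := by rw [Nat.card_congr e.toEquiv, card_alt_five]
    rw [ec] at hdH
    have h1 : Nat.card (Pe K) ≤ 60 := Nat.le_of_dvd (by norm_num) hdH
    have h2 : q₀ * (q₀ ^ 2 - 1) ≤ 120 := by rw [← e0]; omega
    have h6 : q₀ ≤ 5 := by
      by_contra h4
      have h7 : 6 ≤ q₀ := by omega
      have h8 : 35 ≤ q₀ ^ 2 - 1 := by
        have : 36 ≤ q₀ ^ 2 := by nlinarith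
        omega
      have : 6 * 35 ≤ q₀ * (q₀ ^ 2 - 1) := Nat.mul_le_mul h7 h8
      omega
    obtain ⟨j, hj⟩ := ho
    have h9 : q₀ = 3 ∨ q₀ = 5 := by omega
    rcases h9 with h9 | h9
    · exfalso
      rw [h9] at hm
      have := three_pow_odd_mod r hro
      rw [hm] at this
      omega
    · apply Subgroup.eq_of_le_of_card_ge hle
      rw [hcard, ec]
      rw [h9] at e0
      have : Nat.card (Pe K) = 60 := Nat.eq_of_mul_eq_mul_left (by norm_num : 0 < 2) (e0.trans (by norm_num))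
      rw [this]
  · exfalso
    rw [hF] at hqp
    apply hqn
    rw [hqp]
    exact hp.out
  · exfalso
    rw [hF] at hqp
    apply hqn
    rw [hqp]
    exact hp.out

set_option maxRecDepth 100000 in
theorem a4_noncomm : ∃ x y : alternatingGroup (Fin 4), x ^ 3 = 1 ∧ y ^ 3 = 1 ∧ x ≠ 1 ∧ y ≠ 1 ∧ x * y ≠ y * x := by
  decide +kernel

omit [Fintype F] in
theorem dih_three {k : ℕ} (x : DihedralGroup k) (h : x ^ 3 = 1) (h1 : x ≠ 1) : ∃ i, x = DihedralGroup.r i := by
  rcases x with i | i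
  · exact ⟨i, rfl⟩
  · exfalso
    apply h1
    have e : (DihedralGroup.sr i : DihedralGroup k) ^ 3 = DihedralGroup.sr i := by
      rw [pow_succ, pow_two, DihedralGroup.sr_mul_self, one_mul]
    rw [← e]
    exact h

include hF hodd p in
/-- `A₄` is maximal when it is not in a larger known subgroup. -/
theorem coatom_A4 {N : Subgroup (Pe F)} (h5 : 5 ≤ q) (e : N ≃* alternatingGroup (Fin 4)) (hne : N ≠ ⊤) (hqp : q = p)
    (h8 : q % 8 = 3 ∨ q % 8 = 5) (h40 : q % 40 ∉ ({11, 19, 21, 29} : Finset ℕ)) : IsCoatom N := by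
  classical
  have hcN : Nat.card N = 12 := by rw [Nat.card_congr e.toEquiv, card_alt_four]
  have hqn : Nat.Prime q := by
    rw [hqp]
    exact hp.out
  apply coatom_of_all hne
  intro H hH hle
  have hdvd : Nat.card N ∣ Nat.card H := Subgroup.card_dvd_of_le hle
  rw [hcN] at hdvd
  rw [← hF] at h5
  have hdih : ∀ k : ℕ, (H ≃* DihedralGroup k) → False := by
    intro k e₂
    obtain ⟨x, y, hx, hy, hx1, hy1, hxy⟩ := a4_noncomm
    let f : alternatingGroup (Fin 4) →* DihedralGroup k :=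
      e₂.toMonoidHom.comp ((Subgroup.inclusion hle).comp e.symm.toMonoidHom)
    have hf : Function.Injective f :=
      e₂.injective.comp ((Subgroup.inclusion_injective hle).comp e.symm.injective)
    obtain ⟨i, hi⟩ := dih_three (f x) (by rw [← map_pow, hx, map_one]) (fun h => hx1 (hf (by rw [h, map_one])))
    obtain ⟨j, hj⟩ := dih_three (f y) (by rw [← map_pow, hy, map_one]) (fun h => hy1 (hf (by rw [h, map_one])))
    apply hxy
    apply hf
    rw [map_mul, map_mul, hi, hj, DihedralGroup.r_mul_r, DihedralGroup.r_mul_r, add_comm]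
  rcases main_odd p (by rw [hF]; exact hodd) h5 H hH with h | ⟨-, k, hk, ⟨e₂⟩⟩ | ⟨-, -, k, hk, ⟨e₂⟩⟩ | ⟨F₁, i1, i2, hq1', ⟨e₂⟩⟩ | ⟨F₁, i1, i2, r₁, hr₁, hro₁, hq1', ⟨e₂⟩⟩ | ⟨h10, -, ⟨e₂⟩⟩ | ⟨hqp', h8', -, ⟨e₂⟩⟩ | ⟨hqp', h8', ⟨e₂⟩⟩
  · exfalso
    rw [hF] at h
    have h1 : 8 ∣ q * (q - 1) := by
      rw [← h]
      obtain ⟨c, hc⟩ := hdvd
      rw [hc]
      exact ⟨3 * c, by ring⟩
    have h2 : (q * (q - 1)) % 8 = 0 := Nat.mod_eq_zero_of_dvd h1
    rw [Nat.mul_mod] at h2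
    rcases h8 with h3 | h3
    · rw [h3, show (q - 1) % 8 = 2 by omega] at h2
      omega
    · rw [h3, show (q - 1) % 8 = 4 by omega] at h2
      omega
  · exact (hdih k e₂).elim
  · exact (hdih k e₂).elim
  · exfalso
    rw [hF] at hq1'
    rw [hq1'] at hqn
    exact Nat.Prime.not_prime_pow le_rfl hqn
  · exfalso
    rw [hF] at hq1'
    rw [hq1'] at hqn
    exact Nat.Prime.not_prime_pow hr₁.two_le hqn
  · exfalso
    rw [hF] at h10
    apply h40
    simp only [Finset.mem_insert, Finset.mem_singleton]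
    omega
  · apply Subgroup.eq_of_le_of_card_ge hle
    rw [hcN, Nat.card_congr e₂.toEquiv, card_alt_four]
  · exfalso
    rw [← hqp', hF] at h8'
    omega

include hF hodd p in
/-- Dihedral maximal subgroups. -/
theorem coatom_dih {N : Subgroup (Pe F)} (h5 : 5 ≤ q) (h7 : q ≠ 7) (h9 : q ≠ 9) (h11 : q ≠ 11) {c : ℕ} (hc3 : 3 ≤ c)
    (hcN : 2 * c = q - 1 ∨ 2 * c = q + 1) (ρ : N) (hρ : orderOf ρ = c) (e : N ≃* DihedralGroup c) (hne : N ≠ ⊤) :
    IsCoatom N := by
  classical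
  haveI : NeZero c := ⟨by omega⟩
  have heo : orderOf (e ρ) = c := by rw [MulEquiv.orderOf_eq, hρ]
  obtain ⟨i, hi⟩ : ∃ i, e ρ = DihedralGroup.r i := by
    rcases h : e ρ with i | i
    · exact ⟨i, rfl⟩
    · rw [h, DihedralGroup.orderOf_sr] at heo
      omega
  let σ : N := e.symm (DihedralGroup.sr 0)
  have hσ1 : σ * σ = 1 := by
    apply e.injective
    rw [map_mul, map_one]
    simp only [σ, MulEquiv.apply_symm_apply]
    simp [DihedralGroup.sr_mul_sr]
  have hσ2 : σ * ρ * σ⁻¹ = ρ⁻¹ := by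
    apply e.injective
    rw [map_mul, map_mul, map_inv, map_inv, hi]
    simp only [σ, MulEquiv.apply_symm_apply]
    simp [DihedralGroup.sr_mul_r, DihedralGroup.inv_r, DihedralGroup.inv_sr, DihedralGroup.sr_mul_sr]
  have hG : 2 * Nat.card (Pe F) = q * (q ^ 2 - 1) := card_psl2_odd hF hodd
  have hdq : p ∣ q := by
    obtain ⟨n, -, hn⟩ := FiniteField.card F p
    rw [hF] at hn
    rw [hn]
    exact dvd_pow_self _ n.ne_zero
  have hp1 : ¬ p ∣ 1 := by
    intro h
    have := Nat.le_of_dvd (by norm_num) h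
    have := hp.out.two_le
    omega
  refine dih_coatom hF p (ρ : Pe F) (σ : Pe F) c (by rw [Subgroup.orderOf_coe, hρ]) hc3
    (congrArg Subtype.val hσ1) (congrArg Subtype.val hσ2) N ρ.2 σ.2
    (by rw [Nat.card_congr e.toEquiv, DihedralGroup.nat_card]) ?_ hne ?_ ?_ ?_ ?_
  · intro hpc
    have h2 : p ∣ 2 * c := hpc.mul_left 2
    apply hp1
    rcases hcN with h | h
    · rw [h] at h2
      have := Nat.dvd_sub hdq h2
      rwa [show q - (q - 1) = 1 by omega] at this
    · rw [h] at h2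
      have := Nat.dvd_sub h2 hdq
      rwa [Nat.add_sub_cancel_left] at this
  · rw [gcd_two_odd (Nat.odd_iff.1 hodd)]
    omega
  · rintro (h | h) hd
    · rw [h] at hcN
      have hq5 : q = 5 := by omega
      subst hq5
      have : Nat.card (Pe F) = 60 := Nat.eq_of_mul_eq_mul_left (by norm_num : 0 < 2) (hG.trans (by norm_num))
      rw [this] at hd
      omega
    · rw [h] at hcN
      omega
  · rintro (h | h) hd
    · rw [h] at hcN
      have hq5 : q = 5 := by omega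
      subst hq5
      exact Nat.eq_of_mul_eq_mul_left (by norm_num : 0 < 2) (hG.trans (by norm_num))
    · rw [h] at hcN
      omega
  · intro r m hrm hm2 hr2 hkr h4k
    have hodd' : Odd r := by
      rw [← hrm] at hodd
      exact (Nat.odd_pow_iff (by omega)).1 hodd
    have hq2 : r ^ 2 ≤ q := by
      rw [← hrm]
      exact Nat.pow_le_pow_right (by omega) hm2
    have hr3 : r ≤ 3 := by
      by_contra h
      have h4 : 4 ≤ r := by omega
      have : r * r ≤ q := by rwa [pow_two] at hq2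
      have h6 : q ≤ 2 * c + 1 := by omega
      nlinarith
    obtain ⟨j, hj⟩ := hodd'
    have hr : r = 3 := by omega
    subst hr
    have h6 : q ≤ 2 * c + 1 := by omega
    have h10 : q ≤ 9 := by omega
    have h11' : m < 3 := by
      by_contra h
      have h12 : 3 ^ 3 ≤ 3 ^ m := Nat.pow_le_pow_right (by norm_num) (by omega)
      omega
    have hm : m = 2 := by omega
    subst hm
    norm_num at hrm
    omega

/-- The main theorem: odd case. -/
theorem coatom_NN_odd {M : Subgroup (Pg F)} (hq : Fintype.card F = q) (hodd : Odd q) (h5 : 5 ≤ q) (h7 : q ≠ 7) (h9 : q ≠ 9) (h11 : q ≠ 11)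
    (h40 : q.Prime → q % 40 ∉ ({11, 19, 21, 29} : Finset ℕ)) (hM : IsCoatom M) (hML : ¬ LL F ≤ M) : IsCoatom (NN M) := by
  classical
  obtain ⟨p, hcp⟩ := CharP.exists F
  haveI : Fact p.Prime := ⟨CharP.char_is_prime F p⟩
  have hodd2 : Fintype.card F % 2 = 1 := by
    rw [hq]
    exact Nat.odd_iff.1 hodd
  obtain ⟨S⟩ := QSplit.nonempty_of_odd hodd2
  have hF := hq
  have hne : NN M ≠ ⊤ := by
    intro h
    apply hML
    rintro _ ⟨A, rfl⟩
    have h1 : mkP A ∈ NN M := by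
      rw [h]
      trivial
    exact h1
  have hsub : ∀ (P : GL (Fin 2) F) (K : Subfield F), (∃ m : ℕ, m.Prime ∧ Odd m ∧ Nat.card K ^ m = q) →
      conjSub P (NN M) = (pslEmbed K.subtype).range → IsCoatom (NN M) := by
    rintro P K ⟨m, hmp, hmo, hm⟩ h
    apply coatom_of_conjSub P
    rw [h]
    exact coatom_subfield hF hodd p h5 K hmp hmo hm
  rcases dickson_master p (NN M) with ⟨h1, h2⟩ | ⟨⟨c, ρ, hc, hρ, hρp, ⟨e⟩⟩, -⟩ | ⟨⟨e⟩, -⟩ | ⟨⟨e⟩, -⟩ | ⟨⟨e⟩, -⟩ | ⟨P, hg, hP⟩ | ⟨K₀, P, hK⟩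
  · exact (case_cycG hF hodd p h5 hM hML h1 h2).elim
  · rcases (by omega : c = 2 ∨ 3 ≤ c) with rfl | hc3
    · exact (case_D2 hF hodd S h5 hM hML e).elim
    · obtain ⟨N, hN, h2c, -⟩ := case_dihG hF hodd p h5 hM hML hc3 ρ hρ hρp e
      exact coatom_dih hF hodd p h5 h7 h9 h11 hc3 (by rcases hN with h | h <;> omega) ρ hρ e hne
  · rcases case_A4G hF hodd p h5 hM hML e with ⟨P, K, h1, h2⟩ | ⟨h1, h2, -⟩
    · obtain ⟨heq, hm⟩ := pgl_exp hF hodd p hM hML P K h1 h2
      exact hsub P K hm (conj_psl_of_pgl hF hodd hM hML P K heq)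
    · exact coatom_A4 hF hodd p h5 e hne h1 h2 (h40 (by rw [h1]; exact ‹Fact p.Prime›.out))
  · exact (case_S4G hF hodd S h5 hM hML e).elim
  · obtain ⟨K, P, hK⟩ := case_A5G hF hodd p h5 hM hML e
    obtain ⟨h1, -, -, hm, -⟩ := case_sub hF hodd p hM hML P K (Or.inl hK)
    exact hsub P K hm h1
  · obtain ⟨h1, -⟩ := case_borel hF hodd p hM hML P hg hP
    apply coatom_of_conjSub P
    rw [← NN_conjG, h1, NN_BG]
    exact coatom_Bo hF hodd h5
  · obtain ⟨h1, -, -, hm, -⟩ := case_sub hF hodd p hM hML P K₀ hK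
    exact hsub P K₀ hm h1

/-- Maximal subgroups of `PGL₂(q)` meet `PSL₂(q)` in maximal subgroups. -/
theorem main_meet (F : Type*) [Field F] [Fintype F] (h4 : 4 ≤ Fintype.card F) (h7 : Fintype.card F ≠ 7) (h9 : Fintype.card F ≠ 9)
    (h11 : Fintype.card F ≠ 11)
    (h40 : (Fintype.card F).Prime → Fintype.card F % 40 ∉ ({11, 19, 21, 29} : Finset ℕ))
    (M : Subgroup (Matrix.ProjGenLinGroup (Fin 2) F)) (hM : IsCoatom M)
    (hML : ¬ (Matrix.ProjGenLinGroup.mk.comp Matrix.SpecialLinearGroup.toGL).range ≤ M) :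
    IsCoatom ((M ⊓ (Matrix.ProjGenLinGroup.mk.comp Matrix.SpecialLinearGroup.toGL).range).subgroupOf
      (Matrix.ProjGenLinGroup.mk.comp Matrix.SpecialLinearGroup.toGL).range) := by
  apply transfer
  rcases Nat.even_or_odd (Fintype.card F) with h | h
  · exact coatom_even h hM
  · have h5 : 5 ≤ Fintype.card F := by
      obtain ⟨k, hk⟩ := h
      omega
    exact coatom_NN_odd rfl h h5 h7 h9 h11 h40 hM hML

end Cfsg.Agent.Lib.LocalEven.PglMax6
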