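import Cfsg.Agent.Lib.LocalEven.QdOver
import Cfsg.Agent.Lib.LocalEven.NatMod

/-! Characteristic subgroups of the Sylow `p`-subgroup of `Qd(F)`. -/

set_option autoImplicit false
set_option linter.unusedSectionVars false

namespace Cfsg.Agent.Lib.LocalEven.QdChar

open Cfsg Cfsg.Agent.Lib.Known Cfsg.Agent.Lib.LocalEven.QdOver Cfsg.Agent.Lib.LocalEven.NatMod
open scoped Pointwise

variable {F : Type*} [Field F]

/-- The standard Sylow subgroup. -/
noncomputable def sS (F : Type*) [Field F] : Subgroup (Cfsg.qdOver F) := (nU F).comap qoBlock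

theorem mem_sS_iff {A : SL2 F} {u : Fin 2 → F} : qoEl A u ∈ sS F ↔ A ∈ nU F := by
  rw [sS, Subgroup.mem_comap, qoBlock_el]

/-- Coordinates. -/
def ee (a x y : F) : Cfsg.qdOver F := qoEl (sl2U a) ![x, y]

theorem ee_mul (a x y a' x' y' : F) : ee a x y * ee a' x' y' = ee (a + a') (x + x' + a * y') (y + y') := by
  rw [ee, ee, qoEl_mul, sl2U_add, sl2U_mulVec]
  congr 1
  funext i
  fin_cases i <;> simp <;> ring

theorem ee_mem (a x y : F) : ee a x y ∈ sS F := mem_sS_iff.2 ⟨a, rfl⟩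

theorem exists_ee {M : Cfsg.qdOver F} (hM : M ∈ sS F) : ∃ a x y, M = ee a x y := by
  obtain ⟨A, u, rfl⟩ := qoEl_surj M
  obtain ⟨a, rfl⟩ := mem_sS_iff.1 hM
  refine ⟨a, u 0, u 1, ?_⟩
  rw [ee]
  congr 1
  funext i
  fin_cases i <;> rfl

theorem ee_c0 (a x y : F) : (ee a x y).1.1 0 1 = a := rfl
theorem ee_c1 (a x y : F) : (ee a x y).1.1 0 2 = x := rfl
theorem ee_c2 (a x y : F) : (ee a x y).1.1 1 2 = y := rfl

/-- the graph automorphism on elements -/
noncomputable def sgF (M : sS F) : sS F :=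
  ⟨ee (M.1.1.1 1 2) (M.1.1.1 0 1 * M.1.1.1 1 2 - M.1.1.1 0 2) (M.1.1.1 0 1), ee_mem _ _ _⟩

theorem sgF_ee (a x y : F) : sgF ⟨ee a x y, ee_mem a x y⟩ = ⟨ee y (a * y - x) a, ee_mem _ _ _⟩ := rfl

theorem sgF_sgF (M : sS F) : sgF (sgF M) = M := by
  obtain ⟨M, hM⟩ := M
  obtain ⟨a, x, y, rfl⟩ := exists_ee hM
  rw [sgF_ee, sgF_ee]
  apply Subtype.ext
  show ee a (y * a - (a * y - x)) y = ee a x y
  congr 1
  ring

/-- the graph automorphism -/
noncomputable def sg : sS F ≃* sS F where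
  toFun := sgF
  invFun := sgF
  left_inv := sgF_sgF
  right_inv := sgF_sgF
  map_mul' M N := by
    obtain ⟨M, hM⟩ := M
    obtain ⟨N, hN⟩ := N
    obtain ⟨a, x, y, rfl⟩ := exists_ee hM
    obtain ⟨a', x', y', rfl⟩ := exists_ee hN
    have h1 : (⟨ee a x y, hM⟩ : sS F) * ⟨ee a' x' y', hN⟩ = ⟨ee (a + a') (x + x' + a * y') (y + y'), ee_mem _ _ _⟩ :=
      Subtype.ext (ee_mul _ _ _ _ _ _)
    rw [h1, sgF_ee, sgF_ee, sgF_ee]
    apply Subtype.ext
    show ee (y + y') ((a + a') * (y + y') - (x + x' + a * y')) (a + a') =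
      ee y (a * y - x) a * ee y' (a' * y' - x') a'
    rw [ee_mul]
    congr 1
    ring

theorem sg_ee (a x y : F) : sg (⟨ee a x y, ee_mem a x y⟩ : sS F) = ⟨ee y (a * y - x) a, ee_mem _ _ _⟩ := rfl

theorem nU_isPGroup {p : ℕ} [Fact p.Prime] [CharP F p] : IsPGroup p (nU F) := by
  rintro ⟨x, b, rfl⟩
  refine ⟨1, ?_⟩
  apply Subtype.ext
  show sl2U b ^ p ^ 1 = 1
  rw [pow_one, sl2U_pow, CharP.cast_eq_zero F p, zero_mul, sl2U_zero]

theorem sS_isPGroup [Finite F] {p : ℕ} [Fact p.Prime] [CharP F p] : IsPGroup p (sS F) := by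
  apply IsPGroup.comap_of_ker_isPGroup (nU_isPGroup (p := p))
  rw [← pCore_qo (p := p)]
  exact Cfsg.Agent.Lib.Basic.pCore_isPGroup p

theorem sl2U_ne_one' {a : F} (ha : a ≠ 0) : sl2U a ≠ 1 := sl2U_ne_one ha

theorem weyl_conj (x y : F) : qoB (sl2W : SL2 F) * ee 0 x y * (qoB (sl2W : SL2 F))⁻¹ = ee 0 y (-x) := by
  have h0 : (sl2U (0 : F)) = 1 := sl2U_zero
  rw [ee, ee, h0, qoB_apply, qoEl_conj]
  congr 1
  funext i
  fin_cases i <;> simp [Matrix.mulVec, dotProduct, Fin.sum_univ_two, sl2W]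

/-- A characteristic subgroup of the standard Sylow subgroup is not normal. -/
theorem not_normal [Finite F] {p : ℕ} [Fact p.Prime] [CharP F p] (T₀ : Subgroup (Cfsg.qdOver F)) (hle : T₀ ≤ sS F)
    (hne : T₀ ≠ ⊥) (hchar : ∀ f : sS F ≃* sS F, ∀ x (hx : x ∈ T₀), ((f ⟨x, hle hx⟩ : sS F) : Cfsg.qdOver F) ∈ T₀) :
    ¬ T₀.Normal := by
  intro hn
  have hTp : IsPGroup p T₀ := (sS_isPGroup (p := p)).to_le hle
  have hB : T₀.map (qoBlock : Cfsg.qdOver F →* SL2 F) = ⊥ :=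
    sl2_normal_p_trivial (p := p) _ (hn.map _ qoBlock_surj) (hTp.map _)
  have hker : ∀ t ∈ T₀, qoBlock t = 1 := by
    intro t ht
    have : qoBlock t ∈ T₀.map (qoBlock : Cfsg.qdOver F →* SL2 F) := ⟨t, ht, rfl⟩
    rwa [hB, Subgroup.mem_bot] at this
  have hno : ∀ x y : F, y ≠ 0 → ee 0 x y ∉ T₀ := by
    intro x y hy ht
    have h1 : ee y (0 * y - x) 0 ∈ T₀ := hchar sg _ ht
    have h2 := hker _ h1
    have h3 : qoBlock (ee y (0 * y - x) 0) = sl2U y := qoBlock_el _ _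
    rw [h3] at h2
    exact sl2U_ne_one hy h2
  obtain ⟨⟨t, ht⟩, ht1⟩ := Subgroup.ne_bot_iff_exists_ne_one.1 hne
  have ht1' : t ≠ 1 := fun e => ht1 (Subtype.ext e)
  obtain ⟨a, x, y, rfl⟩ := exists_ee (hle ht)
  have ha : a = 0 := by
    have h2 := hker _ ht
    rw [ee, qoBlock_el] at h2
    by_contra h
    exact sl2U_ne_one h h2
  subst ha
  by_cases hy : y = 0
  · subst hy
    have hx : x ≠ 0 := by
      rintro rfl
      apply ht1'
      rw [← qoEl_one, ee]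
      congr 1
      · exact sl2U_zero
      · funext i
        fin_cases i <;> rfl
    have h3 := hn.conj_mem _ ht (qoB (sl2W : SL2 F))
    rw [weyl_conj] at h3
    exact hno _ _ (neg_ne_zero.2 hx) h3
  · exact hno _ _ hy ht

theorem upper_mem_norm (A : SL2 F) (u : Fin 2 → F) (hA : A.1 1 0 = 0) :
    qoEl A u ∈ Subgroup.normalizer ((sS F : Subgroup (Cfsg.qdOver F)) : Set (Cfsg.qdOver F)) := by
  rw [Subgroup.mem_normalizer_iff]
  intro h
  have key : ∀ (B : SL2 F), B.1 1 0 = 0 → ∀ h' ∈ nU F, B * h' * B⁻¹ ∈ nU F := by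
    rintro B hB _ ⟨a, rfl⟩
    rw [upper_conj B hB]
    exact ⟨_, rfl⟩
  have hblock : qoBlock (qoEl A u * h * (qoEl A u)⁻¹) = A * qoBlock h * A⁻¹ := by
    rw [map_mul, map_mul, map_inv, qoBlock_el]
  show qoBlock h ∈ nU F ↔ qoBlock (qoEl A u * h * (qoEl A u)⁻¹) ∈ nU F
  rw [hblock]
  constructor
  · exact key A hA _
  · intro h1
    have h2 := key A⁻¹ (inv_10 A hA) _ h1
    have h3 : A⁻¹ * (A * qoBlock h * A⁻¹) * A⁻¹⁻¹ = qoBlock h := by
      simp [mul_assoc]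
    rwa [h3] at h2

/-- Two elements with the same first column and lower right entry are equal. -/
theorem sl2_eq_of_entries (A B : SL2 F) (h00 : A.1 0 0 = B.1 0 0) (h10 : A.1 1 0 = B.1 1 0) (h11 : A.1 1 1 = B.1 1 1)
    (hc : A.1 1 0 ≠ 0) : A = B := by
  have h1 := A.2
  have h2 := B.2
  rw [Matrix.det_fin_two] at h1 h2
  rw [← h00, ← h10, ← h11] at h2
  have h3 : A.1 0 1 = B.1 0 1 := by
    have : (A.1 0 1 - B.1 0 1) * A.1 1 0 = 0 := by linear_combination h2 - h1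
    rcases mul_eq_zero.1 this with h | h
    · exact sub_eq_zero.1 h
    · exact absurd h hc
  apply sl2_ext <;> assumption

/-- Bruhat: a subgroup containing the upper triangular elements and one other element is everything. -/
theorem bruhat (H : Subgroup (Cfsg.qdOver F)) (hB : ∀ (A : SL2 F) (u : Fin 2 → F), A.1 1 0 = 0 → qoEl A u ∈ H)
    (A : SL2 F) (u : Fin 2 → F) (hA : A.1 1 0 ≠ 0) (hg : qoEl A u ∈ H) : H = ⊤ := by
  rw [eq_top_iff]
  intro M _
  obtain ⟨A', u', rfl⟩ := qoEl_surj M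
  by_cases hA' : A'.1 1 0 = 0
  · exact hB _ _ hA'
  have h1 : qoEl A' u' = qoEl 1 u' * qoB A' := by
    rw [qoB_apply, qoEl_mul, one_mul]
    simp
  rw [h1]
  refine H.mul_mem (hB _ _ (by simp)) ?_
  have hqA : qoB A ∈ H := by
    have h2 : qoB A = qoEl 1 (-u) * qoEl A u := by
      rw [qoB_apply, qoEl_mul, one_mul]
      simp
    rw [h2]
    exact H.mul_mem (hB _ _ (by simp)) hg
  -- the Bruhat decomposition
  set a := A.1 0 0
  set c := A.1 1 0
  set d := A.1 1 1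
  set a' := A'.1 0 0
  set c' := A'.1 1 0
  set d' := A'.1 1 1
  have hct : c / c' ≠ 0 := div_ne_zero hA hA'
  let t := c / c'
  let x := (a' - t * a) / c
  let y := (d' - t⁻¹ * d) / c'
  let b₁ : SL2 F := sl2Mk t x 0 t⁻¹ (by simp [t, hct]; field_simp)
  let b₂ : SL2 F := sl2U y
  have hdec : A' = b₁ * A * b₂ := by
    have hc'' : (b₁ * A * b₂).1 1 0 = c' := by
      simp only [sl2_mul_apply, b₁, b₂, sl2Mk_00, sl2Mk_01, sl2Mk_10, sl2Mk_11, sl2U_00, sl2U_01, sl2U_10, sl2U_11]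
      show (0 * a + t⁻¹ * c) * 1 + (0 * A.1 0 1 + t⁻¹ * d) * 0 = c'
      simp only [t]
      field_simp
      simp
    apply sl2_eq_of_entries _ _ _ hc''.symm _ hA'
    · simp only [sl2_mul_apply, b₁, b₂, sl2Mk_00, sl2Mk_01, sl2Mk_10, sl2Mk_11, sl2U_00, sl2U_01, sl2U_10, sl2U_11]
      show a' = (t * a + x * c) * 1 + (t * A.1 0 1 + x * d) * 0
      simp only [x]
      field_simp
      ring
    · simp only [sl2_mul_apply, b₁, b₂, sl2Mk_00, sl2Mk_01, sl2Mk_10, sl2Mk_11, sl2U_00, sl2U_01, sl2U_10, sl2U_11]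
      show d' = (0 * a + t⁻¹ * c) * y + (0 * A.1 0 1 + t⁻¹ * d) * 1
      have ht1 : t⁻¹ * c = c' := by
        simp only [t]
        field_simp
      simp only [zero_mul, zero_add, ht1, mul_one, y]
      field_simp
      ring
  rw [hdec, map_mul, map_mul]
  refine H.mul_mem (H.mul_mem ?_ hqA) ?_
  · rw [qoB_apply]
    exact hB _ _ rfl
  · rw [qoB_apply]
    exact hB _ _ rfl

/-- Under conjugation by normalizing elements, a characteristic subgroup is preserved. -/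
theorem char_conj (T₀ : Subgroup (Cfsg.qdOver F)) (hle : T₀ ≤ sS F)
    (hchar : ∀ f : sS F ≃* sS F, ∀ x (hx : x ∈ T₀), ((f ⟨x, hle hx⟩ : sS F) : Cfsg.qdOver F) ∈ T₀)
    (g : Cfsg.qdOver F) (hg : g ∈ Subgroup.normalizer ((sS F : Subgroup (Cfsg.qdOver F)) : Set (Cfsg.qdOver F))) :
    ∀ x ∈ T₀, g * x * g⁻¹ ∈ T₀ := by
  intro x hx
  let h' := (Subgroup.normalizerMonoidHom (sS F)) ⟨g, hg⟩
  have := hchar h' x hx
  exact this

theorem norm_eq [Finite F] {p : ℕ} [Fact p.Prime] [CharP F p] (T₀ : Subgroup (Cfsg.qdOver F)) (hle : T₀ ≤ sS F)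
    (hne : T₀ ≠ ⊥) (hchar : ∀ f : sS F ≃* sS F, ∀ x (hx : x ∈ T₀), ((f ⟨x, hle hx⟩ : sS F) : Cfsg.qdOver F) ∈ T₀) :
    Subgroup.normalizer (T₀ : Set (Cfsg.qdOver F)) = Subgroup.normalizer ((sS F : Subgroup (Cfsg.qdOver F)) : Set (Cfsg.qdOver F)) := by
  have hsub : Subgroup.normalizer ((sS F : Subgroup (Cfsg.qdOver F)) : Set (Cfsg.qdOver F)) ≤ Subgroup.normalizer (T₀ : Set (Cfsg.qdOver F)) := by
    intro g hg
    rw [Subgroup.mem_normalizer_iff]
    intro x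
    constructor
    · exact char_conj T₀ hle hchar g hg x
    · intro h
      have := char_conj T₀ hle hchar g⁻¹ (Subgroup.inv_mem _ hg) _ h
      simpa [mul_assoc] using this
  apply le_antisymm _ hsub
  intro g hg
  by_contra hgn
  obtain ⟨A, u, rfl⟩ := qoEl_surj g
  have hA : A.1 1 0 ≠ 0 := fun h => hgn (upper_mem_norm A u h)
  have htop := bruhat _ (fun B w hB => hsub (upper_mem_norm B w hB)) A u hA hg
  apply not_normal (p := p) T₀ hle hne hchar
  exact Subgroup.normalizer_eq_top_iff.1 htop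

theorem norm_ne_top [Finite F] {p : ℕ} [Fact p.Prime] [CharP F p] :
    Subgroup.normalizer ((sS F : Subgroup (Cfsg.qdOver F)) : Set (Cfsg.qdOver F)) ≠ ⊤ := by
  intro h
  have hn : (sS F).Normal := Subgroup.normalizer_eq_top_iff.1 h
  have hB : (sS F).map (qoBlock : Cfsg.qdOver F →* SL2 F) = ⊥ :=
    sl2_normal_p_trivial (p := p) _ (hn.map _ qoBlock_surj) ((sS_isPGroup (p := p)).map _)
  have h1 : qoBlock (ee (1 : F) 0 0) ∈ (sS F).map (qoBlock : Cfsg.qdOver F →* SL2 F) := ⟨_, ee_mem _ _ _, rfl⟩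
  rw [hB, Subgroup.mem_bot, ee, qoBlock_el] at h1
  exact sl2U_ne_one one_ne_zero h1

theorem index_sS_not_dvd [Fintype F] {p : ℕ} [Fact p.Prime] [CharP F p] : ¬ p ∣ (sS F).index := by
  classical
  have hpp : p.Prime := Fact.out
  have h1 : (sS F).index = (nU F).index := Subgroup.index_comap_of_surjective _ qoBlock_surj
  rw [h1]
  have h2 := Subgroup.card_mul_index (nU F)
  rw [card_nU, card_sl2] at h2
  have hq : 0 < Fintype.card F := Fintype.card_pos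
  have h3 : (nU F).index = (Fintype.card F) ^ 2 - 1 := Nat.eq_of_mul_eq_mul_left hq h2
  rw [h3]
  intro h4
  have h6 : p ∣ Fintype.card F := by
    obtain ⟨n, _, hn⟩ := FiniteField.card F p
    rw [hn]
    exact dvd_pow_self _ n.ne_zero
  have h5 : p ∣ (Fintype.card F) ^ 2 := dvd_pow h6 (by norm_num)
  have h7 : 1 ≤ (Fintype.card F) ^ 2 := Nat.one_le_pow _ _ hq
  have h8 := (Nat.dvd_sub h5 h4)
  rw [Nat.sub_sub_self h7] at h8
  exact hpp.one_lt.ne' (Nat.dvd_one.1 h8)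

/-- The statement for a general Sylow subgroup. -/
theorem main [Fintype F] {p : ℕ} [Fact p.Prime] [CharP F p] (S : Sylow p ↥(Cfsg.qdOver F))
    (T : Subgroup ↥(S : Subgroup ↥(Cfsg.qdOver F))) (hT : T ≠ ⊥) (hTc : T.Characteristic) :
    Subgroup.normalizer ((T.map (S : Subgroup ↥(Cfsg.qdOver F)).subtype : Subgroup ↥(Cfsg.qdOver F)) : Set ↥(Cfsg.qdOver F)) =
      Subgroup.normalizer ((S : Subgroup ↥(Cfsg.qdOver F)) : Set ↥(Cfsg.qdOver F)) ∧
    Subgroup.normalizer ((S : Subgroup ↥(Cfsg.qdOver F)) : Set ↥(Cfsg.qdOver F)) ≠ ⊤ := by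
  classical
  let S₀ : Sylow p (Cfsg.qdOver F) := (sS_isPGroup (p := p)).toSylow (index_sS_not_dvd (p := p))
  obtain ⟨g, hg⟩ := MulAction.exists_smul_eq (Cfsg.qdOver F) S₀ S
  have hmemS : ∀ x, x ∈ (S : Subgroup (Cfsg.qdOver F)) ↔ g⁻¹ * x * g ∈ sS F := by
    intro x
    rw [← hg, Sylow.coe_subgroup_smul, Subgroup.mem_pointwise_smul_iff_inv_smul_mem]
    show (MulAut.conj g)⁻¹ x ∈ (S₀ : Subgroup _) ↔ _
    have : (MulAut.conj g)⁻¹ x = g⁻¹ * x * g := by simp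
    rw [this]
    rfl
  -- the isomorphism
  let c : sS F ≃* (S : Subgroup (Cfsg.qdOver F)) :=
    { toFun := fun s => ⟨g * s * g⁻¹, (hmemS _).2 (by simpa [mul_assoc] using s.2)⟩
      invFun := fun s => ⟨g⁻¹ * s * g, (hmemS _).1 s.2⟩
      left_inv := fun s => Subtype.ext (by simp [mul_assoc])
      right_inv := fun s => Subtype.ext (by simp [mul_assoc])
      map_mul' := fun a b => Subtype.ext (by simp [mul_assoc]) }
  let T₁ : Subgroup (Cfsg.qdOver F) := T.map (S : Subgroup (Cfsg.qdOver F)).subtype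
  let T₀ : Subgroup (Cfsg.qdOver F) := (T.comap c.toMonoidHom).map (sS F).subtype
  have hT₀ : ∀ x, x ∈ T₀ ↔ g * x * g⁻¹ ∈ T₁ := by
    intro x
    constructor
    · rintro ⟨s, hs, rfl⟩
      exact ⟨c s, hs, rfl⟩
    · rintro ⟨s, hs, hsx⟩
      have hx : x ∈ sS F := by
        have : g⁻¹ * (g * x * g⁻¹) * g ∈ sS F := (hmemS _).1 (by rw [← hsx]; exact s.2)
        simpa [mul_assoc] using this
      refine ⟨⟨x, hx⟩, ?_, rfl⟩
      have : c ⟨x, hx⟩ = s := Subtype.ext hsx.symm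
      show c ⟨x, hx⟩ ∈ T
      rwa [this]
  have hle : T₀ ≤ sS F := by
    rintro _ ⟨s, _, rfl⟩
    exact s.2
  have hne : T₀ ≠ ⊥ := by
    intro h
    apply hT
    rw [eq_bot_iff]
    intro t ht
    have h1 : (c.symm t : sS F) ∈ T.comap c.toMonoidHom := by
      show c (c.symm t) ∈ T
      rwa [c.apply_symm_apply]
    have h2 : ((c.symm t : sS F) : Cfsg.qdOver F) ∈ T₀ := ⟨_, h1, rfl⟩
    rw [h, Subgroup.mem_bot] at h2
    have h3 : c.symm t = 1 := Subtype.ext h2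
    rw [Subgroup.mem_bot, ← c.apply_symm_apply t, h3, map_one]
  have hchar : ∀ f : sS F ≃* sS F, ∀ x (hx : x ∈ T₀), ((f ⟨x, hle hx⟩ : sS F) : Cfsg.qdOver F) ∈ T₀ := by
    rintro f _ ⟨s, hs, rfl⟩
    let f' : (S : Subgroup (Cfsg.qdOver F)) ≃* (S : Subgroup (Cfsg.qdOver F)) := c.symm.trans (f.trans c)
    have h1 := (Subgroup.characteristic_iff_le_comap.1 hTc) f' hs
    refine ⟨f s, ?_, rfl⟩
    have h2 : f' (c s) = c (f s) := by
      simp [f']
    show c (f s) ∈ T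
    rw [← h2]
    exact h1
  have hconj : ∀ (X Y : Subgroup (Cfsg.qdOver F)), (∀ x, x ∈ X ↔ g * x * g⁻¹ ∈ Y) → ∀ y,
      y ∈ Subgroup.normalizer (Y : Set (Cfsg.qdOver F)) ↔ g⁻¹ * y * g ∈ Subgroup.normalizer (X : Set (Cfsg.qdOver F)) := by
    intro X Y hXY y
    rw [Subgroup.mem_normalizer_iff, Subgroup.mem_normalizer_iff]
    constructor
    · intro h x
      rw [hXY, hXY, h]
      have : g * (g⁻¹ * y * g * x * (g⁻¹ * y * g)⁻¹) * g⁻¹ = y * (g * x * g⁻¹) * y⁻¹ := by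
        simp [mul_assoc]
      rw [this]
    · intro h x
      have h1 := h (g⁻¹ * x * g)
      rw [hXY, hXY] at h1
      have e1 : g * (g⁻¹ * x * g) * g⁻¹ = x := by simp [mul_assoc]
      have e2 : g * (g⁻¹ * y * g * (g⁻¹ * x * g) * (g⁻¹ * y * g)⁻¹) * g⁻¹ = y * x * y⁻¹ := by
        simp [mul_assoc]
      rwa [e1, e2] at h1
  have hS₀ : ∀ x, x ∈ sS F ↔ g * x * g⁻¹ ∈ (S : Subgroup (Cfsg.qdOver F)) := by
    intro x
    rw [hmemS]
    simp [mul_assoc]
  have hmain := norm_eq (p := p) T₀ hle hne hchar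
  constructor
  · ext y
    rw [hconj T₀ T₁ hT₀ y, hconj (sS F) S hS₀ y, hmain]
  · intro htop
    apply norm_ne_top (F := F) (p := p)
    rw [eq_top_iff]
    intro y _
    have h1 : g * y * g⁻¹ ∈ Subgroup.normalizer ((S : Subgroup (Cfsg.qdOver F)) : Set (Cfsg.qdOver F)) := by
      rw [htop]
      exact Subgroup.mem_top _
    have h2 := (hconj (sS F) S hS₀ _).1 h1
    simpa [mul_assoc] using h2

end Cfsg.Agent.Lib.LocalEven.QdChar
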