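import Cfsg.Agent.Lib.LocalEven.S4Inv
import Cfsg.Agent.Lib.LocalEven.QdOver
import Cfsg.Agent.Lib.Classical.SmallIso
import Cfsg.Agent.S2761

/-! A section `S₄` gives `S₃` involved in `N(T)/C(T)` for a `2`-subgroup `T`. -/

set_option autoImplicit false
set_option linter.unusedSectionVars false

namespace Cfsg.Agent.Lib.LocalEven.S4Inv

open Cfsg Cfsg.Agent.Lib.Basic Subgroup Cfsg.Agent.Lib.Known Cfsg.Agent.Lib.LocalEven.QdOver

theorem block_eq_one_of_centralizes {F : Type*} [Field F] (M : Cfsg.qdOver F)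
    (h : ∀ v ∈ (qoBlock : Cfsg.qdOver F →* SL2 F).ker, v * M = M * v) : qoBlock M = 1 := by
  obtain ⟨A, u, rfl⟩ := qoEl_surj M
  rw [qoBlock_el]
  have h2 : ∀ w, A.1.mulVec w = w := by
    intro w
    have h3 := h (qoEl 1 w) (by rw [MonoidHom.mem_ker, qoBlock_el])
    rw [qoEl_mul, qoEl_mul] at h3
    have h4 := (qoEl_inj h3).2
    simp only [Matrix.SpecialLinearGroup.coe_one, Matrix.one_mulVec] at h4
    have h5 : u + w = A.1.mulVec w + u := h4
    have h6 : A.1.mulVec w = w := by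
      rw [add_comm] at h5
      exact (add_right_cancel h5).symm
    exact h6
  apply Subtype.ext
  ext i j
  have h5 := congrFun (h2 (Pi.single j 1)) i
  rw [Matrix.mulVec_single] at h5
  simpa [Matrix.one_apply, Pi.single_apply, eq_comm] using h5

theorem S3_of_involves_S4 {G : Type*} [Group G] [Finite G] (h : Involves (Equiv.Perm (Fin 4)) G) :
    ∃ T : Subgroup G, IsPGroup 2 ↥T ∧ Involves (Equiv.Perm (Fin 3)) (↥(normalizer (T : Set G)) ⧸
      (centralizer (T : Set G)).subgroupOf (normalizer (T : Set G))) := by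
  classical
  haveI : Fact (Nat.Prime 2) := ⟨Nat.prime_two⟩
  obtain ⟨K, R, hR, ⟨e⟩⟩ := h
  obtain ⟨e₄⟩ := Cfsg.Agent.S2761.result
  let e₅ : Equiv.Perm (Fin 4) ≃* Cfsg.qdOver (ZMod 2) := e₄.symm
  let π : K →* Cfsg.qdOver (ZMod 2) := e₅.toMonoidHom.comp (e.toMonoidHom.comp (QuotientGroup.mk' (R.subgroupOf K)))
  have hπ : Function.Surjective π := e₅.surjective.comp (e.surjective.comp (QuotientGroup.mk'_surjective _))
  let β : Cfsg.qdOver (ZMod 2) →* SL2 (ZMod 2) := qoBlock
  have hβs : Function.Surjective β := qoBlock_surj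
  let Vk : Subgroup (Cfsg.qdOver (ZMod 2)) := β.ker
  have hVp : IsPGroup 2 Vk := by
    have : Vk = Cfsg.pCore 2 (Cfsg.qdOver (ZMod 2)) := (pCore_qo (F := ZMod 2) (p := 2)).symm
    rw [this]
    exact Cfsg.Agent.Lib.Basic.pCore_isPGroup 2
  let K₁ : Subgroup K := Vk.comap π
  haveI hK₁ : K₁.Normal := Subgroup.Normal.comap (MonoidHom.normal_ker β) π
  let T₁ : Sylow 2 K₁ := Sylow.nonempty.some
  let TK : Subgroup K := (T₁ : Subgroup K₁).map K₁.subtype
  let T : Subgroup G := TK.map K.subtype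
  have hTKp : IsPGroup 2 TK := T₁.isPGroup'.map _
  have hTp : IsPGroup 2 T := hTKp.map _
  -- the image of `TK`
  let fV : K₁ →* Vk := (π.comp K₁.subtype).codRestrict Vk (fun k => k.2)
  have hfV : Function.Surjective fV := by
    rintro ⟨v, hv⟩
    obtain ⟨k, hk⟩ := hπ v
    have hk1 : k ∈ K₁ := by
      show π k ∈ Vk
      rw [hk]
      exact hv
    exact ⟨⟨k, hk1⟩, Subtype.ext hk⟩
  have hTim : ∀ v ∈ Vk, ∃ t ∈ TK, π t = v := by
    intro v hv
    let P' : Sylow 2 Vk := T₁.mapSurjective hfV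
    have htop : (P' : Subgroup Vk) = ⊤ := by
      have h1 : IsPGroup 2 (⊤ : Subgroup Vk) := (IsPGroup.iff_card.2 (by
        obtain ⟨j, hj⟩ := IsPGroup.iff_card.1 hVp
        exact ⟨j, by rw [Subgroup.card_top, hj]⟩))
      exact (P'.is_maximal' h1 le_top).symm
    have h2 : (⟨v, hv⟩ : Vk) ∈ (P' : Subgroup Vk) := by
      rw [htop]
      exact mem_top _
    obtain ⟨t, ht, hte⟩ := h2
    refine ⟨t, ⟨t, ht, rfl⟩, ?_⟩
    exact congrArg Subtype.val hte
  -- Frattini
  have hF := Sylow.normalizer_sup_eq_top T₁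
  let W : Subgroup K := normalizer (TK : Set K)
  obtain ⟨iso⟩ := Cfsg.Agent.Lib.Classical.sl_two_card_two_equiv (F := ZMod 2) (by simp [ZMod.card])
  let g : W →* Equiv.Perm (Fin 3) := iso.toMonoidHom.comp (β.comp (π.comp W.subtype))
  have hg : Function.Surjective g := by
    intro s
    obtain ⟨M, hM⟩ := hβs (iso.symm s)
    obtain ⟨k, hk⟩ := hπ M
    have hk' : k ∈ W ⊔ K₁ := by
      have : k ∈ (⊤ : Subgroup K) := mem_top _
      rw [← hF] at this
      exact this
    rw [Subgroup.mem_sup_of_normal_right] at hk'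
    obtain ⟨n, hn, k₁, hk₁, hnk⟩ := hk'
    refine ⟨⟨n, hn⟩, ?_⟩
    have h1 : β (π k₁) = 1 := hk₁
    show iso (β (π n)) = s
    have h2 : β (π k) = β (π n) := by
      rw [← hnk, map_mul, map_mul, h1, mul_one]
    rw [← h2, hk, hM, iso.apply_symm_apply]
  -- the normalizer in `G`
  let N := normalizer (T : Set G)
  have hWN : ∀ n : W, ((n : K) : G) ∈ N := by
    intro n
    apply Cfsg.Agent.Lib.PGroups.mem_normalizer_of_conj_le'
    rintro _ ⟨t, ht, rfl⟩
    have := (mem_normalizer_iff.1 n.2 t).1 ht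
    exact ⟨_, this, rfl⟩
  let j : W →* N := (K.subtype.comp W.subtype).codRestrict N hWN
  let C : Subgroup N := (centralizer (T : Set G)).subgroupOf N
  let f : W →* (N ⧸ C) := (QuotientGroup.mk' C).comp j
  let f' : W →* f.range := f.rangeRestrict
  have hf' : Function.Surjective f' := f.rangeRestrict_surjective
  have hker : f'.ker ≤ g.ker := by
    intro n hn
    have h1 : f n = 1 := by
      have : f' n = 1 := hn
      exact congrArg Subtype.val this
    have h2 : j n ∈ C := (QuotientGroup.eq_one_iff _).1 h1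
    have h3 : ((n : K) : G) ∈ centralizer (T : Set G) := h2
    have h4 : β (π n) = 1 := by
      apply block_eq_one_of_centralizes
      intro v hv
      obtain ⟨t, ht, rfl⟩ := hTim v hv
      have h5 := (mem_centralizer_iff.1 h3) (t : G) ⟨t, ht, rfl⟩
      have h6 : t * (n : K) = (n : K) * t := Subtype.ext h5
      rw [← map_mul, ← map_mul, h6]
    show iso (β (π n)) = 1
    rw [h4, map_one]
  let φ : f.range →* Equiv.Perm (Fin 3) :=
    (f'.liftOfRightInverse (Function.surjInv hf') (Function.rightInverse_surjInv hf')) ⟨g, hker⟩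
  have hφ : Function.Surjective φ := by
    intro s
    obtain ⟨n, hn⟩ := hg s
    refine ⟨f' n, ?_⟩
    rw [← hn]
    exact f'.liftOfRightInverse_comp_apply _ _ ⟨g, hker⟩ n
  exact ⟨T, hTp, Cfsg.Agent.Lib.LocalEven.involves_of_surj φ hφ⟩

end Cfsg.Agent.Lib.LocalEven.S4Inv
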