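import Cfsg.Agent.Lib.Transfer.Special
import Cfsg.Prelude.Def_AlmostLie

/-! Semi-extraspecial groups. -/

namespace Cfsg.Agent.Lib.LocalEven

open Cfsg
open scoped commutatorElement

variable {X : Type*} [Group X] {p : ℕ} [Fact p.Prime]

theorem semiExtra_commutator_mem (hX : IsSpecial p X) (a b : X) : a * b * a⁻¹ * b⁻¹ ∈ Subgroup.center X := by
  rw [← hX.2.2]
  have := Subgroup.commutator_mem_commutator (Subgroup.mem_top a) (Subgroup.mem_top b)
  rwa [commutatorElement_def] at this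

/-- The commutator map. -/
def commHom (hX : IsSpecial p X) (x : X) : X →* ↥(Subgroup.center X) where
  toFun y := ⟨x * y * x⁻¹ * y⁻¹, semiExtra_commutator_mem hX x y⟩
  map_one' := by
    apply Subtype.ext
    simp
  map_mul' := by
    intro y y'
    apply Subtype.ext
    show x * (y * y') * x⁻¹ * (y * y')⁻¹ = (x * y * x⁻¹ * y⁻¹) * (x * y' * x⁻¹ * y'⁻¹)
    have hb := semiExtra_commutator_mem hX x y'
    have h1 := Subgroup.mem_center_iff.1 hb y⁻¹
    calc x * (y * y') * x⁻¹ * (y * y')⁻¹ = x * y * x⁻¹ * ((x * y' * x⁻¹ * y'⁻¹) * y⁻¹) := by group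
      _ = x * y * x⁻¹ * (y⁻¹ * (x * y' * x⁻¹ * y'⁻¹)) := by rw [h1]
      _ = (x * y * x⁻¹ * y⁻¹) * (x * y' * x⁻¹ * y'⁻¹) := by group

theorem semiExtra_range [Finite X] (hX : IsSemiExtraspecial p X) (x : X) (hx : x ∉ Subgroup.center X) :
    (commHom hX.1 x).range = ⊤ := by
  have hp : p.Prime := Fact.out
  by_contra hne
  obtain ⟨Y₀, hY₀, hle⟩ := (eq_top_or_exists_le_coatom (commHom hX.1 x).range).resolve_left hne
  set Y := Y₀.map (Subgroup.center X).subtype with hY
  have hYZ : Y ≤ Subgroup.center X := by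
    rintro _ ⟨z, _, rfl⟩; exact z.2
  have hYo : Y.subgroupOf (Subgroup.center X) = Y₀ :=
    Subgroup.comap_map_eq_self_of_injective (Subgroup.center X).subtype_injective _
  obtain ⟨hYn, hext⟩ := hX.2 Y hYZ (by rw [hYo]; exact hY₀)
  -- a central element outside `Y`
  have hex : ∃ z₀ : ↥(Subgroup.center X), z₀ ∉ Y₀ := by
    by_contra hno
    push Not at hno
    apply hY₀.1
    rw [eq_top_iff]
    intro z _
    exact hno z
  obtain ⟨z₀, hz₀⟩ := hex
  set π := QuotientGroup.mk' Y with hπ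
  have hπs : Function.Surjective π := QuotientGroup.mk'_surjective Y
  have hcen : ∀ a ∈ Subgroup.center X, π a ∈ Subgroup.center (X ⧸ Y) := by
    intro a ha
    rw [Subgroup.mem_center_iff]
    intro y
    obtain ⟨b, rfl⟩ := hπs y
    rw [← map_mul, ← map_mul, (Subgroup.mem_center_iff.1 ha b)]
  have hz₀1 : π z₀ ≠ 1 := by
    intro e
    rw [hπ, QuotientGroup.mk'_apply, QuotientGroup.eq_one_iff] at e
    obtain ⟨w, hw, hwe⟩ := e
    have : w = z₀ := Subtype.ext hwe
    exact hz₀ (this ▸ hw)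
  have hxc : π x ∈ Subgroup.center (X ⧸ Y) := by
    rw [Subgroup.mem_center_iff]
    intro y
    obtain ⟨b, rfl⟩ := hπs y
    have h1 : commHom hX.1 x b ∈ Y₀ := hle ⟨b, rfl⟩
    have h2 : x * b * x⁻¹ * b⁻¹ ∈ Y := ⟨_, h1, rfl⟩
    rw [← map_mul, ← map_mul]
    symm
    rw [hπ, QuotientGroup.mk'_apply, QuotientGroup.mk'_apply, QuotientGroup.eq]
    have e : (x * b)⁻¹ * (b * x) = (x * b)⁻¹ * (x * b * x⁻¹ * b⁻¹)⁻¹ * (x * b)⁻¹⁻¹ := by group
    rw [e]
    exact hYn.conj_mem _ (Y.inv_mem h2) _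
  have hcp : Nat.card (Subgroup.center (X ⧸ Y)) = p := hext.2
  haveI : Fact (Nat.card (Subgroup.center (X ⧸ Y))).Prime := ⟨hcp ▸ hp⟩
  have hz₀c : (⟨π z₀, hcen z₀ z₀.2⟩ : Subgroup.center (X ⧸ Y)) ≠ 1 := by
    intro e
    exact hz₀1 (congrArg Subtype.val e)
  have htop := zpowers_eq_top_of_prime_card (p := Nat.card (Subgroup.center (X ⧸ Y))) rfl hz₀c
  have hmem : (⟨π x, hxc⟩ : Subgroup.center (X ⧸ Y)) ∈ Subgroup.zpowers
      (⟨π z₀, hcen z₀ z₀.2⟩ : Subgroup.center (X ⧸ Y)) := by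
    rw [htop]; trivial
  obtain ⟨k, hk⟩ := hmem
  have hk' : π z₀ ^ k = π x := congrArg Subtype.val hk
  rw [← map_zpow, hπ, QuotientGroup.mk'_apply, QuotientGroup.mk'_apply, QuotientGroup.eq] at hk'
  have h3 := hYZ hk'
  apply hx
  have e : x = ((z₀ : X) ^ k) * (((z₀ : X) ^ k)⁻¹ * x) := by group
  rw [e]
  exact Subgroup.mul_mem _ (Subgroup.zpow_mem _ z₀.2 k) h3

theorem semiExtra_main [Finite X] (hX : IsSemiExtraspecial p X) (x : X) (hx : x ∉ Subgroup.center X) :
    (Subgroup.centralizer ({x} : Set X)).index = Nat.card ↥(Subgroup.center X) ∧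
      {z : X | ∃ y : X, z = x * y * x⁻¹ * y⁻¹} = (Subgroup.center X : Set X) := by
  have hr := semiExtra_range hX x hx
  constructor
  · have hker : (commHom hX.1 x).ker = Subgroup.centralizer ({x} : Set X) := by
      ext y
      rw [MonoidHom.mem_ker, Subgroup.mem_centralizer_singleton_iff]
      constructor
      · intro h
        have h1 : x * y * x⁻¹ * y⁻¹ = 1 := congrArg Subtype.val h
        have h2 : x * y = y * x := by
          have := mul_inv_eq_one.1 h1
          have h3 := mul_inv_eq_iff_eq_mul.1 this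
          exact h3
        exact h2.symm
      · intro h
        apply Subtype.ext
        show x * y * x⁻¹ * y⁻¹ = 1
        rw [← h]
        group
    rw [← hker, Subgroup.index_ker, hr]
    exact Subgroup.card_top
  · ext z
    constructor
    · rintro ⟨y, rfl⟩
      exact semiExtra_commutator_mem hX.1 x y
    · intro hz
      have h1 : (⟨z, hz⟩ : ↥(Subgroup.center X)) ∈ (commHom hX.1 x).range := by rw [hr]; trivial
      obtain ⟨y, hy⟩ := h1
      refine ⟨y, ?_⟩
      have := congrArg Subtype.val hy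
      exact this.symm

end Cfsg.Agent.Lib.LocalEven
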