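/-
Solubilizers in `PSL₂`: general lemmas (helper23).
-/
import Mathlib
import Cfsg.Agent.Lib.LocalEven.PslMax4

set_option autoImplicit false
set_option linter.unusedSimpArgs false
set_option linter.unusedVariables false
set_option linter.unusedSectionVars false
set_option linter.style.haveILetI false

namespace Cfsg.Agent.Lib.LocalEven.SolBase

open Cfsg.Agent.Lib.Classical Cfsg.Agent.Lib.LocalEven.PslMax Cfsg.Agent.Lib.LocalEven.PslMax2
  Cfsg.Agent.Lib.LocalEven.PslMax3 Cfsg.Agent.Lib.LocalEven.PslMax4 Matrix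
open scoped MatrixGroups

section Abstract

variable {G : Type*} [Group G]

/-- The solubilizer count is invariant under automorphisms. -/
theorem sol_conj (Θ : G ≃* G) (x : G) :
    Nat.card {y : G // Group.IsSolvable (Subgroup.closure ({Θ x, y} : Set G))} =
    Nat.card {y : G // Group.IsSolvable (Subgroup.closure ({x, y} : Set G))} := by
  symm
  apply Nat.card_congr
  refine Θ.toEquiv.subtypeEquiv ?_
  intro y
  have e : Subgroup.closure ({Θ x, Θ y} : Set G) = (Subgroup.closure ({x, y} : Set G)).map Θ.toMonoidHom := by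
    rw [MonoidHom.map_closure, Set.image_pair]
    rfl
  show _ ↔ Group.IsSolvable (Subgroup.closure ({Θ x, Θ y} : Set G))
  rw [e]
  constructor
  · intro h
    exact isSolvable_of_equiv (Subgroup.equivMapOfInjective _ Θ.toMonoidHom Θ.injective).symm h
  · intro h
    exact isSolvable_of_equiv (Subgroup.equivMapOfInjective _ Θ.toMonoidHom Θ.injective) h

/-- A subgroup of a soluble subgroup is soluble. -/
theorem sol_of_le {H K : Subgroup G} (h : H ≤ K) (hK : Group.IsSolvable K) : Group.IsSolvable H :=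
  Group.isSolvable_of_isSolvable_injective (f := Subgroup.inclusion h) (Subgroup.inclusion_injective h)

/-- Two elements in a soluble subgroup generate a soluble subgroup. -/
theorem sol_pair {x y : G} {K : Subgroup G} (hx : x ∈ K) (hy : y ∈ K) (hK : Group.IsSolvable K) :
    Group.IsSolvable (Subgroup.closure ({x, y} : Set G)) := by
  apply sol_of_le _ hK
  rw [Subgroup.closure_le]
  rintro z (rfl | rfl)
  · exact hx
  · exact hy

/-- An element inverted by an involution. -/
theorem sol_invert [Finite G] {ρ σ : G} (hσσ : σ * σ = 1) (hc : σ * ρ * σ⁻¹ = ρ⁻¹) :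
    Group.IsSolvable (Subgroup.closure ({ρ, σ} : Set G)) := by
  by_cases hn : σ ∈ Subgroup.zpowers ρ
  · apply sol_pair (K := Subgroup.zpowers ρ) (Subgroup.mem_zpowers ρ) hn
    infer_instance
  · obtain ⟨H₀, h1, h2, -, ⟨e⟩⟩ := exists_dih_sub ρ σ rfl hσσ hc hn
    exact sol_pair h1 h2 (isSolvable_of_equiv e (isSolvable_dihedral _))

/-- Two involutions. -/
theorem sol_two_inv [Finite G] {x y : G} (hx : x * x = 1) (hy : y * y = 1) :
    Group.IsSolvable (Subgroup.closure ({x, y} : Set G)) := by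
  have hxi : x⁻¹ = x := inv_eq_of_mul_eq_one_left hx
  have hyi : y⁻¹ = y := inv_eq_of_mul_eq_one_left hy
  have h := sol_invert (ρ := x * y) (σ := x) hx (by
    rw [_root_.mul_inv_rev, hxi, hyi]
    calc x * (x * y) * x = (x * x) * y * x := by group
      _ = y * x := by rw [hx, one_mul])
  apply sol_of_le _ h
  rw [Subgroup.closure_le]
  rintro z (rfl | rfl)
  · exact Subgroup.subset_closure (Or.inr rfl)
  · have h1 : x⁻¹ * (x * z) ∈ Subgroup.closure ({x * z, x} : Set G) :=
      Subgroup.mul_mem _ (Subgroup.inv_mem _ (Subgroup.subset_closure (Or.inr rfl)))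
        (Subgroup.subset_closure (Or.inl rfl))
    simpa using h1

/-- Groups of order six. -/
theorem order_six [Finite G] (h6 : Nat.card G = 6) :
    (∀ a b : G, a * b = b * a) ∨ Nonempty (G ≃* DihedralGroup 3) := by
  classical
  haveI : Fintype G := Fintype.ofFinite G
  haveI : Fact (Nat.Prime 3) := ⟨by norm_num⟩
  haveI : Fact (Nat.Prime 2) := ⟨by norm_num⟩
  obtain ⟨a, ha⟩ := exists_prime_orderOf_dvd_card' (G := G) 3 (by rw [h6]; norm_num)
  obtain ⟨b, hb⟩ := exists_prime_orderOf_dvd_card' (G := G) 2 (by rw [h6]; norm_num)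
  have hidx : (Subgroup.zpowers a).index = 2 := by
    have h1 := Subgroup.card_mul_index (Subgroup.zpowers a)
    rw [Nat.card_zpowers, ha, h6] at h1
    omega
  haveI hnorm : (Subgroup.zpowers a).Normal := Subgroup.normal_of_index_eq_two hidx
  have hc : b * a * b⁻¹ ∈ Subgroup.zpowers a := hnorm.conj_mem a (Subgroup.mem_zpowers a) b
  have ha3 : a ^ 3 = 1 := by rw [← ha]; exact pow_orderOf_eq_one a
  have hb2 : b * b = 1 := by rw [← pow_two, ← hb]; exact pow_orderOf_eq_one b
  have ha1 : a ≠ 1 := by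
    rintro rfl
    rw [orderOf_one] at ha
    omega
  obtain ⟨k, hk⟩ := mem_powers_iff_mem_zpowers.2 hc
  have hk' : b * a * b⁻¹ = a ^ (k % 3) := by
    rw [← hk, ← ha, pow_mod_orderOf]
  have hk3 : k % 3 < 3 := Nat.mod_lt _ (by norm_num)
  have hcases : k % 3 = 0 ∨ k % 3 = 1 ∨ k % 3 = 2 := by omega
  rcases hcases with h0 | h0 | h0
  · exfalso
    rw [h0, pow_zero, mul_inv_eq_one, mul_eq_left] at hk'
    exact ha1 hk'
  · left
    rw [h0, pow_one, mul_inv_eq_iff_eq_mul] at hk'
    have hcomm : Commute b a := hk'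
    have hord : orderOf (b * a) = 6 := by
      rw [hcomm.orderOf_mul_eq_mul_orderOf_of_coprime (by rw [ha, hb]; norm_num), ha, hb]
    haveI hcyc : IsCyclic G := isCyclic_of_orderOf_eq_card (b * a) (by rw [hord, h6])
    intro x y
    exact (IsCyclic.commGroup (α := G)).mul_comm x y
  · right
    have hinv : b * a * b⁻¹ = a⁻¹ := by
      rw [hk', h0, eq_inv_iff_mul_eq_one, ← pow_succ]
      exact ha3
    have hn : b ∉ Subgroup.zpowers a := by
      intro h
      obtain ⟨m, hm⟩ := mem_powers_iff_mem_zpowers.2 h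
      have e1 : b ^ 3 = 1 := by
        rw [← hm, ← pow_mul, mul_comm, pow_mul, ha3, one_pow]
      have e2 : b ^ 2 = 1 := by rw [pow_two, hb2]
      have e3 : b = 1 := by
        calc b = b ^ 3 * (b ^ 2)⁻¹ := by group
          _ = 1 := by rw [e1, e2]; simp
      rw [e3, orderOf_one] at hb
      omega
    obtain ⟨H₀, -, -, hcard, ⟨e⟩⟩ := exists_dih_sub a b ha hb2 hinv hn
    have htop : H₀ = ⊤ := by
      apply Subgroup.eq_top_of_card_eq
      rw [hcard, h6]
    subst htop
    exact ⟨Subgroup.topEquiv.symm.trans e⟩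

/-- In a dihedral group generated by an involution and `y`. -/
theorem dih_inv {H : Subgroup G} {c : ℕ} (e : H ≃* DihedralGroup c) {x y : G}
    (hgen : H = Subgroup.closure ({x, y} : Set G)) (hx : x * x = 1) :
    y * y = 1 ∨ (x * y) * (x * y) = 1 := by
  have hxm : x ∈ H := by rw [hgen]; exact Subgroup.subset_closure (Or.inl rfl)
  have hym : y ∈ H := by rw [hgen]; exact Subgroup.subset_closure (Or.inr rfl)
  rcases hey : e ⟨y, hym⟩ with j | j
  · rcases hex : e ⟨x, hxm⟩ with i | i
    · exfalso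
      -- everything is a rotation
      have hall : ∀ z ∈ Subgroup.closure ({x, y} : Set G), ∀ hz : z ∈ H, ∃ k, e ⟨z, hz⟩ = DihedralGroup.r k := by
        intro z hz
        induction hz using Subgroup.closure_induction with
        | mem u hu =>
          intro hz
          rcases hu with rfl | rfl
          · exact ⟨i, hex⟩
          · exact ⟨j, hey⟩
        | one =>
          intro hz
          exact ⟨0, by
            have : (⟨1, hz⟩ : H) = 1 := rfl
            rw [this, map_one]
            rfl⟩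
        | mul u v hu hv ihu ihv =>
          intro hz
          have hu' : u ∈ H := by rw [hgen]; exact hu
          have hv' : v ∈ H := by rw [hgen]; exact hv
          obtain ⟨k1, h1⟩ := ihu hu'
          obtain ⟨k2, h2⟩ := ihv hv'
          refine ⟨k1 + k2, ?_⟩
          have : (⟨u * v, hz⟩ : H) = ⟨u, hu'⟩ * ⟨v, hv'⟩ := rfl
          rw [this, map_mul, h1, h2, DihedralGroup.r_mul_r]
        | inv u hu ih =>
          intro hz
          have hu' : u ∈ H := by rw [hgen]; exact hu
          obtain ⟨k1, h1⟩ := ih hu'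
          refine ⟨-k1, ?_⟩
          have : (⟨u⁻¹, hz⟩ : H) = (⟨u, hu'⟩ : H)⁻¹ := rfl
          rw [this, map_inv, h1, DihedralGroup.inv_r]
      have hz := (e.symm (DihedralGroup.sr 0)).2
      have hz' : ((e.symm (DihedralGroup.sr 0) : H) : G) ∈ Subgroup.closure ({x, y} : Set G) := by
        rw [← hgen]; exact hz
      obtain ⟨k, hk⟩ := hall _ hz' hz
      have : e ⟨_, hz⟩ = DihedralGroup.sr 0 := by
        simp
      rw [this] at hk
      cases hk
    · right
      have h1 : e ⟨x * y, H.mul_mem hxm hym⟩ = DihedralGroup.sr (i + j) := by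
        have : (⟨x * y, H.mul_mem hxm hym⟩ : H) = ⟨x, hxm⟩ * ⟨y, hym⟩ := rfl
        rw [this, map_mul, hex, hey, DihedralGroup.sr_mul_r]
      have h2 : e (⟨x * y, H.mul_mem hxm hym⟩ * ⟨x * y, H.mul_mem hxm hym⟩) = 1 := by
        rw [map_mul, h1, DihedralGroup.sr_mul_sr]
        simp only [sub_self]
        rfl
      have h3 := e.injective (h2.trans (map_one e).symm)
      exact congrArg Subtype.val h3
  · left
    have h2 : e (⟨y, hym⟩ * ⟨y, hym⟩) = 1 := by
      rw [map_mul, hey, DihedralGroup.sr_mul_sr]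
      simp only [sub_self]
      rfl
    have h3 := e.injective (h2.trans (map_one e).symm)
    exact congrArg Subtype.val h3

/-- A non-involution in a dihedral group is a rotation. -/
theorem dih_rot {H : Subgroup G} {c : ℕ} (e : H ≃* DihedralGroup c) {x y : G}
    (hxm : x ∈ H) (hym : y ∈ H) (hx : x * x ≠ 1) :
    y * x * y⁻¹ = x ∨ y * x * y⁻¹ = x⁻¹ := by
  rcases hex : e ⟨x, hxm⟩ with i | i
  · rcases hey : e ⟨y, hym⟩ with j | j
    · left
      have h1 : e (⟨y, hym⟩ * ⟨x, hxm⟩ * ⟨y, hym⟩⁻¹) = e ⟨x, hxm⟩ := by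
        rw [map_mul, map_mul, map_inv, hex, hey, DihedralGroup.inv_r, DihedralGroup.r_mul_r, DihedralGroup.r_mul_r]
        congr 1
        ring
      have h3 := e.injective h1
      exact congrArg Subtype.val h3
    · right
      have h1 : e (⟨y, hym⟩ * ⟨x, hxm⟩ * ⟨y, hym⟩⁻¹) = e (⟨x, hxm⟩⁻¹) := by
        rw [map_mul, map_mul, map_inv, map_inv, hex, hey, DihedralGroup.inv_r, DihedralGroup.inv_sr, DihedralGroup.sr_mul_r, DihedralGroup.sr_mul_sr]
        congr 1
        ring
      have h3 := e.injective h1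
      exact congrArg Subtype.val h3
  · exfalso
    apply hx
    have h2 : e (⟨x, hxm⟩ * ⟨x, hxm⟩) = 1 := by
      rw [map_mul, hex, DihedralGroup.sr_mul_sr]
      simp only [sub_self]
      rfl
    have h3 := e.injective (h2.trans (map_one e).symm)
    exact congrArg Subtype.val h3

end Abstract

section Mat

variable {F : Type*} [Field F]

/-- The common eigenvector of a conjugate of a Borel subgroup. -/
theorem borel_vec (H : Subgroup (Pe F)) (P : GL (Fin 2) F)
    (hP : ∀ A : SL(2, F), mkP A ∈ conjSub P H → A.1 1 0 = 0) :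
    ∃ v : Fin 2 → F, v ≠ 0 ∧ ∀ A : SL(2, F), mkP A ∈ H → ∃ l : F, A.1 *ᵥ v = l • v := by
  refine ⟨(P : Matrix (Fin 2) (Fin 2) F) *ᵥ ![1, 0], ?_, ?_⟩
  · intro h
    have hd : IsUnit (P : Matrix (Fin 2) (Fin 2) F).det :=
      (Matrix.isUnit_iff_isUnit_det _).1 P.isUnit
    have h1 : (![1, 0] : Fin 2 → F) = 0 := by
      have h2 := Matrix.eq_zero_of_mulVec_eq_zero (M := (P : Matrix (Fin 2) (Fin 2) F)) hd.ne_zero h
      exact h2
    have h3 := congrFun h1 0
    simp at h3
  · intro A hA
    set B := (ThS P).symm A with hB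
    have hAB : ThS P B = A := by rw [hB, MulEquiv.apply_symm_apply]
    have hBm : mkP B ∈ conjSub P H := by
      rw [mem_conjSub, Th_mkP, hAB]
      exact hA
    have hB0 := hP B hBm
    refine ⟨B.1 0 0, ?_⟩
    have e := ThS_mul_P P B
    rw [hAB] at e
    rw [Matrix.mulVec_mulVec, e, ← Matrix.mulVec_mulVec, ← Matrix.mulVec_smul]
    congr 1
    ext i
    fin_cases i <;> simp [Matrix.mulVec, dotProduct, Fin.sum_univ_two, hB0]

/-- Membership in the standard Borel subgroup. -/
theorem mem_Bo_iff (A : SL(2, F)) : mkP A ∈ Bo F ↔ A.1 1 0 = 0 := by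
  constructor
  · intro h
    rw [Bo, MulAction.mem_stabilizer_iff, mkP_fix_iff] at h
    obtain ⟨l, hl⟩ := h
    have := congrFun hl 1
    simpa [Matrix.mulVec, dotProduct, Fin.sum_univ_two] using this
  · exact mem_Bo_of A

/-- The Borel subgroup is soluble. -/
theorem Bo_solvable : Group.IsSolvable (Bo F) := by
  apply borel_solvable
  intro A hA
  exact (mem_Bo_iff A).1 hA

/-- The opposite Borel subgroup. -/
noncomputable def Lo (F : Type*) [Field F] : Subgroup (Pe F) :=
  (Bo F).map (MulAut.conj (mkP (wz : SL(2, F)))).toMonoidHom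

theorem mem_Lo_iff (A : SL(2, F)) : mkP A ∈ Lo F ↔ A.1 0 1 = 0 := by
  constructor
  · rintro ⟨x, hx, h⟩
    obtain ⟨B, rfl⟩ := mkP_surj x
    have hB := (mem_Bo_iff B).1 hx
    have e : mkP (wz * B * wz⁻¹) = mkP A := h
    rw [mkP_eq_iff] at e
    have hwi : ((wz : SL(2, F))⁻¹).1 = !![0, -1; 1, 0] := by
      rw [Matrix.SpecialLinearGroup.coe_inv, Matrix.adjugate_fin_two]
      ext i j
      fin_cases i <;> fin_cases j <;> simp
    rcases e with e | e
    · rw [← e]
      show ((wz : SL(2, F)) * B * wz⁻¹).1 0 1 = 0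
      rw [Matrix.SpecialLinearGroup.coe_mul, Matrix.SpecialLinearGroup.coe_mul, hwi]
      simp [Matrix.mul_apply, Fin.sum_univ_two, hB]
    · rw [e]
      show (-((wz : SL(2, F)) * B * wz⁻¹).1) 0 1 = 0
      rw [Matrix.SpecialLinearGroup.coe_mul, Matrix.SpecialLinearGroup.coe_mul, hwi]
      simp [Matrix.mul_apply, Fin.sum_univ_two, hB]
  · intro h
    refine ⟨mkP ((wz : SL(2, F))⁻¹ * A * wz), ?_, ?_⟩
    · rw [SetLike.mem_coe, mem_Bo_iff]
      have hwi : ((wz : SL(2, F))⁻¹).1 = !![0, -1; 1, 0] := by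
        rw [Matrix.SpecialLinearGroup.coe_inv, Matrix.adjugate_fin_two]
        ext i j
        fin_cases i <;> fin_cases j <;> simp
      have h10 : ((wz : SL(2, F))⁻¹).1 1 0 = 1 := by rw [hwi]; simp
      have h11 : ((wz : SL(2, F))⁻¹).1 1 1 = 0 := by rw [hwi]; simp
      simp only [sl_mul_apply, h10, h11, wz_00, wz_01, wz_10, wz_11, h]
      ring
    · show mkP (wz * ((wz : SL(2, F))⁻¹ * A * wz) * wz⁻¹) = mkP A
      congr 1
      group

theorem card_Lo : Nat.card (Lo F) = Nat.card (Bo F) :=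
  (Nat.card_congr (Subgroup.equivMapOfInjective _ _ (MulEquiv.injective _)).toEquiv).symm

theorem Lo_solvable : Group.IsSolvable (Lo F) :=
  isSolvable_of_equiv (Subgroup.equivMapOfInjective _ _ (MulEquiv.injective _)).symm Bo_solvable

/-- `PSL₂` is not soluble when simple. -/
theorem pe_not_solvable [Fintype F] (h4 : 4 ≤ Fintype.card F) : ¬ Group.IsSolvable (Pe F) := by
  intro h
  haveI simple : IsSimpleGroup (Pe F) :=
    Cfsg.Agent.Lib.Classical.psl_isSimpleGroup_of_four_le (by rw [Nat.card_eq_fintype_card]; exact h4)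
  haveI := h
  have h1 := (IsSimpleGroup.comm_iff_isSolvable (G := Pe F)).2 h
  exact psl_not_comm (F := F) (isMulCommutative_iff.2 h1)

end Mat

section Count

variable {F : Type*} [Field F]

/-- Two elements with the same trace are conjugate. -/
theorem conj_of_trace (A B : SL(2, F)) (hA : mkP A ≠ 1) (hB : mkP B ≠ 1) (h : A.1 0 0 + A.1 1 1 = B.1 0 0 + B.1 1 1) :
    ∃ Θ : Pe F ≃* Pe F, Θ (mkP A) = mkP B := by
  obtain ⟨P, hP⟩ := exists_conj_comp A hA
  obtain ⟨P', hP'⟩ := exists_conj_comp B hB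
  refine ⟨(Th P).symm.trans (Th P'), ?_⟩
  rw [MulEquiv.trans_apply]
  have e1 : (Th P).symm (mkP A) = mkP (compM (A.1 0 0 + A.1 1 1)) := by
    rw [MulEquiv.symm_apply_eq, Th_mkP, hP]
  rw [e1, h, Th_mkP, hP']

/-- The diagonal elements. -/
def DgS (F : Type*) [Field F] : Set (Pe F) := {y | ∃ Y : SL(2, F), y = mkP Y ∧ Y.1 0 1 = 0 ∧ Y.1 1 0 = 0}

/-- The antidiagonal elements. -/
def AnS (F : Type*) [Field F] : Set (Pe F) := {y | ∃ Y : SL(2, F), y = mkP Y ∧ Y.1 0 0 = 0 ∧ Y.1 1 1 = 0}

theorem AnS_eq : AnS F = (fun y => y * mkP (wz : SL(2, F))) '' DgS F := by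
  ext y
  constructor
  · rintro ⟨Y, rfl, h0, h1⟩
    refine ⟨mkP (Y * (wz : SL(2, F))⁻¹), ⟨Y * (wz : SL(2, F))⁻¹, rfl, ?_, ?_⟩, ?_⟩
    · have hwi : ((wz : SL(2, F))⁻¹).1 = !![0, -1; 1, 0] := by
        rw [Matrix.SpecialLinearGroup.coe_inv, Matrix.adjugate_fin_two]
        ext i j
        fin_cases i <;> fin_cases j <;> simp
      have h00 : ((wz : SL(2, F))⁻¹).1 0 1 = -1 := by rw [hwi]; simp
      have h01 : ((wz : SL(2, F))⁻¹).1 1 1 = 0 := by rw [hwi]; simp
      rw [sl_mul_apply, h00, h01, h0]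
      ring
    · have hwi : ((wz : SL(2, F))⁻¹).1 = !![0, -1; 1, 0] := by
        rw [Matrix.SpecialLinearGroup.coe_inv, Matrix.adjugate_fin_two]
        ext i j
        fin_cases i <;> fin_cases j <;> simp
      have h00 : ((wz : SL(2, F))⁻¹).1 0 0 = 0 := by rw [hwi]; simp
      have h01 : ((wz : SL(2, F))⁻¹).1 1 0 = 1 := by rw [hwi]; simp
      rw [sl_mul_apply, h00, h01, h1]
      ring
    · show mkP (Y * (wz : SL(2, F))⁻¹ * wz) = mkP Y
      congr 1
      group
  · rintro ⟨_, ⟨Y, rfl, h0, h1⟩, rfl⟩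
    refine ⟨Y * wz, rfl, ?_, ?_⟩
    · rw [sl_mul_apply, h0]
      simp
    · rw [sl_mul_apply, h1]
      simp

theorem coe_Bo_inter_Lo : ((Bo F : Subgroup (Pe F)) : Set (Pe F)) ∩ (Lo F : Subgroup (Pe F)) = DgS F := by
  ext y
  constructor
  · rintro ⟨h1, h2⟩
    obtain ⟨Y, rfl⟩ := mkP_surj y
    exact ⟨Y, rfl, (mem_Lo_iff Y).1 h2, (mem_Bo_iff Y).1 h1⟩
  · rintro ⟨Y, rfl, h0, h1⟩
    exact ⟨(mem_Bo_iff Y).2 h1, (mem_Lo_iff Y).2 h0⟩

theorem An_disj : (((Bo F : Subgroup (Pe F)) : Set (Pe F)) ∪ (Lo F : Subgroup (Pe F))) ∩ AnS F = ∅ := by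
  ext y
  simp only [Set.mem_inter_iff, Set.mem_union, Set.mem_empty_iff_false, iff_false, not_and]
  have hd : ∀ Y : SL(2, F), Y.1 0 0 * Y.1 1 1 - Y.1 0 1 * Y.1 1 0 = 1 := fun Y => by
    have := Y.2
    rwa [Matrix.det_fin_two] at this
  rintro (h | h) ⟨Y, rfl, h0, h1⟩
  · have := (mem_Bo_iff Y).1 h
    have h2 := hd Y
    rw [h0, this] at h2
    simp at h2
  · have := (mem_Lo_iff Y).1 h
    have h2 := hd Y
    rw [h0, this] at h2
    simp at h2

/-- The total count. -/
theorem card_three [Finite F] :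
    (((Bo F : Subgroup (Pe F)) : Set (Pe F)) ∪ (Lo F : Subgroup (Pe F)) ∪ AnS F).ncard = 2 * Nat.card (Bo F) := by
  classical
  haveI : Finite (Pe F) := inferInstance
  have h1 := Set.ncard_union_add_ncard_inter (((Bo F : Subgroup (Pe F)) : Set (Pe F))) (Lo F : Subgroup (Pe F)) (Set.toFinite _) (Set.toFinite _)
  have h2 := Set.ncard_union_add_ncard_inter (((Bo F : Subgroup (Pe F)) : Set (Pe F)) ∪ (Lo F : Subgroup (Pe F))) (AnS F) (Set.toFinite _) (Set.toFinite _)
  rw [coe_Bo_inter_Lo] at h1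
  rw [An_disj, Set.ncard_empty] at h2
  have h3 : (AnS F).ncard = (DgS F).ncard := by
    rw [AnS_eq]
    exact Set.ncard_image_of_injective _ (mul_left_injective _)
  have h4 : ((Bo F : Subgroup (Pe F)) : Set (Pe F)).ncard = Nat.card (Bo F) := (Nat.card_coe_set_eq _).symm
  have h5 : ((Lo F : Subgroup (Pe F)) : Set (Pe F)).ncard = Nat.card (Bo F) := by
    rw [← card_Lo]
    exact (Nat.card_coe_set_eq _).symm
  omega

theorem dg_inv (c : F) (hc : c ≠ 0) : (dg c hc)⁻¹ = dg c⁻¹ (inv_ne_zero hc) := by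
  apply inv_eq_of_mul_eq_one_right
  apply sl_ext <;> simp [sl_mul_apply, hc]

/-- Signs in an equation in `PSL₂`. -/
theorem conj_sign (Y D E : SL(2, F)) (h : mkP Y * mkP D * (mkP Y)⁻¹ = mkP E) :
    ∃ s : F, s ^ 2 = 1 ∧ ∀ i j, (Y * D).1 i j = s * (E * Y).1 i j := by
  have e : mkP (Y * D * Y⁻¹) = mkP E := h
  rw [mkP_eq_iff] at e
  rcases e with e | e
  · refine ⟨1, by norm_num, fun i j => ?_⟩
    rw [one_mul, ← e]
    congr 2
    group
  · refine ⟨-1, by norm_num, fun i j => ?_⟩
    have e1 : (E * Y).1 = -(Y * D).1 := by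
      rw [Matrix.SpecialLinearGroup.coe_mul, e, neg_mul, ← Matrix.SpecialLinearGroup.coe_mul, inv_mul_cancel_right]
    rw [e1]
    simp

theorem entry_aux {c s z : F} (hc : c ≠ 0) (hc4 : c ^ 4 ≠ 1) (hs : s ^ 2 = 1) (h : z * c = s * (c⁻¹ * z)) : z = 0 := by
  by_contra hz
  apply hc4
  have h1 : c * c = s := by
    field_simp at h
    linear_combination h
  calc c ^ 4 = (c * c) ^ 2 := by ring
    _ = 1 := by rw [h1, hs]

theorem entry_aux' {c s z : F} (hc : c ≠ 0) (hc4 : c ^ 4 ≠ 1) (hs : s ^ 2 = 1) (h : z * c⁻¹ = s * (c * z)) : z = 0 := by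
  by_contra hz
  apply hc4
  have h1 : z = s * (c * z) * c := by
    rw [← h]
    field_simp
  have h2 : z * (1 - s * c ^ 2) = 0 := by linear_combination h1
  have h3 : s * c ^ 2 = 1 := by
    rcases mul_eq_zero.1 h2 with h3 | h3
    · exact absurd h3 hz
    · linear_combination -h3
  calc c ^ 4 = s ^ 2 * c ^ 4 := by rw [hs, one_mul]
    _ = (s * c ^ 2) ^ 2 := by ring
    _ = 1 := by rw [h3, one_pow]

/-- The solubilizer of a diagonal element. -/
theorem count_diag_of [Finite F] (c : F) (hc : c ≠ 0) (hc4 : c ^ 4 ≠ 1)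
    (hclass : ∀ y : Pe F, Group.IsSolvable (Subgroup.closure ({mkP (dg c hc), y} : Set (Pe F))) →
      y * mkP (dg c hc) * y⁻¹ = mkP (dg c hc) ∨ y * mkP (dg c hc) * y⁻¹ = (mkP (dg c hc))⁻¹ ∨
      ∃ P : GL (Fin 2) F, ∀ A : SL(2, F), mkP A ∈ conjSub P (Subgroup.closure ({mkP (dg c hc), y} : Set (Pe F))) → A.1 1 0 = 0) :
    Nat.card {y : Pe F // Group.IsSolvable (Subgroup.closure ({mkP (dg c hc), y} : Set (Pe F)))} = 2 * Nat.card (Bo F) := by
  classical
  rw [← card_three]
  have hset : {y : Pe F | Group.IsSolvable (Subgroup.closure ({mkP (dg c hc), y} : Set (Pe F)))} =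
      ((Bo F : Subgroup (Pe F)) : Set (Pe F)) ∪ (Lo F : Subgroup (Pe F)) ∪ AnS F := by
    ext y
    constructor
    · intro hy
      obtain ⟨Y, rfl⟩ := mkP_surj y
      rcases hclass _ hy with h | h | ⟨P, hP⟩
      · obtain ⟨s, hs, he⟩ := conj_sign Y (dg c hc) (dg c hc) h
        have h1 := he 0 1
        have h2 := he 1 0
        simp only [sl_mul_apply, dg_00, dg_01, dg_10, dg_11] at h1 h2
        have h3 : Y.1 0 1 = 0 := entry_aux' hc hc4 hs (by linear_combination h1)
        have h4 : Y.1 1 0 = 0 := entry_aux hc hc4 hs (by linear_combination h2)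
        exact Or.inl (Or.inl ((mem_Bo_iff Y).2 h4))
      · have h' : mkP Y * mkP (dg c hc) * (mkP Y)⁻¹ = mkP (dg c⁻¹ (inv_ne_zero hc)) := by
          rw [h, ← dg_inv]
          rfl
        obtain ⟨s, hs, he⟩ := conj_sign Y (dg c hc) (dg c⁻¹ (inv_ne_zero hc)) h'
        have h1 := he 0 0
        have h2 := he 1 1
        simp only [sl_mul_apply, dg_00, dg_01, dg_10, dg_11, inv_inv] at h1 h2
        have h3 : Y.1 0 0 = 0 := entry_aux hc hc4 hs (by linear_combination h1)
        have h4 : Y.1 1 1 = 0 := entry_aux' hc hc4 hs (by linear_combination h2)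
        exact Or.inr ⟨Y, rfl, h3, h4⟩
      · obtain ⟨v, hv0, hv⟩ := borel_vec _ P hP
        obtain ⟨l, hl⟩ := hv (dg c hc) (Subgroup.subset_closure (Or.inl rfl))
        obtain ⟨m, hm⟩ := hv Y (Subgroup.subset_closure (Or.inr rfl))
        have e0 := congrFun hl 0
        have e1 := congrFun hl 1
        have m0 := congrFun hm 0
        have m1 := congrFun hm 1
        simp [Matrix.mulVec, dotProduct, Fin.sum_univ_two] at e0 e1 m0 m1
        by_cases h0 : v 0 = 0
        · have h1 : v 1 ≠ 0 := by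
            intro h1
            apply hv0
            ext i
            fin_cases i
            · exact h0
            · exact h1
          rw [h0] at m0
          simp at m0
          rcases m0 with m0 | m0
          · exact Or.inl (Or.inr ((mem_Lo_iff Y).2 m0))
          · exact absurd m0 h1
        · by_cases h1 : v 1 = 0
          · rw [h1] at m1
            simp at m1
            rcases m1 with m1 | m1
            · exact Or.inl (Or.inl ((mem_Bo_iff Y).2 m1))
            · exact absurd m1 h0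
          · exfalso
            apply hc4
            have h2 : c = l := e0.resolve_right h0
            have h3 : c⁻¹ = l := e1.resolve_right h1
            have h4 : c * c = 1 := by
              nth_rw 2 [h2]
              rw [← h3]
              exact mul_inv_cancel₀ hc
            calc c ^ 4 = (c * c) ^ 2 := by ring
              _ = 1 := by rw [h4, one_pow]
    · rintro ((h | h) | ⟨Y, rfl, h0, h1⟩)
      · exact sol_pair ((mem_Bo_iff _).2 rfl) h Bo_solvable
      · exact sol_pair ((mem_Lo_iff _).2 rfl) h Lo_solvable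
      · apply sol_invert
        · show mkP (Y * Y) = 1
          apply mkP_eq_one_of_scalar _ (l := Y.1 0 1 * Y.1 1 0)
          ext i j
          fin_cases i <;> fin_cases j <;> simp [Matrix.mul_apply, Fin.sum_univ_two, h0, h1, mul_comm]
        · show mkP (Y * dg c hc * Y⁻¹) = mkP (dg c hc)⁻¹
          congr 1
          rw [dg_inv, mul_inv_eq_iff_eq_mul]
          apply sl_ext <;> simp [sl_mul_apply, h0, h1, mul_comm]
  rw [← hset]
  exact Nat.card_coe_set_eq _

/-- The solubilizer when the generic answer is a coatom. -/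
theorem count_torus_of [Fintype F] (hq4 : 4 ≤ Fintype.card F) {x : Pe F} (hx : x ≠ 1) {D : Subgroup (Pe F)} (hD : IsCoatom D)
    (hsol : Group.IsSolvable D) (hxD : x ∈ D) (hMr : ∀ z ∈ D, z * x * z⁻¹ ∈ Subgroup.zpowers x)
    (hclass : ∀ y : Pe F, Group.IsSolvable (Subgroup.closure ({x, y} : Set (Pe F))) → y * x * y⁻¹ = x ∨ y * x * y⁻¹ = x⁻¹) :
    Nat.card {y : Pe F // Group.IsSolvable (Subgroup.closure ({x, y} : Set (Pe F)))} = Nat.card D := by
  classical
  have hset : {y : Pe F | Group.IsSolvable (Subgroup.closure ({x, y} : Set (Pe F)))} = (D : Set (Pe F)) := by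
    ext y
    constructor
    · intro hy
      have hq : y * x * y⁻¹ ∈ Subgroup.zpowers x := by
        rcases hclass y hy with h | h
        · rw [h]
          exact Subgroup.mem_zpowers x
        · rw [h]
          exact Subgroup.inv_mem _ (Subgroup.mem_zpowers x)
      exact norm_le_of_coatom rfl hq4 hD hx hMr hq
    · intro hy
      exact sol_pair hxD hy hsol
  calc Nat.card {y : Pe F // Group.IsSolvable (Subgroup.closure ({x, y} : Set (Pe F)))}
      = Nat.card (D : Set (Pe F)) := by rw [← hset]; rfl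
    _ = Nat.card D := rfl

end Count

end Cfsg.Agent.Lib.LocalEven.SolBase
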