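/-
Solubilizers in `PSL₂(2^p)` (helper23).
-/
import Mathlib
import Cfsg.Agent.Lib.LocalEven.SolBase

set_option autoImplicit false
set_option linter.unusedSimpArgs false
set_option linter.unusedVariables false
set_option linter.unusedSectionVars false
set_option linter.style.haveILetI false

namespace Cfsg.Agent.Lib.LocalEven.Sol2

open Cfsg.Agent.Lib.Classical Cfsg.Agent.Lib.LocalEven.PslMax Cfsg.Agent.Lib.LocalEven.PslMax2
  Cfsg.Agent.Lib.LocalEven.PslMax3 Cfsg.Agent.Lib.LocalEven.PslMax4 Cfsg.Agent.Lib.LocalEven.SolBase Matrix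
open scoped MatrixGroups

variable {F : Type*} [Field F]

section Elem

theorem charP2 [Finite F] (h20 : (2 : F) = 0) : CharP F 2 := by
  obtain ⟨p, hpc⟩ := CharP.exists F
  haveI hpf : Fact p.Prime := ⟨CharP.char_is_prime F p⟩
  have h1 : p ∣ 2 := (CharP.cast_eq_zero_iff F p 2).1 (by exact_mod_cast h20)
  have hp2 : p = 2 := (Nat.prime_dvd_prime_iff_eq hpf.out Nat.prime_two).1 h1
  rwa [hp2] at hpc

theorem mk_inj (h20 : (2 : F) = 0) {A B : SL(2, F)} (h : mkP A = mkP B) : A = B := by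
  rcases (mkP_eq_iff A B).1 h with h | h
  · exact h
  · apply Subtype.ext
    ext i j
    have e := congrFun (congrFun h i) j
    simp only [Matrix.neg_apply] at e
    rw [e]
    linear_combination ((A : Matrix (Fin 2) (Fin 2) F) i j) * h20

/-- Involutions have trace zero. -/
theorem tr_of_inv (h20 : (2 : F) = 0) (Y : SL(2, F)) (h : mkP Y * mkP Y = 1) : Y.1 0 0 + Y.1 1 1 = 0 := by
  have h1 : Y * Y = 1 := mk_inj h20 (by rw [mkP_mul, h]; rfl)
  have h00 := congrArg (fun A : SL(2, F) => A.1 0 0) h1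
  have h11 := congrArg (fun A : SL(2, F) => A.1 1 1) h1
  simp [sl_mul_apply] at h00 h11
  have hd : Y.1 0 0 * Y.1 1 1 - Y.1 0 1 * Y.1 1 0 = 1 := by
    have := Y.2
    rwa [Matrix.det_fin_two] at this
  have h2 : (Y.1 0 0 + Y.1 1 1) ^ 2 = 0 := by
    linear_combination h00 + h11 + (1 - Y.1 0 1 * Y.1 1 0 + Y.1 0 0 * Y.1 1 1) * h20
  exact pow_eq_zero_iff (by norm_num) |>.1 h2

/-- Trace zero gives an involution. -/
theorem inv_of_tr (h20 : (2 : F) = 0) (Y : SL(2, F)) (h : Y.1 0 0 + Y.1 1 1 = 0) : mkP Y * mkP Y = 1 := by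
  have hd : Y.1 0 0 * Y.1 1 1 - Y.1 0 1 * Y.1 1 0 = 1 := by
    have := Y.2
    rwa [Matrix.det_fin_two] at this
  have h1 : Y * Y = 1 := by
    apply sl_ext <;> simp [sl_mul_apply]
    · linear_combination (Y.1 0 0) * h - hd - h20
    · linear_combination (Y.1 0 1) * h
    · linear_combination (Y.1 1 0) * h
    · linear_combination (Y.1 1 1) * h - hd - h20
  rw [← mkP_mul, h1]
  rfl

/-- Commuting with the standard involution. -/
theorem comm_uu (h20 : (2 : F) = 0) (Y : SL(2, F)) (h : mkP (uu (1 : F)) * mkP Y = mkP Y * mkP (uu 1)) : Y.1 1 0 = 0 := by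
  have h1 : uu (1 : F) * Y = Y * uu 1 := mk_inj h20 h
  have h00 := congrArg (fun A : SL(2, F) => A.1 0 0) h1
  simp [sl_mul_apply] at h00
  exact h00

theorem uu_inv (h20 : (2 : F) = 0) (b : F) : mkP (uu b) * mkP (uu b) = 1 := by
  apply inv_of_tr h20
  simp
  linear_combination h20

theorem sq_inj (h20 : (2 : F) = 0) {a b : F} (h : a ^ 2 = b ^ 2) : a = b := by
  have h2 : (a - b) ^ 2 = 0 := by linear_combination h + (b ^ 2 - a * b) * h20
  exact sub_eq_zero.1 (pow_eq_zero_iff (by norm_num) |>.1 h2)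

theorem exists_sqrt [Finite F] (h20 : (2 : F) = 0) (a : F) : ∃ r : F, r ^ 2 = a := by
  have hinj : Function.Injective (fun r : F => r ^ 2) := fun x y h => sq_inj h20 h
  exact (Finite.injective_iff_surjective.1 hinj) a

/-- An element of trace zero. -/
noncomputable def sqM [Finite F] (h20 : (2 : F) = 0) (b e : F) : SL(2, F) :=
  ⟨!![Classical.choose (exists_sqrt h20 (1 + b * e)), b; e, Classical.choose (exists_sqrt h20 (1 + b * e))], by
    have := Classical.choose_spec (exists_sqrt h20 (1 + b * e))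
    rw [Matrix.det_fin_two]
    simp only [Matrix.of_apply, Matrix.cons_val', Matrix.cons_val_zero, Matrix.cons_val_one, Matrix.cons_val_fin_one]
    linear_combination this⟩

end Elem

section Class

variable [Fintype F] {p : ℕ}

theorem two0 (hp : p.Prime) (hF : Fintype.card F = 2 ^ p) : (2 : F) = 0 := by
  apply two_eq_zero_of_even
  rw [hF]
  exact (even_two).pow_of_ne_zero hp.ne_zero

theorem four_le (hp : p.Prime) : 4 ≤ 2 ^ p := by
  calc 4 = 2 ^ 2 := by norm_num
    _ ≤ 2 ^ p := Nat.pow_le_pow_right (by norm_num) hp.two_le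

/-- The classification of soluble subgroups. -/
theorem sol_class (hp : p.Prime) (hF : Fintype.card F = 2 ^ p) (H : Subgroup (Pe F)) (hs : Group.IsSolvable H) :
    (∀ a ∈ H, ∀ b ∈ H, a * b = b * a) ∨ (∃ c, Nonempty (H ≃* DihedralGroup c)) ∨
      ∃ P : GL (Fin 2) F, ∀ A : SL(2, F), mkP A ∈ conjSub P H → A.1 1 0 = 0 := by
  classical
  have h20 := two0 hp hF
  haveI := charP2 h20
  haveI : Fact (Nat.Prime 2) := ⟨Nat.prime_two⟩
  have comm_of : (∀ a b : H, a * b = b * a) → ∀ a ∈ H, ∀ b ∈ H, a * b = b * a := by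
    intro h a ha b hb
    exact congrArg Subtype.val (h ⟨a, ha⟩ ⟨b, hb⟩)
  have noinv : ∀ {X : Type} [Group X], (∃ x : X, x ≠ 1 ∧ x ^ 2 = 1) → Nonempty (H ≃* X) → (∀ g : H, g ≠ 1 → g ^ 2 ≠ 1) → False := by
    intro X _ hX ⟨e⟩ hn
    obtain ⟨g, h1, h2⟩ := inv_of_equiv e hX
    exact hn g h1 h2
  rcases dickson_master 2 H with ⟨h1, h2⟩ | ⟨⟨c, ρ, -, -, -, he⟩, -⟩ | ⟨h1, h2⟩ | ⟨h1, h2⟩ | ⟨h1, h2⟩ | ⟨P, -, hP⟩ | ⟨K₀, P, hK⟩
  · left
    apply comm_of
    intro a b
    exact (IsCyclic.commGroup (α := H)).mul_comm a b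
  · exact Or.inr (Or.inl ⟨c, he⟩)
  · exact (noinv a4_inv h1 h2).elim
  · exact (noinv s4_inv h1 h2).elim
  · rcases h2 with h2 | h2
    · omega
    · exact (noinv a5_inv h1 h2).elim
  · exact Or.inr (Or.inr ⟨P, hP⟩)
  · haveI : Fintype K₀ := Fintype.ofFinite _
    obtain ⟨m, hm, hm1⟩ := subfield_num hF K₀
    set K := Nat.card K₀ with hKd
    have hK2 : 2 ≤ K := by
      rw [hKd, Nat.card_eq_fintype_card]
      exact Fintype.one_lt_card
    have hcH : Nat.card H = K * (K ^ 2 - 1) := by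
      have e1 : Nat.card H = Nat.card (conjSub P H) := Nat.card_congr (conjSubEquiv P H).toEquiv
      rcases hK with hK | ⟨hsq, hK⟩
      · rw [e1, hK, range_card_psl]
        rw [card_psl2_even (F := K₀) (q := K) (by rw [hKd, Nat.card_eq_fintype_card]) ?_]
        have h1 : Even (K ^ m) := by
          rw [hm]
          exact (even_two).pow_of_ne_zero hp.ne_zero
        exact (Nat.even_pow.1 h1).1
      · rw [e1, hK, range_card_pgl]
    have hdvd : K ∣ 2 ^ p := by
      rw [← hm]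
      exact dvd_pow_self _ (by omega)
    obtain ⟨a, -, ha⟩ := (Nat.dvd_prime_pow Nat.prime_two).1 hdvd
    have hap : a * m = p := by
      rw [ha, ← pow_mul] at hm
      exact Nat.pow_right_injective (le_refl 2) hm
    have ha0 : a ≠ 0 := by
      rintro rfl
      rw [pow_zero] at ha
      omega
    have hq4 := four_le hp
    have hcases : a = 1 ∨ m = 1 := by
      have h1 : a ∣ p := ⟨m, hap.symm⟩
      rcases (Nat.dvd_prime hp).1 h1 with h2 | h2
      · exact Or.inl h2
      · right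
        rw [h2] at hap
        have : p * m = p * 1 := by rw [hap, mul_one]
        exact Nat.eq_of_mul_eq_mul_left hp.pos this
    rcases hcases with h1 | h1
    · subst h1
      have h6 : Nat.card H = 6 := by
        rw [hcH, ha]
        norm_num
      rcases order_six h6 with h2 | e
      · exact Or.inl (comm_of h2)
      · exact Or.inr (Or.inl ⟨3, e⟩)
    · exfalso
      subst h1
      rw [pow_one] at hm
      have htop : H = ⊤ := by
        apply Subgroup.eq_top_of_card_eq
        rw [hcH, hm, card_psl2_even hF ((even_two).pow_of_ne_zero hp.ne_zero)]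
      subst htop
      exact pe_not_solvable (by rw [hF]; exact hq4) (isSolvable_of_equiv Subgroup.topEquiv.symm hs)

theorem card_bo (hp : p.Prime) (hF : Fintype.card F = 2 ^ p) : Nat.card (Bo F) = 2 ^ p * (2 ^ p - 1) := by
  have h1 := card_Bo hF
  rw [card_psl2_even hF ((even_two).pow_of_ne_zero hp.ne_zero)] at h1
  have hq4 := four_le hp
  set q := 2 ^ p with hq
  have h2 : q ^ 2 - 1 = (q - 1) * (q + 1) := by
    obtain ⟨r, hr⟩ : ∃ r, q = r + 1 := ⟨q - 1, by omega⟩
    rw [hr]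
    simp only [Nat.add_sub_cancel]
    have : (r + 1) ^ 2 = r * (r + 1 + 1) + 1 := by ring
    rw [this, Nat.add_sub_cancel]
  rw [h2, ← mul_assoc] at h1
  exact Nat.eq_of_mul_eq_mul_right (by omega) h1

/-- Class for elements that are not involutions. -/
theorem rot_class (hp : p.Prime) (hF : Fintype.card F = 2 ^ p) {x y : Pe F} (hx : x * x ≠ 1)
    (hs : Group.IsSolvable (Subgroup.closure ({x, y} : Set (Pe F)))) :
    y * x * y⁻¹ = x ∨ y * x * y⁻¹ = x⁻¹ ∨
      ∃ P : GL (Fin 2) F, ∀ A : SL(2, F), mkP A ∈ conjSub P (Subgroup.closure ({x, y} : Set (Pe F))) → A.1 1 0 = 0 := by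
  have hxm : x ∈ Subgroup.closure ({x, y} : Set (Pe F)) := Subgroup.subset_closure (Or.inl rfl)
  have hym : y ∈ Subgroup.closure ({x, y} : Set (Pe F)) := Subgroup.subset_closure (Or.inr rfl)
  rcases sol_class hp hF _ hs with h | ⟨c, ⟨e⟩⟩ | h
  · left
    rw [h y hym x hxm]
    group
  · rcases dih_rot e hxm hym hx with h | h
    · exact Or.inl h
    · exact Or.inr (Or.inl h)
  · exact Or.inr (Or.inr h)

/-- The eigenvalues of elements. -/
theorem exists_alg_eig (A : SL(2, F)) : ∃ l : AlgebraicClosure F, l ≠ 0 ∧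
    algebraMap F (AlgebraicClosure F) (A.1 0 0 + A.1 1 1) = l + l⁻¹ ∧
    ∀ n : ℕ, mkP A ^ n = 1 → (l ^ n) ^ 2 = 1 := by
  classical
  let j : F →+* AlgebraicClosure F := algebraMap F (AlgebraicClosure F)
  obtain ⟨v, l, hv0, hv⟩ := exists_eigvec (Matrix.SpecialLinearGroup.map j A)
  obtain ⟨hl, htr⟩ := eig_trace _ hv0 hv
  refine ⟨l, hl, ?_, ?_⟩
  · rw [← htr, map_add]
    rfl
  · intro n hn
    apply eig_pow_sq _ hv0 n _ hv
    rw [← pslEmbed_mkP, ← map_pow, hn, map_one]

end Class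

section Parts

variable [Fintype F] {p : ℕ}

/-- The conjugate diagonal form. -/
theorem conj_diag (hp : p.Prime) (hF : Fintype.card F = 2 ^ p) {x : Pe F} (hx : x ≠ 1)
    (hord : orderOf x ∣ 2 ^ p - 1) :
    ∃ (c : F) (hc : c ≠ 0), c ≠ 1 ∧ ∃ Θ : Pe F ≃* Pe F, Θ (mkP (dg c hc)) = x := by
  classical
  have h20 := two0 hp hF
  have hq4 := four_le hp
  obtain ⟨A, rfl⟩ := mkP_surj x
  obtain ⟨l, hl0, htr, hpow⟩ := exists_alg_eig A
  have h1 : (l ^ (2 ^ p - 1)) ^ 2 = 1 := hpow _ (orderOf_dvd_iff_pow_eq_one.1 hord)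
  have h20' : (2 : AlgebraicClosure F) = 0 := by
    have := congrArg (algebraMap F (AlgebraicClosure F)) h20
    rwa [map_ofNat, map_zero] at this
  have h2 : l ^ (2 ^ p - 1) = 1 := by
    have : (l ^ (2 ^ p - 1) - 1) ^ 2 = 0 := by
      linear_combination h1 + (1 - l ^ (2 ^ p - 1)) * h20'
    exact sub_eq_zero.1 (pow_eq_zero_iff (by norm_num) |>.1 this)
  have h3 : l ^ Fintype.card F = l := by
    rw [hF]
    have : 2 ^ p = (2 ^ p - 1) + 1 := by omega
    rw [this, pow_succ, h2, one_mul]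
  obtain ⟨c, hc⟩ := mem_range_of_pow_card (algebraMap F (AlgebraicClosure F)) h3
  have hc0 : c ≠ 0 := by
    rintro rfl
    rw [map_zero] at hc
    exact hl0 hc.symm
  have htrc : A.1 0 0 + A.1 1 1 = c + c⁻¹ := by
    apply (algebraMap F (AlgebraicClosure F)).injective
    rw [htr, map_add, map_inv₀, hc]
  have hodd : ¬ 2 ∣ 2 ^ p - 1 := by
    obtain ⟨k, hk⟩ := (even_two : Even (2 : ℕ)).pow_of_ne_zero (n := p) hp.ne_zero
    omega
  have hc1 : c ≠ 1 := by
    rintro rfl
    apply hx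
    have h4 : mkP A * mkP A = 1 := inv_of_tr h20 A (by
      rw [htrc]
      simp
      linear_combination h20)
    have h5 : orderOf (mkP A) ∣ 2 := orderOf_dvd_of_pow_eq_one (by rw [pow_two, h4])
    have h6 : orderOf (mkP A) = 1 := by
      rcases (Nat.dvd_prime Nat.prime_two).1 h5 with h7 | h7
      · exact h7
      · rw [h7] at hord
        exact absurd hord hodd
    exact orderOf_eq_one_iff.1 h6
  refine ⟨c, hc0, hc1, ?_⟩
  apply conj_of_trace
  · rw [Ne, mkP_eq_one_iff]
    rintro (h | h)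
    · have := congrArg (fun B : SL(2, F) => B.1 0 0) h
      simp at this
      exact hc1 this
    · have := congrFun (congrFun h 0) 0
      simp at this
      apply hc1
      rw [this]
      linear_combination -h20
  · exact hx
  · rw [htrc]
    simp

/-- Part (ii). -/
theorem part_ii (hp : p.Prime) (hF : Fintype.card F = 2 ^ p) {x : Pe F} (hx : x ≠ 1)
    (hord : orderOf x ∣ 2 ^ p - 1) :
    Nat.card {y : Pe F // Group.IsSolvable (Subgroup.closure ({x, y} : Set (Pe F)))} = 2 * 2 ^ p * (2 ^ p - 1) := by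
  obtain ⟨c, hc, hc1, Θ, rfl⟩ := conj_diag hp hF hx hord
  rw [sol_conj Θ]
  have h20 := two0 hp hF
  have hc2 : mkP (dg c hc) * mkP (dg c hc) ≠ 1 := by
    intro h
    have h1 : dg c hc * dg c hc = 1 := mk_inj h20 (by rw [mkP_mul, h]; rfl)
    have h2 := congrArg (fun B : SL(2, F) => B.1 0 0) h1
    simp [sl_mul_apply] at h2
    apply hc1
    apply sq_inj h20
    rw [one_pow, pow_two]
    exact h2
  have hc4 : c ^ 4 ≠ 1 := by
    intro h
    apply hc1
    apply sq_inj h20
    apply sq_inj h20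
    rw [one_pow, one_pow, ← pow_mul]
    exact h
  rw [count_diag_of c hc hc4 (fun y hy => rot_class hp hF hc2 hy), card_bo hp hF, mul_assoc]

/-- Part (iii). -/
theorem part_iii (hp : p.Prime) (hF : Fintype.card F = 2 ^ p) {x : Pe F} (hx : x ≠ 1)
    (hord : orderOf x ∣ 2 ^ p + 1) :
    Nat.card {y : Pe F // Group.IsSolvable (Subgroup.closure ({x, y} : Set (Pe F)))} = 2 * (2 ^ p + 1) := by
  classical
  have h20 := two0 hp hF
  haveI := charP2 h20
  haveI : Fact (Nat.Prime 2) := ⟨Nat.prime_two⟩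
  have hq4 := four_le hp
  have heven := (even_two : Even (2 : ℕ)).pow_of_ne_zero (n := p) hp.ne_zero
  have hodd : ¬ 2 ∣ 2 ^ p + 1 := by
    obtain ⟨k, hk⟩ := heven
    omega
  have hx2 : x * x ≠ 1 := by
    intro h
    have h5 : orderOf x ∣ 2 := orderOf_dvd_of_pow_eq_one (by rw [pow_two, h])
    rcases (Nat.dvd_prime Nat.prime_two).1 h5 with h7 | h7
    · exact hx (orderOf_eq_one_iff.1 h7)
    · rw [h7] at hord
      exact hodd hord
  have hx2' : x ^ 2 ≠ 1 := by rwa [pow_two]
  obtain ⟨N, hN, hN3, ρ, σ, ho, hσσ, hc, hn, hg⟩ := torus_data hF 2 x hx2'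
  have hgcd : Nat.gcd 2 (2 ^ p - 1) = 1 := by
    have : Odd (2 ^ p - 1) := Nat.Even.sub_odd (by omega) heven odd_one
    exact Nat.coprime_two_left.2 this
  rw [hgcd, Nat.div_one] at ho
  have hxρ : orderOf x ∣ N := by
    rw [← ho]
    exact orderOf_dvd_of_mem_zpowers hg
  have hN1 : N = 2 ^ p + 1 := by
    rcases hN with h | h
    · exfalso
      rw [h] at hxρ
      have h1 : orderOf x ∣ 2 := by
        have h3 : orderOf x ∣ (2 ^ p + 1) - (2 ^ p - 1) := Nat.dvd_sub hord hxρ
        have e : (2 ^ p + 1) - (2 ^ p - 1) = 2 := by omega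
        rwa [e] at h3
      rcases (Nat.dvd_prime Nat.prime_two).1 h1 with h7 | h7
      · exact hx (orderOf_eq_one_iff.1 h7)
      · rw [h7] at hord
        exact hodd hord
    · exact h
  subst hN1
  obtain ⟨D, h1, h2, hcard, ⟨e⟩⟩ := exists_dih_sub ρ σ ho hσσ hc hn
  have hcardG := card_psl2_even hF heven
  have hρ2 : ρ * ρ ≠ 1 := by
    intro h
    have h5 : orderOf ρ ∣ 2 := orderOf_dvd_of_pow_eq_one (by rw [pow_two, h])
    have := Nat.le_of_dvd (by norm_num) h5
    omega
  have hDcoat : IsCoatom D := by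
    apply dih_coatom hF 2 ρ σ (2 ^ p + 1) ho hN3 hσσ hc D h1 h2 hcard hodd
    · intro h
      rw [h, card_top_eq, hcardG] at hcard
      generalize 2 ^ p = q at hcard hq4
      have h5 : 16 ≤ q ^ 2 := by nlinarith
      have h6 : 15 ≤ q ^ 2 - 1 := by omega
      have h7 : q * 15 ≤ q * (q ^ 2 - 1) := Nat.mul_le_mul_left _ h6
      omega
    · rw [hgcd]
      omega
    · rintro (h | h)
      · omega
      · omega
    · rintro (h | h) -
      · omega
      · have : 2 ^ p = 4 := by omega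
        rw [hcardG, this]
        norm_num
    · intro r m hr hm hr2 hk _
      have h3 : r ^ 2 ≤ r ^ m := Nat.pow_le_pow_right (by omega) hm
      rw [hr] at h3
      nlinarith
  rw [count_torus_of (by rw [hF]; exact hq4) hx hDcoat (isSolvable_of_equiv e (isSolvable_dihedral _)) ?_ ?_ ?_, hcard]
  · obtain ⟨z, rfl⟩ := Subgroup.mem_zpowers_iff.1 hg
    exact D.zpow_mem h1 z
  · intro z hz
    obtain ⟨n, rfl⟩ := Subgroup.mem_zpowers_iff.1 hg
    have hrot := dih_rot e h1 hz hρ2
    rw [← conj_zpow]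
    rcases hrot with h | h
    · rw [h]
      exact Subgroup.mem_zpowers _
    · rw [h, _root_.inv_zpow]
      exact Subgroup.inv_mem _ (Subgroup.mem_zpowers _)
  · intro y hy
    rcases rot_class hp hF hx2 hy with h | h | ⟨P, hP⟩
    · exact Or.inl h
    · exact Or.inr h
    · exfalso
      obtain ⟨v, hv0, hv⟩ := borel_vec _ P hP
      obtain ⟨A, rfl⟩ := mkP_surj x
      obtain ⟨l, hl⟩ := hv A (Subgroup.subset_closure (Or.inl rfl))
      have hpow := eig_pow_sq A hv0 _ (orderOf_dvd_iff_pow_eq_one.1 hord) hl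
      obtain ⟨hl0, htr⟩ := eig_trace A hv0 hl
      have h3 : l ^ (2 ^ p + 1) = 1 := by
        have : (l ^ (2 ^ p + 1) - 1) ^ 2 = 0 := by
          linear_combination hpow + (1 - l ^ (2 ^ p + 1)) * h20
        exact sub_eq_zero.1 (pow_eq_zero_iff (by norm_num) |>.1 this)
      have h4 : l ^ (2 ^ p - 1) = 1 := by
        rw [← hF]
        exact FiniteField.pow_card_sub_one_eq_one l hl0
      have h5 : l ^ 2 = 1 := by
        have e : 2 ^ p + 1 = (2 ^ p - 1) + 2 := by omega
        rw [e, pow_add, h4, one_mul] at h3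
        exact h3
      have h6 : l = 1 := by
        apply sq_inj h20
        rw [h5, one_pow]
      rw [h6] at htr
      apply hx2
      apply inv_of_tr h20
      rw [htr]
      simp
      linear_combination h20

end Parts

section Inv

variable [Fintype F] {p : ℕ}

/-- The elements of square one. -/
def AS (F : Type*) [Field F] : Set (Pe F) := {y | y * y = 1}

theorem card_AS (h20 : (2 : F) = 0) : (AS F).ncard = Nat.card F ^ 2 := by
  classical
  let ψ : F × F → Pe F := fun t => mkP (sqM h20 t.1 t.2)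
  have hinj : Function.Injective ψ := by
    rintro ⟨b, e⟩ ⟨b', e'⟩ h
    have h1 := mk_inj h20 h
    have h2 := congrArg (fun A : SL(2, F) => A.1 0 1) h1
    have h3 := congrArg (fun A : SL(2, F) => A.1 1 0) h1
    simp only [sqM] at h2 h3
    simp at h2 h3
    rw [h2, h3]
  have hr : AS F = Set.range ψ := by
    ext y
    constructor
    · intro hy
      obtain ⟨Y, rfl⟩ := mkP_surj y
      have htr := tr_of_inv h20 Y hy
      refine ⟨(Y.1 0 1, Y.1 1 0), ?_⟩
      show mkP _ = _
      congr 1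
      have hsp := Classical.choose_spec (exists_sqrt h20 (1 + Y.1 0 1 * Y.1 1 0))
      set r := Classical.choose (exists_sqrt h20 (1 + Y.1 0 1 * Y.1 1 0)) with hrd
      have hd : Y.1 0 0 * Y.1 1 1 - Y.1 0 1 * Y.1 1 0 = 1 := by
        have := Y.2
        rwa [Matrix.det_fin_two] at this
      have h11 : Y.1 1 1 = Y.1 0 0 := by linear_combination htr - (Y.1 0 0) * h20
      rw [h11] at hd
      have hr0 : r = Y.1 0 0 := by
        apply sq_inj h20
        rw [hsp]
        linear_combination -hd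
      apply sl_ext
      · exact hr0
      · rfl
      · rfl
      · show r = Y.1 1 1
        rw [h11, hr0]
    · rintro ⟨⟨b, e⟩, rfl⟩
      apply inv_of_tr h20
      show Classical.choose (exists_sqrt h20 (1 + b * e)) + Classical.choose (exists_sqrt h20 (1 + b * e)) = 0
      linear_combination (Classical.choose (exists_sqrt h20 (1 + b * e))) * h20
  rw [hr, ← Set.image_univ, Set.ncard_image_of_injective _ hinj, Set.ncard_univ, Nat.card_prod, pow_two]

theorem uu_mem_Q0 (b : F) : mkP (uu b) ∈ Q0 F := mem_Q0.2 ⟨b, rfl⟩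

theorem inter1 (h20 : (2 : F) = 0) : AS F ∩ (Bo F : Subgroup (Pe F)) = (Q0 F : Subgroup (Pe F)) := by
  ext y
  constructor
  · rintro ⟨h1, h2⟩
    obtain ⟨Y, rfl⟩ := mkP_surj y
    have htr := tr_of_inv h20 Y h1
    have h10 := (mem_Bo_iff Y).1 h2
    have hd : Y.1 0 0 * Y.1 1 1 - Y.1 0 1 * Y.1 1 0 = 1 := by
      have := Y.2
      rwa [Matrix.det_fin_two] at this
    have h11 : Y.1 1 1 = Y.1 0 0 := by linear_combination htr - (Y.1 0 0) * h20
    rw [h11, h10] at hd
    have h00 : Y.1 0 0 = 1 := by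
      apply sq_inj h20
      linear_combination hd
    refine mem_Q0.2 ⟨Y.1 0 1, ?_⟩
    congr 1
    apply sl_ext
    · exact h00
    · rfl
    · exact h10
    · rw [h11]
      exact h00
  · intro h
    obtain ⟨s, rfl⟩ := mem_Q0.1 h
    exact ⟨uu_inv h20 s, (mem_Bo_iff _).2 rfl⟩

/-- The translate. -/
def CS (F : Type*) [Field F] : Set (Pe F) := {y | (mkP (uu (1 : F)) * y) * (mkP (uu 1) * y) = 1}

theorem inter2 (h20 : (2 : F) = 0) : (AS F ∪ (Bo F : Subgroup (Pe F))) ∩ CS F = (Q0 F : Subgroup (Pe F)) := by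
  have hx : (mkP (uu (1 : F))) * mkP (uu 1) = 1 := uu_inv h20 1
  have hxB : mkP (uu (1 : F)) ∈ Bo F := (mem_Bo_iff _).2 rfl
  have hxQ : mkP (uu (1 : F)) ∈ Q0 F := uu_mem_Q0 1
  ext y
  constructor
  · rintro ⟨h1 | h1, h2⟩
    · obtain ⟨Y, rfl⟩ := mkP_surj y
      have hy : mkP Y * mkP Y = 1 := h1
      have hcomm : mkP (uu (1 : F)) * mkP Y = mkP Y * mkP (uu 1) := by
        have h3 : (mkP (uu (1 : F)) * mkP Y) * (mkP (uu 1) * mkP Y) = 1 := h2
        have h4 := inv_eq_of_mul_eq_one_left h3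
        rw [_root_.mul_inv_rev, inv_eq_of_mul_eq_one_left hx, inv_eq_of_mul_eq_one_left hy] at h4
        exact h4.symm
      have h10 := comm_uu h20 Y hcomm
      have : mkP Y ∈ AS F ∩ (Bo F : Subgroup (Pe F)) := ⟨h1, (mem_Bo_iff Y).2 h10⟩
      rwa [inter1 h20] at this
    · have hz : mkP (uu (1 : F)) * y ∈ AS F ∩ (Bo F : Subgroup (Pe F)) := ⟨h2, (Bo F).mul_mem hxB h1⟩
      rw [inter1 h20] at hz
      have h3 : (mkP (uu (1 : F)))⁻¹ * (mkP (uu (1 : F)) * y) ∈ Q0 F := (Q0 F).mul_mem ((Q0 F).inv_mem hxQ) hz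
      simpa using h3
  · intro h
    obtain ⟨s, rfl⟩ := mem_Q0.1 h
    refine ⟨Or.inl (uu_inv h20 s), ?_⟩
    show (mkP (uu (1 : F)) * mkP (uu s)) * (mkP (uu 1) * mkP (uu s)) = 1
    rw [← mkP_mul, ← uu_add]
    exact uu_inv h20 _

theorem card_CS (h20 : (2 : F) = 0) : (CS F).ncard = (AS F).ncard := by
  have h : CS F = (fun z => (mkP (uu (1 : F)))⁻¹ * z) '' AS F := by
    ext y
    constructor
    · intro hy
      exact ⟨mkP (uu (1 : F)) * y, hy, by simp⟩
    · rintro ⟨z, hz, rfl⟩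
      show (mkP (uu (1 : F)) * ((mkP (uu (1 : F)))⁻¹ * z)) * (mkP (uu 1) * ((mkP (uu (1 : F)))⁻¹ * z)) = 1
      have hz' : z * z = 1 := hz
      simpa using hz'
  rw [h]
  exact Set.ncard_image_of_injective _ (mul_right_injective _)

/-- Part (i) for the standard involution. -/
theorem count_uu (hp : p.Prime) (hF : Fintype.card F = 2 ^ p) :
    Nat.card {y : Pe F // Group.IsSolvable (Subgroup.closure ({mkP (uu (1 : F)), y} : Set (Pe F)))} = 3 * 2 ^ p * (2 ^ p - 1) := by
  classical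
  have h20 := two0 hp hF
  have hx : (mkP (uu (1 : F))) * mkP (uu 1) = 1 := uu_inv h20 1
  have hxi : (mkP (uu (1 : F)))⁻¹ = mkP (uu 1) := inv_eq_of_mul_eq_one_left hx
  have hset : {y : Pe F | Group.IsSolvable (Subgroup.closure ({mkP (uu (1 : F)), y} : Set (Pe F)))} =
      AS F ∪ (Bo F : Subgroup (Pe F)) ∪ CS F := by
    ext y
    constructor
    · intro hy
      obtain ⟨Y, rfl⟩ := mkP_surj y
      have hxm : mkP (uu (1 : F)) ∈ Subgroup.closure ({mkP (uu (1 : F)), mkP Y} : Set (Pe F)) := Subgroup.subset_closure (Or.inl rfl)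
      have hym : mkP Y ∈ Subgroup.closure ({mkP (uu (1 : F)), mkP Y} : Set (Pe F)) := Subgroup.subset_closure (Or.inr rfl)
      rcases sol_class hp hF _ hy with h | ⟨c, ⟨e⟩⟩ | ⟨P, hP⟩
      · exact Or.inl (Or.inr ((mem_Bo_iff Y).2 (comm_uu h20 Y (h _ hxm _ hym))))
      · rcases dih_inv e rfl hx with h | h
        · exact Or.inl (Or.inl h)
        · exact Or.inr h
      · obtain ⟨v, hv0, hv⟩ := borel_vec _ P hP
        obtain ⟨l, hl⟩ := hv (uu (1 : F)) hxm
        obtain ⟨m, hm⟩ := hv Y hym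
        have e0 := congrFun hl 0
        have e1 := congrFun hl 1
        have m1 := congrFun hm 1
        simp [Matrix.mulVec, dotProduct, Fin.sum_univ_two, uu] at e0 e1 m1
        have hv1 : v 1 = 0 := by
          by_contra h1
          have h2 : l = 1 := mul_right_cancel₀ h1 (by rw [one_mul]; exact e1.symm)
          rw [h2] at e0
          simp at e0
          exact h1 e0
        have hv00 : v 0 ≠ 0 := by
          intro h0
          apply hv0
          ext i
          fin_cases i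
          · exact h0
          · exact hv1
        rw [hv1] at m1
        simp at m1
        rcases m1 with m1 | m1
        · exact Or.inl (Or.inr ((mem_Bo_iff Y).2 m1))
        · exact absurd m1 hv00
    · rintro ((h | h) | h)
      · exact sol_two_inv hx h
      · exact sol_pair ((mem_Bo_iff _).2 rfl) h Bo_solvable
      · show Group.IsSolvable (Subgroup.closure ({mkP (uu (1 : F)), y} : Set (Pe F)))
        rw [Set.pair_comm]
        apply sol_invert hx
        have h1 : (mkP (uu (1 : F)) * y) * (mkP (uu 1) * y) = 1 := h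
        rw [hxi, eq_inv_iff_mul_eq_one, ← h1]
        group
  have hcount : (AS F ∪ (Bo F : Subgroup (Pe F)) ∪ CS F).ncard = 3 * 2 ^ p * (2 ^ p - 1) := by
    have h1 := Set.ncard_union_add_ncard_inter (AS F) ((Bo F : Subgroup (Pe F)) : Set (Pe F)) (Set.toFinite _) (Set.toFinite _)
    have h2 := Set.ncard_union_add_ncard_inter (AS F ∪ ((Bo F : Subgroup (Pe F)) : Set (Pe F))) (CS F) (Set.toFinite _) (Set.toFinite _)
    rw [inter1 h20] at h1
    rw [inter2 h20] at h2
    have hQ : ((Q0 F : Subgroup (Pe F)) : Set (Pe F)).ncard = Nat.card F := by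
      rw [← Nat.card_coe_set_eq]
      exact card_Q0
    have hB : ((Bo F : Subgroup (Pe F)) : Set (Pe F)).ncard = 2 ^ p * (2 ^ p - 1) := by
      rw [← Nat.card_coe_set_eq]
      exact card_bo hp hF
    have hA := card_AS h20 (F := F)
    have hC := card_CS h20 (F := F)
    rw [Nat.card_eq_fintype_card, hF] at hA hQ
    rw [hQ, hC, hA] at h2
    rw [hQ, hB, hA] at h1
    have hq4 := four_le hp
    have hmul : 3 * 2 ^ p * (2 ^ p - 1) = 3 * (2 ^ p * (2 ^ p - 1)) := by ring
    rw [hmul]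
    have hsq : (2 ^ p) ^ 2 = 2 ^ p * (2 ^ p - 1) + 2 ^ p := by
      generalize 2 ^ p = q at hq4
      obtain ⟨r, rfl⟩ : ∃ r, q = r + 1 := ⟨q - 1, by omega⟩
      simp only [Nat.add_sub_cancel]
      ring
    rw [hsq] at h1 h2
    omega
  rw [← hcount, ← hset]
  exact Nat.card_coe_set_eq _

/-- Part (i). -/
theorem part_i (hp : p.Prime) (hF : Fintype.card F = 2 ^ p) {x : Pe F} (hord : orderOf x = 2) :
    Nat.card {y : Pe F // Group.IsSolvable (Subgroup.closure ({x, y} : Set (Pe F)))} = 3 * 2 ^ p * (2 ^ p - 1) := by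
  have h20 := two0 hp hF
  obtain ⟨A, rfl⟩ := mkP_surj x
  have hx1 : mkP A ≠ 1 := by
    intro h
    rw [h, orderOf_one] at hord
    omega
  have hxx : mkP A * mkP A = 1 := by
    have h1 := pow_orderOf_eq_one (mkP A)
    rw [hord] at h1
    rw [← pow_two]
    exact h1
  have htr := tr_of_inv h20 A hxx
  have hu1 : mkP (uu (1 : F)) ≠ 1 := by
    rw [Ne, mkP_eq_one_iff]
    rintro (h | h)
    · have := congrArg (fun B : SL(2, F) => B.1 0 1) h
      simp at this
    · have := congrFun (congrFun h 0) 1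
      simp at this
  obtain ⟨Θ, hΘ⟩ := conj_of_trace (uu (1 : F)) A hu1 hx1 (by
    rw [htr]
    simp
    linear_combination h20)
  rw [← hΘ, sol_conj Θ]
  exact count_uu hp hF

end Inv

/-- The final result. -/
theorem main {F : Type*} [Field F] [Fintype F] {p : ℕ} (hp : p.Prime) (hF : Fintype.card F = 2 ^ p) (x : Pe F) :
    (orderOf x = 2 → Nat.card {y : Pe F // Group.IsSolvable (Subgroup.closure ({x, y} : Set (Pe F)))} = 3 * 2 ^ p * (2 ^ p - 1)) ∧
    (x ≠ 1 → orderOf x ∣ 2 ^ p - 1 → Nat.card {y : Pe F // Group.IsSolvable (Subgroup.closure ({x, y} : Set (Pe F)))} = 2 * 2 ^ p * (2 ^ p - 1)) ∧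
    (x ≠ 1 → orderOf x ∣ 2 ^ p + 1 → Nat.card {y : Pe F // Group.IsSolvable (Subgroup.closure ({x, y} : Set (Pe F)))} = 2 * (2 ^ p + 1)) :=
  ⟨part_i hp hF, fun h1 h2 => part_ii hp hF h1 h2, fun h1 h2 => part_iii hp hF h1 h2⟩

end Cfsg.Agent.Lib.LocalEven.Sol2
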