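/-
Solubilizers in `PSL₂(3^p)` (helper23).
-/
import Mathlib
import Cfsg.Agent.Lib.LocalEven.Sol2
import Cfsg.Agent.Lib.LocalEven.PglMax

set_option autoImplicit false
set_option linter.unusedSimpArgs false
set_option linter.unusedVariables false
set_option linter.unusedSectionVars false
set_option linter.style.haveILetI false

namespace Cfsg.Agent.Lib.LocalEven.Sol3

open Cfsg.Agent.Lib.Classical Cfsg.Agent.Lib.LocalEven.PslMax Cfsg.Agent.Lib.LocalEven.PslMax2
  Cfsg.Agent.Lib.LocalEven.PslMax3 Cfsg.Agent.Lib.LocalEven.PslMax4 Cfsg.Agent.Lib.LocalEven.SolBase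
  Cfsg.Agent.Lib.LocalEven.PglMax Matrix
open scoped MatrixGroups

section Abs

variable {G : Type*} [Group G]

/-- Commuting elements. -/
theorem sol_comm {x y : G} (h : x * y = y * x) : Group.IsSolvable (Subgroup.closure ({x, y} : Set G)) := by
  have hc : ∀ a ∈ ({x, y} : Set G), ∀ b ∈ ({x, y} : Set G), a * b = b * a := by
    rintro a (rfl | rfl) b (rfl | rfl)
    · rfl
    · exact h
    · exact h.symm
    · rfl
  letI := Subgroup.closureCommGroupOfComm hc
  exact Group.isSolvable_of_comm (fun a b => mul_comm a b)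

theorem comm_of_inv {x y : G} (hx : x * x = 1) (hy : y * y = 1) (h : (x * y) * (x * y) = 1) : x * y = y * x := by
  have h4 := inv_eq_of_mul_eq_one_left h
  rw [_root_.mul_inv_rev, inv_eq_of_mul_eq_one_left hx, inv_eq_of_mul_eq_one_left hy] at h4
  exact h4.symm

/-- The `(2,3,3)` triangle group is soluble. -/
theorem sol_233 {x y : G} (hx : x * x = 1) (hy : y ^ 3 = 1) (hxy : (x * y) ^ 3 = 1) :
    Group.IsSolvable (Subgroup.closure ({x, y} : Set G)) := by
  have hyi : y⁻¹ = y ^ 2 := by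
    rw [inv_eq_iff_mul_eq_one, ← pow_succ']
    exact hy
  set b := y * x * y⁻¹ with hb
  set c := y ^ 2 * x * y⁻¹ ^ 2 with hc
  have hb2 : b * b = 1 := by
    rw [hb]
    calc y * x * y⁻¹ * (y * x * y⁻¹) = y * (x * x) * y⁻¹ := by group
      _ = 1 := by rw [hx]; group
  have hc2 : c * c = 1 := by
    rw [hc]
    calc y ^ 2 * x * y⁻¹ ^ 2 * (y ^ 2 * x * y⁻¹ ^ 2) = y ^ 2 * (x * x) * y⁻¹ ^ 2 := by group
      _ = 1 := by rw [hx]; group
  have habc : x * b * c = 1 := by
    rw [hb, hc]
    have e : x * (y * x * y⁻¹) * (y ^ 2 * x * y⁻¹ ^ 2) = (x * y) ^ 3 * (y ^ 3)⁻¹ := by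
      rw [pow_three', pow_three']
      group
    rw [e, hxy, hy]
    group
  have hcab : c = (x * b)⁻¹ := by
    exact eq_inv_of_mul_eq_one_right habc
  have hcab' : c = b * x := by
    rw [hcab, _root_.mul_inv_rev, inv_eq_of_mul_eq_one_left hx, inv_eq_of_mul_eq_one_left hb2]
  have hcomm : b * x = x * b := comm_of_inv hb2 hx (by rw [← hcab']; exact hc2)
  set V := Subgroup.closure ({x, b} : Set G) with hV
  have hxV : x ∈ V := Subgroup.subset_closure (Or.inl rfl)
  have hbV : b ∈ V := Subgroup.subset_closure (Or.inr rfl)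
  have hcV : c ∈ V := by rw [hcab']; exact V.mul_mem hbV hxV
  have hVcomm : ∀ a ∈ ({x, b} : Set G), ∀ e ∈ ({x, b} : Set G), a * e = e * a := by
    rintro a (rfl | rfl) e (rfl | rfl)
    · rfl
    · exact hcomm.symm
    · exact hcomm
    · rfl
  letI hVC := Subgroup.closureCommGroupOfComm hVcomm
  have hVsol : Group.IsSolvable V := Group.isSolvable_of_comm (fun a e => mul_comm a e)
  have hy1 : ∀ h ∈ V, y * h * y⁻¹ ∈ V := by
    have hle : V ≤ V.comap (MulAut.conj y).toMonoidHom := by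
      rw [hV, Subgroup.closure_le]
      intro u hu
      rcases hu with hu | hu
      · rw [hu]
        exact hbV
      · rw [hu]
        show y * b * y⁻¹ ∈ V
        have : y * b * y⁻¹ = c := by
          rw [hc, hb, pow_two, pow_two]
          group
        rw [this]
        exact hcV
    exact fun h hh => hle hh
  have hy2 : y ∈ Subgroup.normalizer (V : Set G) := by
    rw [Subgroup.mem_normalizer_iff]
    intro h
    refine ⟨hy1 h, fun hh => ?_⟩
    have h1 := hy1 _ (hy1 _ hh)
    have e3 : y * y * y = 1 := by rw [← pow_three']; exact hy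
    have e : y * (y * (y * h * y⁻¹) * y⁻¹) * y⁻¹ = h := by
      calc y * (y * (y * h * y⁻¹) * y⁻¹) * y⁻¹ = (y * y * y) * h * (y * y * y)⁻¹ := by
            simp only [_root_.mul_inv_rev, mul_assoc]
        _ = h := by rw [e3]; simp
    rwa [e] at h1
  set H := Subgroup.closure ({x, y} : Set G) with hH
  have hxH : x ∈ H := Subgroup.subset_closure (Or.inl rfl)
  have hyH : y ∈ H := Subgroup.subset_closure (Or.inr rfl)
  have hVH : V ≤ H := by
    rw [hV, Subgroup.closure_le]
    intro u hu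
    rcases hu with hu | hu
    · rw [hu]
      exact hxH
    · rw [hu]
      exact H.mul_mem (H.mul_mem hyH hxH) (H.inv_mem hyH)
  have hHN : H ≤ Subgroup.normalizer (V : Set G) := by
    rw [hH, Subgroup.closure_le]
    intro u hu
    rcases hu with hu | hu
    · rw [hu]
      exact Subgroup.le_normalizer hxV
    · rw [hu]
      exact hy2
  haveI hN : (V.subgroupOf H).Normal := (Subgroup.normal_subgroupOf_iff_le_normalizer hVH).2 hHN
  let π : H →* H ⧸ V.subgroupOf H := QuotientGroup.mk' _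
  have hgen : ∀ g (hg : g ∈ H), π ⟨g, hg⟩ ∈ Subgroup.zpowers (π ⟨y, hyH⟩) := by
    intro g hg
    induction hg using Subgroup.closure_induction with
    | mem u hu =>
      rcases hu with hu | hu
      · subst hu
        have : π ⟨_, hxH⟩ = 1 := by
          rw [QuotientGroup.mk'_apply, QuotientGroup.eq_one_iff, Subgroup.mem_subgroupOf]
          exact hxV
        rw [this]
        exact Subgroup.one_mem _
      · subst hu
        exact Subgroup.mem_zpowers _
    | one =>
      have : π ⟨1, H.one_mem⟩ = 1 := map_one π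
      rw [this]
      exact Subgroup.one_mem _
    | mul u v hu hv ihu ihv =>
      have : π ⟨u * v, H.mul_mem hu hv⟩ = π ⟨u, hu⟩ * π ⟨v, hv⟩ := map_mul π ⟨u, hu⟩ ⟨v, hv⟩
      rw [this]
      exact Subgroup.mul_mem _ ihu ihv
    | inv u hu ih =>
      have : π ⟨u⁻¹, H.inv_mem hu⟩ = (π ⟨u, hu⟩)⁻¹ := map_inv π ⟨u, hu⟩
      rw [this]
      exact Subgroup.inv_mem _ ih
  have hQ : Group.IsSolvable (H ⧸ V.subgroupOf H) := by
    apply Group.isSolvable_of_comm
    intro u v
    obtain ⟨g, rfl⟩ := QuotientGroup.mk'_surjective _ u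
    obtain ⟨e, rfl⟩ := QuotientGroup.mk'_surjective _ v
    obtain ⟨k, hk⟩ := Subgroup.mem_zpowers_iff.1 (hgen g.1 g.2)
    obtain ⟨l, hl⟩ := Subgroup.mem_zpowers_iff.1 (hgen e.1 e.2)
    have h1 : π g = π ⟨y, hyH⟩ ^ k := hk.symm
    have h2 : π e = π ⟨y, hyH⟩ ^ l := hl.symm
    show π g * π e = π e * π g
    rw [h1, h2]
    exact zpow_mul_comm _ _ _
  have hNs : Group.IsSolvable (V.subgroupOf H) :=
    isSolvable_of_equiv (Subgroup.subgroupOfEquivOfLe hVH) hVsol
  exact Group.isSolvable_of_ker_le_range (V.subgroupOf H).subtype π (by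
    rw [QuotientGroup.ker_mk', Subgroup.range_subtype])

end Abs

section Elem

variable {F : Type*} [Field F]

theorem inv_of_tr0 (Z : SL(2, F)) (h : trS Z = 0) : mkP Z * mkP Z = 1 := by
  rw [← mkP_mul]
  apply mkP_eq_one_of_scalar _ (l := -1)
  rw [Matrix.SpecialLinearGroup.coe_mul, sq_CH, h]
  simp

theorem cube_of_tr (Z : SL(2, F)) (h : trS Z ^ 2 = 1) : mkP Z ^ 3 = 1 := by
  rw [← mkP_pow]
  apply mkP_eq_one_of_scalar _ (l := -trS Z)
  have e : (Z ^ 3 : SL(2, F)).1 = Z.1 * (Z.1 * Z.1) := by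
    rw [pow_succ', pow_two]
    rfl
  rw [e, sq_CH, Matrix.mul_sub, Matrix.mul_smul, sq_CH, mul_one, smul_sub, smul_smul, ← pow_two, h, one_smul, neg_smul]
  abel

/-- The trace of an element of a conjugate of `PSL₂(K)`. -/
theorem tr_mem_K {H : Subgroup (Pe F)} {P : GL (Fin 2) F} {K₀ : Subfield F} (h : conjSub P H = (pslEmbed K₀.subtype).range)
    {Z : SL(2, F)} (hZ : mkP Z ∈ H) : trS Z ∈ K₀ := by
  have h1 : (Th P).symm (mkP Z) ∈ conjSub P H := by
    rw [mem_conjSub, MulEquiv.apply_symm_apply]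
    exact hZ
  rw [h] at h1
  obtain ⟨u, hu⟩ := h1
  obtain ⟨A, rfl⟩ := mkP_surj u
  rw [pslEmbed_mkP, MulEquiv.eq_symm_apply, Th_mkP, mkP_eq_iff] at hu
  set W := Matrix.SpecialLinearGroup.map K₀.subtype A with hW
  have htr : trS (ThS P W) ∈ K₀ := by
    rw [tr_ThS]
    have : trS W = K₀.subtype (A.1 0 0 + A.1 1 1) := by
      simp [trS, hW]
    rw [this]
    exact (A.1 0 0 + A.1 1 1).2
  rcases hu with hu | hu
  · rwa [hu] at htr
  · have : trS Z = - trS (ThS P W) := by
      simp only [trS]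
      rw [hu]
      simp
      ring
    rw [this]
    exact K₀.neg_mem htr

/-- An element in a field of three elements. -/
theorem three_cases {K₀ : Subfield F} (hK : Nat.card K₀ = 3) {z : F} (hz : z ∈ K₀) : z = 0 ∨ z ^ 2 = 1 := by
  classical
  haveI : Finite K₀ := Nat.finite_of_card_ne_zero (by omega)
  haveI : Fintype K₀ := Fintype.ofFinite _
  have h1 := FiniteField.pow_card (⟨z, hz⟩ : K₀)
  rw [← Nat.card_eq_fintype_card, hK] at h1
  have h2 : z ^ 3 = z := congrArg Subtype.val h1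
  have h3 : z * (z ^ 2 - 1) = 0 := by linear_combination h2
  rcases mul_eq_zero.1 h3 with h4 | h4
  · exact Or.inl h4
  · exact Or.inr (sub_eq_zero.1 h4)

end Elem

section Class

variable {F : Type*} [Field F] [Fintype F] {p : ℕ}

theorem three0 (hp : p.Prime) (hF : Fintype.card F = 3 ^ p) : (3 : F) = 0 := by
  have h1 : ((Fintype.card F : ℕ) : F) = 0 := Nat.cast_card_eq_zero F
  rw [hF] at h1
  push_cast at h1
  exact (pow_eq_zero_iff hp.ne_zero).1 h1

theorem charP3 (h30 : (3 : F) = 0) : CharP F 3 := by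
  obtain ⟨p, hpc⟩ := CharP.exists F
  haveI hpf : Fact p.Prime := ⟨CharP.char_is_prime F p⟩
  have h1 : p ∣ 3 := (CharP.cast_eq_zero_iff F p 3).1 (by exact_mod_cast h30)
  have hp2 : p = 3 := (Nat.prime_dvd_prime_iff_eq hpf.out Nat.prime_three).1 h1
  rwa [hp2] at hpc

theorem pow_mod_four (hodd : Odd p) : 3 ^ p % 4 = 3 := by
  obtain ⟨k, rfl⟩ := hodd
  rw [pow_succ, pow_mul, Nat.mul_mod, Nat.pow_mod]
  norm_num

theorem neg_one_nsq (hodd : Odd p) (hF : Fintype.card F = 3 ^ p) (z : F) : z * z ≠ -1 := by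
  intro h
  have h1 : IsSquare (-1 : F) := ⟨z, h.symm⟩
  rw [FiniteField.isSquare_neg_one_iff, hF, pow_mod_four hodd] at h1
  exact h1 rfl

theorem a5_not_sol : ¬ Group.IsSolvable (alternatingGroup (Fin 5)) := by
  intro h
  have h1 := (IsSimpleGroup.comm_iff_isSolvable (G := alternatingGroup (Fin 5))).2 h
  revert h1
  decide +kernel

theorem a4_three : ∃ x : alternatingGroup (Fin 4), x ≠ 1 ∧ x ^ 3 = 1 := by decide +kernel

set_option maxRecDepth 100000 in
theorem s4_three : ∃ x : Equiv.Perm (Fin 4), x ≠ 1 ∧ x ^ 3 = 1 := by decide +kernel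

/-- The classification of soluble subgroups. -/
theorem sol_class (hp : p.Prime) (hodd : Odd p) (hF : Fintype.card F = 3 ^ p) (H : Subgroup (Pe F)) (hs : Group.IsSolvable H) :
    ((∀ a ∈ H, ∀ b ∈ H, a * b = b * a) ∧ ∀ g ∈ H, g ≠ 1 → g ^ 3 ≠ 1) ∨
    ((∃ c, Nonempty (H ≃* DihedralGroup c)) ∧ ∀ g ∈ H, g ≠ 1 → g ^ 3 ≠ 1) ∨
    (∃ P : GL (Fin 2) F, ∀ A : SL(2, F), mkP A ∈ conjSub P H → A.1 1 0 = 0) ∨
    (∃ (K₀ : Subfield F) (P : GL (Fin 2) F), Nat.card K₀ = 3 ∧ conjSub P H = (pslEmbed K₀.subtype).range) := by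
  classical
  have h30 := three0 hp hF
  haveI := charP3 h30
  haveI : Fact (Nat.Prime 3) := ⟨Nat.prime_three⟩
  have nog : ∀ {X : Type} [Group X], (∃ x : X, x ≠ 1 ∧ x ^ 3 = 1) → Nonempty (H ≃* X) → (∀ g : H, g ≠ 1 → g ^ 3 ≠ 1) → False := by
    intro X _ ⟨x, h1, h2⟩ ⟨e⟩ hn
    apply hn (e.symm x)
    · intro h3
      apply h1
      apply e.symm.injective
      rw [h3, map_one]
    · rw [← map_pow, h2, map_one]
  have down : (∀ g : H, g ≠ 1 → g ^ 3 ≠ 1) → ∀ g ∈ H, g ≠ 1 → g ^ 3 ≠ 1 := by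
    intro h g hg h1 h2
    apply h ⟨g, hg⟩
    · intro h3
      exact h1 (congrArg Subtype.val h3)
    · exact Subtype.ext h2
  rcases dickson_master 3 H with ⟨h1, h2⟩ | ⟨⟨c, ρ, -, -, -, he⟩, h2⟩ | ⟨h1, h2⟩ | ⟨h1, h2⟩ | ⟨⟨e⟩, h2⟩ | ⟨P, -, hP⟩ | ⟨K₀, P, hK⟩
  · left
    refine ⟨?_, down h2⟩
    intro a ha b hb
    exact congrArg Subtype.val ((IsCyclic.commGroup (α := H)).mul_comm ⟨a, ha⟩ ⟨b, hb⟩)
  · right; left
    refine ⟨⟨c, he⟩, down ?_⟩
    rcases h2 with h2 | h2
    · omega
    · exact h2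
  · exact (nog a4_three h1 h2).elim
  · exact (nog s4_three h1 h2).elim
  · exact (a5_not_sol (isSolvable_of_equiv e.symm hs)).elim
  · exact Or.inr (Or.inr (Or.inl ⟨P, hP⟩))
  · haveI : Fintype K₀ := Fintype.ofFinite _
    obtain ⟨m, hm, hm1⟩ := subfield_num hF K₀
    set K := Nat.card K₀ with hKd
    have hK2 : 2 ≤ K := by
      rw [hKd, Nat.card_eq_fintype_card]
      exact Fintype.one_lt_card
    rcases hK with hK | ⟨hsq, hK⟩
    · have hdvd : K ∣ 3 ^ p := by
        rw [← hm]
        exact dvd_pow_self _ (by omega)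
      obtain ⟨a, -, ha⟩ := (Nat.dvd_prime_pow Nat.prime_three).1 hdvd
      have hap : a * m = p := by
        rw [ha, ← pow_mul] at hm
        exact Nat.pow_right_injective (by norm_num) hm
      have hcases : a = 1 ∨ m = 1 := by
        have h1 : a ∣ p := ⟨m, hap.symm⟩
        rcases (Nat.dvd_prime hp).1 h1 with h2 | h2
        · exact Or.inl h2
        · right
          rw [h2] at hap
          have : p * m = p * 1 := by rw [hap, mul_one]
          exact Nat.eq_of_mul_eq_mul_left hp.pos this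
      rcases hcases with h1 | h1
      · subst h1
        refine Or.inr (Or.inr (Or.inr ⟨K₀, P, ?_, hK⟩))
        show K = 3
        rw [ha, pow_one]
      · exfalso
        subst h1
        rw [pow_one] at hm
        have hq27 : 27 ≤ 3 ^ p := by
          have h3 : 3 ≤ p := by
            have := hp.two_le
            obtain ⟨k, rfl⟩ := hodd
            omega
          calc 27 = 3 ^ 3 := by norm_num
            _ ≤ 3 ^ p := Nat.pow_le_pow_right (by norm_num) h3
        have htop : H = ⊤ := by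
          apply Subgroup.eq_top_of_card_eq
          have e1 : Nat.card H = Nat.card (conjSub P H) := Nat.card_congr (conjSubEquiv P H).toEquiv
          rw [e1, hK, range_card_psl]
          have e2 : Fintype.card K₀ = 3 ^ p := by
            rw [← Nat.card_eq_fintype_card]
            exact hm
          have hoddq : Odd (3 ^ p) := Odd.pow (by decide)
          exact Nat.eq_of_mul_eq_mul_left (by norm_num : 0 < 2) ((card_psl2_odd e2 hoddq).trans (card_psl2_odd hF hoddq).symm)
        subst htop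
        exact pe_not_solvable (by rw [hF]; omega) (isSolvable_of_equiv Subgroup.topEquiv.symm hs)
    · exfalso
      obtain ⟨z, hz⟩ := hsq (-1) (by simp)
      exact neg_one_nsq hodd hF z (by simpa using hz.symm)

end Class

section Parts

variable {F : Type*} [Field F] [Fintype F] {p : ℕ}

theorem q27 (hp : p.Prime) (hodd : Odd p) : 27 ≤ 3 ^ p := by
  have h3 : 3 ≤ p := by
    have := hp.two_le
    obtain ⟨k, rfl⟩ := hodd
    omega
  calc 27 = 3 ^ 3 := by norm_num
    _ ≤ 3 ^ p := Nat.pow_le_pow_right (by norm_num) h3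

theorem pow_mod_three (hp : p.Prime) : 3 ^ p % 3 = 0 := by
  rw [Nat.pow_mod]
  simp [hp.ne_zero]

theorem card_bo (hp : p.Prime) (hodd : Odd p) (hF : Fintype.card F = 3 ^ p) : 2 * Nat.card (Bo F) = 3 ^ p * (3 ^ p - 1) := by
  have h1 := card_Bo hF
  have h2 := card_psl2_odd hF (Odd.pow (by decide) : Odd (3 ^ p))
  have hq := q27 hp hodd
  generalize 3 ^ p = q at *
  have h3 : q ^ 2 - 1 = (q - 1) * (q + 1) := by
    obtain ⟨r, rfl⟩ : ∃ r, q = r + 1 := ⟨q - 1, by omega⟩
    simp only [Nat.add_sub_cancel]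
    have : (r + 1) ^ 2 = r * (r + 1 + 1) + 1 := by ring
    rw [this, Nat.add_sub_cancel]
  rw [← h1, h3, ← mul_assoc, ← mul_assoc] at h2
  exact Nat.eq_of_mul_eq_mul_right (by omega) h2

theorem rot_class (hp : p.Prime) (hodd : Odd p) (hF : Fintype.card F = 3 ^ p) {x y : Pe F} (hx : x * x ≠ 1) (hx3 : x ^ 3 ≠ 1)
    (hs : Group.IsSolvable (Subgroup.closure ({x, y} : Set (Pe F)))) :
    y * x * y⁻¹ = x ∨ y * x * y⁻¹ = x⁻¹ ∨
      ∃ P : GL (Fin 2) F, ∀ A : SL(2, F), mkP A ∈ conjSub P (Subgroup.closure ({x, y} : Set (Pe F))) → A.1 1 0 = 0 := by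
  have hxm : x ∈ Subgroup.closure ({x, y} : Set (Pe F)) := Subgroup.subset_closure (Or.inl rfl)
  have hym : y ∈ Subgroup.closure ({x, y} : Set (Pe F)) := Subgroup.subset_closure (Or.inr rfl)
  rcases sol_class hp hodd hF _ hs with ⟨h, -⟩ | ⟨⟨c, ⟨e⟩⟩, -⟩ | h | ⟨K₀, P, hK, hr⟩
  · left
    rw [h y hym x hxm]
    group
  · rcases dih_rot e hxm hym hx with h | h
    · exact Or.inl h
    · exact Or.inr (Or.inl h)
  · exact Or.inr (Or.inr h)
  · exfalso
    obtain ⟨X, rfl⟩ := mkP_surj x
    rcases three_cases hK (tr_mem_K hr hxm) with h | h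
    · exact hx (inv_of_tr0 X h)
    · exact hx3 (cube_of_tr X h)

theorem two_ne (h30 : (3 : F) = 0) : (2 : F) ≠ 0 := by
  intro h
  have : (1 : F) = 0 := by linear_combination h30 - h
  exact one_ne_zero this

/-- Elements of order dividing `q - 1` are diagonal. -/
theorem conj_diag (hp : p.Prime) (hodd : Odd p) (hF : Fintype.card F = 3 ^ p) {x : Pe F} (hx : x ≠ 1) (hx2 : x * x ≠ 1)
    (hx3 : x ^ 3 ≠ 1) (hord : orderOf x ∣ 3 ^ p - 1) :
    ∃ (c : F) (hc : c ≠ 0), c ^ 4 ≠ 1 ∧ ∃ Θ : Pe F ≃* Pe F, Θ (mkP (dg c hc)) = x := by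
  classical
  have h30 := three0 hp hF
  have h2 := two_ne h30
  have hq := q27 hp hodd
  haveI := charP3 h30
  haveI : Fact (Nat.Prime 3) := ⟨Nat.prime_three⟩
  obtain ⟨A, rfl⟩ := mkP_surj x
  obtain ⟨l, hl0, htr, hpow⟩ := Sol2.exists_alg_eig A
  have h1 : (l ^ (3 ^ p - 1)) ^ 2 = 1 := hpow _ (orderOf_dvd_iff_pow_eq_one.1 hord)
  let j := algebraMap F (AlgebraicClosure F)
  haveI : CharP (AlgebraicClosure F) 3 := charP_of_injective_algebraMap j.injective 3
  have hq1 : 3 ^ p = (3 ^ p - 1) + 1 := by omega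
  have htrA : trS A = A.1 0 0 + A.1 1 1 := rfl
  have hex : ∃ c : F, c ≠ 0 ∧ trS A = c + c⁻¹ := by
    rcases QS.sq_one_cases h1 with h3 | h3
    · have h4 : l ^ Fintype.card F = l := by
        rw [hF, hq1, pow_succ, h3, one_mul]
      obtain ⟨c, hc⟩ := mem_range_of_pow_card j h4
      have hc0 : c ≠ 0 := by
        rintro rfl
        rw [map_zero] at hc
        exact hl0 hc.symm
      refine ⟨c, hc0, ?_⟩
      apply j.injective
      rw [htrA, htr, map_add, map_inv₀]
      show _ = j c + (j c)⁻¹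
      rw [hc]
    · exfalso
      have h4 : l ^ (3 ^ p) = -l := by
        rw [hq1, pow_succ, h3]
        ring
      have h5 : (l⁻¹) ^ (3 ^ p) = -l⁻¹ := by
        rw [inv_pow, h4]
        exact inv_neg
      have h6 : (l + l⁻¹) ^ (3 ^ p) = -(l + l⁻¹) := by
        rw [add_pow_char_pow, h4, h5]
        ring
      rw [← htr, ← map_pow] at h6
      have h7 : (A.1 0 0 + A.1 1 1) ^ (3 ^ p) = A.1 0 0 + A.1 1 1 := by
        rw [← hF]
        exact FiniteField.pow_card _
      rw [h7] at h6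
      have h8 : j (2 * trS A) = 0 := by
        rw [map_mul, map_ofNat, htrA]
        show 2 * j _ = 0
        linear_combination h6
      have h9 : 2 * trS A = 0 := by
        simpa using h8
      have h10 : trS A = 0 := (mul_eq_zero.1 h9).resolve_left h2
      exact hx2 (inv_of_tr0 A h10)
  obtain ⟨c, hc, htrc⟩ := hex
  have hc4 : c ^ 4 ≠ 1 := by
    intro h
    have h3 : (c * c - 1) * (c * c + 1) = 0 := by linear_combination h
    rcases mul_eq_zero.1 h3 with h4 | h4
    · have h5 : c⁻¹ = c := by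
        field_simp
        linear_combination -h4
      apply hx3
      apply cube_of_tr
      rw [htrc, h5]
      linear_combination 4 * h4 + h30
    · exact neg_one_nsq hodd hF c (by linear_combination h4)
  refine ⟨c, hc, hc4, ?_⟩
  apply conj_of_trace _ _ _ hx
  · simp only [dg_00, dg_11]
    exact htrc.symm
  · intro h
    rw [mkP_eq_one_iff] at h
    apply hc4
    rcases h with h | h
    · have := congrArg (fun B : SL(2, F) => B.1 0 0) h
      simp at this
      rw [this]
      norm_num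
    · have := congrFun (congrFun h 0) 0
      simp at this
      rw [this]
      norm_num

theorem part_diag (hp : p.Prime) (hodd : Odd p) (hF : Fintype.card F = 3 ^ p) {x : Pe F} (hx : x ≠ 1) (hx0 : orderOf x ≠ 2)
    (hord : orderOf x ∣ 3 ^ p - 1) :
    Nat.card {y : Pe F // Group.IsSolvable (Subgroup.closure ({x, y} : Set (Pe F)))} = 3 ^ p * (3 ^ p - 1) := by
  have hq := q27 hp hodd
  have hm := pow_mod_three hp
  have hx2 : x * x ≠ 1 := by
    intro h
    have h5 : orderOf x ∣ 2 := orderOf_dvd_of_pow_eq_one (by rw [pow_two, h])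
    rcases (Nat.dvd_prime Nat.prime_two).1 h5 with h7 | h7
    · exact hx (orderOf_eq_one_iff.1 h7)
    · exact hx0 h7
  have hx3 : x ^ 3 ≠ 1 := by
    intro h
    have h5 : orderOf x ∣ 3 := orderOf_dvd_of_pow_eq_one h
    rcases (Nat.dvd_prime Nat.prime_three).1 h5 with h7 | h7
    · exact hx (orderOf_eq_one_iff.1 h7)
    · rw [h7] at hord
      omega
  obtain ⟨c, hc, hc4, Θ, rfl⟩ := conj_diag hp hodd hF hx hx2 hx3 hord
  rw [sol_conj Θ]
  rw [count_diag_of c hc hc4 (fun y hy => rot_class hp hodd hF (fun h => hx2 (by rw [← map_mul, h, map_one]))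
    (fun h => hx3 (by rw [← map_pow, h, map_one])) hy), card_bo hp hodd hF]

theorem part_torus (hp : p.Prime) (hodd : Odd p) (hF : Fintype.card F = 3 ^ p) {x : Pe F} (hx : x ≠ 1) (hx0 : orderOf x ≠ 2)
    (hord : orderOf x ∣ 3 ^ p + 1) :
    Nat.card {y : Pe F // Group.IsSolvable (Subgroup.closure ({x, y} : Set (Pe F)))} = 3 ^ p + 1 := by
  classical
  have h30 := three0 hp hF
  have h2 := two_ne h30
  have hq := q27 hp hodd
  have hm := pow_mod_three hp
  have hm4 := pow_mod_four hodd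
  haveI := charP3 h30
  haveI : Fact (Nat.Prime 3) := ⟨Nat.prime_three⟩
  have hx2 : x * x ≠ 1 := by
    intro h
    have h5 : orderOf x ∣ 2 := orderOf_dvd_of_pow_eq_one (by rw [pow_two, h])
    rcases (Nat.dvd_prime Nat.prime_two).1 h5 with h7 | h7
    · exact hx (orderOf_eq_one_iff.1 h7)
    · exact hx0 h7
  have hx3 : x ^ 3 ≠ 1 := by
    intro h
    have h5 : orderOf x ∣ 3 := orderOf_dvd_of_pow_eq_one h
    rcases (Nat.dvd_prime Nat.prime_three).1 h5 with h7 | h7
    · exact hx (orderOf_eq_one_iff.1 h7)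
    · rw [h7] at hord
      omega
  obtain ⟨N, hN, hN3, ρ, σ, ho, hσσ, hc, hn, hg⟩ := torus_data hF 3 x hx3
  have hgcd : Nat.gcd 2 (3 ^ p - 1) = 2 := gcd_two_odd (by omega)
  rw [hgcd] at ho
  have hxρ : orderOf x ∣ N / 2 := by
    rw [← ho]
    exact orderOf_dvd_of_mem_zpowers hg
  have hN1 : N = 3 ^ p + 1 := by
    rcases hN with h | h
    · exfalso
      have h3 : orderOf x ∣ 3 ^ p - 1 := by
        rw [h] at hxρ
        exact hxρ.trans (Nat.div_dvd_of_dvd (by omega))
      have h1 : orderOf x ∣ 2 := by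
        have h3' : orderOf x ∣ (3 ^ p + 1) - (3 ^ p - 1) := Nat.dvd_sub hord h3
        have e : (3 ^ p + 1) - (3 ^ p - 1) = 2 := by omega
        rwa [e] at h3'
      rcases (Nat.dvd_prime Nat.prime_two).1 h1 with h7 | h7
      · exact hx (orderOf_eq_one_iff.1 h7)
      · exact hx0 h7
    · exact h
  subst hN1
  set k := (3 ^ p + 1) / 2 with hk
  have hk2 : 2 * k = 3 ^ p + 1 := by omega
  obtain ⟨D, h1, h2', hcard, ⟨e⟩⟩ := exists_dih_sub ρ σ ho hσσ hc hn
  have hcardG := card_psl2_odd hF (Odd.pow (by decide) : Odd (3 ^ p))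
  have hρ2 : ρ * ρ ≠ 1 := by
    intro h
    have h5 : orderOf ρ ∣ 2 := orderOf_dvd_of_pow_eq_one (by rw [pow_two, h])
    have := Nat.le_of_dvd (by norm_num) h5
    omega
  have hDcoat : IsCoatom D := by
    apply dih_coatom hF 3 ρ σ k ho (by omega) hσσ hc D h1 h2' hcard (by omega)
    · intro h
      rw [h, card_top_eq] at hcard
      rw [hcard, hk2] at hcardG
      generalize 3 ^ p = q at hcardG hq
      have h5 : 27 * 27 ≤ q ^ 2 := by nlinarith
      have h6 : 700 ≤ q ^ 2 - 1 := by omega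
      have h7 : q * 700 ≤ q * (q ^ 2 - 1) := Nat.mul_le_mul_left _ h6
      omega
    · rw [hgcd]
      omega
    · rintro (h | h)
      · omega
      · omega
    · rintro (h | h) -
      · omega
      · omega
    · intro r m hr hm' hr2 hkr _
      have h3 : r ^ 2 ≤ r ^ m := Nat.pow_le_pow_right (by omega) hm'
      rw [hr] at h3
      have h4 : r ≤ 2 := by nlinarith
      have h5 : r ^ 2 ≤ 4 := by nlinarith
      omega
  have hcd : Nat.card D = 3 ^ p + 1 := by rw [hcard, hk2]
  rw [count_torus_of (by rw [hF]; omega) hx hDcoat (isSolvable_of_equiv e (isSolvable_dihedral _)) ?_ ?_ ?_, hcd]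
  · obtain ⟨z, rfl⟩ := Subgroup.mem_zpowers_iff.1 hg
    exact D.zpow_mem h1 z
  · intro z hz
    obtain ⟨n, rfl⟩ := Subgroup.mem_zpowers_iff.1 hg
    have hrot := dih_rot e h1 hz hρ2
    rw [← conj_zpow]
    rcases hrot with h | h
    · rw [h]
      exact Subgroup.mem_zpowers _
    · rw [h, _root_.inv_zpow]
      exact Subgroup.inv_mem _ (Subgroup.mem_zpowers _)
  · intro y hy
    rcases rot_class hp hodd hF hx2 hx3 hy with h | h | ⟨P, hP⟩
    · exact Or.inl h
    · exact Or.inr h
    · exfalso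
      obtain ⟨v, hv0, hv⟩ := borel_vec _ P hP
      obtain ⟨A, rfl⟩ := mkP_surj x
      obtain ⟨l, hl⟩ := hv A (Subgroup.subset_closure (Or.inl rfl))
      have hpow := eig_pow_sq A hv0 _ (orderOf_dvd_iff_pow_eq_one.1 hord) hl
      obtain ⟨hl0, htr⟩ := eig_trace A hv0 hl
      have h4 : l ^ (3 ^ p - 1) = 1 := by
        rw [← hF]
        exact FiniteField.pow_card_sub_one_eq_one l hl0
      have h5 : (l * l) * (l * l) = 1 := by
        have e' : 3 ^ p + 1 = (3 ^ p - 1) + 2 := by omega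
        rw [e', pow_add, h4, one_mul] at hpow
        linear_combination hpow
      have h6 : (l * l - 1) * (l * l + 1) = 0 := by linear_combination h5
      rcases mul_eq_zero.1 h6 with h7 | h7
      · have h8 : l⁻¹ = l := by
          field_simp
          linear_combination -h7
        apply hx3
        apply cube_of_tr
        have : trS A = l + l := by rw [← h8]; nth_rw 1 [h8]; exact htr
        rw [this]
        linear_combination 4 * h7 + h30
      · exact neg_one_nsq hodd hF l (by linear_combination h7)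

end Parts

end Cfsg.Agent.Lib.LocalEven.Sol3
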