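/-
Solubilizers in `PSL₂(3^p)`: counting (helper23).
-/
import Mathlib
import Cfsg.Agent.Lib.LocalEven.Sol3

set_option autoImplicit false
set_option linter.unusedSimpArgs false
set_option linter.unusedVariables false
set_option linter.unusedSectionVars false
set_option linter.style.haveILetI false

namespace Cfsg.Agent.Lib.LocalEven.Sol3b

open Cfsg.Agent.Lib.Classical Cfsg.Agent.Lib.LocalEven.PslMax Cfsg.Agent.Lib.LocalEven.PslMax2
  Cfsg.Agent.Lib.LocalEven.PslMax3 Cfsg.Agent.Lib.LocalEven.PslMax4 Cfsg.Agent.Lib.LocalEven.SolBase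
  Cfsg.Agent.Lib.LocalEven.PglMax Matrix
open scoped MatrixGroups

section Cover

variable {F : Type*} [Field F]

/-- Negation in `SL₂`. -/
def ngS (Y : SL(2, F)) : SL(2, F) :=
  ⟨-Y.1, by
    rw [Matrix.det_fin_two]
    have := sl_det Y
    simp only [Matrix.neg_apply]
    linear_combination this⟩

@[simp] theorem ngS_apply (Y : SL(2, F)) (i j : Fin 2) : (ngS Y).1 i j = -Y.1 i j := rfl

theorem mkP_ngS (Y : SL(2, F)) : mkP (ngS Y) = mkP Y := by
  rw [mkP_eq_iff]
  right
  show Y.1 = -(-Y.1)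
  rw [neg_neg]

theorem ne_ngS (h2 : (2 : F) ≠ 0) (Y : SL(2, F)) : Y ≠ ngS Y := by
  intro h
  have hz : ∀ i j, Y.1 i j = 0 := by
    intro i j
    have e := congrArg (fun A : SL(2, F) => A.1 i j) h
    simp only [ngS_apply] at e
    have h3 : 2 * Y.1 i j = 0 := by linear_combination e
    exact (mul_eq_zero.1 h3).resolve_left h2
  have hd := sl_det Y
  rw [hz 0 0, hz 0 1] at hd
  simp at hd

/-- The map `SL₂ → PSL₂` is two to one. -/
theorem ncard_cover [Finite F] (h2 : (2 : F) ≠ 0) (P : SL(2, F) → Prop) (hP : ∀ A B : SL(2, F), mkP A = mkP B → P A → P B) :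
    {Y : SL(2, F) | P Y}.ncard = 2 * {y : Pe F | ∃ Y : SL(2, F), y = mkP Y ∧ P Y}.ncard := by
  classical
  haveI : Fintype F := Fintype.ofFinite F
  haveI : Fintype (Pe F) := Fintype.ofFinite _
  haveI : Fintype (SL(2, F)) := Fintype.ofFinite _
  rw [Set.ncard_eq_toFinset_card', Set.ncard_eq_toFinset_card']
  rw [Finset.card_eq_sum_card_fiberwise (f := mkP) (t := {y : Pe F | ∃ Y : SL(2, F), y = mkP Y ∧ P Y}.toFinset)]
  · rw [Finset.sum_const_nat (m := 2), mul_comm]
    intro b hb
    simp only [Set.mem_toFinset, Set.mem_setOf_eq] at hb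
    obtain ⟨Y, rfl, hY⟩ := hb
    have : ({Y : SL(2, F) | P Y}.toFinset.filter (fun X => mkP X = mkP Y)) = {Y, ngS Y} := by
      ext X
      simp only [Finset.mem_filter, Set.mem_toFinset, Set.mem_setOf_eq, Finset.mem_insert, Finset.mem_singleton]
      constructor
      · rintro ⟨h1, h3⟩
        rcases (mkP_eq_iff X Y).1 h3 with h4 | h4
        · exact Or.inl h4
        · right
          apply Subtype.ext
          show X.1 = -Y.1
          rw [h4, neg_neg]
      · rintro (rfl | rfl)
        · exact ⟨hY, rfl⟩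
        · exact ⟨hP _ _ (mkP_ngS Y).symm hY, mkP_ngS Y⟩
    rw [this, Finset.card_pair (ne_ngS h2 Y)]
  · intro X hX
    simp only [Set.coe_toFinset, Set.mem_setOf_eq] at hX ⊢
    exact ⟨X, rfl, hX⟩

end Cover

section Circle

variable {F : Type*} [Field F] [Fintype F]

/-- The circle. -/
def Cir (F : Type*) [Field F] (n : F) : Set (F × F) := {t | t.1 ^ 2 + t.2 ^ 2 = n}

theorem card_cir1 (h2 : (2 : F) ≠ 0) (hn : ∀ z : F, z * z ≠ -1) : (Cir F 1).ncard = Fintype.card F + 1 := by
  classical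
  have hne : ∀ t : F, 1 + t ^ 2 ≠ 0 := by
    intro t h
    exact hn t (by linear_combination h)
  let m : F → F × F := fun t => ((1 - t ^ 2) / (1 + t ^ 2), 2 * t / (1 + t ^ 2))
  have hinj : Function.Injective m := by
    intro s t h
    have h1 := congrArg Prod.fst h
    have h3 := congrArg Prod.snd h
    simp only [m] at h1 h3
    have hs := hne s
    have ht := hne t
    field_simp at h1 h3
    have h4 : 2 * (s ^ 2 - t ^ 2) = 0 := by linear_combination -h1
    have h5 : s ^ 2 = t ^ 2 := sub_eq_zero.1 ((mul_eq_zero.1 h4).resolve_left h2)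
    have h6 : s * (1 + t ^ 2) = t * (1 + s ^ 2) := by
      linear_combination h3
    rw [h5] at h6
    exact mul_right_cancel₀ (hne s) (by rw [h5]; exact h6)
  have hset : Cir F 1 = insert (-1, 0) (Set.range m) := by
    ext ⟨a, b⟩
    simp only [Cir, Set.mem_setOf_eq, Set.mem_insert_iff, Set.mem_range, Prod.mk.injEq]
    constructor
    · intro h
      by_cases ha : a = -1
      · left
        refine ⟨ha, ?_⟩
        rw [ha] at h
        have : b ^ 2 = 0 := by linear_combination h
        exact pow_eq_zero_iff (by norm_num) |>.1 this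
      · right
        have ha1 : 1 + a ≠ 0 := fun h1 => ha (by linear_combination h1)
        refine ⟨b / (1 + a), ?_⟩
        have e1 : 1 + (b / (1 + a)) ^ 2 = 2 / (1 + a) := by
          field_simp
          linear_combination h
        have hm : m (b / (1 + a)) = (a, b) := by
          simp only [m]
          rw [e1]
          ext
          · simp only
            field_simp
            linear_combination (-1 : F) * h
          · simp only
            field_simp
        exact hm
    · rintro (⟨rfl, rfl⟩ | ⟨t, h⟩)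
      · norm_num
      · have h1 := congrArg Prod.fst h
        have h3 := congrArg Prod.snd h
        simp only [m] at h1 h3
        rw [← h1, ← h3]
        have ht := hne t
        field_simp
        ring
  rw [hset, Set.ncard_insert_of_notMem, ← Set.image_univ, Set.ncard_image_of_injective _ hinj, Set.ncard_univ, Nat.card_eq_fintype_card]
  · rintro ⟨t, ht⟩
    have h1 := congrArg Prod.fst ht
    simp only [m] at h1
    have hs := hne t
    field_simp at h1
    apply h2
    linear_combination h1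

theorem card_cirm1 (h30 : (3 : F) = 0) (h2 : (2 : F) ≠ 0) (hn : ∀ z : F, z * z ≠ -1) : (Cir F (-1)).ncard = Fintype.card F + 1 := by
  rw [← card_cir1 h2 hn]
  have hinj : Function.Injective (fun t : F × F => (t.1 - t.2, t.1 + t.2)) := by
    rintro ⟨a, b⟩ ⟨c, d⟩ h
    simp only [Prod.mk.injEq] at h
    obtain ⟨h3, h4⟩ := h
    have e1 : a = c := by
      apply mul_left_cancel₀ h2
      linear_combination h3 + h4
    have e2 : b = d := by
      apply mul_left_cancel₀ h2
      linear_combination h4 - h3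
    rw [e1, e2]
  have : Cir F (-1) = (fun t : F × F => (t.1 - t.2, t.1 + t.2)) '' Cir F 1 := by
    ext ⟨a, b⟩
    constructor
    · intro h
      have h' : a ^ 2 + b ^ 2 = -1 := h
      refine ⟨(-(a + b), a - b), ?_, ?_⟩
      · show (-(a + b)) ^ 2 + (a - b) ^ 2 = 1
        linear_combination 2 * h' - h30
      · simp only [Prod.mk.injEq]
        constructor
        · linear_combination (-a) * h30
        · linear_combination (-b) * h30
    · rintro ⟨⟨c, d⟩, h, h1⟩
      have h' : c ^ 2 + d ^ 2 = 1 := h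
      simp only [Prod.mk.injEq] at h1
      obtain ⟨rfl, rfl⟩ := h1
      show (c - d) ^ 2 + (c + d) ^ 2 = -1
      linear_combination 2 * h' + h30
  rw [this]
  exact Set.ncard_image_of_injective _ hinj

end Circle

section Count

variable {F : Type*} [Field F] [Fintype F]

/-- Trace zero. -/
def PA (F : Type*) [Field F] : Set (SL(2, F)) := {Y | Y.1 0 0 + Y.1 1 1 = 0}
/-- Product with the Weyl element has trace zero. -/
def PB (F : Type*) [Field F] : Set (SL(2, F)) := {Y | Y.1 0 1 = Y.1 1 0}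
/-- Commuting with the Weyl element. -/
def PC (F : Type*) [Field F] : Set (SL(2, F)) := {Y | Y.1 0 0 = Y.1 1 1 ∧ Y.1 0 1 = -Y.1 1 0}
/-- Traces in the prime field. -/
def PE (F : Type*) [Field F] : Set (SL(2, F)) := {Y | (Y.1 0 0 + Y.1 1 1) ^ 2 = 1 ∧ (Y.1 1 0 - Y.1 0 1) ^ 2 = 1}

theorem card_nonzero : ({b : F | b ≠ 0}).ncard = Fintype.card F - 1 := by
  classical
  have h : {b : F | b ≠ 0} = ({0} : Set F)ᶜ := by
    ext b
    simp
  rw [h, Set.ncard_compl, Set.ncard_singleton, Nat.card_eq_fintype_card]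

/-- Number of elements of trace zero. -/
theorem card_PA (hn : ∀ z : F, z * z ≠ -1) : (PA F).ncard = Fintype.card F * (Fintype.card F - 1) := by
  classical
  let ρ : SL(2, F) → F × F := fun Y => (Y.1 0 0, Y.1 0 1)
  have hb : ∀ Y ∈ PA F, Y.1 0 1 ≠ 0 := by
    intro Y hY h
    have hY' : Y.1 0 0 + Y.1 1 1 = 0 := hY
    have hd := sl_det Y
    rw [h] at hd
    apply hn (Y.1 0 0)
    have : Y.1 1 1 = - Y.1 0 0 := by linear_combination hY'
    rw [this] at hd
    linear_combination -hd
  have hinj : Set.InjOn ρ (PA F) := by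
    intro Y hY Z hZ h
    have hY' : Y.1 0 0 + Y.1 1 1 = 0 := hY
    have hZ' : Z.1 0 0 + Z.1 1 1 = 0 := hZ
    have h1 : Y.1 0 0 = Z.1 0 0 := congrArg Prod.fst h
    have h3 : Y.1 0 1 = Z.1 0 1 := congrArg Prod.snd h
    have h4 : Y.1 1 1 = Z.1 1 1 := by linear_combination hY' - hZ' - h1
    have hd1 := sl_det Y
    have hd2 := sl_det Z
    have h5 : Y.1 1 0 = Z.1 1 0 := by
      apply mul_left_cancel₀ (hb Y hY)
      rw [h1, h4] at hd1
      rw [h3]
      rw [h3] at hd1
      linear_combination hd2 - hd1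
    exact sl_ext h1 h3 h5 h4
  have himg : ρ '' PA F = Set.univ ×ˢ {b : F | b ≠ 0} := by
    ext ⟨a, b⟩
    constructor
    · rintro ⟨Y, hY, h⟩
      have h1 : Y.1 0 0 = a := congrArg Prod.fst h
      have h3 : Y.1 0 1 = b := congrArg Prod.snd h
      exact ⟨trivial, by rw [← h3]; exact hb Y hY⟩
    · rintro ⟨-, hb0⟩
      have hb0' : b ≠ 0 := hb0
      let Y : SL(2, F) := ⟨!![a, b; (-1 - a * a) / b, -a], by
        rw [Matrix.det_fin_two]
        simp
        field_simp
        ring⟩
      refine ⟨Y, ?_, rfl⟩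
      show a + -a = 0
      ring
  rw [← Set.ncard_image_of_injOn hinj, himg, Set.ncard_prod, Set.ncard_univ, Nat.card_eq_fintype_card, card_nonzero]

theorem card_PB (hn : ∀ z : F, z * z ≠ -1) : (PB F).ncard = Fintype.card F * (Fintype.card F - 1) := by
  rw [← card_PA hn]
  have : PB F = (fun Y => (wz : SL(2, F))⁻¹ * Y) '' PA F := by
    ext Y
    constructor
    · intro h
      have h' : Y.1 0 1 = Y.1 1 0 := h
      refine ⟨wz * Y, ?_, by simp⟩
      show (wz * Y).1 0 0 + (wz * Y).1 1 1 = 0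
      simp only [sl_mul_apply, wz_00, wz_01, wz_10, wz_11]
      linear_combination -h'
    · rintro ⟨Z, hZ, rfl⟩
      have hZ' : Z.1 0 0 + Z.1 1 1 = 0 := hZ
      have hwi : ((wz : SL(2, F))⁻¹).1 = !![0, -1; 1, 0] := by
        rw [Matrix.SpecialLinearGroup.coe_inv, Matrix.adjugate_fin_two]
        ext i j
        fin_cases i <;> fin_cases j <;> simp
      have h00 : ((wz : SL(2, F))⁻¹).1 0 0 = 0 := by rw [hwi]; simp
      have h01 : ((wz : SL(2, F))⁻¹).1 0 1 = -1 := by rw [hwi]; simp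
      have h10 : ((wz : SL(2, F))⁻¹).1 1 0 = 1 := by rw [hwi]; simp
      have h11 : ((wz : SL(2, F))⁻¹).1 1 1 = 0 := by rw [hwi]; simp
      show ((wz : SL(2, F))⁻¹ * Z).1 0 1 = ((wz : SL(2, F))⁻¹ * Z).1 1 0
      simp only [sl_mul_apply, h00, h01, h10, h11]
      linear_combination -hZ'
  rw [this]
  exact Set.ncard_image_of_injective _ (mul_right_injective _)

theorem card_PAB (h30 : (3 : F) = 0) (h2 : (2 : F) ≠ 0) (hn : ∀ z : F, z * z ≠ -1) : (PA F ∩ PB F).ncard = Fintype.card F + 1 := by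
  classical
  rw [← card_cirm1 h30 h2 hn]
  let ρ : SL(2, F) → F × F := fun Y => (Y.1 0 0, Y.1 0 1)
  have hinj : Set.InjOn ρ (PA F ∩ PB F) := by
    rintro Y ⟨hY, hY2⟩ Z ⟨hZ, hZ2⟩ h
    have hY' : Y.1 0 0 + Y.1 1 1 = 0 := hY
    have hZ' : Z.1 0 0 + Z.1 1 1 = 0 := hZ
    have hY2' : Y.1 0 1 = Y.1 1 0 := hY2
    have hZ2' : Z.1 0 1 = Z.1 1 0 := hZ2
    have h1 : Y.1 0 0 = Z.1 0 0 := congrArg Prod.fst h
    have h3 : Y.1 0 1 = Z.1 0 1 := congrArg Prod.snd h
    exact sl_ext h1 h3 (by rw [← hY2', ← hZ2', h3]) (by linear_combination hY' - hZ' - h1)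
  have himg : ρ '' (PA F ∩ PB F) = Cir F (-1) := by
    ext ⟨a, b⟩
    constructor
    · rintro ⟨Y, ⟨hY, hY2⟩, h⟩
      have hY' : Y.1 0 0 + Y.1 1 1 = 0 := hY
      have hY2' : Y.1 0 1 = Y.1 1 0 := hY2
      have h1 : Y.1 0 0 = a := congrArg Prod.fst h
      have h3 : Y.1 0 1 = b := congrArg Prod.snd h
      show a ^ 2 + b ^ 2 = -1
      have hd := sl_det Y
      have : Y.1 1 1 = - Y.1 0 0 := by linear_combination hY'
      rw [this, ← hY2', h1, h3] at hd
      linear_combination -hd
    · intro h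
      have h' : a ^ 2 + b ^ 2 = -1 := h
      let Y : SL(2, F) := ⟨!![a, b; b, -a], by
        rw [Matrix.det_fin_two]
        simp
        linear_combination -h'⟩
      refine ⟨Y, ⟨?_, ?_⟩, rfl⟩
      · show a + -a = 0
        ring
      · show b = b
        rfl
  rw [← Set.ncard_image_of_injOn hinj, himg]

theorem inj_PC : Set.InjOn (fun Y : SL(2, F) => (Y.1 0 0, Y.1 0 1)) (PC F) := by
  rintro Y ⟨hY, hY2⟩ Z ⟨hZ, hZ2⟩ h
  have h1 : Y.1 0 0 = Z.1 0 0 := congrArg Prod.fst h
  have h3 : Y.1 0 1 = Z.1 0 1 := congrArg Prod.snd h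
  exact sl_ext h1 h3 (by linear_combination hY2 - hZ2 - h3) (by rw [← hY, ← hZ, h1])

theorem img_PC : (fun Y : SL(2, F) => (Y.1 0 0, Y.1 0 1)) '' PC F = Cir F 1 := by
  ext ⟨a, b⟩
  constructor
  · rintro ⟨Y, ⟨hY, hY2⟩, h⟩
    have h1 : Y.1 0 0 = a := congrArg Prod.fst h
    have h3 : Y.1 0 1 = b := congrArg Prod.snd h
    show a ^ 2 + b ^ 2 = 1
    have hd := sl_det Y
    have : Y.1 1 0 = - Y.1 0 1 := by linear_combination hY2
    rw [← hY, this, h1, h3] at hd
    linear_combination hd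
  · intro h
    have h' : a ^ 2 + b ^ 2 = 1 := h
    let Y : SL(2, F) := ⟨!![a, b; -b, a], by
      rw [Matrix.det_fin_two]
      simp
      linear_combination h'⟩
    refine ⟨Y, ⟨rfl, ?_⟩, rfl⟩
    show b = - -b
    ring

theorem card_PC (h2 : (2 : F) ≠ 0) (hn : ∀ z : F, z * z ≠ -1) : (PC F).ncard = Fintype.card F + 1 := by
  rw [← card_cir1 h2 hn, ← img_PC]
  exact (Set.ncard_image_of_injOn inj_PC).symm

theorem card_four (h2 : (2 : F) ≠ 0) : ((PA F ∪ PB F) ∩ PC F).ncard = 4 := by
  classical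
  have hne : (1 : F) ≠ -1 := fun h => h2 (by linear_combination h)
  have h1ne : (-1 : F) ≠ 1 := fun h => hne h.symm
  have himg : (fun Y : SL(2, F) => (Y.1 0 0, Y.1 0 1)) '' ((PA F ∪ PB F) ∩ PC F) =
      (({((0 : F), (1 : F)), ((0 : F), (-1 : F)), ((1 : F), (0 : F)), ((-1 : F), (0 : F))} : Finset (F × F)) : Set (F × F)) := by
    ext ⟨a, b⟩
    simp only [Set.mem_image, Finset.coe_insert, Finset.coe_singleton, Set.mem_insert_iff, Set.mem_singleton_iff, Prod.mk.injEq]
    constructor
    · rintro ⟨Y, ⟨hU, hC⟩, h1, h3⟩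
      have hC1 := hC.1
      have hC2 := hC.2
      have hd := sl_det Y
      have : Y.1 1 0 = - Y.1 0 1 := by linear_combination hC2
      rw [← hC1, this, h1, h3] at hd
      have hU' : a + Y.1 1 1 = 0 ∨ b = Y.1 1 0 := by
        rcases hU with hU | hU
        · left
          have hU' : Y.1 0 0 + Y.1 1 1 = 0 := hU
          rwa [h1] at hU'
        · right
          have hU' : Y.1 0 1 = Y.1 1 0 := hU
          rwa [h3] at hU'
      have hC1' : a = Y.1 1 1 := by rw [← h1]; exact hC1
      rw [this, h3] at hU'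
      rcases hU' with hU' | hU'
      · rw [← hC1'] at hU'
        have ha : a = 0 := by
          have : 2 * a = 0 := by linear_combination hU'
          exact (mul_eq_zero.1 this).resolve_left h2
        rw [ha] at hd
        have hb2 : b ^ 2 = 1 := by linear_combination hd
        rcases QS.sq_one_cases hb2 with h5 | h5
        · exact Or.inl ⟨ha, h5⟩
        · exact Or.inr (Or.inl ⟨ha, h5⟩)
      · have hb : b = 0 := by
          have : 2 * b = 0 := by linear_combination hU'
          exact (mul_eq_zero.1 this).resolve_left h2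
        rw [hb] at hd
        have ha2 : a ^ 2 = 1 := by linear_combination hd
        rcases QS.sq_one_cases ha2 with h5 | h5
        · exact Or.inr (Or.inr (Or.inl ⟨h5, hb⟩))
        · exact Or.inr (Or.inr (Or.inr ⟨h5, hb⟩))
    · intro h
      have hab : a ^ 2 + b ^ 2 = 1 ∧ (a = 0 ∨ b = 0) := by
        rcases h with ⟨rfl, rfl⟩ | ⟨rfl, rfl⟩ | ⟨rfl, rfl⟩ | ⟨rfl, rfl⟩ <;> norm_num
      obtain ⟨h5, h6⟩ := hab
      obtain ⟨Y, hY, hY2⟩ := (img_PC (F := F)).symm ▸ (show (a, b) ∈ Cir F 1 from h5)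
      have h1 : Y.1 0 0 = a := congrArg Prod.fst hY2
      have h3 : Y.1 0 1 = b := congrArg Prod.snd hY2
      refine ⟨Y, ⟨?_, hY⟩, h1, h3⟩
      rcases h6 with h6 | h6
      · left
        show Y.1 0 0 + Y.1 1 1 = 0
        rw [← hY.1, h1, h6]
        ring
      · right
        show Y.1 0 1 = Y.1 1 0
        have : Y.1 1 0 = - Y.1 0 1 := by linear_combination hY.2
        rw [this, h3, h6]
        ring
  have hinj : Set.InjOn (fun Y : SL(2, F) => (Y.1 0 0, Y.1 0 1)) ((PA F ∪ PB F) ∩ PC F) :=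
    inj_PC.mono Set.inter_subset_right
  rw [← Set.ncard_image_of_injOn hinj, himg, Set.ncard_coe_finset]
  rw [Finset.card_insert_of_notMem, Finset.card_insert_of_notMem, Finset.card_pair]
  · simp [h1ne.symm, hne]
  · simp [hne, h1ne]
  · simp [hne, h1ne]

theorem card_PE (h30 : (3 : F) = 0) (h2 : (2 : F) ≠ 0) (hn : ∀ z : F, z * z ≠ -1) : (PE F).ncard = 4 * (Fintype.card F + 1) := by
  classical
  have hne : (1 : F) ≠ -1 := fun h => h2 (by linear_combination h)
  let ρ : SL(2, F) → F × F × (F × F) := fun Y => (Y.1 0 0 + Y.1 1 1, Y.1 1 0 - Y.1 0 1, Y.1 0 0 - Y.1 1 1, Y.1 0 1 + Y.1 1 0)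
  have hinj : Function.Injective ρ := by
    intro Y Z h
    simp only [ρ, Prod.mk.injEq] at h
    obtain ⟨h1, h3, h4, h5⟩ := h
    apply sl_ext
    · apply mul_left_cancel₀ h2
      linear_combination h1 + h4
    · apply mul_left_cancel₀ h2
      linear_combination h5 - h3
    · apply mul_left_cancel₀ h2
      linear_combination h5 + h3
    · apply mul_left_cancel₀ h2
      linear_combination h1 - h4
  have himg : ρ '' PE F = ({1, -1} : Set F) ×ˢ (({1, -1} : Set F) ×ˢ Cir F 1) := by
    ext ⟨t₁, t₂, w₁, w₂⟩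
    constructor
    · rintro ⟨Y, ⟨h1, h3⟩, h⟩
      simp only [ρ, Prod.mk.injEq] at h
      obtain ⟨e1, e2, e3, e4⟩ := h
      rw [e1] at h1
      rw [e2] at h3
      refine ⟨QS.sq_one_cases h1, QS.sq_one_cases h3, ?_⟩
      show w₁ ^ 2 + w₂ ^ 2 = 1
      have hd := sl_det Y
      rw [← e3, ← e4]
      rw [← e1] at h1
      rw [← e2] at h3
      linear_combination h1 + h3 - 4 * hd - h30
    · rintro ⟨h1, h3, h4⟩
      have h1' : t₁ ^ 2 = 1 := by
        have h5 : t₁ = 1 ∨ t₁ = -1 := h1
        rcases h5 with rfl | rfl <;> norm_num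
      have h3' : t₂ ^ 2 = 1 := by
        have h5 : t₂ = 1 ∨ t₂ = -1 := h3
        rcases h5 with rfl | rfl <;> norm_num
      have h4' : w₁ ^ 2 + w₂ ^ 2 = 1 := h4
      -- `1 / 2 = -1` in characteristic three
      let Y : SL(2, F) := ⟨!![-(t₁ + w₁), -(w₂ - t₂); -(w₂ + t₂), -(t₁ - w₁)], by
        rw [Matrix.det_fin_two]
        simp
        linear_combination h1' + h3' - h4'⟩
      refine ⟨Y, ⟨?_, ?_⟩, ?_⟩
      · show (-(t₁ + w₁) + -(t₁ - w₁)) ^ 2 = 1
        linear_combination h1' + (t₁ ^ 2) * h30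
      · show (-(w₂ + t₂) - -(w₂ - t₂)) ^ 2 = 1
        linear_combination h3' + (t₂ ^ 2) * h30
      · simp only [ρ, Prod.mk.injEq]
        refine ⟨?_, ?_, ?_, ?_⟩
        · show -(t₁ + w₁) + -(t₁ - w₁) = t₁
          linear_combination (-t₁) * h30
        · show -(w₂ + t₂) - -(w₂ - t₂) = t₂
          linear_combination (-t₂) * h30
        · show -(t₁ + w₁) - -(t₁ - w₁) = w₁
          linear_combination (-w₁) * h30
        · show -(w₂ - t₂) + -(w₂ + t₂) = w₂
          linear_combination (-w₂) * h30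
  rw [← Set.ncard_image_of_injective _ hinj, himg, Set.ncard_prod, Set.ncard_prod, card_cir1 h2 hn, Set.ncard_pair hne]
  ring

end Count

section Inv

variable {F : Type*} [Field F] [Fintype F] {p : ℕ}

theorem sign_of (A B : SL(2, F)) (h : mkP A = mkP B) : ∃ s : F, s ^ 2 = 1 ∧ ∀ i j, B.1 i j = s * A.1 i j := by
  rw [mkP_eq_iff] at h
  rcases h with rfl | h
  · exact ⟨1, by norm_num, fun i j => by rw [one_mul]⟩
  · refine ⟨-1, by norm_num, fun i j => ?_⟩
    rw [h]
    simp

/-- The set of all. -/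
def SS (F : Type*) [Field F] : Set (SL(2, F)) := PA F ∪ PB F ∪ PC F ∪ PE F

theorem SS_stable (A B : SL(2, F)) (h : mkP A = mkP B) (hA : A ∈ SS F) : B ∈ SS F := by
  obtain ⟨s, hs, he⟩ := sign_of A B h
  have hs0 : s ≠ 0 := by
    rintro rfl
    simp at hs
  rcases hA with ((hA | hA) | hA) | hA
  · left; left; left
    have hA' : A.1 0 0 + A.1 1 1 = 0 := hA
    show B.1 0 0 + B.1 1 1 = 0
    rw [he, he]
    linear_combination s * hA'
  · left; left; right
    have hA' : A.1 0 1 = A.1 1 0 := hA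
    show B.1 0 1 = B.1 1 0
    rw [he, he, hA']
  · left; right
    have h1 : A.1 0 0 = A.1 1 1 := hA.1
    have h3 : A.1 0 1 = -A.1 1 0 := hA.2
    constructor
    · show B.1 0 0 = B.1 1 1
      rw [he, he, h1]
    · show B.1 0 1 = - B.1 1 0
      rw [he, he, h3]
      ring
  · right
    have h1 : (A.1 0 0 + A.1 1 1) ^ 2 = 1 := hA.1
    have h3 : (A.1 1 0 - A.1 0 1) ^ 2 = 1 := hA.2
    constructor
    · show (B.1 0 0 + B.1 1 1) ^ 2 = 1
      rw [he, he]
      linear_combination (s ^ 2) * h1 + hs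
    · show (B.1 1 0 - B.1 0 1) ^ 2 = 1
      rw [he, he]
      linear_combination (s ^ 2) * h3 + hs

theorem card_SS (h30 : (3 : F) = 0) (h2 : (2 : F) ≠ 0) (hn : ∀ z : F, z * z ≠ -1) :
    (SS F).ncard = 2 * (Fintype.card F * (Fintype.card F + 1)) := by
  classical
  have h1 := Set.ncard_union_add_ncard_inter (PA F) (PB F) (Set.toFinite _) (Set.toFinite _)
  have h3 := Set.ncard_union_add_ncard_inter (PA F ∪ PB F) (PC F) (Set.toFinite _) (Set.toFinite _)
  have h4 := Set.ncard_union_add_ncard_inter (PA F ∪ PB F ∪ PC F) (PE F) (Set.toFinite _) (Set.toFinite _)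
  have hdisj : (PA F ∪ PB F ∪ PC F) ∩ PE F = ∅ := by
    ext Y
    simp only [Set.mem_inter_iff, Set.mem_union, Set.mem_empty_iff_false, iff_false, not_and]
    rintro ((h | h) | h) ⟨h5, h6⟩
    · have h' : Y.1 0 0 + Y.1 1 1 = 0 := h
      rw [h'] at h5
      norm_num at h5
    · have h' : Y.1 0 1 = Y.1 1 0 := h
      rw [h', sub_self] at h6
      norm_num at h6
    · have h7 : Y.1 0 0 = Y.1 1 1 := h.1
      have h8 : Y.1 0 1 = -Y.1 1 0 := h.2
      have hd := sl_det Y
      rw [h7, h8] at hd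
      rw [h7] at h5
      rw [h8] at h6
      apply h2
      linear_combination h5 + h6 - 4 * hd
  rw [hdisj, Set.ncard_empty, card_PE h30 h2 hn] at h4
  rw [card_four h2, card_PC h2 hn] at h3
  rw [card_PA hn, card_PB hn, card_PAB h30 h2 hn] at h1
  have hSS : SS F = PA F ∪ PB F ∪ PC F ∪ PE F := rfl
  rw [hSS]
  have hq : 2 ≤ Fintype.card F := Fintype.one_lt_card
  generalize Fintype.card F = q at *
  have e1 : q * q = q * (q - 1) + q := by
    obtain ⟨r, rfl⟩ : ∃ r, q = r + 1 := ⟨q - 1, by omega⟩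
    simp only [Nat.add_sub_cancel]
    ring
  have e2 : 2 * (q * (q + 1)) = 2 * (q * (q - 1)) + 4 * q := by
    rw [mul_add q q 1, e1]
    ring
  rw [e2]
  omega

/-- The solubilizer of the Weyl element. -/
theorem count_wz (hp : p.Prime) (hodd : Odd p) (hF : Fintype.card F = 3 ^ p) :
    Nat.card {y : Pe F // Group.IsSolvable (Subgroup.closure ({mkP (wz : SL(2, F)), y} : Set (Pe F)))} = 3 ^ p * (3 ^ p + 1) := by
  classical
  have h30 := Sol3.three0 hp hF
  have h2 := Sol3.two_ne h30
  have hn := Sol3.neg_one_nsq hodd hF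
  have htr0 : trS (wz : SL(2, F)) = 0 := by simp [trS]
  have hx : mkP (wz : SL(2, F)) * mkP wz = 1 := Sol3.inv_of_tr0 _ htr0
  have hset : {y : Pe F | Group.IsSolvable (Subgroup.closure ({mkP (wz : SL(2, F)), y} : Set (Pe F)))} =
      {y : Pe F | ∃ Y : SL(2, F), y = mkP Y ∧ Y ∈ SS F} := by
    ext y
    constructor
    · intro hy
      obtain ⟨Y, rfl⟩ := mkP_surj y
      refine ⟨Y, rfl, ?_⟩
      have hxm : mkP (wz : SL(2, F)) ∈ Subgroup.closure ({mkP (wz : SL(2, F)), mkP Y} : Set (Pe F)) := Subgroup.subset_closure (Or.inl rfl)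
      have hym : mkP Y ∈ Subgroup.closure ({mkP (wz : SL(2, F)), mkP Y} : Set (Pe F)) := Subgroup.subset_closure (Or.inr rfl)
      have hsq : ∀ Z : SL(2, F), mkP Z * mkP Z = 1 → trS Z = 0 ∨ ∃ s : F, s ^ 2 = 1 ∧ Z.1 0 0 = s ∧ Z.1 1 1 = s ∧ Z.1 0 1 = 0 ∧ Z.1 1 0 = 0 := by
        intro Z hZ
        by_cases h1 : mkP Z = 1
        · right
          obtain ⟨s, hs, he⟩ := sign_of 1 Z h1.symm
          refine ⟨s, hs, ?_, ?_, ?_, ?_⟩ <;> rw [he] <;> simp
        · left
          exact tr_of_two Z (by rw [pow_two]; exact hZ) h1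
      rcases Sol3.sol_class hp hodd hF _ hy with ⟨h, -⟩ | ⟨⟨c, ⟨e⟩⟩, -⟩ | ⟨P, hP⟩ | ⟨K₀, P, hK, hr⟩
      · have h5 : mkP ((wz : SL(2, F)) * Y) = mkP (Y * wz) := h _ hxm _ hym
        obtain ⟨s, hs, he⟩ := sign_of _ _ h5
        have e00 := he 0 0
        have e01 := he 0 1
        have e10 := he 1 0
        have e11 := he 1 1
        simp only [sl_mul_apply, wz_00, wz_01, wz_10, wz_11] at e00 e01 e10 e11
        rcases QS.sq_one_cases hs with rfl | rfl
        · left; right
          constructor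
          · show Y.1 0 0 = Y.1 1 1
            linear_combination e01
          · show Y.1 0 1 = - Y.1 1 0
            linear_combination -e00
        · left; left; left
          show Y.1 0 0 + Y.1 1 1 = 0
          linear_combination e01
      · rcases dih_inv e rfl hx with h | h
        · rcases hsq Y h with h1 | ⟨s, hs, h3, h4, h5, h6⟩
          · exact Or.inl (Or.inl (Or.inl h1))
          · left; right
            refine ⟨by rw [h3, h4], by rw [h5, h6]; simp⟩
        · rcases hsq (wz * Y) h with h1 | ⟨s, hs, h3, h4, h5, h6⟩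
          · left; left; right
            have h1' : ((wz : SL(2, F)) * Y).1 0 0 + ((wz : SL(2, F)) * Y).1 1 1 = 0 := h1
            simp only [sl_mul_apply, wz_00, wz_01, wz_10, wz_11] at h1'
            show Y.1 0 1 = Y.1 1 0
            linear_combination -h1'
          · left; left; left
            simp only [sl_mul_apply, wz_00, wz_01, wz_10, wz_11] at h5 h6
            show Y.1 0 0 + Y.1 1 1 = 0
            linear_combination -h6 + h5
      · exfalso
        obtain ⟨v, hv0, hv⟩ := borel_vec _ P hP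
        obtain ⟨l, hl⟩ := hv wz hxm
        have e0 := congrFun hl 0
        have e1 := congrFun hl 1
        simp [Matrix.mulVec, dotProduct, Fin.sum_univ_two] at e0 e1
        by_cases h0 : v 0 = 0
        · apply hv0
          rw [h0] at e0
          have h1 : v 1 = 0 := by simpa using e0
          ext i
          fin_cases i
          · exact h0
          · exact h1
        · apply hn l
          apply mul_right_cancel₀ h0
          linear_combination -e1 - l * e0
      · have h5 := Sol3.tr_mem_K hr hym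
        have h6 : trS ((wz : SL(2, F)) * Y) ∈ K₀ := Sol3.tr_mem_K hr (Subgroup.mul_mem _ hxm hym)
        have e7 : trS ((wz : SL(2, F)) * Y) = Y.1 1 0 - Y.1 0 1 := by
          simp only [trS, sl_mul_apply, wz_00, wz_01, wz_10, wz_11]
          ring
        rw [e7] at h6
        rcases Sol3.three_cases hK h5 with h7 | h7
        · exact Or.inl (Or.inl (Or.inl h7))
        · rcases Sol3.three_cases hK h6 with h8 | h8
          · left; left; right
            show Y.1 0 1 = Y.1 1 0
            linear_combination -h8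
          · exact Or.inr ⟨h7, h8⟩
    · rintro ⟨Y, rfl, ((h | h) | h) | h⟩
      · exact sol_two_inv hx (Sol3.inv_of_tr0 Y h)
      · show Group.IsSolvable (Subgroup.closure ({mkP (wz : SL(2, F)), mkP Y} : Set (Pe F)))
        have hZ : mkP ((wz : SL(2, F)) * Y) * mkP ((wz : SL(2, F)) * Y) = 1 := by
          apply Sol3.inv_of_tr0
          have h' : Y.1 0 1 = Y.1 1 0 := h
          simp only [trS, sl_mul_apply, wz_00, wz_01, wz_10, wz_11]
          linear_combination -h'
        rw [Set.pair_comm]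
        apply sol_invert hx
        have hxi : (mkP (wz : SL(2, F)))⁻¹ = mkP wz := inv_eq_of_mul_eq_one_left hx
        rw [hxi, eq_inv_iff_mul_eq_one]
        rw [mkP_mul] at hZ
        rw [← hZ]
        group
      · apply Sol3.sol_comm
        rw [← mkP_mul, ← mkP_mul]
        congr 1
        have h1 : Y.1 0 0 = Y.1 1 1 := h.1
        have h3 : Y.1 0 1 = -Y.1 1 0 := h.2
        apply sl_ext <;> simp only [sl_mul_apply, wz_00, wz_01, wz_10, wz_11] <;> simp only [h1, h3] <;> ring
      · apply Sol3.sol_233 hx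
        · exact Sol3.cube_of_tr Y h.1
        · rw [← mkP_mul]
          apply Sol3.cube_of_tr
          have e7 : trS ((wz : SL(2, F)) * Y) = Y.1 1 0 - Y.1 0 1 := by
            simp only [trS, sl_mul_apply, wz_00, wz_01, wz_10, wz_11]
            ring
          rw [e7]
          exact h.2
  have hc := ncard_cover h2 (fun Y => Y ∈ SS F) (fun A B h hA => SS_stable A B h hA)
  have hc2 : {Y : SL(2, F) | Y ∈ SS F}.ncard = (SS F).ncard := rfl
  rw [hc2, card_SS h30 h2 hn, hF] at hc
  have h3 : {y : Pe F | ∃ Y : SL(2, F), y = mkP Y ∧ Y ∈ SS F}.ncard = 3 ^ p * (3 ^ p + 1) :=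
    (Nat.eq_of_mul_eq_mul_left (by norm_num : 0 < 2) hc).symm
  rw [← h3, ← hset]
  exact Nat.card_coe_set_eq _

/-- Part (i). -/
theorem part_inv (hp : p.Prime) (hodd : Odd p) (hF : Fintype.card F = 3 ^ p) {x : Pe F} (hord : orderOf x = 2) :
    Nat.card {y : Pe F // Group.IsSolvable (Subgroup.closure ({x, y} : Set (Pe F)))} = 3 ^ p * (3 ^ p + 1) := by
  have h30 := Sol3.three0 hp hF
  have h2 := Sol3.two_ne h30
  obtain ⟨A, rfl⟩ := mkP_surj x
  have hx1 : mkP A ≠ 1 := by
    intro h
    rw [h, orderOf_one] at hord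
    omega
  have hxx : mkP A ^ 2 = 1 := by
    have h1 := pow_orderOf_eq_one (mkP A)
    rw [hord] at h1
    exact h1
  have htr := tr_of_two A hxx hx1
  have hu1 : mkP (wz : SL(2, F)) ≠ 1 := by
    rw [Ne, mkP_eq_one_iff]
    rintro (h | h)
    · have := congrArg (fun B : SL(2, F) => B.1 0 1) h
      simp at this
    · have := congrFun (congrFun h 0) 1
      simp at this
  obtain ⟨Θ, hΘ⟩ := conj_of_trace (wz : SL(2, F)) A hu1 hx1 (by
    have : A.1 0 0 + A.1 1 1 = 0 := htr
    rw [this]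
    simp)
  rw [← hΘ, sol_conj Θ]
  exact count_wz hp hodd hF

end Inv

section Three

variable {F : Type*} [Field F] [Fintype F] {p : ℕ}

/-- The extra part of the solubilizer of an element of order `3`. -/
def EE (F : Type*) [Field F] : Set (SL(2, F)) := {Y | Y.1 1 0 ^ 2 = 1 ∧ (trS Y = 0 ∨ trS Y ^ 2 = 1)}

theorem EE_stable (A B : SL(2, F)) (h : mkP A = mkP B) (hA : A ∈ EE F) : B ∈ EE F := by
  obtain ⟨s, hs, he⟩ := sign_of A B h
  obtain ⟨h1, h3⟩ := hA
  have htr : trS B = s * trS A := by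
    simp only [trS]
    rw [he, he]
    ring
  refine ⟨?_, ?_⟩
  · rw [he]
    linear_combination (s ^ 2) * h1 + hs
  · rw [htr]
    rcases h3 with h3 | h3
    · left
      rw [h3, mul_zero]
    · right
      linear_combination (s ^ 2) * h3 + hs

theorem card_EE (h30 : (3 : F) = 0) (h2 : (2 : F) ≠ 0) : (EE F).ncard = 6 * Fintype.card F := by
  classical
  have hne : (1 : F) ≠ -1 := fun h => h2 (by linear_combination h)
  have h10 : (1 : F) ≠ 0 := one_ne_zero
  let ρ : SL(2, F) → F × F × F := fun Y => (Y.1 1 0, trS Y, Y.1 0 0)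
  have hinj : Set.InjOn ρ (EE F) := by
    rintro Y ⟨hY, -⟩ Z ⟨hZ, -⟩ h
    simp only [ρ, Prod.mk.injEq] at h
    obtain ⟨h1, h3, h4⟩ := h
    have h5 : Y.1 1 1 = Z.1 1 1 := by
      have e : trS Y = trS Z := h3
      simp only [trS] at e
      rw [h4] at e
      exact add_left_cancel e
    have hY0 : Y.1 1 0 ≠ 0 := by
      intro h
      rw [h] at hY
      norm_num at hY
    have hdY := sl_det Y
    have hdZ := sl_det Z
    have h6 : Y.1 0 1 = Z.1 0 1 := by
      apply mul_right_cancel₀ hY0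
      rw [h4, h5] at hdY
      rw [← h1] at hdZ
      linear_combination hdZ - hdY
    exact sl_ext h4 h6 h1 h5
  have himg : ρ '' EE F = ({1, -1} : Set F) ×ˢ (({0, 1, -1} : Set F) ×ˢ Set.univ) := by
    ext ⟨c, t, a⟩
    constructor
    · rintro ⟨Y, ⟨hY, hY2⟩, h⟩
      simp only [ρ, Prod.mk.injEq] at h
      obtain ⟨e1, e2, e3⟩ := h
      rw [e1] at hY
      rw [e2] at hY2
      refine ⟨QS.sq_one_cases hY, ?_, trivial⟩
      rcases hY2 with h3 | h3
      · exact Or.inl h3
      · exact Or.inr (QS.sq_one_cases h3)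
    · rintro ⟨h1, h3, -⟩
      have h1' : c = 1 ∨ c = -1 := h1
      have h3' : t = 0 ∨ t = 1 ∨ t = -1 := h3
      have hc0 : c ≠ 0 := by
        rcases h1' with rfl | rfl
        · exact one_ne_zero
        · simp
      have hc2 : c ^ 2 = 1 := by
        rcases h1' with rfl | rfl <;> norm_num
      let Y : SL(2, F) := ⟨!![a, (a * (t - a) - 1) / c; c, t - a], by
        rw [Matrix.det_fin_two]
        simp
        field_simp
        ring⟩
      have htrY : trS Y = t := by
        show a + (t - a) = t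
        ring
      refine ⟨Y, ⟨hc2, ?_⟩, ?_⟩
      · rw [htrY]
        rcases h3' with h | h | h
        · exact Or.inl h
        · right
          rw [h]
          norm_num
        · right
          rw [h]
          norm_num
      · simp only [ρ, Prod.mk.injEq]
        exact ⟨rfl, htrY, rfl⟩
  rw [← Set.ncard_image_of_injOn hinj, himg, Set.ncard_prod, Set.ncard_prod, Set.ncard_univ, Nat.card_eq_fintype_card,
    Set.ncard_pair hne]
  have h3 : ({0, 1, -1} : Set F).ncard = 3 := by
    rw [Set.ncard_eq_three]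
    exact ⟨0, 1, -1, h10.symm, by simpa using h10, hne, rfl⟩
  rw [h3]
  ring

/-- An element with lower left entry in the prime field and trace in the prime field. -/
theorem sol_EE (h30 : (3 : F) = 0) (Y : SL(2, F)) (hY : Y ∈ EE F) :
    Group.IsSolvable (Subgroup.closure ({mkP (uu (1 : F)), mkP Y} : Set (Pe F))) := by
  classical
  haveI := Sol3.charP3 h30
  have h2 := Sol3.two_ne h30
  have hex : ∃ Y₁ : SL(2, F), mkP Y₁ = mkP Y ∧ Y₁ ∈ EE F ∧ Y₁.1 1 0 = 1 := by
    rcases QS.sq_one_cases hY.1 with h | h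
    · exact ⟨Y, rfl, hY, h⟩
    · refine ⟨ngS Y, mkP_ngS Y, EE_stable _ _ (mkP_ngS Y).symm hY, ?_⟩
      rw [ngS_apply, h]
      ring
  obtain ⟨Y₁, hY₁, hE, h10⟩ := hex
  rw [← hY₁]
  set a := Y₁.1 0 0 with ha
  set t := trS Y₁ with ht
  have hZ : uu (-a) * Y₁ * uu a = compM t := by
    have hd := sl_det Y₁
    rw [h10] at hd
    apply sl_ext
    · simp only [sl_mul_apply, uu_00, uu_01, uu_10, uu_11, h10]
      show _ = (0 : F)
      rw [← ha]
      ring
    · simp only [sl_mul_apply, uu_00, uu_01, uu_10, uu_11, h10]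
      show _ = (-1 : F)
      rw [← ha] at hd ⊢
      linear_combination -hd
    · simp only [sl_mul_apply, uu_00, uu_01, uu_10, uu_11, h10]
      show _ = (1 : F)
      ring
    · simp only [sl_mul_apply, uu_00, uu_01, uu_10, uu_11, h10]
      show _ = t
      rw [ht]
      simp only [trS]
      rw [← ha]
      ring
  let ι : ZMod 3 →+* F := ZMod.castHom (dvd_refl 3) F
  have htι : ∃ t₀ : ZMod 3, ι t₀ = t := by
    rcases hE.2 with h | h
    · exact ⟨0, by rw [map_zero, ht, h]⟩
    · rcases QS.sq_one_cases h with h | h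
      · exact ⟨1, by rw [map_one, ht, h]⟩
      · exact ⟨-1, by rw [map_neg, map_one, ht, h]⟩
  obtain ⟨t₀, ht₀⟩ := htι
  set R := (pslEmbed ι).range with hR
  have hRsol : Group.IsSolvable R := by
    have h1 : Group.IsSolvable (Pe (ZMod 3)) := psl_solvable_of_card_le (by simp)
    exact isSolvable_of_equiv (MonoidHom.ofInjective (pslEmbed_injective ι)).symm h1
  have hu : mkP (uu (1 : F)) ∈ R := by
    refine ⟨mkP (uu (1 : ZMod 3)), ?_⟩
    rw [pslEmbed_mkP]
    congr 1
    apply sl_ext <;> simp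
  have hc : mkP (compM t) ∈ R := by
    refine ⟨mkP (compM t₀), ?_⟩
    rw [pslEmbed_mkP]
    congr 1
    apply sl_ext
    · show ι 0 = 0
      exact map_zero ι
    · show ι (-1) = -1
      rw [map_neg, map_one]
    · show ι 1 = 1
      exact map_one ι
    · show ι t₀ = t
      exact ht₀
  let Θ : Pe F ≃* Pe F := MulAut.conj (mkP (uu (-a)))
  have hΘ1 : Θ (mkP (uu (1 : F))) = mkP (uu 1) := by
    show mkP (uu (-a)) * mkP (uu 1) * (mkP (uu (-a)))⁻¹ = _
    rw [← mkP_inv, ← uu_neg, neg_neg, ← mkP_mul, ← mkP_mul, ← uu_add, ← uu_add]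
    congr 2
    ring
  have hΘ2 : Θ (mkP Y₁) = mkP (compM t) := by
    show mkP (uu (-a)) * mkP Y₁ * (mkP (uu (-a)))⁻¹ = _
    rw [← mkP_inv, ← uu_neg, neg_neg, ← mkP_mul, ← mkP_mul, hZ]
  apply sol_pair (K := R.map Θ.symm.toMonoidHom)
  · exact ⟨_, hΘ1 ▸ hu, by simp⟩
  · exact ⟨_, hΘ2 ▸ hc, by simp⟩
  · exact isSolvable_of_equiv (Subgroup.equivMapOfInjective _ _ (MulEquiv.injective _)).symm hRsol

/-- The solubilizer of the standard element of order `3`. -/
theorem count_uu3 (hp : p.Prime) (hodd : Odd p) (hF : Fintype.card F = 3 ^ p) :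
    2 * Nat.card {y : Pe F // Group.IsSolvable (Subgroup.closure ({mkP (uu (1 : F)), y} : Set (Pe F)))} = 3 ^ p * (3 ^ p + 5) := by
  classical
  have h30 := Sol3.three0 hp hF
  have h2 := Sol3.two_ne h30
  have hq := Sol3.q27 hp hodd
  have hu3 : mkP (uu (1 : F)) ^ 3 = 1 := by
    apply Sol3.cube_of_tr
    simp [trS]
    linear_combination h30
  have hu1 : mkP (uu (1 : F)) ≠ 1 := by
    rw [Ne, mkP_eq_one_iff]
    rintro (h | h)
    · have := congrArg (fun B : SL(2, F) => B.1 0 1) h
      simp at this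
    · have := congrFun (congrFun h 0) 1
      simp at this
  have hset : {y : Pe F | Group.IsSolvable (Subgroup.closure ({mkP (uu (1 : F)), y} : Set (Pe F)))} =
      ((Bo F : Subgroup (Pe F)) : Set (Pe F)) ∪ {y : Pe F | ∃ Y : SL(2, F), y = mkP Y ∧ Y ∈ EE F} := by
    ext y
    constructor
    · intro hy
      obtain ⟨Y, rfl⟩ := mkP_surj y
      have hxm : mkP (uu (1 : F)) ∈ Subgroup.closure ({mkP (uu (1 : F)), mkP Y} : Set (Pe F)) := Subgroup.subset_closure (Or.inl rfl)
      have hym : mkP Y ∈ Subgroup.closure ({mkP (uu (1 : F)), mkP Y} : Set (Pe F)) := Subgroup.subset_closure (Or.inr rfl)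
      rcases Sol3.sol_class hp hodd hF _ hy with ⟨-, h⟩ | ⟨-, h⟩ | ⟨P, hP⟩ | ⟨K₀, P, hK, hr⟩
      · exact (h _ hxm hu1 hu3).elim
      · exact (h _ hxm hu1 hu3).elim
      · left
        obtain ⟨v, hv0, hv⟩ := borel_vec _ P hP
        obtain ⟨l, hl⟩ := hv (uu (1 : F)) hxm
        obtain ⟨m, hm⟩ := hv Y hym
        have e0 := congrFun hl 0
        have e1 := congrFun hl 1
        have m1 := congrFun hm 1
        simp [Matrix.mulVec, dotProduct, Fin.sum_univ_two, uu] at e0 e1 m1
        have hv1 : v 1 = 0 := by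
          by_contra h1
          have h3 : l = 1 := mul_right_cancel₀ h1 (by rw [one_mul]; exact e1.symm)
          rw [h3] at e0
          simp at e0
          exact h1 e0
        have hv00 : v 0 ≠ 0 := by
          intro h0
          apply hv0
          ext i
          fin_cases i
          · exact h0
          · exact hv1
        rw [hv1] at m1
        simp at m1
        rcases m1 with m1 | m1
        · exact (mem_Bo_iff Y).2 m1
        · exact absurd m1 hv00
      · have h5 := Sol3.tr_mem_K hr hym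
        have h6 : trS (uu (1 : F) * Y) ∈ K₀ := Sol3.tr_mem_K hr (Subgroup.mul_mem _ hxm hym)
        have e7 : Y.1 1 0 = trS (uu (1 : F) * Y) - trS Y := by
          simp only [trS, sl_mul_apply, uu_00, uu_01, uu_10, uu_11]
          ring
        have h7 : Y.1 1 0 ∈ K₀ := by
          rw [e7]
          exact K₀.sub_mem h6 h5
        rcases Sol3.three_cases hK h7 with h8 | h8
        · exact Or.inl ((mem_Bo_iff Y).2 h8)
        · refine Or.inr ⟨Y, rfl, h8, ?_⟩
          exact Sol3.three_cases hK h5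
    · rintro (h | ⟨Y, rfl, h⟩)
      · exact sol_pair ((mem_Bo_iff _).2 rfl) h Bo_solvable
      · exact sol_EE h30 Y h
  have hdisj : ((Bo F : Subgroup (Pe F)) : Set (Pe F)) ∩ {y : Pe F | ∃ Y : SL(2, F), y = mkP Y ∧ Y ∈ EE F} = ∅ := by
    ext y
    simp only [Set.mem_inter_iff, Set.mem_empty_iff_false, iff_false, not_and]
    rintro h ⟨Y, rfl, h1, -⟩
    have h3 := (mem_Bo_iff Y).1 h
    rw [h3] at h1
    norm_num at h1
  have h1 := Set.ncard_union_add_ncard_inter (((Bo F : Subgroup (Pe F)) : Set (Pe F))) {y : Pe F | ∃ Y : SL(2, F), y = mkP Y ∧ Y ∈ EE F} (Set.toFinite _) (Set.toFinite _)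
  rw [hdisj, Set.ncard_empty, add_zero] at h1
  have hc := ncard_cover h2 (fun Y => Y ∈ EE F) (fun A B h hA => EE_stable A B h hA)
  have hc2 : {Y : SL(2, F) | Y ∈ EE F}.ncard = (EE F).ncard := rfl
  rw [hc2, card_EE h30 h2, hF] at hc
  have hB : ((Bo F : Subgroup (Pe F)) : Set (Pe F)).ncard = Nat.card (Bo F) := (Nat.card_coe_set_eq _).symm
  have hb := Sol3.card_bo hp hodd hF
  have hcount : Nat.card {y : Pe F // Group.IsSolvable (Subgroup.closure ({mkP (uu (1 : F)), y} : Set (Pe F)))} =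
      (((Bo F : Subgroup (Pe F)) : Set (Pe F)) ∪ {y : Pe F | ∃ Y : SL(2, F), y = mkP Y ∧ Y ∈ EE F}).ncard := by
    rw [← hset]
    exact Nat.card_coe_set_eq _
  rw [hcount, h1, hB, mul_add, hb, ← hc]
  generalize 3 ^ p = q at hq
  obtain ⟨r, rfl⟩ : ∃ r, q = r + 1 := ⟨q - 1, by omega⟩
  simp only [Nat.add_sub_cancel]
  ring

/-- Part (ii). -/
theorem part_three (hp : p.Prime) (hodd : Odd p) (hF : Fintype.card F = 3 ^ p) {x : Pe F} (hord : orderOf x = 3) :
    2 * Nat.card {y : Pe F // Group.IsSolvable (Subgroup.closure ({x, y} : Set (Pe F)))} = 3 ^ p * (3 ^ p + 5) := by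
  have h30 := Sol3.three0 hp hF
  obtain ⟨A, rfl⟩ := mkP_surj x
  have hx1 : mkP A ≠ 1 := by
    intro h
    rw [h, orderOf_one] at hord
    omega
  have hxx : mkP A ^ 3 = 1 := by
    have h1 := pow_orderOf_eq_one (mkP A)
    rw [hord] at h1
    exact h1
  have htr := tr_of_three A hxx hx1
  have hex : ∃ A' : SL(2, F), mkP A' = mkP A ∧ trS A' = 2 := by
    rcases QS.sq_one_cases htr with h | h
    · refine ⟨ngS A, mkP_ngS A, ?_⟩
      simp only [trS, ngS_apply]
      simp only [trS] at h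
      linear_combination -h - h30
    · refine ⟨A, rfl, ?_⟩
      rw [h]
      linear_combination -h30
  obtain ⟨A', h1, h3⟩ := hex
  have hu1 : mkP (uu (1 : F)) ≠ 1 := by
    rw [Ne, mkP_eq_one_iff]
    rintro (h | h)
    · have := congrArg (fun B : SL(2, F) => B.1 0 1) h
      simp at this
    · have := congrFun (congrFun h 0) 1
      simp at this
  obtain ⟨Θ, hΘ⟩ := conj_of_trace (uu (1 : F)) A' hu1 (by rw [h1]; exact hx1) (by
    have : A'.1 0 0 + A'.1 1 1 = 2 := h3
    rw [this]
    simp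
    norm_num)
  rw [← h1, ← hΘ, sol_conj Θ]
  exact count_uu3 hp hodd hF

end Three

/-- The final result. -/
theorem main {F : Type*} [Field F] [Fintype F] {p : ℕ} (hp : p.Prime) (hodd : Odd p) (hF : Fintype.card F = 3 ^ p) (x : Pe F) :
    (orderOf x = 2 → Nat.card {y : Pe F // Group.IsSolvable (Subgroup.closure ({x, y} : Set (Pe F)))} = 3 ^ p * (3 ^ p + 1)) ∧
    (orderOf x = 3 → 2 * Nat.card {y : Pe F // Group.IsSolvable (Subgroup.closure ({x, y} : Set (Pe F)))} = 3 ^ p * (3 ^ p + 5)) ∧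
    (x ≠ 1 → orderOf x ≠ 2 → orderOf x ∣ 3 ^ p - 1 → Nat.card {y : Pe F // Group.IsSolvable (Subgroup.closure ({x, y} : Set (Pe F)))} = 3 ^ p * (3 ^ p - 1)) ∧
    (x ≠ 1 → orderOf x ≠ 2 → orderOf x ∣ 3 ^ p + 1 → Nat.card {y : Pe F // Group.IsSolvable (Subgroup.closure ({x, y} : Set (Pe F)))} = 3 ^ p + 1) :=
  ⟨part_inv hp hodd hF, part_three hp hodd hF, fun h1 h2 h3 => Sol3.part_diag hp hodd hF h1 h2 h3,
    fun h1 h2 h3 => Sol3.part_torus hp hodd hF h1 h2 h3⟩

end Cfsg.Agent.Lib.LocalEven.Sol3b
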