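import Mathlib

/-! Sourour-type factorisation: covering lemmas and the recursion step. -/

universe u v

noncomputable section

open Module

namespace Cfsg.Agent.Lib.LocalEven.Sour0

variable {K : Type v} [Field K]

section cover
variable {E : Type u} [AddCommGroup E] [Module K E]

/-- A vector space is not a union of `m` proper subspaces if the field has at least `m` elements. -/
theorem no_cover : ∀ (m : ℕ) (_ : Nonempty (Fin m ↪ K)) (S : Fin m → Submodule K E)
    (_ : ∀ i, S i ≠ ⊤), ∃ x : E, ∀ i, x ∉ S i := by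
  intro m
  induction m with
  | zero => intro _ S _; exact ⟨0, fun i => i.elim0⟩
  | succ m ih =>
    rintro ⟨e⟩ S hS
    obtain ⟨x, hx⟩ := ih ⟨(Fin.castSuccEmb).trans e⟩ (fun i => S i.castSucc) (fun i => hS _)
    by_cases hxl : x ∈ S (Fin.last m)
    · obtain ⟨y, hy⟩ : ∃ y, y ∉ S (Fin.last m) := by
        by_contra hcon
        push Not at hcon
        exact hS (Fin.last m) (Submodule.eq_top_iff'.2 hcon)
      by_contra hcon
      push Not at hcon
      have h1 : ∀ a : Fin (m+1), ∃ j : Fin m, y + e a • x ∈ S j.castSucc := by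
        intro a
        obtain ⟨i, hi⟩ := hcon (y + e a • x)
        induction i using Fin.lastCases with
        | last =>
          exfalso
          apply hy
          have := (S (Fin.last m)).sub_mem hi ((S (Fin.last m)).smul_mem (e a) hxl)
          simpa using this
        | cast j => exact ⟨j, hi⟩
      choose f hf using h1
      obtain ⟨a, b, hab, hfab⟩ := Fintype.exists_ne_map_eq_of_card_lt f (by simp)
      apply hx (f a)
      have h2 := (S (f a).castSucc).sub_mem (hf a) (by rw [hfab]; exact hf b)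
      have h3 : y + e a • x - (y + e b • x) = (e a - e b) • x := by
        rw [sub_smul]; abel
      rw [h3] at h2
      have h4 : e a - e b ≠ 0 := sub_ne_zero.2 (fun h => hab (e.injective h))
      have := (S (f a).castSucc).smul_mem (e a - e b)⁻¹ h2
      rwa [smul_smul, inv_mul_cancel₀ h4, one_smul] at this
    · refine ⟨x, fun i => ?_⟩
      induction i using Fin.lastCases with
      | last => exact hxl
      | cast j => exact hx j

theorem no_cover4 (hK : Nonempty (Fin 4 ↪ K)) {S₁ S₂ S₃ S₄ : Submodule K E}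
    (h₁ : S₁ ≠ ⊤) (h₂ : S₂ ≠ ⊤) (h₃ : S₃ ≠ ⊤) (h₄ : S₄ ≠ ⊤) :
    ∃ x : E, x ∉ S₁ ∧ x ∉ S₂ ∧ x ∉ S₃ ∧ x ∉ S₄ := by
  obtain ⟨x, hx⟩ := no_cover 4 hK ![S₁, S₂, S₃, S₄] (by
    intro i; fin_cases i <;> simpa)
  exact ⟨x, hx 0, hx 1, hx 2, hx 3⟩

theorem no_cover5 (hK : Nonempty (Fin 5 ↪ K)) {S₁ S₂ S₃ S₄ S₅ : Submodule K E}
    (h₁ : S₁ ≠ ⊤) (h₂ : S₂ ≠ ⊤) (h₃ : S₃ ≠ ⊤) (h₄ : S₄ ≠ ⊤) (h₅ : S₅ ≠ ⊤) :
    ∃ x : E, x ∉ S₁ ∧ x ∉ S₂ ∧ x ∉ S₃ ∧ x ∉ S₄ ∧ x ∉ S₅ := by
  obtain ⟨x, hx⟩ := no_cover 5 hK ![S₁, S₂, S₃, S₄, S₅] (by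
    intro i; fin_cases i <;> simpa)
  exact ⟨x, hx 0, hx 1, hx 2, hx 3, hx 4⟩

end cover

section dual
variable {V : Type u} [AddCommGroup V] [Module K V]

/-- Functional killing `z`, non-zero on four vectors outside the line of `z`. -/
theorem pick_phi (hK : Nonempty (Fin 4 ↪ K)) (z y₁ y₂ y₃ y₄ : V)
    (h₁ : y₁ ∉ K ∙ z) (h₂ : y₂ ∉ K ∙ z) (h₃ : y₃ ∉ K ∙ z) (h₄ : y₄ ∉ K ∙ z) :
    ∃ φ : V →ₗ[K] K, φ z = 0 ∧ φ y₁ = 1 ∧ φ y₂ ≠ 0 ∧ φ y₃ ≠ 0 ∧ φ y₄ ≠ 0 := by
  classical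
  let E : Submodule K (V →ₗ[K] K) :=
    { carrier := {φ | φ z = 0}
      add_mem' := by
        intro a b ha hb
        simp only [Set.mem_ofPred_eq] at ha hb ⊢
        simp [ha, hb]
      zero_mem' := by simp
      smul_mem' := by
        intro c a ha
        simp only [Set.mem_ofPred_eq] at ha ⊢
        simp [ha] }
  have key : ∀ y, y ∉ K ∙ z → ∃ ψ : V →ₗ[K] K, ψ z = 0 ∧ ψ y ≠ 0 := by
    intro y hy
    obtain ⟨f, hf1, hf2⟩ := Submodule.exists_le_ker_of_notMem hy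
    refine ⟨f, ?_, hf1⟩
    exact hf2 (Submodule.mem_span_singleton_self z)
  let T : V → Submodule K E := fun y =>
    LinearMap.ker ((LinearMap.applyₗ (R := K) (M := V) (M₂ := K) y) ∘ₗ E.subtype)
  have hT : ∀ y, y ∉ K ∙ z → T y ≠ ⊤ := by
    intro y hy htop
    obtain ⟨ψ, h1, h2⟩ := key y hy
    have : (⟨ψ, h1⟩ : E) ∈ T y := by rw [htop]; trivial
    exact h2 (by simpa [T] using this)
  obtain ⟨⟨φ, hφ⟩, a1, a2, a3, a4⟩ := no_cover4 (K := K) (E := E) hK (hT _ h₁) (hT _ h₂) (hT _ h₃) (hT _ h₄)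
  have nz : ∀ y, (⟨φ, hφ⟩ : E) ∉ T y → φ y ≠ 0 := by
    intro y hy h0
    exact hy (by simpa [T] using h0)
  have hx1 := nz _ a1
  refine ⟨(φ y₁)⁻¹ • φ, ?_, ?_, ?_, ?_, ?_⟩
  · have : φ z = 0 := hφ
    simp [this]
  · simp [hx1]
  · simp [hx1, nz _ a2]
  · simp [hx1, nz _ a3]
  · simp [hx1, nz _ a4]

end dual

section step
variable {V : Type u} [AddCommGroup V] [Module K V]

/-- Projection to `ker φ` along `x`. -/
def piH (φ : V →ₗ[K] K) (x : V) (hx : φ x = 1) : V →ₗ[K] LinearMap.ker φ :=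
  LinearMap.codRestrict (LinearMap.ker φ) (LinearMap.id - φ.smulRight x) (by
    intro v; simp [LinearMap.mem_ker, hx])

theorem coe_piH (φ : V →ₗ[K] K) (x : V) (hx : φ x = 1) (v : V) :
    ((piH φ x hx v : LinearMap.ker φ) : V) = v - φ v • x := rfl

theorem piH_coe (φ : V →ₗ[K] K) (x : V) (hx : φ x = 1) (y : LinearMap.ker φ) :
    piH φ x hx (y : V) = y := by
  apply Subtype.ext
  rw [coe_piH, LinearMap.mem_ker.1 y.2]; simp

/-- The compressed map on `ker φ`. -/
def G1 (g : Module.End K V) (φ : V →ₗ[K] K) (x : V) (hz : φ (g x) = 1) :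
    Module.End K (LinearMap.ker φ) :=
  LinearMap.codRestrict (LinearMap.ker φ)
    ((g - (φ ∘ₗ g).smulRight (g x)) ∘ₗ (LinearMap.ker φ).subtype) (by
      intro y; simp [LinearMap.mem_ker, hz])

theorem coe_G1 (g : Module.End K V) (φ : V →ₗ[K] K) (x : V) (hz : φ (g x) = 1)
    (y : LinearMap.ker φ) :
    ((G1 g φ x hz y : LinearMap.ker φ) : V) = g y - φ (g y) • g x := rfl

/-- The functional on `ker φ`. -/
def R1 (g : Module.End K V) (φ : V →ₗ[K] K) : LinearMap.ker φ →ₗ[K] K :=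
  (φ ∘ₗ g) ∘ₗ (LinearMap.ker φ).subtype

theorem R1_apply (g : Module.End K V) (φ : V →ₗ[K] K) (y : LinearMap.ker φ) :
    R1 g φ y = φ (g y) := rfl

/-- The vector in `ker φ`. -/
def C1 (g : Module.End K V) (φ : V →ₗ[K] K) (x : V) (hx : φ x = 1) (hz : φ (g x) = 1) :
    LinearMap.ker φ :=
  ⟨g x - x, by simp [LinearMap.mem_ker, hx, hz]⟩

theorem coe_C1 (g : Module.End K V) (φ : V →ₗ[K] K) (x : V) (hx : φ x = 1) (hz : φ (g x) = 1) :
    ((C1 g φ x hx hz : LinearMap.ker φ) : V) = g x - x := rfl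

/-- The factorisation predicate. -/
def Fac (g : Module.End K V) (c : V) (r : V →ₗ[K] K) : Prop :=
  ∃ X Y : Module.End K V, g = X * Y ∧ (X - 1) ^ finrank K V = 0 ∧ (Y - 1) ^ finrank K V = 0 ∧
    ((X - 1) ^ (finrank K V - 1)) c ≠ 0 ∧ ∃ v, r (((Y - 1) ^ (finrank K V - 1)) v) ≠ 0

theorem finrank_ker [FiniteDimensional K V] (φ : V →ₗ[K] K) (hφ : φ ≠ 0) :
    finrank K (LinearMap.ker φ) + 1 = finrank K V :=
  Module.Dual.finrank_ker_add_one_of_ne_zero hφ

theorem ne_zero_of_one (φ : V →ₗ[K] K) (x : V) (hx : φ x = 1) : φ ≠ 0 := by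
  rintro rfl; simp at hx

/-- Recursion step. -/
theorem step [FiniteDimensional K V] (g : Module.End K V) (φ : V →ₗ[K] K) (x : V)
    (hx : φ x = 1) (hz : φ (g x) = 1) (c : V) (r : V →ₗ[K] K) (hc : φ c ≠ 0) (hr : r x ≠ 0)
    (hn : 2 ≤ finrank K V)
    (h₁ : Fac (G1 g φ x hz) (C1 g φ x hx hz) (R1 g φ)) : Fac g c r := by
  obtain ⟨X₁, Y₁, hg₁, hX₁, hY₁, hX₁', v₁, hv₁⟩ := h₁
  have hrk := finrank_ker φ (ne_zero_of_one φ x hx)
  set ι : (LinearMap.ker φ) →ₗ[K] V := (LinearMap.ker φ).subtype with hι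
  set π := piH φ x hx with hπ
  obtain ⟨m, hm⟩ : ∃ m, finrank K (LinearMap.ker φ) = m + 1 :=
    ⟨finrank K (LinearMap.ker φ) - 1, by omega⟩
  rw [hm] at hX₁ hY₁ hX₁' hv₁ hrk
  simp only [Nat.add_sub_cancel] at hX₁' hv₁
  set A : Module.End K (LinearMap.ker φ) := X₁ - 1 with hA
  set B : Module.End K (LinearMap.ker φ) := Y₁ - 1 with hB
  set C := C1 g φ x hx hz with hC
  set R := R1 g φ with hRdef
  -- the nilpotent parts
  let NX : Module.End K V := ι ∘ₗ (A ∘ₗ π + φ.smulRight C)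
  let NY : Module.End K V := ι ∘ₗ B ∘ₗ π + (R ∘ₗ π).smulRight x
  have hNXι : ∀ y : LinearMap.ker φ, NX (y : V) = ι (A y) := by
    intro y
    have h0 : φ (y : V) = 0 := LinearMap.mem_ker.1 y.2
    simp [NX, h0, π, piH_coe]
  have hNXv : ∀ v : V, NX v = ι (A (π v) + φ v • C) := by
    intro v; simp [NX]
  have hπx : π x = 0 := by
    apply Subtype.ext
    rw [hπ, coe_piH]; simp [hx]
  have hNYx : NY x = 0 := by
    simp [NY, hπx]
  have hNYι : ∀ y : LinearMap.ker φ, NY (y : V) = ι (B y) + R y • x := by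
    intro y
    simp [NY, π, piH_coe]
  have hNYv : ∀ v : V, NY v = ι (B (π v)) + R (π v) • x := by
    intro v; simp [NY]
  have hdecomp : ∀ v : V, v = φ v • x + ι (π v) := by
    intro v
    have : ι (π v) = v - φ v • x := coe_piH φ x hx v
    rw [this]; abel
  -- powers of NX
  have hNXpow0 : ∀ (k : ℕ) (y : LinearMap.ker φ), (NX ^ k) (y : V) = ι ((A ^ k) y) := by
    intro k
    induction k with
    | zero => intro y; simp [hι]
    | succ k ih =>
      intro y
      rw [pow_succ, Module.End.mul_apply, hNXι, pow_succ, Module.End.mul_apply]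
      exact ih (A y)
  have hNXpow : ∀ (k : ℕ) (v : V), (NX ^ (k + 1)) v = ι ((A ^ k) (A (π v) + φ v • C)) := by
    intro k v
    rw [pow_succ, Module.End.mul_apply, hNXv]
    exact hNXpow0 k (A (π v) + φ v • C)
  -- powers of NY
  have hNYpow : ∀ (k : ℕ) (v : V),
      (NY ^ (k + 1)) v = ι ((B ^ (k + 1)) (π v)) + R ((B ^ k) (π v)) • x := by
    intro k
    induction k with
    | zero => intro v; simpa using hNYv v
    | succ k ih =>
      intro v
      rw [pow_succ', Module.End.mul_apply, ih, map_add, map_smul, hNYx, smul_zero, add_zero]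
      have := hNYι ((B ^ (k + 1)) (π v))
      rw [show ι ((B ^ (k + 1)) (π v)) = (((B ^ (k + 1)) (π v) : LinearMap.ker φ) : V) from rfl, this,
        pow_succ' B (k + 1), Module.End.mul_apply]
  have hX1 : ∀ y : LinearMap.ker φ, X₁ y = y + A y := by intro y; simp [hA]
  have hY1 : ∀ y : LinearMap.ker φ, Y₁ y = y + B y := by intro y; simp [hB]
  refine ⟨1 + NX, 1 + NY, ?_, ?_, ?_, ?_, ?_⟩
  · -- product
    ext v
    have hYv : (1 + NY) v = (φ v + R (π v)) • x + ι (Y₁ (π v)) := by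
      rw [LinearMap.add_apply, hNYv, hY1, map_add, add_smul, Module.End.one_apply]
      nth_rewrite 1 [hdecomp v]
      abel
    have hφY : φ ((1 + NY) v) = φ v + R (π v) := by
      rw [hYv, map_add, map_smul, hx]
      have : φ (ι (Y₁ (π v))) = 0 := LinearMap.mem_ker.1 (Y₁ (π v)).2
      rw [this]; simp
    have hπY : π ((1 + NY) v) = Y₁ (π v) := by
      apply Subtype.ext
      rw [hπ, coe_piH, hφY, hYv]
      show _ - _ = ι (Y₁ (piH φ x hx v))
      simp only [hπ]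
      abel
    have hg1 : ∀ y : LinearMap.ker φ, ι (X₁ (Y₁ y)) = g y - R y • g x := by
      intro y
      have : G1 g φ x hz y = X₁ (Y₁ y) := by rw [hg₁]; rfl
      rw [← this]
      exact coe_G1 g φ x hz y
    rw [Module.End.mul_apply, LinearMap.add_apply (1 : Module.End K V) NX, Module.End.one_apply,
      hNXv, hφY, hπY]
    have hC' : ι C = g x - x := rfl
    have hXY : ι (A (Y₁ (π v)) + (φ v + R (π v)) • C)
        = ι (X₁ (Y₁ (π v))) - ι (Y₁ (π v)) + (φ v + R (π v)) • (g x - x) := by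
      rw [map_add, map_smul, hC', hX1, map_add]; abel
    rw [hXY, hg1, hYv]
    have hgv : g v = φ v • g x + g (ι (π v)) := by
      nth_rewrite 1 [hdecomp v]
      simp
    rw [hgv]
    have h5 : g ((π v : LinearMap.ker φ) : V) = g (ι (π v)) := rfl
    rw [h5]
    simp only [smul_sub, add_smul]
    abel
  · rw [← hrk]
    have h1 : (1 + NX - 1 : Module.End K V) = NX := by abel
    rw [h1]
    ext v
    rw [hNXpow, hX₁]; simp
  · rw [← hrk]
    have h1 : (1 + NY - 1 : Module.End K V) = NY := by abel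
    rw [h1]
    ext v
    have hB2 : B ^ (m + 1 + 1) = 0 := by rw [pow_succ, hY₁, zero_mul]
    rw [hNYpow, hB2, hY₁]; simp
  · rw [← hrk]
    have h1 : (1 + NX - 1 : Module.End K V) = NX := by abel
    rw [h1, Nat.add_sub_cancel, hNXpow, map_add, map_add, map_smul, map_smul]
    have h2 : (A ^ m) (A (π c)) = 0 := by
      rw [← Module.End.mul_apply, ← pow_succ, hX₁]; simp
    rw [h2, map_zero, zero_add]
    intro h3
    rcases smul_eq_zero.1 h3 with h4 | h4
    · exact hc h4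
    · exact hX₁' (Subtype.ext h4)
  · rw [← hrk]
    have h1 : (1 + NY - 1 : Module.End K V) = NY := by abel
    rw [h1, Nat.add_sub_cancel]
    refine ⟨(v₁ : V), ?_⟩
    rw [hNYpow]
    have h2 : (B ^ (m + 1)) (π (v₁ : V)) = 0 := by rw [hY₁]; simp
    rw [h2, map_zero, zero_add, map_smul, smul_eq_mul]
    refine mul_ne_zero ?_ hr
    rw [hπ, piH_coe]
    exact hv₁

end step

end Cfsg.Agent.Lib.LocalEven.Sour0
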