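import Cfsg.Agent.Lib.LocalEven.Sour0

/-! Sourour-type factorisation: the compressed map: determinant, rank, non-scalar. -/

universe u v

noncomputable section

open Module

namespace Cfsg.Agent.Lib.LocalEven.Sour1

open Cfsg.Agent.Lib.LocalEven.Sour0

variable {K : Type v} [Field K] {V : Type u} [AddCommGroup V] [Module K V]

theorem decomp (φ : V →ₗ[K] K) (x : V) (hx : φ x = 1) (v : V) :
    v = φ v • x + ((piH φ x hx v : LinearMap.ker φ) : V) := by
  rw [coe_piH]; abel

theorem mem_ker_coe (φ : V →ₗ[K] K) (y : LinearMap.ker φ) : φ (y : V) = 0 :=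
  LinearMap.mem_ker.1 y.2

/-- Splitting off `x`. -/
def eSplit (φ : V →ₗ[K] K) (x : V) (hx : φ x = 1) : V ≃ₗ[K] K × LinearMap.ker φ :=
  LinearEquiv.ofLinear (φ.prod (piH φ x hx))
    (LinearMap.coprod (LinearMap.toSpanSingleton K V x) (LinearMap.ker φ).subtype)
    (by
      ext y
      · simp [hx]
      · simp [hx, coe_piH]
      · simp [mem_ker_coe]
      · simp [coe_piH, mem_ker_coe])
    (by
      ext v
      simp [coe_piH])

theorem det_G1 [FiniteDimensional K V] (g : Module.End K V) (φ : V →ₗ[K] K) (x : V)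
    (hx : φ x = 1) (hz : φ (g x) = 1) :
    LinearMap.det (G1 g φ x hz) = LinearMap.det g := by
  classical
  let π := piH φ x hx
  let R' : Module.Dual K V := R1 g φ ∘ₗ π
  have hπx : π x = 0 := by
    apply Subtype.ext
    show ((piH φ x hx x : LinearMap.ker φ) : V) = 0
    rw [coe_piH]; simp [hx]
  have hR'x : R' x = 0 := by simp [R', hπx]
  let A : Module.End K V := LinearMap.transvection (φ : Module.Dual K V) (g x - x)
  let B : Module.End K V := LinearMap.transvection R' x
  let e := eSplit φ x hx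
  let D : Module.End K V := (e.symm : (K × LinearMap.ker φ) →ₗ[K] V) ∘ₗ
    (LinearMap.prodMap LinearMap.id (G1 g φ x hz)) ∘ₗ (e.symm.symm : V →ₗ[K] (K × LinearMap.ker φ))
  have hA : LinearMap.det A = 1 := by
    simp only [A, LinearMap.transvection.det]
    rw [map_sub, hz, hx]; simp
  have hB : LinearMap.det B = 1 := by
    simp only [B, LinearMap.transvection.det]
    rw [hR'x]; simp
  have hD : LinearMap.det D = LinearMap.det (G1 g φ x hz) := by
    simp only [D]
    rw [LinearMap.det_conj, LinearMap.det_prodMap]; simp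
  have hDv : ∀ v, D v = φ v • x + ((G1 g φ x hz (π v) : LinearMap.ker φ) : V) := by
    intro v
    have : (e.symm : (K × LinearMap.ker φ) →ₗ[K] V) (φ v, G1 g φ x hz (π v))
        = φ v • x + ((G1 g φ x hz (π v) : LinearMap.ker φ) : V) := by
      simp [e, eSplit]
    rw [← this]
    rfl
  have hBv : ∀ v, B v = v + R1 g φ (π v) • x := fun v => rfl
  have hAv : ∀ v, A v = v + φ v • (g x - x) := fun v => rfl
  have hmain : g = A * D * B := by
    ext v
    simp only [Module.End.mul_apply]
    rw [hBv, hDv, hAv]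
    have h1 : π (v + R1 g φ (π v) • x) = π v := by
      rw [map_add, map_smul, hπx]; simp
    have h2 : φ (v + R1 g φ (π v) • x) = φ v + R1 g φ (π v) := by
      rw [map_add, map_smul, hx]; simp
    rw [h1, h2, map_add, map_smul, hx, mem_ker_coe, coe_G1]
    have h3 : g v = φ v • g x + g ((π v : LinearMap.ker φ) : V) := by
      nth_rewrite 1 [decomp φ x hx v]
      simp [π]
    rw [h3, show φ (g ((π v : LinearMap.ker φ) : V)) = R1 g φ (π v) from rfl]
    simp only [smul_sub, add_smul, smul_eq_mul, mul_one, add_zero]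
    abel
  have h := congrArg LinearMap.det hmain
  rw [map_mul, map_mul, hA, hB, hD] at h
  simpa using h.symm

/-- Endomorphisms of a line with determinant one. -/
theorem eq_one_of_finrank_one [FiniteDimensional K V] (hV : finrank K V = 1)
    (f : Module.End K V) (hf : LinearMap.det f = 1) : f = 1 := by
  obtain ⟨v, hv, hspan⟩ := finrank_eq_one_iff'.1 hV
  obtain ⟨c, hc⟩ := hspan (f v)
  have hfc : f = c • 1 := by
    ext w
    obtain ⟨d, rfl⟩ := hspan w
    show f (d • v) = c • (d • v)
    rw [map_smul, ← hc, smul_comm]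
  rw [hfc, LinearMap.det_smul, hV] at hf
  simp only [pow_one] at hf
  have h1 : LinearMap.det (1 : Module.End K V) = 1 := LinearMap.det_id
  rw [h1, mul_one] at hf
  rw [hfc, hf, one_smul]

/-- The induction hypothesis predicate. -/
def Good (g : Module.End K V) : Prop :=
  LinearMap.det g = 1 ∧ (finrank K V = 1 ∨
    (2 ≤ finrank K (LinearMap.range (g - 1)) ∧ ∀ μ : K, g ≠ μ • 1))

/-- Relevant scalars. -/
def Rel (g : Module.End K V) (μ : K) : Prop :=
  μ ≠ 1 ∧ μ ^ (finrank K V - 1) = 1 ∧
    finrank K V - 2 ≤ finrank K (LinearMap.ker (g - μ • 1))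

theorem G1_fix (g : Module.End K V) (φ : V →ₗ[K] K) (x : V) (hz : φ (g x) = 1)
    (y : LinearMap.ker φ) (hy : G1 g φ x hz y = y) :
    (g - 1) (y : V) = φ (g y) • g x := by
  have := congrArg (Subtype.val) hy
  rw [coe_G1] at this
  simp only [LinearMap.sub_apply, Module.End.one_apply]
  rw [sub_eq_iff_eq_add] at this
  exact sub_eq_of_eq_add' this

theorem scalar_rel [FiniteDimensional K V] (g : Module.End K V) (hdet : LinearMap.det g = 1)
    (φ : V →ₗ[K] K) (x : V) (hx : φ x = 1) (hz : φ (g x) = 1) (μ : K) (hμ1 : μ ≠ 1)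
    (hμ : G1 g φ x hz = μ • 1) : Rel g μ := by
  have hrk := finrank_ker φ (ne_zero_of_one φ x hx)
  refine ⟨hμ1, ?_, ?_⟩
  · have h1 := det_G1 g φ x hx hz
    rw [hμ, LinearMap.det_smul, hdet] at h1
    have h2 : LinearMap.det (1 : Module.End K (LinearMap.ker φ)) = 1 := LinearMap.det_id
    rw [h2, mul_one] at h1
    rwa [show finrank K V - 1 = finrank K (LinearMap.ker φ) by omega]
  · let R := R1 g φ
    have h1 := LinearMap.finrank_range_add_finrank_ker R
    have h2 : finrank K (LinearMap.range R) ≤ 1 := by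
      have := Submodule.finrank_le (LinearMap.range R)
      simpa using this
    have h3 : (LinearMap.ker R).map (LinearMap.ker φ).subtype ≤ LinearMap.ker (g - μ • 1) := by
      rintro _ ⟨y, hy, rfl⟩
      have h4 : R y = 0 := hy
      have h5 : φ (g y) = 0 := h4
      have h6 := congrArg Subtype.val (LinearMap.congr_fun hμ y)
      rw [coe_G1, h5, zero_smul, sub_zero] at h6
      rw [LinearMap.mem_ker]
      simp only [LinearMap.sub_apply, LinearMap.smul_apply, Module.End.one_apply,
        Submodule.subtype_apply]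
      rw [h6]
      simp
    have h4 := Submodule.finrank_mono h3
    rw [Submodule.finrank_map_subtype_eq] at h4
    omega

theorem not_scalar_of_w (g : Module.End K V) (φ : V →ₗ[K] K) (x : V) (hx : φ x = 1)
    (hz : φ (g x) = 1) (hne : ∀ κ : K, g x ≠ κ • x) (w : V) (μ : K) (hμ0 : μ ≠ 0)
    (hw : g w = μ • w) (hφw : φ w ≠ 0) : G1 g φ x hz ≠ μ • 1 := by
  intro hμ
  let a := (φ w)⁻¹
  have hy : x - a • w ∈ LinearMap.ker φ := by
    rw [LinearMap.mem_ker, map_sub, map_smul, hx, smul_eq_mul, inv_mul_cancel₀ hφw, sub_self]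
  have h1 := congrArg Subtype.val (LinearMap.congr_fun hμ ⟨x - a • w, hy⟩)
  rw [coe_G1] at h1
  simp only [LinearMap.smul_apply, Module.End.one_apply, Submodule.coe_smul] at h1
  set κ := φ (g (x - a • w)) with hκ
  have h2 : g (x - a • w) = g x - (a * μ) • w := by
    rw [map_sub, map_smul, hw, smul_smul]
  rw [h2] at h1
  have h3 : (1 - κ) • g x = μ • x := by
    have : μ • (x - a • w) = μ • x - (a * μ) • w := by
      rw [smul_sub, smul_smul, mul_comm]
    rw [this] at h1
    rw [sub_smul, one_smul]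
    have h4 : g x - κ • g x = (g x - (a * μ) • w - κ • g x) + (a * μ) • w := by abel
    rw [h4, h1]; abel
  by_cases h0 : 1 - κ = 0
  · rw [h0, zero_smul] at h3
    have := (smul_eq_zero.1 h3.symm).resolve_left hμ0
    rw [this] at hx
    simp at hx
  · apply hne (μ * (1 - κ)⁻¹)
    have := congrArg (fun t => (1 - κ)⁻¹ • t) h3
    simp only [smul_smul, inv_mul_cancel₀ h0, one_smul] at this
    rw [this, mul_comm]

theorem R1_ne (g : Module.End K V) (φ : V →ₗ[K] K) (x : V) (hx : φ x = 1)
    (hz : φ (g x) = 1) (w : V) (hw : w ∈ LinearMap.range (g - 1)) (hφw : φ w ≠ 0) :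
    R1 g φ ≠ 0 := by
  intro hR
  obtain ⟨v, rfl⟩ := hw
  apply hφw
  have h1 : φ (g v) = φ v := by
    nth_rewrite 1 [decomp φ x hx v]
    rw [map_add, map_add, map_smul, map_smul, hz, smul_eq_mul, mul_one]
    have : φ (g ((piH φ x hx v : LinearMap.ker φ) : V)) = R1 g φ (piH φ x hx v) := rfl
    rw [this, hR]; simp
  simp [h1]

/-- Rank of the compression when `x` is outside the range of `g - 1`. -/
theorem rank_B [FiniteDimensional K V] (g : Module.End K V) (φ : V →ₗ[K] K) (x : V)
    (hx : φ x = 1) (hz : φ (g x) = 1) (hxr : x ∉ LinearMap.range (g - 1)) :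
    finrank K (LinearMap.range (g - 1)) ≤ finrank K (LinearMap.range (G1 g φ x hz - 1)) + 1 ∧
    (∀ v ∈ LinearMap.ker (g - 1), φ v ≠ 0 →
      finrank K (LinearMap.range (g - 1)) ≤ finrank K (LinearMap.range (G1 g φ x hz - 1))) := by
  have hrk := finrank_ker φ (ne_zero_of_one φ x hx)
  have h1 := LinearMap.finrank_range_add_finrank_ker (g - 1)
  have h2 := LinearMap.finrank_range_add_finrank_ker (G1 g φ x hz - 1)
  have h3 : (LinearMap.ker (G1 g φ x hz - 1)).map (LinearMap.ker φ).subtype
      ≤ LinearMap.ker (g - 1) ⊓ LinearMap.ker φ := by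
    rintro _ ⟨y, hy, rfl⟩
    refine ⟨?_, y.2⟩
    have hy' : G1 g φ x hz y = y := by
      have : (G1 g φ x hz - 1) y = 0 := hy
      simpa [sub_eq_zero] using this
    have h4 := G1_fix g φ x hz y hy'
    rw [SetLike.mem_coe, LinearMap.mem_ker]
    show (g - 1) (y : V) = 0
    rw [h4]
    by_cases h5 : φ (g y) = 0
    · rw [h5, zero_smul]
    · exfalso
      apply hxr
      have h6 : g x ∈ LinearMap.range (g - 1) := by
        refine ⟨(φ (g y))⁻¹ • (y : V), ?_⟩
        rw [map_smul, h4, smul_smul, inv_mul_cancel₀ h5, one_smul]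
      have h7 : x = g x - (g - 1) x := by simp
      rw [h7]
      exact Submodule.sub_mem _ h6 ⟨x, rfl⟩
  have h8 : finrank K ((LinearMap.ker (G1 g φ x hz - 1)).map (LinearMap.ker φ).subtype)
      = finrank K (LinearMap.ker (G1 g φ x hz - 1)) := Submodule.finrank_map_subtype_eq _ _
  constructor
  · have := Submodule.finrank_mono (h3.trans inf_le_left)
    omega
  · intro v hv hφv
    have h9 : LinearMap.ker (g - 1) ⊓ LinearMap.ker φ < LinearMap.ker (g - 1) := by
      refine lt_of_le_of_ne inf_le_left ?_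
      intro h
      have : v ∈ LinearMap.ker (g - 1) ⊓ LinearMap.ker φ := by rw [h]; exact hv
      exact hφv this.2
    have h10 := Submodule.finrank_lt_finrank_of_lt h9
    have h11 := Submodule.finrank_mono h3
    omega

/-- Rank of the compression when `g - 1` is injective. -/
theorem rank_A [FiniteDimensional K V] (g : Module.End K V) (φ : V →ₗ[K] K) (x : V)
    (hx : φ x = 1) (hz : φ (g x) = 1) (z' : V) (hz' : (g - 1) z' = g x)
    (hinj : LinearMap.ker (g - 1) = ⊥) :
    finrank K V ≤ finrank K (LinearMap.range (G1 g φ x hz - 1)) + 2 ∧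
    (φ z' ≠ 0 → finrank K V ≤ finrank K (LinearMap.range (G1 g φ x hz - 1)) + 1) := by
  have hrk := finrank_ker φ (ne_zero_of_one φ x hx)
  have h2 := LinearMap.finrank_range_add_finrank_ker (G1 g φ x hz - 1)
  have key : ∀ y : LinearMap.ker φ, y ∈ LinearMap.ker (G1 g φ x hz - 1) →
      (y : V) = φ (g y) • z' := by
    intro y hy
    have hy' : G1 g φ x hz y = y := by
      have : (G1 g φ x hz - 1) y = 0 := hy
      simpa [sub_eq_zero] using this
    have h4 := G1_fix g φ x hz y hy'
    have h5 := LinearMap.ker_eq_bot.1 hinj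
    apply h5
    rw [h4, map_smul, hz']
  constructor
  · have h3 : (LinearMap.ker (G1 g φ x hz - 1)).map (LinearMap.ker φ).subtype ≤ K ∙ z' := by
      rintro _ ⟨y, hy, rfl⟩
      rw [Submodule.mem_span_singleton]
      exact ⟨_, (key y hy).symm⟩
    have h4 := Submodule.finrank_mono h3
    rw [Submodule.finrank_map_subtype_eq] at h4
    have h5 : finrank K (K ∙ z') ≤ 1 := by
      by_cases h : z' = 0
      · rw [h, Submodule.span_zero_singleton, finrank_bot]; omega
      · rw [finrank_span_singleton h]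
    omega
  · intro hφ
    have h3 : LinearMap.ker (G1 g φ x hz - 1) = ⊥ := by
      rw [eq_bot_iff]
      intro y hy
      have h4 := key y hy
      have h5 := congrArg φ h4
      rw [mem_ker_coe, map_smul, smul_eq_mul] at h5
      have h6 : φ (g y) = 0 := by
        rcases mul_eq_zero.1 h5.symm with h | h
        · exact h
        · exact absurd h hφ
      rw [h6, zero_smul] at h4
      simpa using Subtype.ext h4
    rw [h3] at h2
    simp at h2
    omega

/-- Assembly of `Good` for the compression. -/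
theorem good_G1 [FiniteDimensional K V] (g : Module.End K V) (hdet : LinearMap.det g = 1)
    (φ : V →ₗ[K] K) (x : V) (hx : φ x = 1) (hz : φ (g x) = 1)
    (hn : 2 ≤ finrank K V)
    (hne : ∀ κ : K, g x ≠ κ • x)
    (hrank : finrank K V = 2 ∨ 2 ≤ finrank K (LinearMap.range (G1 g φ x hz - 1)))
    (hNS : ∀ μ, Rel g μ → ∃ w, g w = μ • w ∧ φ w ≠ 0) : Good (G1 g φ x hz) := by
  have hrk := finrank_ker φ (ne_zero_of_one φ x hx)
  refine ⟨by rw [det_G1 g φ x hx hz, hdet], ?_⟩
  rcases hrank with h | h
  · left; omega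
  · right
    refine ⟨h, fun μ hμ => ?_⟩
    by_cases hμ1 : μ = 1
    · rw [hμ1, one_smul] at hμ
      rw [hμ, sub_self, LinearMap.range_zero, finrank_bot] at h
      omega
    · have hR := scalar_rel g hdet φ x hx hz μ hμ1 hμ
      obtain ⟨w, hw, hφw⟩ := hNS μ hR
      have hμ0 : μ ≠ 0 := by
        rintro rfl
        have := hR.2.1
        rw [zero_pow (by omega)] at this
        exact zero_ne_one this
      exact not_scalar_of_w g φ x hx hz hne w μ hμ0 hw hφw hμ

end Cfsg.Agent.Lib.LocalEven.Sour1
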