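import Cfsg.Agent.Lib.LocalEven.Sour1

/-! Sourour-type factorisation: choice of the splitting data. -/

universe u v

noncomputable section

open Module

namespace Cfsg.Agent.Lib.LocalEven.Sour2

open Cfsg.Agent.Lib.LocalEven.Sour0 Cfsg.Agent.Lib.LocalEven.Sour1

variable {K : Type v} [Field K] {V : Type u} [AddCommGroup V] [Module K V]

theorem mem_E (g : Module.End K V) (μ : K) (v : V) :
    v ∈ LinearMap.ker (g - μ • 1) ↔ g v = μ • v := by
  rw [LinearMap.mem_ker]
  simp [sub_eq_zero]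

theorem eig_disj (g : Module.End K V) {μ μ' : K} (h : μ ≠ μ') :
    Disjoint (LinearMap.ker (g - μ • 1)) (LinearMap.ker (g - μ' • 1)) := by
  rw [Submodule.disjoint_def]
  intro v h1 h2
  rw [mem_E] at h1 h2
  have h3 : (μ - μ') • v = 0 := by rw [sub_smul, ← h1, ← h2, sub_self]
  exact (smul_eq_zero.1 h3).resolve_left (sub_ne_zero.2 h)

theorem two_dim [FiniteDimensional K V] (g : Module.End K V) {μ μ' : K} (h : μ ≠ μ') :
    finrank K (LinearMap.ker (g - μ • 1)) + finrank K (LinearMap.ker (g - μ' • 1)) ≤ finrank K V :=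
  Submodule.finrank_add_finrank_le_of_disjoint (eig_disj g h)

theorem tri_dim [FiniteDimensional K V] (g : Module.End K V) {a b c : K} (hab : a ≠ b)
    (hac : a ≠ c) (hbc : b ≠ c) :
    finrank K (LinearMap.ker (g - a • 1)) + finrank K (LinearMap.ker (g - b • 1))
      + finrank K (LinearMap.ker (g - c • 1)) ≤ finrank K V := by
  have h1 : Disjoint (LinearMap.ker (g - a • 1) ⊔ LinearMap.ker (g - b • 1))
      (LinearMap.ker (g - c • 1)) := by
    rw [Submodule.disjoint_def]
    intro v hv hc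
    obtain ⟨p, hp, q, hq, rfl⟩ := Submodule.mem_sup.1 hv
    rw [mem_E] at hp hq hc
    rw [map_add, hp, hq, smul_add] at hc
    have h2 : (a - c) • p = (c - b) • q := by
      rw [sub_smul, sub_smul]
      have : a • p + b • q - c • p - c • q = 0 := by rw [hc]; abel
      have h3 : a • p - c • p - (c • q - b • q) = a • p + b • q - c • p - c • q := by abel
      rw [← sub_eq_zero, h3, this]
    have h3 : (a - c) • p ∈ LinearMap.ker (g - a • 1) :=
      Submodule.smul_mem _ _ ((mem_E g a p).2 hp)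
    have h4 : (a - c) • p ∈ LinearMap.ker (g - b • 1) := by
      rw [h2]; exact Submodule.smul_mem _ _ ((mem_E g b q).2 hq)
    have h5 := Submodule.disjoint_def.1 (eig_disj g hab) _ h3 h4
    have hp0 : p = 0 := (smul_eq_zero.1 h5).resolve_left (sub_ne_zero.2 hac)
    rw [h5] at h2
    have hq0 : q = 0 := (smul_eq_zero.1 h2.symm).resolve_left (sub_ne_zero.2 hbc.symm)
    rw [hp0, hq0, add_zero]
  have h2 := Submodule.finrank_add_finrank_le_of_disjoint h1
  have h3 := Submodule.finrank_sup_add_finrank_inf_eq (LinearMap.ker (g - a • 1))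
    (LinearMap.ker (g - b • 1))
  rw [(eig_disj g hab).eq_bot, finrank_bot] at h3
  omega

theorem line_rank (z : V) : finrank K (K ∙ z) ≤ 1 := by
  by_cases h : z = 0
  · rw [h, Submodule.span_zero_singleton, finrank_bot]; omega
  · rw [finrank_span_singleton h]

theorem exists_not_mem_line [FiniteDimensional K V] (S : Submodule K V) (z : V)
    (h : 2 ≤ finrank K S) : ∃ w ∈ S, w ∉ K ∙ z := by
  by_contra hcon
  push Not at hcon
  have h1 := Submodule.finrank_mono (show S ≤ K ∙ z from hcon)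
  have h2 := line_rank (K := K) z
  omega

theorem hne_of_lam (g : Module.End K V) (lam : K) (x : V)
    (h1 : x ∉ LinearMap.range (g - lam • 1)) (h2 : x ∉ LinearMap.ker (g - lam • 1)) :
    ∀ κ : K, g x ≠ κ • x := by
  intro κ hκ
  by_cases h : κ = lam
  · exact h2 ((mem_E g lam x).2 (by rw [hκ, h]))
  · apply h1
    refine ⟨(κ - lam)⁻¹ • x, ?_⟩
    have h3 : (κ - lam) ≠ 0 := sub_ne_zero.2 h
    simp only [map_smul, LinearMap.sub_apply, LinearMap.smul_apply, Module.End.one_apply, hκ]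
    rw [← sub_smul, smul_smul, inv_mul_cancel₀ h3, one_smul]

theorem D_ne_top [FiniteDimensional K V] (g : Module.End K V) (c : V)
    (hrk : 2 ≤ finrank K (LinearMap.range (g - 1))) :
    Submodule.comap (g - 1) (K ∙ c) ≠ ⊤ := by
  intro h
  have h1 : LinearMap.range (g - 1) ≤ K ∙ c := by
    rintro _ ⟨v, rfl⟩
    have : v ∈ Submodule.comap (g - 1) (K ∙ c) := by rw [h]; trivial
    exact this
  have h2 := Submodule.finrank_mono h1
  have h3 := line_rank (K := K) c
  omega

theorem ker_ne_top (r : V →ₗ[K] K) (hr : r ≠ 0) : LinearMap.ker r ≠ ⊤ := by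
  intro h
  exact hr (LinearMap.ker_eq_top.1 h)

theorem pick_x_A [FiniteDimensional K V] (hK : Nonempty (Fin 4 ↪ K)) (hn : 2 ≤ finrank K V)
    (g : Module.End K V) (hns : ∀ μ : K, g ≠ μ • 1)
    (hrk : 2 ≤ finrank K (LinearMap.range (g - 1))) (c : V) (r : V →ₗ[K] K) (hr : r ≠ 0) :
    ∃ x : V, (∀ κ : K, g x ≠ κ • x) ∧ r x ≠ 0 ∧ (g - 1) x ∉ K ∙ c := by
  have key : ∃ S₁ S₂ : Submodule K V, S₁ ≠ ⊤ ∧ S₂ ≠ ⊤ ∧
      ∀ x, x ∉ S₁ → x ∉ S₂ → ∀ κ : K, g x ≠ κ • x := by
    by_cases hl : ∃ lam : K, LinearMap.ker (g - lam • 1) ≠ ⊥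
    · obtain ⟨lam, hlam⟩ := hl
      refine ⟨LinearMap.range (g - lam • 1), LinearMap.ker (g - lam • 1), ?_, ?_, ?_⟩
      · intro h
        exact hlam (LinearMap.ker_eq_bot_iff_range_eq_top.2 h)
      · intro h
        apply hns lam
        ext v
        have : v ∈ LinearMap.ker (g - lam • 1) := by rw [h]; trivial
        rw [mem_E] at this
        simpa using this
      · intro x h1 h2
        exact hne_of_lam g lam x h1 h2
    · push Not at hl
      have : Nontrivial V := Module.nontrivial_of_finrank_pos (R := K) (by omega)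
      refine ⟨⊥, ⊥, bot_ne_top, bot_ne_top, ?_⟩
      intro x h1 _ κ hκ
      apply h1
      have : x ∈ LinearMap.ker (g - κ • 1) := (mem_E g κ x).2 hκ
      rwa [hl κ] at this
  obtain ⟨S₁, S₂, h1, h2, h3⟩ := key
  obtain ⟨x, a1, a2, a3, a4⟩ := no_cover4 hK h1 h2 (ker_ne_top r hr) (D_ne_top g c hrk)
  exact ⟨x, h3 x a1 a2, a3, a4⟩

theorem x_not_line (g : Module.End K V) (x : V) (hne : ∀ κ : K, g x ≠ κ • x) :
    x ∉ K ∙ ((g - 1) x) := by
  intro h
  obtain ⟨κ, hκ⟩ := Submodule.mem_span_singleton.1 h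
  by_cases h0 : κ = 0
  · rw [h0, zero_smul] at hκ
    apply hne 0
    rw [← hκ]; simp
  · apply hne ((1 + κ) * κ⁻¹)
    have h2 : κ • g x = (1 + κ) • x := by
      have h3 : κ • (g - 1) x = κ • g x - κ • x := by
        simp [smul_sub]
      rw [h3] at hκ
      rw [add_smul, one_smul]
      nth_rewrite 2 [← hκ]
      abel
    have h4 := congrArg (fun t => κ⁻¹ • t) h2
    simp only [smul_smul, inv_mul_cancel₀ h0, one_smul] at h4
    rw [h4, mul_comm]

/-- The functional for a chosen `x`. -/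
theorem phi_of_x (hK : Nonempty (Fin 4 ↪ K)) (g : Module.End K V) (x : V)
    (hne : ∀ κ : K, g x ≠ κ • x) (c : V) (hc : c ≠ 0) (hD : (g - 1) x ∉ K ∙ c) (y₃ y₄ : V)
    (h₃ : y₃ ∉ K ∙ ((g - 1) x)) (h₄ : y₄ ∉ K ∙ ((g - 1) x)) :
    ∃ φ : V →ₗ[K] K, φ x = 1 ∧ φ (g x) = 1 ∧ φ c ≠ 0 ∧ φ y₃ ≠ 0 ∧ φ y₄ ≠ 0 := by
  have h1 : x ∉ K ∙ ((g - 1) x) := x_not_line g x hne
  have h2 : c ∉ K ∙ ((g - 1) x) := by
    intro h
    obtain ⟨κ, hκ⟩ := Submodule.mem_span_singleton.1 h
    have h0 : κ ≠ 0 := by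
      rintro rfl
      rw [zero_smul] at hκ
      exact hc hκ.symm
    apply hD
    rw [Submodule.mem_span_singleton]
    refine ⟨κ⁻¹, ?_⟩
    rw [← hκ, smul_smul, inv_mul_cancel₀ h0, one_smul]
  obtain ⟨φ, a0, a1, a2, a3, a4⟩ := pick_phi hK ((g - 1) x) x c y₃ y₄ h1 h2 h₃ h₄
  refine ⟨φ, a1, ?_, a2, a3, a4⟩
  have h5 : φ ((g - 1) x) = φ (g x) - φ x := by simp
  rw [a0, a1] at h5
  exact (sub_eq_zero.1 h5.symm)

/-- The output of the selection. -/
def Data (g : Module.End K V) (c : V) (r : V →ₗ[K] K) : Prop :=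
  ∃ (x : V) (φ : V →ₗ[K] K) (hx : φ x = 1) (hz : φ (g x) = 1), φ c ≠ 0 ∧ r x ≠ 0 ∧
    R1 g φ ≠ 0 ∧ C1 g φ x hx hz ≠ 0 ∧ Good (G1 g φ x hz)

theorem C1_ne (g : Module.End K V) (φ : V →ₗ[K] K) (x : V) (hx : φ x = 1) (hz : φ (g x) = 1)
    (hne : ∀ κ : K, g x ≠ κ • x) : C1 g φ x hx hz ≠ 0 := by
  intro h
  have h1 := congrArg Subtype.val h
  rw [coe_C1] at h1
  apply hne 1
  rw [one_smul]
  exact sub_eq_zero.1 h1

/-! ### Case A: `g - 1` injective -/

theorem eigen_not_line (g : Module.End K V) (hinj : LinearMap.ker (g - 1) = ⊥) (x : V)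
    (hne : ∀ κ : K, g x ≠ κ • x) (w : V) (hw0 : w ≠ 0) (μ : K) (hw : g w = μ • w) :
    w ∉ K ∙ ((g - 1) x) := by
  intro h
  obtain ⟨κ, hκ⟩ := Submodule.mem_span_singleton.1 h
  have h0 : κ ≠ 0 := by
    rintro rfl
    rw [zero_smul] at hκ
    exact hw0 hκ.symm
  have h1 : g ((g - 1) x) = μ • (g - 1) x := by
    have h2 := hw
    rw [← hκ, map_smul] at h2
    rw [smul_comm] at h2
    exact smul_right_injective V h0 h2
  apply hne μ
  have h5 := LinearMap.ker_eq_bot.1 hinj
  apply h5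
  have h6 : (g - 1) (g x) = g ((g - 1) x) := by simp
  rw [h6, h1, map_smul]

theorem rel3 (hV : finrank K V = 3) (g : Module.End K V) (μ : K) (h : Rel g μ) : μ = -1 := by
  obtain ⟨h1, h2, _⟩ := h
  rw [hV] at h2
  have h3 : (μ - 1) * (μ + 1) = 0 := by
    have : (μ - 1) * (μ + 1) = μ ^ 2 - 1 := by ring
    have h2' : μ ^ 2 = 1 := h2
    rw [this, h2', sub_self]
  rcases mul_eq_zero.1 h3 with h4 | h4
  · exact absurd (sub_eq_zero.1 h4) h1
  · exact eq_neg_of_add_eq_zero_left h4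

theorem exists_eigen_of_rel [FiniteDimensional K V] (g : Module.End K V) (μ : K)
    (h : 1 ≤ finrank K (LinearMap.ker (g - μ • 1))) : ∃ w, w ≠ 0 ∧ g w = μ • w := by
  have h1 : LinearMap.ker (g - μ • 1) ≠ ⊥ := by
    intro h2
    rw [h2, finrank_bot] at h
    omega
  obtain ⟨w, hw, hw0⟩ := Submodule.exists_mem_ne_zero_of_ne_bot h1
  exact ⟨w, hw0, (mem_E g μ w).1 hw⟩

/-- A two-dimensional fixed vector argument. -/
theorem fix_lemma [FiniteDimensional K V] (hV : finrank K V = 2) (f : Module.End K V)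
    (hdet : LinearMap.det f = 1) (z : V) (hz0 : z ≠ 0) (hfz : f z = z) (y : V) :
    (f - 1) y ∈ K ∙ z := by
  obtain ⟨ψ₀, h1, -⟩ := Submodule.exists_le_ker_of_notMem (K := K) (p := ⊥) (v := z)
    (by simpa using hz0)
  let ψ : V →ₗ[K] K := (ψ₀ z)⁻¹ • ψ₀
  have hψ : ψ z = 1 := by simp [ψ, h1]
  have hψz : ψ (f z) = 1 := by rw [hfz, hψ]
  have hrk := finrank_ker ψ (ne_zero_of_one ψ z hψ)
  have h2 : G1 f ψ z hψz = 1 :=
    eq_one_of_finrank_one (by omega) _ (by rw [det_G1 f ψ z hψ hψz, hdet])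
  have h3 : ∀ p : LinearMap.ker ψ, (f - 1) (p : V) ∈ K ∙ z := by
    intro p
    have h4 := congrArg Subtype.val (LinearMap.congr_fun h2 p)
    rw [coe_G1] at h4
    simp only [Module.End.one_apply] at h4
    have h5 : (f - 1) (p : V) = ψ (f p) • z := by
      simp only [LinearMap.sub_apply, Module.End.one_apply]
      rw [hfz] at h4
      rw [sub_eq_iff_eq_add] at h4
      exact sub_eq_of_eq_add' h4
    rw [h5]
    exact Submodule.smul_mem _ _ (Submodule.mem_span_singleton_self z)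
  have h6 := decomp ψ z hψ y
  have h7 : (f - 1) y = (f - 1) ((piH ψ z hψ y : LinearMap.ker ψ) : V) := by
    nth_rewrite 1 [h6]
    rw [map_add, map_smul]
    have : (f - 1) z = 0 := by simp [hfz]
    rw [this]; simp
  rw [h7]
  exact h3 _

/-- The vector `z'` is not on the line of `(g-1) x`. -/
theorem zprime_not [FiniteDimensional K V] (hK : Nonempty (Fin 4 ↪ K)) (hV : finrank K V = 3)
    (g : Module.End K V) (hdet : LinearMap.det g = 1) (hinj : LinearMap.ker (g - 1) = ⊥)
    (x : V) (hne : ∀ κ : K, g x ≠ κ • x) (z' : V) (hz' : (g - 1) z' = g x) :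
    z' ∉ K ∙ ((g - 1) x) := by
  intro hmem
  obtain ⟨κ, hκ⟩ := Submodule.mem_span_singleton.1 hmem
  have hz'0 : z' ≠ 0 := by
    rintro rfl
    apply hne 0
    rw [← hz']; simp
  have hxl := x_not_line g x hne
  obtain ⟨φ, hx, hz, -, -, -⟩ := phi_of_x hK g x hne x (by
      rintro rfl
      apply hne 0
      simp) (by
      intro h
      obtain ⟨a, ha⟩ := Submodule.mem_span_singleton.1 h
      apply hne (1 + a)
      rw [add_smul, one_smul, ha]
      simp) x x hxl hxl
  have hrk := finrank_ker φ (ne_zero_of_one φ x hx)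
  have hhx : φ ((g - 1) x) = 0 := by simp [hx, hz]
  have hφz' : φ z' = 0 := by rw [← hκ, map_smul, hhx]; simp
  have hgz' : g z' = z' + g x := by
    have : g z' - z' = g x := by simpa using hz'
    rw [← this]; abel
  let z₀ : LinearMap.ker φ := ⟨z', LinearMap.mem_ker.2 hφz'⟩
  have hz₀ : z₀ ≠ 0 := fun h => hz'0 (congrArg Subtype.val h)
  have hfix : G1 g φ x hz z₀ = z₀ := by
    apply Subtype.ext
    rw [coe_G1]
    show g z' - φ (g z') • g x = z'
    rw [hgz', map_add, hφz', hz]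
    simp
  have hdet1 : LinearMap.det (G1 g φ x hz) = 1 := by rw [det_G1 g φ x hx hz, hdet]
  have hfl := fix_lemma (by omega) (G1 g φ x hz) hdet1 z₀ hz₀ hfix
  -- the range of `g - 1` lies in a plane
  let W : Submodule K V := (K ∙ x) ⊔ (K ∙ g x)
  have hxW : x ∈ W := Submodule.mem_sup_left (Submodule.mem_span_singleton_self x)
  have hgxW : g x ∈ W := Submodule.mem_sup_right (Submodule.mem_span_singleton_self (g x))
  have hz'W : z' ∈ W := by
    rw [← hκ]
    apply Submodule.smul_mem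
    simpa using Submodule.sub_mem _ hgxW hxW
  have hrange : LinearMap.range (g - 1) ≤ W := by
    rintro _ ⟨v, rfl⟩
    have h6 := decomp φ x hx v
    rw [h6, map_add, map_smul]
    apply Submodule.add_mem
    · apply Submodule.smul_mem
      simpa using Submodule.sub_mem _ hgxW hxW
    · set p := piH φ x hx v with hp
      obtain ⟨a, ha⟩ := Submodule.mem_span_singleton.1 (hfl p)
      have h7 := congrArg Subtype.val ha
      have h8 : (g - 1) (p : V) = a • z' + φ (g p) • g x := by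
        have h9 : (((G1 g φ x hz - 1) p : LinearMap.ker φ) : V)
            = (g p - φ (g p) • g x) - p := rfl
        rw [← h7] at h9
        have h10 : ((a • z₀ : LinearMap.ker φ) : V) = a • z' := rfl
        rw [h10] at h9
        simp only [LinearMap.sub_apply, Module.End.one_apply]
        rw [h9]; abel
      rw [h8]
      exact Submodule.add_mem _ (Submodule.smul_mem _ _ hz'W) (Submodule.smul_mem _ _ hgxW)
  have h10 := LinearMap.finrank_range_add_finrank_ker (g - 1)
  rw [hinj, finrank_bot, hV] at h10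
  have h11 := Submodule.finrank_mono hrange
  have h12 := Submodule.finrank_add_le_finrank_add_finrank (K ∙ x) (K ∙ g x)
  have h13 := line_rank (K := K) x
  have h14 := line_rank (K := K) (g x)
  have : finrank K W ≤ 2 := by
    show finrank K ((K ∙ x) ⊔ (K ∙ g x) : Submodule K V) ≤ 2
    omega
  omega

end Cfsg.Agent.Lib.LocalEven.Sour2
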