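import Cfsg.Agent.Lib.LocalEven.Sour2

/-! Sourour-type factorisation: the case analysis and the main recursion. -/

universe u v

noncomputable section

open Module

namespace Cfsg.Agent.Lib.LocalEven.Sour3

open Cfsg.Agent.Lib.LocalEven.Sour0 Cfsg.Agent.Lib.LocalEven.Sour1
  Cfsg.Agent.Lib.LocalEven.Sour2

variable {K : Type v} [Field K] {V : Type u} [AddCommGroup V] [Module K V]

theorem range_top [FiniteDimensional K V] (g : Module.End K V)
    (hinj : LinearMap.ker (g - 1) = ⊥) (y : V) : y ∈ LinearMap.range (g - 1) := by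
  rw [LinearMap.ker_eq_bot_iff_range_eq_top.1 hinj]; trivial

theorem data_A2 [FiniteDimensional K V] (hK : Nonempty (Fin 4 ↪ K)) (hV : finrank K V = 2)
    (g : Module.End K V) (hdet : LinearMap.det g = 1) (hns : ∀ μ : K, g ≠ μ • 1)
    (hrk : 2 ≤ finrank K (LinearMap.range (g - 1))) (hinj : LinearMap.ker (g - 1) = ⊥)
    (c : V) (hc : c ≠ 0) (r : V →ₗ[K] K) (hr : r ≠ 0) : Data g c r := by
  obtain ⟨x, hne, hrx, hD⟩ := pick_x_A hK (by omega) g hns hrk c r hr
  have hxl := x_not_line g x hne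
  obtain ⟨φ, hx, hz, hφc, hφ3, -⟩ := phi_of_x hK g x hne c hc hD x x hxl hxl
  have hrkφ := finrank_ker φ (ne_zero_of_one φ x hx)
  exact ⟨x, φ, hx, hz, hφc, hrx, R1_ne g φ x hx hz x (range_top g hinj x) hφ3,
    C1_ne g φ x hx hz hne, by rw [Good, det_G1 g φ x hx hz, hdet]; exact ⟨rfl, Or.inl (by omega)⟩⟩

theorem data_A3 [FiniteDimensional K V] (hK : Nonempty (Fin 4 ↪ K)) (hV : finrank K V = 3)
    (g : Module.End K V) (hdet : LinearMap.det g = 1) (hns : ∀ μ : K, g ≠ μ • 1)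
    (hrk : 2 ≤ finrank K (LinearMap.range (g - 1))) (hinj : LinearMap.ker (g - 1) = ⊥)
    (c : V) (hc : c ≠ 0) (r : V →ₗ[K] K) (hr : r ≠ 0) : Data g c r := by
  obtain ⟨x, hne, hrx, hD⟩ := pick_x_A hK (by omega) g hns hrk c r hr
  have hxl := x_not_line g x hne
  obtain ⟨z', hz'⟩ := range_top g hinj (g x)
  have hz'l := zprime_not hK hV g hdet hinj x hne z' hz'
  -- the second witness
  obtain ⟨y₄, hy₄, hy₄r⟩ : ∃ y₄, y₄ ∉ K ∙ ((g - 1) x) ∧ ∀ μ, Rel g μ → g y₄ = μ • y₄ := by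
    by_cases hrel : Rel g (-1)
    · obtain ⟨w, hw0, hw⟩ := exists_eigen_of_rel g (-1) (by
        have := hrel.2.2; rw [hV] at this; omega)
      refine ⟨w, eigen_not_line g hinj x hne w hw0 (-1) hw, fun μ hμ => ?_⟩
      rw [rel3 hV g μ hμ]; exact hw
    · refine ⟨x, hxl, fun μ hμ => ?_⟩
      rw [rel3 hV g μ hμ] at hμ
      exact absurd hμ hrel
  obtain ⟨φ, hx, hz, hφc, hφ3, hφ4⟩ := phi_of_x hK g x hne c hc hD z' y₄ hz'l hy₄
  have hφx : φ x ≠ 0 := by rw [hx]; exact one_ne_zero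
  refine ⟨x, φ, hx, hz, hφc, hrx, R1_ne g φ x hx hz x (range_top g hinj x) hφx,
    C1_ne g φ x hx hz hne, good_G1 g hdet φ x hx hz (by omega) hne (Or.inr ?_)
      (fun μ hμ => ⟨y₄, hy₄r μ hμ, hφ4⟩)⟩
  have := (rank_A g φ x hx hz z' hz' hinj).2 hφ3
  omega

theorem two_witness_A [FiniteDimensional K V] (hV : 4 ≤ finrank K V)
    (g : Module.End K V) (hinj : LinearMap.ker (g - 1) = ⊥) (x : V)
    (hne : ∀ κ : K, g x ≠ κ • x) :
    ∃ w₁ w₂ : V, w₁ ∉ K ∙ ((g - 1) x) ∧ w₂ ∉ K ∙ ((g - 1) x) ∧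
      ∀ μ, Rel g μ → (g w₁ = μ • w₁ ∨ g w₂ = μ • w₂) := by
  have hxl := x_not_line g x hne
  by_cases h₁ : ∃ μ₁, Rel g μ₁
  · obtain ⟨μ₁, hμ₁⟩ := h₁
    obtain ⟨w₁, hw₁0, hw₁⟩ := exists_eigen_of_rel g μ₁ (by have := hμ₁.2.2; omega)
    have hl₁ := eigen_not_line g hinj x hne w₁ hw₁0 μ₁ hw₁
    by_cases h₂ : ∃ μ₂, μ₂ ≠ μ₁ ∧ Rel g μ₂
    · obtain ⟨μ₂, hne₂, hμ₂⟩ := h₂
      obtain ⟨w₂, hw₂0, hw₂⟩ := exists_eigen_of_rel g μ₂ (by have := hμ₂.2.2; omega)
      have hl₂ := eigen_not_line g hinj x hne w₂ hw₂0 μ₂ hw₂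
      refine ⟨w₁, w₂, hl₁, hl₂, fun μ hμ => ?_⟩
      by_cases h3 : μ = μ₁
      · left; rw [h3]; exact hw₁
      · by_cases h4 : μ = μ₂
        · right; rw [h4]; exact hw₂
        · exfalso
          have h5 := tri_dim g (a := μ₁) (b := μ₂) (c := μ) hne₂.symm (Ne.symm h3) (Ne.symm h4)
          have h6 := hμ₁.2.2
          have h7 := hμ₂.2.2
          have h8 := hμ.2.2
          omega
    · push Not at h₂
      refine ⟨w₁, w₁, hl₁, hl₁, fun μ hμ => ?_⟩
      by_cases h3 : μ = μ₁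
      · left; rw [h3]; exact hw₁
      · exact absurd hμ (h₂ μ h3)
  · refine ⟨x, x, hxl, hxl, fun μ hμ => ?_⟩
    exact absurd ⟨μ, hμ⟩ h₁

theorem data_A4 [FiniteDimensional K V] (hK : Nonempty (Fin 4 ↪ K)) (hV : 4 ≤ finrank K V)
    (g : Module.End K V) (hdet : LinearMap.det g = 1) (hns : ∀ μ : K, g ≠ μ • 1)
    (hrk : 2 ≤ finrank K (LinearMap.range (g - 1))) (hinj : LinearMap.ker (g - 1) = ⊥)
    (c : V) (hc : c ≠ 0) (r : V →ₗ[K] K) (hr : r ≠ 0) : Data g c r := by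
  obtain ⟨x, hne, hrx, hD⟩ := pick_x_A hK (by omega) g hns hrk c r hr
  obtain ⟨z', hz'⟩ := range_top g hinj (g x)
  obtain ⟨w₁, w₂, h1, h2, h3⟩ := two_witness_A hV g hinj x hne
  obtain ⟨φ, hx, hz, hφc, hφ3, hφ4⟩ := phi_of_x hK g x hne c hc hD w₁ w₂ h1 h2
  have hφx : φ x ≠ 0 := by rw [hx]; exact one_ne_zero
  refine ⟨x, φ, hx, hz, hφc, hrx, R1_ne g φ x hx hz x (range_top g hinj x) hφx,
    C1_ne g φ x hx hz hne, good_G1 g hdet φ x hx hz (by omega) hne (Or.inr ?_) ?_⟩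
  · have := (rank_A g φ x hx hz z' hz' hinj).1
    omega
  · intro μ hμ
    rcases h3 μ hμ with h | h
    · exact ⟨w₁, h, hφ3⟩
    · exact ⟨w₂, h, hφ4⟩

theorem hne_of_one (g : Module.End K V) (x : V)
    (h1 : x ∉ LinearMap.range (g - 1)) (h2 : x ∉ LinearMap.ker (g - 1)) :
    ∀ κ : K, g x ≠ κ • x := by
  apply hne_of_lam g 1 x
  · rwa [one_smul]
  · rwa [one_smul]

theorem range_ne_top [FiniteDimensional K V] (g : Module.End K V)
    (hker : LinearMap.ker (g - 1) ≠ ⊥) : LinearMap.range (g - 1) ≠ ⊤ := fun h =>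
  hker (LinearMap.ker_eq_bot_iff_range_eq_top.2 h)

theorem eigen_mem_range (g : Module.End K V) (μ : K) (hμ : μ ≠ 1) (w : V) (hw : g w = μ • w) :
    w ∈ LinearMap.range (g - 1) := by
  refine ⟨(μ - 1)⁻¹ • w, ?_⟩
  have h3 : (μ - 1) ≠ 0 := sub_ne_zero.2 hμ
  simp only [map_smul, LinearMap.sub_apply, Module.End.one_apply, hw]
  rw [← one_smul K w, ← smul_assoc, ← sub_smul]
  simp [h3]

theorem data_B4 [FiniteDimensional K V] (hK : Nonempty (Fin 4 ↪ K)) (hV : 4 ≤ finrank K V)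
    (g : Module.End K V) (hdet : LinearMap.det g = 1) (hns : ∀ μ : K, g ≠ μ • 1)
    (hrk : 2 ≤ finrank K (LinearMap.range (g - 1))) (hker : LinearMap.ker (g - 1) ≠ ⊥)
    (c : V) (hc : c ≠ 0) (r : V →ₗ[K] K) (hr : r ≠ 0) : Data g c r := by
  have hkt : LinearMap.ker (g - 1) ≠ ⊤ := by
    intro h
    apply hns 1
    ext v
    have : v ∈ LinearMap.ker (g - 1) := by rw [h]; trivial
    have h2 := (mem_E g 1 v).1 (by rwa [one_smul])
    simpa using h2
  obtain ⟨x, a1, a2, a3, a4⟩ := no_cover4 hK (range_ne_top g hker) hkt (ker_ne_top r hr)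
    (D_ne_top g c hrk)
  have hne := hne_of_one g x a1 a2
  have hD : (g - 1) x ∉ K ∙ c := a4
  have hrx : r x ≠ 0 := a3
  have hker1 : 1 ≤ finrank K (LinearMap.ker (g - 1)) := by
    by_contra h
    have h0 : finrank K (LinearMap.ker (g - 1)) = 0 := by omega
    exact hker (Submodule.finrank_eq_zero.1 h0)
  have hrn := LinearMap.finrank_range_add_finrank_ker (g - 1)
  -- witness in the range
  obtain ⟨w, hwr, hwl, hwrel⟩ : ∃ w, w ∈ LinearMap.range (g - 1) ∧ w ∉ K ∙ ((g - 1) x) ∧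
      ∀ μ, Rel g μ → g w = μ • w := by
    by_cases h₁ : ∃ μ₁, Rel g μ₁
    · obtain ⟨μ₁, hμ₁⟩ := h₁
      obtain ⟨w, hw, hwl⟩ := exists_not_mem_line (LinearMap.ker (g - μ₁ • 1)) ((g - 1) x)
        (by have := hμ₁.2.2; omega)
      have hw' := (mem_E g μ₁ w).1 hw
      refine ⟨w, eigen_mem_range g μ₁ hμ₁.1 w hw', hwl, fun μ hμ => ?_⟩
      by_cases h3 : μ = μ₁
      · rw [h3]; exact hw'
      · exfalso
        have h5 := tri_dim g (a := μ₁) (b := μ) (c := 1) (Ne.symm h3) hμ₁.1 hμ.1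
        rw [one_smul] at h5
        have h6 := hμ₁.2.2
        have h7 := hμ.2.2
        omega
    · obtain ⟨w, hw, hwl⟩ := exists_not_mem_line (LinearMap.range (g - 1)) ((g - 1) x) hrk
      exact ⟨w, hw, hwl, fun μ hμ => absurd ⟨μ, hμ⟩ h₁⟩
  -- second witness
  obtain ⟨y₄, hy₄, hy₄k⟩ : ∃ y₄, y₄ ∉ K ∙ ((g - 1) x) ∧
      (finrank K (LinearMap.range (g - 1)) = 2 → y₄ ∈ LinearMap.ker (g - 1)) := by
    by_cases h2 : finrank K (LinearMap.range (g - 1)) = 2
    · obtain ⟨v, hv, hvl⟩ := exists_not_mem_line (LinearMap.ker (g - 1)) ((g - 1) x) (by omega)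
      exact ⟨v, hvl, fun _ => hv⟩
    · exact ⟨x, x_not_line g x hne, fun h => absurd h h2⟩
  obtain ⟨φ, hx, hz, hφc, hφ3, hφ4⟩ := phi_of_x hK g x hne c hc hD w y₄ hwl hy₄
  refine ⟨x, φ, hx, hz, hφc, hrx, R1_ne g φ x hx hz w hwr hφ3,
    C1_ne g φ x hx hz hne, good_G1 g hdet φ x hx hz (by omega) hne (Or.inr ?_)
      (fun μ hμ => ⟨w, hwrel μ hμ, hφ3⟩)⟩
  have hB := rank_B g φ x hx hz a1
  by_cases h2 : finrank K (LinearMap.range (g - 1)) = 2
  · have := hB.2 y₄ (hy₄k h2) hφ4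
    omega
  · have := hB.1
    omega

/-- Final step for dimension three with `1` an eigenvalue. -/
theorem finish_B3 [FiniteDimensional K V] (hK : Nonempty (Fin 4 ↪ K)) (hV : finrank K V = 3)
    (g : Module.End K V) (hdet : LinearMap.det g = 1)
    (hrk : 2 ≤ finrank K (LinearMap.range (g - 1))) (hker : LinearMap.ker (g - 1) ≠ ⊥)
    (c : V) (hc : c ≠ 0) (r : V →ₗ[K] K) (x : V) (hxr : x ∉ LinearMap.range (g - 1))
    (hx2 : (g - 1) ((g - 1) x) ≠ 0) (hrx : r x ≠ 0) (hD : (g - 1) x ∉ K ∙ c)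
    (w : V) (hwr : w ∈ LinearMap.range (g - 1)) (hwl : w ∉ K ∙ ((g - 1) x))
    (hwrel : ∀ μ, Rel g μ → g w = μ • w) : Data g c r := by
  have hxk : x ∉ LinearMap.ker (g - 1) := by
    intro h
    apply hx2
    rw [LinearMap.mem_ker.1 h, map_zero]
  have hne := hne_of_one g x hxr hxk
  -- the kernel vector
  obtain ⟨v, hv, hv0⟩ := Submodule.exists_mem_ne_zero_of_ne_bot hker
  have hvl : v ∉ K ∙ ((g - 1) x) := by
    intro h
    obtain ⟨κ, hκ⟩ := Submodule.mem_span_singleton.1 h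
    have h0 : κ ≠ 0 := by
      rintro rfl
      rw [zero_smul] at hκ
      exact hv0 hκ.symm
    apply hx2
    have h1 := LinearMap.mem_ker.1 hv
    rw [← hκ, map_smul] at h1
    exact (smul_eq_zero.1 h1).resolve_left h0
  obtain ⟨φ, hx, hz, hφc, hφ3, hφ4⟩ := phi_of_x hK g x hne c hc hD w v hwl hvl
  refine ⟨x, φ, hx, hz, hφc, hrx, R1_ne g φ x hx hz w hwr hφ3,
    C1_ne g φ x hx hz hne, good_G1 g hdet φ x hx hz (by omega) hne (Or.inr ?_)
      (fun μ hμ => ⟨w, hwrel μ hμ, hφ3⟩)⟩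
  have hB := (rank_B g φ x hx hz hxr).2 v hv hφ4
  omega

theorem data_B3 [FiniteDimensional K V] (hK : Nonempty (Fin 4 ↪ K))
    (hK5 : (2 : K) ≠ 0 → Nonempty (Fin 5 ↪ K)) (hV : finrank K V = 3)
    (g : Module.End K V) (hdet : LinearMap.det g = 1)
    (hrk : 2 ≤ finrank K (LinearMap.range (g - 1))) (hker : LinearMap.ker (g - 1) ≠ ⊥)
    (c : V) (hc : c ≠ 0) (r : V →ₗ[K] K) (hr : r ≠ 0) : Data g c r := by
  have hker1 : 1 ≤ finrank K (LinearMap.ker (g - 1)) := by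
    by_contra h
    have h0 : finrank K (LinearMap.ker (g - 1)) = 0 := by omega
    exact hker (Submodule.finrank_eq_zero.1 h0)
  have hrn := LinearMap.finrank_range_add_finrank_ker (g - 1)
  have hρ : finrank K (LinearMap.range (g - 1)) = 2 := by omega
  have hk1 : finrank K (LinearMap.ker (g - 1)) = 1 := by omega
  -- the square of `g - 1` is not zero
  have hk2 : LinearMap.ker ((g - 1) * (g - 1)) ≠ ⊤ := by
    intro h
    have h1 : LinearMap.range (g - 1) ≤ LinearMap.ker (g - 1) := by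
      rintro _ ⟨v, rfl⟩
      have : v ∈ LinearMap.ker ((g - 1) * (g - 1)) := by rw [h]; trivial
      exact this
    have := Submodule.finrank_mono h1
    omega
  have hker2 : ∀ x, x ∉ LinearMap.ker ((g - 1) * (g - 1)) → (g - 1) ((g - 1) x) ≠ 0 :=
    fun x hx h => hx h
  by_cases hbad : Rel g (-1) ∧ finrank K (LinearMap.ker (g - (-1 : K) • 1)) < 2
  · obtain ⟨hrel, hlt⟩ := hbad
    have h2 : (2 : K) ≠ 0 := by
      intro h2
      apply hrel.1
      linear_combination (-1 : K) * h2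
    have hE1 : finrank K (LinearMap.ker (g - (-1 : K) • 1)) = 1 := by
      have := hrel.2.2; rw [hV] at this; omega
    have hk3 : LinearMap.ker ((g - (-1 : K) • 1) * (g - 1)) ≠ ⊤ := by
      intro h
      have h1 : LinearMap.range (g - 1) ≤ LinearMap.ker (g - (-1 : K) • 1) := by
        rintro _ ⟨v, rfl⟩
        have : v ∈ LinearMap.ker ((g - (-1 : K) • 1) * (g - 1)) := by rw [h]; trivial
        exact this
      have := Submodule.finrank_mono h1
      omega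
    obtain ⟨x, a1, a2, a3, a4, a5⟩ := no_cover5 (hK5 h2) (range_ne_top g hker) hk2
      (ker_ne_top r hr) (D_ne_top g c hrk) hk3
    obtain ⟨w, hw0, hw⟩ := exists_eigen_of_rel g (-1) (by omega)
    have hwl : w ∉ K ∙ ((g - 1) x) := by
      intro h
      obtain ⟨κ, hκ⟩ := Submodule.mem_span_singleton.1 h
      have h0 : κ ≠ 0 := by
        rintro rfl
        rw [zero_smul] at hκ
        exact hw0 hκ.symm
      apply a5
      have h1 : w ∈ LinearMap.ker (g - (-1 : K) • 1) := (mem_E g _ w).2 hw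
      rw [← hκ] at h1
      have h3 := LinearMap.mem_ker.1 h1
      rw [map_smul] at h3
      exact (smul_eq_zero.1 h3).resolve_left h0
    exact finish_B3 hK hV g hdet hrk hker c hc r x a1 (hker2 x a2) a3 a4 w
      (eigen_mem_range g (-1) hrel.1 w hw) hwl (fun μ hμ => by rw [rel3 hV g μ hμ]; exact hw)
  · obtain ⟨x, a1, a2, a3, a4⟩ := no_cover4 hK (range_ne_top g hker) hk2
      (ker_ne_top r hr) (D_ne_top g c hrk)
    obtain ⟨w, hwr, hwl, hwrel⟩ : ∃ w, w ∈ LinearMap.range (g - 1) ∧ w ∉ K ∙ ((g - 1) x) ∧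
        ∀ μ, Rel g μ → g w = μ • w := by
      by_cases hrel : Rel g (-1)
      · have h2 : 2 ≤ finrank K (LinearMap.ker (g - (-1 : K) • 1)) := by
          by_contra h3
          exact hbad ⟨hrel, by omega⟩
        obtain ⟨w, hw, hwl⟩ := exists_not_mem_line _ ((g - 1) x) h2
        have hw' := (mem_E g _ w).1 hw
        exact ⟨w, eigen_mem_range g (-1) hrel.1 w hw', hwl,
          fun μ hμ => by rw [rel3 hV g μ hμ]; exact hw'⟩
      · obtain ⟨w, hw, hwl⟩ := exists_not_mem_line (LinearMap.range (g - 1)) ((g - 1) x) hrk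
        refine ⟨w, hw, hwl, fun μ hμ => ?_⟩
        rw [rel3 hV g μ hμ] at hμ
        exact absurd hμ hrel
    exact finish_B3 hK hV g hdet hrk hker c hc r x a1 (hker2 x a2) a3 a4 w hwr hwl hwrel

/-- The selection in all cases. -/
theorem exists_data [FiniteDimensional K V] (hK : Nonempty (Fin 4 ↪ K))
    (hK5 : (2 : K) ≠ 0 → Nonempty (Fin 5 ↪ K)) (hn : 2 ≤ finrank K V)
    (g : Module.End K V) (hG : Good g) (c : V) (hc : c ≠ 0) (r : V →ₗ[K] K) (hr : r ≠ 0) :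
    Data g c r := by
  obtain ⟨hdet, h⟩ := hG
  obtain ⟨hrk, hns⟩ : 2 ≤ finrank K (LinearMap.range (g - 1)) ∧ ∀ μ : K, g ≠ μ • 1 := by
    rcases h with h | h
    · omega
    · exact h
  by_cases hinj : LinearMap.ker (g - 1) = ⊥
  · by_cases h2 : finrank K V = 2
    · exact data_A2 hK h2 g hdet hns hrk hinj c hc r hr
    · by_cases h3 : finrank K V = 3
      · exact data_A3 hK h3 g hdet hns hrk hinj c hc r hr
      · exact data_A4 hK (by omega) g hdet hns hrk hinj c hc r hr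
  · have hker1 : 1 ≤ finrank K (LinearMap.ker (g - 1)) := by
      by_contra h
      have h0 : finrank K (LinearMap.ker (g - 1)) = 0 := by omega
      exact hinj (Submodule.finrank_eq_zero.1 h0)
    have hrn := LinearMap.finrank_range_add_finrank_ker (g - 1)
    by_cases h3 : finrank K V = 3
    · exact data_B3 hK hK5 h3 g hdet hrk hinj c hc r hr
    · exact data_B4 hK (by omega) g hdet hns hrk hinj c hc r hr

/-- The main recursion. -/
theorem main_fac (hK : Nonempty (Fin 4 ↪ K)) (hK5 : (2 : K) ≠ 0 → Nonempty (Fin 5 ↪ K)) :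
    ∀ (n : ℕ) (V : Type u) [AddCommGroup V] [Module K V] [FiniteDimensional K V],
      finrank K V = n + 1 → ∀ g : Module.End K V, Good g → ∀ c : V, c ≠ 0 →
        ∀ r : V →ₗ[K] K, r ≠ 0 → Fac g c r := by
  intro n
  induction n with
  | zero =>
    intro V _ _ _ hV g hG c hc r hr
    have hg1 := eq_one_of_finrank_one hV g hG.1
    refine ⟨1, 1, by rw [hg1, one_mul], ?_, ?_, ?_, ?_⟩
    · rw [hV]; simp
    · rw [hV]; simp
    · rw [hV]; simpa using hc
    · rw [hV]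
      have : ∃ v, r v ≠ 0 := by
        by_contra h
        push Not at h
        exact hr (LinearMap.ext h)
      simpa using this
  | succ n ih =>
    intro V _ _ _ hV g hG c hc r hr
    obtain ⟨x, φ, hx, hz, hφc, hrx, hR, hC, hgood⟩ :=
      exists_data hK hK5 (by omega) g hG c hc r hr
    have hrk := finrank_ker φ (ne_zero_of_one φ x hx)
    exact step g φ x hx hz c r hφc hrx (by omega)
      (ih (LinearMap.ker φ) (by omega) (G1 g φ x hz) hgood _ hC _ hR)

end Cfsg.Agent.Lib.LocalEven.Sour3
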