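import Cfsg.Agent.Lib.LocalEven.Sour3

/-! Sourour-type factorisation: transvections and conjugacy to the Jordan block. -/

universe u v

noncomputable section

open Module

namespace Cfsg.Agent.Lib.LocalEven.Sour4

open Cfsg.Agent.Lib.LocalEven.Sour0 Cfsg.Agent.Lib.LocalEven.Sour1
  Cfsg.Agent.Lib.LocalEven.Sour2 Cfsg.Agent.Lib.LocalEven.Sour3

variable {K : Type v} [Field K]

section chain
variable {V : Type u} [AddCommGroup V] [Module K V]

/-- One step of the chain construction. -/
theorem chain_step (ψ : V →ₗ[K] K) (e : V) (he : ψ e = 1) (m : ℕ)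
    (N' : Module.End K (LinearMap.ker ψ)) (w' u' : LinearMap.ker ψ)
    (h0 : N' ^ (m + 1) = 0) (h1 : (N' ^ m) w' = u') :
    ∃ N : Module.End K V, N ^ (m + 2) = 0 ∧ ∀ v, (N ^ (m + 1)) v = ψ v • (u' : V) := by
  let ι := (LinearMap.ker ψ).subtype
  let π := piH ψ e he
  let N : Module.End K V := ι ∘ₗ (N' ∘ₗ π + ψ.smulRight w')
  have hNι : ∀ y : LinearMap.ker ψ, N (y : V) = ι (N' y) := by
    intro y
    have h3 : ψ (y : V) = 0 := LinearMap.mem_ker.1 y.2
    simp [N, h3, π, piH_coe]
  have hNv : ∀ v : V, N v = ι (N' (π v) + ψ v • w') := by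
    intro v; simp [N]
  have hpow0 : ∀ (k : ℕ) (y : LinearMap.ker ψ), (N ^ k) (y : V) = ι ((N' ^ k) y) := by
    intro k
    induction k with
    | zero => intro y; simp [ι]
    | succ k ih =>
      intro y
      rw [pow_succ, Module.End.mul_apply, hNι, pow_succ, Module.End.mul_apply]
      exact ih (N' y)
  have hpow : ∀ (k : ℕ) (v : V), (N ^ (k + 1)) v = ι ((N' ^ k) (N' (π v) + ψ v • w')) := by
    intro k v
    rw [pow_succ, Module.End.mul_apply, hNv]
    exact hpow0 k (N' (π v) + ψ v • w')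
  refine ⟨N, ?_, ?_⟩
  · ext v
    rw [pow_succ' N (m + 1), Module.End.mul_apply, hpow, map_add, map_smul, h1]
    have h2 : (N' ^ m) (N' (π v)) = 0 := by
      rw [← Module.End.mul_apply, ← pow_succ, h0]; simp
    rw [h2, zero_add, map_smul, map_smul]
    have h4 : N' u' = 0 := by
      rw [← h1, ← Module.End.mul_apply, ← pow_succ', h0]; simp
    have h5 : N (ι u') = 0 := by
      show N ((u' : LinearMap.ker ψ) : V) = 0
      rw [hNι, h4, map_zero]
    rw [h5, smul_zero]
    simp
  · intro v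
    rw [hpow, map_add, map_smul, h1]
    have h2 : (N' ^ m) (N' (π v)) = 0 := by
      rw [← Module.End.mul_apply, ← pow_succ, h0]; simp
    rw [h2, zero_add, map_smul]
    rfl

theorem exists_unit_functional (z : V) (hz : z ≠ 0) : ∃ f : V →ₗ[K] K, f z = 1 := by
  obtain ⟨f, h1, -⟩ := Submodule.exists_le_ker_of_notMem (K := K) (p := ⊥) (v := z)
    (by simpa using hz)
  exact ⟨(f z)⁻¹ • f, by simp [h1]⟩

/-- Existence of the regular nilpotent whose top power is a given transvection part. -/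
theorem chain_exists : ∀ (m : ℕ) (V : Type u) [AddCommGroup V] [Module K V]
    [FiniteDimensional K V], finrank K V = m + 2 → ∀ (u : V) (ψ : V →ₗ[K] K), u ≠ 0 → ψ ≠ 0 →
    ψ u = 0 → ∃ N : Module.End K V, N ^ (m + 2) = 0 ∧ ∀ v, (N ^ (m + 1)) v = ψ v • u := by
  intro m
  induction m with
  | zero =>
    intro V _ _ _ _ u ψ _ _ hψu
    refine ⟨ψ.smulRight u, ?_, fun v => by simp⟩
    ext v
    simp [pow_two, hψu]
  | succ m ih =>
    intro V _ _ _ hV u ψ hu hψ hψu
    have hrk := finrank_ker ψ hψ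
    let u' : LinearMap.ker ψ := ⟨u, LinearMap.mem_ker.2 hψu⟩
    have hu' : u' ≠ 0 := fun h => hu (congrArg Subtype.val h)
    -- a functional on the kernel vanishing on `u'`
    have hlt : (K ∙ u') < ⊤ := by
      refine lt_top_iff_ne_top.2 ?_
      intro h
      have h1 := line_rank (K := K) u'
      rw [h, finrank_top] at h1
      omega
    obtain ⟨ψ', hψ'0, hψ'⟩ := Submodule.exists_le_ker_of_lt_top _ hlt
    have hψ'u : ψ' u' = 0 := hψ' (Submodule.mem_span_singleton_self u')
    obtain ⟨e₀, he₀⟩ : ∃ e₀, ψ' e₀ ≠ 0 := by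
      by_contra h
      push Not at h
      exact hψ'0 (LinearMap.ext h)
    let e' : LinearMap.ker ψ := (ψ' e₀)⁻¹ • e₀
    have he' : ψ' e' = 1 := by simp [e', he₀]
    obtain ⟨e₁, he₁⟩ : ∃ e₁, ψ e₁ ≠ 0 := by
      by_contra h
      push Not at h
      exact hψ (LinearMap.ext h)
    let e : V := (ψ e₁)⁻¹ • e₁
    have he : ψ e = 1 := by simp [e, he₁]
    obtain ⟨N', h0, h1⟩ := ih (LinearMap.ker ψ) (by omega) u' ψ' hu' hψ'0 hψ'u
    have h2 : (N' ^ (m + 1)) e' = u' := by rw [h1, he', one_smul]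
    exact chain_step ψ e he (m + 1) N' e' u' h0 h2

/-- `N * W` for `W` commuting with `N` and scaling the top power. -/
theorem nil_mul (N W : Module.End K V) (hc : Commute N W) (m : ℕ) (h0 : N ^ (m + 1) = 0)
    (hne : N ^ m ≠ 0) (ε : K) (hε : ε ≠ 0) (hW : N ^ m * W = ε • N ^ m) :
    (N * W) ^ (m + 1) = 0 ∧ (N * W) ^ m ≠ 0 := by
  have hk : ∀ k : ℕ, N ^ m * W ^ k = ε ^ k • N ^ m := by
    intro k
    induction k with
    | zero => simp
    | succ k ih =>
      rw [pow_succ, ← mul_assoc, ih, smul_mul_assoc, hW, smul_smul, pow_succ]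
  constructor
  · rw [hc.mul_pow, h0, zero_mul]
  · rw [hc.mul_pow, hk]
    exact smul_ne_zero (pow_ne_zero _ hε) hne

theorem trans_fac [FiniteDimensional K V] (m : ℕ) (hV : finrank K V = m + 3)
    (g : Module.End K V) (u : V) (ψ : V →ₗ[K] K) (hu : u ≠ 0) (hψ : ψ ≠ 0) (hψu : ψ u = 0)
    (hg : ∀ v, g v = v + ψ v • u) :
    ∃ X Y : Module.End K V, g = X * Y ∧ (X - 1) ^ (m + 3) = 0 ∧ (Y - 1) ^ (m + 3) = 0 ∧
      (X - 1) ^ (m + 2) ≠ 0 ∧ (Y - 1) ^ (m + 2) ≠ 0 := by
  obtain ⟨N, h0, h1⟩ := chain_exists (m + 1) V (by omega) u ψ hu hψ hψu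
  have hg' : g = 1 + N ^ (m + 2) := by
    ext v
    simp only [LinearMap.add_apply, Module.End.one_apply]
    rw [h1, hg]
  have hne : N ^ (m + 2) ≠ 0 := by
    intro h
    obtain ⟨e, he⟩ : ∃ e, ψ e ≠ 0 := by
      by_contra h
      push Not at h
      exact hψ (LinearMap.ext h)
    have := h1 e
    rw [h] at this
    have h2 : ψ e • u = 0 := by rw [← this]; simp
    exact (smul_ne_zero he hu) h2
  have hnil : IsNilpotent N := ⟨m + 3, h0⟩
  obtain ⟨U, hU⟩ := hnil.isUnit_one_add
  let M : Module.End K V := ↑U⁻¹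
  have hMr : (1 + N) * M = 1 := by rw [← hU]; exact U.mul_inv
  have hMl : M * (1 + N) = 1 := by rw [← hU]; exact U.inv_mul
  have hcM : Commute N M := by
    show N * M = M * N
    have h2 : N * M + M = 1 := by rw [← hMr]; noncomm_ring
    have h3 : M * N + M = 1 := by rw [← hMl]; noncomm_ring
    exact add_right_cancel (h2.trans h3.symm)
  have hX : g * (1 + N) - 1 = N * (1 + N ^ (m + 1)) := by
    rw [hg']
    have h2 : N ^ (m + 2) * N = 0 := by rw [← pow_succ, h0]
    have h3 : N * N ^ (m + 1) = N ^ (m + 2) := by rw [← pow_succ']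
    have e1 : ∀ A : Module.End K V, (1 + A) * (1 + N) - 1 = N + A + A * N := fun A => by
      noncomm_ring
    have e2 : ∀ B : Module.End K V, N * (1 + B) = N + N * B := fun B => by rw [mul_add, mul_one]
    rw [e1, e2, h2, h3, add_zero]
  have hY : M - 1 = N * (-M) := by
    have h3 : M * N + M = 1 := by rw [← hMl]; noncomm_ring
    rw [mul_neg, hcM.eq, ← h3]
    abel
  have hpt : N ^ (m + 2) * N ^ (m + 1) = 0 := by
    rw [← pow_add, show m + 2 + (m + 1) = (m + 3) + m by ring, pow_add, h0, zero_mul]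
  have hXw := nil_mul N (1 + N ^ (m + 1)) (by
      show N * (1 + N ^ (m + 1)) = (1 + N ^ (m + 1)) * N
      rw [mul_add, add_mul, mul_one, one_mul, ← pow_succ', ← pow_succ]) (m + 2) h0 hne 1
      one_ne_zero (by rw [mul_add, mul_one, hpt, add_zero, one_smul])
  have htop : N ^ (m + 2) * M = N ^ (m + 2) := by
    have h2 : N ^ (m + 2) * N = 0 := by rw [← pow_succ, h0]
    calc N ^ (m + 2) * M = (N ^ (m + 2) * (1 + N)) * M := by
            rw [mul_add, mul_one, h2, add_zero]
      _ = N ^ (m + 2) * ((1 + N) * M) := by rw [mul_assoc]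
      _ = N ^ (m + 2) := by rw [hMr, mul_one]
  have hYw := nil_mul N (-M) (hcM.neg_right) (m + 2) h0 hne (-1)
      (neg_ne_zero.2 one_ne_zero) (by rw [mul_neg, htop]; simp)
  refine ⟨g * (1 + N), M, ?_, ?_, ?_, ?_, ?_⟩
  · rw [mul_assoc, hMr, mul_one]
  · rw [hX]; exact hXw.1
  · rw [hY]; exact hYw.1
  · rw [hX]; exact hXw.2
  · rw [hY]; exact hYw.2

/-- Rank one maps of determinant one are transvections with the required data. -/
theorem rank_one_form [FiniteDimensional K V] (g : Module.End K V)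
    (hdet : LinearMap.det g = 1) (hrk : finrank K (LinearMap.range (g - 1)) = 1) :
    ∃ (u : V) (ψ : V →ₗ[K] K), u ≠ 0 ∧ ψ ≠ 0 ∧ ψ u = 0 ∧ ∀ v, g v = v + ψ v • u := by
  obtain ⟨⟨u, huR⟩, hu0, hspan⟩ := finrank_eq_one_iff'.1 hrk
  have hu : u ≠ 0 := fun h => hu0 (Subtype.ext h)
  obtain ⟨f, hf⟩ := exists_unit_functional (K := K) u hu
  let ψ : V →ₗ[K] K := f ∘ₗ (g - 1)
  have hform : ∀ v, g v = v + ψ v • u := by
    intro v
    obtain ⟨a, ha⟩ := hspan ⟨(g - 1) v, ⟨v, rfl⟩⟩
    have ha' : a • u = (g - 1) v := congrArg Subtype.val ha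
    have h3 : ψ v = a := by
      show f ((g - 1) v) = a
      rw [← ha', map_smul, hf]; simp
    rw [h3, ha']
    simp
  have hψ : ψ ≠ 0 := by
    rintro h
    obtain ⟨v, hv⟩ := huR
    have h3 := hform v
    rw [h] at h3
    simp only [LinearMap.zero_apply, zero_smul, add_zero] at h3
    apply hu
    rw [← hv]
    simp [h3]
  refine ⟨u, ψ, hu, hψ, ?_, hform⟩
  have h4 : g = LinearMap.transvection (ψ : Module.Dual K V) u := by
    ext v
    exact hform v
  have h5 := congrArg LinearMap.det h4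
  rw [hdet, LinearMap.transvection.det] at h5
  have h6 : ψ u = 0 := by
    have : (1 : K) + ψ u = 1 := h5.symm
    simpa using this
  exact h6

end chain

section conj
variable {n : ℕ}

/-- Linear independence of the chain. -/
theorem chain_indep {V : Type u} [AddCommGroup V] [Module K V] (N : Module.End K V) (v : V)
    (h0 : N ^ (n + 1) = 0) (h1 : (N ^ n) v ≠ 0) :
    LinearIndependent K (fun i : Fin (n + 1) => (N ^ (n - (i : ℕ))) v) := by
  classical
  rw [Fintype.linearIndependent_iff]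
  intro c hc
  by_contra hcon
  push Not at hcon
  obtain ⟨i₁, hi₁⟩ := hcon
  -- take the largest index with nonzero coefficient
  let s := Finset.univ.filter (fun i : Fin (n + 1) => c i ≠ 0)
  have hs : s.Nonempty := ⟨i₁, by simp [s, hi₁]⟩
  let i₀ := s.max' hs
  have hi₀ : c i₀ ≠ 0 := by
    have := s.max'_mem hs
    simpa [s] using this
  have hmax : ∀ i, i₀ < i → c i = 0 := by
    intro i hi
    by_contra h
    have : i ∈ s := by simp [s, h]
    have := s.le_max' i this
    exact absurd hi (not_lt.2 this)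
  have hap := congrArg (N ^ (i₀ : ℕ)) hc
  rw [map_sum, map_zero] at hap
  rw [Finset.sum_eq_single i₀] at hap
  · rw [map_smul, ← Module.End.mul_apply, ← pow_add] at hap
    have h2 : (i₀ : ℕ) + (n - (i₀ : ℕ)) = n := by
      have := i₀.2
      omega
    rw [h2] at hap
    exact (smul_ne_zero hi₀ h1) hap
  · intro i _ hne
    rw [map_smul, ← Module.End.mul_apply, ← pow_add]
    rcases lt_or_gt_of_ne hne with h | h
    · have h3 : (i₀ : ℕ) + (n - (i : ℕ)) = (n + 1) + ((i₀ : ℕ) - (i : ℕ) - 1) := by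
        have := i₀.2
        have hh : (i : ℕ) < (i₀ : ℕ) := h
        omega
      rw [h3, pow_add, h0]
      simp
    · rw [hmax i h]; simp
  · simp

/-- A regular unipotent endomorphism of `Kⁿ⁺¹` is conjugate to the Jordan block. -/
theorem conj_J (J : GL (Fin (n + 1)) K)
    (hJ : ∀ i j : Fin (n + 1), (J : Matrix (Fin (n + 1)) (Fin (n + 1)) K) i j =
      if i = j then 1 else if j.val = i.val + 1 then 1 else 0)
    (X : Module.End K (Fin (n + 1) → K)) (h0 : (X - 1) ^ (n + 1) = 0) (h1 : (X - 1) ^ n ≠ 0) :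
    ∃ p : GL (Fin (n + 1)) K,
      LinearMap.toMatrix' X = ((p * J * p⁻¹ : GL (Fin (n + 1)) K) : Matrix _ _ K) := by
  classical
  set N := X - 1 with hN
  obtain ⟨v, hv⟩ : ∃ v, (N ^ n) v ≠ 0 := by
    by_contra h
    push Not at h
    exact h1 (LinearMap.ext h)
  have hind := chain_indep N v h0 hv
  let b : Module.Basis (Fin (n + 1)) K (Fin (n + 1) → K) :=
    basisOfLinearIndependentOfCardEqFinrank hind (by simp)
  have hb : ∀ i, b i = (N ^ (n - (i : ℕ))) v := fun i => by
    simp [b, coe_basisOfLinearIndependentOfCardEqFinrank]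
  let std := Pi.basisFun K (Fin (n + 1))
  have hX : ∀ j, X (b j) = b j + N (b j) := by
    intro j; simp [hN]
  have hNb0 : ∀ j : Fin (n + 1), (j : ℕ) = 0 → N (b j) = 0 := by
    intro j hj
    rw [hb, hj, ← Module.End.mul_apply, ← pow_succ']
    simp [h0]
  have hNbs : ∀ i j : Fin (n + 1), (j : ℕ) = (i : ℕ) + 1 → N (b j) = b i := by
    intro i j hj
    rw [hb, hb, ← Module.End.mul_apply, ← pow_succ']
    congr 2
    have := j.2
    omega
  have hmat : LinearMap.toMatrix b b X = (J : Matrix _ _ K) := by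
    ext i j
    rw [LinearMap.toMatrix_apply, hJ, hX, map_add, Finsupp.add_apply, b.repr_self,
      Finsupp.single_apply]
    by_cases hj0 : (j : ℕ) = 0
    · rw [hNb0 j hj0, map_zero, Finsupp.zero_apply, add_zero]
      by_cases hij : i = j
      · simp [hij]
      · have h3 : ¬ (j : ℕ) = (i : ℕ) + 1 := by omega
        simp [hij, Ne.symm hij, h3]
    · obtain ⟨i', hi'⟩ : ∃ i' : Fin (n + 1), (j : ℕ) = (i' : ℕ) + 1 :=
        ⟨⟨(j : ℕ) - 1, by have := j.2; omega⟩, by simp; omega⟩
      rw [hNbs i' j hi', b.repr_self, Finsupp.single_apply]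
      by_cases hij : i = j
      · have h3 : i' ≠ i := by
          intro h
          rw [h, hij] at hi'
          omega
        simp [hij]
        intro h
        rw [hij] at h3
        exact absurd h h3
      · by_cases h3 : i' = i
        · have h4 : (j : ℕ) = (i : ℕ) + 1 := by rw [hi', h3]
          simp [h3, Ne.symm hij, hij, h4]
        · have h4 : ¬ (j : ℕ) = (i : ℕ) + 1 := by
            intro h
            apply h3
            apply Fin.ext
            omega
          simp [h3, Ne.symm hij, hij, h4]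
  let P : Matrix (Fin (n + 1)) (Fin (n + 1)) K := std.toMatrix b
  let Q : Matrix (Fin (n + 1)) (Fin (n + 1)) K := b.toMatrix std
  have hPQ : P * Q = 1 := std.toMatrix_mul_toMatrix_flip b
  have hQP : Q * P = 1 := b.toMatrix_mul_toMatrix_flip std
  refine ⟨⟨P, Q, hPQ, hQP⟩, ?_⟩
  have h5 := basis_toMatrix_mul_linearMap_toMatrix_mul_basis_toMatrix std b std b X
  rw [hmat] at h5
  rw [LinearMap.toMatrix_eq_toMatrix'] at h5
  rw [← h5]
  rfl

end conj

end Cfsg.Agent.Lib.LocalEven.Sour4
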