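import Cfsg.Agent.Lib.LocalEven.Sour4

/-! Sourour-type factorisation: the final statement for matrices. -/

universe u v

noncomputable section

open Module

namespace Cfsg.Agent.Lib.LocalEven.Sour5

open Cfsg.Agent.Lib.LocalEven.Sour0 Cfsg.Agent.Lib.LocalEven.Sour1
  Cfsg.Agent.Lib.LocalEven.Sour2 Cfsg.Agent.Lib.LocalEven.Sour3
  Cfsg.Agent.Lib.LocalEven.Sour4

variable {K : Type v} [Field K]

theorem emb4 (hK : 4 ≤ Cardinal.mk K) : Nonempty (Fin 4 ↪ K) := by
  rw [← Cardinal.lift_mk_le']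
  simpa using hK

theorem emb5 (hK : 4 ≤ Cardinal.mk K) (h2 : (2 : K) ≠ 0) : Nonempty (Fin 5 ↪ K) := by
  classical
  by_cases hfin : Finite K
  · have := Fintype.ofFinite K
    obtain ⟨e⟩ := emb4 hK
    have h4 : 4 ≤ Fintype.card K := by
      have := Fintype.card_le_of_embedding e
      simpa using this
    by_cases h5 : Fintype.card K = 4
    · exfalso
      have h6 : ringChar K = 2 := FiniteField.even_card_iff_char_two.2 (by omega)
      apply h2
      have := ringChar.Nat.cast_ringChar (R := K)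
      rw [h6] at this
      exact_mod_cast this
    · exact Function.Embedding.nonempty_of_card_le (by simp; omega)
  · have : Infinite K := not_finite_iff_infinite.1 hfin
    exact ⟨(Fin.valEmbedding).trans (Infinite.natEmbedding K)⟩

theorem final (hK : 4 ≤ Cardinal.mk K) (n : ℕ) (hn : 3 ≤ n) (J g : GL (Fin n) K)
    (hJ : ∀ i j : Fin n, (J : Matrix (Fin n) (Fin n) K) i j =
      if i = j then 1 else if j.val = i.val + 1 then 1 else 0)
    (hg : ¬ ∃ c : K, (g : Matrix (Fin n) (Fin n) K) = c • (1 : Matrix (Fin n) (Fin n) K))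
    (hdet : (g : Matrix (Fin n) (Fin n) K).det = 1) :
    ∃ x y : GL (Fin n) K, g = (x * J * x⁻¹) * (y * J * y⁻¹) := by
  classical
  obtain ⟨m, rfl⟩ : ∃ m, n = m + 3 := ⟨n - 3, by omega⟩
  let G : Module.End K (Fin (m + 3) → K) := Matrix.toLin' (g : Matrix (Fin (m + 3)) (Fin (m + 3)) K)
  have hV : finrank K (Fin (m + 3) → K) = m + 3 := Module.finrank_fin_fun K
  have hdetG : LinearMap.det G = 1 := by
    simp only [G, LinearMap.det_toLin', hdet]
  have hns : ∀ μ : K, G ≠ μ • 1 := by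
    intro μ h
    apply hg
    refine ⟨μ, Matrix.toLin'.injective ?_⟩
    rw [show Matrix.toLin' (g : Matrix (Fin (m + 3)) (Fin (m + 3)) K) = G from rfl, h,
      map_smul, Matrix.toLin'_one]
    rfl
  obtain ⟨X, Y, hXY, hX0, hY0, hX1, hY1⟩ : ∃ X Y : Module.End K (Fin (m + 3) → K), G = X * Y ∧
      (X - 1) ^ (m + 3) = 0 ∧ (Y - 1) ^ (m + 3) = 0 ∧
      (X - 1) ^ (m + 2) ≠ 0 ∧ (Y - 1) ^ (m + 2) ≠ 0 := by
    by_cases h2 : 2 ≤ finrank K (LinearMap.range (G - 1))
    · have hgood : Good G := ⟨hdetG, Or.inr ⟨h2, hns⟩⟩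
      let c : Fin (m + 3) → K := Pi.single 0 1
      have hc : c ≠ 0 := by simp [c]
      let r : (Fin (m + 3) → K) →ₗ[K] K := LinearMap.proj 0
      have hr : r ≠ 0 := by
        intro h
        have := LinearMap.congr_fun h c
        simp [r, c] at this
      obtain ⟨X, Y, h1, h2, h3, h4, v, h5⟩ :=
        main_fac (emb4 hK) (emb5 hK) (m + 2) (Fin (m + 3) → K) hV G hgood c hc r hr
      rw [hV] at h2 h3 h4 h5
      refine ⟨X, Y, h1, h2, h3, ?_, ?_⟩
      · intro h
        apply h4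
        show ((X - 1) ^ (m + 2)) c = 0
        rw [h]; rfl
      · intro h
        apply h5
        show r (((Y - 1) ^ (m + 2)) v) = 0
        rw [h]; simp
    · by_cases h1 : finrank K (LinearMap.range (G - 1)) = 1
      · obtain ⟨u, ψ, hu, hψ, hψu, hform⟩ := rank_one_form G hdetG h1
        exact trans_fac m hV G u ψ hu hψ hψu hform
      · exfalso
        have h0 : finrank K (LinearMap.range (G - 1)) = 0 := by omega
        have h3 := Submodule.finrank_eq_zero.1 h0
        rw [LinearMap.range_eq_bot] at h3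
        apply hns 1
        rw [one_smul]
        exact sub_eq_zero.1 h3
  obtain ⟨p, hp⟩ := conj_J (n := m + 2) J hJ X hX0 hX1
  obtain ⟨q, hq⟩ := conj_J (n := m + 2) J hJ Y hY0 hY1
  refine ⟨p, q, Units.ext ?_⟩
  have h1 : (g : Matrix (Fin (m + 3)) (Fin (m + 3)) K) = LinearMap.toMatrix' G := by
    simp [G]
  rw [h1, hXY, LinearMap.toMatrix'_mul, hp, hq]
  rfl

end Cfsg.Agent.Lib.LocalEven.Sour5
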